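/-
Minimal degrees of groups of Lie type, part 1: linear algebra (joint eigenspaces, fixed spaces, averaging,
Heisenberg lemmas).
-/
import Cfsg.Agent.KSG.LSProj

set_option autoImplicit false

namespace CL.MinD

open Module

variable {G V : Type*} [Group G] [AddCommGroup V] [Module ℂ V]

/-- vectors in distinct joint eigenspaces are independent (no commutativity needed) -/
theorem eq_zero_of_sum {Λ I : Type*} (X : I → End ℂ V) {μ : Λ → I → ℂ} (s : Finset Λ) (hμ : Set.InjOn μ s)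
    (v : Λ → V) (hv : ∀ l ∈ s, ∀ i, X i (v l) = μ l i • v l) (h : ∑ l ∈ s, v l = 0) : ∀ l ∈ s, v l = 0 := by
  classical
  induction s using Finset.induction_on generalizing v with
  | empty => simp
  | insert a s ha ih =>
    have hs : ∀ l ∈ s, v l = 0 := by
      intro l hl
      have hne : μ l ≠ μ a := fun e => ha (hμ (by simp [hl]) (by simp) e ▸ hl)
      obtain ⟨i, hi⟩ := Function.ne_iff.1 hne
      have h1 := congrArg (X i) h
      rw [map_sum, map_zero, Finset.sum_congr rfl fun l hl => hv l hl i] at h1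
      have h2 : ∑ l ∈ s, (μ l i - μ a i) • v l = 0 := by
        rw [Finset.sum_insert ha] at h h1
        simp only [sub_smul, Finset.sum_sub_distrib, ← Finset.smul_sum]
        rw [eq_neg_of_add_eq_zero_right h, eq_neg_of_add_eq_zero_right h1, smul_neg, sub_self]
      have := ih (hμ.mono (by simp)) _ (fun l hl j => by
        rw [map_smul, hv l (by simp [hl]), smul_comm]) h2 l hl
      exact (smul_eq_zero.1 this).resolve_left (sub_ne_zero.2 hi)
    intro l hl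
    rcases Finset.mem_insert.1 hl with rfl | hl
    · rwa [Finset.sum_insert ha, Finset.sum_eq_zero hs, add_zero] at h
    · exact hs l hl

theorem sum_finrank_le [FiniteDimensional ℂ V] {Λ I : Type*} [Fintype Λ] (X : I → End ℂ V) {μ : Λ → I → ℂ}
    (N : Λ → Submodule ℂ V) (hμ : ∀ l l', N l ≠ ⊥ → μ l = μ l' → l = l')
    (hN : ∀ l, ∀ v ∈ N l, ∀ i, X i v = μ l i • v)
    {P : Submodule ℂ V} (hP : ∀ l, N l ≤ P) : ∑ l, finrank ℂ (N l) ≤ finrank ℂ P := by
  classical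
  have hind : iSupIndep fun l => (N l).comap P.subtype := by
    rw [iSupIndep_iff_finsetSum_eq_zero_imp_eq_zero]
    intro s v hv h l hl
    by_contra hl0
    have h2 : ∑ l ∈ s.filter fun l => v l ≠ 0, (v l : V) = 0 := by
      have := congrArg Subtype.val h
      rw [Submodule.coe_sum] at this
      rw [Finset.sum_filter_of_ne (p := fun l => v l ≠ 0) (fun l _ h0 e => h0 (by rw [e]; rfl))]
      exact this
    have := eq_zero_of_sum X (μ := μ) _ (fun a ha b _ e => hμ a b (by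
      rw [Finset.coe_filter] at ha
      exact (Submodule.ne_bot_iff _).2 ⟨_, hv a ha.1, fun e => ha.2 (Subtype.ext e)⟩) e) (fun l => (v l : V))
      (fun l hl => hN l _ (hv l (Finset.mem_filter.1 hl).1)) h2 l (Finset.mem_filter.2 ⟨hl, hl0⟩)
    exact hl0 (Subtype.ext this)
  have := LinearMap.finrank_le_finrank_of_injective
    (f := DirectSum.coeLinearMap fun l => (N l).comap P.subtype) hind.dfinsupp_lsum_injective
  rw [Module.finrank_directSum] at this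
  refine le_trans (le_of_eq (Finset.sum_congr rfl fun l _ => ?_)) this
  exact (Submodule.comapSubtypeEquivOfLe (hP l)).finrank_eq.symm

variable (ρ : G →* End ℂ V)

theorem app_mul (g h : G) (v : V) : ρ (g * h) v = ρ g (ρ h v) := by rw [map_mul]; rfl

theorem inv_app (g : G) (v : V) : ρ g⁻¹ (ρ g v) = v := by rw [← app_mul, inv_mul_cancel, map_one]; rfl

theorem app_inv (g : G) (v : V) : ρ g (ρ g⁻¹ v) = v := by rw [← app_mul, mul_inv_cancel, map_one]; rfl

theorem app_one (v : V) : ρ 1 v = v := by rw [map_one]; rfl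

theorem app_ne_zero (g : G) {v : V} (hv : v ≠ 0) : ρ g v ≠ 0 := fun h => hv (by rw [← inv_app ρ g v, h, map_zero])

/-- `ρ x (ρ g v) = ρ g (ρ (g⁻¹ x g) v)` -/
theorem app_conj (x g : G) (v : V) : ρ x (ρ g v) = ρ g (ρ (g⁻¹ * x * g) v) := by
  rw [← app_mul, ← app_mul]; congr 2; group

/-- the fixed space -/
def Fx (K : Subgroup G) : Submodule ℂ V where
  carrier := {v | ∀ g ∈ K, ρ g v = v}
  add_mem' ha hb g hg := by rw [map_add, ha g hg, hb g hg]
  zero_mem' g _ := map_zero _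
  smul_mem' c v hv g hg := by rw [map_smul, hv g hg]

/-- the stabiliser of a vector -/
def Stab (v : V) : Subgroup G where
  carrier := {g | ρ g v = v}
  mul_mem' {a b} ha hb := show ρ (a * b) v = v by rw [app_mul, hb, ha]
  one_mem' := app_one ρ v
  inv_mem' {a} ha := show ρ a⁻¹ v = v by conv_lhs => rw [← ha, inv_app]

/-- the stabiliser of a line -/
def Pres (v : V) : Subgroup G where
  carrier := {g | ∃ c : ℂ, c ≠ 0 ∧ ρ g v = c • v}
  mul_mem' {a b} := by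
    rintro ⟨c, hc, ha⟩ ⟨d, hd, hb⟩
    exact ⟨d * c, mul_ne_zero hd hc, by rw [app_mul, hb, map_smul, ha, smul_smul]⟩
  one_mem' := ⟨1, one_ne_zero, by rw [app_one, one_smul]⟩
  inv_mem' {a} := by
    rintro ⟨c, hc, ha⟩
    refine ⟨c⁻¹, inv_ne_zero hc, ?_⟩
    conv_rhs => rw [← inv_app ρ a v, ha, map_smul, smul_smul, inv_mul_cancel₀ hc, one_smul]

variable {ρ}

theorem mem_Fx {K : Subgroup G} {v : V} : v ∈ Fx ρ K ↔ ∀ g ∈ K, ρ g v = v := Iff.rfl

theorem mem_Fx_iff {K : Subgroup G} {v : V} : v ∈ Fx ρ K ↔ K ≤ Stab ρ v := Iff.rfl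

theorem mem_Stab {v : V} {g : G} : g ∈ Stab ρ v ↔ ρ g v = v := Iff.rfl

theorem Fx_anti {K K' : Subgroup G} (h : K ≤ K') : Fx ρ K' ≤ Fx ρ K := fun _ hv g hg => hv g (h hg)

theorem app_mem_Fx {K K' : Subgroup G} {g : G} (h : ∀ x ∈ K', g⁻¹ * x * g ∈ K) {v : V} (hv : v ∈ Fx ρ K) :
    ρ g v ∈ Fx ρ K' := fun x hx => by rw [app_conj, hv _ (h x hx)]

theorem Stab_le_Pres (v : V) : Stab ρ v ≤ Pres ρ v := fun _ hg => ⟨1, one_ne_zero, by rw [hg, one_smul]⟩

theorem conj_mem_Stab {v : V} {g x : G} (hg : g ∈ Pres ρ v) (hx : x ∈ Stab ρ v) : g * x * g⁻¹ ∈ Stab ρ v := by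
  obtain ⟨c, hc, h⟩ := (Pres ρ v).inv_mem hg
  rw [mem_Stab, app_mul, app_mul, h, map_smul, hx, ← h, app_inv]

theorem app_conj_of_Pres {v : V} {g x : G} (hg : g ∈ Pres ρ v) (hx : x ∈ Pres ρ v) : ρ (g * x * g⁻¹) v = ρ x v := by
  obtain ⟨c, hc, h⟩ := (Pres ρ v).inv_mem hg
  obtain ⟨d, -, h'⟩ := hx
  rw [app_mul, app_mul, h, map_smul, h', smul_comm, map_smul, ← h, app_inv]

theorem mem_Pres_of_finrank [FiniteDimensional ℂ V] {W : Submodule ℂ V} (hW : finrank ℂ W ≤ 1) {v : V} (hv : v ∈ W)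
    (hv0 : v ≠ 0) {g : G} (hg : ρ g v ∈ W) : g ∈ Pres ρ v := by
  obtain ⟨w, hw⟩ := finrank_le_one_iff.1 hW
  obtain ⟨a, ha⟩ := hw ⟨v, hv⟩
  obtain ⟨b, hb⟩ := hw ⟨_, hg⟩
  have ha' : a • (w : V) = v := congrArg Subtype.val ha
  have hb' : b • (w : V) = ρ g v := congrArg Subtype.val hb
  have a0 : a ≠ 0 := by rintro rfl; exact hv0 (by rw [← ha', zero_smul])
  have b0 : b ≠ 0 := by rintro rfl; exact app_ne_zero ρ g hv0 (by rw [← hb', zero_smul])
  refine ⟨b * a⁻¹, mul_ne_zero b0 (inv_ne_zero a0), ?_⟩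
  rw [← hb', ← ha', smul_smul, mul_assoc, inv_mul_cancel₀ a0, mul_one]

theorem finrank_map [FiniteDimensional ℂ V] (g : G) (W : Submodule ℂ V) : finrank ℂ (W.map (ρ g)) = finrank ℂ W :=
  (Submodule.equivMapOfInjective _ (CL.LS.injective_rep ρ g) W).finrank_eq.symm

section Sum

variable [Finite G]

variable (ρ) in
/-- the sum over a subgroup -/
noncomputable def sm (K : Subgroup G) : End ℂ V := ∑ᶠ g : K, ρ g

omit [Finite G] in
theorem sm_eq (K : Subgroup G) [Fintype K] : sm ρ K = ∑ g : K, ρ g := finsum_eq_sum_of_fintype _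

theorem sm_eq_of_equiv {K : Subgroup G} {α : Type*} [Fintype α] (z : α → G) (hz : Function.Injective z)
    (h : ∀ g, g ∈ K ↔ ∃ t, g = z t) : sm ρ K = ∑ t, ρ (z t) := by
  have := Fintype.ofFinite K
  rw [sm_eq]
  refine (Fintype.sum_bijective (fun t => (⟨z t, (h _).2 ⟨t, rfl⟩⟩ : K)) ⟨fun a b e => hz (congrArg Subtype.val e),
    fun g => ?_⟩ _ _ fun _ => rfl).symm
  obtain ⟨t, ht⟩ := (h g).1 g.2
  exact ⟨t, Subtype.ext ht.symm⟩

theorem mul_sm {K K' : Subgroup G} {g : G} (h : ∀ x, x ∈ K ↔ g * x * g⁻¹ ∈ K') : ρ g * sm ρ K = sm ρ K' * ρ g := by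
  have := Fintype.ofFinite K
  have := Fintype.ofFinite K'
  rw [sm_eq, sm_eq, Finset.mul_sum, Finset.sum_mul]
  refine Fintype.sum_bijective (fun x : K => (⟨g * x * g⁻¹, (h _).1 x.2⟩ : K')) ⟨fun a b e => Subtype.ext ?_,
    fun y => ⟨⟨g⁻¹ * y * g, (h _).2 (by simp [mul_assoc])⟩, Subtype.ext (by simp [mul_assoc])⟩⟩ _ _ fun x => ?_
  · simpa using congrArg Subtype.val e
  · rw [← map_mul, ← map_mul]; simp

theorem mul_sm_of_mem {K : Subgroup G} {g : G} (h : g ∈ K) : ρ g * sm ρ K = sm ρ K := by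
  have := Fintype.ofFinite K
  rw [sm_eq, Finset.mul_sum]
  exact Fintype.sum_equiv (Equiv.mulLeft ⟨g, h⟩) _ _ fun x => by rw [← map_mul]; rfl

theorem sm_mul_of_mem {K : Subgroup G} {g : G} (h : g ∈ K) : sm ρ K * ρ g = sm ρ K := by
  have := Fintype.ofFinite K
  rw [sm_eq, Finset.sum_mul]
  exact Fintype.sum_equiv (Equiv.mulRight ⟨g, h⟩) _ _ fun x => by rw [← map_mul]; rfl

theorem sm_mem_Fx (K : Subgroup G) (v : V) : sm ρ K v ∈ Fx ρ K := fun g hg => by
  rw [← End.mul_apply, mul_sm_of_mem hg]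

theorem sm_of_mem_Fx {K : Subgroup G} {v : V} (hv : v ∈ Fx ρ K) : sm ρ K v = (Nat.card K : ℂ) • v := by
  have := Fintype.ofFinite K
  rw [sm_eq, LinearMap.sum_apply, Finset.sum_congr rfl fun (g : K) _ => hv g g.2, Finset.sum_const, Finset.card_univ,
    Nat.card_eq_fintype_card, Nat.cast_smul_eq_nsmul]

theorem sm_mem {K : Subgroup G} {N : Submodule ℂ V} {v : V} (h : ∀ g ∈ K, ρ g v ∈ N) : sm ρ K v ∈ N := by
  have := Fintype.ofFinite K
  rw [sm_eq, LinearMap.sum_apply]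
  exact N.sum_mem fun g _ => h g g.2

theorem commute_sm {K : Subgroup G} {E : End ℂ V} (h : ∀ g ∈ K, Commute E (ρ g)) : Commute E (sm ρ K) := by
  have := Fintype.ofFinite K
  rw [sm_eq]
  exact Commute.sum_right _ _ _ fun g _ => h g g.2

theorem sm_mul_of_forall {K : Subgroup G} {E : End ℂ V} (h : ∀ g ∈ K, ρ g * E = E) :
    sm ρ K * E = (Nat.card K : ℂ) • E := by
  ext v
  exact sm_of_mem_Fx (v := E v) fun g hg => by rw [← End.mul_apply, h g hg]

theorem card_ne_zero (K : Subgroup G) : (Nat.card K : ℂ) ≠ 0 := Nat.cast_ne_zero.2 Nat.card_pos.ne'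

variable [FiniteDimensional ℂ V]

theorem trace_sm (K : Subgroup G) : LinearMap.trace ℂ V (sm ρ K) = Nat.card K * finrank ℂ (Fx ρ K) := by
  have h0 := card_ne_zero K
  have he : ((Nat.card K : ℂ)⁻¹ • sm ρ K) * ((Nat.card K : ℂ)⁻¹ • sm ρ K) = (Nat.card K : ℂ)⁻¹ • sm ρ K := by
    rw [smul_mul_assoc, mul_smul_comm, sm_mul_of_forall fun g hg => mul_sm_of_mem hg, smul_smul _ (Nat.card K : ℂ),
      inv_mul_cancel₀ h0, one_smul]
  have h1 := CL.LS.trace_idem he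
  have h2 : LinearMap.range ((Nat.card K : ℂ)⁻¹ • sm ρ K) = Fx ρ K := by
    apply le_antisymm
    · rintro _ ⟨v, rfl⟩
      exact (Fx ρ K).smul_mem _ (sm_mem_Fx K v)
    · intro v hv
      exact ⟨v, by rw [LinearMap.smul_apply, sm_of_mem_Fx hv, smul_smul, inv_mul_cancel₀ h0, one_smul]⟩
  rw [h2, map_smul, smul_eq_mul] at h1
  rw [← h1, ← mul_assoc, mul_inv_cancel₀ h0, one_mul]

omit [Finite G] [FiniteDimensional ℂ V] in
theorem trace_conj (g x : G) : LinearMap.trace ℂ V (ρ (g * x * g⁻¹)) = LinearMap.trace ℂ V (ρ x) := by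
  rw [ρ.map_mul, ρ.map_mul, LinearMap.trace_mul_comm, ← mul_assoc, ← ρ.map_mul, inv_mul_cancel, map_one, one_mul]

/-- the fixed space of a long root subgroup is not too small -/
theorem finrank_le_mul_Fx {X Z : Subgroup G} {g : G} (hg : ∀ x, x ∈ X ↔ g * x * g⁻¹ ∈ Z)
    (hc : ∀ x ∈ X, ∀ z ∈ Z, x * z = z * x) (h : ∀ x ∈ X, x ≠ 1 → ∀ z ∈ Z, ∃ y, x * z = y * x * y⁻¹) :
    finrank ℂ V ≤ (Nat.card X + 1) * finrank ℂ (Fx ρ X) := by
  classical
  have := Fintype.ofFinite X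
  have := Fintype.ofFinite Z
  have hcard : Nat.card Z = Nat.card X := by
    refine (Nat.card_congr (Equiv.ofBijective (fun x : X => (⟨g * x * g⁻¹, (hg _).1 x.2⟩ : Z))
      ⟨fun a b e => Subtype.ext ?_, fun y => ⟨⟨g⁻¹ * y * g, (hg _).2 (by simp [mul_assoc])⟩,
        Subtype.ext (by simp [mul_assoc])⟩⟩)).symm
    simpa using congrArg Subtype.val e
  have htr : LinearMap.trace ℂ V (sm ρ Z) = LinearMap.trace ℂ V (sm ρ X) :=
    (CL.LS.trace_eq_of_semiconj ρ (mul_sm hg)).symm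
  have h0 := card_ne_zero X
  set q : ℂ := (Nat.card X : ℂ) with hq
  have hcm : Commute (sm ρ X) (sm ρ Z) :=
    commute_sm fun z hz => (commute_sm fun x hx => by
      change ρ z * ρ x = ρ x * ρ z
      rw [← map_mul, ← map_mul, hc x hx z hz]).symm
  have he : (q⁻¹ • q⁻¹ • (sm ρ X * sm ρ Z)) * (q⁻¹ • q⁻¹ • (sm ρ X * sm ρ Z)) = q⁻¹ • q⁻¹ • (sm ρ X * sm ρ Z) := by
    have e1 : sm ρ X * sm ρ Z * (sm ρ X * sm ρ Z) = q • q • (sm ρ X * sm ρ Z) := by
      rw [mul_assoc, ← mul_assoc (sm ρ Z), ← hcm.eq, mul_assoc, sm_mul_of_forall fun g hg => mul_sm_of_mem hg,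
        ← mul_assoc, sm_mul_of_forall fun g hg => mul_sm_of_mem hg, hcard, smul_mul_assoc, mul_smul_comm]
    simp only [smul_mul_assoc, mul_smul_comm, e1, smul_smul]
    congr 1
    field_simp
  have h1 := CL.LS.trace_idem he
  have h2 : LinearMap.trace ℂ V (sm ρ X * sm ρ Z) = LinearMap.trace ℂ V (sm ρ Z) +
      q * (LinearMap.trace ℂ V (sm ρ X) - finrank ℂ V) := by
    have e : ∀ x : X, LinearMap.trace ℂ V (ρ x * sm ρ Z) = q * LinearMap.trace ℂ V (ρ x) +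
        if x = 1 then LinearMap.trace ℂ V (sm ρ Z) - q * finrank ℂ V else 0 := by
      intro x
      split_ifs with hx
      · subst hx
        simp
      · rw [sm_eq, Finset.mul_sum, map_sum, add_zero, Finset.sum_congr rfl (g := fun _ => LinearMap.trace ℂ V (ρ x))
          fun z _ => ?_, Finset.sum_const, Finset.card_univ, ← Nat.card_eq_fintype_card, hcard, nsmul_eq_mul]
        obtain ⟨y, hy⟩ := h x x.2 (fun e => hx (Subtype.ext e)) z z.2
        rw [← map_mul, hy, trace_conj]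
    conv_lhs => rw [sm_eq X, Finset.sum_mul, map_sum, Finset.sum_congr rfl fun x _ => e x, Finset.sum_add_distrib,
      ← Finset.mul_sum, ← map_sum, ← sm_eq X, Finset.sum_ite_eq' Finset.univ (1 : X)]
    simp only [Finset.mem_univ, if_true]
    ring
  rw [map_smul, map_smul, h2, htr, trace_sm, ← hq] at h1
  have h3 : ((finrank ℂ V + Nat.card X * finrank ℂ (LinearMap.range (q⁻¹ • q⁻¹ • (sm ρ X * sm ρ Z))) : ℕ) : ℂ) =
      ((Nat.card X + 1) * finrank ℂ (Fx ρ X) : ℕ) := by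
    push_cast
    rw [← h1, ← hq]
    simp only [smul_eq_mul]
    field_simp
    ring
  have := Nat.cast_injective h3
  omega

end Sum

section Eig

variable {F : Type*} [Field F] (ψ : AddChar F ℂ)

variable (ρ) in
/-- eigenspace of a one-parameter group -/
def Eig (z : F → G) (l : F) : Submodule ℂ V where
  carrier := {v | ∀ t, ρ (z t) v = ψ (l * t) • v}
  add_mem' ha hb t := by rw [map_add, ha t, hb t, smul_add]
  zero_mem' t := by simp
  smul_mem' c v hv t := by rw [map_smul, hv t, smul_comm]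

variable {ψ}

theorem mem_Eig {z : F → G} {l : F} {v : V} : v ∈ Eig ρ ψ z l ↔ ∀ t, ρ (z t) v = ψ (l * t) • v := Iff.rfl

theorem app_mem_Eig {z z' : F → G} {l l' : F} {g : G} {c : F} (h : ∀ t, g⁻¹ * z' t * g = z (c * t)) (hl : l' = l * c)
    {v : V} (hv : v ∈ Eig ρ ψ z l) : ρ g v ∈ Eig ρ ψ z' l' := fun t => by
  rw [app_conj, h, hv, map_smul, hl, mul_assoc]

theorem app_mem_Eig' {z : F → G} {l : F} {g : G} (h : ∀ t, z t * g = g * z t)
    {v : V} (hv : v ∈ Eig ρ ψ z l) : ρ g v ∈ Eig ρ ψ z l :=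
  app_mem_Eig (c := 1) (fun t => by rw [mul_assoc, h, one_mul]; simp) (mul_one _).symm hv

/-- the Heisenberg bound -/
theorem heis_le [Finite G] [FiniteDimensional ℂ V] {z : F → G} {l : F}
    {Y Y' : Subgroup G} (hzY : ∀ t, ∀ y ∈ Y, z t * y = y * z t)
    (hc : ∀ y ∈ Y, ∀ y' ∈ Y', ∃ t, y⁻¹ * y' * y = y' * z t)
    (hn : ∀ y ∈ Y, y ≠ 1 → ∃ y' ∈ Y', ∃ t, y⁻¹ * y' * y = y' * z t ∧ ψ (l * t) ≠ 1)
    {N W : Submodule ℂ V} (hN : ∀ y ∈ Y, ∀ v ∈ W, ρ y v ∈ N) (hW : W ≤ Fx ρ Y' ⊓ Eig ρ ψ z l) :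
    Nat.card Y * finrank ℂ W ≤ finrank ℂ N := by
  classical
  have := Fintype.ofFinite Y
  choose b hb using hc
  have key : ∀ (y : Y) (y' : Y'), ∀ v ∈ W, ρ y' (ρ y v) = ψ (l * b y y.2 y' y'.2) • ρ y v := fun y y' v hv => by
    rw [app_conj, hb y y.2 y' y'.2, app_mul, (hW hv).2, map_smul, (hW hv).1 _ y'.2, map_smul]
  have := sum_finrank_le (fun y' : Y' => ρ y') (μ := fun (y : Y) (y' : Y') => ψ (l * b y y.2 y' y'.2))
    (fun y : Y => W.map (ρ y)) (P := N) ?_ (by rintro y _ ⟨v, hv, rfl⟩ y'; exact key y y' v hv)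
    (by rintro y _ ⟨v, hv, rfl⟩; exact hN y y.2 v hv)
  · simpa [finrank_map, Nat.card_eq_fintype_card] using this
  · intro y1 y2 h0 e
    by_contra hne
    obtain ⟨_, ⟨v, hv, rfl⟩, hv0⟩ := (Submodule.ne_bot_iff _).1 h0
    obtain ⟨y', hy', t, ht, ht'⟩ := hn (y2 * (y1 : G)⁻¹) (mul_mem y2.2 (inv_mem y1.2))
      fun h => hne (Subtype.ext (mul_inv_eq_one.1 h).symm)
    have e1 : ρ y' (ρ y2 v) = ψ (l * t) • ρ y2 (ρ ((y1 : G)⁻¹ * y' * y1) v) := by
      have : y' * y2 = y2 * ((y1 : G)⁻¹ * y' * y1) * z t := by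
        rw [mul_assoc, mul_assoc, ← hzY t y1 y1.2, mul_assoc, ← mul_assoc y', ← ht]; group
      rw [← app_mul, this, app_mul, (hW hv).2, map_smul, app_mul]
    have e2 := key y2 ⟨y', hy'⟩ v hv
    have e3 : ρ ((y1 : G)⁻¹ * y' * y1) v = ψ (l * b y1 y1.2 y' hy') • v := by
      rw [hb y1 y1.2 y' hy', app_mul, (hW hv).2, map_smul, (hW hv).1 _ hy']
    have e4 : ψ (l * b y1 y1.2 y' hy') = ψ (l * b y2 y2.2 y' hy') := congrFun e ⟨y', hy'⟩
    rw [e1, e3, map_smul, smul_smul, e4, ← sub_eq_zero, ← sub_smul, smul_eq_zero] at e2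
    have hv1 : v ≠ 0 := fun h => hv0 (by rw [h, map_zero])
    rcases e2 with e2 | e2
    · have h5 : ψ (l * b y2 y2.2 y' hy') ≠ 0 := (AddChar.val_isUnit _ _).ne_zero
      exact ht' (mul_right_cancel₀ h5 (by rw [one_mul]; exact sub_eq_zero.1 e2))
    · exact app_ne_zero ρ _ hv1 e2

/-- a Lagrangian has a fixed vector -/
theorem heis_exists [Finite G] {z : F → G} {l : F} {Y Y' : Subgroup G} (hzY : ∀ t, ∀ y ∈ Y, z t * y = y * z t)
    (hzY' : ∀ t, ∀ y ∈ Y', z t * y = y * z t)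
    (hn : ∀ y ∈ Y, y ≠ 1 → ∃ y' ∈ Y', ∃ t, y'⁻¹ * y * y' = y * z t ∧ ψ (l * t) ≠ 1)
    {v : V} (hv : v ∈ Eig ρ ψ z l) (hv0 : v ≠ 0) : ∃ w ∈ Fx ρ Y ⊓ Eig ρ ψ z l, w ≠ 0 := by
  classical
  have := Fintype.ofFinite Y
  have := Fintype.ofFinite Y'
  by_contra! hcon
  have h1 : ∀ y' : Y', sm ρ Y (ρ y' v) = 0 := fun y' =>
    hcon _ ⟨sm_mem_Fx _ _, sm_mem fun y hy => app_mem_Eig' (fun t => hzY t y hy) (app_mem_Eig' (fun t => hzY' t _ y'.2) hv)⟩
  have h2 : ∑ y : Y, ∑ y' : Y', ρ ((y' : G)⁻¹ * y * y') v = 0 := by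
    rw [Finset.sum_comm]
    refine Finset.sum_eq_zero fun y' _ => ?_
    have := congrArg (ρ (y' : G)⁻¹) (h1 y')
    rw [sm_eq, LinearMap.sum_apply, map_sum, map_zero] at this
    simpa only [app_mul] using this
  rw [Finset.sum_eq_single 1 ?_ (by simp)] at h2
  · simp only [OneMemClass.coe_one, mul_one, inv_mul_cancel, app_one, Finset.sum_const, Finset.card_univ] at h2
    rw [← Nat.cast_smul_eq_nsmul ℂ, smul_eq_zero] at h2
    exact h2.elim (Nat.cast_ne_zero.2 Fintype.card_ne_zero) hv0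
  · intro y _ hy
    obtain ⟨y0, hy0, t0, ht0, ht1⟩ := hn y y.2 fun e => hy (Subtype.ext e)
    have e1 : ∑ y' : Y', ρ ((y' : G)⁻¹ * y * y') v = ψ (l * t0) • ∑ y' : Y', ρ ((y' : G)⁻¹ * y * y') v := by
      rw [Finset.smul_sum]
      refine Fintype.sum_equiv (Equiv.mulLeft (⟨y0, hy0⟩ : Y')⁻¹) _ _ fun y' => ?_
      have : (y' : G)⁻¹ * y * y' = (y0⁻¹ * y')⁻¹ * y * (y0⁻¹ * y') * z t0 := by
        have h3 : y0 * (y * z t0) * y0⁻¹ = y := by rw [← ht0]; group
        rw [mul_assoc _ (y0⁻¹ * y'), ← hzY' t0 _ (mul_mem (inv_mem hy0) y'.2)]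
        conv_lhs => rw [← h3]
        group
      rw [this, app_mul _ _ (z t0), hv, map_smul]
      rfl
    rw [← sub_eq_zero, ← one_smul ℂ (∑ y' : Y', ρ ((y' : G)⁻¹ * y * y') v), smul_smul, ← sub_smul, smul_eq_zero] at e1
    exact e1.resolve_left fun h => ht1 (by rw [mul_one] at h; exact (sub_eq_zero.1 h).symm)

variable [Fintype F]

variable (ρ ψ) in
/-- Fourier component -/
noncomputable def pj (z : F → G) (l : F) : End ℂ V := ∑ t, ψ (-(l * t)) • ρ (z t)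

theorem pj_mem {z : F → G} {l : F} {N : Submodule ℂ V} {v : V} (h : ∀ t, ρ (z t) v ∈ N) : pj ρ ψ z l v ∈ N := by
  rw [pj, LinearMap.sum_apply]
  exact N.sum_mem fun t _ => N.smul_mem _ (h t)

theorem pj_mem_Eig {z : F → G} (hz : ∀ t u, z (t + u) = z t * z u) (l : F) (v : V) : pj ρ ψ z l v ∈ Eig ρ ψ z l := by
  intro u
  rw [pj, LinearMap.sum_apply, map_sum, Finset.smul_sum]
  refine Fintype.sum_equiv (Equiv.addLeft u) _ _ fun t => ?_
  simp only [LinearMap.smul_apply, map_smul, Equiv.coe_addLeft, smul_smul, ← AddChar.map_add_eq_mul, hz, app_mul]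
  congr 2
  ring

theorem sum_psi (hψ : ψ ≠ 1) [DecidableEq F] (l : F) : ∑ t, ψ (l * t) = if l = 0 then (Fintype.card F : ℂ) else 0 := by
  have := AddChar.sum_mulShift (ψ := ψ) l (AddChar.IsPrimitive.of_ne_one hψ)
  simp only [mul_comm l]
  rw [this]
  split_ifs <;> simp

theorem sum_pj (hψ : ψ ≠ 1) {z : F → G} (hz : z 0 = 1) (v : V) : ∑ l, pj ρ ψ z l v = (Fintype.card F : ℂ) • v := by
  classical
  simp only [pj, LinearMap.sum_apply, LinearMap.smul_apply]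
  rw [Finset.sum_comm]
  simp only [← Finset.sum_smul]
  rw [Finset.sum_eq_single 0 (fun t _ ht => ?_) (by simp)]
  · simp [hz]
  · have := sum_psi hψ (-t)
    rw [if_neg (neg_ne_zero.2 ht)] at this
    rw [Finset.sum_congr rfl (g := fun l => ψ (-t * l)) fun l _ => by congr 1; ring, this, zero_smul]

theorem pj_of_Eig (hψ : ψ ≠ 1) [DecidableEq F] {z : F → G} {l l' : F} {v : V} (hv : v ∈ Eig ρ ψ z l') :
    pj ρ ψ z l v = if l' = l then (Fintype.card F : ℂ) • v else 0 := by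
  simp only [pj, LinearMap.sum_apply, LinearMap.smul_apply, hv _, smul_smul, ← AddChar.map_add_eq_mul,
    ← Finset.sum_smul]
  rw [Finset.sum_congr rfl (g := fun t => ψ ((l' - l) * t)) fun t _ => by congr 1; ring, sum_psi hψ]
  simp only [sub_eq_zero]
  split_ifs <;> simp

theorem pj_zero (z : F → G) : pj ρ ψ z 0 = ∑ t, ρ (z t) := by simp [pj]

theorem mul_pj {z z' : F → G} {l l' : F} {g : G} {c : F} (hc : c ≠ 0) (h : ∀ t, g * z t * g⁻¹ = z' (c * t))
    (hl : l = l' * c) : ρ g * pj ρ ψ z l = pj ρ ψ z' l' * ρ g := by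
  rw [pj, pj, Finset.mul_sum, Finset.sum_mul]
  refine Fintype.sum_equiv (Equiv.mulLeft₀ c hc) _ _ fun t => ?_
  simp only [Equiv.mulLeft₀_apply, mul_smul_comm, smul_mul_assoc, ← h, ← map_mul, hl, mul_assoc, inv_mul_cancel,
    mul_one]

/-- a vector whose nontrivial Fourier components vanish is fixed -/
theorem fixed_of_pj (hψ : ψ ≠ 1) {z : F → G} (hz : ∀ t u, z (t + u) = z t * z u) {v : V}
    (h : ∀ l, l ≠ 0 → pj ρ ψ z l v = 0) (t : F) : ρ (z t) v = v := by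
  have h0 : z 0 = 1 := by simpa using hz 0 0
  have h1 := sum_pj (ρ := ρ) hψ h0 v
  rw [Finset.sum_eq_single 0 (fun l _ hl => h l hl) (by simp)] at h1
  have h2 := pj_mem_Eig (ρ := ρ) (ψ := ψ) hz 0 v t
  rw [h1, map_smul, zero_mul, AddChar.map_zero_eq_one, one_smul] at h2
  exact smul_right_injective V (Nat.cast_ne_zero.2 Fintype.card_ne_zero) h2

theorem exists_Eig_of_Pres (hψ : ψ ≠ 1) {z : F → G} (hz : ∀ t u, z (t + u) = z t * z u) {v : V} (hv : v ≠ 0)
    (h : ∀ t, z t ∈ Pres ρ v) : ∃ l, v ∈ Eig ρ ψ z l := by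
  choose c _ hc using h
  have h0 : z 0 = 1 := by simpa using hz 0 0
  obtain ⟨l, hl⟩ := CL.LS.exists_mul hψ c (smul_left_injective ℂ hv (by simp only [← hc, h0, app_one, one_smul]))
    fun x y => smul_left_injective ℂ hv (by simp only [← hc, hz, app_mul]; rw [hc y, map_smul, hc x, smul_smul, mul_comm])
  exact ⟨l, fun t => by rw [hc, hl, mul_comm]⟩

theorem psi_inj (hψ : ψ ≠ 1) {l l' : F} (h : ∀ t, ψ (l * t) = ψ (l' * t)) : l = l' :=
  CL.LS.eq_of_addChar hψ fun c => by rw [mul_comm, h, mul_comm]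

theorem exists_psi_ne_one (hψ : ψ ≠ 1) {l : F} (hl : l ≠ 0) : ∃ t, ψ (l * t) ≠ 1 := by
  by_contra! h
  exact hl (psi_inj hψ fun t => by rw [h, zero_mul, AddChar.map_zero_eq_one])

end Eig

end CL.MinD
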