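import Mathlib
import Cfsg.Agent.KSG.GLnSimil

/-! Similarity classes of endomorphisms, parabolic induction and restriction of functions on them. -/

set_option autoImplicit false
set_option linter.unusedSectionVars false

namespace CL.Zel

open Module CL.GLn LinearMap
open scoped ComplexConjugate

universe u

theorem orbit_sum {G X : Type*} [Group G] [Finite G] [Fintype X] (a : G → X → X)
    (h1 : ∀ x, a 1 x = x) (h2 : ∀ g k x, a (g * k) x = a g (a k x)) (x₀ : X) (T : X → ℂ)
    (h3 : ∀ g, T (a g x₀) = T x₀) (h4 : ∀ x, T x ≠ 0 → ∃ g, a g x₀ = x) :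
    (Nat.card {g // a g x₀ = x₀} : ℂ) * ∑ x, T x = Nat.card G * T x₀ := by
  classical
  let _ : MulAction G X := { smul := a, one_smul := h1, mul_smul := h2 }
  have := Fintype.ofFinite G
  have h5 : Nat.card (MulAction.orbit G x₀) * Nat.card {g // a g x₀ = x₀} = Nat.card G := by
    have := MulAction.card_orbit_mul_card_stabilizer_eq_card_group G x₀
    simp only [← Nat.card_eq_fintype_card] at this
    exact this
  rw [← Finset.sum_subset (MulAction.orbit G x₀).toFinset.subset_univ fun x _ hx => by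
    by_contra h; exact hx (Set.mem_toFinset.2 (h4 x h)), Finset.sum_congr rfl (g := fun _ => T x₀)
    fun x hx => by obtain ⟨g, rfl⟩ := Set.mem_toFinset.1 hx; exact h3 g, ← h5, Finset.sum_const,
    Set.toFinset_card, ← Nat.card_eq_fintype_card]
  push_cast; ring

/-- Similarity classes of endomorphisms of finite-dimensional spaces. -/
def Cls (F : Type u) [Field F] : Type u :=
  Quotient (⟨fun a b => Simil a.2 b.2, fun _ => .refl _, .symm, .trans⟩ :
    Setoid (Σ n : ℕ, End F (Fin n → F)))

variable {F : Type u} [Field F] [Fintype F] {V W Y V' W' Y' : Type*}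
  [AddCommGroup V] [Module F V] [Finite V] [AddCommGroup W] [Module F W] [Finite W]
  [AddCommGroup Y] [Module F Y] [Finite Y] [AddCommGroup V'] [Module F V'] [Finite V']
  [AddCommGroup W'] [Module F W'] [Finite W'] [AddCommGroup Y'] [Module F Y'] [Finite Y']

noncomputable scoped instance fintypeHom : Fintype (V →ₗ[F] W) :=
  @Fintype.ofFinite _ (DFunLike.finite _)

noncomputable scoped instance fintypeSub : Fintype (Submodule F V) := Fintype.ofFinite _

scoped instance finiteEquiv : Finite (V ≃ₗ[F] W) := DFunLike.finite _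

scoped instance finiteQuot (S : Submodule F V) : Finite (V ⧸ S) :=
  Finite.of_surjective _ S.mkQ_surjective

/-- The class of an endomorphism. -/
noncomputable def cls (A : End F V) : Cls F :=
  Quotient.mk _ ⟨finrank F V, (finBasis F V).equivFun.conj A⟩

theorem cls_eq_iff {A : End F V} {B : End F W} : cls A = cls B ↔ Simil A B :=
  Quotient.eq.trans ⟨fun h => ((simil_conj A _).trans h).trans (simil_conj B _).symm,
    fun h => ((simil_conj A _).symm.trans h).trans (simil_conj B _)⟩

theorem cls_conj (e : V ≃ₗ[F] W) (A : End F V) : cls (e.conj A) = cls A :=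
  cls_eq_iff.2 (simil_conj A e).symm

theorem cls_eq_of (e : V ≃ₗ[F] W) {A : End F V} {B : End F W} (h : ∀ v, e (A v) = B (e v)) :
    cls A = cls B := cls_eq_iff.2 ⟨e, h⟩

/-- The dimension. -/
noncomputable def Cls.dim (c : Cls F) : ℕ := (Quotient.out c).1

/-- A representative. -/
noncomputable def Cls.rep (c : Cls F) : End F (Fin c.dim → F) := (Quotient.out c).2

@[simp] theorem cls_rep (c : Cls F) : cls c.rep = c :=
  (Quotient.sound (simil_conj _ _).symm).trans (Quotient.out_eq c)

theorem simil_rep (A : End F V) : Simil A (cls A).rep := cls_eq_iff.1 (cls_rep _).symm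

@[simp] theorem dim_cls (A : End F V) : (cls A).dim = finrank F V := by
  simpa using (simil_rep A).finrank_eq.symm

/-- The determinant. -/
noncomputable def Cls.det (c : Cls F) : F := LinearMap.det c.rep

@[simp] theorem det_cls (A : End F V) : (cls A).det = LinearMap.det A := (simil_rep A).det.symm

/-- Short exact sequences compatible with endomorphisms. -/
structure Ses (i : W →ₗ[F] V) (π : V →ₗ[F] Y) (B : End F W) (A : End F V) (C : End F Y) : Prop where
  inj : Function.Injective i
  surj : Function.Surjective π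
  ex : range i = ker π
  left : ∀ w, A (i w) = i (B w)
  right : ∀ v, π (A v) = C (π v)

theorem ses_sub {S : Submodule F V} {A : End F V} (h : ∀ v ∈ S, A v ∈ S) :
    Ses S.subtype S.mkQ (A.restrict h) A (S.mapQ S A h) :=
  ⟨S.injective_subtype, S.mkQ_surjective, by simp, fun _ => rfl, fun _ => rfl⟩

/-- Block triangular endomorphisms. -/
def blk (B : End F W) (X : Y →ₗ[F] W) (C : End F Y) : End F (W × Y) :=
  (B.coprod X).prod (C ∘ₗ snd F W Y)

@[simp] theorem blk_apply (B : End F W) (X : Y →ₗ[F] W) (C : End F Y) (v : W × Y) :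
    blk B X C v = (B v.1 + X v.2, C v.2) := rfl

theorem ses_blk (B : End F W) (X : Y →ₗ[F] W) (C : End F Y) :
    Ses (inl F W Y) (snd F W Y) B (blk B X C) C :=
  ⟨inl_injective, snd_surjective, range_inl _ _ _, by simp, by simp⟩

section

variable {i : W →ₗ[F] V} {π : V →ₗ[F] Y} {B : End F W} {A : End F V} {C : End F Y}

theorem Ses.inv (h : Ses i π B A C) : ∀ v ∈ range i, A v ∈ range i := by
  rintro _ ⟨w, rfl⟩; exact ⟨_, (h.left w).symm⟩

theorem Ses.cls_restrict (h : Ses i π B A C) : cls (A.restrict h.inv) = cls B :=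
  (cls_eq_of (LinearEquiv.ofInjective i h.inj) (B := A.restrict h.inv)
    fun w => Subtype.ext (h.left w).symm).symm

theorem Ses.cls_mapQ (h : Ses i π B A C) : cls ((range i).mapQ (range i) A h.inv) = cls C :=
  cls_eq_of ((Submodule.quotEquivOfEq _ _ h.ex).trans (π.quotKerEquivOfSurjective h.surj)) fun v => by
    obtain ⟨v, rfl⟩ := (range i).mkQ_surjective v
    exact h.right v

theorem Ses.det_eq (h : Ses i π B A C) : LinearMap.det A = LinearMap.det B * LinearMap.det C := by
  rw [A.det_eq_det_mul_det _ h.inv, ← det_cls B, ← det_cls C, ← h.cls_restrict, ← h.cls_mapQ, det_cls,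
    det_cls]

theorem Ses.exists_equiv (h : Ses i π B A C) : ∃ (e : V ≃ₗ[F] W × Y) (X : Y →ₗ[F] W),
    (∀ w, e (i w) = (w, 0)) ∧ (∀ v, (e v).2 = π v) ∧ ∀ v, e (A v) = blk B X C (e v) := by
  obtain ⟨l, hl⟩ := π.exists_rightInverse_of_surjective (range_eq_top.2 h.surj)
  obtain ⟨e, h1, h2⟩ := (exact_iff.2 h.ex.symm).splitSurjectiveEquiv h.inj ⟨l, hl⟩
  have h3 : ∀ w, e (i w) = (w, 0) := fun w => by simp [h1]
  have h4 : ∀ v, (e v).2 = π v := fun v => by simp [h2]
  refine ⟨e, fst F W Y ∘ₗ e ∘ₗ A ∘ₗ e.symm ∘ₗ inr F W Y, h3, h4, fun v => Prod.ext ?_ ?_⟩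
  · obtain ⟨⟨w, y⟩, rfl⟩ := e.symm.surjective v
    have : e.symm (w, y) = i w + e.symm (0, y) := by simp [e.symm_apply_eq, h3]
    rw [this, map_add, h.left, ← this]
    simp [h3]
  · simp [h4, h.right]

theorem Ses.finrank_eq (h : Ses i π B A C) : finrank F V = finrank F W + finrank F Y := by
  obtain ⟨e, -⟩ := h.exists_equiv
  rw [e.finrank_eq, finrank_prod]

end

open Classical in
/-- The contribution of a subspace to the induction product. -/
noncomputable def hc (f g : Cls F → ℂ) (S : Submodule F V) (A : End F V) : ℂ :=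
  if h : ∀ v ∈ S, A v ∈ S then f (cls (A.restrict h)) * g (cls (S.mapQ S A h)) else 0

variable {f g h : Cls F → ℂ}

theorem hc_of_not {S : Submodule F V} {A : End F V} (h : ¬ ∀ v ∈ S, A v ∈ S) : hc f g S A = 0 :=
  dif_neg h

theorem Ses.hc_eq {i : W →ₗ[F] V} {π : V →ₗ[F] Y} {B : End F W} {A : End F V} {C : End F Y}
    (h : Ses i π B A C) (f g : Cls F → ℂ) : hc f g (range i) A = f (cls B) * g (cls C) := by
  rw [hc, dif_pos h.inv, h.cls_restrict, h.cls_mapQ]

theorem hc_conj (e : V ≃ₗ[F] V') (S : Submodule F V) (A : End F V) :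
    hc f g (S.map (e : V →ₗ[F] V')) (e.conj A) = hc f g S A := by
  by_cases h : ∀ v ∈ S, A v ∈ S
  · have h1 := ses_sub h
    have : Ses (e ∘ₗ S.subtype) (S.mkQ ∘ₗ e.symm) (A.restrict h) (e.conj A) (S.mapQ S A h) :=
      ⟨e.injective.comp h1.inj, h1.surj.comp e.symm.surjective, by
        rw [range_comp, ker_comp, Submodule.map_equiv_eq_comap_symm]; simp,
        fun _ => by simp, fun _ => by simp⟩
    rw [hc.eq_1 f g S, dif_pos h, ← this.hc_eq, range_comp, S.range_subtype]
  · rw [hc_of_not h, hc_of_not fun h' => h fun v hv => by simpa using h' _ ⟨v, hv, rfl⟩]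

/-- The induction product. -/
noncomputable def mul (f g : Cls F → ℂ) (c : Cls F) : ℂ := ∑ S, hc f g S c.rep

theorem mul_cls (A : End F V) : mul f g (cls A) = ∑ S, hc f g S A := by
  obtain ⟨e, he⟩ := simil_iff_conj.1 (simil_rep A)
  rw [mul, ← he]
  exact (Fintype.sum_equiv (Submodule.orderIsoMapComap e).toEquiv _ _
    fun S => (hc_conj e S A).symm).symm

/-- The restriction to a Levi subgroup. -/
noncomputable def res (h : Cls F → ℂ) (c d : Cls F) : ℂ :=
  (∑ X, h (cls (blk c.rep X d.rep))) / (Fintype.card F : ℂ) ^ (c.dim * d.dim)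

theorem card_pow_ne_zero (k : ℕ) : (Fintype.card F : ℂ) ^ k ≠ 0 := by simp

theorem sum_blk (B : End F W) (C : End F Y) : ∑ X, h (cls (blk B X C)) =
    (Fintype.card F : ℂ) ^ (finrank F W * finrank F Y) * res h (cls B) (cls C) := by
  obtain ⟨e, he⟩ := simil_rep B
  obtain ⟨e', he'⟩ := simil_rep C
  rw [res, ← dim_cls B, ← dim_cls C, mul_div_cancel₀ _ (card_pow_ne_zero _)]
  exact Fintype.sum_equiv (e'.arrowCongr e).toEquiv _ _ fun X =>
    congrArg h (cls_eq_of (e.prodCongr e') fun v => by simp [he, he'])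

theorem Ses.sum_eq {i : W →ₗ[F] V} {π : V →ₗ[F] Y} {B : End F W} {A : End F V} {C : End F Y}
    (hs : Ses i π B A C) (h : Cls F → ℂ) : ∑ X : Y →ₗ[F] W, h (cls (A + i ∘ₗ X ∘ₗ π)) =
      (Fintype.card F : ℂ) ^ (finrank F W * finrank F Y) * res h (cls B) (cls C) := by
  obtain ⟨e, X, h1, h2, h3⟩ := hs.exists_equiv
  rw [← sum_blk]
  exact Fintype.sum_equiv (Equiv.addLeft X) _ _ fun X' =>
    congrArg h (cls_eq_of e fun v => by simp [h1, h2, h3, add_assoc])

theorem card_hom : (Fintype.card (Y →ₗ[F] W) : ℂ) =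
    (Fintype.card F : ℂ) ^ (finrank F W * finrank F Y) := by
  rw [Module.card_eq_pow_finrank (K := F), finrank_linearMap, mul_comm]; simp

variable (F) in
/-- The order of the general linear group. -/
noncomputable def gl (n : ℕ) : ℂ := Nat.card ((Fin n → F) ≃ₗ[F] (Fin n → F))

theorem gl_ne_zero (n : ℕ) : gl F n ≠ 0 := Nat.cast_ne_zero.2 Nat.card_pos.ne'

theorem card_equiv : (Nat.card (V ≃ₗ[F] V) : ℂ) = gl F (finrank F V) :=
  let e := (finBasis F V).equivFun
  congrArg _ (Nat.card_congr ⟨fun x => (e.symm.trans x).trans e, fun x => (e.trans x).trans e.symm,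
    fun _ => by ext; simp, fun _ => by ext; simp⟩)

/-- The average over the general linear group. -/
noncomputable def tot (n : ℕ) (h : Cls F → ℂ) : ℂ :=
  (∑ A : End F (Fin n → F), h (cls A)) / gl F n

theorem sum_cls (h : Cls F → ℂ) : ∑ A : End F V, h (cls A) =
    gl F (finrank F V) * tot (finrank F V) h := by
  rw [tot, mul_div_cancel₀ _ (gl_ne_zero _)]
  exact Fintype.sum_equiv (finBasis F V).equivFun.conj.toEquiv _ _ fun A =>
    congrArg h (cls_conj _ A).symm

theorem sum_sum_cls (T : Cls F → Cls F → ℂ) : ∑ B : End F W, ∑ C : End F Y, T (cls B) (cls C) =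
    gl F (finrank F W) * gl F (finrank F Y) *
      tot (finrank F W) fun c => tot (finrank F Y) fun d => T c d := by
  simp only [sum_cls (V := Y), ← Finset.mul_sum]
  rw [sum_cls fun c => tot (finrank F Y) (T c)]; ring

theorem sum_preserving (T : End F (W × Y) → ℂ)
    (hT : ∀ A, T A ≠ 0 → ∀ v ∈ range (inl F W Y), A v ∈ range (inl F W Y)) :
    ∑ A, T A = ∑ B, ∑ C, ∑ X, T (blk B X C) := by
  rw [← Fintype.sum_prod_type', ← Fintype.sum_prod_type']
  refine (Fintype.sum_of_injective (fun x : (End F W × End F Y) × (Y →ₗ[F] W) =>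
    blk x.1.1 x.2 x.1.2) ?_ _ _ (fun A hA => ?_) fun _ => rfl).symm
  · rintro ⟨⟨B, C⟩, X⟩ ⟨⟨B', C'⟩, X'⟩ h
    have h1 := fun v => LinearMap.congr_fun h v
    simp only [blk_apply, Prod.mk.injEq] at h1
    obtain rfl : B = B' := ext fun w => by simpa using (h1 (w, 0)).1
    obtain rfl : C = C' := ext fun y => (h1 (0, y)).2
    obtain rfl : X = X' := ext fun y => by simpa using (h1 (0, y)).1
    rfl
  · by_contra h
    refine hA ⟨((fst F W Y ∘ₗ A ∘ₗ inl F W Y, snd F W Y ∘ₗ A ∘ₗ inr F W Y),
      fst F W Y ∘ₗ A ∘ₗ inr F W Y), ext fun ⟨w, y⟩ => ?_⟩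
    obtain ⟨w', h1⟩ := hT A h _ ⟨w, rfl⟩
    rw [show (w, y) = inl F W Y w + inr F W Y y by simp, map_add A, ← h1]
    simp [Prod.ext_iff, show A (w, 0) = (w', 0) from h1.symm]

theorem sum_hc_mul (f g h : Cls F → ℂ) :
    ∑ A : End F (W × Y), hc f g (range (inl F W Y)) A * h (cls A) =
      (Fintype.card F : ℂ) ^ (finrank F W * finrank F Y) * gl F (finrank F W) * gl F (finrank F Y) *
        tot (finrank F W) fun c => tot (finrank F Y) fun d => f c * g d * res h c d := by
  rw [sum_preserving _ fun A hA => by by_contra h; simp [hc_of_not h] at hA]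
  simp only [(ses_blk _ _ _).hc_eq, ← Finset.mul_sum, sum_blk]
  simp only [mul_left_comm _ ((_ : ℂ) ^ _), ← Finset.mul_sum]
  rw [sum_sum_cls fun c d => f c * g d * res h c d]; ring

open Classical in
/-- The indicator function of the invertible classes. -/
noncomputable def unit (c : Cls F) : ℂ := if c.det = 0 then 0 else 1

open Classical in
theorem card_equiv_eq_sum (P : End F V → Prop) : (Nat.card {e : V ≃ₗ[F] V // P e} : ℂ) =
    ∑ A, if P A then unit (cls A) else 0 := by
  rw [Nat.card_congr (β := {A : End F V // P A ∧ LinearMap.det A ≠ 0}) (Equiv.ofBijective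
    (fun e => ⟨e.1, e.2, e.1.isUnit_det'.ne_zero⟩) ⟨fun e e' h =>
      Subtype.ext (LinearEquiv.toLinearMap_injective (congrArg Subtype.val h)), fun A =>
      ⟨⟨LinearMap.equivOfDetNeZero _ A.2.2, A.2.1⟩, rfl⟩⟩), Nat.card_eq_fintype_card,
    Fintype.card_subtype, Finset.card_filter]
  push_cast
  exact Finset.sum_congr rfl fun A _ => by by_cases P A <;> simp [unit, *]

theorem tot_unit (n : ℕ) : tot n (unit (F := F)) = 1 := by
  have := card_equiv_eq_sum (F := F) (V := Fin n → F) fun _ => True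
  simp only [if_true] at this
  rw [tot, ← this, div_eq_one_iff_eq (gl_ne_zero n), Nat.card_congr (Equiv.subtypeUnivEquiv fun _ => trivial), gl]

open Classical in
theorem hc_unit (S : Submodule F V) (A : End F V) :
    hc unit unit S A = if ∀ v ∈ S, A v ∈ S then unit (cls A) else 0 := by
  rw [hc]
  split_ifs with h
  · simp only [unit, det_cls, A.det_eq_det_mul_det S h, mul_eq_zero]
    split_ifs <;> simp_all
  · rfl

theorem map_eq_iff_inv (e : V ≃ₗ[F] V) (S : Submodule F V) :
    S.map (e : V →ₗ[F] V) = S ↔ ∀ v ∈ S, (e : End F V) v ∈ S :=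
  ⟨fun h v hv => h ▸ ⟨v, hv, rfl⟩, fun h => Submodule.eq_of_le_of_finrank_eq
    (Submodule.map_le_iff_le_comap.2 h) (e.finrank_map_eq S)⟩

theorem card_stab (S : Submodule F V) :
    (Nat.card {e : V ≃ₗ[F] V // S.map e.toLinearMap = S} : ℂ) = ∑ A, hc unit unit S A := by
  simp only [map_eq_iff_inv, hc_unit]
  convert card_equiv_eq_sum fun A : End F V => ∀ v ∈ S, A v ∈ S

theorem tot_const_mul (n : ℕ) (a : ℂ) (h : Cls F → ℂ) : tot n (fun c => a * h c) = a * tot n h := by
  simp [tot, Finset.mul_sum, mul_div_assoc, Finset.sum_div]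

theorem res_one (c d : Cls F) : res (fun _ => 1) c d = 1 := by
  simp [res, card_hom]

theorem exists_equiv_of_inj {i j : W →ₗ[F] V} (hi : Function.Injective i)
    (hj : Function.Injective j) : ∃ e : V ≃ₗ[F] V, ∀ w, e (i w) = j w := by
  obtain ⟨e, he⟩ := Submodule.exists_linearEquiv_restrict_eq
    ((LinearEquiv.ofInjective i hi).symm.trans (LinearEquiv.ofInjective j hj))
  exact ⟨e, fun w => by simpa using (he (LinearEquiv.ofInjective i hi w)).symm⟩

theorem exists_inj_range {S : Submodule F V} (h : finrank F S = finrank F W) :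
    ∃ j : W →ₗ[F] V, Function.Injective j ∧ range j = S := by
  let e := LinearEquiv.ofFinrankEq W S h.symm
  exact ⟨S.subtype ∘ₗ e, S.injective_subtype.comp e.injective, by simp [range_comp]⟩

theorem hc_ne_zero {S : Submodule F V} {A : End F V} (h : hc f g S A ≠ 0) :
    ∃ h : ∀ v ∈ S, A v ∈ S, f (cls (A.restrict h)) ≠ 0 ∧ g (cls (S.mapQ S A h)) ≠ 0 := by
  by_cases h1 : ∀ v ∈ S, A v ∈ S
  · exact ⟨h1, by simpa [hc, dif_pos h1] using h⟩
  · exact absurd (hc_of_not h1) h

/-- Frobenius reciprocity. -/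
theorem tot_mul {a : ℕ} (hf : ∀ c, f c ≠ 0 → c.dim = a) (b : ℕ) (g h : Cls F → ℂ) :
    tot (a + b) (fun c => mul f g c * h c) =
      tot a fun c => tot b fun d => f c * g d * res h c d := by
  classical
  have h1 := orbit_sum (fun (e : ((Fin a → F) × (Fin b → F)) ≃ₗ[F] _) (S : Submodule F _) =>
    S.map e.toLinearMap) (by simp) (fun _ _ _ => by rw [← Submodule.map_comp]; rfl) (range (inl F _ _))
    (fun S => ∑ A, hc f g S A * h (cls A)) (fun e => (Fintype.sum_equiv e.conj.toEquiv _ _
      fun A => by simp [hc_conj, cls_conj]).symm) fun S hS => by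
      obtain ⟨A, -, hA⟩ := Finset.exists_ne_zero_of_sum_ne_zero hS
      obtain ⟨h2, h3, -⟩ := hc_ne_zero (left_ne_zero_of_mul hA)
      obtain ⟨j, h4, rfl⟩ := exists_inj_range (W := Fin a → F) (S := S) (by simpa using hf _ h3)
      obtain ⟨e, he⟩ := exists_equiv_of_inj inl_injective h4
      exact ⟨e, by rw [← range_comp]; exact congrArg range (ext he)⟩
  have h2 := sum_hc_mul (F := F) (W := Fin a → F) (Y := Fin b → F) unit unit fun _ => 1
  simp only [mul_one, res_one, tot_const_mul, tot_unit] at h2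
  rw [card_stab, h2, Finset.sum_comm, sum_hc_mul, card_equiv] at h1
  simp only [← Finset.sum_mul, ← mul_cls] at h1
  rw [sum_cls fun c => mul f g c * h c] at h1
  simp only [finrank_prod, finrank_fin_fun] at h1
  refine mul_left_cancel₀ (mul_ne_zero (gl_ne_zero (F := F) (a + b)) (mul_ne_zero (mul_ne_zero
    (card_pow_ne_zero (F := F) (a * b)) (gl_ne_zero (F := F) a)) (gl_ne_zero (F := F) b))) ?_
  linear_combination h1

end CL.Zel
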