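import Mathlib
import Cfsg.Agent.KSG.Zel1

/-! The Mackey formula for cuspidal functions and the Harish-Chandra series of `GL_n(q)`. -/

set_option autoImplicit false
set_option linter.unusedSectionVars false

namespace CL.Zel

open Module CL.GLn LinearMap
open scoped ComplexConjugate

universe u

variable {F : Type u} [Field F] [Fintype F] {V W Y W' : Type*}
  [AddCommGroup V] [Module F V] [Finite V] [AddCommGroup W] [Module F W] [Finite W]
  [AddCommGroup Y] [Module F Y] [Finite Y] [AddCommGroup W'] [Module F W'] [Finite W']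
  {f g h ρ σ : Cls F → ℂ}

theorem tot_comm (a b : ℕ) (T : Cls F → Cls F → ℂ) :
    tot a (fun c => tot b fun d => T c d) = tot b fun d => tot a fun c => T c d := by
  simp only [tot, ← Finset.sum_div]
  rw [Finset.sum_comm, div_right_comm]

theorem tot_add (n : ℕ) (f g : Cls F → ℂ) : tot n (fun c => f c + g c) = tot n f + tot n g := by
  simp [tot, Finset.sum_add_distrib, add_div]

theorem tot_congr {n : ℕ} (h : ∀ c : Cls F, c.dim = n → f c = g c) : tot n f = tot n g := by
  rw [tot, tot, Finset.sum_congr rfl fun A _ => h _ (by simp)]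

theorem tot_eq_zero {n : ℕ} (h : ∀ c : Cls F, c.dim = n → f c = 0) : tot n f = 0 := by
  rw [tot_congr h]; simp [tot]

theorem conj_tot (n : ℕ) (f : Cls F → ℂ) : conj (tot n f) = tot n fun c => conj (f c) := by
  simp [tot, gl]

theorem eq_zero_of_tot {n : ℕ} (h : tot n (fun c => f c * conj (f c)) = 0) {c : Cls F}
    (hc : c.dim = n) : f c = 0 := by
  subst hc
  simp only [tot, div_eq_zero_iff, gl_ne_zero, or_false, Complex.mul_conj] at h
  norm_cast at h
  simpa using (Finset.sum_eq_zero_iff_of_nonneg fun _ _ => Complex.normSq_nonneg _).1 h c.rep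
    (Finset.mem_univ _)

theorem ext_tot (h : ∀ m (x : Cls F → ℂ), tot m (fun c => x c * f c) = tot m fun c => x c * g c) :
    f = g := funext fun c => sub_eq_zero.1 (eq_zero_of_tot (f := fun c => f c - g c) (by
  have := h c.dim fun c => conj (f c - g c)
  rw [← sub_eq_zero, sub_eq_add_neg, ← neg_one_mul, ← tot_const_mul, ← tot_add] at this
  exact (tot_congr fun _ _ => by ring).trans this) rfl)

/-- The adjoint of the multiplication. -/
noncomputable def prp (a : ℕ) (f h : Cls F → ℂ) (d : Cls F) : ℂ := tot a fun c => f c * res h c d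

/-- Homogeneous functions. -/
def Hg (a : ℕ) (f : Cls F → ℂ) : Prop := ∀ c, f c ≠ 0 → c.dim = a

theorem tot_mul_prp {a : ℕ} (hf : Hg a f) (b : ℕ) (g h : Cls F → ℂ) :
    tot (a + b) (fun c => mul f g c * h c) = tot b fun d => g d * prp a f h d := by
  rw [tot_mul hf, tot_comm]
  exact tot_congr fun d _ => by
    rw [prp, ← tot_const_mul]; exact tot_congr fun _ _ => by ring

theorem mul_ne_zero' {c : Cls F} (h : mul f g c ≠ 0) :
    ∃ a b, f a ≠ 0 ∧ g b ≠ 0 ∧ c.dim = a.dim + b.dim ∧ c.det = a.det * b.det := by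
  obtain ⟨S, -, hS⟩ := Finset.exists_ne_zero_of_sum_ne_zero h
  obtain ⟨h1, h2, h3⟩ := hc_ne_zero hS
  exact ⟨_, _, h2, h3, by simpa using (ses_sub h1).finrank_eq, by
    simpa [Cls.det.eq_1 c] using c.rep.det_eq_det_mul_det S h1⟩

theorem Hg.mul {a b : ℕ} (hf : Hg a f) (hg : Hg b g) : Hg (a + b) (mul f g) := fun _ h => by
  obtain ⟨_, _, h1, h2, h3, -⟩ := mul_ne_zero' h
  rw [h3, hf _ h1, hg _ h2]

theorem hc_add {S : Submodule F V} {φ : End F V} (h1 : ∀ v, φ v ∈ S) (h2 : ∀ v ∈ S, φ v = 0)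
    (A : End F V) : hc f g S (A + φ) = hc f g S A := by
  by_cases h : ∀ v ∈ S, A v ∈ S
  · have h3 := ses_sub h
    have : Ses S.subtype S.mkQ (A.restrict h) (A + φ) (S.mapQ S A h) :=
      ⟨h3.inj, h3.surj, h3.ex, fun w => by simp [h2 w w.2], fun v => by
        simp [(Submodule.Quotient.mk_eq_zero S).2 (h1 v)]⟩
    simpa using (this.hc_eq f g).trans (h3.hc_eq f g).symm
  · rw [hc_of_not h, hc_of_not fun h' => h fun v hv => by simpa [h2 v hv] using h' v hv]

/-- Cuspidal functions. -/
def Cusp (ρ : Cls F → ℂ) : Prop := ∀ c d : Cls F, c.dim ≠ 0 → d.dim ≠ 0 → res ρ c d = 0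

theorem sum_hc_hc_eq_zero (hρ : Cusp ρ) (x f g : Cls F → ℂ) {S S' : Submodule F V}
    (h1 : ¬ Disjoint S S') (h2 : ¬ S ≤ S') : ∑ A, hc ρ x S A * hc f g S' A = 0 := by
  let U := S'.comap S.subtype
  obtain ⟨r, hr⟩ := (U.mapQ S' S.subtype le_rfl).exists_leftInverse_of_injective
    (Submodule.ker_liftQ_eq_bot _ _ _ (by simp [U, ker_comp]))
  have h3 : ∀ s : S, r (S'.mkQ s) = U.mkQ s := fun s => LinearMap.congr_fun hr (U.mkQ s)
  let φ := fun X : (S ⧸ U) →ₗ[F] U => S.subtype ∘ₗ U.subtype ∘ₗ X ∘ₗ r ∘ₗ S'.mkQ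
  refine mul_left_cancel₀ (Nat.cast_ne_zero.2 (Fintype.card_pos (α := (S ⧸ U) →ₗ[F] U)).ne') ?_
  rw [mul_zero, ← nsmul_eq_mul, ← Finset.card_univ, ← Finset.sum_const,
    Finset.sum_congr rfl fun X _ => (Equiv.sum_comp (Equiv.addRight (φ X)) _).symm, Finset.sum_comm]
  refine Finset.sum_eq_zero fun A _ => ?_
  simp only [Equiv.coe_addRight]
  rw [Finset.sum_congr rfl fun X _ => by
    rw [hc_add (S := S') (φ := φ X) (fun v => (X _).2) fun v hv => by
      simp [φ, (Submodule.Quotient.mk_eq_zero S').2 hv]], ← Finset.sum_mul]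
  by_cases h4 : ∀ v ∈ S', A v ∈ S'
  swap
  · rw [hc_of_not h4, mul_zero]
  by_cases h5 : ∀ v ∈ S, A v ∈ S
  swap
  · rw [Finset.sum_eq_zero fun X _ => hc_of_not fun h' => h5 fun v hv =>
      (S.add_mem_iff_left (X _).1.2).1 (h' v hv), zero_mul]
  have h6 := ses_sub h5
  have h7 : ∀ X, Ses S.subtype S.mkQ (A.restrict h5 + U.subtype ∘ₗ X ∘ₗ U.mkQ) (A + φ X)
      (S.mapQ S A h5) := fun X => ⟨h6.inj, h6.surj, h6.ex, fun w => by
        have := h3 w; simp at this; simp [φ, this], fun v => by simp [φ]⟩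
  rw [Finset.sum_congr rfl fun X _ => by simpa using (h7 X).hc_eq ρ x, ← Finset.sum_mul,
    (ses_sub (S := U) (A := A.restrict h5) fun v hv => h4 _ hv).sum_eq, hρ, mul_zero, zero_mul,
    zero_mul]
  · rw [dim_cls, Ne, Submodule.finrank_eq_zero, ← Submodule.disjoint_iff_comap_eq_bot]; exact h1
  · rw [dim_cls, Ne, finrank_zero_iff, Submodule.Quotient.subsingleton_iff,
      Submodule.comap_subtype_eq_top]; exact h2

theorem sum_hc_hc (ρ x σ y : Cls F → ℂ) :
    ∑ A : End F ((W × W') × Y), hc ρ x (range (inl F _ Y ∘ₗ inl F W W')) A *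
      hc σ y (range (inl F _ Y ∘ₗ inr F W W')) A =
    (Fintype.card F : ℂ) ^ (finrank F W * finrank F Y) * gl F (finrank F W) *
      ((Fintype.card F : ℂ) ^ (finrank F W' * finrank F Y) * gl F (finrank F W')) *
      gl F (finrank F Y) * tot (finrank F Y) fun c =>
        prp (finrank F W) ρ y c * prp (finrank F W') σ x c := by
  rw [sum_preserving _ fun A hA => ?_, Finset.sum_comm, mul_assoc, ← sum_cls, Finset.mul_sum]
  swap
  · obtain ⟨h1, -⟩ := hc_ne_zero (left_ne_zero_of_mul hA)
    obtain ⟨h2, -⟩ := hc_ne_zero (right_ne_zero_of_mul hA)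
    rintro _ ⟨⟨w, w'⟩, rfl⟩
    rw [show (w, w') = inl F W W' w + inr F W W' w' by simp, map_add, map_add]
    exact add_mem (range_comp_le_range _ _ (h1 _ ⟨w, rfl⟩)) (range_comp_le_range _ _ (h2 _ ⟨w', rfl⟩))
  refine Finset.sum_congr rfl fun C _ => ?_
  rw [sum_preserving _ fun D hD => ?_]
  swap
  · obtain ⟨Z, -, hZ⟩ := Finset.exists_ne_zero_of_sum_ne_zero hD
    obtain ⟨h1, -⟩ := hc_ne_zero (left_ne_zero_of_mul hZ)
    rintro _ ⟨w, rfl⟩
    obtain ⟨w', h2⟩ := h1 _ ⟨w, rfl⟩
    exact ⟨w', by simpa using congrArg Prod.fst h2⟩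
  have h1 : ∀ (B : End F W) (B' : End F W') (X : Y →ₗ[F] W) (X' : Y →ₗ[F] W'),
      hc ρ x (range (inl F _ Y ∘ₗ inl F W W')) (blk (blk B 0 B') (X.prod X') C) *
      hc σ y (range (inl F _ Y ∘ₗ inr F W W')) (blk (blk B 0 B') (X.prod X') C) =
      ρ (cls B) * y (cls (blk B X C)) * (σ (cls B') * x (cls (blk B' X' C))) := fun B B' X X' => by
    rw [Ses.hc_eq (π := (snd F W W').prodMap id) (B := B) (C := blk B' X' C) ⟨inl_injective.comp
      inl_injective, fun v => ⟨((0, v.1), v.2), rfl⟩, by ext; simp [Prod.ext_iff, eq_comm], by simp,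
      by simp⟩,
      Ses.hc_eq (π := (fst F W W').prodMap id) (B := B') (C := blk B X C) ⟨inl_injective.comp
      inr_injective, fun v => ⟨((v.1, 0), v.2), rfl⟩, by ext; simp [Prod.ext_iff, eq_comm], by simp,
      by simp⟩]
    ring
  rw [mul_mul_mul_comm, mul_assoc _ (gl F _), prp, ← sum_cls, mul_assoc _ (gl F _), prp, ← sum_cls,
    Finset.mul_sum, Finset.mul_sum, Finset.sum_mul_sum]
  refine Finset.sum_congr rfl fun B _ => Finset.sum_congr rfl fun B' _ => ?_
  rw [Finset.sum_eq_single 0 (fun X₀ _ h => Finset.sum_eq_zero fun Z _ => ?_) (by simp),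
    ← (prodEquiv F).toEquiv.sum_comp, Fintype.sum_prod_type, mul_left_comm _ (ρ _), ← sum_blk,
    mul_left_comm _ (σ _), ← sum_blk, Finset.mul_sum, Finset.mul_sum, Finset.sum_mul_sum]
  · exact Finset.sum_congr rfl fun X _ => Finset.sum_congr rfl fun X' _ => h1 B B' X X'
  · rw [hc_of_not (S := range (inl F _ Y ∘ₗ inr F W W')) fun h' => h (ext fun w => ?_), mul_zero]
    obtain ⟨w', h2⟩ := h' _ ⟨w, rfl⟩
    simpa using (congrArg (·.1.1) h2).symm

theorem hc_mul_hc (f g x y : Cls F → ℂ) (S : Submodule F V) (A : End F V) :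
    hc f x S A * hc g y S A = hc (f * g) (x * y) S A := by
  simp only [hc]; split_ifs <;> simp [mul_mul_mul_comm]

theorem tot_mul_one {a : ℕ} (hf : Hg a f) (b : ℕ) (g : Cls F → ℂ) :
    tot (a + b) (mul f g) = tot a f * tot b g := by
  have := tot_mul hf b g fun _ => 1
  simp only [mul_one, res_one, tot_const_mul] at this
  rw [this, mul_comm, ← tot_const_mul]
  exact tot_congr fun _ _ => mul_comm _ _

theorem res_unit (c d : Cls F) : res unit c d = unit c * unit d := by
  have : ∀ X, unit (cls (blk c.rep X d.rep)) = unit c * unit d := fun X => by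
    have h := ses_blk c.rep X d.rep
    have h1 := h.hc_eq unit unit
    rwa [hc_unit, if_pos h.inv, cls_rep, cls_rep] at h1
  simp [res, this, card_hom]

theorem unit_mul_self (c : Cls F) : unit c * unit c = unit c := by simp [unit]

theorem prp_unit (a : ℕ) (c : Cls F) : prp a unit unit c = unit c := by
  rw [prp, tot_congr (g := fun d => unit c * unit d) fun d _ => by
    rw [res_unit, ← mul_assoc, unit_mul_self, mul_comm], tot_const_mul, tot_unit, mul_one]

open Classical in
theorem sum_mul_mul (hρ : Cusp ρ) (hσ : Cusp σ) {d m : ℕ} (h1 : Hg d ρ) (hd : d ≠ 0)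
    (x y : Cls F → ℂ) (hV : finrank F V = d + m) :
    gl F (d + m) * tot (d + m) (fun c => mul ρ x c * mul σ y c) =
      gl F (d + m) * (tot d (ρ * σ) * tot m (x * y)) + ∑ p : Submodule F V × Submodule F V,
        if Disjoint p.1 p.2 then ∑ A, hc ρ x p.1 A * hc σ y p.2 A else 0 := by
  rw [← tot_mul_one (f := ρ * σ) fun c h => h1 c (left_ne_zero_of_mul h), ← hV, ← sum_cls, ← sum_cls,
    Fintype.sum_prod_type]
  simp only [mul_cls, Finset.sum_mul_sum, ← hc_mul_hc]
  rw [Finset.sum_comm, Finset.sum_comm (f := fun A S => hc ρ x S A * _), ← Finset.sum_add_distrib]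
  refine Finset.sum_congr rfl fun S _ => ?_
  rw [Finset.sum_comm, ← Finset.sum_ite_eq_of_mem Finset.univ S
    (fun S' => ∑ A, hc ρ x S A * hc σ y S' A) (Finset.mem_univ _), ← Finset.sum_add_distrib]
  refine Finset.sum_congr rfl fun S' _ => ?_
  split_ifs with h2 h3 h3
  · rw [Finset.sum_eq_zero fun A _ => ?_, add_zero]
    by_contra h
    obtain ⟨h4, h5, -⟩ := hc_ne_zero (left_ne_zero_of_mul h)
    obtain rfl : S = ⊥ := disjoint_self.1 (h2 ▸ h3 : Disjoint S S)
    exact hd (by simpa using (h1 _ h5).symm)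
  · rw [add_zero]
  · rw [zero_add]
  · by_cases h4 : S ≤ S'
    · simpa [mul_comm] using sum_hc_hc_eq_zero hσ y ρ x (fun h => h3 h.symm) fun h =>
        h2 (le_antisymm h4 h)
    · simpa using sum_hc_hc_eq_zero hρ x σ y h3 h4

/-- The Mackey formula. -/
theorem tot_mul_mul (hρ : Cusp ρ) (hσ : Cusp σ) {d e : ℕ} (h1 : Hg d ρ) (h2 : Hg e σ) (hd : d ≠ 0)
    (m : ℕ) (x y : Cls F → ℂ) : tot (d + m) (fun c => mul ρ x c * mul σ y c) =
      tot d (ρ * σ) * tot m (x * y) + tot m fun c => mul σ (prp d ρ y) c * x c := by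
  classical
  refine mul_left_cancel₀ (gl_ne_zero (F := F) (d + m)) ?_
  have key : ∀ {V : Type u} [AddCommGroup V] [Module F V] [Finite V]
      {p : Submodule F V × Submodule F V},
      (if Disjoint p.1 p.2 then ∑ A, hc ρ x p.1 A * hc σ y p.2 A else 0) ≠ 0 →
      Disjoint p.1 p.2 ∧ finrank F p.1 = d ∧ finrank F p.2 = e := fun h => by
    obtain ⟨h3, h⟩ := ite_ne_right_iff.1 h
    obtain ⟨A, -, hA⟩ := Finset.exists_ne_zero_of_sum_ne_zero h
    obtain ⟨_, h4, -⟩ := hc_ne_zero (left_ne_zero_of_mul hA)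
    obtain ⟨_, h5, -⟩ := hc_ne_zero (right_ne_zero_of_mul hA)
    exact ⟨h3, by simpa using h1 _ h4, by simpa using h2 _ h5⟩
  rcases lt_or_ge m e with h | h
  · rw [sum_mul_mul (V := Fin (d + m) → F) hρ hσ h1 hd x y (by simp), Finset.sum_eq_zero fun p _ => ?_,
      tot_eq_zero (n := m) (f := fun c => mul σ _ c * _) fun c hc => ?_, add_zero, add_zero]
    · by_contra h3
      obtain ⟨a, b, h4, -, h5, -⟩ := mul_ne_zero' (left_ne_zero_of_mul h3)
      have := h2 _ h4
      omega
    · by_contra h3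
      obtain ⟨h4, h5, h6⟩ := key h3
      have := Submodule.finrank_add_finrank_le_of_disjoint h4
      simp at this
      omega
  obtain ⟨k, rfl⟩ := Nat.exists_eq_add_of_le h
  let W := Fin d → F
  let W' := Fin e → F
  let Y := Fin k → F
  have h0 : Disjoint (range (inl F _ Y ∘ₗ inl F W W')) (range (inl F _ Y ∘ₗ inr F W W')) := by
    rw [Submodule.disjoint_def]
    rintro _ ⟨w, rfl⟩ ⟨w', h⟩
    simp_all
  have h3 := orbit_sum (fun (g : ((W × W') × Y) ≃ₗ[F] _) (p : Submodule F _ × Submodule F _) =>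
    (p.1.map g.toLinearMap, p.2.map g.toLinearMap)) (by simp)
    (fun _ _ _ => by simp only [← Submodule.map_comp]; rfl)
    (range (inl F _ Y ∘ₗ inl F W W'), range (inl F _ Y ∘ₗ inr F W W'))
    (fun p => if Disjoint p.1 p.2 then ∑ A, hc ρ x p.1 A * hc σ y p.2 A else 0) (fun g => by
      rw [if_pos h0, if_pos (Submodule.disjoint_map g.injective h0)]
      exact (Fintype.sum_equiv g.conj.toEquiv _ _ fun A => by simp [hc_conj]).symm) fun p hp => by
      obtain ⟨h4, h5, h6⟩ := key hp
      obtain ⟨j, h7, h8⟩ := exists_inj_range (W := W) (S := p.1) (by simpa [W])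
      obtain ⟨j', h9, h10⟩ := exists_inj_range (W := W') (S := p.2) (by simpa [W'])
      obtain ⟨g, hg⟩ := exists_equiv_of_inj (i := inl F _ Y) (j := j.coprod j') inl_injective (by
        rw [← ker_eq_bot, ker_coprod_of_disjoint_range _ _ (by rwa [h8, h10]), ker_eq_bot.2 h7,
          ker_eq_bot.2 h9, Submodule.prod_bot])
      refine ⟨g, Prod.ext ((range_comp _ _).symm.trans (Eq.trans ?_ h8))
        ((range_comp _ _).symm.trans (Eq.trans ?_ h10))⟩
      · exact congrArg range (ext fun w => by simpa using hg (w, 0))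
      · exact congrArg range (ext fun w => by simpa using hg (0, w))
  have h4 := sum_hc_hc (F := F) (W := W) (W' := W') (Y := Y) unit unit unit unit
  simp only [prp_unit, unit_mul_self, tot_unit, mul_one] at h4
  rw [if_pos h0, sum_hc_hc, card_equiv, show (Nat.card _ : ℂ) = _ from Eq.trans ?_ h4] at h3
  swap
  · simp only [Prod.mk.injEq, map_eq_iff_inv, hc_unit, ite_mul, mul_ite, unit_mul_self, zero_mul,
      mul_zero, ← ite_and]
    convert card_equiv_eq_sum fun A : End F ((W × W') × Y) =>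
      (∀ v ∈ range (inl F _ Y ∘ₗ inl F W W'), A v ∈ range (inl F _ Y ∘ₗ inl F W W')) ∧
      ∀ v ∈ range (inl F _ Y ∘ₗ inr F W W'), A v ∈ range (inl F _ Y ∘ₗ inr F W W') using 2
    simp only [and_comm]; congr
  rw [sum_mul_mul (V := (W × W') × Y) hρ hσ h1 hd x y (by simp [W, W', Y, add_assoc]), mul_add,
    tot_mul_prp h2, add_right_inj]
  simp only [W, W', Y, finrank_prod, finrank_fin_fun, add_assoc] at h3
  refine mul_left_cancel₀ (mul_ne_zero (mul_ne_zero (mul_ne_zero (mul_ne_zero
    (card_pow_ne_zero (F := F) (d * k)) (gl_ne_zero (F := F) d)) (card_pow_ne_zero (F := F) (e * k)))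
    (gl_ne_zero (F := F) e)) (gl_ne_zero (F := F) k)) ?_
  linear_combination h3

theorem prp_mul (hρ : Cusp ρ) (hσ : Cusp σ) {d e : ℕ} (h1 : Hg d ρ) (h2 : Hg e σ) (hd : d ≠ 0)
    (y : Cls F → ℂ) : prp d ρ (mul σ y) = tot d (ρ * σ) • y + mul σ (prp d ρ y) :=
  ext_tot fun m x => by
    rw [← tot_mul_prp h1, tot_mul_mul hρ hσ h1 h2 hd, ← tot_const_mul, ← tot_add]
    exact tot_congr fun _ _ => by simp; ring

theorem star_mul' (f g : Cls F → ℂ) : star (mul f g) = mul (star f) (star g) := funext fun c => by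
  simp only [Pi.star_apply, mul, star_sum, hc]
  exact Finset.sum_congr rfl fun S _ => by split_ifs <;> simp

theorem res_star (h : Cls F → ℂ) (c d : Cls F) : res (star h) c d = star (res h c d) := by
  simp [res]

theorem Cusp.star (h : Cusp ρ) : Cusp (star ρ) := fun c d h1 h2 => by simp [res_star, h c d h1 h2]

theorem Hg.star {a : ℕ} (h : Hg a f) : Hg a (star f) := fun c h1 => h c (by simpa using h1)

/-- The inner product. -/
noncomputable def ip (n : ℕ) (f g : Cls F → ℂ) : ℂ := tot n fun c => f c * star g c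

theorem ip_mul {a : ℕ} (hf : Hg a f) (b : ℕ) (g h : Cls F → ℂ) :
    ip (a + b) h (mul f g) = ip b (prp a (star f) h) g := by
  simp only [ip, star_mul', mul_comm (h _), mul_comm _ (star g _)]
  exact tot_mul_prp hf.star b _ _

theorem conj_ip (n : ℕ) (f g : Cls F → ℂ) : conj (ip n f g) = ip n g f := by
  simp [ip, conj_tot, mul_comm]

/-- The inner product is additive in the first variable. -/
noncomputable def ipL (n : ℕ) (g : Cls F → ℂ) : (Cls F → ℂ) →ₗ[ℂ] ℂ where
  toFun f := ip n f g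
  map_add' f f' := by simp [ip, ← tot_add, add_mul]
  map_smul' a f := by simp [ip, ← tot_const_mul, mul_assoc]

/-- The product is additive in the second variable. -/
noncomputable def mulL (f : Cls F → ℂ) : (Cls F → ℂ) →+ Cls F → ℂ :=
  AddMonoidHom.mk' (mul f) fun g g' => funext fun c => by
    simp only [mul, hc, Pi.add_apply, ← Finset.sum_add_distrib]
    exact Finset.sum_congr rfl fun S _ => by split_ifs <;> simp [mul_add]

/-- The unit of the product. -/
noncomputable def one (c : Cls F) : ℂ := if c.dim = 0 then 1 else 0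

theorem hg_one : Hg 0 (one (F := F)) := fun c h => by by_contra h1; simp [one, h1] at h

theorem res_ne_zero {c d : Cls F} (h1 : res h c d ≠ 0) :
    ∃ a, h a ≠ 0 ∧ a.dim = c.dim + d.dim ∧ a.det = c.det * d.det := by
  obtain ⟨X, -, hX⟩ := Finset.exists_ne_zero_of_sum_ne_zero (left_ne_zero_of_mul h1)
  exact ⟨_, hX, by simp, (det_cls _).trans (ses_blk c.rep X d.rep).det_eq⟩

theorem tot_zero (f : Cls F → ℂ) : tot 0 f = f (cls (1 : End F (Fin 0 → F))) := by
  rw [tot, gl, Nat.card_unique, Fintype.sum_subsingleton _ 1]; simp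

/-- Orthonormal systems of cuspidal functions. -/
structure Sys (F : Type u) [Field F] [Fintype F] (κ : Type*) [DecidableEq κ] where
  /-- The functions. -/
  ρ : κ → Cls F → ℂ
  /-- The degrees. -/
  deg : κ → ℕ
  cusp : ∀ i, Cusp (ρ i)
  hg : ∀ i, Hg (deg i) (ρ i)
  pos : ∀ i, deg i ≠ 0
  orth : ∀ i j, ip (deg i) (ρ j) (ρ i) = if j = i then 1 else 0

/-- The lists obtained by removing an entry. -/
def del {κ : Type*} [DecidableEq κ] (i : κ) : List κ → List (List κ)
  | [] => []
  | j :: t => (if j = i then [t] else []) ++ (del i t).map (j :: ·)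

theorem del_spec {κ : Type*} [DecidableEq κ] (i : κ) (t : List κ) :
    (del i t).length = t.count i ∧ ∀ r ∈ del i t, (i :: r).Perm t := by
  induction t with
  | nil => simp [del]
  | cons j t ih =>
    refine ⟨by by_cases h : j = i <;> simp [del, h, ih.1], fun r hr => ?_⟩
    rcases List.mem_append.1 hr with h | h
    · split_ifs at h <;> simp_all
    · obtain ⟨r, h1, rfl⟩ := List.mem_map.1 h
      exact (List.Perm.swap _ _ _).trans ((ih.2 r h1).cons j)

namespace Sys

variable {κ : Type*} [DecidableEq κ] (S : Sys F κ)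

/-- The induced functions. -/
noncomputable def R : List κ → Cls F → ℂ
  | [] => one
  | i :: s => mul (S.ρ i) (R s)

theorem hg_R (s : List κ) : Hg (s.map S.deg).sum (S.R s) := by
  induction s with
  | nil => exact hg_one
  | cons i s ih => exact (S.hg i).mul ih

theorem prp_R (i : κ) (t : List κ) :
    prp (S.deg i) (star (S.ρ i)) (S.R t) = ((del i t).map S.R).sum := by
  induction t with
  | nil =>
    refine funext fun d => tot_eq_zero fun c hc => ?_
    by_contra h
    obtain ⟨a, h1, h2, -⟩ := res_ne_zero (right_ne_zero_of_mul h)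
    have := hg_one a h1
    have := S.pos i
    omega
  | cons j t ih =>
    rw [R, prp_mul (S.cusp i).star (S.cusp j) (S.hg i).star (S.hg j) (S.pos i), ih, mul_comm,
      show tot _ (_ * _) = _ from S.orth i j, del, List.map_append, List.sum_append, List.map_map]
    congr 1
    · split_ifs <;> simp
    · exact (map_list_sum (mulL _) _).trans (by rw [List.map_map]; rfl)

theorem ip_R (s : List κ) : ∃ k : ℕ, k ≠ 0 ∧ ∀ t, ip (s.map S.deg).sum (S.R t) (S.R s) =
    if s.Perm t then k else 0 := by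
  induction s with
  | nil =>
    refine ⟨1, one_ne_zero, fun t => ?_⟩
    rw [ip, List.map_nil, List.sum_nil, tot_zero]
    cases t with
    | nil => simp [R, one]
    | cons j t =>
      by_contra h
      have := S.hg_R (j :: t) _ (left_ne_zero_of_mul (by simpa using h))
      have := S.pos j
      simp at *; omega
  | cons i s ih =>
    obtain ⟨k, hk, ih⟩ := ih
    refine ⟨(s.count i + 1) * k, by simpa, fun t => ?_⟩
    rw [List.map_cons, List.sum_cons, R, ip_mul (S.hg i), prp_R, show ip _ _ _ = _ from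
      map_list_sum (ipL _ _) _, List.map_map, List.map_congr_left (f := ipL _ _ ∘ S.R)
      (g := fun _ => ((if (i :: s).Perm t then k else 0 : ℕ) : ℂ)) fun r hr => (ih r).trans (by
        simp only [← List.perm_cons (l₁ := s) i, ((del_spec i t).2 r hr).congr_right])]
    split_ifs with h
    · simp [(del_spec i t).1, ← h.count_eq]
    · simp

theorem R_perm {s t : List κ} (h : s.Perm t) : S.R s = S.R t := by
  obtain ⟨k, -, h1⟩ := S.ip_R s
  obtain ⟨l, -, h2⟩ := S.ip_R t
  have h3 := (h.map S.deg).sum_eq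
  rw [← h3] at h2
  refine funext fun c => ?_
  by_cases hc : c.dim = (s.map S.deg).sum
  · refine sub_eq_zero.1 (eq_zero_of_tot (f := S.R s - S.R t) ?_ hc)
    change ipL _ (S.R s - S.R t) (S.R s - S.R t) = 0
    rw [map_sub, sub_eq_zero]
    refine (conj_ip _ _ _).symm.trans (Eq.trans (congrArg _ ?_) (conj_ip _ _ _))
    change ipL _ _ _ = ipL _ _ _
    simp only [map_sub]
    simp [ipL, h1, h2, h, h.symm]
  · rw [by_contra fun h => hc (S.hg_R s c h), by_contra fun h => hc (h3 ▸ S.hg_R t c h)]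

end Sys

end CL.Zel
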