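import Mathlib
import Cfsg.Agent.KSG.Zel2
import Cfsg.Agent.CHAR.Constit

/-! Characters of `GL_n(q)` as functions on similarity classes; the cuspidal support. -/

set_option autoImplicit false
set_option linter.unusedSectionVars false

namespace CL.Zel

open Module CL.GLn LinearMap Cfsg CL.Char
open scoped ComplexConjugate

universe u

variable {F : Type u} [Field F] [Fintype F] [DecidableEq F] {V W Y : Type*}
  [AddCommGroup V] [Module F V] [Finite V] [AddCommGroup W] [Module F W] [Finite W]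
  [AddCommGroup Y] [Module F Y] [Finite Y] {f g h ρ : Cls F → ℂ} {n a b : ℕ}

theorem res_cls (h : Cls F → ℂ) (B : End F W) (C : End F Y) : res h (cls B) (cls C) =
    (∑ X, h (cls (blk B X C))) / (Fintype.card F : ℂ) ^ (finrank F W * finrank F Y) := by
  rw [sum_blk, mul_div_cancel_left₀ _ (card_pow_ne_zero _)]

theorem res_res_cls (h : Cls F → ℂ) (B : End F W) (C : End F Y) (D : End F V) :
    res (fun x => res h x (cls D)) (cls B) (cls C) = res (fun x => res h (cls B) x) (cls C) (cls D) := by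
  simp only [res_cls, ← Finset.sum_div, div_div, ← pow_add, finrank_prod]
  congr 1
  · simp only [← Equiv.sum_comp (prodEquiv (M := V) (M₂ := W) (M₃ := Y) F).toEquiv,
      ← Equiv.sum_comp (coprodEquiv (M := Y) (M₂ := V) (M₃ := W) F).toEquiv, Fintype.sum_prod_type]
    rw [eq_comm, Finset.sum_comm]
    refine Finset.sum_congr rfl fun X _ => Finset.sum_comm.trans (Finset.sum_congr rfl fun Z _ =>
      Finset.sum_congr rfl fun Z' _ => congrArg h ?_)
    exact (cls_eq_of (LinearEquiv.prodAssoc F W Y V) fun v => by simp [add_assoc]).symm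
  · congr 1; ring

theorem res_res (h : Cls F → ℂ) (c d e : Cls F) :
    res (fun x => res h x e) c d = res (fun x => res h c x) d e := by
  simpa using res_res_cls h c.rep d.rep e.rep

/-- The class function on the general linear group. -/
noncomputable def toGL (n : ℕ) (f : Cls F → ℂ) (g : GL (Fin n) F) : ℂ :=
  f (cls (Matrix.toLin' (g : Matrix (Fin n) (Fin n) F)))

theorem cls_gl_eq_iff {g k : GL (Fin n) F} : cls (Matrix.toLin' (g : Matrix (Fin n) (Fin n) F)) =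
    cls (Matrix.toLin' (k : Matrix (Fin n) (Fin n) F)) ↔ IsConj g k := by
  rw [cls_eq_iff, isConj_units_iff, isConj_iff_simil]

theorem isClassFunction_toGL (n : ℕ) (f : Cls F → ℂ) : IsClassFunction _ (toGL n f) :=
  isClassFunction_iff_isConj.2 fun _ _ h => congrArg f (cls_gl_eq_iff.2 h)

open Classical in
/-- The function on classes given by a class function. -/
noncomputable def ofGL (χ : GL (Fin n) F → ℂ) (c : Cls F) : ℂ :=
  if h : ∃ g : GL (Fin n) F, cls (Matrix.toLin' (g : Matrix (Fin n) (Fin n) F)) = c then χ h.choose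
  else 0

theorem toGL_ofGL {χ : GL (Fin n) F → ℂ} (h : IsClassFunction _ χ) : toGL n (ofGL χ) = χ :=
  funext fun g => by
    have h1 : ∃ k : GL (Fin n) F, cls (Matrix.toLin' (k : Matrix (Fin n) (Fin n) F)) =
      cls (Matrix.toLin' (g : Matrix (Fin n) (Fin n) F)) := ⟨g, rfl⟩
    rw [toGL, ofGL, dif_pos h1]
    exact h.eq_of_isConj (cls_gl_eq_iff.1 h1.choose_spec)

/-- Functions supported on invertible classes of a given dimension. -/
def Sup (n : ℕ) (f : Cls F → ℂ) : Prop := ∀ c, f c ≠ 0 → c.dim = n ∧ c.det ≠ 0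

theorem Sup.hg (h : Sup n f) : Hg n f := fun c h1 => (h c h1).1

theorem sup_ofGL (χ : GL (Fin n) F → ℂ) : Sup n (ofGL χ) := fun c h => by
  classical
  obtain ⟨⟨g, rfl⟩, -⟩ := dite_ne_right_iff.1 h
  simp [g.det_ne_zero]

theorem exists_gl {c : Cls F} (h1 : c.dim = n) (h2 : c.det ≠ 0) :
    ∃ g : GL (Fin n) F, cls (Matrix.toLin' (g : Matrix (Fin n) (Fin n) F)) = c := by
  subst h1
  exact ⟨.mkOfDetNeZero (toMatrix' c.rep) (by simpa [Cls.det] using h2), by simp⟩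

theorem Sup.eq_zero (hf : Sup n f) (h : toGL n f = 0) : f = 0 := funext fun c => by
  by_contra h1
  obtain ⟨g, rfl⟩ := exists_gl (hf c h1).1 (hf c h1).2
  exact h1 (congrFun h g)

theorem Sup.mul (hf : Sup a f) (hg : Sup b g) : Sup (a + b) (mul f g) := fun c h => by
  obtain ⟨x, y, h1, h2, h3, h4⟩ := mul_ne_zero' h
  exact ⟨by rw [h3, (hf _ h1).1, (hg _ h2).1], h4 ▸ mul_ne_zero (hf _ h1).2 (hg _ h2).2⟩

theorem gl_eq (n : ℕ) : gl F n = Nat.card (GL (Fin n) F) :=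
  congrArg _ (Nat.card_congr (Matrix.GeneralLinearGroup.toLin.trans
    (GeneralLinearGroup.generalLinearEquiv F _)).toEquiv).symm

theorem tot_eq (hf : ∀ c, f c ≠ 0 → c.det ≠ 0) :
    tot n f = (Nat.card (GL (Fin n) F) : ℂ)⁻¹ * ∑ g, toGL n f g := by
  rw [tot, gl_eq, div_eq_inv_mul]
  congr 1
  refine (Fintype.sum_of_injective (fun g : GL (Fin n) F =>
    Matrix.toLin' (g : Matrix (Fin n) (Fin n) F)) (Matrix.toLin'.injective.comp Units.val_injective)
    _ _ (fun A hA => ?_) fun _ => rfl).symm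
  by_contra h
  exact hA ⟨.mkOfDetNeZero (toMatrix' A) (by simpa using hf _ h), by simp⟩

theorem ip_eq (f : Cls F → ℂ) (hg : Sup n g) : ip n f g = classInner (toGL n f) (toGL n g) :=
  tot_eq fun c h => (hg c (by simpa using right_ne_zero_of_mul h)).2

theorem ip_ofGL (f : Cls F → ℂ) (χ : IrrCharacter (GL (Fin n) F)) :
    ip n f (ofGL χ.1) = classInner (toGL n f) χ := by
  rw [ip_eq f (sup_ofGL _), toGL_ofGL χ.2.isClassFunction]

theorem eq_sum_irr (hf : ∀ c, f c ≠ 0 → c.det ≠ 0) {c : Cls F} (hc : c.dim = n) :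
    f c = ∑ χ : IrrCharacter (GL (Fin n) F), ip n f (ofGL χ.1) * ofGL χ.1 c := by
  by_cases h : c.det = 0
  · rw [by_contra fun h1 => hf c h1 h, Finset.sum_eq_zero fun χ _ => by
      rw [by_contra fun h1 => (sup_ofGL χ.1 c h1).2 h, mul_zero]]
  · obtain ⟨g, rfl⟩ := exists_gl hc h
    refine ((isClassFunction_toGL n f).apply_eq_sum g).trans (Finset.sum_congr rfl fun χ _ => ?_)
    rw [ip_ofGL]
    exact congrArg _ (congrFun (toGL_ofGL χ.2.isClassFunction) g).symm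

/-- Characters. -/
def Ch (n : ℕ) (f : Cls F → ℂ) : Prop := Sup n f ∧ IsCharacter _ (toGL n f)

theorem ch_ofGL (χ : IrrCharacter (GL (Fin n) F)) : Ch n (ofGL χ.1) :=
  ⟨sup_ofGL _, (toGL_ofGL χ.2.isClassFunction).symm ▸ χ.2.isCharacter⟩

theorem Sup.ch (hf : Sup n f)
    (h : ∀ χ : IrrCharacter (GL (Fin n) F), ∃ k : ℕ, ip n f (ofGL χ.1) = k) : Ch n f :=
  ⟨hf, isCharacter_iff_inner.2 ⟨isClassFunction_toGL n f, fun χ hχ =>
    ip_ofGL f ⟨χ, hχ⟩ ▸ h ⟨χ, hχ⟩⟩⟩

theorem Ch.ip_nat (hf : Ch n f) (hg : Ch n g) : ∃ k : ℕ, ip n f g = k :=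
  ip_eq f hg.1 ▸ hf.2.exists_nat_inner hg.2

theorem Ch.ip_ne_zero (hf : Ch n f) (hg : Ch n g) {χ : IrrCharacter (GL (Fin n) F)}
    (h1 : ip n f (ofGL χ.1) ≠ 0) (h2 : ip n g (ofGL χ.1) ≠ 0) : ip n f g ≠ 0 := by
  rw [ip_ofGL] at h1 h2
  exact ip_eq f hg.1 ▸ inner_comp_ne_zero_of_constituent (MonoidHom.id _) hf.2 χ.2 h1 hg.2
    (classInner_eq_zero_comm.not.1 h2)

theorem Sup.exists_irr (hf : Sup n f) (h : f ≠ 0) :
    ∃ χ : IrrCharacter (GL (Fin n) F), ip n f (ofGL χ.1) ≠ 0 := by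
  obtain ⟨χ, h1, h2⟩ := (isClassFunction_toGL n f).exists_irr_inner_ne_zero (mt hf.eq_zero h)
  exact ⟨⟨χ, h1⟩, by rwa [ip_ofGL]⟩

theorem Ch.comp (hf : Ch n f) {H : Type*} [Group H] (φ : H →* End F V) :
    IsCharacter H fun x => f (cls (φ x)) := by
  by_cases h : finrank F V = n
  · let e := LinearEquiv.ofFinrankEq (R := F) V (Fin n → F) (by simpa)
    convert hf.2.comp ((toMatrixAlgEquiv' (R := F) (n := Fin n)).toMonoidHom.comp
      (e.conjRingEquiv.toMonoidHom.comp φ)).toHomUnits using 2 with x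
    exact congrArg f ((cls_conj e _).symm.trans (congrArg cls (Matrix.toLin'_toMatrix' _).symm))
  · convert isCharacter_zero using 2 with x
    by_contra h1
    exact h (by simpa using (hf.1 _ h1).1)

theorem Ch.mul (hf : Ch a f) (hg : Ch b g) : Ch (a + b) (mul f g) := (hf.1.mul hg.1).ch fun χ => by
  classical
  let S := range (inl F (Fin a → F) (Fin b → F))
  let P : Subgroup (((Fin a → F) × (Fin b → F)) ≃ₗ[F] ((Fin a → F) × (Fin b → F))) :=
    { carrier := {e | S.map e.toLinearMap = S}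
      one_mem' := S.map_id
      mul_mem' := fun {x y} hx hy => (S.map_comp y.toLinearMap x.toLinearMap).trans (hy.symm ▸ hx)
      inv_mem' := fun {x} hx => (congrArg _ hx.symm).trans
        ((S.map_comp x.toLinearMap x.symm.toLinearMap).symm.trans (by simp)) }
  have := Fintype.ofFinite P
  have h1 := fun e : P => (map_eq_iff_inv e.1 S).1 e.2
  obtain ⟨k, hk⟩ := ((hf.comp (H := P) ⟨⟨fun e => e.1.toLinearMap.restrict (h1 e), rfl⟩,
    fun _ _ => rfl⟩).mul (hg.comp (H := P) ⟨⟨fun e => S.mapQ S e.1.toLinearMap (h1 e), S.mapQ_id⟩,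
    fun x y => S.mapQ_comp S S _ _ (h1 y) (h1 x)⟩)).exists_nat_inner
    ((ch_ofGL χ).comp (H := P) ⟨⟨fun e => e.1.toLinearMap, rfl⟩, fun _ _ => rfl⟩)
  have h2 := sum_hc_mul (F := F) (W := Fin a → F) (Y := Fin b → F) unit unit fun _ => 1
  have h3 := sum_hc_mul (W := Fin a → F) (Y := Fin b → F) f g (star (ofGL χ.1))
  simp only [mul_one, res_one, tot_const_mul, tot_unit, ← card_stab] at h2
  rw [← h2, finrank_fin_fun, finrank_fin_fun, ← tot_mul hf.1.hg,
    ← Fintype.sum_of_injective (fun e : P => e.1.toLinearMap) (LinearEquiv.toLinearMap_injective.comp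
      Subtype.val_injective) _ _ (fun A hA => ?_) fun e => congrArg (· * _) (dif_pos (h1 e)).symm] at h3
  · refine ⟨k, mul_left_cancel₀ (card_ne_zero P) (h3.symm.trans ?_)⟩
    rw [← hk, card_mul_classInner]; rfl
  · by_contra h
    obtain ⟨h4, -⟩ := hc_ne_zero (left_ne_zero_of_mul h)
    exact hA ⟨⟨A.equivOfDetNeZero (by
      simpa using (sup_ofGL χ.1 (cls A) (by simpa using right_ne_zero_of_mul h)).2),
      (map_eq_iff_inv _ S).2 h4⟩, rfl⟩

theorem Sup.prp (hh : Sup (a + b) h) (f : Cls F → ℂ) : Sup b (prp a f h) := fun d hd => by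
  obtain ⟨A, -, hA⟩ := Finset.exists_ne_zero_of_sum_ne_zero (left_ne_zero_of_mul hd)
  obtain ⟨x, h1, h2, h3⟩ := res_ne_zero (right_ne_zero_of_mul hA)
  obtain ⟨h4, h5⟩ := hh x h1
  exact ⟨by simpa [h4] using h2.symm, right_ne_zero_of_mul (h3 ▸ h5)⟩

theorem Ch.prp (hf : Ch a f) (hh : Ch (a + b) h) : Ch b (prp a (star f) h) :=
  (hh.1.prp _).ch fun χ => ip_mul hf.1.hg b _ h ▸ hh.ip_nat (hf.mul (ch_ofGL χ))

theorem res_eq_sum (hh : Sup n h) {c : Cls F} (hc : c.dim = a) (d : Cls F) :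
    res h c d = ∑ χ : IrrCharacter (GL (Fin a) F), prp a (star (ofGL χ.1)) h d * ofGL χ.1 c := by
  rw [eq_sum_irr (f := fun c => res h c d) (fun c h1 => ?_) hc]
  · simp only [ip, prp, mul_comm]
  · obtain ⟨x, h1, -, h3⟩ := res_ne_zero h1
    exact left_ne_zero_of_mul (h3 ▸ (hh x h1).2)

theorem exists_prp_ne_zero (hh : Sup n h) {c d : Cls F} (h1 : res h c d ≠ 0) :
    ∃ χ : IrrCharacter (GL (Fin c.dim) F), prp c.dim (star (ofGL χ.1)) h ≠ 0 := by
  rw [res_eq_sum hh rfl] at h1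
  obtain ⟨χ, -, h2⟩ := Finset.exists_ne_zero_of_sum_ne_zero h1
  exact ⟨χ, fun h => h2 (by simp [h])⟩

theorem res_zero_right (h : Cls F → ℂ) (A : End F V) :
    res h (cls A) (cls (1 : End F (Fin 0 → F))) = h (cls A) := by
  have := Ses.sum_eq (i := .id) (π := (0 : V →ₗ[F] Fin 0 → F)) (B := A) (A := A) (C := 1)
    ⟨Function.injective_id, fun _ => ⟨0, Subsingleton.elim _ _⟩, by simp, by simp, by simp⟩ h
  simpa [Fintype.sum_subsingleton _ (0 : (Fin 0 → F) →ₗ[F] V)] using this.symm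

theorem ofGL_one (χ : IrrCharacter (GL (Fin n) F)) :
    ofGL χ.1 (cls (1 : End F (Fin n → F))) = χ.1 1 := by
  simpa [toGL, End.one_eq_id] using congrFun (toGL_ofGL χ.2.isClassFunction) 1

theorem exists_cusp (hn : n ≠ 0) (χ : IrrCharacter (GL (Fin n) F)) :
    ∃ (d b : ℕ) (ρ : IrrCharacter (GL (Fin d) F)), n = d + b ∧ d ≠ 0 ∧ Cusp (ofGL ρ.1) ∧
      prp d (star (ofGL ρ.1)) (ofGL χ.1) ≠ 0 := by
  classical
  have h0 : ∃ a, a ≠ 0 ∧ ∃ c d : Cls F, c.dim = a ∧ res (ofGL χ.1) c d ≠ 0 :=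
    ⟨n, hn, cls (1 : End F (Fin n → F)), _, by simp, by
      rw [res_zero_right, ofGL_one]; exact χ.2.one_ne_zero⟩
  obtain ⟨h1, c, d, h2, h3⟩ := Nat.find_spec h0
  obtain ⟨ρ, h4⟩ := exists_prp_ne_zero (sup_ofGL χ.1) h3
  obtain ⟨x, h5, h6, -⟩ := res_ne_zero h3
  obtain rfl : n = c.dim + d.dim := (sup_ofGL _ x h5).1.symm.trans h6
  refine ⟨c.dim, d.dim, ρ, rfl, h2 ▸ h1, fun c₁ c₂ h7 h8 => by_contra fun h9 => h4 ?_, h4⟩
  obtain ⟨u, h10⟩ := exists_prp_ne_zero (sup_ofGL ρ.1) h9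
  obtain ⟨y, h11, h12, -⟩ := res_ne_zero h9
  have h13 : c.dim = c₁.dim + c₂.dim := (sup_ofGL _ y h11).1.symm.trans h12
  obtain ⟨v, h14⟩ := (Sup.prp (h := ofGL ρ.1) (by rw [← h13]; exact sup_ofGL _) _).exists_irr h10
  have h15 := (ch_ofGL u).mul (ch_ofGL v)
  have h16 : prp (c₁.dim + c₂.dim) (star (mul (ofGL u.1) (ofGL v.1))) (ofGL χ.1) = 0 := by
    refine funext fun e => ?_
    rw [prp, star_mul', tot_mul (sup_ofGL _).hg.star]
    refine tot_eq_zero fun x hx => tot_eq_zero fun y _ => ?_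
    rw [res_res, funext fun z => by_contra fun h =>
      Nat.find_min h0 (by omega) ⟨h7, x, z, hx, h⟩]
    simp [res]
  rw [← ip_mul (sup_ofGL _).hg, ← h13, ← conj_ip, map_ne_zero, ip_ofGL] at h14
  rw [← h13] at h15 h16
  have h17 : Ch c.dim (mul (ofGL u.1) (ofGL v.1) - ofGL ρ.1) := ⟨fun z hz => by
    by_contra h; simp [mt (h15.1 z) h |> not_not.1, mt (sup_ofGL ρ.1 z) h |> not_not.1] at hz, by
    convert h15.2.sub_irr ρ.2 h14
    exact congrArg (toGL _ (mul (ofGL u.1) (ofGL v.1)) - ·) (toGL_ofGL ρ.2.isClassFunction)⟩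
  have h18 := (ch_ofGL ρ).prp (ch_ofGL χ)
  obtain ⟨k, hk⟩ := h18.2.exists_nat_degree
  obtain ⟨l, hl⟩ := (h17.prp (ch_ofGL χ)).2.exists_nat_degree
  refine h18.1.eq_zero (h18.2.eq_zero_of_one (hk.trans (Nat.cast_eq_zero.2
    (Nat.eq_zero_of_add_eq_zero_right (m := l) (Nat.cast_eq_zero (R := ℂ).1 ?_)))))
  rw [Nat.cast_add, ← hk, ← hl, toGL, toGL, prp, prp, ← tot_add]
  exact (tot_congr fun _ _ => by simp; ring).trans (congrFun h16 _)

/-- The cuspidal characters. -/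
abbrev CuspIrr (F : Type u) [Field F] [Fintype F] [DecidableEq F] : Type u :=
  Σ d : ℕ, {χ : IrrCharacter (GL (Fin d) F) // d ≠ 0 ∧ Cusp (ofGL χ.1)}

noncomputable scoped instance decEqCusp : DecidableEq (CuspIrr F) := Classical.decEq _

variable (F) in
/-- The system of the cuspidal characters. -/
noncomputable def sys : Sys F (CuspIrr F) where
  ρ i := ofGL i.2.1.1
  deg i := i.1
  cusp i := i.2.2.2
  hg _ := (sup_ofGL _).hg
  pos i := i.2.2.1
  orth := fun ⟨d, χ⟩ ⟨e, ψ⟩ => by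
    by_cases h : e = d
    · subst h
      rw [ip_ofGL, toGL_ofGL ψ.1.2.isClassFunction, ψ.1.2.inner χ.1.2]
      simp [Subtype.ext_iff]
    · rw [if_neg fun h1 => h (congrArg Sigma.fst h1)]
      exact tot_eq_zero fun c hc => by
        rw [by_contra fun h1 => h ((sup_ofGL ψ.1.1 c h1).1.symm.trans hc), zero_mul]

theorem ch_one : Ch 0 (one (F := F)) :=
  ⟨fun c h => ⟨hg_one c h, by
    rw [Cls.det, det_eq_one_of_finrank_eq_zero (by simp [hg_one c h])]; simp⟩,
    by convert isCharacter_one; simp [toGL, one]⟩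

theorem ch_R (s : List (CuspIrr F)) : Ch (s.map (sys F).deg).sum ((sys F).R s) := by
  induction s with
  | nil => exact ch_one
  | cons i s ih => exact (ch_ofGL _).mul ih

theorem exists_list (χ : IrrCharacter (GL (Fin n) F)) : ∃ s : List (CuspIrr F),
    (s.map (sys F).deg).sum = n ∧ ip n ((sys F).R s) (ofGL χ.1) ≠ 0 := by
  induction n using Nat.strong_induction_on with
  | _ n ih =>
  rcases eq_or_ne n 0 with rfl | hn
  · exact ⟨[], rfl, by simpa [ip, tot_zero, Sys.R, one, ofGL_one] using χ.2.one_ne_zero⟩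
  obtain ⟨d, b, ρ, rfl, hd, h1, h2⟩ := exists_cusp hn χ
  have h3 := (ch_ofGL ρ).prp (ch_ofGL χ)
  obtain ⟨x, hx⟩ := h3.1.exists_irr h2
  obtain ⟨s, rfl, h4⟩ := ih b (by omega) x
  refine ⟨⟨d, ρ, hd, h1⟩ :: s, rfl, ?_⟩
  rw [← conj_ip, map_ne_zero]
  exact (ip_mul (sup_ofGL _).hg _ _ _).trans_ne (h3.ip_ne_zero (ch_R s) hx h4)

end CL.Zel
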