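import Mathlib
import Cfsg.Agent.KSG.Zel3
import Cfsg.Agent.KSG.GLnBigCell

/-! The Whittaker functional on functions on similarity classes. -/

set_option autoImplicit false
set_option linter.unusedSectionVars false

namespace CL.Zel

open Module CL.GLn Cfsg CL.Char Matrix
open scoped ComplexConjugate

universe u

variable {F : Type u} [Field F] [Fintype F] [DecidableEq F] {f g h : Cls F → ℂ} {n a b : ℕ}

/-- Unitriangular matrices whose first columns are trivial. -/
def Aj (j : ℕ) (M : Matrix (Fin n) (Fin n) F) : Prop :=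
  ∀ i k : Fin n, k.val ≤ i.val ∨ k.val < j → M i k = (1 : Matrix (Fin n) (Fin n) F) i k

noncomputable scoped instance decAj (j : ℕ) (M : Matrix (Fin n) (Fin n) F) : Decidable (Aj j M) :=
  Classical.dec _

/-- The sum of the entries just above the diagonal, from a given column on. -/
def sd (j : ℕ) (M : Matrix (Fin n) (Fin n) F) : F :=
  ∑ i : Fin n, ∑ k : Fin n, if k.val = i.val + 1 ∧ j ≤ k.val then M i k else 0

/-- Block triangular matrices. -/
def fb (B : Matrix (Fin b) (Fin b) F) (X : Matrix (Fin b) (Fin a) F) (C : Matrix (Fin a) (Fin a) F) :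
    Matrix (Fin (b + a)) (Fin (b + a)) F :=
  reindex finSumFinEquiv finSumFinEquiv (fromBlocks B X 0 C)

section

variable (B : Matrix (Fin b) (Fin b) F) (X : Matrix (Fin b) (Fin a) F) (C : Matrix (Fin a) (Fin a) F)

@[simp] theorem fb_cc (i k : Fin b) : fb B X C (i.castAdd a) (k.castAdd a) = B i k := by simp [fb]
@[simp] theorem fb_cn (i : Fin b) (k : Fin a) : fb B X C (i.castAdd a) (k.natAdd b) = X i k := by
  simp [fb]
@[simp] theorem fb_nc (i : Fin a) (k : Fin b) : fb B X C (i.natAdd b) (k.castAdd a) = 0 := by simp [fb]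
@[simp] theorem fb_nn (i k : Fin a) : fb B X C (i.natAdd b) (k.natAdd b) = C i k := by simp [fb]

theorem fb_one : fb (1 : Matrix (Fin b) (Fin b) F) (0 : Matrix (Fin b) (Fin a) F) 1 = 1 := by
  simp [fb, fromBlocks_one]

theorem aj_fb {j : ℕ} (hj : j ≤ b) : Aj j (fb B X C) ↔ Aj j B ∧ Aj 0 C := by
  simp only [Aj, Fin.forall_fin_add, ← fb_one (b := b) (a := a), fb_cc, fb_cn, fb_nc, fb_nn,
    Fin.val_castAdd, Fin.val_natAdd, forall_and, implies_true, and_true]
  refine ⟨fun h => ⟨h.1, fun i k hk => h.2.2 i k (by omega)⟩, fun h =>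
    ⟨h.1, fun i k hk => by omega, fun i k hk => h.2 i k (by omega)⟩⟩

theorem aj_self : Aj b B ↔ B = 1 := ⟨fun h => by ext i k; exact h i k (.inr k.2), fun h _ _ _ => h ▸ rfl⟩

theorem sd_fb_succ : sd (b + 1) (fb B X C) = sd 0 C := by
  simp only [sd, Fin.sum_univ_add, Fin.val_castAdd, Fin.val_natAdd, fb_nc, fb_nn, ite_self]
  rw [Finset.sum_eq_zero fun i _ => by
    rw [Finset.sum_eq_zero fun k _ => if_neg (by omega),
      Finset.sum_eq_zero fun k _ => if_neg (by omega), add_zero]]
  simp only [Finset.sum_const_zero, zero_add]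
  exact Finset.sum_congr rfl fun i _ => Finset.sum_congr rfl fun k _ => if_congr (by omega) rfl rfl

theorem sd_fb_zero : sd 0 (fb B 0 C) = sd 0 B + sd 0 C := by
  simp [sd, Fin.sum_univ_add, add_assoc]

/-- The splitting of the coordinates. -/
def spl (F : Type u) [Field F] (b a : ℕ) : (Fin (b + a) → F) ≃ₗ[F] (Fin b → F) × (Fin a → F) :=
  (LinearEquiv.funCongrLeft F F finSumFinEquiv).trans (LinearEquiv.sumArrowLequivProdArrow _ _ F F)

theorem spl_fb (v : Fin (b + a) → F) :
    spl F b a (toLin' (fb B X C) v) = blk (toLin' B) (toLin' X) (toLin' C) (spl F b a v) := by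
  ext i <;> simp [spl, mulVec, dotProduct, Fin.sum_univ_add]

theorem cls_fb : cls (toLin' (fb B X C)) = cls (blk (toLin' B) (toLin' X) (toLin' C)) :=
  cls_eq_of _ (spl_fb B X C)

theorem sum_fb_eq (h : Cls F → ℂ) : ∑ X, h (cls (toLin' (fb B X C))) =
    (Fintype.card F : ℂ) ^ (b * a) * res h (cls (toLin' B)) (cls (toLin' C)) := by
  simpa [cls_fb] using (Equiv.sum_comp toLin'.toEquiv fun X =>
    h (cls (blk (toLin' B) X (toLin' C)))).trans (sum_blk _ _)

end

theorem sum_fb (T : Matrix (Fin (b + a)) (Fin (b + a)) F → ℂ)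
    (hT : ∀ M, T M ≠ 0 → ∀ (i : Fin a) (k : Fin b), M (i.natAdd b) (k.castAdd a) = 0) :
    ∑ M, T M = ∑ B, ∑ C, ∑ X, T (fb B X C) := by
  rw [← Fintype.sum_prod_type', ← Fintype.sum_prod_type']
  refine (Fintype.sum_of_injective (fun x : (_ × _) × _ => fb x.1.1 x.2 x.1.2) ?_ _ _
    (fun A hA => ?_) fun _ => rfl).symm
  · rintro ⟨⟨B, C⟩, X⟩ ⟨⟨B', C'⟩, X'⟩ h
    obtain ⟨rfl, rfl, -, rfl⟩ := fromBlocks_inj.1 ((reindex _ _).injective h)
    rfl
  · by_contra h
    refine hA ⟨((A.submatrix (·.castAdd a) (·.castAdd a), A.submatrix (·.natAdd b) (·.natAdd b)),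
      A.submatrix (·.castAdd a) (·.natAdd b)), ?_⟩
    simp [← Matrix.ext_iff, Fin.forall_fin_add, hT A h]

theorem Aj.nc {j : ℕ} {M : Matrix (Fin (b + a)) (Fin (b + a)) F} (h : Aj j M) (i : Fin a) (k : Fin b) :
    M (i.natAdd b) (k.castAdd a) = 0 := by
  rw [h _ _ (.inl (by simp; omega)), ← fb_one, fb_nc]

theorem aj_zero_iff {M : Matrix (Fin n) (Fin n) F} : Aj 0 M ↔ IsUni M :=
  ⟨fun h => ⟨fun i k hk => (h i k (.inl (le_of_lt hk))).trans (one_apply_ne (by rintro rfl; simp at hk)),
    fun i => (h i i (.inl le_rfl)).trans (one_apply_eq i)⟩, fun h i k hk => by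
    rcases eq_or_ne i k with rfl | h1
    · rw [h.2, one_apply_eq]
    · rw [one_apply_ne h1, h.1 (by have := Fin.val_ne_of_ne h1; simp; omega)]⟩

variable (n F) in
/-- The unitriangular group. -/
def UG : Subgroup (GL (Fin n) F) := (uniSL n F).map SpecialLinearGroup.toGL

theorem mem_UG {g : GL (Fin n) F} : g ∈ UG F n ↔ Aj 0 g.1 :=
  ⟨by rintro ⟨u, hu, rfl⟩; exact aj_zero_iff.2 hu, fun h => (aj_zero_iff.1 h).exists_sl⟩

/-- The exponent of the order of the unitriangular group. -/
def tri (n : ℕ) : ℕ := ∑ j ∈ Finset.range n, j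

theorem card_UG : (Nat.card (UG F n) : ℂ) = (Fintype.card F : ℂ) ^ tri n := by
  rw [UG, Subgroup.card_map_of_injective SpecialLinearGroup.toGL_injective, card_uniSL, tri,
    Finset.sum_range]; simp

theorem Aj.det {M : Matrix (Fin n) (Fin n) F} (h : Aj 0 M) : M.det ≠ 0 :=
  det_ne_zero_of_upper (aj_zero_iff.1 h).1 fun i => by simp [(aj_zero_iff.1 h).2 i]

theorem sum_UG [Fintype (UG F n)] (T : Matrix (Fin n) (Fin n) F → ℂ) :
    ∑ u : UG F n, T u.1.1 = ∑ M, if Aj 0 M then T M else 0 :=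
  Fintype.sum_of_injective (fun u : UG F n => u.1.1) (Units.val_injective.comp Subtype.val_injective)
    _ _ (fun M hM => if_neg fun h => hM ⟨⟨.mkOfDetNeZero M h.det, mem_UG.2 h⟩, rfl⟩)
    fun u => (if_pos (mem_UG.1 u.2)).symm

theorem sd_mul {M N : Matrix (Fin n) (Fin n) F} (hM : Aj 0 M) (hN : Aj 0 N) :
    sd 0 (M * N) = sd 0 M + sd 0 N := by
  simp only [sd, ← Finset.sum_add_distrib]
  refine Finset.sum_congr rfl fun i _ => Finset.sum_congr rfl fun k _ => ?_
  split_ifs with h
  · have h1 : i ≠ k := by rintro rfl; omega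
    rw [mul_apply, Finset.sum_eq_add i k h1 (fun l _ hl => ?_) (by simp) (by simp),
      hM i i (.inl le_rfl), hN k k (.inl le_rfl), one_apply_eq, one_apply_eq, one_mul, mul_one, add_comm]
    have := Fin.val_ne_of_ne hl.1
    have := Fin.val_ne_of_ne hl.2
    rcases le_total l.val i.val with h2 | h2
    · rw [hM i l (.inl h2), one_apply_ne hl.1.symm, zero_mul]
    · rw [hN l k (.inl (by omega)), one_apply_ne hl.2, mul_zero]
  · simp

theorem sd_one (j : ℕ) : sd j (1 : Matrix (Fin n) (Fin n) F) = 0 :=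
  Finset.sum_eq_zero fun i _ => Finset.sum_eq_zero fun k _ => by
    split_ifs with h
    · exact one_apply_ne (by rintro rfl; omega)
    · rfl

theorem sd_add (j : ℕ) (M N : Matrix (Fin n) (Fin n) F) : sd j (M + N) = sd j M + sd j N := by
  simp only [sd, ← Finset.sum_add_distrib]
  exact Finset.sum_congr rfl fun i _ => Finset.sum_congr rfl fun k _ => by split_ifs <;> simp

theorem sd_single {i k : Fin n} (h : k.val = i.val + 1) (c : F) : sd 0 (single i k c) = c := by
  rw [sd, Finset.sum_eq_single i (fun _ _ h => by simp [h.symm]) (by simp),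
    Finset.sum_eq_single k (fun _ _ h => by simp [h.symm]) (by simp)]
  simp [h]

variable (F) in
/-- A nontrivial additive character. -/
noncomputable def psi : AddChar F ℂ := AddChar.FiniteField.primitiveChar_to_Complex F

theorem sum_psi (c : F) : ∑ x, psi F (x * c) = if c = 0 then (Fintype.card F : ℂ) else 0 := by
  simpa [psi] using AddChar.sum_mulShift c (AddChar.FiniteField.primitiveChar_to_Complex_isPrimitive F)

/-- The Whittaker character of the unitriangular group. -/
noncomputable def psiU : UG F n →* ℂ where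
  toFun u := psi F (-sd 0 u.1.1)
  map_one' := by simp [sd_one]
  map_mul' u v := by
    simp [sd_mul (mem_UG.1 u.2) (mem_UG.1 v.2), ← AddChar.map_add_eq_mul, add_comm]

/-- The Whittaker functional. -/
noncomputable def wh (n : ℕ) (f : Cls F → ℂ) : ℂ :=
  (∑ M : Matrix (Fin n) (Fin n) F, if Aj 0 M then f (cls (toLin' M)) * psi F (sd 0 M) else 0) /
    (Fintype.card F : ℂ) ^ tri n

theorem wh_eq [Fintype (UG F n)] (f : Cls F → ℂ) :
    wh n f = classInner (fun u : UG F n => toGL n f u) psiU := by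
  rw [wh, ← sum_UG, classInner_def, card_UG, div_eq_inv_mul]
  simp [toGL, psiU, AddChar.map_neg_eq_conj]

theorem sum_aj (T : Cls F → ℂ) : (∑ M : Matrix (Fin n) (Fin n) F, if Aj 0 M then
    T (cls (toLin' M)) * psi F (sd 0 M) else 0) = (Fintype.card F : ℂ) ^ tri n * wh n T := by
  rw [wh, mul_div_cancel₀ _ (card_pow_ne_zero _)]

theorem card_aj : (∑ M : Matrix (Fin n) (Fin n) F, if Aj 0 M then (1 : ℂ) else 0) =
    (Fintype.card F : ℂ) ^ tri n := by
  have := Fintype.ofFinite (UG F n)
  rw [← sum_UG fun _ => 1, ← card_UG]; simp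

theorem aj_add_single {j : ℕ} {i k : Fin n} (h1 : i.val < k.val) (h2 : j ≤ k.val) (c : F)
    (M : Matrix (Fin n) (Fin n) F) : Aj j (M + single i k c) ↔ Aj j M :=
  forall₃_congr fun x y h => by
    rw [Matrix.add_apply, single_apply_of_ne _ _ _ _ _ (by rintro ⟨rfl, rfl⟩; omega), add_zero]

/-- The contribution of a subspace to the Whittaker functional of a product. -/
noncomputable def whc (ψ : AddChar F ℂ) (f g : Cls F → ℂ) (S : Submodule F (Fin n → F)) : ℂ :=
  ∑ M : Matrix (Fin n) (Fin n) F, if Aj 0 M then hc f g S (toLin' M) * ψ (sd 0 M) else 0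

theorem whc_coordSp {P : Fin n → Prop} {i k : Fin n} (h : k.val = i.val + 1) (hi : P i) (hk : ¬ P k) :
    whc (psi F) f g (coordSp F P) = 0 := by
  have h1 : ∀ c : F, whc (psi F) f g (coordSp F P) = psi F (c * 1) * whc (psi F) f g (coordSp F P) :=
    fun c => by
    rw [whc, Finset.mul_sum, ← Equiv.sum_comp (Equiv.addRight (single i k c))]
    refine Finset.sum_congr rfl fun M _ => ?_
    simp only [Equiv.coe_addRight, aj_add_single (show i.val < k by omega) (Nat.zero_le _)]
    rw [map_add, hc_add, sd_add, sd_single h, AddChar.map_add_eq_mul]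
    · split_ifs <;> simp only [mul_one, mul_zero]; ring
    · intro v j hj
      simp [single_mulVec, Function.update_of_ne (show j ≠ i by rintro rfl; exact hj hi)]
    · intro v hv
      simp [single_mulVec, hv k hk]
  have := Finset.sum_congr rfl fun c (_ : c ∈ Finset.univ) => h1 c
  simpa [← Finset.sum_mul, sum_psi, -mul_one] using this

theorem whc_act (ψ : AddChar F ℂ) (u : UG F n) (S : Submodule F (Fin n → F)) :
    whc ψ f g (act u.1 S) = whc ψ f g S := by
  have := Fintype.ofFinite (UG F n)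
  simp only [whc, ← sum_UG fun M => hc f g _ (toLin' M) * ψ (sd 0 M)]
  refine (Fintype.sum_equiv (MulAut.conj u).toEquiv _ _ fun v => ?_).symm
  have h1 : sd 0 (u.1 * v.1 * u.1⁻¹).1 = sd 0 v.1.1 := by
    have h2 := sd_mul (mem_UG.1 u.2) (mem_UG.1 u⁻¹.2)
    refine (sd_mul (mem_UG.1 (u * v).2) (mem_UG.1 u⁻¹.2)).trans ?_
    rw [Subgroup.coe_mul, Units.val_mul, sd_mul (mem_UG.1 u.2) (mem_UG.1 v.2), add_right_comm, ← h2]
    simp [sd_one]
  rw [← h1, ← hc_conj (GeneralLinearGroup.toLin u.1).toLinearEquiv]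
  congr 2
  refine LinearMap.ext fun x => ?_
  obtain ⟨x, rfl⟩ := (GeneralLinearGroup.toLin u.1).toLinearEquiv.surjective x
  rw [LinearEquiv.conj_apply_apply, LinearEquiv.symm_apply_apply]
  simp

theorem whc_top (ψ : AddChar F ℂ) (f g : Cls F → ℂ) :
    whc ψ f g (coordSp F fun i : Fin (b + a) => b ≤ i.val) =
      (∑ B : Matrix (Fin b) (Fin b) F, if Aj 0 B then g (cls (toLin' B)) * ψ (sd 0 B) else 0) *
      ∑ C : Matrix (Fin a) (Fin a) F, if Aj 0 C then f (cls (toLin' C)) * ψ (sd 0 C) else 0 := by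
  rw [whc, sum_fb _ fun M hM => (ite_ne_right_iff.1 hM).1.nc, Finset.sum_mul_sum]
  refine Finset.sum_congr rfl fun B _ => Finset.sum_congr rfl fun C _ => ?_
  have hs : Ses ((spl F b a).symm.toLinearMap ∘ₗ LinearMap.inr F _ _)
      (LinearMap.fst F _ _ ∘ₗ (spl F b a).toLinearMap) (toLin' C) (toLin' (fb B 0 C)) (toLin' B) :=
    ⟨(spl F b a).symm.injective.comp LinearMap.inr_injective,
      Prod.fst_surjective.comp (spl F b a).surjective, by
      rw [LinearMap.range_comp, LinearMap.ker_comp, Submodule.map_equiv_eq_comap_symm]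
      simp [LinearMap.range_inr],
      fun w => by simp [LinearEquiv.eq_symm_apply, -toLin'_apply, spl_fb],
      fun v => by simp [-toLin'_apply, spl_fb]⟩
  have h1 := hs.ex.trans (show _ = coordSp F fun i : Fin (b + a) => b ≤ i.val by
    ext v; simp [mem_coordSp, spl, Fin.forall_fin_add, funext_iff])
  rw [Finset.sum_eq_single 0 (fun X _ hX => ?_) (by simp), ← h1, hs.hc_eq, sd_fb_zero,
    AddChar.map_add_eq_mul]
  · by_cases Aj 0 B <;> by_cases Aj 0 C <;> simp [*, aj_fb]; ring
  · rw [← h1, hc_of_not fun h => hX (toLin'.injective (LinearMap.ext fun y => ?_))]; · simp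
    obtain ⟨y', h2⟩ := h _ ⟨y, rfl⟩
    simpa [-toLin'_apply, spl_fb] using (congrArg (fun v => (spl F b a v).1) h2).symm

theorem exists_act_coordSp (S : Submodule F (Fin n → F)) :
    ∃ (u : UG F n) (P : Fin n → Prop), act u.1 (coordSp F P) = S := by
  have h0 : finrank F (coordSp F fun i : Fin n => i.val < finrank F S) = finrank F S := by
    rw [finrank_coordSp, Nat.card_eq_fintype_card, Fintype.card_fin_lt_of_le
      (by simpa using S.finrank_le)]
  obtain ⟨j, h1, h2⟩ := exists_inj_range h0.symm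
  obtain ⟨e, he⟩ := exists_equiv_of_inj (Submodule.injective_subtype _) h1
  obtain ⟨x, hx, y, hy, σ, h3⟩ := exists_bruhat_gl
    (GeneralLinearGroup.toLin.symm (.ofLinearEquiv e))
  obtain ⟨d, h4, -⟩ := exists_isUni_mul_diagGL hx
  refine ⟨⟨x * (diagGL d)⁻¹, mem_UG.2 (aj_zero_iff.2 h4)⟩, fun i => (σ⁻¹ i).val < finrank F S, ?_⟩
  have h5 := (mem_labelGL_iff _ _).1 (diagGL_mem_labelGL (F := F) (fun i => (σ⁻¹ i).val) d)
  rw [← h5, ← act_mul, inv_mul_cancel_right, ← act_permGL σ fun i => i.val < _,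
    ← (mem_labelGL_iff _ _).1 hy, ← act_mul, ← act_mul, ← h3, ← Submodule.range_subtype
    (coordSp _ _), act, ← LinearMap.range_comp]
  exact (congrArg LinearMap.range (LinearMap.ext fun w => (LinearMap.congr_fun
    (toLin'_toMatrix' e.toLinearMap) w.1).trans (he w))).trans h2

theorem wh_mul (hf : Hg a f) (b : ℕ) (g : Cls F → ℂ) : wh (b + a) (mul f g) = wh a f * wh b g := by
  classical
  have := Fintype.ofFinite (UG F (b + a))
  have h1 := orbit_sum (fun (u : UG F (b + a)) S => act u.1 S) act_one (fun _ _ => act_mul _ _)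
    (coordSp F fun i : Fin (b + a) => b ≤ i.val) (whc (psi F) f g) (fun u => whc_act _ u _)
    fun S hS => by
      obtain ⟨u, P, rfl⟩ := exists_act_coordSp S
      rw [whc_act] at hS
      refine ⟨u, congrArg (act u.1 <| coordSp F ·) (funext fun i => propext ?_)⟩
      have h2 : ∀ i k : Fin (b + a), i ≤ k → P i → P k := fun i ⟨k, hk⟩ h hi => by
        induction k, (show i.val ≤ k from h) using Nat.le_induction with
        | base => exact hi
        | succ k h3 ih =>
          exact by_contra fun h4 => hS (whc_coordSp (i := ⟨k, by omega⟩) rfl (ih _ h3) h4)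
      obtain ⟨M, -, hM⟩ := Finset.exists_ne_zero_of_sum_ne_zero hS
      obtain ⟨_, h3, -⟩ := hc_ne_zero (left_ne_zero_of_mul (ite_ne_right_iff.1 hM).2)
      have h4 := hf _ h3
      rw [dim_cls, finrank_coordSp, Nat.card_eq_fintype_card, Fintype.card_subtype] at h4
      refine ⟨fun h => by_contra fun hi => ?_, fun hi => ?_⟩
      · have := Finset.card_le_card (show Finset.univ.filter P ⊆ Finset.Ioi i from fun k hk =>
          Finset.mem_Ioi.2 (lt_of_not_ge fun h => hi (h2 k i h (by simpa using hk))))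
        rw [h4, Fin.card_Ioi] at this; omega
      · have := Finset.card_le_card (show Finset.Ici i ⊆ Finset.univ.filter P from fun k hk => by
          simpa using h2 i k (by simpa using hk) hi)
        rw [h4, Fin.card_Ici] at this; omega
  have h2 := whc_top (F := F) (a := a) (b := b) 1 1 1
  simp only [Pi.one_apply, AddChar.one_apply, mul_one, card_aj, whc, ← sum_UG] at h2
  rw [show (Nat.card _ : ℂ) = _ from Eq.trans ?_ h2, whc_top, sum_aj, sum_aj, card_UG] at h1
  · simp only [whc] at h1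
    rw [Finset.sum_comm, Finset.sum_congr rfl fun M _ => by
      rw [Finset.sum_ite_irrel, ← Finset.sum_mul, ← mul_cls, Finset.sum_const_zero], sum_aj] at h1
    refine mul_left_cancel₀ (mul_ne_zero (mul_ne_zero (card_pow_ne_zero (F := F) (tri b))
      (card_pow_ne_zero (F := F) (tri a))) (card_pow_ne_zero (F := F) (tri (b + a)))) ?_
    linear_combination h1
  · rw [Nat.card_eq_fintype_card, Fintype.card_subtype, Finset.card_filter]
    push_cast
    refine Finset.sum_congr rfl fun u _ => ?_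
    simp only [hc, Pi.one_apply, mul_one, dite_eq_ite]
    exact if_congr (map_eq_iff_inv (GeneralLinearGroup.toLin u.1).toLinearEquiv _) rfl rfl

/-- Partial Whittaker sums. -/
noncomputable def pj (n j k : ℕ) (h : Cls F → ℂ) : ℂ :=
  ∑ M : Matrix (Fin n) (Fin n) F, if Aj j M then h (cls (toLin' M)) * psi F (sd k M) else 0

theorem sum_aj_fb (T : Matrix (Fin (b + a)) (Fin (b + a)) F → ℂ) :
    (∑ M, if Aj b M then T M else 0) = ∑ C, if Aj 0 C then ∑ X, T (fb 1 X C) else 0 := by
  rw [sum_fb _ fun M hM => (ite_ne_right_iff.1 hM).1.nc, Finset.sum_eq_single 1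
    (fun B _ hB => by simp [aj_fb, aj_self, hB]) (by simp)]
  simp [aj_fb, aj_self]

theorem pj_succ (h : Cls F → ℂ) : pj (b + a) b (b + 1) h = (Fintype.card F : ℂ) ^ (b * a + tri a) *
    wh a (res h (cls (1 : End F (Fin b → F)))) := by
  rw [pj, sum_aj_fb, pow_add, mul_assoc, ← sum_aj, Finset.mul_sum]
  refine Finset.sum_congr rfl fun C _ => ?_
  simp only [sd_fb_succ, ← Finset.sum_mul, sum_fb_eq, toLin'_one, End.one_eq_id]
  split_ifs <;> simp [mul_assoc]

theorem pj_one (n : ℕ) (h : Cls F → ℂ) : pj n 1 1 h = (Fintype.card F : ℂ) ^ tri n * wh n h := by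
  rw [← sum_aj, pj]
  refine Finset.sum_congr rfl fun M _ => if_congr (forall₂_congr fun i k => by
    rw [show _ ∨ _ ↔ k.val ≤ i.val ∨ k.val < 0 by omega]) (congrArg (_ * psi F ·) ?_) rfl
  exact Finset.sum_congr rfl fun i _ => Finset.sum_congr rfl fun k _ => if_congr (by omega) rfl rfl

theorem pj_self (n : ℕ) (h : Cls F → ℂ) : pj n n n h = h (cls (1 : End F (Fin n → F))) := by
  simp [pj, aj_self, sd_one, End.one_eq_id]

theorem sum_psi_dot (m : Fin n → F) : ∑ y : Fin n → F, psi F (y ⬝ᵥ m) =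
    if m = 0 then (Fintype.card F : ℂ) ^ n else 0 := by
  have : ∀ y : Fin n → F, psi F (y ⬝ᵥ m) = ∏ i, psi F (y i * m i) := fun y =>
    map_prod (AddChar.toMonoidHom (psi F)) (fun i => Multiplicative.ofAdd (y i * m i)) _
  simp only [this]
  rw [← Fintype.piFinset_univ, ← Finset.prod_univ_sum (f := fun i x => psi F (x * m i))]
  simp [sum_psi, Finset.prod_ite_zero, funext_iff]

theorem sd_succ {i k : Fin n} {j : ℕ} (h : k.val = i.val + 1) (hj : k.val = j)
    (M : Matrix (Fin n) (Fin n) F) : sd j M = sd (j + 1) M + M i k := by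
  rw [← sd_single h (M i k), sd, sd, sd, ← Finset.sum_add_distrib]
  refine Finset.sum_congr rfl fun x _ => ?_
  rw [← Finset.sum_add_distrib]
  refine Finset.sum_congr rfl fun y _ => ?_
  by_cases h1 : i = x ∧ k = y
  · obtain ⟨rfl, rfl⟩ := h1; simp [← hj, h]
  · rw [single_apply_of_ne _ _ _ _ _ h1, ite_self, add_zero]
    exact if_congr (by simp only [Fin.ext_iff] at h1; omega) rfl rfl

theorem pj_rec (b a : ℕ) (h : Cls F → ℂ) :
    (Fintype.card F : ℂ) ^ (b + 1) * pj (b + 1 + (a + 1)) (b + 2) (b + 2) h =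
      pj (b + 1 + (a + 1)) (b + 1) (b + 2) h +
        ((Fintype.card F : ℂ) ^ (b + 1) - 1) * pj (b + 1 + (a + 1)) (b + 1) (b + 1) h := by
  let T : (Fin (b + 1) → F) → ℂ := fun y => ∑ M : Matrix (Fin (b + 1 + (a + 1))) _ F,
    if Aj (b + 1) M then h (cls (toLin' M)) * psi F (sd (b + 2) M) *
      psi F (y ⬝ᵥ fun i => M (i.castAdd _) (Fin.natAdd _ 0)) else 0
  have h1 : ∀ y ≠ 0, T y = pj (b + 1 + (a + 1)) (b + 1) (b + 1) h := fun y hy => by
    obtain ⟨e, he⟩ := exists_equiv_of_inj (i := .toSpanSingleton F _ (Pi.single (Fin.last b) (1 : F)))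
      (j := .toSpanSingleton F _ y) (LinearMap.ker_eq_bot.1 (LinearMap.ker_toSpanSingleton F
        (by simp))) (LinearMap.ker_eq_bot.1 (LinearMap.ker_toSpanSingleton F hy))
    let g : GL (Fin (b + 1)) F := .mkOfDetNeZero (LinearMap.toMatrix' e.toLinearMap)ᵀ (by
      simpa using e.isUnit_det'.ne_zero)
    simp only [T, pj, sum_aj_fb]
    refine Finset.sum_congr rfl fun C _ => if_congr Iff.rfl (Fintype.sum_equiv
      ⟨(g.1 * ·), ((g⁻¹).1 * ·), fun X => by simp [← Matrix.mul_assoc],
        fun X => by simp [← Matrix.mul_assoc]⟩ _ _ fun X => ?_) rfl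
    rw [Equiv.coe_fn_mk, mul_assoc, ← AddChar.map_add_eq_mul, cls_fb, cls_fb, cls_eq_of
      ((GeneralLinearGroup.toLin g).toLinearEquiv.prodCongr (.refl F _))
      (B := blk (toLin' 1) (toLin' (g.1 * X)) (toLin' C)) fun v => by simp [mulVec_add],
      sd_succ (i := (Fin.last b).castAdd _) (k := Fin.natAdd _ 0) (j := b + 1) rfl rfl, sd_fb_succ, sd_fb_succ]
    have := he 1
    simp only [LinearMap.toSpanSingleton_apply_one] at this
    simp [← this, g, mul_apply, dotProduct]
  have h2 : ∑ y, T y = (Fintype.card F : ℂ) ^ (b + 1) * pj (b + 1 + (a + 1)) (b + 2) (b + 2) h := by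
    rw [Finset.sum_comm, pj, Finset.mul_sum]
    refine Finset.sum_congr rfl fun M _ => ?_
    rw [Finset.sum_ite_irrel, ← Finset.mul_sum, sum_psi_dot, Finset.sum_const_zero, mul_ite, mul_ite,
      mul_zero, mul_zero, ← ite_and, mul_comm]
    refine if_congr ⟨fun h i k hk => ?_, fun h => ⟨fun i k hk => h i k (by omega), funext fun i =>
      (h _ _ (.inr (by simp))).trans (one_apply_ne (Fin.ne_of_val_ne (by simp; omega)))⟩⟩ rfl rfl
    by_cases h3 : k.val ≤ i.val ∨ k.val < b + 1
    · exact h.1 i k h3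
    · convert (congrFun h.2 ⟨i, by omega⟩).trans (one_apply_ne (i := i) (j := k)
        (Fin.ne_of_val_ne (by omega))).symm <;> exact Fin.ext (by simp; try omega)
  rw [← h2, ← Finset.add_sum_erase _ _ (Finset.mem_univ 0),
    Finset.sum_congr rfl fun y hy => h1 y (Finset.ne_of_mem_erase hy)]
  simp [T, pj, Nat.one_le_pow _ _ Fintype.card_pos]

end CL.Zel
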