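import Mathlib
import Cfsg.Agent.KSG.Zel4
import Cfsg.Agent.FGS.HHIrr

/-! The Gelfand–Graev character of `GL_n(q)` is multiplicity free. -/

set_option autoImplicit false
set_option linter.unusedSectionVars false

namespace CL.Zel

open Module CL.GLn Cfsg CL.Char Matrix
open scoped ComplexConjugate

/-- Gelfand's trick. -/
theorem gelfand {G : Type*} [Group G] [Finite G] (U : Subgroup G) [Fintype U] (ψ : U →* ℂ)
    (τ : G → G) (hτ : ∀ g k, τ (g * k) = τ k * τ g) (e : U ≃ U) (he : ∀ u, (e u : G) = τ u)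
    (hψ : ∀ u, ψ (e u) = ψ u) (h : ∀ g, ∃ (u v : U) (n : G), g = u * n * v ∧
      (τ n = n ∨ ∃ x y : U, n * x = y * n ∧ ψ x ≠ ψ y)) {χ : G → ℂ} (hχ : IsIrrCharacter G χ) :
    classInner (fun u : U => χ u) ψ = 0 ∨ classInner (fun u : U => χ u) ψ = 1 := by
  obtain ⟨d, ρ, hρ, rfl⟩ := hχ
  have h0 : ∀ u, ψ u * conj (ψ u) = 1 :=
    (isIrrCharacter_monoidHom ψ).isCharacter.mul_conj_of_apply_one ψ.map_one
  obtain ⟨E, hE⟩ : ∃ E : End ℂ (Fin d → ℂ), E = (Nat.card U : ℂ)⁻¹ • ∑ u : U, conj (ψ u) • ρ u :=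
    ⟨_, rfl⟩
  have h1 : ∀ u : U, E * ρ u = ψ u • E := fun u => by
    simp only [hE, smul_mul_assoc, Finset.sum_mul, smul_comm (ψ u)]
    rw [Finset.smul_sum (r := ψ u), ← Equiv.sum_comp (Equiv.mulRight u) fun x => ψ u • conj (ψ x) • ρ x]
    simp [smul_smul, mul_left_comm (ψ u), h0]
  have h2 : ∀ u : U, ρ u * E = ψ u • E := fun u => by
    simp only [hE, mul_smul_comm, Finset.mul_sum, smul_comm (ψ u)]
    rw [Finset.smul_sum (r := ψ u), ← Equiv.sum_comp (Equiv.mulLeft u) fun x => ψ u • conj (ψ x) • ρ x]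
    simp [smul_smul, ← mul_assoc (ψ u), h0]
  have h3 : E * E = E := by
    conv_lhs => enter [2]; rw [hE]
    simp [Finset.mul_sum, h1, smul_smul, mul_comm _ (ψ _), h0, ← Nat.cast_smul_eq_nsmul ℂ]
  have h4 : ∀ (n : G) (x y : U), n * x = y * n → ψ x ≠ ψ y → E * ρ n * E = 0 := fun n x y h5 h6 => by
    have : E * ρ (n * x) * E = E * ρ (y * n) * E := by rw [h5]
    rw [map_mul, map_mul, ← mul_assoc, ← mul_assoc, h1, mul_assoc _ _ E, h2, mul_smul_comm,
      smul_mul_assoc, smul_mul_assoc] at this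
    exact by_contra fun h => h6 (smul_left_injective ℂ h this)
  have h5 : ∀ g, E * ρ (τ g) * E = E * ρ g * E := fun g => by
    obtain ⟨u, v, n, rfl, h6⟩ := h g
    have h7 : E * ρ (τ n) * E = E * ρ n * E := by
      rcases h6 with h6 | ⟨x, y, h6, h7⟩
      · rw [h6]
      · rw [h4 n x y h6 h7, h4 (τ n) (e y) (e x) (by rw [he, he, ← hτ, ← hτ, h6])
          (by simpa [hψ] using h7.symm)]
    simp only [hτ, ← he, map_mul, ← mul_assoc, h1, mul_assoc _ (ρ (_ : U)) E, h2, hψ, smul_mul_assoc,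
      mul_smul_comm, h7, smul_comm (ψ u)]
  have h6 : ∀ g k, E * ρ g * E * ρ k * E = E * ρ k * E * ρ g * E := fun g k => by
    have : E * ρ g * E * ρ k * E = E * ρ (τ k) * E * ρ (τ g) * E := by
      conv_lhs => enter [1, 1, 2]; rw [hE]
      conv_rhs => enter [1, 1, 2]; rw [hE, ← e.sum_comp fun u => conj (ψ u) • ρ u]
      simp only [mul_smul_comm, smul_mul_assoc, Finset.mul_sum, Finset.sum_mul, hψ, he, mul_assoc E,
        ← map_mul, ← hτ]
      simp only [← mul_assoc, h5]
    have h6 := congrArg (E * ρ k * ·) (h5 g)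
    rw [this, h5]
    simpa only [← mul_assoc] using h6
  have h7 : ∀ P Q : End ℂ (Fin d → ℂ), E * P * E * Q * E = E * Q * E * P * E := fun P Q => by
    have h8 := fun P => (CL.HH.span_range_eq_top ρ).ge (Submodule.mem_top (x := P))
    refine Submodule.span_induction₂ (p := fun P Q _ _ => E * P * E * Q * E = E * Q * E * P * E)
      ?_ (by simp) (by simp) ?_ ?_ ?_ ?_ (h8 P) (h8 Q)
    · rintro _ _ ⟨g, rfl⟩ ⟨k, rfl⟩; exact h6 g k
    all_goals clear hE; intros; simp [mul_add, add_mul, *]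
  have h8 : finrank ℂ (LinearMap.range E) ≤ 1 := by
    rcases subsingleton_or_nontrivial (LinearMap.range E) with _ | _
    · simp [finrank_zero_of_subsingleton]
    obtain ⟨⟨_, v, rfl⟩, hv⟩ := exists_ne (0 : LinearMap.range E)
    obtain ⟨φ, hφ⟩ := Module.Projective.exists_dual_eq_one ℂ (show E v ≠ 0 from fun h => hv (Subtype.ext h))
    refine finrank_le_one ⟨_, v, rfl⟩ fun ⟨_, w, rfl⟩ => ⟨φ (E w), Subtype.ext ?_⟩
    have h9 : ∀ x, E (E x) = E x := LinearMap.congr_fun h3
    simpa [hφ, h9] using LinearMap.congr_fun (h7 (φ.smulRight v) (φ.smulRight w)) v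
  have h9 : classInner (fun u : U => ρ.character u) ψ = finrank ℂ (LinearMap.range E) := by
    rw [← (LinearMap.IsIdempotentElem.isProj_range E h3).trace]
    simp [hE, classInner_def, Representation.character, mul_comm]
  rw [h9]
  interval_cases finrank ℂ (LinearMap.range E) <;> simp

theorem rev_invol {n : ℕ} {α : Type*} {σ : Equiv.Perm (Fin n)} {t : Fin n → α}
    (h : ∀ j k : Fin n, k.val = j.val + 1 → σ j < σ k → (σ k).val = (σ j).val + 1 ∧ t j = t k)
    (j : Fin n) : σ (σ j).rev = j.rev ∧ t (σ j).rev = t j := by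
  have h0 : ∀ {i k}, (σ i).val = σ k → i.val = k := fun h => congrArg _ (σ.injective (Fin.ext h))
  have h1 : ∀ (j : ℕ) (hj : j < n) (i : Fin n), i.val ≤ j → σ i ≤ σ ⟨j, hj⟩ → ∀ k : Fin n,
      i ≤ k → k.val ≤ j → (σ k).val + i = σ i + k ∧ t k = t i := fun j => by
    induction j with
    | zero => intro _ i _ _ k _ _; rw [show k = i from Fin.ext (by omega)]; simp
    | succ j ih =>
      intro hj i h2 h3 k h4 h5
      rcases eq_or_ne i k with rfl | h6
      · simp
      have h7 := Fin.val_ne_of_ne h6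
      by_cases h8 : σ ⟨j, by omega⟩ < σ ⟨j + 1, hj⟩
      · obtain ⟨h9, h10⟩ := h _ _ rfl h8
        have h11 := ih (by omega) i (by omega) (by have := mt (@h0 i ⟨j + 1, hj⟩) (by simp; omega); omega)
        rcases h5.eq_or_lt with h5 | h5
        · obtain rfl : k = ⟨j + 1, hj⟩ := Fin.ext h5
          have := h11 ⟨j, by omega⟩ (show i.val ≤ j by omega) le_rfl
          exact ⟨by simp at this ⊢; omega, h10.symm.trans this.2⟩
        · exact h11 k h4 (by omega)
      · have h11 := ih (by omega) i (by omega) (by omega)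
        have h12 := (h11 ⟨j, by omega⟩ (show i.val ≤ j by omega) le_rfl).1
        obtain ⟨m, hm⟩ : ∃ m : Fin n, m.val + σ i = i + σ ⟨j + 1, hj⟩ :=
          ⟨⟨i + ((σ ⟨j + 1, hj⟩).val - (σ i).val), by simp at h12; omega⟩, by simp; omega⟩
        have h13 := (h11 m (by omega) (by simp at h12; omega)).1
        have := @h0 m ⟨j + 1, hj⟩ (by omega)
        simp at h12 this; omega
  obtain ⟨a, ha, ha'⟩ := (Finset.univ.filter fun k => k ≤ j ∧ σ k ≤ σ j).exists_min_image id
    ⟨j, by simp⟩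
  obtain ⟨b, hb, hb'⟩ := (Finset.univ.filter fun k => j ≤ k ∧ σ j ≤ σ k).exists_max_image id
    ⟨j, by simp⟩
  simp only [Finset.mem_filter, Finset.mem_univ, true_and, id] at ha ha' hb hb'
  have h2 : ∀ k, a ≤ k → k ≤ b → (σ k).val + j = σ j + k ∧ t k = t j := fun k h2 h3 => by
    rcases le_total k j with h4 | h4
    · have h5 := h1 j j.2 a ha.1 ha.2
      exact ⟨by have := (h5 k h2 h4).1; have := (h5 j ha.1 le_rfl).1; omega,
        (h5 k h2 h4).2.trans (h5 j ha.1 le_rfl).2.symm⟩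
    · exact h1 b b.2 j hb.1 hb.2 k h4 h3
  have h3 : (Finset.Iio (σ j)).map σ.symm.toEmbedding = Finset.Ico a j ∪ Finset.Ioi b := by
    ext k
    simp only [Finset.mem_map_equiv, Equiv.symm_symm, Finset.mem_Iio, Finset.mem_union,
      Finset.mem_Ico, Finset.mem_Ioi]
    have := ha' k; have := hb' k; have := h2 k; have := @h0 k j
    omega
  have h4 := congrArg Finset.card h3
  rw [Finset.card_union_of_disjoint (Finset.disjoint_left.2 fun k => by simp; omega)] at h4
  simp at h4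
  have h5 := h2 (σ j).rev (by simp [Fin.le_def]; omega) (by simp [Fin.le_def]; omega)
  exact ⟨Fin.ext (by have := h5.1; simp at this ⊢; omega), h5.2⟩

universe u

variable {F : Type u} [Field F] [Fintype F] [DecidableEq F] {n : ℕ}

/-- The reflection in the second diagonal. -/
def tauM (M : Matrix (Fin n) (Fin n) F) : Matrix (Fin n) (Fin n) F :=
  Mᵀ.submatrix Fin.revPerm Fin.revPerm

theorem tauM_mul (M N : Matrix (Fin n) (Fin n) F) : tauM (M * N) = tauM N * tauM M := by
  rw [tauM, tauM, tauM, submatrix_mul_equiv, transpose_mul]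

theorem tauM_one : tauM (1 : Matrix (Fin n) (Fin n) F) = 1 := by simp [tauM]

/-- The reflection on the general linear group. -/
def tau (g : GL (Fin n) F) : GL (Fin n) F :=
  ⟨tauM g.1, tauM (g⁻¹).1, by simp [← tauM_mul, tauM_one], by simp [← tauM_mul, tauM_one]⟩

theorem Aj.tauM {M : Matrix (Fin n) (Fin n) F} (h : Aj 0 M) : Aj 0 (tauM M) := fun i k hk => by
  rw [← tauM_one]
  exact h k.rev i.rev (.inl (by simp; omega))

theorem sd_tauM (M : Matrix (Fin n) (Fin n) F) : sd 0 (tauM M) = sd 0 M := by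
  rw [sd, Finset.sum_comm, sd, ← Equiv.sum_comp Fin.revPerm]
  refine Finset.sum_congr rfl fun i _ => ?_
  rw [← Equiv.sum_comp Fin.revPerm]
  exact Finset.sum_congr rfl fun k _ => if_congr (by simp; omega) (by simp [tauM]) rfl

theorem wh_irr (χ : IrrCharacter (GL (Fin n) F)) : wh n (ofGL χ.1) = 0 ∨ wh n (ofGL χ.1) = 1 := by
  have := Fintype.ofFinite (UG F n)
  have h0 : ∀ u : UG F n, tau u.1 ∈ UG F n := fun u => mem_UG.2 (mem_UG.1 u.2).tauM
  have h1 : Function.Involutive fun u : UG F n => (⟨_, h0 u⟩ : UG F n) := fun u => by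
    ext i j; simp [tau, tauM]
  rw [wh_eq, toGL_ofGL χ.2.isClassFunction]
  refine gelfand _ _ tau (fun g k => Units.ext (tauM_mul _ _)) h1.toPerm (fun _ => rfl)
    (fun u => congrArg (psi F <| -·) (sd_tauM _)) (fun g => ?_) χ.2
  obtain ⟨b, hb, b', hb', σ, rfl⟩ := exists_bruhat_gl g
  obtain ⟨d, hd, -⟩ := exists_isUni_mul_diagGL hb
  obtain ⟨d', -, hd'⟩ := exists_isUni_mul_diagGL hb'
  refine ⟨⟨_, mem_UG.2 (aj_zero_iff.2 hd)⟩, ⟨_, mem_UG.2 (aj_zero_iff.2 hd')⟩,
    diagGL d * permGL F σ * diagGL d', by simp [mul_assoc], ?_⟩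
  obtain ⟨t, ht⟩ : ∃ t : Fin n → Fˣ, ∀ i j, (diagGL d * permGL F σ * diagGL d').1 i j =
      if i = σ j then (t j : F) else 0 := ⟨fun j => d (σ j) * d' j, fun i j => by
    simp only [Units.val_mul, coe_diagGL, mul_diagonal, diagonal_mul, permGL_apply]
    split_ifs with h <;> simp [h]⟩
  generalize diagGL d * permGL F σ * diagGL d' = m at ht
  by_cases h : ∀ j k : Fin n, k.val = j.val + 1 → σ j < σ k → (σ k).val = (σ j).val + 1 ∧ t j = t k
  · refine .inl (Units.ext (Matrix.ext fun i j => ?_))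
    simp only [tau, tauM, submatrix_apply, transpose_apply, ht, Fin.revPerm_apply]
    by_cases h2 : i = σ j
    · simp [h2, rev_invol h j]
    · rw [if_neg h2, if_neg fun h3 => h2 ?_]
      simpa [← h3, eq_comm] using congrArg Fin.rev (rev_invol h i.rev).1
  push Not at h
  obtain ⟨j, k, h2, h3, h4⟩ := h
  have h5 : ∀ {i k : Fin n}, i.val < k.val → ∀ c : F, Aj 0 (1 + single i k c) := fun h c =>
    (aj_add_single h (Nat.zero_le _) c 1).2 fun _ _ _ => rfl
  obtain ⟨c, hc⟩ : ∃ c, psi F (c * (1 - sd 0 (single (σ j) (σ k) ((t j : F) / t k)))) ≠ 1 := by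
    by_contra! h6
    have := sum_psi (1 - sd 0 (single (σ j) (σ k) ((t j : F) / t k)))
    simp only [h6, Finset.sum_const, Finset.card_univ, nsmul_eq_mul, mul_one, left_eq_ite_iff,
      Nat.cast_eq_zero, Fintype.card_ne_zero, imp_false, not_not, sub_eq_zero] at this
    by_cases h7 : (σ k).val = (σ j).val + 1
    · rw [sd_single h7, eq_div_iff (t k).ne_zero, one_mul] at this
      exact h4 h7 (Units.ext this.symm)
    · rw [sd, Finset.sum_eq_zero fun x _ => Finset.sum_eq_zero fun y _ => by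
        split_ifs with h8
        · exact single_apply_of_ne _ _ _ _ _ (by rintro ⟨rfl, rfl⟩; exact h7 h8.1)
        · rfl] at this
      exact one_ne_zero this
  refine .inr ⟨⟨.mkOfDetNeZero _ (h5 (i := j) (k := k) (by omega) c).det, mem_UG.2 (h5 (by omega) c)⟩,
    ⟨.mkOfDetNeZero _ (h5 h3 (c * (t j / t k))).det, mem_UG.2 (h5 h3 _)⟩,
    Units.ext (Matrix.ext fun x y => ?_), fun h => hc ?_⟩
  · simp only [Units.val_mul, GeneralLinearGroup.val_mkOfDetNeZero, mul_add, add_mul, mul_one, one_mul,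
      Matrix.add_apply, add_right_inj]
    simp only [mul_apply, single_apply, ht, ite_and]
    by_cases h6 : k = y <;> by_cases h7 : x = σ j <;> simp [h6, h7, eq_comm, mul_comm]
    · rw [← h6]; field_simp
    · exact (Finset.sum_eq_zero fun z _ => by split_ifs <;> simp_all).symm
  · have h6 : ∀ M : Matrix (Fin n) (Fin n) F, sd 0 (c • M) = c * sd 0 M := fun M => by
      simp [sd, Finset.mul_sum]
    simp only [psiU, MonoidHom.coe_mk, OneHom.coe_mk, GeneralLinearGroup.val_mkOfDetNeZero, sd_add,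
      sd_one, sd_single h2, zero_add, ← smul_eq_mul c, ← smul_single, h6] at h
    rw [mul_sub, mul_one, sub_eq_add_neg, AddChar.map_add_eq_mul, ← smul_eq_mul c, ← h,
      ← AddChar.map_add_eq_mul, add_neg_cancel, AddChar.map_zero_eq_one]

end CL.Zel
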