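import Mathlib
import Cfsg.Agent.KSG.GLnClsGen

/-! Counting multisets of a given total degree; irreducible polynomials over a finite field. -/

set_option autoImplicit false
set_option linter.unusedSectionVars false

namespace CL.Zel

open Polynomial CL.GLn

/-- Multisets of a given total degree. -/
abbrev Ms {κ : Type*} (d : κ → ℕ) (n : ℕ) : Type _ := {s : Multiset κ // (s.map d).sum = n}

theorem surj_fib {κ κ' : Type*} {d : κ → ℕ} {d' : κ' → ℕ} {n : ℕ} [Finite (Ms d' n)]
    (h : Nat.card (Ms d n) = Nat.card (Ms d' n))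
    (e : ∀ k ≤ n, {i // d i = k} ↪ {i // d' i = k}) : Function.Surjective (e n le_rfl) := fun j => by
  classical
  let f : κ → κ' := fun i => if h : d i ≤ n then (e _ h ⟨i, rfl⟩).1 else j
  have h1 : ∀ k (hk : k ≤ n) (i : {i // d i = k}), f i = e k hk i := by
    rintro _ hk ⟨i, rfl⟩; exact dif_pos hk
  have h2 : ∀ i, d i ≤ n → d' (f i) = d i := fun i hi => h1 _ hi ⟨i, rfl⟩ ▸ (e _ hi ⟨i, rfl⟩).2
  have h3 : Set.InjOn f {i | d i ≤ n} := fun a ha b hb hab => by
    have h4 : d b = d a := by rw [← h2 a ha, hab, h2 b hb]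
    exact congrArg Subtype.val ((e _ ha).injective (a₁ := ⟨a, rfl⟩) (a₂ := ⟨b, h4⟩)
      (Subtype.ext ((h1 _ ha _).symm.trans (hab.trans (h1 _ ha ⟨b, h4⟩)))))
  have h4 : ∀ (s : Ms d n), ∀ i ∈ s.1, d i ≤ n := fun s i hi =>
    s.2 ▸ Multiset.le_sum_of_mem (Multiset.mem_map_of_mem _ hi)
  let Φ : Ms d n → Ms d' n := fun s => ⟨s.1.map f, by
    rw [Multiset.map_map]; exact (congrArg _ (Multiset.map_congr rfl fun i hi => h2 i (h4 s i hi))).trans s.2⟩
  have h5 : Function.Injective Φ := fun s t hst => by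
    have h6 : s.1.map f = t.1.map f := congrArg Subtype.val hst
    rcases isEmpty_or_nonempty κ with _ | _
    · exact Subsingleton.elim _ _
    have h7 : ∀ s : Ms d n, (s.1.map f).map (Function.invFunOn f {i | d i ≤ n}) = s.1 := fun s => by
      rw [Multiset.map_map]
      exact (Multiset.map_congr rfl fun i hi => h3.leftInvOn_invFunOn (h4 s i hi)).trans (Multiset.map_id' _)
    exact Subtype.ext (by rw [← h7 s, h6, h7])
  obtain ⟨s, hs⟩ := (h5.bijective_of_nat_card_le h.ge).2 ⟨{j.1}, by simpa using j.2⟩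
  obtain ⟨i, h6, h7⟩ := Multiset.map_eq_singleton.1 (congrArg Subtype.val hs)
  exact ⟨⟨i, by simpa [h6] using s.2⟩, Subtype.ext ((h1 _ _ _).symm.trans h7)⟩

theorem equiv_fib {κ κ' : Type*} {d : κ → ℕ} {d' : κ' → ℕ} [∀ n, Finite (Ms d n)]
    [∀ n, Finite (Ms d' n)] (h : ∀ n, Nat.card (Ms d n) = Nat.card (Ms d' n)) (n : ℕ) :
    Nonempty ({i // d i = n} ≃ {i // d' i = n}) := by
  induction n using Nat.strong_induction_on with
  | _ n ih =>
  rcases Function.Embedding.total {i // d i = n} {i // d' i = n} with h1 | h1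
  · have := fun k (hk : k ≤ n) => show Nonempty ({i // d i = k} ↪ {i // d' i = k}) from
      hk.eq_or_lt.elim (· ▸ h1) fun hk => ⟨(ih k hk).some.toEmbedding⟩
    exact ⟨.ofBijective _ ⟨(this n le_rfl).some.2, surj_fib (h n) fun k hk => (this k hk).some⟩⟩
  · have := fun k (hk : k ≤ n) => show Nonempty ({i // d' i = k} ↪ {i // d i = k}) from
      hk.eq_or_lt.elim (· ▸ h1) fun hk => ⟨(ih k hk).some.symm.toEmbedding⟩
    exact ⟨.symm (.ofBijective _ ⟨(this n le_rfl).some.2,
      surj_fib (h n).symm fun k hk => (this k hk).some⟩)⟩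

variable (F : Type*) [Field F] [Fintype F]

/-- Monic irreducible polynomials other than `X`. -/
abbrev IP : Type _ := {p : F[X] // p.Monic ∧ Irreducible p ∧ p.coeff 0 ≠ 0}

/-- The degree. -/
noncomputable def IP.deg (p : IP F) : ℕ := p.1.natDegree

theorem nonempty_ms_equiv (n : ℕ) : Nonempty (Ms (IP.deg F) n ≃ {f : MP F // f.1.natDegree = n}) := by
  classical
  have h0 : ∀ s : Multiset (IP F), ∀ p ∈ s.map Subtype.val, p.Monic ∧ Irreducible p ∧ p.coeff 0 ≠ 0 :=
    fun s p hp => by obtain ⟨x, -, rfl⟩ := Multiset.mem_map.1 hp; exact x.2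
  have h1 : ∀ s : Multiset (IP F), (s.map Subtype.val).prod.natDegree = (s.map (IP.deg F)).sum :=
    fun s => by rw [natDegree_multiset_prod_of_monic _ fun p hp => (h0 s p hp).1, Multiset.map_map]; rfl
  have h2 : ∀ s : Multiset (IP F), UniqueFactorizationMonoid.normalizedFactors
      (s.map Subtype.val).prod = s.map Subtype.val := fun s => by
    rw [UniqueFactorizationMonoid.normalizedFactors_prod_eq _ fun p hp => (h0 s p hp).2.1,
      Multiset.map_congr rfl fun p hp => (h0 s p hp).1.normalize_eq_self, Multiset.map_id']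
  refine ⟨.ofBijective (fun s => ⟨⟨(s.1.map Subtype.val).prod, monic_multiset_prod_of_monic _ _
    fun p _ => p.2.1, ?_⟩, (h1 _).trans s.2⟩) ⟨fun s t h => Subtype.ext (Multiset.map_injective
      Subtype.val_injective ?_), fun f => ?_⟩⟩
  · rw [coeff_zero_multiset_prod]
    refine Multiset.prod_ne_zero fun h => ?_
    obtain ⟨p, hp, h⟩ := Multiset.mem_map.1 h
    exact (h0 _ p hp).2.2 h
  · rw [← h2, ← h2 t.1]
    exact congrArg _ (congrArg (·.1.1) h)
  · have h3 := leadingCoeff_mul_prod_normalizedFactors f.1.1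
    rw [f.1.2.1.leadingCoeff, C_1, one_mul] at h3
    lift UniqueFactorizationMonoid.normalizedFactors f.1.1 to Multiset (IP F) using fun p hp => by
      obtain ⟨h4, h5, x, h6⟩ := (Polynomial.mem_normalizedFactors_iff f.1.2.1.ne_zero).1 hp
      exact ⟨h5, h4, fun h => f.1.2.2 (by rw [h6, mul_coeff_zero, h, zero_mul])⟩ with s hs
    exact ⟨⟨s, by rw [← h1, h3, f.2]⟩, Subtype.ext (Subtype.ext h3)⟩

theorem totient_le {n : ℕ} (hn : 2 ≤ n) : Nat.totient (Fintype.card F ^ n - 1) / n ≤
    Nat.card {p : IP F // p.deg F = n} := by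
  classical
  obtain ⟨p, _⟩ := CharP.exists F
  have := Fact.mk (CharP.char_is_prime F p)
  have := NeZero.mk (show n ≠ 0 by omega)
  let K := FiniteField.Extension F p n
  have := Fintype.ofFinite K
  have h1 : Fintype.card Kˣ = Fintype.card F ^ n - 1 := by
    rw [Fintype.card_units, ← Nat.card_eq_fintype_card, FiniteField.natCard_extension,
      Nat.card_eq_fintype_card]
  have := finite_MP (F := F) n
  have : Finite {p : IP F // p.deg F = n} := Finite.of_injective (β := {f : MP F // f.1.natDegree = n})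
    (fun p => ⟨⟨p.1.1, p.1.2.1, p.1.2.2.2⟩, p.2⟩) fun _ _ h =>
      Subtype.ext (Subtype.ext (congrArg (·.1.1) h))
  have := Fintype.ofFinite {p : IP F // p.deg F = n}
  have h2 := fun x : K => Algebra.IsIntegral.isIntegral (R := F) x
  refine Nat.div_le_of_le_mul ?_
  rw [← h1, ← IsCyclic.card_orderOf_eq_totient dvd_rfl, Nat.card_eq_fintype_card,
    ← Finset.card_univ (α := {p : IP F // p.deg F = n}),
    ← Finset.card_image_of_injective _ (Subtype.val_injective.comp Subtype.val_injective)]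
  refine Finset.card_le_mul_card_image_of_maps_to (f := fun x : Kˣ => minpoly F x.1) (fun x hx => ?_) _
    fun f hf => ?_
  · refine Finset.mem_image.2 ⟨⟨⟨_, minpoly.monic (h2 _), minpoly.irreducible (h2 _),
      minpoly.coeff_zero_ne_zero (h2 _) x.ne_zero⟩, ?_⟩, Finset.mem_univ _, rfl⟩
    refine ((Field.primitive_element_iff_minpoly_natDegree_eq F x.1).1 (eq_top_iff.2 fun y _ => ?_)).trans
      (FiniteField.finrank_extension F p n)
    rcases eq_or_ne y 0 with rfl | hy
    · exact zero_mem _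
    obtain ⟨k, hk⟩ := (Subgroup.eq_top_iff' _).1 (Subgroup.eq_top_of_card_eq (Subgroup.zpowers x) (by
      rw [Nat.card_zpowers, Nat.card_eq_fintype_card]; simpa using hx)) (Units.mk0 y hy)
    simpa [← show x.1 ^ k = y by simpa using congrArg Units.val hk] using
      zpow_mem (IntermediateField.mem_adjoin_simple_self F x.1) k
  · obtain ⟨g, -, rfl⟩ := Finset.mem_image.1 hf
    refine (Finset.card_le_card_of_injOn (t := (g.1.1.aroots K).toFinset) Units.val (fun x hx => ?_)
      Units.val_injective.injOn).trans ((Multiset.toFinset_card_le _).trans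
        ((card_roots' _).trans (natDegree_map_le.trans g.2.le)))
    have h3 : minpoly F x.1 = g.1.1 := (Finset.mem_filter.1 hx).2
    simp [← h3, minpoly.ne_zero (h2 _)]

end CL.Zel
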