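import Mathlib
import Cfsg.Agent.KSG.Zel5
import Cfsg.Agent.KSG.Zel6
import Cfsg.Agent.CHAR.Ind

/-! Degrees and numbers of the cuspidal characters of `GL_n(q)`. -/

set_option autoImplicit false
set_option linter.unusedSectionVars false

namespace CL.Zel

open Module CL.GLn Cfsg CL.Char Matrix
open scoped ComplexConjugate

universe u

variable {F : Type u} [Field F] [Fintype F] [DecidableEq F] {f g h : Cls F → ℂ} {n a b : ℕ}

variable (F) in
/-- The index of the unitriangular group. -/
noncomputable def phi (n : ℕ) : ℂ := ∏ i ∈ Finset.range n, ((Fintype.card F : ℂ) ^ (i + 1) - 1)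

theorem phi_ne_zero (n : ℕ) : phi F n ≠ 0 := Finset.prod_ne_zero_iff.2 fun i _ => sub_ne_zero.2 (by
  exact_mod_cast (Nat.one_lt_pow i.succ_ne_zero Fintype.one_lt_card).ne')

theorem deg_eq (z : ℕ → ℂ) (h0 : wh (n + 1) h = z n) (h1 : ∀ b a, b + 1 + a = n →
    wh (a + 1) (res h (cls (1 : End F (Fin (b + 1) → F)))) = phi F (b + 1) * z a) :
    h (cls (1 : End F (Fin (n + 1) → F))) = phi F n * ∑ i ∈ Finset.range (n + 1), z i := by
  have : ∀ b a, b + a = n → pj (n + 1) (b + 1) (b + 1) h = (Fintype.card F : ℂ) ^ ((b + 1) * a + tri a) *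
      phi F b * ∑ i ∈ Finset.Ico a (n + 1), z i := fun b => by
    induction b with
    | zero =>
      rintro a rfl
      simpa [pj_one, phi, tri, Finset.sum_range_succ, add_comm] using h0
    | succ b ih =>
      rintro a rfl
      refine mul_left_cancel₀ (card_pow_ne_zero (F := F) (b + 1)) ((pj_rec b a h).trans ?_)
      rw [pj_succ, h1 b a rfl, ← add_assoc, ih (a + 1) (by omega),
        Finset.sum_eq_sum_Ico_succ_bot (a := a) (by omega), phi, phi, Finset.prod_range_succ, tri, tri,
        Finset.sum_range_succ]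
      ring
  simpa [pj_self, tri] using this n 0 rfl

theorem wh_smul (n : ℕ) (a : ℂ) (f : Cls F → ℂ) : wh n (a • f) = a * wh n f := by
  simp [wh, Finset.mul_sum, ← mul_div_assoc, mul_assoc]

theorem wh_congr (h : ∀ c : Cls F, c.dim = n → f c = g c) : wh n f = wh n g := by
  rw [wh, wh, Finset.sum_congr rfl fun M _ => by rw [h _ (by simp)]]

theorem Cusp.deg_eq (hρ : Cusp h) : h (cls (1 : End F (Fin (n + 1) → F))) = phi F n * wh (n + 1) h := by
  rw [Zel.deg_eq (h := h) (fun i => if i = n then wh (n + 1) h else 0) (by simp) fun b a h1 => by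
    rw [if_neg (by omega), mul_zero, wh_congr (g := (0 : ℂ) • h) fun c hc => by
      simpa using hρ _ c (by simp) (by omega), wh_smul, zero_mul]]
  simp

theorem Cusp.irr {χ : IrrCharacter (GL (Fin (n + 1)) F)} (h : Cusp (ofGL χ.1)) :
    wh (n + 1) (ofGL χ.1) = 1 ∧ χ.1 1 = phi F n := by
  have h1 := h.deg_eq (n := n)
  rw [ofGL_one] at h1
  have h2 := (wh_irr χ).resolve_left fun h => χ.2.one_ne_zero (by simpa [h] using h1)
  exact ⟨h2, by simpa [h2] using h1⟩

variable (F) in
/-- The Gelfand–Graev character. -/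
noncomputable def gg (n : ℕ) : Cls F → ℂ := ofGL (indFun (UG F n) psiU)

theorem sup_gg (n : ℕ) : Sup n (gg F n) := sup_ofGL _

theorem ip_gg (f : Cls F → ℂ) : ip n f (gg F n) = wh n f := by
  have := Fintype.ofFinite (UG F n)
  rw [gg, ip_eq f (sup_ofGL _), toGL_ofGL (indFun_isClassFunction _ _),
    classInner_indFun_right _ (isClassFunction_toGL n f), wh_eq]

theorem gg_one : gg F n (cls (1 : End F (Fin n → F))) = phi F n := by
  have h1 := congrFun (toGL_ofGL (indFun_isClassFunction (UG F n) psiU)) 1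
  simp only [toGL, Units.val_one, toLin'_one, indFun_one, map_one, mul_one] at h1
  refine h1.trans (mul_left_cancel₀ (card_pow_ne_zero (F := F) (tri n)) ?_)
  rw [← card_UG, ← Nat.cast_mul, Subgroup.card_mul_index, card_GL_field, card_UG, tri, phi,
    ← Finset.prod_pow_eq_pow_sum, ← Finset.prod_range_reflect fun i => (_ : ℂ) ^ (i + 1) - 1,
    ← Finset.prod_mul_distrib, Finset.prod_range, Nat.cast_prod]
  refine Finset.prod_congr rfl fun i _ => ?_
  rw [Nat.cast_sub (Nat.pow_le_pow_right Fintype.card_pos i.2.le), mul_sub, ← pow_add,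
    show i + (n - 1 - i + 1) = n by omega]
  simp

theorem Sup.ext (hf : Sup n f) (hg : Sup n g)
    (h : ∀ χ : IrrCharacter (GL (Fin n) F), ip n f (ofGL χ.1) = ip n g (ofGL χ.1)) : f = g :=
  funext fun c => by
    by_cases hc : c.dim = n
    · rw [eq_sum_irr (fun c h => (hf c h).2) hc, eq_sum_irr (fun c h => (hg c h).2) hc]
      simp only [h]
    · rw [by_contra fun h => hc (hf c h).1, by_contra fun h => hc (hg c h).1]

theorem prp_gg (hf : Hg a f) : prp a (star f) (gg F (a + b)) = conj (wh a f) • gg F b :=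
  ((sup_gg _).prp _).ext (fun c h => sup_gg _ c (right_ne_zero_of_mul h)) fun χ => by
    rw [← ip_mul hf, ← conj_ip, ip_gg, add_comm, wh_mul hf, map_mul, ← ip_gg (ofGL χ.1), conj_ip]
    exact (map_smul (ipL b _) _ _).symm

theorem res_gg {c : Cls F} (hc : c.dim = a) (d : Cls F) :
    res (gg F (a + b)) c d = gg F a c * gg F b d := by
  rw [res_eq_sum (sup_gg _) hc, eq_sum_irr (fun c h => (sup_gg _ c h).2) hc, Finset.sum_mul]
  refine Finset.sum_congr rfl fun χ _ => ?_
  rw [prp_gg (sup_ofGL _).hg, ← ip_gg, conj_ip]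
  simp; ring

theorem sum_wh_gg (n : ℕ) : ∑ i ∈ Finset.range n, wh (i + 1) (gg F (i + 1)) =
    (Fintype.card F : ℂ) ^ n - 1 := by
  rcases n with _ | n
  · simp
  refine mul_left_cancel₀ (phi_ne_zero (F := F) n) ?_
  rw [← deg_eq (h := gg F (n + 1)) _ rfl, gg_one, phi, phi, Finset.prod_range_succ]
  rintro b a rfl
  rw [add_assoc _ a, funext (res_gg (by simp)), gg_one]
  exact wh_smul _ _ _

theorem wh_eq_sum (f : Cls F → ℂ) :
    wh n f = ∑ χ : IrrCharacter (GL (Fin n) F), ip n f (ofGL χ.1) * wh n (ofGL χ.1) := by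
  rw [← ip_gg, ip_eq f (sup_gg _), inner_eq_sum_of_right _ (isClassFunction_toGL _ _)]
  exact Finset.sum_congr rfl fun χ _ => by rw [← ip_ofGL, ← ip_ofGL, conj_ip, ip_gg]

/-- The generic characters. -/
abbrev Gen (F : Type u) [Field F] [Fintype F] [DecidableEq F] (n : ℕ) :=
  {χ : IrrCharacter (GL (Fin n) F) // wh n (ofGL χ.1) = 1}

theorem wh_gg : wh n (gg F n) = Nat.card (Gen F n) := by
  classical
  rw [wh_eq_sum, Nat.card_eq_fintype_card, Fintype.card_subtype, Finset.card_filter]
  push_cast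
  refine Finset.sum_congr rfl fun χ _ => ?_
  rw [← conj_ip, ip_gg]
  rcases wh_irr χ with h | h <;> simp [h]

theorem wh_zero (f : Cls F → ℂ) : wh 0 f = f (cls (1 : End F (Fin 0 → F))) := by
  simpa [tri] using (sum_aj (n := 0) f).symm.trans (pj_self 0 f)

theorem card_gen : Nat.card (Gen F n) = Nat.card {f : MP F // f.1.natDegree = n} := by
  refine Nat.cast_injective (R := ℂ) ?_
  rw [← wh_gg, ← Int.cast_natCast, card_MP]
  rcases n with _ | n
  · simp [wh_zero, gg_one, phi]
  · have := sum_wh_gg (F := F) (n + 1)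
    rw [Finset.sum_range_succ, sum_wh_gg] at this
    simp
    linear_combination this

theorem wh_R (s : List (CuspIrr F)) : wh (s.map (sys F).deg).sum ((sys F).R s) = 1 := by
  induction s with
  | nil => simp [wh_zero, Sys.R, one]
  | cons i s ih =>
    rw [List.map_cons, List.sum_cons, add_comm, Sys.R, wh_mul ((sys F).hg i), ih, mul_one]
    obtain ⟨_ | d, χ, h1, h2⟩ := i
    · exact absurd rfl h1
    · exact h2.irr.1

theorem nonempty_gen_equiv (n : ℕ) : Nonempty (Ms (sys F).deg n ≃ Gen F n) := by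
  classical
  have h0 : ∀ s : Ms (sys F).deg n, (s.1.toList.map (sys F).deg).sum = n := fun s => by
    rw [← Multiset.sum_coe, ← Multiset.map_coe, Multiset.coe_toList, s.2]
  have h1 : ∀ s : Ms (sys F).deg n, Ch n ((sys F).R s.1.toList) := fun s => by
    simpa only [h0] using ch_R s.1.toList
  have h2 : ∀ s : Ms (sys F).deg n, ∃! χ : Gen F n, ip n ((sys F).R s.1.toList) (ofGL χ.1.1) ≠ 0 :=
    fun s => by
    choose m hm using fun χ => (h1 s).ip_nat (ch_ofGL χ)
    have h3 := wh_R s.1.toList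
    rw [h0, wh_eq_sum, ← Fintype.sum_subtype_add_sum_subtype (fun χ => wh n (ofGL χ.1) = 1),
      Finset.sum_eq_zero (s := Finset.univ (α := {x // ¬ _})) fun χ _ => by
        rw [(wh_irr χ.1).resolve_right χ.2, mul_zero], add_zero,
      Finset.sum_congr rfl fun χ _ => by rw [χ.2, mul_one, hm]] at h3
    norm_cast at h3
    obtain ⟨χ, -, h4⟩ := Finset.exists_ne_zero_of_sum_ne_zero (h3.trans_ne one_ne_zero)
    refine ⟨χ, by simpa [hm], fun ψ h5 => by_contra fun h6 => ?_⟩
    have := (Finset.add_le_sum (fun _ _ => Nat.zero_le _)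
      (Finset.mem_univ ψ) (Finset.mem_univ χ) h6).trans_eq h3
    simp only [hm, ne_eq, Nat.cast_eq_zero] at h5
    omega
  choose Φ h3 h4 using h2
  refine ⟨.ofBijective Φ ⟨fun s t h => ?_, fun χ => ?_⟩⟩
  · obtain ⟨k, -, hk⟩ := (sys F).ip_R s.1.toList
    have := (h1 t).ip_ne_zero (h1 s) (h3 t) (h ▸ h3 s)
    rw [h0] at hk
    rw [hk] at this
    refine Subtype.ext ?_
    rw [← s.1.coe_toList, ← t.1.coe_toList, Multiset.coe_eq_coe]
    exact by_contra fun h => by simp [h] at this
  · obtain ⟨s, h5, h6⟩ := exists_list χ.1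
    refine ⟨⟨s, by simpa using h5⟩, (h4 _ _ ?_).symm⟩
    rwa [(sys F).R_perm (Multiset.coe_eq_coe.1 (Multiset.coe_toList _))]

theorem card_cusp (n : ℕ) :
    Nat.card {i : CuspIrr F // i.1 = n} = Nat.card {p : IP F // p.deg F = n} := by
  have := fun n => Finite.of_equiv _ (nonempty_gen_equiv (F := F) n).some.symm
  have := fun n => have := finite_MP (F := F) n; Finite.of_equiv _ (nonempty_ms_equiv F n).some.symm
  exact Nat.card_congr (equiv_fib (d := (sys F).deg) (fun n => by
    rw [Nat.card_congr (nonempty_gen_equiv n).some, Nat.card_congr (nonempty_ms_equiv F n).some,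
      card_gen]) n).some

open Classical in
theorem Cusp.sum_eq_zero {χ : GL (Fin n) F → ℂ} (hχ : IsClassFunction _ χ) (h : Cusp (ofGL χ))
    {m : ℕ} (h0 : 0 < m) (h1 : m < n) : (∑ g : GL (Fin n) F, if ∀ i j : Fin n, ¬ (i.val < m ∧ m ≤ j.val) →
      g.1 i j = (1 : Matrix (Fin n) (Fin n) F) i j then χ g else 0) = 0 := by
  obtain ⟨a, rfl⟩ := Nat.exists_eq_add_of_le h1.le
  have h2 : ∀ M : Matrix (Fin (m + a)) (Fin (m + a)) F, (∀ i j : Fin (m + a), ¬ (i.val < m ∧ m ≤ j.val) →
      M i j = (1 : Matrix _ _ F) i j) → Aj m M := fun M h i j hij => h i j (by omega)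
  rw [← toGL_ofGL hχ]
  simp only [toGL]
  rw [Fintype.sum_of_injective Units.val Units.val_injective _ (fun M =>
    if ∀ i j : Fin (m + a), ¬ (i.val < m ∧ m ≤ j.val) → M i j = (1 : Matrix _ _ F) i j then
      ofGL χ (cls (toLin' M)) else 0) (fun M hM => if_neg fun h => hM ⟨GeneralLinearGroup.mkOfDetNeZero M
        (Aj.det fun i j hij => h i j (by omega)), rfl⟩) fun _ => rfl,
    sum_fb _ fun M hM => (h2 M (ite_ne_right_iff.1 hM).1).nc]
  refine Finset.sum_eq_zero fun B _ => Finset.sum_eq_zero fun C _ => ?_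
  rw [Finset.sum_congr rfl fun X _ => if_congr (Q := B = 1 ∧ C = 1) (by
    simp [Fin.forall_fin_add, ← fb_one (b := m) (a := a), ← Matrix.ext_iff]) rfl rfl,
    Finset.sum_ite_irrel, sum_fb_eq, h _ _ (by simp; omega) (by simp; omega)]
  simp

end CL.Zel
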