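/-
The minimal degree of a permutation representation of `SL(V)`, `dim V ≥ 3`.
-/
import Mathlib
import Cfsg.Agent.KSG.CoopBasic
import Cfsg.Agent.KSG.LSSLMin

set_option autoImplicit false

namespace CL.Coop

open Module CL.LS

variable {F V : Type*} [Field F] [AddCommGroup V] [Module F V]
  {Ω : Type*} [MulAction (SpecialLinearGroup F V) Ω] {ψ : AddChar F ℂ}

theorem exists_dual_of_ne_zero {φ : Dual F V} (h : φ ≠ 0) : ∃ u, φ u = 1 := by
  obtain ⟨u, hu⟩ := DFunLike.ne_iff.mp h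
  have hu' : φ u ≠ 0 := hu
  exact ⟨(φ u)⁻¹ • u, by simp [hu']⟩

theorem tv_conj_smul {φ φ' : Dual F V} {x : V} {ω : Ω} (g : SpecialLinearGroup F V) (h : φ x = 0)
    (hφ : ∀ v, φ' (g.1 v) = φ v) : tv φ' (g.1 x) • g • ω = g • ω ↔ tv φ x • ω = ω := by
  rw [← mul_smul, ← mul_tv g h hφ, mul_smul, smul_left_cancel_iff]

theorem tv_add_smul {φ φ' : Dual F V} {x : V} {ω : Ω} (h : φ x = 0) (h' : φ' x = 0)
    (h₁ : tv φ x • ω = ω) : tv (φ + φ') x • ω = ω ↔ tv φ' x • ω = ω := by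
  rw [add_comm, tv_add_left h' h, mul_smul, h₁]

theorem tv_comm_smul {φ φ' : Dual F V} {x : V} {ω : Ω} (h : φ x = 0) (h' : φ' x = 0) :
    tv φ x • tv φ' x • ω = tv φ' x • ω ↔ tv φ x • ω = ω := by
  rw [← mul_smul, (commute_tv h h').eq, mul_smul, smul_left_cancel_iff]

/-- The points all of whose transvections fix `ω`. -/
def full (ω : Ω) : Submodule F V where
  carrier := {x | ∀ φ : Dual F V, φ x = 0 → tv φ x • ω = ω}
  zero_mem' := fun φ _ => by rw [tv_zero_right, one_smul]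
  smul_mem' := fun c x hx φ h => by
    by_cases hc : c = 0
    · rw [hc, zero_smul, tv_zero_right, one_smul]
    · have h' : φ x = 0 := by simpa [hc] using h
      rw [← tv_smul h']
      exact hx _ (by simp [h'])
  add_mem' := fun {x y} hx hy φ h => by
    by_cases hxy : x ∈ F ∙ y
    · obtain ⟨c, rfl⟩ := Submodule.mem_span_singleton.mp hxy
      rw [show c • y + y = (c + 1) • y by module] at h ⊢
      by_cases hc : c + 1 = 0
      · rw [hc, zero_smul, tv_zero_right, one_smul]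
      · have h' : φ y = 0 := by simpa [hc] using h
        rw [← tv_smul h']
        exact hy _ (by simp [h'])
    · obtain ⟨θ, h₁, h₂⟩ := Tv.exists_dual_one_zero hxy
      have h3 : (φ ∘ₗ (tv θ y).1.toLinearMap) x = 0 := by simpa [tv_apply h₂, h₁] using h
      have := (tv_conj_smul (φ' := φ) (tv θ y) h3 fun v => rfl).mpr (hx _ h3)
      rwa [hy θ h₂, tv_apply h₂, h₁, one_smul] at this

theorem mem_full {ω : Ω} {x : V} :
    x ∈ full (F := F) ω ↔ ∀ φ : Dual F V, φ x = 0 → tv φ x • ω = ω := Iff.rfl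

theorem apply_mem_full {ω : Ω} {x : V} (hx : x ∈ full (F := F) ω) (g : SpecialLinearGroup F V) :
    g.1 x ∈ full (F := F) (g • ω) := fun φ h =>
  (tv_conj_smul (φ := φ ∘ₗ g.1.toLinearMap) g h fun _ => rfl).mpr (hx _ h)

variable (ψ) in
/-- The weight `α` occurs on the orbit of `ω` under the transvections with centre `x`. -/
def Occ (x : V) (ω : Ω) (α : V) : Prop :=
  ∀ φ : Dual F V, φ x = 0 → tv φ x • ω = ω → ψ (φ α) = 1

theorem Occ.smul {x α : V} {ω : Ω} (h : Occ ψ x ω α) (g : SpecialLinearGroup F V) :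
    Occ ψ (g.1 x) (g • ω) (g.1 α) := fun φ h₁ h₂ =>
  h (φ ∘ₗ g.1.toLinearMap) h₁ ((tv_conj_smul (φ := φ ∘ₗ g.1.toLinearMap) g h₁ fun _ => rfl).mp h₂)

/-- All transvections with centre `x` whose axis contains `α` fix `ω`. -/
def Ln (ω : Ω) (x α : V) : Prop :=
  α ∉ F ∙ x ∧ ∀ θ : Dual F V, θ x = 0 → θ α = 0 → tv θ x • ω = ω

theorem Ln.map {ω : Ω} {x α : V} (h : Ln (F := F) ω x α) {g : SpecialLinearGroup F V}
    (hg : g • ω = ω) : Ln (F := F) ω (g.1 x) (g.1 α) :=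
  ⟨fun h1 => h.1 (by
    obtain ⟨c, hc⟩ := Submodule.mem_span_singleton.mp h1
    exact Submodule.mem_span_singleton.mpr ⟨c, g.1.injective (by rw [map_smul, hc])⟩),
  fun θ h₁ h₂ => by
    have := (tv_conj_smul (φ := θ ∘ₗ g.1.toLinearMap) (φ' := θ) g h₁ fun _ => rfl).mpr
      (h.2 _ h₁ h₂)
    rwa [hg] at this⟩

theorem Ln.unique {ω : Ω} {x α β : V} (h : Ln (F := F) ω x α) (h' : Ln (F := F) ω x β)
    (hx : x ∉ full (F := F) ω) : β ∈ Submodule.span F {x, α} := by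
  by_contra hβ
  obtain ⟨θ, h₁, h₂⟩ := Tv.exists_dual_one _ hβ
  have h₃ := h₂ x (Submodule.subset_span (by simp))
  have h₄ := h₂ α (Submodule.subset_span (by simp))
  refine hx fun φ hφ => ?_
  rw [← add_sub_cancel (φ β • θ) φ, tv_add_smul (by simp [h₃]) (by simp [h₃, hφ])
    (h.2 _ (by simp [h₃]) (by simp [h₄]))]
  exact h'.2 _ (by simp [h₃, hφ]) (by simp [h₁])

theorem Ln.line {ω : Ω} {x α y β : V} (h : Ln (F := F) ω x α) (h' : Ln (F := F) ω y β)
    (hy : y ∉ full (F := F) ω) (hy₁ : y ∈ Submodule.span F {x, α}) (hy₂ : y ∉ F ∙ x)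
    (hx : x ≠ 0) : β ∈ Submodule.span F {x, α} := by
  by_contra hβ
  obtain ⟨θ, h₁, h₂⟩ := Tv.exists_dual_one _ hβ
  have h₃ := h₂ x (Submodule.subset_span (by simp))
  have h₅ := h'.map (h.2 θ h₃ (h₂ α (Submodule.subset_span (by simp))))
  rw [tv_apply h₃, tv_apply h₃, h₂ y hy₁, h₁, zero_smul, add_zero, one_smul] at h₅
  obtain ⟨a, b, hab⟩ := Submodule.mem_span_pair.mp (h'.unique h₅ hy)
  have h₆ := congrArg θ hab
  simp only [map_add, map_smul, h₂ y hy₁, h₁, h₃, smul_eq_mul, mul_zero, mul_one, zero_add,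
    add_zero] at h₆
  rw [h₆, one_smul, add_comm, add_right_inj] at hab
  refine hy₂ ((Submodule.smul_mem_iff _ (left_ne_zero_of_smul (hab ▸ hx : a • y ≠ 0))).mp ?_)
  rw [hab]
  exact Submodule.mem_span_singleton_self x

variable [Finite F] [FiniteDimensional F V] [Finite Ω]

theorem wp_single_eq_zero [DecidableEq Ω] {x α : V} {ω : Ω} (h : ¬ Occ ψ x ω α) :
    wp ψ (pr (SpecialLinearGroup F V) Ω) (F ∙ x) x α (Pi.single ω 1) = 0 := by
  by_contra h0
  refine h fun φ h₁ h₂ => smul_left_injective ℂ h0 ?_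
  have h₃ : ∀ w ∈ F ∙ x, φ w = 0 := fun w hw => by
    obtain ⟨c, rfl⟩ := Submodule.mem_span_singleton.mp hw
    simp [h₁]
  have h₄ := commute_wp (ψ := ψ) (ρ := pr (SpecialLinearGroup F V) Ω) (W := F ∙ x)
    (fun θ hθ => (commute_tv h₁ (hθ x (Submodule.mem_span_singleton_self x))).map _) α
  simp only
  rw [one_smul, ← LinearMap.smul_apply, ← tv_mul_wp (Submodule.mem_span_singleton_self x) h₃,
    h₄.eq, Module.End.mul_apply, pr_single, h₂]

theorem exists_occ (hψ : ψ ≠ 1) {x : V} (hx : x ≠ 0) {ω : Ω} {θ : Dual F V} (h₁ : θ x = 0)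
    (h₂ : tv θ x • ω ≠ ω) : ∃ β, Occ ψ x ω β ∧ ψ (θ β) ≠ 1 := by
  classical
  have : Finite V := Module.finite_of_finite F
  let := Fintype.ofFinite V
  by_contra! h
  have h₃ : ∀ w ∈ F ∙ x, θ w = 0 := fun w hw => by
    obtain ⟨c, rfl⟩ := Submodule.mem_span_singleton.mp hw
    simp [h₁]
  have h₄ : pr _ Ω (tv θ x) ((∑ α, wp ψ (pr (SpecialLinearGroup F V) Ω) (F ∙ x) x α)
      (Pi.single ω 1)) = (∑ α, wp ψ (pr (SpecialLinearGroup F V) Ω) (F ∙ x) x α)
        (Pi.single ω 1) := by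
    rw [LinearMap.sum_apply, map_sum]
    refine Finset.sum_congr rfl fun β _ => ?_
    by_cases hβ : Occ ψ x ω β
    · rw [← Module.End.mul_apply, tv_mul_wp (Submodule.mem_span_singleton_self x) h₃, h β hβ,
        one_smul]
    · rw [wp_single_eq_zero hβ, map_zero]
  rw [sum_wp hψ hx, LinearMap.smul_apply, map_smul, Module.End.one_apply, pr_single] at h₄
  have := congrFun (smul_right_injective _ (Nat.cast_ne_zero.mpr Nat.card_pos.ne') h₄) ω
  simp [h₂.symm] at this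

theorem Occ.exists_eq (hψ : ψ ≠ 1) {x α : V} {ω ω' : Ω} (h : Occ ψ x ω α) (h' : Occ ψ x ω' α)
    (h1 : LinearMap.trace ℂ _ (wp ψ (pr (SpecialLinearGroup F V) Ω) (F ∙ x) x α) = 1) :
    ∃ φ : Dual F V, φ x = 0 ∧ tv φ x • ω = ω' := by
  classical
  by_contra! hne
  have hx := Submodule.mem_span_singleton_self (R := F) x
  have key : ∀ {ω : Ω}, Occ ψ x ω α →
      wp ψ (pr (SpecialLinearGroup F V) Ω) (F ∙ x) x α (Pi.single ω 1) ω ≠ 0 := fun {ω} h => by
    simp only [wp, LinearMap.smul_apply, LinearMap.sum_apply, pr_single, Pi.smul_apply,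
      Finset.sum_apply, smul_eq_mul]
    refine mul_ne_zero (inv_ne_zero (card_ann_ne_zero _)) ?_
    rw [Finset.sum_congr rfl (g := fun φ => if tv φ.1 x • ω = ω then 1 else 0), Finset.sum_boole,
      Nat.cast_ne_zero, Finset.card_ne_zero]
    · exact ⟨0, by simp [tv_zero_left]⟩
    · intro φ _
      split_ifs with hφ
      · simp [hφ, AddChar.map_neg_eq_inv, h _ (ann_apply φ hx) hφ]
      · simp [Ne.symm hφ]
  rw [trace_idem (wp_mul_self hψ hx α), Nat.cast_eq_one] at h1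
  obtain ⟨c, hc⟩ := (finrank_eq_one_iff_of_nonzero' ⟨_, Pi.single ω 1, rfl⟩
    fun h0 => key h (congrFun (congrArg Subtype.val h0) ω)).mp h1 ⟨_, Pi.single ω' 1, rfl⟩
  refine key h' ?_
  rw [← show c • wp ψ _ _ x α (Pi.single ω 1) = wp ψ _ _ x α (Pi.single ω' 1) from
    congrArg Subtype.val hc]
  simp [wp, pr_single, fun φ => (hne _ (ann_apply φ hx)).symm]

section One

variable (hψ : ψ ≠ 1) (h1 : ∀ x α : V, x ≠ 0 → α ∉ F ∙ x →
  LinearMap.trace ℂ _ (wp ψ (pr (SpecialLinearGroup F V) Ω) (F ∙ x) x α) = 1)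

include hψ h1

theorem Occ.tv_smul_eq {x α w : V} {ω : Ω} (hx : x ≠ 0) (hα : α ∉ F ∙ x) (h : Occ ψ x ω α)
    {φ θ : Dual F V} (h₁ : φ x = 0) (h₂ : tv φ x • ω = ω) (h₃ : θ x = 0) (h₄ : θ α = 0)
    (h₅ : θ w = 0) (h₆ : φ w = 1) : tv θ x • ω = ω := by
  have h' := h.smul (tv θ w)
  rw [tv_apply h₅, tv_apply h₅, h₃, h₄, zero_smul, add_zero, add_zero] at h'
  obtain ⟨η, hη, hη'⟩ := h.exists_eq hψ h' (h1 x α hx hα)
  have h₇ := (tv_conj_smul (φ' := φ - θ) (tv θ w) h₁ fun v => by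
    simp [tv_apply h₅, h₅, h₆]).mpr h₂
  rw [tv_apply h₅, h₃, zero_smul, add_zero, ← hη', tv_comm_smul (by simp [h₁, h₃]) hη] at h₇
  rwa [← tv_add_smul (by simp [h₁, h₃]) h₃ h₇, sub_add_cancel]

theorem exists_ln {x : V} {ω : Ω} (hx : x ∉ full (F := F) ω) {φ : Dual F V} (h₀ : φ ≠ 0)
    (h₁ : φ x = 0) (h₂ : tv φ x • ω = ω) : ∃ α, Ln (F := F) ω x α := by
  have hx0 : x ≠ 0 := fun h => hx (h ▸ Submodule.zero_mem _)
  have key : ∀ {θ : Dual F V}, θ x = 0 → tv θ x • ω ≠ ω →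
      ∃ β, β ∉ F ∙ x ∧ Occ ψ x ω β ∧ θ β ≠ 0 := fun {θ} h h' => by
    obtain ⟨β, hβ, hβ'⟩ := exists_occ hψ hx0 h h'
    have : θ β ≠ 0 := fun h0 => hβ' (by simp [h0])
    refine ⟨β, fun hm => ?_, hβ, this⟩
    obtain ⟨c, rfl⟩ := Submodule.mem_span_singleton.mp hm
    exact this (by simp [h])
  by_cases hc : ∃ β, β ∉ F ∙ x ∧ Occ ψ x ω β ∧ φ β ≠ 0
  · obtain ⟨β, hβ, hβ', h⟩ := hc
    exact ⟨β, hβ, fun θ h₃ h₄ => hβ'.tv_smul_eq hψ h1 hx0 hβ h₁ h₂ h₃ h₄ (w := (φ β)⁻¹ • β)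
      (by simp [h₄]) (by simp [h])⟩
  · push Not at hc
    obtain ⟨θ₀, h₃, h₄⟩ : ∃ θ : Dual F V, θ x = 0 ∧ tv θ x • ω ≠ ω := by
      simpa [mem_full] using hx
    obtain ⟨α, hα, hα', -⟩ := key h₃ h₄
    refine ⟨α, hα, fun θ h₅ h₆ => by_contra fun h₇ => h₇ ?_⟩
    obtain ⟨β, hβ, hβ', h₈⟩ := key h₅ h₇
    obtain ⟨u, hu⟩ := exists_dual_of_ne_zero h₀
    exact hα'.tv_smul_eq hψ h1 hx0 hα h₁ h₂ h₅ h₆ (w := u - (θ u / θ β) • β) (by simp [h₈])
      (by simp [hu, hc β hβ hβ'])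

theorem exists_fix_line (h3 : 3 ≤ finrank F V) {ω : Ω} (hω : full (F := F) (V := V) ω ≠ ⊤)
    (h : ∀ x : V, x ∉ full (F := F) ω → ∃ φ : Dual F V, φ ≠ 0 ∧ φ x = 0 ∧ tv φ x • ω = ω) :
    ∃ z : V, z ≠ 0 ∧ ∀ g : SpecialLinearGroup F V, g • ω = ω → ∃ c : F, g.1 z = c • z := by
  have hL : ∀ x, x ∉ full (F := F) ω → ∃ α, Ln (F := F) ω x α := fun x hx => by
    obtain ⟨φ, h₀, h₁, h₂⟩ := h x hx
    exact exists_ln hψ h1 hx h₀ h₁ h₂
  obtain ⟨x, hx⟩ : ∃ x, x ∉ full (F := F) ω := by simpa [Submodule.eq_top_iff'] using hω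
  obtain ⟨α, hα⟩ := hL x hx
  have hx0 : x ≠ 0 := fun h => hx (h ▸ Submodule.zero_mem _)
  have key : ∀ w ∉ Submodule.span F {x, α}, ∃ φ : Dual F V, φ w = 1 ∧ φ x = 0 ∧ φ α = 0 :=
    fun w hw => by
      obtain ⟨φ, h₁, h₂⟩ := Tv.exists_dual_one _ hw
      exact ⟨φ, h₁, h₂ x (Submodule.subset_span (by simp)), h₂ α (Submodule.subset_span (by simp))⟩
  by_cases hD : full (F := F) (V := V) ω = ⊥
  · exfalso
    simp only [hD, Submodule.mem_bot] at hL
    have hD' : ∀ {y : V}, y ≠ 0 → y ∉ full (F := F) ω := fun h => by simpa [hD] using h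
    obtain ⟨w, -, hw⟩ := exists_notMem_of_finrank_lt (U := Submodule.span F {x, α}) (W := ⊤)
      (by have := finrank_span_pair_le (F := F) x α; rw [finrank_top]; omega)
    obtain ⟨φ, h₁, h₂, h₃⟩ := key w hw
    have hw0 : w ≠ 0 := fun h => by simp [h] at h₁
    obtain ⟨β, hβ⟩ := hL w hw0
    have hz : β - φ β • w ∉ F ∙ w := fun h => hβ.1 (by
      simpa using Submodule.add_mem _ h (Submodule.smul_mem _ (φ β)
        (Submodule.mem_span_singleton_self w)))
    have hz0 : β - φ β • w ≠ 0 := fun h => hz (h ▸ Submodule.zero_mem _)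
    have hz1 : β - φ β • w ∈ Submodule.span F {w, β} :=
      Submodule.mem_span_pair.mpr ⟨-φ β, 1, by module⟩
    have hker : ∀ v ∈ Submodule.span F {w, β}, φ v = 0 → v ∈ F ∙ (β - φ β • w) := fun v hv h0 => by
      obtain ⟨a, b, rfl⟩ := Submodule.mem_span_pair.mp hv
      have : a = -(b * φ β) := by simpa [h₁, add_eq_zero_iff_eq_neg] using h0
      exact Submodule.mem_span_singleton.mpr ⟨b, by rw [this]; module⟩
    obtain ⟨γ, hγ⟩ := hL _ hz0
    have hγ1 := hβ.line hγ (hD' hz0) hz1 hz hw0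
    have hγ2 := hγ.map (hα.2 φ h₂ h₃)
    rw [tv_apply h₂, tv_apply h₂, show φ (β - φ β • w) = 0 by simp [h₁], zero_smul,
      add_zero] at hγ2
    have hγ3 : γ + φ γ • x ∈ Submodule.span F {w, β} := Submodule.span_le.mpr (by
      rintro _ (rfl | rfl)
      exacts [hz1, hγ1]) (hγ.unique hγ2 (hD' hz0))
    have hx1 : x ∈ Submodule.span F {w, β} := (Submodule.smul_mem_iff _ fun h0 =>
      hγ.1 (hker γ hγ1 h0)).mp ((Submodule.add_mem_iff_right _ hγ1).mp hγ3)
    have hα1 := hβ.line hα hx hx1 (fun h => by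
      obtain ⟨c, hc⟩ := Submodule.mem_span_singleton.mp h
      have : c = 0 := by simpa [← hc, h₁] using h₂
      exact hx0 (by rw [← hc, this, zero_smul])) hw0
    obtain ⟨a, ha⟩ := Submodule.mem_span_singleton.mp (hker x hx1 h₂)
    obtain ⟨b, hb⟩ := Submodule.mem_span_singleton.mp (hker α hα1 h₃)
    have ha0 : a ≠ 0 := left_ne_zero_of_smul (ha ▸ hx0)
    exact hα.1 (Submodule.mem_span_singleton.mpr ⟨b / a, by
      rw [← ha, ← hb, smul_smul, div_mul_cancel₀ _ ha0]⟩)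
  · obtain ⟨z, hz, hz0⟩ := (Submodule.ne_bot_iff _).mp hD
    have hle : full (F := F) ω ≤ Submodule.span F {x, α} := fun w hw => by_contra fun hw' => by
      obtain ⟨φ, h₁, h₂, h₃⟩ := key w hw'
      have := apply_mem_full hw (tv φ x)
      rw [hα.2 φ h₂ h₃, tv_apply h₂, h₁, one_smul] at this
      exact hx ((Submodule.add_mem_iff_right _ hw).mp this)
    have hlt := Submodule.finrank_lt_finrank_of_lt (lt_of_le_of_ne hle fun h =>
      hx (h ▸ Submodule.subset_span (by simp)))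
    have := finrank_span_pair_le (F := F) x α
    have h2 : (F ∙ z) = full ω := Submodule.eq_of_le_of_finrank_le
      ((Submodule.span_singleton_le_iff_mem _ _).mpr hz) (by rw [finrank_span_singleton hz0]; omega)
    refine ⟨z, hz0, fun g hg => ?_⟩
    have := apply_mem_full hz g
    rw [hg, ← h2] at this
    obtain ⟨c, hc⟩ := Submodule.mem_span_singleton.mp this
    exact ⟨c, hc.symm⟩

/-- The case of a regular orbit. -/
theorem exists_tv_mul_smul (h3 : 3 ≤ finrank F V) {x : V} {ω : Ω} (hx : x ≠ 0)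
    (h : ∀ φ : Dual F V, φ x = 0 → tv φ x • ω = ω → φ = 0) {g : SpecialLinearGroup F V}
    (hg : g.1 x = x) : ∃ η : Dual F V, η x = 0 ∧ (tv η x * g) • ω = ω := by
  obtain ⟨α, -, hα⟩ := exists_notMem_of_finrank_lt (U := F ∙ x) (W := ⊤)
    (by rw [finrank_span_singleton hx, finrank_top]; omega)
  have h₁ : ∀ β, Occ ψ x ω β := fun β φ h₁ h₂ => by simp [h φ h₁ h₂]
  have h₂ := (h₁ (g⁻¹.1 α)).smul g
  rw [hg, sl_apply_inv] at h₂
  obtain ⟨η, hη, hη'⟩ := h₂.exists_eq hψ (h₁ α) (h1 x α hx hα)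
  exact ⟨η, hη, by rw [mul_smul, hη']⟩

end One

omit [Finite F] [Finite Ω] in
/-- Subgroups without transvections supplementing the groups of transvections. -/
theorem not_supplement (h3 : 3 ≤ finrank F V) {ω : Ω}
    (h₁ : ∀ (φ : Dual F V) x, φ x = 0 → tv φ x • ω = ω → φ = 0 ∨ x = 0)
    (h₂ : ∀ x ≠ 0, ∀ g : SpecialLinearGroup F V, g.1 x = x →
      ∃ η : Dual F V, η x = 0 ∧ (tv η x * g) • ω = ω)
    (h : ((2 : F) = 0 ∧ finrank F V = 3) ∨ ((2 : F) ≠ 0 ∧ 4 ≤ finrank F V)) : False := by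
  have : Nontrivial V := Module.nontrivial_of_finrank_pos (R := F) (by omega)
  obtain ⟨x, hx⟩ := exists_ne (0 : V)
  obtain ⟨y, -, hy⟩ := exists_notMem_of_finrank_lt (U := F ∙ x) (W := ⊤)
    (by rw [finrank_span_singleton hx, finrank_top]; omega)
  obtain ⟨u, -, hu⟩ := exists_notMem_of_finrank_lt (U := Submodule.span F {x, y}) (W := ⊤)
    (by have := finrank_span_pair_le (F := F) x y; rw [finrank_top]; omega)
  obtain ⟨l, hl, hl'⟩ := Tv.exists_dual_one _ hu
  have hlx := hl' x (Submodule.subset_span (by simp))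
  have hly := hl' y (Submodule.subset_span (by simp))
  have hl0 : l ≠ 0 := fun h => by simp [h] at hl
  let R : Dual F V → V → Prop := fun η v => η x = 0 ∧ l v = 0 ∧ (tv η x * tv l v) • ω = ω
  have hex : ∀ v, l v = 0 → ∃ η, R η v := fun v hv => by
    obtain ⟨η, h, h'⟩ := h₂ x hx (tv l v) (by rw [tv_apply hv, hlx, zero_smul, add_zero])
    exact ⟨η, h, hv, h'⟩
  have hmul : ∀ {η η' v v'}, R η v → R η' v' → R (η + η' - η' v • l) (v + v') :=
    fun {η η' v v'} ⟨a₁, a₂, a₃⟩ ⟨b₁, b₂, b₃⟩ => ⟨by simp [a₁, b₁, hlx], by simp [a₂, b₂], by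
      have : tv (η + η' - η' v • l) x * tv l (v + v') = (tv η x * tv l v) * (tv η' x * tv l v') :=
        SpecialLinearGroup.ext _ _ fun a => by
          change (_ * _ : SpecialLinearGroup F V).1 a = (_ * _ * (_ * _) : SpecialLinearGroup F V).1 a
          simp only [sl_mul_apply]
          rw [tv_apply a₁, tv_apply b₁, tv_apply a₂, tv_apply b₂, tv_apply (by simp [a₁, b₁, hlx]),
            tv_apply (by simp [a₂, b₂])]
          simp only [map_add, map_smul, a₁, a₂, b₂, hlx, LinearMap.add_apply,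
            LinearMap.sub_apply, LinearMap.smul_apply]
          module
      rw [this, mul_smul, b₃, a₃]⟩
  have huniq : ∀ {η η' v}, R η v → R η' v → η = η' := fun {η η' v} ⟨a₁, _, a₃⟩ ⟨b₁, _, b₃⟩ =>
    sub_eq_zero.mp ((h₁ _ x (by simp [a₁, b₁]) (by
      conv_lhs => rw [← b₃, mul_smul, ← mul_smul, ← tv_add_left (by simp [a₁, b₁]) b₁,
        sub_add_cancel, ← mul_smul, a₃])).resolve_right hx)
  have hshift : ∀ {η v} (c : F), R η (c • x + v) → R (η + c • l) v := fun {η v} c ⟨a₁, a₂, a₃⟩ => by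
    have : l v = 0 := by simpa [hlx] using a₂
    refine ⟨by simp [a₁, hlx], this, ?_⟩
    rwa [tv_add_left a₁ (by simp [hlx]), tv_smul hlx, mul_assoc,
      ← tv_add_right (by simp [hlx]) this]
  obtain ⟨η, hη⟩ := hex y hly
  suffices hs : ∀ v, l v = 0 → η v = 0 by
    have h4 : η = η u • l := LinearMap.ext fun v => by
      have := hs (v - l v • u) (by simp [hl])
      simpa [sub_eq_zero, mul_comm] using this
    have h5 := hη.2.2
    rw [h4, tv_smul hlx, ← tv_add_right (by simp [hlx]) hly] at h5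
    exact hy ((Submodule.mem_span_singleton.mpr ⟨-η u, by
      rw [neg_smul, neg_eq_iff_add_eq_zero]
      exact (h₁ _ _ (by simp [hlx, hly]) h5).resolve_left hl0⟩))
  rcases h with ⟨h2, hn⟩ | ⟨h2, hn⟩
  · have h4 := hmul hη hη
    rw [← two_smul F η, ← two_smul F y, h2, zero_smul, zero_smul, zero_sub] at h4
    have h5 : η y = 0 := by
      simpa [hl0] using huniq h4 (η' := 0) ⟨rfl, map_zero l, by simp [tv_zero_left, tv_zero_right]⟩
    have h6 : Submodule.span F {x, y} = LinearMap.ker l := Submodule.eq_of_le_of_finrank_le hl' (by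
      rw [finrank_ker_dual hl0, Submodule.span_insert, Submodule.finrank_sup_span_singleton hy,
        finrank_span_singleton hx, hn])
    intro v hv
    obtain ⟨a, b, rfl⟩ := Submodule.mem_span_pair.mp (h6.ge hv)
    simp [h5, hη.1]
  · have key : ∀ {η v}, R η v → η v = 0 := fun {η v} h => by
      obtain ⟨w, hw, hw'⟩ := exists_notMem_of_finrank_lt (U := Submodule.span F {x, v})
        (W := LinearMap.ker l)
        (by have := finrank_span_pair_le (F := F) x v; rw [finrank_ker_dual hl0]; omega)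
      obtain ⟨μ, a₁, a₂⟩ := Tv.exists_dual_one _ hw'
      have a₃ := a₂ x (Submodule.subset_span (by simp))
      have a₄ := a₂ v (Submodule.subset_span (by simp))
      obtain ⟨ζ, b₁, b₂⟩ := h₂ x hx (tv μ v) (by rw [tv_apply a₄, a₃, zero_smul, add_zero])
      have c₁ := mul_tv (φ' := η - η v • μ) (tv ζ x * tv μ v) h.1 fun a => by
        simp [sl_mul_apply, tv_apply b₁, tv_apply a₄, h.1, a₃, a₄, mul_comm]
      have c₂ := mul_tv (φ' := l) (tv ζ x * tv μ v) h.2.1 fun a => by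
        simp [sl_mul_apply, tv_apply b₁, tv_apply a₄, h.2.1, hlx]
      simp only [sl_mul_apply, tv_apply b₁, tv_apply a₄, a₃, a₄, b₁, zero_smul, add_zero] at c₁ c₂
      have c₃ : R (η - η v • μ) (ζ v • x + v) := ⟨by simp [h.1, a₃], by simp [h.2.1, hlx], by
        conv_lhs => rw [← b₂, ← mul_smul, mul_assoc, add_comm, ← c₂, ← mul_assoc, ← c₁, mul_assoc,
          mul_smul, h.2.2, b₂]⟩
      simpa [a₁, LinearMap.mem_ker.mp hw] using
        LinearMap.congr_fun (huniq (hshift _ c₃) h) w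
    intro v hv
    obtain ⟨η', hη'⟩ := hex v hv
    have h4 := hmul hη' hη
    rw [add_comm v] at h4
    have h5 := LinearMap.congr_fun (huniq h4 (hmul hη hη')) u
    have h6 := key h4
    simp only [LinearMap.sub_apply, LinearMap.add_apply, LinearMap.smul_apply, hl, smul_eq_mul,
      map_add, key hη, key hη', hv, hly] at h5 h6
    exact (mul_eq_zero.mp (by linear_combination h6 - h5 : 2 * η v = 0)).resolve_left h2

/-- The minimal degree of `SL(V)`. -/
theorem card_ge_sl [MulAction.IsPretransitive (SpecialLinearGroup F V) Ω] (h3 : 3 ≤ finrank F V)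
    (hex : ¬ (finrank F V = 4 ∧ Nat.card F = 2)) {φ₀ : Dual F V} {x₀ : V} {ω₀ : Ω}
    (h₀ : φ₀ x₀ = 0) (h₁ : tv φ₀ x₀ • ω₀ ≠ ω₀) :
    Nat.card F ^ finrank F V - 1 ≤ Nat.card Ω * (Nat.card F - 1) := by
  classical
  by_contra! hlt
  obtain ⟨ψ, hψ⟩ := exists_addChar_ne_one (F := F) (K := ℂ) (by
    rw [ringChar.eq_zero]
    exact (CharP.char_ne_zero_of_finite F _).symm)
  have hx₀ : x₀ ≠ 0 := by
    rintro rfl
    exact h₁ (by rw [tv_zero_right, one_smul])
  have hφ₀ : φ₀ ≠ 0 := by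
    rintro rfl
    exact h₁ (by rw [tv_zero_left, one_smul])
  obtain ⟨k, hn⟩ := Nat.exists_eq_add_of_le' (show 2 ≤ finrank F V by omega)
  have ht : ∀ (φ : Dual F V) x', φ x' = 0 → φ ≠ 0 → x' ≠ 0 → LinearMap.trace ℂ _ (pr _ Ω (tv φ x')) =
      Nat.card {ω : Ω // tv φ₀ x₀ • ω = ω} := fun φ x' h hφ hx' => by
    obtain ⟨g, hg⟩ := exists_conj_tv h3 h hφ hx' h₀ hφ₀ hx₀
    rw [← trace_pr]
    exact trace_eq_of_semiconj _ (g := g) (by rw [← map_mul, hg, map_mul])
  have hq : 2 ≤ Nat.card F := Finite.one_lt_card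
  have hd : (finrank ℂ (Ω → ℂ) : ℂ) - Nat.card {ω : Ω // tv φ₀ x₀ • ω = ω} =
      (Nat.card F : ℂ) ^ (k + 1) := by
    obtain ⟨α, -, hα⟩ := exists_notMem_of_finrank_lt (U := F ∙ x₀) (W := ⊤)
      (by rw [finrank_span_singleton hx₀, finrank_top]; omega)
    have hd := trace_wp hψ hn ht hx₀ α
    rw [if_neg hα, add_zero, trace_idem (wp_mul_self hψ (Submodule.mem_span_singleton_self _) _)]
      at hd
    set d := finrank ℂ (LinearMap.range (wp ψ (pr (SpecialLinearGroup F V) Ω) (F ∙ x₀) x₀ α))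
    have hN : finrank ℂ (Ω → ℂ) = Nat.card Ω := by
      let := Fintype.ofFinite Ω
      rw [Module.finrank_fintype_fun_eq_card, Nat.card_eq_fintype_card]
    have h4 : Nat.card {ω : Ω // tv φ₀ x₀ • ω = ω} < Nat.card Ω :=
      Finite.card_subtype_lt (x := ω₀) h₁
    have h5 : Nat.card F ^ (k + 1) * d + Nat.card {ω : Ω // tv φ₀ x₀ • ω = ω} = Nat.card Ω := by
      exact_mod_cast (by rw [hd, hN]; ring : (Nat.card F : ℂ) ^ (k + 1) * d +
        Nat.card {ω : Ω // tv φ₀ x₀ • ω = ω} = Nat.card Ω)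
    have h6 : d = 1 := by
      by_contra h
      have h7 : 2 ≤ d := by
        rcases Nat.eq_zero_or_pos d with h0 | h0
        · rw [h0] at h5; omega
        · omega
      have h8 := Nat.mul_le_mul_left (Nat.card F ^ (k + 1)) h7
      rw [hn, pow_succ] at hlt
      have h9 := Nat.mul_le_mul (show Nat.card F ^ (k + 1) * 2 ≤ Nat.card Ω by omega)
        (le_refl (Nat.card F - 1))
      have := Nat.mul_le_mul_left (Nat.card F ^ (k + 1)) (show Nat.card F ≤ 2 * (Nat.card F - 1)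
        by omega)
      rw [mul_assoc] at h9
      omega
    rw [← hd, h6, Nat.cast_one, mul_one]
  have h1 : ∀ x α : V, x ≠ 0 → α ∉ F ∙ x →
      LinearMap.trace ℂ _ (wp ψ (pr (SpecialLinearGroup F V) Ω) (F ∙ x) x α) = 1 :=
    fun x α hx hα => trace_wp_one hψ hn ht hd hx hα
  have hfull : ∀ ω : Ω, full (F := F) (V := V) ω ≠ ⊤ := fun ω h => by
    obtain ⟨g, rfl⟩ := MulAction.exists_smul_eq (SpecialLinearGroup F V) ω ω₀
    have := apply_mem_full (h.ge (Submodule.mem_top (x := g⁻¹.1 x₀))) g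
    rw [sl_apply_inv] at this
    exact h₁ (this _ h₀)
  have htr : ∀ x y : V, x ≠ 0 → y ≠ 0 → ∃ g : SpecialLinearGroup F V, g.1 x = y := fun x y hx hy => by
    obtain ⟨a, -, ha⟩ := exists_notMem_of_finrank_lt (U := F ∙ x) (W := ⊤)
      (by rw [finrank_span_singleton hx, finrank_top]; omega)
    obtain ⟨b, -, hb⟩ := exists_notMem_of_finrank_lt (U := F ∙ y) (W := ⊤)
      (by rw [finrank_span_singleton hy, finrank_top]; omega)
    obtain ⟨g, hg, -⟩ := exists_map_pair h3 hx ha hy hb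
    exact ⟨g, hg⟩
  by_cases hreg : ∃ (x : V) (ω : Ω), x ∉ full (F := F) ω ∧
      ∀ φ : Dual F V, φ x = 0 → tv φ x • ω = ω → φ = 0
  swap
  · push Not at hreg
    obtain ⟨z, hz, hz'⟩ := exists_fix_line hψ h1 h3 (hfull ω₀) fun x hx => by
      obtain ⟨φ, a₁, a₂, a₃⟩ := hreg x ω₀ hx
      exact ⟨φ, a₃, a₁, a₂⟩
    have := card_le_of_fix_line ω₀ SpecialLinearGroup.toLinearEquiv hz' (p := (· ≠ 0))
      (fun v hv => by
        obtain ⟨g, hg⟩ := htr z v hz hv
        exact ⟨g, 1, by rw [one_smul, ← hg]; rfl⟩) (by simp)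
    rw [card_ne_zero' (F := F)] at this
    omega
  obtain ⟨x, ω, hx, hxω⟩ := hreg
  have hx0 : x ≠ 0 := fun h => hx (h ▸ Submodule.zero_mem _)
  have hall : ∀ (y : V) (ω' : Ω), y ∉ full (F := F) ω' →
      ∀ φ : Dual F V, φ y = 0 → tv φ y • ω' = ω' → φ = 0 := fun y ω' hy φ a₁ a₂ => by
    have hy0 : y ≠ 0 := fun h => hy (h ▸ Submodule.zero_mem _)
    obtain ⟨g, rfl⟩ := htr x y hx0 hy0
    have b₁ : ∀ φ : Dual F V, φ (g.1 x) = 0 → tv φ (g.1 x) • g • ω = g • ω → φ = 0 :=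
      fun φ c₁ c₂ => LinearMap.ext fun v => by
        simpa [sl_apply_inv] using LinearMap.congr_fun (hxω (φ ∘ₗ g.1.toLinearMap) c₁
          ((tv_conj_smul (φ := φ ∘ₗ g.1.toLinearMap) g c₁ fun _ => rfl).mp c₂)) (g⁻¹.1 v)
    obtain ⟨θ, c₁, c₂⟩ : ∃ θ : Dual F V, θ (g.1 x) = 0 ∧ tv θ (g.1 x) • ω' ≠ ω' := by
      simpa [mem_full] using hy
    obtain ⟨β, hβ, hβ'⟩ := exists_occ hψ hy0 c₁ c₂
    obtain ⟨η, hη, rfl⟩ := Occ.exists_eq hψ (ω := g • ω) (fun φ c₃ c₄ => by simp [b₁ φ c₃ c₄]) hβ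
      (h1 _ β hy0 fun hm => by
        obtain ⟨c, rfl⟩ := Submodule.mem_span_singleton.mp hm
        exact hβ' (by simp [c₁]))
    exact b₁ φ a₁ ((tv_comm_smul a₁ hη).mp a₂)
  by_cases hD : full (F := F) (V := V) ω = ⊥
  · have hD' : ∀ (ω' : Ω) (y : V), y ≠ 0 → y ∉ full (F := F) ω' := fun ω' y hy h => by
      obtain ⟨g, rfl⟩ := MulAction.exists_smul_eq (SpecialLinearGroup F V) ω' ω
      have := apply_mem_full h g
      rw [hD] at this
      exact hy (by simpa using this)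
    by_cases hc : ((2 : F) = 0 ∧ finrank F V = 3) ∨ ((2 : F) ≠ 0 ∧ 4 ≤ finrank F V)
    · exact not_supplement h3 (ω := ω) (fun φ y a₁ a₂ => or_iff_not_imp_right.mpr fun hy =>
        hall y ω (hD' ω y hy) φ a₁ a₂) (fun y hy g hg =>
          exists_tv_mul_smul hψ h1 h3 hy (hall y ω (hD' ω y hy)) hg) hc
    let := Fintype.ofFinite F
    have hc2 : (2 : F) = 0 ↔ Even (Nat.card F) := by
      rw [Nat.card_eq_fintype_card, Nat.even_iff, FiniteField.even_card_iff_char_two.symm]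
      exact ⟨CharP.ringChar_of_prime_eq_zero Nat.prime_two, fun h => by
        simpa [h] using ringChar.Nat.cast_ringChar (R := F)⟩
    have hpow : ∀ {j : ℕ}, ¬ Nat.card F - 1 ∣ j → ∃ a : F, a ≠ 0 ∧ a ^ j ≠ 1 := fun h => by
      by_contra! h1
      refine h ?_
      rw [← Nat.card_units, ← IsCyclic.exponent_eq_card]
      exact Monoid.exponent_dvd_of_forall_pow_eq_one fun a =>
        Units.ext (by simpa using h1 a a.ne_zero)
    obtain ⟨y, hy, hy'⟩ := exists_notMem_of_finrank_lt (U := F ∙ x₀) (W := LinearMap.ker φ₀)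
      (by rw [finrank_span_singleton hx₀, finrank_ker_dual hφ₀]; omega)
    have h4 := trace_fix_tv hψ hn ht hd (by omega) (fun h => hpow fun h' => ?_)
      (fun h => hpow fun h' => ?_) hx₀ hy' hφ₀ h₀ hy
    · have h5 := trace_wp_zero hψ hn ht hd hx₀
      have : IsEmpty {ω : Ω // tv φ₀ x₀ • ω = ω} :=
        ⟨fun a => hφ₀ (hall x₀ a (hD' a x₀ hx₀) φ₀ h₀ a.2)⟩
      rw [Nat.card_of_isEmpty, Nat.cast_zero, add_zero] at h4 h5
      obtain ⟨a, ha⟩ := exists_mul_eq_smul (wp_mul_self hψ (Submodule.mem_span_singleton_self _) _)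
        h5 (commute_wp_of_smul (g := tv φ₀ y) one_ne_zero (by simp [tv_apply hy, h₀]) (by simp))
      let E : Module.End ℂ (Ω → ℂ) := LinearMap.pi fun _ => LinearMap.proj ω
      have h6 := wp_mul (ρ := pr (SpecialLinearGroup F V) Ω) (W := F ∙ x₀) (x := x₀) hψ (E := E)
        (β := 0) (fun φ _ => by rw [map_zero, AddChar.map_zero_eq_one, one_smul]; rfl) 0
      rw [if_pos (by simp)] at h6
      have h7 := congrFun (LinearMap.congr_fun (congrArg (· * E) ha) 1) ω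
      simp only [mul_assoc, h6, smul_mul_assoc] at h7
      rw [LinearMap.trace_mul_comm, ha, map_smul, h5, show a = 1 by simpa [E, pr_apply] using h7.symm]
        at h4
      exact pow_ne_zero _ (Nat.cast_ne_zero.mpr (by omega : Nat.card F ≠ 0))
        (by linear_combination h4)
    · have : ¬ Even (Nat.card F) := fun h2 => hc (Or.inl ⟨hc2.mpr h2, h⟩)
      rcases (Nat.dvd_prime Nat.prime_three).mp h' with h2 | h2
      · exact this ⟨1, by omega⟩
      · exact this ⟨2, by omega⟩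
    · have : Even (Nat.card F) := hc2.mp (by_contra fun h2 => hc (Or.inr ⟨h2, h.ge⟩))
      rcases (Nat.dvd_prime Nat.prime_two).mp h' with h2 | h2
      · exact hex ⟨h, by omega⟩
      · obtain ⟨j, hj⟩ := this
        omega
  · obtain ⟨z, hz, hz0⟩ := (Submodule.ne_bot_iff _).mp hD
    obtain ⟨l, hl, hl'⟩ := Tv.exists_dual_one _ hx
    have hker : ∀ v, l v = 0 → v ∈ full (F := F) ω := fun v hv => by
      have aux : ∀ {v : V}, v ≠ 0 → l v = 0 → v ∉ F ∙ x := fun h h' hm => by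
        obtain ⟨c, rfl⟩ := Submodule.mem_span_singleton.mp hm
        exact h (by simpa [hl, hx0] using h')
      by_cases hv0 : v = 0
      · exact hv0 ▸ Submodule.zero_mem _
      obtain ⟨g, hg, hg'⟩ := exists_map_pair h3 hx0 (aux hz0 (hl' z hz)) hx0 (aux hv0 hv)
      obtain ⟨η, hη, hη'⟩ := exists_tv_mul_smul hψ h1 h3 hx0 hxω hg
      have a₁ := apply_mem_full hz (tv η x * g)
      rw [hη', sl_mul_apply, hg', tv_apply hη] at a₁
      have a₂ : η v = 0 := by simpa [hv, hl] using hl' _ a₁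
      simpa [a₂] using a₁
    let j : SpecialLinearGroup F V →* (Dual F V ≃ₗ[F] Dual F V) :=
      { toFun := fun g => g⁻¹.1.dualMap
        map_one' := rfl
        map_mul' := fun _ _ => rfl }
    have := card_le_of_fix_line ω j (x := l) (fun g hg => ⟨l (g⁻¹.1 x), LinearMap.ext fun v => by
        have a₁ := apply_mem_full (hker (v - l v • x) (by simp [hl])) g⁻¹
        rw [inv_smul_eq_iff.mpr hg.symm] at a₁
        simpa [j, sub_eq_zero, mul_comm] using hl' _ a₁⟩) (p := (· ≠ 0))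
      (fun m hm => by
        obtain ⟨u, hu⟩ := exists_dual_of_ne_zero hm
        obtain ⟨g₀, -, hg₀⟩ := exists_equiv_one hl hu
        obtain ⟨w, hw, hw'⟩ := exists_notMem_of_finrank_lt (U := ⊥) (W := LinearMap.ker m)
          (by rw [finrank_ker_dual hm, finrank_bot]; omega)
        obtain ⟨θ, hθ, -⟩ := Tv.exists_dual_one _ hw'
        obtain ⟨g, c, hg⟩ := exists_sl g₀ hθ
        refine ⟨g, 1, LinearMap.ext fun v => ?_⟩
        conv_lhs => rw [← sl_apply_inv g v, hg]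
        simp [j, hg₀, LinearMap.mem_ker.mp hw]) (by simp)
    rw [card_ne_zero' (F := F), Subspace.dual_finrank_eq] at this
    omega

end CL.Coop
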