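/-
Minimal degree of the four-dimensional unitary groups.
-/
import Mathlib
import Cfsg.Agent.KSG.CoopV1

set_option autoImplicit false

namespace CL.Coop

open Module CL.Witt CL.Witt.Form CL.Root MulAction Submodule FormType CL.Uni

variable {F : Type*} [Field F] [Fintype F] {q : ℕ} {hF : Fintype.card F = q ^ 2} {V : Type*}
  [AddCommGroup V] [Module F V] [FiniteDimensional F V] {f : Form (HT hF) V}
  {Ω : Type*} [MulAction (V ≃ₗ[F] V) Ω] [Finite Ω] {u u' v w x y y' z : V}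
  {ω ω' ω₁ ω₂ : Ω} {ψ χ : AddChar F ℂ} {b c d : F}

variable (hF) in
theorem exists_fixed (hq : 3 ≤ q) : ∃ c : F, sig hF c = c ∧ c ≠ 0 ∧ c ≠ 1 := by
  have := Fintype.ofFinite (HT hF).π.ker
  obtain ⟨a, b, c, h1, h2, h3⟩ := Fintype.two_lt_card_iff.mp (show 2 < Fintype.card (HT hF).π.ker by
    rw [← Nat.card_eq_fintype_card, card_ker_π]; omega)
  have h4 : ∀ a : (HT hF).π.ker, sig hF a = -a := fun a => eq_neg_of_add_eq_zero_right a.2
  have h5 : (b - a : F) ≠ 0 := sub_ne_zero.mpr fun h => h1 (Subtype.ext h.symm)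
  exact ⟨(c - a) / (b - a), by
    rw [map_div₀, map_sub, map_sub, h4, h4, h4, ← neg_sub', ← neg_sub', neg_div_neg_eq],
    div_ne_zero (sub_ne_zero.mpr fun h => h2 (Subtype.ext h.symm)) h5,
    fun h => h3 (Subtype.ext (sub_left_injective ((div_eq_one_iff_eq h5).mp h)).symm)⟩

omit [FiniteDimensional F V] in
theorem ei_add_eq (hu : f.q u = 0) (hy : f.q y = 0) (h : f.B u y = 0) (hb : (HT hF).π b = 0)
    (ρ : F) : f.q (y + ρ • u) = 0 ∧ f.ei (y + ρ • u) 0 b =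
      f.ei u (-(b * sig hF ρ) • y) (b * (sig hF ρ * ρ)) * f.ei y 0 b := by
  have h1 : sig hF b = -b := eq_neg_of_add_eq_zero_right hb
  have h2 : f.q (y + ρ • u) = 0 := by simp [f.q_add_smul, hu, hy, f.B_eq_zero_symm h]
  refine ⟨h2, LinearEquiv.ext fun v => ?_⟩
  rw [LinearEquiv.mul_apply, ei_zero_apply h2 hb, ei_zero_apply hy hb, EichOK.ei_apply
    ⟨hu, by simp [h], by
      rw [f.q_smul_eq_zero hy, mul_comm]
      exact ((HT hF).π_norm ρ b).trans (by rw [hb, mul_zero])⟩]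
  simp only [map_sub, map_add, map_smul, map_mul, sig_sig, h1, h, herm_ε, map_neg, herm_σ,
    f.B_self_eq_zero hy, B_smul_left, LinearMap.add_apply, smul_eq_mul]
  module

variable (hf : f.Nondeg) (hn : finrank F V = 4) {hu : f.q u = 0} (hu' : f.q u' = 0)
  (huu : f.B u u' = 1)
include hf hn hu' huu

theorem lv_non (hu : f.q u = 0) (hy : y ∈ Wp f u u') (hy' : y' ∈ Wp f u u') (h0 : f.q y ≠ 0)
    (hc : c ≠ 0) (hd : d ≠ 0) (h : f.q y' = f.q (d • y)) : ∃ g, Lv f u u' g c ∧ d • g y = y' := by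
  refine exists_lv_vec hf hu hu' huu hy hy' (fun h1 => h0 (h1 ▸ f.q_zero)) (fun h1 => h0 ?_) hc hd h
    (agree_herm (sig_ne_id hF) hf fun h1 => ?_)
  · simpa [h1, f.q_zero, Tv.herm_q_smul, hd] using h
  have h2 := hf.finrank_add_finrank_perp (span F {u, u', y})
  have h3 := Tv.finrank_span_triple_le (F := F) u u' y
  obtain ⟨⟨v, hv⟩, h4⟩ := (finrank_pos_iff_exists_ne_zero (R := F)
    (M := f.perp (span F {u, u', y}))).mp (by omega)
  have h5 := f.mem_perp_span_pair.mp hy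
  obtain ⟨c, rfl⟩ := mem_span_singleton.mp
    (inf_perp_triple hu hu' (by simp [huu]) h5.1 h5.2 ⟨h1 hv, hv⟩)
  have h6 : c * f.q y = 0 := by rw [herm_q, ← B_smul_right]; exact hv y (subset_span (by simp))
  exact h4 (Subtype.ext (by simp [(mul_eq_zero.mp h6).resolve_right h0]))

theorem card_Wp_four (hu : f.q u = 0) : Nat.card (Wp f u u') = q ^ 4 := by
  rw [card_Wp hf hu hu' huu, hn, card_sq hF, ← pow_mul]

theorem card_orbit_four (ω : Ω) : Nat.card (orbit (f.U u) ω) *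
    (Nat.card (Aw f hu u' ω) * Nat.card (Zw f hu ω)) = q ^ 5 := by
  have : Finite V := Module.finite_of_finite F
  rw [card_orbit huu, card_Wp_four hf hn hu' huu hu, card_ker_π, ← pow_succ]

theorem card_iso_four (hu : f.q u = 0) :
    Nat.card {y // y ∈ Wp f u u' ∧ y ≠ 0 ∧ f.q y = 0} = (q ^ 2 - 1) * (q + 1) := by
  have := (card_sing_succ _).symm.trans ((card_Wp_eq hf hu hu' huu (k := 2) hn _).trans
    (FormCount.card_hermForm_eq_zero hF 2))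
  rwa [if_pos (by decide), add_left_inj, pow_one] at this

theorem hp_four (hu : f.q u = 0) : HP f (span F {u, u'}) :=
  hp_of_le hf (herm_iso2 (sig_ne_id hF) f) (R := ⊥)
    (f.isCompl_perp_pair hu hu' huu).inf_eq_bot.le (by
      have := Tv.finrank_span_pair_le (F := F) u u'
      rw [finrank_bot]; omega)

theorem exists_chi_four (hb : (HT hF).π b = 0) (hb' : b ∉ Zw f hu ω₁) : ∃ χ ψ : AddChar F ℂ,
    (∀ a ∈ Zw f hu ω₁, χ a = 1) ∧ ψ ≠ 1 ∧ (∀ r, sig hF r = r → ψ r = 1) ∧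
    (∀ x ∈ Aw f hu u' ω₁, ∀ y ∈ Aw f hu u' ω₁, ψ (f.B x y) = 1) ∧
    (q - 1) * (Nat.card (Zw f hu ω₁) * Nat.card (Sc f hu u' χ ω ω₁)) ≤
      Nat.card (orbit f.E ω) * (q - Nat.card (Zw f hu ω₁)) := by
  have : Finite V := Module.finite_of_finite F
  obtain ⟨χ, h1, h2⟩ := exists_char hb'
  have h0 : b ≠ 0 := fun h => hb' (h ▸ zero_mem _)
  have h3 : sig hF b = -b := eq_neg_of_add_eq_zero_right hb
  obtain ⟨c, hc⟩ := exists_sub_σ_eq (sig_ne_id hF) (sig_sig hF) (a := b) hb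
  refine ⟨χ, χ.compAddMonoidHom (AddMonoidHom.id F - (sig hF).toAddMonoidHom), h1,
    fun h => h2 (by rw [← hc]; exact DFunLike.congr_fun h c), fun r hr => by simp [hr],
    fun x hx y hy => h1 _ (by simpa [f.herm_symm x y] using sub_mem_Zw hx hy), ?_⟩
  let F₀ := (HT hF).π.ker.comap (AddMonoidHom.mulLeft b)
  have h4 : ∀ y, y ∈ F₀ ↔ sig hF y = y := fun y => by
    change b * y + sig hF (b * y) = 0 ↔ _
    rw [map_mul, h3, neg_mul, ← sub_eq_add_neg, ← mul_sub, mul_eq_zero_iff_left h0, sub_eq_zero,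
      eq_comm]
  have h5 : Nat.card F₀ = q := (Nat.card_congr ((Equiv.mulLeft₀ b h0).subtypeEquiv
    fun _ => Iff.rfl)).trans (card_ker_π hF)
  obtain ⟨y, hy, hy0⟩ := exists_perp_pair_q_eq (sig_ne_id hF) hf (by omega) hu hu' huu
    (map_one _)
  have h6 : y ∈ Wp f u u' := f.mem_perp_span_pair.mpr ⟨hy, hy0.1⟩
  obtain ⟨k, hk, h8⟩ := torus_le (hu := hu) (u' := u') (χ := χ) (ω := ω) (ω₁ := ω₁)
    (L := {y // y ∈ F₀ ∧ y ≠ 0}) Subtype.val Subtype.val_injective F₀ (fun l => ⟨l.2.1, by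
      obtain ⟨c, hc⟩ := Tv.exists_norm_eq_of_involution (sig_ne_id hF) (sig_sig hF)
        (b := l.1⁻¹) (by rw [map_inv₀, (h4 _).mp l.2.1])
      obtain ⟨g, hg, -⟩ := lv_non hf hn hu' huu hu h6 h6 (by simp [hy0.2]) (c := c)
        (fun h => l.2.2 (by simpa [h, eq_comm] using hc)) one_ne_zero (by rw [one_smul])
      exact ⟨g, c, hg, by rw [show (HT hF).σ c * c = _ from hc, mul_inv_cancel₀ l.2.2]⟩⟩)
    fun a ha h => not_not.mp fun h0 => h2 (by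
      simpa [mul_div_cancel₀, h0] using h (b / a) ((h4 _).mpr (by
        rw [map_div₀, h3, show sig hF a = -a from eq_neg_of_add_eq_zero_right ha, neg_div_neg_eq])))
  rw [card_ne_zero_sub, h5] at h8
  rw [h5] at hk
  rw [mul_comm (Nat.card (Zw f hu ω₁)), ← mul_assoc]
  refine (Nat.mul_le_mul_right _ (h8.trans (Nat.mul_le_mul (card_Cl_le ω₁) (min_le_left _ _)))).trans
    (le_of_eq ?_)
  rw [mul_assoc, tsub_mul, hk, one_mul]

theorem line_four {S S₁ : Set Ω} (hS : ∀ g, Lv f u u' g 1 → ∀ ω ∈ S₁, g • ω ∈ S)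
    (hy : y ∈ Wp f u u') (h0 : y ≠ 0) (hq : f.q y = 0)
    (h : ∀ ω ∈ S₁, ∀ x ∈ Aw f hu u' ω, x ∈ F ∙ y) (h' : ∀ ω ∈ S, ∃ x ∈ Aw f hu u' ω, x ≠ 0) :
    (q + 1) * Nat.card S₁ ≤ Nat.card S := by
  have : Finite V := Module.finite_of_finite F
  have h1 := cover_gen (F := F) (V := V) (S := S) (S₁ := S₁) (k := q ^ 2 - 1)
    (fun ω (v : {y // y ∈ Wp f u u' ∧ y ≠ 0 ∧ f.q y = 0}) => ∀ x ∈ Aw f hu u' ω, x ∈ F ∙ v.1)
    (fun v => ?_) fun ω hω => ?_
  · rw [card_iso_four hf hn hu' huu hu, mul_assoc, mul_comm (Nat.card S)] at h1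
    exact Nat.le_of_mul_le_mul_left h1 (Nat.sub_pos_of_lt (Nat.one_lt_pow two_ne_zero (two_le_q hF)))
  · obtain ⟨a, ha, c, hc, h1⟩ := (nondeg_Wp hf hu hu' huu).exists_mem_E_apply_eq_smul
      (herm_big (sig_ne_id hF) 0) (x := ⟨y, hy⟩) (z := ⟨v, v.2.1⟩) hq (by simpa using h0) v.2.2.2
      (by simpa using v.2.2.1)
    obtain ⟨g, h2, h3, h4, -, h5⟩ := exists_ext hu hu' huu a
    have hg := Lv.one (h5 ha) h2 h3
    refine ⟨g, fun ω hω => ⟨hS g hg ω hω, fun x hx => ?_⟩⟩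
    obtain ⟨d, hd⟩ := mem_span_singleton.mp (h ω hω (g⁻¹ x) (by simpa using hg.inv.mem_Aw hx))
    refine mem_span_singleton.mpr ⟨d * c, ?_⟩
    rw [mul_smul, ← show g y = c • v.1 from (h4 ⟨y, hy⟩).trans (congrArg Subtype.val h1),
      ← map_smul, hd]
    simp
  obtain ⟨x, hx, h1⟩ := h' ω hω
  rw [← card_sq hF, ← card_span_singleton (F := F) h1, ← show _ = Nat.card (F ∙ x) - 1 from
    card_ne_zero_sub (F ∙ x).toAddSubgroup]
  refine card_sub_le fun v hv => ⟨?_, v.2.2.1⟩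
  obtain ⟨c, rfl⟩ := mem_span_singleton.mp (hv x hx)
  rw [span_singleton_smul_eq (left_ne_zero_of_smul h1).isUnit]
  exact mem_span_singleton_self _

theorem lv_scalar (hu : f.q u = 0) (hc : sig hF c * c = 1) :
    ∃ g, Lv f u u' g c ∧ ∀ x ∈ Wp f u u', g x = c⁻¹ • x := by
  have h0 : c ≠ 0 := right_ne_zero_of_mul_eq_one hc
  have h1 : sig hF c = c⁻¹ := eq_inv_of_mul_eq_one_left hc
  obtain ⟨t, ht, h2, h3, h4, h5⟩ := hf.exists_torus hu hu' huu (pow_ne_zero 2 h0)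
  rw [herm_σ, map_pow, h1] at h3 h5
  let s := LinearEquiv.smulOfNeZero F V c⁻¹ (inv_ne_zero h0)
  have h6 : ∀ v, s v = c⁻¹ • v := fun v => rfl
  refine ⟨s * t, ⟨E_eq_SO (sig_ne_id hF) hf ▸ f.mem_SO.mpr ⟨mul_mem ((f.herm_isIsom_iff f _).mpr
    fun x y => by simp [h6, herm_σ, h1, h0]) ht, ?_⟩, h0, by simp [h6, h2, smul_smul, sq, h0], c, h0,
      by simp [h6, h3, smul_smul, sq, h0]⟩, fun x hx => ?_⟩
  · rw [det_mul_equiv, h5, show (s : V →ₗ[F] V) = c⁻¹ • LinearMap.id from rfl, LinearMap.det_smul,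
      hn]
    field_simp
    simp
  · rw [mem_perp_span_pair] at hx
    rw [LinearEquiv.mul_apply, h4 x hx.1 hx.2, h6]

theorem class_four (h2 : (2 : F) = 0) {S S₁ : Set Ω}
    (hS : ∀ g c, Lv f u u' g c → sig hF c * c = 1 → ∀ ω ∈ S₁, g • ω ∈ S) (hx : x ∈ Wp f u u')
    (hy : y ∈ Wp f u u') (hq : f.q x = 0) (h0 : f.B x y ≠ 0)
    (h : ∀ ω ∈ S₁, ∀ v ∈ Aw f hu u' ω, (HT hF).π (f.B x v) = 0 ∧ (HT hF).π (f.B y v) = 0)
    (h' : ∀ ω ∈ S, ∃ x ∈ Aw f hu u' ω, x ≠ 0) : (q + 1) * Nat.card S₁ ≤ Nat.card S := by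
  have h1 : ∀ c : rootsOfUnity (q + 1) F, sig hF c.1 * c.1 = 1 := fun c =>
    (pow_succ _ _).symm.trans ((mem_rootsOfUnity' _ _).mp c.2)
  have h3 := cover_gen (F := F) (V := V) (S := S) (S₁ := S₁) (k := 1)
    (fun ω (c : rootsOfUnity (q + 1) F) => ∀ v ∈ Aw f hu u' ω,
      (HT hF).π (c.1 ^ 2 * f.B x v) = 0 ∧ (HT hF).π (c.1 ^ 2 * f.B y v) = 0)
    (fun c => ?_) fun ω hω => Finite.card_le_one_iff_subsingleton.mpr ⟨fun c c' => ?_⟩
  · rwa [card_rootsOfUnity_of_dvd hF dvd_rfl, mul_one] at h3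
  · obtain ⟨g, hg, h3⟩ := lv_scalar hf hn hu' huu hu (h1 c)
    refine ⟨g, fun ω hω => ⟨hS g _ hg (h1 c) ω hω, fun v hv => ?_⟩⟩
    have h4 := hg.inv.mem_Aw hv
    rw [inv_smul_smul, show g⁻¹ v = (c.1 : F) • v from (LinearEquiv.symm_apply_eq _).mpr (by
      rw [map_smul, h3 v (Aw_le hv), smul_inv_smul₀ hg.ne]), herm_σ, map_inv₀,
      eq_inv_of_mul_eq_one_left (h1 c), inv_inv, smul_smul, ← sq] at h4
    simpa using h ω hω _ h4
  obtain ⟨v, hv, h3⟩ := h' ω hω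
  obtain ⟨β, h4, h5, h5'⟩ : ∃ β : F, β ≠ 0 ∧ (HT hF).π (c.1.1 ^ 2 * β) = 0 ∧
      (HT hF).π (c'.1.1 ^ 2 * β) = 0 := by
    by_cases h4 : f.B x v = 0
    · exact ⟨_, fun h5 => h3 (eq_zero_four hf hn.le hu hu' huu hx hy hq h0 (Aw_le hv) h4 h5),
        (c.2 v hv).2, (c'.2 v hv).2⟩
    · exact ⟨_, h4, (c.2 v hv).1, (c'.2 v hv).1⟩
  have h6 : ∀ c : rootsOfUnity (q + 1) F, (HT hF).π (c.1 ^ 2 * β) = 0 →
      (c.1 : F) ^ 4 * β = -sig hF β := fun c h6 => by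
    rw [herm_π, map_mul, map_pow] at h6
    linear_combination (c.1 : F) ^ 2 * h6 - (sig hF c.1 * c.1 + 1) * sig hF β * h1 c
  have h7 := mul_right_cancel₀ h4 ((h6 _ h5).trans (h6 _ h5').symm)
  refine Subtype.ext (Subtype.ext (Units.ext (sub_eq_zero.mp ((pow_eq_zero_iff four_ne_zero).mp ?_))))
  generalize (c.1.1 : F) = a, (c'.1.1 : F) = b at h7
  linear_combination h7 + (b ^ 4 - 2 * a ^ 3 * b + 3 * a ^ 2 * b ^ 2 - 2 * a * b ^ 3) * h2

theorem fix_four (hq : 3 ≤ q) (h₀ : ω₁ ∈ orbit f.E ω) (hZ : ∀ a ∈ Zw f hu ω₁, a = 0)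
    (hT : Nat.card (Tc f hu u' χ ω ω₁) < 2 * Nat.card (orbit (f.U u) ω₁))
    (hy : y ∈ Aw f hu u' ω₁) (h0 : y ≠ 0) (hy0 : f.q y = 0)
    (hs : ∀ r, sig hF r = r → ∀ x ∈ Aw f hu u' ω₁, r • x ∈ Aw f hu u' ω₁)
    (hl : ∀ b, (HT hF).π b = 0 → ∀ x ∈ Aw f hu u' ω₁, f.ei y 0 b x ∈ Aw f hu u' ω₁)
    (hβ : (2 : F) ≠ 0 → ∀ κ : F, κ • y ∈ Aw f hu u' ω₁) : ∃ ω₂ ∈ orbit f.E ω, ∃ v ≠ 0,
      f.q v = 0 ∧ ∃ b ≠ 0, (HT hF).π b = 0 ∧ f.ei v 0 b • ω₂ = ω₂ := by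
  have : Finite V := Module.finite_of_finite F
  have hχ : ∀ a ∈ Zw f hu ω₁, χ a = 1 := fun a ha => by rw [hZ a ha, AddChar.map_zero_eq_one]
  have h1 := fun g c (hg : Lv f u u' g c) h => mem_orbit_of_Tc huu h₀ hχ hT
    (hg.mem_Tc (Or.inl hZ) h (mem_Tc_self h₀ hχ))
  obtain ⟨c, hc, hc0, hc1⟩ := exists_fixed hF hq
  obtain ⟨t, ht, h2, h3, h4, h5⟩ := hf.exists_torus hu hu' huu hc0
  replace ht : Lv f u u' t c := ⟨E_eq_SO (sig_ne_id hF) hf ▸ f.mem_SO.mpr ⟨ht, by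
    rw [h5, herm_σ, hc, mul_inv_cancel₀ hc0]⟩, hc0, h2, _, by simpa using hc0, h3⟩
  replace h4 : ∀ x ∈ Wp f u u', t x = x := fun x hx =>
    h4 x (f.mem_perp_span_pair.mp hx).1 (f.mem_perp_span_pair.mp hx).2
  obtain ⟨ω₂, h6, ⟨b₀, h7, h8⟩, h9⟩ := exists_central' (hu := hu) hu' huu ht (by rwa [herm_σ, hc])
    h4 (fun x => hs _ (by simp [herm_σ, hc]) x) (h1 t c ht fun x hx => ⟨c⁻¹ • x,
      hs _ (by simp [hc]) x hx, by simp [h4 x (Aw_le hx), herm_σ, hc, hc0]⟩)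
  obtain ⟨b, hb0, hb⟩ := exists_add_σ_eq_zero (sig_ne_id hF) (sig_sig hF)
  have h10 := f.mem_perp_span_pair.mp (Aw_le hy)
  have h11 := eichOK_zero (f := f) hy0 hb
  have h12 := lv_ei h11 (Aw_le hy) (zero_mem _)
  obtain ⟨b', h13, h14, h15⟩ := h9 _ h12 (h11.ei_apply_fix (f.B_eq_zero_symm h10.2) (by simp))
    (h1 _ 1 h12 fun x hx => ⟨_, hl (-b) (by rw [map_neg, neg_eq_zero]; exact hb) x hx, by
      rw [map_one, one_smul, ← LinearEquiv.mul_apply, ← ei_zero_add hy0 hb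
        (by rw [map_neg, neg_eq_zero]; exact hb), add_neg_cancel, ei_zero]
      rfl⟩)
  rw [← Zw_eq_of_orbit h6] at hZ
  rw [← Aw_eq_of_orbit h6] at hβ
  rcases mul_eq_zero.mp (hZ _ h15) with h16 | rfl
  swap
  · exact ⟨ω₂, orbit_U_le h₀ h6, y, h0, hy0, b, hb0, hb, by rw [h14, ei_zero, one_smul]⟩
  rw [herm_σ, hc, sub_eq_zero, mul_self_eq_one_iff] at h16
  obtain rfl := h16.resolve_left hc1
  have h17 : (2 : F) ≠ 0 := fun h => hc1 (by linear_combination -h)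
  obtain ⟨ρ, hρ⟩ := Tv.exists_norm_eq_of_involution (sig_ne_id hF) (sig_sig hF) (b := -b' / b) (by
    rw [map_div₀, map_neg, show sig hF b' = -b' from eq_neg_of_add_eq_zero_right h13,
      show sig hF b = -b from eq_neg_of_add_eq_zero_right hb, neg_div_neg_eq])
  obtain ⟨h18, h19⟩ := ei_add_eq hu hy0 h10.1 hb ρ
  refine ⟨ω₂, orbit_U_le h₀ h6, _, fun h => ?_, h18, b, hb0, hb, ?_⟩
  · exact not_mem_of_Wp hu hu' huu (Aw_le hy) h0 (mem_span_pair.mpr ⟨-ρ, 0, by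
      simp [eq_neg_of_add_eq_zero_left h]⟩)
  obtain ⟨⟨a, h20, h21⟩, -⟩ := mem_Aw.mp (hβ h17 (-(b * sig hF ρ)))
  have h22 : (HT hF).π a = 0 := h20.ha.trans (f.q_smul_eq_zero hy0 _)
  have h23 := (smul_fix' h20 (E_le_O ht.mem) h2 h21).2
  rw [h4 _ (smul_mem _ _ (Aw_le hy)), herm_σ, hc, neg_one_smul, h8, smul_smul] at h23
  generalize -(b * sig hF ρ) • y = x at *
  have h24 : f.EichOK u (-x) a := ⟨hu, by simp [h20.huv], by rw [f.q_neg, h20.ha]⟩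
  have h25 : f.B x x = 0 := f.B_self_eq_zero (h20.ha.symm.trans h22)
  rw [show -1 * -1 * a = a by ring, h24.ei_mul (eichOK_zero hu h7), show f.ei u _ _ = f.ei u 0 b₀ *
    f.ei u (-x) a by simp [(eichOK_zero hu h7).ei_mul h24, add_comm], mul_smul,
    smul_left_cancel_iff] at h23
  obtain rfl : a = 0 := (mul_eq_zero.mp (hZ (2 * a) ⟨by rw [two_mul, map_add, h22, add_zero], by
    simpa [h25, two_mul] using (by rw [← h20.ei_mul h24, mul_smul, h23, h21] :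
      f.ei u (x + -x) (a + a + f.B x (-x)) • ω₂ = ω₂)⟩)).resolve_left h17
  rw [h19, hρ, mul_div_cancel₀ _ hb0, mul_smul, h14, smul_smul, EichOK.ei_mul
    ⟨hu, h20.huv, by rw [map_neg, h13, neg_zero, ← h20.ha, map_zero]⟩ (eichOK_zero hu h13)]
  simpa using h21

variable (hq : 3 ≤ q) (hN : Nat.card (orbit f.E ω) ≤ q ^ 4 + q ^ 3 + q)
include hq hN

theorem tri_four (h₀ : ω₁ ∈ orbit f.E ω) (hb : (HT hF).π b = 0) (hb' : b ∉ Zw f hu ω₁) :
    (∀ a ∈ Zw f hu ω₁, a = 0) ∧ (q + 1) * q ^ 3 ≤ Nat.card (Cl f hu u' ω ω₁) ∧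
    ∃ ω₂ ∈ orbit f.E ω, ∃ v ≠ 0, f.q v = 0 ∧ ∃ b ≠ 0, (HT hF).π b = 0 ∧ f.ei v 0 b • ω₂ = ω₂ := by
  have : Finite V := Module.finite_of_finite F
  obtain ⟨χ, ψ, hχ, hψ, hψ', hA, G⟩ := exists_chi_four (ω := ω) hf hn hu' huu hb hb'
  have h1 := card_orbit_four (hu := hu) hf hn hu' huu ω₁
  have hW := fun (ω' : Ω) x (hx : x ∈ Aw f hu u' ω') => Aw_le hx
  have h2 := Nat.le_of_mul_le_mul_left (G.trans ((Nat.mul_le_mul_left _
    (tsub_le_tsub_left Nat.card_pos q)).trans (mul_comm _ _).le)) (by omega)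
  have h3 : (q ^ 2) ^ (4 - 2) = q ^ 2 * q ^ 2 := sq _
  have ha : Nat.card (Aw f hu u' ω₁) ≤ q ^ 2 := Nat.mul_self_le_mul_self_iff.mp (by
    simpa only [hn, card_sq hF, h3] using card_sq_le hf hu hu' huu hψ (hW ω₁)
      (fun x : Aw f hu u' ω₁ => x.1) (fun x => ⟨hW _ _ x.2, fun y hy => hA y hy x x.2⟩)
      Subtype.val_injective)
  have hiso : ∀ x ∈ Aw f hu u' ω₁, f.q x = 0 := fun x hx => not_not.mp fun h4 => by
    have h5 := card_split (· ∈ Wp f u u') (f.q · = 0)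
    rw [card_Wp_four hf hn hu' huu hu, card_sing_succ, card_iso_four hf hn hu' huu hu] at h5
    refine num_non hq hN h1 ha ((card_mul_two_le (A := Zw f hu ω₁)
      (B := (HT hF).π.ker) (fun a ha => ha.1) fun h => hb' (h hb)).trans_eq (card_ker_π hF)) h5 ((vec_le huu (φ := id) (s := sig hF)
        (fun g c ω x hg hx => hg.mem_Aw hx) h₀ hx (by simp [f.q_zero]) (fun v hv => ?_)
        fun ω' h => h.2.1).trans (Nat.mul_le_mul_right _ (card_Cl_le ω₁)))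
    obtain ⟨d, hd⟩ := Tv.exists_norm_eq_of_involution (sig_ne_id hF) (sig_sig hF)
      (b := f.q v / f.q x) (by simp [Tv.herm_σ_q])
    have h6 : d ≠ 0 := fun h => div_ne_zero hv.2 h4 (by rw [← hd, h, mul_zero])
    obtain ⟨g, hg, h7⟩ := lv_non hf hn hu' huu hu (hW _ x hx) hv.1 h4 (c := sig hF d)
      (by simpa using h6) h6 (by rw [Tv.herm_q_smul, hd, div_mul_cancel₀ _ h4])
    exact ⟨g, _, hg, by rw [sig_sig, h7]⟩
  have hsub := orbit_U_le_Sc (u' := u') h₀ hχ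
  obtain ⟨y, hy, h0⟩ : ∃ y ∈ Aw f hu u' ω₁, y ≠ 0 := by
    by_contra! h
    rw [(AddSubgroup.eq_bot_iff_forall _).mpr h, AddSubgroup.card_bot, one_mul, mul_comm] at h1
    have h4 := (h1.ge.trans (Nat.mul_le_mul_left _ (card_le_of_subset hsub))).trans (h2.trans hN)
    obtain ⟨r, rfl⟩ := Nat.exists_eq_add_of_le' hq
    ring_nf at h4
    omega
  have hS' : ∀ ω' ∈ Sc f hu u' χ ω ω₁, ∃ x ∈ Aw f hu u' ω', x ≠ 0 := fun ω' h => by
    by_contra! h4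
    have h5 := two_le_card hy h0
    rw [← h.1.2.1, (AddSubgroup.eq_bot_iff_forall _).mpr h4, AddSubgroup.card_bot] at h5
    omega
  have hT := le_card_Tc (u' := u') h₀ hχ
  have fin : (q + 1) * Nat.card (Tc f hu u' χ ω ω₁) ≤ Nat.card (Sc f hu u' χ ω ω₁) →
      (q ^ 2 < Nat.card (Aw f hu u' ω₁) * 2 →
        (∀ r, sig hF r = r → ∀ x ∈ Aw f hu u' ω₁, r • x ∈ Aw f hu u' ω₁) ∧
        (∀ b, (HT hF).π b = 0 → ∀ x ∈ Aw f hu u' ω₁, f.ei y 0 b x ∈ Aw f hu u' ω₁) ∧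
        ((2 : F) ≠ 0 → ∀ κ : F, κ • y ∈ Aw f hu u' ω₁)) → _ := fun h4 h5 => by
    obtain ⟨h6, h7⟩ := num_class hq hN h1 G ((Nat.mul_le_mul_left _ hT).trans h4) ha
    have h8 := (AddSubgroup.eq_bot_iff_forall _).mp (AddSubgroup.eq_bot_of_card_eq _ h6)
    have h9 : q ^ 3 ≤ Nat.card (orbit (f.U u) ω₁) := Nat.le_of_mul_le_mul_right (c := q ^ 2)
      (by rw [← pow_add, ← h1, h6, mul_one]; exact Nat.mul_le_mul_left _ ha) (by positivity)
    refine And.intro h8 (And.intro ((Nat.mul_le_mul_left _ (h9.trans hT)).trans (h4.trans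
      (card_le_of_subset fun _ h => h.1))) (fix_four (χ := χ) hf hn hu' huu hq h₀ h8
        (not_le.mp fun h10 => ?_) hy h0 (hiso y hy) (h5 h7).1 (h5 h7).2.1 (h5 h7).2.2))
    rw [h6, one_mul] at h2
    have h11 := (Nat.mul_le_mul_left _ ((Nat.mul_le_mul_left 2 h9).trans h10)).trans
      (h4.trans (h2.trans hN))
    obtain ⟨r, rfl⟩ := Nat.exists_eq_add_of_le' hq
    ring_nf at h11
    omega
  by_cases h4 : ∀ x ∈ Aw f hu u' ω₁, f.B x y = 0
  · have h5 : ∀ x ∈ Aw f hu u' ω₁, x ∈ F ∙ y := fun x hx => mem_line_of_max hf (by omega) hu hu'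
      huu (hW _ y hy) (hW _ x hx) h0 (hiso y hy) (hiso x hx) (f.B_eq_zero_symm (h4 x hx))
    refine fin (line_four hf hn hu' huu (fun g hg ω' h => hg.mem_Sc (by simp) h.1) (hW _ y hy) h0
      (hiso y hy) (fun ω' h => h.2 ▸ h5) hS') fun h6 => ?_
    have h7 := mem_of_line h5 (card_sq hF ▸ h6)
    refine ⟨fun r _ x hx => ?_, fun b hb x hx => ?_, fun _ => h7⟩
    · obtain ⟨c, rfl⟩ := mem_span_singleton.mp (h5 x hx)
      exact smul_smul r c y ▸ h7 _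
    · rwa [(eichOK_zero (hiso y hy) hb).ei_apply_fix (f.B_eq_zero_symm (h4 x hx)) (by simp)]
  push Not at h4
  obtain ⟨x, hx, h4⟩ := h4
  have h5 : ∀ x ∈ Aw f hu u' ω₁, ∀ v ∈ Aw f hu u' ω₁, sig hF (f.B x v) = -f.B x v :=
    fun x hx v hv => eq_neg_of_add_eq_zero_right (show (HT hF).π (f.B x v) = 0 by
      simpa [hiso x hx, hiso v hv, hiso _ (add_mem hx hv)] using (f.q_add x v).symm)
  have h6 : (2 : F) = 0 := not_not.mp fun h6 => by
    have h7 : ∀ a : (HT hF).π.ker, sig hF a = -a := fun a => eq_neg_of_add_eq_zero_right a.2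
    have h8 := card_sq_le hf hu hu' huu hψ (hW ω₁)
      (fun p : Aw f hu u' ω₁ × (HT hF).π.ker × (HT hF).π.ker => p.1.1 + p.2.1.1 • x + p.2.2.1 • y)
      (fun p => ⟨add_mem (add_mem (hW _ _ p.1.2) (smul_mem _ _ (hW _ x hx))) (smul_mem _ _ (hW _ y hy)),
        fun v hv => by
          simp only [map_add, map_smul, smul_eq_mul, AddChar.map_add_eq_mul, hA v hv _ p.1.2]
          rw [hψ' _ (by simp [h7, h5 v hv x hx]), hψ' _ (by simp [h7, h5 v hv y hy]), mul_one,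
            mul_one]⟩) fun p p' h => by
        have key : ∀ {x y}, x ∈ Aw f hu u' ω₁ → y ∈ Aw f hu u' ω₁ → f.B x y ≠ 0 →
            ∀ s s' : (HT hF).π.ker, f.B x p.1 + s * f.B x y = f.B x p'.1 + s' * f.B x y → s = s' :=
          fun {x y} hx hy h0 s s' h => Subtype.ext (mul_right_cancel₀ h0 (mul_left_cancel₀ h6 (by
            have h9 := congrArg (sig hF) h
            simp only [map_add, map_mul, h7, h5 x hx _ p.1.2, h5 x hx _ p'.1.2, h5 x hx y hy] at h9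
            linear_combination h + h9)))
        have h9 := key hx hy h4 p.2.2 p'.2.2 (by
          simpa [f.B_self_eq_zero (hiso x hx)] using congrArg (f.B x) h)
        have h10 := key hy hx (mt f.B_eq_zero_symm h4) p.2.1 p'.2.1 (by
          simpa [f.B_self_eq_zero (hiso y hy)] using congrArg (f.B y) h)
        exact Prod.ext (Subtype.ext (by simpa [h9, h10] using h)) (Prod.ext h10 h9)
    rw [Nat.card_prod, Nat.card_prod, card_ker_π, hn, card_sq hF, h3] at h8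
    have h9 := small_le (S := Sc f hu u' χ ω ω₁) (S₁ := orbit (f.U u) ω₁) (D := Aw f hu u') hf hn.le
      hu hu' huu (hp_four hf hn hu' huu hu) (fun g hg ω' h => hg.mem_Sc (by simp) (hsub h))
      (fun g hg ω x hx => by simpa using hg.mem_Aw hx) (hW _ y hy) h0
      (fun ω' h => Aw_eq_of_orbit h ▸ hy) fun ω' h => h.1.2.1
    rw [card_ker_π] at h9
    exact num_small4 hq hN h1 h2 (Nat.mul_self_le_mul_self_iff.mp (Nat.le_of_mul_le_mul_right
      (le_trans (le_of_eq (by ring)) (h8.trans_eq (by ring))) (show 0 < q * q by positivity))) h9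
  have h7 : ∀ x ∈ Aw f hu u' ω₁, ∀ v ∈ Aw f hu u' ω₁, (HT hF).π (f.B x v) = 0 := fun x hx v hv => by
    rw [herm_π, h5 x hx v hv, add_neg_cancel]
  refine fin (class_four hf hn hu' huu h6 (fun g c hg hc ω' h => hg.mem_Sc hc h.1) (hW _ x hx)
    (hW _ y hy) (hiso x hx) h4 (fun ω' h v hv => ⟨h7 x hx v (h.2 ▸ hv), h7 y hy v (h.2 ▸ hv)⟩) hS')
    fun h8 => ?_
  let A : AddSubgroup V := (Wp f u u').toAddSubgroup ⊓ ((HT hF).π.ker.comap (bil f x) ⊓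
    (HT hF).π.ker.comap (bil f y))
  have h9 : A ≤ Aw f hu u' ω₁ := not_not.mp fun h9 => h8.not_ge ((card_mul_two_le (B := A)
    (fun v hv => ⟨hW _ v hv, h7 x hx v hv, h7 y hy v hv⟩) h9).trans (by
      refine le_of_le_of_eq ?_ ((Nat.card_prod (HT hF).π.ker (HT hF).π.ker).trans (by
        rw [card_ker_π, sq]))
      refine Nat.card_le_card_of_injective (fun v => (⟨_, v.2.2.1⟩, ⟨_, v.2.2.2⟩)) fun v v' h =>
        Subtype.ext (sub_eq_zero.mp (eq_zero_four hf hn.le hu hu' huu (hW _ x hx) (hW _ y hy)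
          (hiso x hx) h4 (sub_mem v.2.1 v'.2.1) ?_ ?_))
      all_goals simp only [Prod.mk.injEq, Subtype.mk.injEq, bil_apply] at h; simp [h]))
  refine ⟨fun r hr v hv => h9 ⟨smul_mem _ _ (hW _ v hv), ?_, ?_⟩, fun b hb v hv => h9 ⟨(lv_ei
    (eichOK_zero (hiso y hy) hb) (hW _ y hy) (zero_mem _)).perp (hW _ v hv), ?_, ?_⟩,
    fun h => (h h6).elim⟩
  all_goals simp [herm_π, herm_ε, h5 x hx, h5 y hy, *, ei_zero_apply (hiso y hy),
    f.B_self_eq_zero (hiso y hy), show ∀ b, (HT hF).π b = 0 ↔ sig hF b = -b from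
      fun b => add_eq_zero_iff_neg_eq.trans eq_comm]
  rw [show sig hF b = -b from eq_neg_of_add_eq_zero_right hb]
  ring

omit hu' huu hN in
theorem min_four (hK : stabilizer (V ≃ₗ[F] V) ω ≤ f.E) (hE : ¬ f.E ≤ stabilizer (V ≃ₗ[F] V) ω)
    (hs : Nat.card {v // f.q v = 0} = (q ^ 4 - 1) * (q ^ 3 + 1) + 1) :
    (q + 1) * (q ^ 3 + 1) ≤ Nat.card (orbit f.E ω) := by
  have : Finite V := Module.finite_of_finite F
  by_contra! hlt
  have hN : Nat.card (orbit f.E ω) ≤ q ^ 4 + q ^ 3 + q := Nat.le_of_lt_add_one (hlt.trans_eq (by ring))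
  have hσ := sig_ne_id hF
  have h2 := idx2 hσ hf hn.ge
  obtain ⟨b, hb0, hb⟩ := exists_add_σ_eq_zero hσ (sig_sig hF)
  have key := fun {u u'} (hu : f.q u = 0) (hu' : f.q u' = 0) (huu : f.B u u' = 1) =>
    (exists_Zw_ne (hu := hu) hf h2 hb0 hb (fun h => by simp [h] at huu) hE).imp
      fun ω₁ ⟨h, _, h3, h4⟩ => tri_four hf hn hu' huu hq hN h h3 h4
  obtain ⟨u, u', hu, hu', huu⟩ := exists_hyp_pair hσ hf (by omega)
  obtain ⟨-, -, -, ω₂, h₂, u, h0, hu, a, ha0, ha, h3⟩ := key hu hu' huu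
  obtain ⟨u', hu', huu⟩ := hf.exists_partner' hu h0
  have h4 : ∀ a, (HT hF).π a = 0 → a ∈ Zw f hu ω₂ := fun a' h => not_not.mp fun h' =>
    ha0 ((tri_four hf hn hu' huu hq hN h₂ h h').1 a ⟨ha, h3⟩)
  have h5 : Nat.card (Zw f hu ω₂) = q := by
    rw [show Zw f hu ω₂ = (HT hF).π.ker from le_antisymm (fun a ha => ha.1) h4, card_ker_π]
  obtain ⟨ω₁, h6, h7, -⟩ := key hu hu' huu
  have h8 := h7.trans' le_rfl
  have h9 := (card_add_le (S := orbit f.E ω) (S₁ := Cl f hu u' ω ω₁) (S₂ := Cl f hu u' ω ω₂)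
    (fun _ h => h.1) (fun _ h => h.1) fun ω' h h' => by
      have h9 := h.2.2.symm.trans (h'.2.2.trans h5)
      rw [(AddSubgroup.eq_bot_iff_forall _).mpr h6, AddSubgroup.card_bot] at h9
      omega).trans hN
  obtain ⟨ψ, hψ⟩ := exists_psi (F := F)
  have h10 : Rich f (stabilizer (V ≃ₗ[F] V) ω₂) u 0 := rich_of_Bn (hu := hu) hf hu' huu hψ
    (fun a ha => (h4 a ha).2) (by simp) fun y hy => not_not.mp fun h10 => by
      have h11 := small_le hf hn.le hu hu' huu (hp_four hf hn hu' huu hu) (S := Cl f hu u' ω ω₂)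
        (S₁ := orbit (f.U u) ω₂) (D := fun ω => Bn f ψ u u' (Aw f hu u' ω))
        (fun g hg ω' h => hg.mem_Cl' (orbit_U_le_Cl ⟨h₂, rfl, rfl⟩ h))
        (fun g hg ω x hx => by simpa using hg.mem_Bn hx) hy.1 (fun h => h10 (by simp [h]))
        (fun ω' h => Aw_eq_of_orbit h ▸ hy) fun ω' h => card_Bn_Cl hf hu' huu hψ h
      have h12 := card_orbit_four (hu := hu) hf hn hu' huu ω₂
      have h13 := card_Bn (hu := hu) hf hu' huu hψ ω₂
      rw [card_Wp_four hf hn hu' huu hu] at h13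
      rw [h5, pow_succ, ← h13, ← mul_assoc] at h12
      rw [card_ker_π, Nat.eq_of_mul_eq_mul_right Nat.card_pos
        (Nat.eq_of_mul_eq_mul_right (by omega) h12)] at h11
      have h14 := Nat.le_of_mul_le_mul_left (h11.trans (Nat.mul_le_mul_right _
        (show _ ≤ q by nlinarith))) (by omega)
      have := Nat.card_pos (α := Bn f ψ u u' (Aw f hu u' ω₂))
      omega
  have hO := fun g hg => E_le_O (stab_le_of_orb hK h₂ (x := g) hg)
  have h11 : ∀ g ∈ stabilizer (V ≃ₗ[F] V) ω₂, ∀ {x}, Rich f (stabilizer (V ≃ₗ[F] V) ω₂) x 0 →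
      Rich f (stabilizer (V ≃ₗ[F] V) ω₂) (g x) 0 := fun g hg x h => by simpa using h.conj hg (hO g hg)
  have h12 : ∀ {x y}, Rich f (stabilizer (V ≃ₗ[F] V) ω₂) x 0 →
      Rich f (stabilizer (V ≃ₗ[F] V) ω₂) y 0 → f.B x y = 0 := fun hx hy => not_not.mp fun h =>
    not_le_of_orb hE h₂ (hf.E_le_of_B_ne hx.q0 hy.q0 h hx.U_le hy.U_le)
  have h13 := add_right_cancel ((card_zero_succ (F := F) f.q f.q_zero).symm.trans hs)
  have hp := fun k => Nat.one_le_pow k q (by omega)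
  have hP : 0 < q ^ 2 - 1 := Nat.sub_pos_of_lt (Nat.one_lt_pow two_ne_zero (by omega))
  by_cases h14 : ∀ g ∈ stabilizer (V ≃ₗ[F] V) ω₂, ∃ c : F, g u = c • u
  · have h15 := card_le_of_fix (f := f) h14 (p := fun v => v ≠ 0 ∧ f.q v = 0) (fun v hv =>
      let ⟨g, hg, h⟩ := h2.exists_E_apply_eq hf h0 hv.1 (hu.trans hv.2.symm)
      ⟨g, hg, 1, by rw [h, one_smul]⟩) (by simp)
    rw [h13, orbit_eq_iff.mpr h₂, card_sq hF, show (q ^ 4 - 1) * (q ^ 3 + 1) =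
      (q ^ 2 + 1) * (q ^ 3 + 1) * (q ^ 2 - 1) by zify [hp]; ring] at h15
    exact hlt.not_ge (le_trans (Nat.mul_le_mul_right _ (by nlinarith))
      (Nat.le_of_mul_le_mul_right h15 hP))
  push Not at h14
  obtain ⟨g₀, h14, h15⟩ := h14
  have h16 := h11 g₀ h14 h10
  have h17 : g₀ u ∉ F ∙ u := fun h => let ⟨c, hc⟩ := mem_span_singleton.mp h; h15 c hc.symm
  have h18 : ∀ {x}, Rich f (stabilizer (V ≃ₗ[F] V) ω₂) x 0 → x ∈ span F {u, g₀ u} := fun h =>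
    mem_pair_of_max hf (by omega) h0 h17 hu h16.q0 h.q0 (h12 h10 h16) (h12 h10 h) (h12 h16 h)
  have h19 := card_le_of_plane (ω := ω₂) hf h2 (Or.inl ⟨b, hb0, hb⟩) h0 h17 hu h16.q0
    (h12 h10 h16) (fun g hg v hv => by
      obtain ⟨α, β, rfl⟩ := mem_span_pair.mp hv
      rw [map_add, map_smul, map_smul]
      exact add_mem (smul_mem _ _ (h18 (h11 g hg h10))) (smul_mem _ _ (h18 (h11 g hg h16))))
    (s := (q ^ 2 - 1) * (q + 1)) (by rw [hs, hn, card_sq hF, card_ker_π]; zify [hp]; ring)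
  rw [h13, orbit_eq_iff.mpr h₂, card_sq hF, show (q ^ 4 - 1) * (q ^ 3 + 1) * _ =
    (q + 1) * (q ^ 3 + 1) * (((q ^ 2) ^ 2 - 1) * ((q ^ 2) ^ 2 - q ^ 2)) by
      zify [hp, Nat.one_le_pow 2 _ (hp 2), Nat.le_self_pow two_ne_zero (q ^ 2)]; ring] at h19
  refine hlt.not_ge (Nat.le_of_mul_le_mul_right h19 (Nat.mul_pos ?_ ?_))
  all_goals exact Nat.sub_pos_of_lt (by nlinarith)

end CL.Coop
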