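import Mathlib
import Cfsg.Agent.KSG.NilClass
import Cfsg.Agent.CLAS.AschOr1

/-! Unipotent isometries of quadratic spaces in characteristic two: basic computations. -/

set_option autoImplicit false

namespace CL.Ev2

open Module CL.Witt CL.Witt.Form CL.SpU CL.Orth CL.Nil

universe u

variable {F : Type u} [Field F]

section Basic

variable {V : Type*} [AddCommGroup V] [Module F V] {V' : Type*} [AddCommGroup V'] [Module F V']
  {f : Form (FormType.quad F) V} {T : Module.End F V}
  {f' : Form (FormType.quad F) V'} {T' : Module.End F V'}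

theorem pw_succ (T : Module.End F V) (i : ℕ) (x : V) : (T ^ (i + 1)) x = T ((T ^ i) x) := by
  rw [pow_succ', Module.End.mul_apply]

theorem pw_succ' (T : Module.End F V) (i : ℕ) (x : V) : (T ^ (i + 1)) x = (T ^ i) (T x) := by
  rw [pow_succ, Module.End.mul_apply]

theorem pw_pw (T : Module.End F V) (i j : ℕ) (x : V) : (T ^ i) ((T ^ j) x) = (T ^ (i + j)) x := by
  rw [pow_add, Module.End.mul_apply]

theorem pw_zero_of_le {n i : ℕ} {x : V} (h : (T ^ n) x = 0) (hi : n ≤ i) : (T ^ i) x = 0 := by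
  rw [← Nat.sub_add_cancel hi, ← pw_pw, h, map_zero]

theorem Bsl (f : Form (FormType.quad F) V) (c : F) (x y : V) : f.B (c • x) y = c * f.B x y :=
  f.B_smul_left c x y

/-- `1 + T` is an isometry. -/
structure Uo (f : Form (FormType.quad F) V) (T : Module.End F V) : Prop where
  B : ∀ x y, f.B (T x) (T y) = f.B (T x) y + f.B x (T y)
  q : ∀ x, f.q (T x) = f.B x (T x)

variable [CharP F 2]

variable (F) in
theorem two_z : (2 : F) = 0 := CharTwo.two_eq_zero

theorem B_self (f : Form (FormType.quad F) V) (x : V) : f.B x x = 0 := by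
  rw [f.quad_B_self, two_z, zero_mul]

theorem uo_of_isIsom {A : Module.End F V} (h : IsIsom f f A) : Uo f (A - 1) := by
  refine ⟨fun x y => ?_, fun x => ?_⟩
  · simp only [LinearMap.sub_apply, Module.End.one_apply, B_sub_left, B_sub_right, h.B_eq]
    linear_combination (2 * f.B x y - f.B x (A y) - f.B (A x) y) * two_z F
  · have h1 := f.quad_q_add (A x - x) x
    rw [sub_add_cancel, h.q_eq, f.quad_symm] at h1
    change f.q (A x - x) = f.B x (A x - x)
    linear_combination -h1 - f.B x (A x - x) * two_z F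

namespace Uo

variable (h : Uo f T)
include h

theorem zero_of {n : ℕ} {y : V} (hy : (T ^ n) y = 0) (x : V) {i : ℕ} (hi : n ≤ i) :
    f.B ((T ^ i) x) y = 0 := by
  induction n generalizing y i with
  | zero => rw [show y = 0 from hy, B_zero_right]
  | succ n ih =>
    obtain ⟨i, rfl⟩ : ∃ j, i = j + 1 := ⟨i - 1, by omega⟩
    rw [pw_succ'] at hy
    have h1 := h.B ((T ^ i) x) y
    rw [← pw_succ, ih hy (by omega), ih hy (by omega)] at h1
    linear_combination -h1

variable {N n : ℕ}

theorem b_zero (h0 : T ^ N = 0) (x y : V) {i j : ℕ} (hij : N ≤ i + j) :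
    f.B ((T ^ i) x) ((T ^ j) y) = 0 :=
  h.zero_of (n := N - j) (by
    rw [pw_pw]; exact pw_zero_of_le (by rw [h0]; rfl) (by omega)) x (by omega)

theorem b_top (h0 : T ^ (n + 1) = 0) (x y : V) {i j : ℕ} (hij : i + j = n) :
    f.B ((T ^ i) x) ((T ^ j) y) = f.B ((T ^ n) x) y := by
  induction j generalizing i with
  | zero => rw [← hij]; rfl
  | succ j ih =>
    have h1 := h.B ((T ^ i) x) ((T ^ j) y)
    rw [← pw_succ, ← pw_succ, h.b_zero h0 x y (by omega), ih (by omega)] at h1
    linear_combination -h1 - f.B ((T ^ n) x) y * two_z F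

theorem top_symm (h0 : T ^ (n + 1) = 0) (x y : V) : f.B ((T ^ n) y) x = f.B ((T ^ n) x) y := by
  rw [← h.b_top h0 x y (zero_add n), f.quad_symm]; rfl

theorem top_T (h0 : T ^ (n + 1) = 0) (x y : V) : f.B ((T ^ n) x) (T y) = 0 :=
  h.b_zero h0 x y (j := 1) le_rfl

omit [CharP F 2] in
theorem q_succ (x : V) (j : ℕ) : f.q ((T ^ (j + 1)) x) = f.B ((T ^ j) x) ((T ^ (j + 1)) x) := by
  rw [pw_succ, h.q]

theorem q_zero (h0 : T ^ N = 0) (x : V) {l : ℕ} (hl : N < 2 * l) : f.q ((T ^ l) x) = 0 := by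
  obtain ⟨l, rfl⟩ : ∃ j, l = j + 1 := ⟨l - 1, by omega⟩
  rw [h.q_succ, h.b_zero h0 x x (by omega)]

theorem q_add_T (h0 : T ^ (n + 1) = 0) (v w : V) {l : ℕ} (hl : n ≤ 2 * l) :
    f.q ((T ^ l) (v + T w)) = f.q ((T ^ l) v) := by
  rw [map_add, f.quad_q_add, ← pw_succ', h.q_zero h0 w (by omega), h.b_zero h0 v w (by omega),
    add_zero, add_zero]

theorem top_self_odd (h0 : T ^ (n + 1) = 0) {m : ℕ} (hm : 2 * m = n + 1) (x : V) :
    f.B ((T ^ n) x) x = f.q ((T ^ m) x) := by
  obtain ⟨m, rfl⟩ : ∃ j, m = j + 1 := ⟨m - 1, by omega⟩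
  rw [h.q_succ, h.b_top h0 x x (by omega)]

theorem top_self_even (h0 : T ^ (n + 1) = 0) (hn : Even n) (x : V) : f.B ((T ^ n) x) x = 0 := by
  obtain ⟨m, hm⟩ := hn
  rw [← h.b_top h0 x x hm.symm, B_self]

theorem q_add_smul (x z : V) (c : F) (j : ℕ) : f.q ((T ^ j) (x + c • z)) =
    f.q ((T ^ j) x) + c ^ 2 * f.q ((T ^ j) z) + c * f.B ((T ^ j) x) ((T ^ j) z) := by
  rw [map_add, map_smul, f.quad_q_add, f.quad_q_smul, B_smul_right]

/-- Killing the lower coefficients of the norm. -/
theorem hensel_q (h0 : T ^ (n + 1) = 0) {U : Submodule F V} (hU : ∀ v ∈ U, T v ∈ U) {z : V}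
    (hz : z ∈ U) (m : ℕ) (hm : 2 * m ≤ n + 1) (hq : ∀ l, n + 1 ≤ l + m → f.q ((T ^ l) z) = 0)
    (y : V) (hy : f.B ((T ^ n) y) z ≠ 0) : ∃ w ∈ U, (∀ j < m, f.q ((T ^ j) (y + T w)) = 0) ∧
      ∀ j, m ≤ j → f.q ((T ^ j) (y + T w)) = f.q ((T ^ j) y) := by
  induction m generalizing y with
  | zero => exact ⟨0, U.zero_mem, by simp, by simp⟩
  | succ m ih =>
    obtain ⟨e, he⟩ : ∃ e, n = 2 * m + (e + 1) := ⟨n - 2 * m - 1, by omega⟩
    set c := f.q ((T ^ m) y) / f.B ((T ^ n) y) z with hc
    have h1 : ∀ j, m ≤ j → f.q ((T ^ j) (y + c • (T ^ (e + 1)) z)) =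
        f.q ((T ^ j) y) + c * f.B ((T ^ j) y) ((T ^ (j + (e + 1))) z) := fun j hj => by
      rw [h.q_add_smul, pw_pw, hq _ (by omega), mul_zero, add_zero]
    obtain ⟨w, hw, h2, h3⟩ := ih (by omega) (fun l hl => hq l (by omega))
      (y + c • (T ^ (e + 1)) z) (by
        rwa [map_add, map_smul, pw_pw,
          pw_zero_of_le (n := n + 1) (i := n + (e + 1)) (by rw [h0]; rfl) (by omega),
          smul_zero, add_zero])
    have h4 : y + T (c • (T ^ e) z + w) = y + c • (T ^ (e + 1)) z + T w := by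
      rw [map_add, map_smul, pw_succ, add_assoc]
    refine ⟨c • (T ^ e) z + w, U.add_mem (U.smul_mem _ ?_) hw, fun j hj => ?_, fun j hj => ?_⟩
    · exact Module.End.pow_apply_mem_of_forall_mem e hU z hz
    · rw [h4]
      rcases (Nat.lt_succ_iff.1 hj).lt_or_eq with hj | rfl
      · exact h2 j hj
      · rw [h3 j le_rfl, h1 j le_rfl, h.b_top h0 y z (by omega), hc, div_mul_cancel₀ _ hy]
        exact CharTwo.add_self_eq_zero _
    · rw [h4, h3 j (by omega), h1 j (by omega), h.b_zero h0 y z (by omega), mul_zero, add_zero]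

/-- Killing the lower coefficients of the pairing. -/
theorem hensel_b (h0 : T ^ (n + 1) = 0) {x y : V} (hy : f.B ((T ^ n) x) y ≠ 0) (v : V) :
    ∃ w, ∀ i < n, f.B ((T ^ i) x) (v + T w) = 0 := by
  have key : ∀ m e, m + e = n → ∀ v, ∃ w, ∀ i < m, f.B ((T ^ i) x) (v + (T ^ (e + 1)) w) = 0 := by
    intro m
    induction m with
    | zero => exact fun _ _ _ => ⟨0, by simp⟩
    | succ m ih =>
      intro e he v
      set c := f.B ((T ^ m) x) v / f.B ((T ^ n) x) y with hc
      obtain ⟨w, hw⟩ := ih (e + 1) (by omega) (v + c • (T ^ (e + 1)) y)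
      refine ⟨c • y + T w, fun i hi => ?_⟩
      rw [map_add (T ^ (e + 1)), map_smul, ← pw_succ', ← add_assoc]
      rcases (Nat.lt_succ_iff.1 hi).lt_or_eq with hi | rfl
      · exact hw i hi
      · rw [B_add_right, B_add_right, B_smul_right, h.b_top h0 x y (by omega),
          h.b_zero h0 x w (by omega), hc, div_mul_cancel₀ _ hy, add_zero]
        exact CharTwo.add_self_eq_zero _
  simpa using key n 0 rfl v

theorem gram_self (h' : Uo f' T') {x : V} {x' : V'}
    (hq : ∀ j, f'.q ((T' ^ (j + 1)) x') = f.q ((T ^ (j + 1)) x)) (i j : ℕ) :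
    f'.B ((T' ^ i) x') ((T' ^ j) x') = f.B ((T ^ i) x) ((T ^ j) x) := by
  have key : ∀ d i, f'.B ((T' ^ i) x') ((T' ^ (i + d)) x') = f.B ((T ^ i) x) ((T ^ (i + d)) x) := by
    intro d
    induction d using Nat.twoStepInduction with
    | zero => exact fun i => by simp [B_self]
    | one => exact fun i => by rw [← h.q_succ, ← h'.q_succ, hq]
    | more d ih1 ih2 =>
      intro i
      have h1 := h.B ((T ^ i) x) ((T ^ (i + 1 + d)) x)
      have h2 := h'.B ((T' ^ i) x') ((T' ^ (i + 1 + d)) x')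
      simp only [← pw_succ] at h1 h2
      have h3 := ih2 (i + 1)
      rw [ih1, add_assoc (i + 1), h3] at h2
      rw [add_assoc (i + 1)] at h1
      rw [show i + (d + 2) = i + 1 + (d + 1) by omega]
      linear_combination h1 - h2
  rcases le_total i j with hij | hij
  · obtain ⟨d, rfl⟩ := Nat.exists_eq_add_of_le hij
    exact key d i
  · obtain ⟨d, rfl⟩ := Nat.exists_eq_add_of_le hij
    rw [f.quad_symm, f'.quad_symm]
    exact key d j

theorem gram_T (h' : Uo f' T') {y : V} {y' : V'} (n : ℕ) : ∀ {x : V} {x' : V'},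
    (T ^ n) x = 0 → (T' ^ n) x' = 0 → (∀ i, f'.B ((T' ^ i) x') y' = f.B ((T ^ i) x) y) →
      f'.B x' (T' y') = f.B x (T y) := by
  induction n with
  | zero =>
    intro x x' hx hx' _
    rw [show x = 0 from hx, show x' = 0 from hx', B_zero_left, B_zero_left]
  | succ n ih =>
    intro x x' hx hx' hb
    have h1 := ih (x := T x) (x' := T' x') (by rwa [← pw_succ']) (by rwa [← pw_succ'])
      fun i => by rw [← pw_succ', ← pw_succ', hb]
    have h2 := hb 1
    rw [pow_one, pow_one] at h2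
    rw [h.B, h'.B, h2] at h1
    exact add_left_cancel h1

theorem gram_pair (h' : Uo f' T') (h0 : T ^ N = 0) (h0' : T' ^ N = 0) {x y : V} {x' y' : V'}
    (hb : ∀ i, f'.B ((T' ^ i) x') y' = f.B ((T ^ i) x) y) (j : ℕ) :
    ∀ i, f'.B ((T' ^ i) x') ((T' ^ j) y') = f.B ((T ^ i) x) ((T ^ j) y) := by
  induction j with
  | zero => exact hb
  | succ j ih =>
    intro i
    rw [pw_succ, pw_succ]
    exact h.gram_T h' N (by rw [h0]; rfl) (by rw [h0']; rfl) fun l => by rw [pw_pw, pw_pw, ih]

end Uo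

omit [CharP F 2] in
theorem exists_equiv_of_gram {ι : Type*} (hf : f.Nondeg) (hf' : f'.Nondeg) {g : ι → V}
    {g' : ι → V'} (hg : Submodule.span F (Set.range g) = ⊤)
    (hg' : Submodule.span F (Set.range g') = ⊤)
    (h : ∀ i j, f'.B (g' i) (g' j) = f.B (g i) (g j)) :
    ∃ u : V ≃ₗ[F] V', (∀ i, u (g i) = g' i) ∧ ∀ v w, f'.B (u v) (u w) = f.B v w := by
  let φ := Finsupp.linearCombination F g
  let φ' := Finsupp.linearCombination F g'
  have hs : Function.Surjective φ := LinearMap.range_eq_top.1 (by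
    rw [Finsupp.range_linearCombination, hg])
  have hs' : Function.Surjective φ' := LinearMap.range_eq_top.1 (by
    rw [Finsupp.range_linearCombination, hg'])
  have h1 : ∀ a b, f'.B (φ' a) (φ' b) = f.B (φ a) (φ b) := fun a b => by
    induction a using Finsupp.induction_linear with
    | zero => simp
    | add a a' h1 h2 => rw [map_add φ, map_add φ', B_add_left, B_add_left, h1, h2]
    | single i c =>
      induction b using Finsupp.induction_linear with
      | zero => simp
      | add b b' h1 h2 => rw [map_add φ, map_add φ', B_add_right, B_add_right, h1, h2]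
      | single j d =>
        simp only [φ, φ', Finsupp.linearCombination_single, Bsl, B_smul_right, h]
  have hk : LinearMap.ker φ = LinearMap.ker φ' := by
    ext a
    constructor
    · refine fun ha => hf' _ fun y => ?_
      obtain ⟨b, rfl⟩ := hs' y
      rw [h1, show φ a = 0 from ha, B_zero_left]
    · refine fun ha => hf _ fun y => ?_
      obtain ⟨b, rfl⟩ := hs y
      rw [← h1, show φ' a = 0 from ha, B_zero_left]
  let u := ((LinearMap.quotKerEquivOfSurjective _ hs).symm.trans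
    (Submodule.quotEquivOfEq _ _ hk)).trans (LinearMap.quotKerEquivOfSurjective _ hs')
  have hu : ∀ a, u (φ a) = φ' a := fun a => by
    have : (LinearMap.quotKerEquivOfSurjective _ hs).symm (φ a) = Submodule.Quotient.mk a :=
      (LinearEquiv.symm_apply_eq _).2 rfl
    simp only [u, LinearEquiv.trans_apply, this]
    rfl
  refine ⟨u, fun i => by simpa [φ, φ'] using hu (Finsupp.single i 1), fun v w => ?_⟩
  obtain ⟨a, rfl⟩ := hs v
  obtain ⟨b, rfl⟩ := hs w
  rw [hu, hu, h1]

/-- `x` and `y` generate the module. -/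
def Gen (T : Module.End F V) (x y : V) : Prop := ∀ v, ∃ (a b : F) (w : V), v = a • x + b • y + T w

/-- The spanning family. -/
def fam (T : Module.End F V) (x y : V) (p : Bool × ℕ) : V := (T ^ p.2) (bif p.1 then x else y)

omit [CharP F 2] in
theorem Gen.span {x y : V} (hg : Gen T x y) {N : ℕ} (h0 : T ^ N = 0) :
    Submodule.span F (Set.range (fam T x y)) = ⊤ := by
  have key : ∀ m j, m + j = N → ∀ v, (T ^ j) v ∈ Submodule.span F (Set.range (fam T x y)) := by
    intro m
    induction m with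
    | zero =>
      intro j hj v
      rw [zero_add] at hj
      rw [hj, h0]
      exact Submodule.zero_mem _
    | succ m ih =>
      intro j hj v
      obtain ⟨a, b, w, rfl⟩ := hg v
      rw [map_add, map_add, map_smul, map_smul, ← pw_succ']
      exact Submodule.add_mem _ (Submodule.add_mem _
        (Submodule.smul_mem _ _ (Submodule.subset_span ⟨(true, j), rfl⟩))
        (Submodule.smul_mem _ _ (Submodule.subset_span ⟨(false, j), rfl⟩))) (ih _ (by omega) w)
  exact eq_top_iff.2 fun v _ => key N 0 rfl v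

theorem exists_equiv_of_gen (hf : f.Nondeg) (hf' : f'.Nondeg) (h : Uo f T) (h' : Uo f' T') {N : ℕ}
    (h0 : T ^ N = 0) (h0' : T' ^ N = 0) {x y : V} {x' y' : V'} (hg : Gen T x y) (hg' : Gen T' x' y')
    (hx : ∀ j, f'.q ((T' ^ (j + 1)) x') = f.q ((T ^ (j + 1)) x))
    (hy : ∀ j, f'.q ((T' ^ (j + 1)) y') = f.q ((T ^ (j + 1)) y))
    (hb : ∀ i, f'.B ((T' ^ i) x') y' = f.B ((T ^ i) x) y) :
    ∃ u : V ≃ₗ[F] V', (∀ v w, f'.B (u v) (u w) = f.B v w) ∧ (∀ v, u (T v) = T' (u v)) ∧
      (f'.q x' = f.q x → f'.q y' = f.q y → IsIsom f f' u) := by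
  obtain ⟨u, h1, h2⟩ := exists_equiv_of_gram hf hf' (hg.span h0) (hg'.span h0') (by
    rintro ⟨_ | _, i⟩ ⟨_ | _, j⟩
    · exact h.gram_self h' hy i j
    · exact (f'.quad_symm _ _).trans ((h.gram_pair h' h0 h0' hb i j).trans (f.quad_symm _ _))
    · exact h.gram_pair h' h0 h0' hb j i
    · exact h.gram_self h' hx i j)
  refine ⟨u, h2, fun v => ?_, fun h3 h4 => ?_⟩
  · have : (u : V →ₗ[F] V') ∘ₗ T = T' ∘ₗ (u : V →ₗ[F] V') :=
      LinearMap.ext_on_range (hg.span h0) fun p => by
        have h3 := h1 (p.1, p.2 + 1)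
        simp only [fam, pw_succ] at h3
        simp only [LinearMap.comp_apply, LinearEquiv.coe_coe, h1]
        exact h3
    exact LinearMap.congr_fun this v
  · refine isIsom_of_span f f' (u : V →ₗ[F] V') (hg.span h0) (fun v _ w _ => h2 v w) ?_
    rintro _ ⟨⟨s, j⟩, rfl⟩
    rw [LinearEquiv.coe_coe, h1]
    rcases j with _ | j <;> cases s
    exacts [h4, h3, hy j, hx j]

/-- Non-degeneracy of the top layer. -/
def ND (f : Form (FormType.quad F) V) (T : Module.End F V) (n : ℕ) (x y : V) : Prop :=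
  ∀ a b : F, f.B ((T ^ n) x) (a • x + b • y) = 0 → f.B ((T ^ n) y) (a • x + b • y) = 0 →
    a • x + b • y = 0

omit [CharP F 2] in
theorem ND.eq_zero {n : ℕ} {x y : V} (h : ND f T n x y) (hs : ∀ v w, f.B ((T ^ n) w) v =
    f.B ((T ^ n) v) w) {a b : F} (h1 : (T ^ n) (a • x + b • y) = 0) : a • x + b • y = 0 :=
  h a b (by rw [hs, h1, B_zero_left]) (by rw [hs, h1, B_zero_left])

theorem Gen.ker_le (h : Uo f T) {n : ℕ} (h0 : T ^ (n + 1) = 0) {x y : V} (hg : Gen T x y)
    (hn : ND f T n x y) {v : V} {j : ℕ} (hv : (T ^ j) v = 0) (i : ℕ) (hi : i + j ≤ n + 1) :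
    ∃ w, v = (T ^ i) w := by
  induction i with
  | zero => exact ⟨v, rfl⟩
  | succ i ih =>
    obtain ⟨w, rfl⟩ := ih (by omega)
    obtain ⟨a, b, w, rfl⟩ := hg w
    have h1 := pw_zero_of_le (i := n - i) hv (by omega)
    rw [pw_pw, Nat.sub_add_cancel (by omega), map_add, ← pw_succ', h0, LinearMap.zero_apply,
      add_zero] at h1
    exact ⟨w, by rw [hn.eq_zero (h.top_symm h0) h1, zero_add, pw_succ']⟩

theorem Gen.finrank_eq [FiniteDimensional F V] (h : Uo f T) {n : ℕ} (h0 : T ^ (n + 1) = 0)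
    {x y : V} (hg : Gen T x y) (hn : ND f T n x y) :
    finrank F V = (n + 1) * finrank F (Submodule.span F {x, y}) := by
  have key : ∀ m j, m + j = n + 1 → finrank F (LinearMap.range (T ^ j)) =
      m * finrank F (Submodule.span F {x, y}) := by
    intro m
    induction m with
    | zero =>
      intro j hj
      rw [zero_add] at hj
      rw [hj, h0, LinearMap.range_zero, finrank_bot, zero_mul]
    | succ m ih =>
      intro j hj
      have h1 : ∀ c ∈ Submodule.span F {x, y}, ∀ w, (T ^ j) c = (T ^ (j + 1)) w → c = 0 := by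
        intro c hc w hw
        obtain ⟨a, b, rfl⟩ := Submodule.mem_span_pair.1 hc
        refine hn.eq_zero (h.top_symm h0) ?_
        rw [show n = m + j by omega, ← pw_pw, hw, pw_pw, show m + (j + 1) = n + 1 by omega, h0]
        rfl
      have h2 : LinearMap.range (T ^ j) = (Submodule.span F {x, y}).map (T ^ j) ⊔
          LinearMap.range (T ^ (j + 1)) := by
        refine le_antisymm ?_ (sup_le LinearMap.map_le_range ?_)
        · rintro _ ⟨v, rfl⟩
          obtain ⟨a, b, w, rfl⟩ := hg v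
          rw [map_add, ← pw_succ']
          exact Submodule.add_mem_sup ⟨_, Submodule.mem_span_pair.2 ⟨a, b, rfl⟩, rfl⟩ ⟨w, rfl⟩
        · rintro _ ⟨v, rfl⟩
          exact ⟨T v, (pw_succ' T j v).symm⟩
      have h3 := Submodule.finrank_sup_add_finrank_inf_eq ((Submodule.span F {x, y}).map (T ^ j))
        (LinearMap.range (T ^ (j + 1)))
      have h4 : (Submodule.span F {x, y}).map (T ^ j) ⊓ LinearMap.range (T ^ (j + 1)) = ⊥ := by
        rw [eq_bot_iff]
        rintro _ ⟨⟨c, hc, rfl⟩, w, hw⟩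
        rw [h1 c hc w hw.symm, map_zero]
        exact Submodule.zero_mem _
      have h5 : finrank F ((Submodule.span F {x, y}).map (T ^ j)) =
          finrank F (Submodule.span F {x, y}) := by
        rw [← LinearMap.range_domRestrict, LinearMap.finrank_range_of_inj]
        rw [injective_iff_map_eq_zero]
        exact fun c hc => Subtype.ext (h1 c.1 c.2 0 (by rw [map_zero]; exact hc))
      rw [← h2, h4, finrank_bot, h5, ih (j + 1) (by omega)] at h3
      rw [add_zero] at h3
      rw [h3]; ring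
  rw [← key (n + 1) 0 rfl, pow_zero, Module.End.one_eq_id, LinearMap.range_id, finrank_top]

/-- The image of the Artin-Schreier map. -/
def AS (c : F) : Prop := ∃ t : F, t ^ 2 + t = c

omit [CharP F 2] in
theorem isPlus_of_perp_le [FiniteDimensional F V] (hf : f.Nondeg) {U : Submodule F V}
    (hU : ∀ u ∈ U, f.q u = 0) (h : f.perp U ≤ U) : IsPlus (qfOf f) := by
  have h1 := hf.finrank_add_finrank_perp U
  have h2 : f.perp U = U := le_antisymm h fun u hu w hw => ((quad_totSing_iff f U).2 hU).2 w hw u hu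
  rw [h2] at h1
  exact ⟨U, hU, by omega⟩

theorem isPlus_iff_AS [Finite F] [FiniteDimensional F V] (hf : f.Nondeg) {U : Submodule F V}
    (hU : ∀ u ∈ U, f.q u = 0) {e e' : V} (he : e ∈ f.perp U) (he' : e' ∈ f.perp U)
    (hb : f.B e e' = 1) (h : ∀ v ∈ f.perp U, ∃ (a b : F), ∃ u ∈ U, v = a • e + b • e' + u) :
    IsPlus (qfOf f) ↔ AS (f.q e * f.q e') := by
  have hb' : f.B e' e = 1 := (f.quad_symm _ _).trans hb
  have hq : ∀ (a b : F), ∀ u ∈ U, f.q (a • e + b • e' + u) = a ^ 2 * f.q e + b ^ 2 * f.q e' + a * b :=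
    fun a b u hu => by
      rw [f.quad_q_add, f.quad_q_add, f.quad_q_smul, f.quad_q_smul, hU u hu, Bsl, B_smul_right, hb,
        f.quad_symm, B_add_right, B_smul_right, B_smul_right, he u hu, he' u hu]
      ring
  have h1 : ∀ a b : F, a • e + b • e' ∈ U → a = 0 ∧ b = 0 := fun a b hab => by
    have h2 := he _ hab
    have h3 := he' _ hab
    simp only [B_add_left, Bsl, B_self, hb, hb'] at h2 h3
    exact ⟨by simpa using h3, by simpa using h2⟩
  have h2 : e ∉ U := fun h2 => one_ne_zero (h1 1 0 (by simpa using h2)).1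
  have h3 : e' ∉ U ⊔ F ∙ e := fun h3 => by
    obtain ⟨u, hu, v, hv, h4⟩ := Submodule.mem_sup.1 h3
    obtain ⟨c, rfl⟩ := Submodule.mem_span_singleton.1 hv
    exact one_ne_zero (h1 (-c) 1 (by rw [← h4]; simpa using hu)).2
  have h4 : f.perp U = (U ⊔ F ∙ e) ⊔ F ∙ e' := by
    refine le_antisymm (fun v hv => ?_) (sup_le (sup_le (fun u hu w hw =>
      ((quad_totSing_iff f U).2 hU).2 w hw u hu) (by simpa using he)) (by simpa using he'))
    obtain ⟨a, b, u, hu, rfl⟩ := h v hv
    rw [add_comm, ← add_assoc]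
    exact Submodule.add_mem_sup (Submodule.add_mem_sup hu (Submodule.mem_span_singleton.2 ⟨a, rfl⟩))
      (Submodule.mem_span_singleton.2 ⟨b, rfl⟩)
  have h5 := hf.finrank_add_finrank_perp U
  rw [h4, finrank_sup_span_singleton' h3, finrank_sup_span_singleton' h2] at h5
  constructor
  · rintro ⟨W, hW, hW'⟩
    by_contra h6
    have h7 := finrank_le_of_maximal_singular (qfOf_nondeg hf) hW (E := U) fun v hv h7 => by
      obtain ⟨a, b, u, hu, rfl⟩ := h v fun w hw => by
        rw [← polar_qfOf]; exact Orth.mem_perp.1 hv w hw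
      rw [qfOf_apply, hq a b u hu] at h7
      have hb0 : b = 0 := by
        by_contra hb0
        refine h6 ⟨a * f.q e / b, ?_⟩
        field_simp
        linear_combination f.q e * h7 - (b ^ 2 * f.q e * f.q e') * two_z F
      have ha0 : a = 0 := by
        by_contra ha0
        rw [hb0] at h7
        exact h6 ⟨0, by
          rw [show f.q e = 0 from mul_left_cancel₀ (pow_ne_zero 2 ha0) (by linear_combination h7)]
          simp⟩
      rwa [ha0, hb0, zero_smul, zero_smul, zero_add, zero_add]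
    omega
  · rintro ⟨t, ht⟩
    obtain ⟨a, b, h6, h7⟩ : ∃ a b : F, ¬ (a = 0 ∧ b = 0) ∧
        a ^ 2 * f.q e + b ^ 2 * f.q e' + a * b = 0 := by
      by_cases h6 : f.q e = 0
      · exact ⟨1, 0, by simp, by simp [h6]⟩
      · exact ⟨t, f.q e, fun h => h6 h.2, by
          linear_combination f.q e * ht + (f.q e ^ 2 * f.q e') * two_z F⟩
    refine ⟨U ⊔ F ∙ (a • e + b • e'), fun w hw => ?_, by
      rw [finrank_sup_span_singleton' fun h => h6 (h1 a b h)]; omega⟩
    obtain ⟨u, hu, v, hv, rfl⟩ := Submodule.mem_sup.1 hw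
    obtain ⟨c, rfl⟩ := Submodule.mem_span_singleton.1 hv
    rw [qfOf_apply, add_comm, smul_add, smul_smul, smul_smul, hq _ _ u hu]
    linear_combination c ^ 2 * h7

end Basic

end CL.Ev2
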