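import Mathlib
import Cfsg.Agent.KSG.Ev2Core

/-! Unipotent isometries of quadratic spaces in characteristic two: the indecomposable pieces. -/

set_option autoImplicit false

namespace CL.Ev2

open Module CL.Witt CL.Witt.Form CL.SpU CL.Orth CL.Nil

universe u

variable {F : Type u} [Field F] [CharP F 2]

section Norm

variable {V : Type*} [AddCommGroup V] [Module F V] {f : Form (FormType.quad F) V}
  {T : Module.End F V} {n : ℕ}

omit [CharP F 2] in
theorem Uo.perp_inv (h : Uo f T) {N : ℕ} (h0 : T ^ N = 0) {U : Submodule F V}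
    (hU : ∀ v ∈ U, T v ∈ U) {v : V} (hv : v ∈ f.perp U) : T v ∈ f.perp U := by
  have key : ∀ m, ∀ w ∈ U, (T ^ m) w = 0 → f.B w (T v) = 0 := by
    intro m
    induction m with
    | zero => exact fun w _ hw => by rw [show w = 0 from hw, B_zero_left]
    | succ m ih =>
      intro w hw h1
      have h2 := h.B w v
      rw [ih _ (hU w hw) (by rwa [← pw_succ']), hv _ (hU w hw), zero_add] at h2
      exact h2.symm
  exact fun w hw => key N w hw (by rw [h0]; rfl)

omit [CharP F 2] in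
theorem span_fam_inv (x y : V) : ∀ v ∈ Submodule.span F (Set.range (fam T x y)),
    T v ∈ Submodule.span F (Set.range (fam T x y)) := by
  intro v hv
  induction hv using Submodule.span_induction with
  | mem v hv =>
    obtain ⟨p, rfl⟩ := hv
    exact Submodule.subset_span ⟨(p.1, p.2 + 1), pw_succ T _ _⟩
  | zero => simp
  | add a b _ _ h1 h2 => rw [map_add]; exact Submodule.add_mem _ h1 h2
  | smul c a _ h1 => rw [map_smul]; exact Submodule.smul_mem _ _ h1

omit [CharP F 2] in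
theorem span_fam_gen (x y : V) : ∀ v ∈ Submodule.span F (Set.range (fam T x y)), ∃ a b : F,
    ∃ w ∈ Submodule.span F (Set.range (fam T x y)), v = a • x + b • y + T w := by
  intro v hv
  induction hv using Submodule.span_induction with
  | mem v hv =>
    obtain ⟨⟨s, j⟩, rfl⟩ := hv
    rcases j with _ | j
    · cases s
      · exact ⟨0, 1, 0, Submodule.zero_mem _, by simp [fam]⟩
      · exact ⟨1, 0, 0, Submodule.zero_mem _, by simp [fam]⟩
    · exact ⟨0, 0, _, Submodule.subset_span ⟨(s, j), rfl⟩, by simp [fam, pw_succ]⟩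
  | zero => exact ⟨0, 0, 0, Submodule.zero_mem _, by simp⟩
  | add v v' _ _ h1 h2 =>
    obtain ⟨a, b, w, hw, rfl⟩ := h1
    obtain ⟨a', b', w', hw', rfl⟩ := h2
    exact ⟨a + a', b + b', w + w', Submodule.add_mem _ hw hw', by rw [map_add]; module⟩
  | smul c v _ h1 =>
    obtain ⟨a, b, w, hw, rfl⟩ := h1
    exact ⟨c * a, c * b, c • w, Submodule.smul_mem _ _ hw, by rw [map_smul]; module⟩

theorem span_fam_disjoint (h : Uo f T) (h0 : T ^ (n + 1) = 0) {x y : V} (hn : ND f T n x y) :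
    Disjoint (Submodule.span F (Set.range (fam T x y)))
      (f.perp (Submodule.span F (Set.range (fam T x y)))) := by
  refine Submodule.disjoint_def.2 fun v hv hv' => ?_
  have key : ∀ i ≤ n + 1, ∃ w ∈ Submodule.span F (Set.range (fam T x y)), v = (T ^ i) w := by
    intro i
    induction i with
    | zero => exact fun _ => ⟨v, hv, rfl⟩
    | succ i ih =>
      intro hi
      obtain ⟨w, hw, rfl⟩ := ih (by omega)
      obtain ⟨a, b, w, hw', rfl⟩ := span_fam_gen x y w hw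
      have h1 : ∀ s : Bool, f.B ((T ^ n) (bif s then x else y)) (a • x + b • y) = 0 := fun s => by
        have h2 := hv' _ (Submodule.subset_span ⟨(s, n - i), rfl⟩)
        rwa [fam, h.b_top h0 _ _ (by omega), B_add_right, h.top_T h0, add_zero] at h2
      exact ⟨w, hw', by rw [hn a b (h1 true) (h1 false), zero_add, pw_succ']⟩
  obtain ⟨w, -, rfl⟩ := key _ le_rfl
  rw [h0]; rfl

theorem Uo.normW (h : Uo f T) (h0 : T ^ (n + 1) = 0) {x y : V} (hb : f.B ((T ^ n) x) y = 1)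
    (hx : ∀ l, 2 * l = n + 1 → f.q ((T ^ l) x) = 0) (hy : ∀ l, 2 * l = n + 1 → f.q ((T ^ l) y) = 0) :
    ∃ x' y', (∀ i, f.B ((T ^ i) x') y' = if i = n then 1 else 0) ∧
      (∀ j, f.q ((T ^ j) x') = if 2 * j = n then f.q ((T ^ j) x) else 0) ∧
      ∀ j, f.q ((T ^ j) y') = if 2 * j = n then f.q ((T ^ j) y) else 0 := by
  set m := (n + 1) / 2 with hm
  have h1 : ∀ {z : V}, (∀ l, 2 * l = n + 1 → f.q ((T ^ l) z) = 0) →
      ∀ l, n + 1 ≤ l + m → f.q ((T ^ l) z) = 0 := fun hz l hl => by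
    rcases (by omega : 2 * l = n + 1 ∨ n + 1 < 2 * l) with h2 | h2
    exacts [hz l h2, h.q_zero h0 _ h2]
  have h2 : ∀ {z z' : V}, (∀ l, 2 * l = n + 1 → f.q ((T ^ l) z) = 0) →
      (∀ j < m, f.q ((T ^ j) z') = 0) → (∀ j, m ≤ j → f.q ((T ^ j) z') = f.q ((T ^ j) z)) →
      ∀ j, f.q ((T ^ j) z') = if 2 * j = n then f.q ((T ^ j) z) else 0 := fun hz h3 h4 j => by
    split_ifs with h5
    · exact h4 j (by omega)
    · rcases lt_or_ge j m with h6 | h6
      · exact h3 j h6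
      · rw [h4 j h6, h1 hz j (by omega)]
  obtain ⟨w₁, -, h3, h4⟩ := h.hensel_q h0 (U := ⊤) (fun _ _ => trivial) (z := y) trivial m
    (by omega) (h1 hy) x (by rw [hb]; exact one_ne_zero)
  set x' := x + T w₁ with hx'
  have h5 : f.B ((T ^ n) x') y = 1 := by
    rw [hx', map_add, ← pw_succ', h0, LinearMap.zero_apply, add_zero, hb]
  obtain ⟨w₂, h6⟩ := h.hensel_b h0 (by rw [h5]; exact one_ne_zero) y
  obtain ⟨w₃, h7⟩ := h.hensel_b h0 (by rw [h5]; exact one_ne_zero) x'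
  have h8 : f.B ((T ^ n) x') x' = 0 := by
    rcases n.even_or_odd' with ⟨k, hk | hk⟩
    · exact h.top_self_even h0 ⟨k, by omega⟩ _
    · rw [h.top_self_odd h0 (m := m) (by omega), h4 m le_rfl, hx m (by omega)]
  let U := f.perp (Submodule.span F (Set.range (fam T x' x')))
  have hU : ∀ v, v ∈ U ↔ ∀ i, f.B ((T ^ i) x') v = 0 := fun v => by
    rw [f.mem_perp_span]
    exact ⟨fun h i => h _ ⟨(true, i), rfl⟩, by rintro h _ ⟨⟨_ | _, i⟩, rfl⟩ <;> exact h i⟩
  have hU' : ∀ v ∈ U, T v ∈ U := fun v hv => h.perp_inv h0 (span_fam_inv x' x') hv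
  obtain ⟨w₄, h9, h10, h11⟩ := h.hensel_q h0 hU' (z := x' + T w₃) ((hU _).2 fun i => by
      rcases lt_trichotomy i n with hi | rfl | hi
      · exact h7 i hi
      · rw [B_add_right, h8, h.top_T h0, add_zero]
      · rw [pw_zero_of_le (n := n + 1) (by rw [h0]; rfl) hi, B_zero_left]) m (by omega)
    (h1 fun l hl => by rw [h.q_add_T h0 _ _ (by omega), h4 l (by omega), hx l hl]) (y + T w₂) (by
      rw [B_add_right, h.top_T h0, add_zero, h.top_symm h0, B_add_right, h.top_T h0, add_zero, h5]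
      exact one_ne_zero)
  refine ⟨x', y + T w₂ + T w₄, fun i => ?_, h2 hx h3 h4, h2 hy h10 fun j hj => by
    rw [h11 j hj, h.q_add_T h0 _ _ (by omega)]⟩
  rw [B_add_right, (hU _).1 (hU' _ h9), add_zero]
  split_ifs with hi
  · rw [hi, B_add_right, h.top_T h0, add_zero, h5]
  · rcases lt_or_gt_of_ne hi with hi | hi
    · exact h6 i hi
    · rw [pw_zero_of_le (n := n + 1) (by rw [h0]; rfl) hi, B_zero_left]

theorem Uo.normV (h : Uo f T) (h0 : T ^ (n + 1) = 0) {k : ℕ} (hk : n = 2 * k + 1) {x : V}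
    (hx : f.q ((T ^ (k + 1)) x) = 1) : ∃ x', ∀ j, f.q ((T ^ j) x') =
      if 2 * j = n + 1 then 1 else if 2 * j + 1 = n then f.q ((T ^ k) x) else 0 := by
  obtain ⟨w, -, h1, h2⟩ := h.hensel_q h0 (U := ⊤) (fun _ _ => trivial) (z := x) trivial k
    (by omega) (fun l hl => h.q_zero h0 _ (by omega)) x (by
      rw [h.top_self_odd h0 (m := k + 1) (by omega), hx]; exact one_ne_zero)
  refine ⟨x + T w, fun j => ?_⟩
  split_ifs with h3 h4
  · rw [h2 j (by omega), show j = k + 1 by omega, hx]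
  · rw [h2 j (by omega), show j = k by omega]
  · rcases lt_or_ge j k with h5 | h5
    · exact h1 j h5
    · rw [h2 j h5, h.q_zero h0 _ (by omega)]

end Norm

/-- A unipotent isometry. -/
structure Un (S : FS (FormType.quad F)) (N : ℕ) : Prop where
  isom : IsIsom S.f S.f S.A
  pow : (S.A - 1) ^ N = 0

/-- The norm coefficients. -/
abbrev qq (S : FS (FormType.quad F)) (j : ℕ) (x : S.V) : F := S.f.q (((S.A - 1) ^ j) x)

/-- The pairing coefficients. -/
abbrev bb (S : FS (FormType.quad F)) (i : ℕ) (x y : S.V) : F := S.f.B (((S.A - 1) ^ i) x) y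

variable {S S' P P' : FS (FormType.quad F)} {N n : ℕ}

theorem Un.uo (h : Un S N) : Uo S.f (S.A - 1) := uo_of_isIsom h.isom

omit [CharP F 2] in
theorem pw_map {u : S.V →ₗ[F] S'.V} (h : ∀ v, u (S.A v) = S'.A (u v)) (j : ℕ) (v : S.V) :
    u (((S.A - 1) ^ j) v) = ((S'.A - 1) ^ j) (u v) :=
  pow_intertwine (A := S.A - 1) (A' := S'.A - 1) (fun v => by simp [h]) j v

omit [CharP F 2] in
theorem pw_prod (j : ℕ) (x : S.V) (y : S'.V) : (((S.prod S').A - 1) ^ j) (x, y) =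
    (((S.A - 1) ^ j) x, ((S'.A - 1) ^ j) y) :=
  Prod.ext (pw_map (S := S.prod S') (u := LinearMap.fst F _ _) (fun _ => rfl) j _)
    (pw_map (S := S.prod S') (u := LinearMap.snd F _ _) (fun _ => rfl) j _)

omit [CharP F 2] in
theorem qq_prod (j : ℕ) (x : S.V) (y : S'.V) : qq (S.prod S') j (x, y) = qq S j x + qq S' j y := by
  rw [qq, pw_prod]; rfl

omit [CharP F 2] in
theorem bb_prod (j : ℕ) (x x' : S.V) (y y' : S'.V) :
    bb (S.prod S') j (x, y) (x', y') = bb S j x x' + bb S' j y y' := by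
  rw [bb, pw_prod]; rfl

omit [CharP F 2] in
theorem Un.prod (h : Un S N) (h' : Un S' N) : Un (S.prod S') N :=
  ⟨isIsom_prodMap h.isom h'.isom, LinearMap.ext fun v => by
    rw [show v = (v.1, v.2) from rfl, pw_prod, h.pow, h'.pow]; rfl⟩

omit [CharP F 2] in
theorem exists_of_emb (h : S.Emb S') : ∃ ι : S.V →ₗ[F] S'.V, (∀ j x, qq S' j (ι x) = qq S j x) ∧
    ∀ j x y, bb S' j (ι x) (ι y) = bb S j x y := by
  obtain ⟨ι, h1, h2⟩ := h
  exact ⟨ι, fun j x => by rw [qq, ← pw_map h2, h1.q_eq], fun j x y => by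
    rw [bb, ← pw_map h2, h1.B_eq]⟩

omit [CharP F 2] in
theorem qq_zero (j : ℕ) : qq S j 0 = 0 := by rw [qq, map_zero, q_zero]

omit [CharP F 2] in
theorem qq_smul (j : ℕ) (c : F) (x : S.V) : qq S j (c • x) = c ^ 2 * qq S j x := by
  rw [qq, map_smul, quad_q_smul]

theorem Un.split (h : Un S (n + 1)) {x y : S.V} (hn : ND S.f (S.A - 1) n x y) :
    ∃ P S' : FS (FormType.quad F), S.Iso (P.prod S') ∧ Un S' (n + 1) ∧ Un P (n + 1) ∧
      ∃ x' y', Gen (P.A - 1) x' y' ∧ (∀ i, bb P i x' y' = bb S i x y) ∧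
        (∀ j, qq P j x' = qq S j x) ∧ (∀ j, qq P j y' = qq S j y) ∧ (y = 0 → y' = 0) := by
  set U := Submodule.span F (Set.range (fam (S.A - 1) x y)) with hU
  have h1 : ∀ {W : Submodule F S.V}, (∀ v ∈ W, (S.A - 1) v ∈ W) → ∀ v ∈ W, S.A v ∈ W :=
    fun h v hv => by simpa using Submodule.add_mem _ (h v hv) hv
  have h2 := h1 (span_fam_inv (T := S.A - 1) x y)
  have h3 : ∀ v ∈ S.f.perp (LinearMap.range U.subtype),
      S.A v ∈ S.f.perp (LinearMap.range U.subtype) := h1 fun v hv =>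
    h.uo.perp_inv h.pow (by rw [Submodule.range_subtype]; exact span_fam_inv x y) hv
  have h4 : ∀ {W : Submodule F S.V} (hW) (hA), Un (S.sub W hW hA) (n + 1) := fun hW hA =>
    ⟨isIsom_restrict h.isom hA, LinearMap.ext fun v => Subtype.ext (by
      have := pw_map (S := S.sub _ hW hA) (S' := S) (u := Submodule.subtype _) (fun _ => rfl) (n + 1) v
      rw [h.pow] at this
      exact this)⟩
  have h5 := (S.f.restrict_nondeg_iff _).2 (span_fam_disjoint h.uo h.pow hn)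
  have h6 := pw_map (S := S.sub U h5 h2) (S' := S) (u := U.subtype) fun _ => rfl
  refine ⟨S.sub U h5 h2, _, FS.iso_prod_perp (ι := U.subtype) ⟨fun _ _ => rfl, fun _ => rfl⟩
    (fun _ => rfl) h3, h4 _ _, h4 _ _, ⟨x, Submodule.subset_span ⟨(true, 0), rfl⟩⟩,
    ⟨y, Submodule.subset_span ⟨(false, 0), rfl⟩⟩, fun v => ?_, fun i => ?_, fun j => ?_, fun j => ?_,
    fun h => Subtype.ext h⟩
  · obtain ⟨a, b, w, hw, h7⟩ := span_fam_gen x y v.1 v.2
    exact ⟨a, b, ⟨w, hw⟩, Subtype.ext h7⟩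
  · exact congrArg (S.f.B · y) (h6 i _)
  · exact congrArg S.f.q (h6 j _)
  · exact congrArg S.f.q (h6 j _)

/-- The label of a piece. -/
structure Pc where
  v : Bool
  n : ℕ
  γ : Bool

/-- `P` is a piece with label `p`. -/
def IsPc (α : F) (p : Pc) (P : FS (FormType.quad F)) : Prop :=
  Un P (p.n + 1) ∧ (p.v → Odd p.n) ∧ ∃ x y, Gen (P.A - 1) x y ∧
    (∀ i, bb P i x y = if i = p.n ∧ ¬ p.v then 1 else 0) ∧
    (∀ j, qq P j x = if p.v then (if 2 * j = p.n + 1 then 1 else if 2 * j + 1 = p.n ∧ p.γ then α else 0)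
      else if 2 * j = p.n then 1 else 0) ∧
    (∀ j, qq P j y = if ¬ p.v ∧ 2 * j = p.n ∧ p.γ then α else 0) ∧ (p.v → y = 0)

theorem nd_W {V : Type*} [AddCommGroup V] [Module F V] {f : Form (FormType.quad F) V}
    {T : Module.End F V} (h : Uo f T) (h0 : T ^ (n + 1) = 0) {x y : V} (hb : f.B ((T ^ n) x) y = 1)
    (hx : ∀ l, 2 * l = n + 1 → f.q ((T ^ l) x) = 0) (hy : ∀ l, 2 * l = n + 1 → f.q ((T ^ l) y) = 0) :
    (f.B ((T ^ n) x) x = 0 ∧ f.B ((T ^ n) y) y = 0) ∧ ND f T n x y := by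
  have h1 : ∀ {z : V}, (∀ l, 2 * l = n + 1 → f.q ((T ^ l) z) = 0) → f.B ((T ^ n) z) z = 0 :=
    fun hz => by
      rcases n.even_or_odd' with ⟨k, hk | hk⟩
      · exact h.top_self_even h0 ⟨k, by omega⟩ _
      · rw [h.top_self_odd h0 (m := k + 1) (by omega), hz _ (by omega)]
  refine ⟨⟨h1 hx, h1 hy⟩, fun a b h2 h3 => ?_⟩
  rw [B_add_right, B_smul_right, B_smul_right, h1 hx, hb] at h2
  rw [B_add_right, B_smul_right, B_smul_right, h1 hy, h.top_symm h0, hb] at h3
  rw [show a = 0 by simpa using h3, show b = 0 by simpa using h2]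
  simp

theorem nd_V {V : Type*} [AddCommGroup V] [Module F V] {f : Form (FormType.quad F) V}
    {T : Module.End F V} (h : Uo f T) (h0 : T ^ (n + 1) = 0) {m : ℕ} (hm : 2 * m = n + 1) {x : V}
    (hx : f.q ((T ^ m) x) = 1) : ND f T n x 0 := fun a b h2 _ => by
  rw [smul_zero, add_zero, B_smul_right, h.top_self_odd h0 hm, hx, mul_one] at h2
  simp [h2]

variable {α : F}

theorem Un.splitW (h : Un S (n + 1)) {x y : S.V} (γ : Bool) (hb : bb S n x y = 1)
    (hx : ∀ l, 2 * l = n + 1 → qq S l x = 0) (hy : ∀ l, 2 * l = n + 1 → qq S l y = 0)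
    (hx' : ∀ l, 2 * l = n → qq S l x = 1) (hy' : ∀ l, 2 * l = n → qq S l y = if γ then α else 0) :
    ∃ P S' : FS (FormType.quad F), IsPc α ⟨false, n, γ⟩ P ∧ S.Iso (P.prod S') ∧ Un S' (n + 1) := by
  obtain ⟨x', y', h1, h2, h3⟩ := h.uo.normW h.pow hb hx hy
  obtain ⟨P, S', h4, h5, h6, x'', y'', h7, h8, h9, h10, -⟩ := h.split (nd_W h.uo h.pow
    ((h1 n).trans (if_pos rfl)) (fun l hl => (h2 l).trans (if_neg (by omega)))
    (fun l hl => (h3 l).trans (if_neg (by omega)))).2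
  refine ⟨P, S', ⟨h6, by simp, x'', y'', h7, fun i => by rw [h8, bb, h1]; simp, fun j => ?_,
    fun j => ?_, by simp⟩, h4, h5⟩
  · rw [h9, qq, h2]
    by_cases hj : 2 * j = n
    · simpa [hj] using hx' j hj
    · simp [hj]
  · rw [h10, qq, h3]
    by_cases hj : 2 * j = n
    · simpa [hj] using hy' j hj
    · simp [hj]

theorem Un.splitV (h : Un S (n + 1)) {k : ℕ} (hk : n = 2 * k + 1) {x : S.V} (γ : Bool)
    (hx : qq S (k + 1) x = 1) (hx' : qq S k x = if γ then α else 0) :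
    ∃ P S' : FS (FormType.quad F), IsPc α ⟨true, n, γ⟩ P ∧ S.Iso (P.prod S') ∧ Un S' (n + 1) := by
  obtain ⟨x', h1⟩ := h.uo.normV h.pow hk hx
  obtain ⟨P, S', h4, h5, h6, x'', y'', h7, h8, h9, h10, h11⟩ := h.split (nd_V h.uo h.pow
    (m := k + 1) (by omega) ((h1 _).trans (if_pos (by omega))))
  refine ⟨P, S', ⟨h6, fun _ => ⟨k, hk⟩, x'', y'', h7, fun i => by rw [h8]; simp [bb], fun j => ?_,
    fun j => by rw [h10]; simp [qq_zero], fun _ => h11 rfl⟩, h4, h5⟩
  rw [h9, qq, h1, show S.f.q _ = _ from hx']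
  cases γ <;> simp

/-- Isomorphism of the underlying symplectic structures. -/
def IsoB (S S' : FS (FormType.quad F)) : Prop :=
  ∃ u : S.V ≃ₗ[F] S'.V, (∀ v w, S'.f.B (u v) (u w) = S.f.B v w) ∧ ∀ v, u (S.A v) = S'.A (u v)

theorem IsPc.iso_aux {p p' : Pc} (h : IsPc α p P) (h' : IsPc α p' P') (hv : p.v = p'.v)
    (hn : p.n = p'.n) (hγ : p.γ = p'.γ ∨ p.n ≤ 1) : IsoB P P' ∧ (p.γ = p'.γ → P.Iso P') := by
  obtain ⟨v, n, γ⟩ := p
  obtain ⟨v', n', γ'⟩ := p'
  dsimp only at hv hn hγ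
  subst hv hn
  obtain ⟨h1, -, x, y, h2, h3, h4, h5, -⟩ := h
  obtain ⟨h1', -, x', y', h2', h3', h4', h5', -⟩ := h'
  dsimp only at h1 h3 h4 h5 h1' h3' h4' h5'
  obtain ⟨u, h6, h7, h8⟩ := exists_equiv_of_gen P.nd P'.nd h1.uo h1'.uo h1.pow h1'.pow h2 h2'
    (fun j => (h4' _).trans (Eq.trans (by
      rcases hγ with rfl | hγ
      · rfl
      · simp [show 2 * (j + 1) + 1 ≠ n by omega]) (h4 _).symm))
    (fun j => (h5' _).trans (Eq.trans (by
      rcases hγ with rfl | hγ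
      · rfl
      · simp [show 2 * (j + 1) ≠ n by omega]) (h5 _).symm))
    fun i => (h3' i).trans (h3 i).symm
  have h9 : ∀ v, u (P.A v) = P'.A (u v) := fun v => by simpa using h7 v
  refine ⟨⟨u, h6, h9⟩, ?_⟩
  rintro rfl
  exact ⟨u, h8 ((h4' 0).trans (h4 0).symm) ((h5' 0).trans (h5 0).symm), h9⟩

theorem IsPc.dim_eq {p : Pc} (h : IsPc α p P) :
    P.dim = 2 * if p.v then (p.n + 1) / 2 else p.n + 1 := by
  obtain ⟨v, n, γ⟩ := p
  obtain ⟨h1, h0, x, y, h2, h3, h4, h5, h6⟩ := h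
  dsimp only at h0 h1 h3 h4 h5 h6 ⊢
  cases v
  · have h7 := nd_W h1.uo h1.pow ((h3 n).trans (by simp))
      (fun l hl => (h4 l).trans (by simp; omega)) fun l hl => (h5 l).trans (by simp; omega)
    have h8 : LinearIndependent F ![x, y] := LinearIndependent.pair_iff.2 fun a b hab => by
      have h9 := congrArg (P.f.B (((P.A - 1) ^ n) x)) hab
      have h10 := congrArg (P.f.B (((P.A - 1) ^ n) y)) hab
      have h11 : P.f.B (((P.A - 1) ^ n) x) y = 1 := (h3 n).trans (by simp)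
      rw [B_add_right, B_smul_right, B_smul_right, h7.1.1, h11] at h9
      rw [B_add_right, B_smul_right, B_smul_right, h7.1.2, h1.uo.top_symm h1.pow, h11] at h10
      exact ⟨by simpa using h10, by simpa using h9⟩
    have h9 := finrank_span_eq_card h8
    rw [Matrix.range_cons_cons_empty] at h9
    rw [FS.dim, h2.finrank_eq h1.uo h1.pow h7.2, h9]
    simp [mul_comm]
  · obtain ⟨k, hk⟩ := h0 rfl
    obtain rfl := h6 rfl
    have h7 : qq P (k + 1) x = 1 := (h4 _).trans (by simp at hk ⊢; omega)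
    have h8 : x ≠ 0 := fun h => by rw [h, qq_zero] at h7; exact zero_ne_one h7
    rw [FS.dim, h2.finrank_eq h1.uo h1.pow (nd_V h1.uo h1.pow (m := k + 1) (by
      omega) h7), Set.pair_comm, Submodule.span_insert_zero, finrank_span_singleton h8]
    simp at hk ⊢
    omega

omit [CharP F 2] in
theorem Un.perp_range (h : Un S N) (j : ℕ) {v : S.V}
    (hv : v ∈ S.f.perp (LinearMap.range ((S.A - 1) ^ j))) : ((S.A - 1) ^ j) v = 0 := by
  rwa [← perp_ker_sub_one_pow S.nd h.isom, S.nd.perp_perp] at hv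

theorem as_zero : AS (0 : F) := ⟨0, by simp⟩

theorem IsPc.isPlus_iff [Finite F] (hα : ¬ AS α) {p : Pc} (h : IsPc α p P)
    (hp : p.γ → p.v ∨ Even p.n) : IsPlus (qfOf P.f) ↔ ¬ p.γ := by
  obtain ⟨v, n, γ⟩ := p
  obtain ⟨h1, h0, x, y, h2, h3, h4, h5, h6⟩ := h
  dsimp only at h0 h1 h3 h4 h5 h6 hp ⊢
  have h7 : AS (if γ then α else 0) ↔ ¬ γ := by cases γ <;> simp [hα, as_zero]
  have h8 : ∀ {i j : ℕ} (z : P.V), n + 1 ≤ j + i →
      ((P.A - 1) ^ i) z ∈ P.f.perp (LinearMap.range ((P.A - 1) ^ j)) := fun z hij => by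
    rintro _ ⟨w, rfl⟩
    exact h1.uo.b_zero h1.pow _ _ hij
  have h9 : ∀ {j : ℕ}, n + 1 < 2 * j → ∀ u ∈ LinearMap.range ((P.A - 1) ^ j), P.f.q u = 0 :=
    fun hj => by
      rintro _ ⟨w, rfl⟩
      exact h1.uo.q_zero h1.pow _ hj
  cases v
  · have h10 : P.f.B (((P.A - 1) ^ n) x) y = 1 := (h3 n).trans (by simp)
    have h11 := nd_W h1.uo h1.pow h10
      (fun l hl => (h4 l).trans (by simp; omega)) fun l hl => (h5 l).trans (by simp; omega)
    rcases n.even_or_odd' with ⟨k, hk | hk⟩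
    · rw [isPlus_iff_AS P.nd (U := LinearMap.range ((P.A - 1) ^ (k + 1))) (h9 (by omega))
        (e := ((P.A - 1) ^ k) x) (e' := ((P.A - 1) ^ k) y) (h8 x (by omega)) (h8 y (by omega))
        (by rw [h1.uo.b_top h1.pow x y (by omega), h10]) fun v hv => ?_, show P.f.q _ = _ from h4 k,
        show P.f.q _ = _ from h5 k, ← h7]
      · simp [hk]
      · obtain ⟨w, rfl⟩ := h2.ker_le h1.uo h1.pow h11.2 (h1.perp_range _ hv) k (by omega)
        obtain ⟨a, b, w, rfl⟩ := h2 w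
        exact ⟨a, b, _, ⟨w, rfl⟩, by rw [map_add, map_add, map_smul, map_smul, pw_succ']⟩
    · refine iff_of_true (isPlus_of_perp_le P.nd (U := LinearMap.range ((P.A - 1) ^ (k + 1))) ?_
        fun v hv => ?_) fun h => ?_
      · rintro _ ⟨w, rfl⟩
        obtain ⟨a, b, w, rfl⟩ := h2 w
        rw [h1.uo.q_add_T h1.pow _ _ (by omega), h1.uo.q_add_smul, map_smul, quad_q_smul, Bsl,
          h1.uo.b_zero h1.pow x y (by omega), show P.f.q _ = _ from h4 _,
          show P.f.q _ = _ from h5 _]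
        simp [show 2 * (k + 1) ≠ n by omega]
      · obtain ⟨w, rfl⟩ := h2.ker_le h1.uo h1.pow h11.2 (h1.perp_range _ hv) (k + 1) (by omega)
        exact ⟨w, rfl⟩
      · have := hp h
        simp only [Bool.false_eq_true, false_or, Nat.even_iff] at this
        omega
  · obtain ⟨k, hk⟩ := h0 rfl
    obtain rfl := h6 rfl
    have h10 : qq P (k + 1) x = 1 := (h4 _).trans (by simp; omega)
    rw [isPlus_iff_AS P.nd (U := LinearMap.range ((P.A - 1) ^ (k + 2))) (h9 (by omega))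
      (e := ((P.A - 1) ^ k) x) (e' := ((P.A - 1) ^ (k + 1)) x) (h8 x (by omega)) (h8 x (by omega))
      (by rw [← h1.uo.q_succ]; exact h10) fun v hv => ?_, show P.f.q _ = _ from h4 k,
      show P.f.q _ = _ from h10, ← h7]
    · simp [hk, show 2 * k ≠ 2 * k + 1 + 1 by omega]
    · obtain ⟨w, rfl⟩ := h2.ker_le h1.uo h1.pow (nd_V h1.uo h1.pow (m := k + 1) (by omega) h10)
        (h1.perp_range _ hv) k (by omega)
      obtain ⟨a, b, w, rfl⟩ := h2 w
      obtain ⟨a', b', w, rfl⟩ := h2 w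
      exact ⟨a, a', _, ⟨w, rfl⟩, by
        simp only [map_add, map_smul, smul_zero, add_zero, ← pw_succ', add_assoc]⟩

end CL.Ev2
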