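import Mathlib
import Cfsg.Agent.KSG.Ev2Pc

/-! Unipotent isometries of quadratic spaces in characteristic two: normal forms. -/

set_option autoImplicit false

namespace CL.Ev2

open Module CL.Witt CL.Witt.Form CL.SpU CL.Orth CL.Nil

universe u

variable {F : Type u} [Field F] [CharP F 2]

/-- A representative of the non-trivial Artin-Schreier class. -/
structure NA (α : F) : Prop where
  na : ¬ AS α
  dich : ∀ c, AS c ∨ AS (c + α)

theorem NA.ne_zero {α : F} (h : NA α) : α ≠ 0 := fun h0 => h.na (h0 ▸ as_zero)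

variable (F) in
theorem exists_na [Finite F] : ∃ α : F, NA α := by
  let φ : F →+ F := AddMonoidHom.mk' (fun t => t ^ 2 + t) fun a b => by
    linear_combination (a * b) * two_z F
  have h1 : Nat.card φ.ker = 2 := by
    rw [Nat.card_eq_two_iff]
    refine ⟨0, ⟨1, by simpa [φ] using CharTwo.add_self_eq_zero (1 : F)⟩, by simp [Subtype.ext_iff],
      Set.eq_univ_of_forall fun t => ?_⟩
    have h2 : t.1 * (t.1 - 1) = 0 := by
      have h3 : t.1 ^ 2 + t.1 = 0 := t.2
      linear_combination h3 - t.1 * two_z F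
    rcases mul_eq_zero.1 h2 with h3 | h3
    · exact .inl (Subtype.ext h3)
    · exact .inr (Subtype.ext (sub_eq_zero.1 h3))
  have h2 : φ.range.index = 2 := by
    have h3 := φ.range.card_mul_index
    rw [← φ.ker.card_mul_index, AddSubgroup.index_ker, h1, mul_comm 2] at h3
    exact Nat.eq_of_mul_eq_mul_left Nat.card_pos h3
  obtain ⟨α, hα⟩ := AddSubgroup.index_eq_two_iff.1 h2
  refine ⟨α, fun h => ?_, fun c => (hα c).or.symm⟩
  rcases hα 0 with h3 | h3
  · exact h3.2 φ.range.zero_mem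
  · exact h3.2 (by rw [zero_add]; exact h)

theorem exists_sq_mul [Finite F] {a : F} (ha : a ≠ 0) (b : F) : ∃ c, c ^ 2 * a = b := by
  obtain ⟨c, hc⟩ := surjective_frobenius F 2 (b / a)
  exact ⟨c, by rw [← frobenius_def, hc, div_mul_cancel₀ _ ha]⟩

variable {α : F} {S S' S'' P : FS (FormType.quad F)} {N n : ℕ}

theorem NA.exists_add (hα : NA α) (c : F) : ∃ (t : F) (γ : Bool), c + t ^ 2 + t = if γ then α else 0 := by
  rcases hα.dich c with ⟨t, ht⟩ | ⟨t, ht⟩
  · exact ⟨t, false, by rw [add_assoc, ht]; simpa using CharTwo.add_self_eq_zero c⟩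
  · exact ⟨t, true, by rw [add_assoc, ht, ← add_assoc, CharTwo.add_self_eq_zero]; simp⟩

omit [CharP F 2] in
theorem exists_bb_ne_zero (h : (S.A - 1) ^ n ≠ 0) : ∃ x y, bb S n x y ≠ 0 := by
  by_contra h1
  push Not at h1
  exact h (LinearMap.ext fun x => S.nd _ (h1 x))

section Steps

variable [Finite F]

theorem Un.exists_qq (h : Un S (n + 1)) {m : ℕ} (hm : 2 * m = n) (h0 : (S.A - 1) ^ n ≠ 0) :
    ∃ x y, qq S m x = 1 ∧ bb S n x y = 1 := by
  have key : ∀ x y, qq S m x ≠ 0 → bb S n x y ≠ 0 → ∃ x y, qq S m x = 1 ∧ bb S n x y = 1 := by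
    intro x y h1 h2
    obtain ⟨c, hc⟩ := exists_sq_mul h1 1
    have h3 : c ≠ 0 := by rintro rfl; simp at hc
    exact ⟨c • x, (c * bb S n x y)⁻¹ • y, by rw [qq_smul, hc], by
      rw [bb, B_smul_right, map_smul (_ ^ n), Bsl]; exact inv_mul_cancel₀ (mul_ne_zero h3 h2)⟩
  obtain ⟨x, y, h1⟩ := exists_bb_ne_zero h0
  by_cases h2 : qq S m x = 0
  · by_cases h3 : qq S m y = 0
    · refine key (x + y) y ?_ ?_
      · rwa [qq, map_add, quad_q_add, h.uo.b_top h.pow x y (by omega), show S.f.q _ = _ from h2,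
          show S.f.q _ = _ from h3, zero_add, zero_add]
      · rwa [bb, map_add, B_add_left, h.uo.top_self_even h.pow ⟨m, by omega⟩, add_zero]
    · exact key y x h3 (by rwa [bb, h.uo.top_symm h.pow])
  · exact key x y h2 h1

theorem Un.step_odd (hα : NA α) (h : Un S (n + 1)) {m : ℕ} (hm : 2 * m = n)
    (h0 : (S.A - 1) ^ n ≠ 0) : ∃ (γ : Bool) (P S' : FS (FormType.quad F)),
      IsPc α ⟨false, n, γ⟩ P ∧ S.Iso (P.prod S') ∧ Un S' (n + 1) ∧ (γ → ∀ v, qq S' m v = 0) := by
  obtain ⟨x, y, h1, h2⟩ := h.exists_qq hm h0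
  obtain ⟨t, γ, ht⟩ := hα.exists_add (qq S m y)
  obtain ⟨P, S', h3, h4, h5⟩ := h.splitW (α := α) (x := x) (y := y + t • x) γ (by
      rw [bb, B_add_right, B_smul_right, h.uo.top_self_even h.pow ⟨m, by omega⟩, mul_zero, add_zero]
      exact h2) (by omega) (by omega) (fun l hl => by rwa [show l = m by omega]) fun l hl => by
    rw [show l = m by omega, qq, h.uo.q_add_smul, h.uo.b_top h.pow y x (by omega),
      h.uo.top_symm h.pow, show S.f.q _ = _ from h1, show S.f.B _ _ = _ from h2, mul_one, mul_one, ht]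
  by_cases h6 : γ → ∀ v, qq S' m v = 0
  · exact ⟨γ, P, S', h3, h4, h5, h6⟩
  push Not at h6
  obtain ⟨rfl, v, hv⟩ := h6
  obtain ⟨c, hc⟩ := exists_sq_mul hv α
  obtain ⟨h7, -, x', y', -, h8, h9, h10, -⟩ := h3
  obtain ⟨P', S'', h11, h12, h13⟩ := Un.splitW (n := n) (α := α) (h7.prod h5) (x := (x', 0)) (y := (y', c • v))
    false (by rw [bb_prod, h8]; simp [bb]) (by omega) (by omega)
    (fun l hl => by rw [qq_prod, h9, qq_zero]; simp [hl]) fun l hl => by
      rw [qq_prod, h10, qq_smul, show l = m by omega, hc]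
      simpa [hm] using CharTwo.add_self_eq_zero α
  exact ⟨false, P', S'', h11, h4.trans h12, h13, by simp⟩

theorem Un.step_V (hα : NA α) (h : Un S (n + 1)) {k : ℕ} (hk : n = 2 * k + 1) {x : S.V}
    (hx : qq S (k + 1) x ≠ 0) : ∃ (γ : Bool) (P S' : FS (FormType.quad F)),
      IsPc α ⟨true, n, γ⟩ P ∧ S.Iso (P.prod S') ∧ Un S' (n + 1) ∧
        (γ → ∀ v, qq S' (k + 1) v = 0 → qq S' k v = 0) := by
  obtain ⟨c, hc⟩ := exists_sq_mul hx 1
  rw [← qq_smul] at hc
  obtain ⟨t, γ, ht⟩ := hα.exists_add (qq S k (c • x))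
  obtain ⟨P, S', h3, h4, h5⟩ := h.splitV (α := α) hk (x := c • x + t • (S.A - 1) (c • x)) γ (by
      rw [← map_smul, qq, h.uo.q_add_T h.pow _ _ (by omega)]; exact hc) (by
      rw [qq, h.uo.q_add_smul, ← pw_succ', ← h.uo.q_succ, show S.f.q _ = _ from hc, mul_one,
        mul_one, ht])
  by_cases h6 : γ → ∀ v, qq S' (k + 1) v = 0 → qq S' k v = 0
  · exact ⟨γ, P, S', h3, h4, h5, h6⟩
  push Not at h6
  obtain ⟨rfl, v, hv', hv⟩ := h6
  obtain ⟨c, hc⟩ := exists_sq_mul hv α
  obtain ⟨h7, -, x', y', -, -, h9, -⟩ := h3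
  obtain ⟨P', S'', h11, h12, h13⟩ := (h7.prod h5).splitV (α := α) hk (x := (x', c • v)) false
    (by rw [qq_prod, h9, qq_smul, hv']; simp [hk, mul_add]) (by
      rw [qq_prod, h9, qq_smul, hc]
      simpa [hk, show 2 * k ≠ 2 * k + 1 + 1 by omega] using CharTwo.add_self_eq_zero α)
  exact ⟨false, P', S'', h11, h4.trans h12, h13, by simp⟩

end Steps

/-- `S` is the orthogonal sum of pieces with the given labels and of `S'`. -/
def Dec (α : F) : List Pc → FS (FormType.quad F) → FS (FormType.quad F) → Prop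
  | [], S, S' => S.Iso S'
  | p :: l, S, S' => ∃ P S₁, IsPc α p P ∧ S.Iso (P.prod S₁) ∧ Dec α l S₁ S'

omit [CharP F 2] in
theorem Dec.of_iso {l : List Pc} (h : S.Iso S') (h' : Dec α l S' S'') : Dec α l S S'' := by
  cases l with
  | nil => exact h.trans h'
  | cons p l =>
    obtain ⟨P, S₁, h1, h2, h3⟩ := h'
    exact ⟨P, S₁, h1, h.trans h2, h3⟩

omit [CharP F 2] in
theorem Dec.append {l l' : List Pc} (h : Dec α l S S') (h' : Dec α l' S' S'') :
    Dec α (l ++ l') S S'' := by
  induction l generalizing S with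
  | nil => exact Dec.of_iso h h'
  | cons p l ih =>
    obtain ⟨P, S₁, h1, h2, h3⟩ := h
    exact ⟨P, S₁, h1, h2, ih h3⟩

omit [CharP F 2] in
theorem Dec.emb {l : List Pc} (h : Dec α l S S') : S'.Emb S := by
  induction l generalizing S with
  | nil => exact FS.Iso.emb (FS.Iso.symm h)
  | cons p l ih =>
    obtain ⟨P, S₁, -, h2, h3⟩ := h
    exact ((ih h3).trans (FS.emb_inr _ _)).trans h2.symm.emb

theorem IsPc.dim_pos {p : Pc} (h : IsPc α p P) : 0 < P.dim := by
  rw [h.dim_eq]
  split_ifs with hv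
  · obtain ⟨k, hk⟩ := h.2.1 hv
    omega
  · omega

omit [CharP F 2] in
theorem qq_ne_zero_of_emb (h : S.Emb S') {j : ℕ} (h' : ∃ v, qq S j v ≠ 0) : ∃ v, qq S' j v ≠ 0 := by
  obtain ⟨ι, h1, -⟩ := exists_of_emb h
  obtain ⟨v, hv⟩ := h'
  exact ⟨ι v, by rwa [h1]⟩

section Levels

variable [Finite F]

theorem Un.level_odd (hα : NA α) (h : Un S (n + 1)) {m : ℕ} (hm : 2 * m = n)
    (h0 : (S.A - 1) ^ n ≠ 0) : ∃ (b : ℕ) (γ : Bool) (S' : FS (FormType.quad F)),
      Dec α (List.replicate b ⟨false, n, false⟩ ++ [⟨false, n, γ⟩]) S S' ∧ Un S' n ∧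
        (γ → ∀ v, qq S' m v = 0) := by
  induction hd : S.dim using Nat.strong_induction_on generalizing S with
  | _ d ih =>
    obtain ⟨γ, P, S', h1, h2, h3, h4⟩ := h.step_odd hα hm h0
    by_cases h5 : (S'.A - 1) ^ n = 0
    · exact ⟨0, γ, S', ⟨P, S', h1, h2, FS.Iso.refl _⟩, ⟨h3.isom, h5⟩, h4⟩
    obtain ⟨b, γ', S'', h6, h7⟩ := ih S'.dim (by
      have := h2.dim_eq
      rw [FS.dim_prod] at this
      have := h1.dim_pos
      omega) h3 h5 rfl
    obtain rfl : γ = false := by
      obtain ⟨x, -, h8, -⟩ := h3.exists_qq hm h5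
      cases γ
      · rfl
      · exact absurd ((h4 rfl x).symm.trans h8) zero_ne_one
    exact ⟨b + 1, γ', S'', ⟨P, S', h1, h2, h6⟩, h7⟩

/-- No hyperbolic piece can be split off. -/
def WF (S : FS (FormType.quad F)) (n m : ℕ) : Prop :=
  ∀ x y, qq S m x = 0 → qq S m y = 0 → bb S n x y = 0

omit [Finite F] in
theorem Un.level_W (α : F) (h : Un S (n + 1)) {k : ℕ} (hk : n = 2 * k + 1) :
    ∃ (b : ℕ) (S' : FS (FormType.quad F)), Dec α (List.replicate b ⟨false, n, false⟩) S S' ∧
      Un S' (n + 1) ∧ WF S' n (k + 1) := by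
  induction hd : S.dim using Nat.strong_induction_on generalizing S with
  | _ d ih =>
    by_cases h1 : WF S n (k + 1)
    · exact ⟨0, S, FS.Iso.refl _, h, h1⟩
    simp only [WF, not_forall] at h1
    obtain ⟨x, y, h1, h2, h3⟩ := h1
    obtain ⟨P, S', h4, h5, h6⟩ := h.splitW (α := α) (x := x) (y := (bb S n x y)⁻¹ • y) false
      (by rw [bb, B_smul_right, inv_mul_cancel₀ h3]) (fun l hl => by rwa [show l = k + 1 by omega])
      (fun l hl => by rw [show l = k + 1 by omega, qq_smul, h2, mul_zero]) (by omega) (by omega)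
    obtain ⟨b, S'', h7, h8⟩ := ih S'.dim (by
      have := h5.dim_eq
      rw [FS.dim_prod] at this
      have := h4.dim_pos
      omega) h6 rfl
    exact ⟨b + 1, S'', ⟨P, S', h4, h5, h7⟩, h8⟩

omit [CharP F 2] [Finite F] in
theorem WF.of_emb {m : ℕ} (h : WF S n m) (h' : S'.Emb S) : WF S' n m := by
  obtain ⟨ι, h1, h2⟩ := exists_of_emb h'
  exact fun x y hx hy => by rw [← h2, h _ _ (by rw [h1, hx]) (by rw [h1, hy])]

omit [CharP F 2] [Finite F] in
theorem WF.exists_qq {m : ℕ} (h : WF S n m) (h0 : (S.A - 1) ^ n ≠ 0) : ∃ x, qq S m x ≠ 0 := by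
  by_contra h1
  push Not at h1
  obtain ⟨x, y, h2⟩ := exists_bb_ne_zero h0
  exact h2 (h x y (h1 x) (h1 y))

omit [CharP F 2] [Finite F] in
theorem IsPc.exists_one {k : ℕ} {γ : Bool} (h : IsPc α ⟨true, 2 * k + 1, γ⟩ P) :
    ∃ x, qq P (k + 1) x = 1 := by
  obtain ⟨-, -, x, y, -, -, h1, -⟩ := h
  exact ⟨x, by rw [h1]; simp [mul_add]⟩

theorem Un.level_V (hα : NA α) (h : Un S (n + 1)) {k : ℕ} (hk : n = 2 * k + 1)
    (hW : WF S n (k + 1)) (h0 : (S.A - 1) ^ n ≠ 0) :
    ∃ (e : Bool) (γ : Bool) (S' : FS (FormType.quad F)),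
      Dec α ((if e then [⟨true, n, false⟩] else []) ++ [⟨true, n, γ⟩]) S S' ∧ Un S' n ∧
        (γ → ∀ v, qq S' k v = 0) := by
  subst hk
  have key : ∀ {S' : FS (FormType.quad F)}, Un S' (2 * k + 1) → ∀ v, qq S' (k + 1) v = 0 :=
    fun h v => h.uo.q_zero h.pow v (by omega)
  obtain ⟨x, hx⟩ := hW.exists_qq h0
  obtain ⟨γ, P, S', h1, h2, h3, h4⟩ := h.step_V hα rfl hx
  by_cases h5 : (S'.A - 1) ^ (2 * k + 1) = 0
  · exact ⟨false, γ, S', ⟨P, S', h1, h2, FS.Iso.refl _⟩, ⟨h3.isom, h5⟩,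
      fun h v => h4 h v (key ⟨h3.isom, h5⟩ v)⟩
  have hW' := hW.of_emb ((FS.emb_inr _ _).trans h2.symm.emb)
  obtain ⟨x', hx'⟩ := hW'.exists_qq h5
  obtain ⟨γ', P', S'', h1', h2', h3', h4'⟩ := h3.step_V hα rfl hx'
  obtain rfl : γ = false := by
    cases γ
    · rfl
    · refine absurd (h4 rfl ((S'.A - 1) x') ?_) (by rwa [qq, ← pw_succ'])
      rw [qq, ← pw_succ', h3.uo.q_zero h3.pow _ (by omega)]
  have h6 : (S''.A - 1) ^ (2 * k + 1) = 0 := by
    by_contra h6
    have h7 := h2.trans ((FS.Iso.refl P).prod h2')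
    obtain ⟨z, hz⟩ := (hW'.of_emb ((FS.emb_inr _ _).trans h2'.symm.emb)).exists_qq h6
    obtain ⟨c, hc⟩ := exists_sq_mul hz 1
    obtain ⟨y, hy⟩ := h1.exists_one
    obtain ⟨y', hy'⟩ := h1'.exists_one
    have h8 := hW.of_emb h7.symm.emb (y, y', 0) (y, 0, c • z)
      (by rw [qq_prod, qq_prod, hy, hy', qq_zero, add_zero, CharTwo.add_self_eq_zero])
      (by rw [qq_prod, qq_prod, hy, qq_smul, hc, qq_zero, zero_add, CharTwo.add_self_eq_zero])
    rw [bb_prod, bb_prod, bb, h1.1.uo.top_self_odd (n := 2 * k + 1) h1.1.pow (m := k + 1) (by omega),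
      show P.f.q _ = _ from hy] at h8
    simp [bb] at h8
  exact ⟨true, γ', S'', ⟨P, S', h1, h2, P', S'', h1', h2', FS.Iso.refl _⟩, ⟨h3'.isom, h6⟩,
    fun h v => h4' h v (key ⟨h3'.isom, h6⟩ v)⟩

end Levels

/-! ### The data -/

/-- The data of one layer. -/
abbrev Lev := ℕ × Fin 3 × Bool

/-- The pieces of one layer. -/
def lev (n : ℕ) (l : Lev) : List Pc :=
  List.replicate l.1 ⟨false, n, false⟩ ++ ((if l.2.1 = 2 then [⟨true, n, false⟩] else []) ++
    if l.2.1 = 0 then [] else [⟨decide (Odd n), n, l.2.2⟩])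

/-- The pieces. -/
def lst : List Lev → List Pc
  | [] => []
  | l :: d => lev d.length l ++ lst d

/-- The transition function. -/
def nxt (n : ℕ) (e : Fin 3) (σ : Option Bool) : Option Bool :=
  if e = 0 then (if Even n then σ else σ.map fun _ => false) else some true

/-- The state. -/
def st (σ : Option Bool) : List Lev → Option Bool
  | [] => σ
  | l :: d => nxt d.length l.2.1 (st σ d)

/-- Admissible layers. -/
def okl (n : ℕ) (l : Lev) (σ : Option Bool) : Prop :=
  (Even n → l.2.1 ≠ 2 ∧ (l.2.1 = 0 → l.1 = 0)) ∧ (l.2.2 → l.2.1 ≠ 0 ∧ σ = some false)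

/-- Admissible data. -/
def ok (σ : Option Bool) : List Lev → Prop
  | [] => True
  | l :: d => okl d.length l (st σ d) ∧ ok σ d

/-- The weight of a layer. -/
def wtl (n : ℕ) (l : Lev) : ℕ := l.1 * (n + 1) + l.2.1 * if Even n then n + 1 else (n + 1) / 2

/-- The weight. -/
def wt : List Lev → ℕ
  | [] => 0
  | l :: d => wtl d.length l + wt d

/-- `S` is the orthogonal sum of pieces with the given labels. -/
def Has (α : F) (l : List Pc) (S : FS (FormType.quad F)) : Prop :=
  ∃ S', Dec α l S S' ∧ Subsingleton S'.V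

theorem st_false (d : List Lev) : st (some false) d = some false ∨ st (some false) d = some true := by
  induction d with
  | nil => exact .inl rfl
  | cons l d ih =>
    rw [st, nxt]
    rcases ih with h | h <;> rw [h] <;> split_ifs <;> simp

theorem Un.exists_data [Finite F] (hα : NA α) (h : Un S N) : ∃ d : List Lev, d.length = N ∧
    ok (some false) d ∧ Has α (lst d) S ∧ (st (some false) d = some true → ∃ v, qq S (N / 2) v ≠ 0) := by
  induction N generalizing S with
  | zero =>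
    refine ⟨[], rfl, trivial, ⟨S, FS.Iso.refl _, ⟨fun x y => ?_⟩⟩, by simp [st]⟩
    rw [← Module.End.one_apply (R := F) x, ← Module.End.one_apply (R := F) y, ← pow_zero (S.A - 1),
      h.pow]
    rfl
  | succ n ih =>
    have key : ∀ (l : Lev) (S' : FS (FormType.quad F)), Dec α (lev n l) S S' → Un S' n →
        (Even n → l.2.1 ≠ 2 ∧ (l.2.1 = 0 → l.1 = 0)) →
        (l.2.2 → l.2.1 ≠ 0 ∧ ∀ v, qq S' (n / 2) v = 0) →
        (l.2.1 ≠ 0 → ∃ v, qq S ((n + 1) / 2) v ≠ 0) → ∃ d : List Lev, d.length = n + 1 ∧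
          ok (some false) d ∧ Has α (lst d) S ∧
          (st (some false) d = some true → ∃ v, qq S ((n + 1) / 2) v ≠ 0) := by
      intro l S' h1 h2 h3 h4 h5
      obtain ⟨d, rfl, h6, ⟨S'', h7, h8⟩, h9⟩ := ih h2
      refine ⟨l :: d, rfl, ⟨⟨h3, fun hγ => ⟨(h4 hγ).1, (st_false d).resolve_right fun h10 => ?_⟩⟩,
        h6⟩, ⟨S'', h1.append h7, h8⟩, fun h10 => ?_⟩
      · obtain ⟨v, hv⟩ := h9 h10
        exact hv ((h4 hγ).2 v)
      · rw [st, nxt] at h10
        split_ifs at h10 with h11 h12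
        · rw [show (d.length + 1) / 2 = d.length / 2 by have := Nat.even_iff.1 h12; omega]
          exact qq_ne_zero_of_emb h1.emb (h9 h10)
        · rcases st_false d with h | h <;> simp [h] at h10
        · exact h5 h11
    rcases n.even_or_odd' with ⟨k, hk | hk⟩
    · by_cases h0 : (S.A - 1) ^ n = 0
      · exact key (0, 0, false) S (FS.Iso.refl _) ⟨h.isom, h0⟩ (by simp) (by simp) (by simp)
      obtain ⟨b, γ, S', h1, h2, h3⟩ := h.level_odd hα hk.symm h0
      obtain ⟨x, -, h4, -⟩ := h.exists_qq hk.symm h0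
      exact key (b, 1, γ) S' (by simpa [lev, hk, ← Nat.not_even_iff_odd] using h1) h2 (by simp)
        (fun hγ => ⟨by simp, by rw [show n / 2 = k by omega]; exact h3 hγ⟩) fun _ =>
        ⟨x, by rw [show (n + 1) / 2 = k by omega, h4]; exact one_ne_zero⟩
    · obtain ⟨b, S₁, h1, h2, h3⟩ := h.level_W α hk
      have h4 : ¬ Even n := by simp [hk]
      by_cases h0 : (S₁.A - 1) ^ n = 0
      · exact key (b, 0, false) S₁ (by simpa [lev] using h1) ⟨h2.isom, h0⟩ (by simp [h4]) (by simp)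
          (by simp)
      obtain ⟨e, γ, S', h5, h6, h7⟩ := h2.level_V hα hk h3 h0
      refine key (b, if e then 2 else 1, γ) S' ?_ h6 (by simp [h4])
        (fun hγ => ⟨by cases e <;> simp, by rw [show n / 2 = k by omega]; exact h7 hγ⟩) fun _ => by
          rw [show (n + 1) / 2 = k + 1 by omega]
          exact qq_ne_zero_of_emb h1.emb (h3.exists_qq h0)
      have h8 := h1.append h5
      cases e <;> simpa [lev, hk] using h8

omit [CharP F 2] in
theorem IsoB.trans (h : IsoB S S') (h' : IsoB S' S'') : IsoB S S'' := by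
  obtain ⟨u, h1, h2⟩ := h
  obtain ⟨u', h1', h2'⟩ := h'
  exact ⟨u.trans u', fun v w => (h1' _ _).trans (h1 v w), fun v => by simp [h2, h2']⟩

omit [CharP F 2] in
theorem isoB_of_iso (h : S.Iso S') : IsoB S S' := by
  obtain ⟨u, h1, h2⟩ := h
  exact ⟨u, h1.B_eq, h2⟩

omit [CharP F 2] in
theorem IsoB.prod {S₁ S₂ S₁' S₂' : FS (FormType.quad F)} (h : IsoB S₁ S₁') (h' : IsoB S₂ S₂') :
    IsoB (S₁.prod S₂) (S₁'.prod S₂') := by
  obtain ⟨a, ha, ha'⟩ := h
  obtain ⟨b, hb, hb'⟩ := h'
  exact ⟨a.prodCongr b, fun v w => congrArg₂ (· + ·) (ha _ _) (hb _ _),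
    fun v => Prod.ext (ha' _) (hb' _)⟩

theorem Has.iso {l : List Pc} (h : Has α l S) (h' : Has α l S') : S.Iso S' := by
  induction l generalizing S S' with
  | nil =>
    obtain ⟨S₁, h1, h2⟩ := h
    obtain ⟨S₁', h1', h2'⟩ := h'
    exact (FS.Iso.trans h1 FS.iso_of_subsingleton).trans (FS.Iso.symm h1')
  | cons p l ih =>
    obtain ⟨S₀, ⟨P, S₁, h1, h2, h3⟩, h4⟩ := h
    obtain ⟨S₀', ⟨P', S₁', h1', h2', h3'⟩, h4'⟩ := h'
    exact (h2.trans (((h1.iso_aux h1' rfl rfl (.inl rfl)).2 rfl).prod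
      (ih ⟨_, h3, h4⟩ ⟨_, h3', h4'⟩))).trans h2'.symm

theorem Has.isoB {l l' : List Pc} (h : Has α l S) (h' : Has α l' S')
    (hl : List.Forall₂ (fun p p' => p.v = p'.v ∧ p.n = p'.n ∧ (p.γ = p'.γ ∨ p.n ≤ 1)) l l') :
    IsoB S S' := by
  induction hl generalizing S S' with
  | nil => exact isoB_of_iso (h.iso h')
  | cons hp _ ih =>
    obtain ⟨S₀, ⟨P, S₁, h1, h2, h3⟩, h4⟩ := h
    obtain ⟨S₀', ⟨P', S₁', h1', h2', h3'⟩, h4'⟩ := h'
    exact ((isoB_of_iso h2).trans ((h1.iso_aux h1' hp.1 hp.2.1 hp.2.2).1.prod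
      (ih ⟨_, h3, h4⟩ ⟨_, h3', h4'⟩))).trans (isoB_of_iso h2'.symm)

theorem Has.dim_eq {l : List Pc} (h : Has α l S) :
    S.dim = 2 * (l.map fun p => if p.v then (p.n + 1) / 2 else p.n + 1).sum := by
  induction l generalizing S with
  | nil =>
    obtain ⟨S₁, h1, h2⟩ := h
    exact (FS.Iso.dim_eq h1).trans finrank_zero_of_subsingleton
  | cons p l ih =>
    obtain ⟨S₀, ⟨P, S₁, h1, h2, h3⟩, h4⟩ := h
    rw [h2.dim_eq, FS.dim_prod, h1.dim_eq, ih ⟨_, h3, h4⟩, List.map_cons, List.sum_cons, mul_add]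

theorem sum_lst {σ : Option Bool} {d : List Lev} (h : ok σ d) :
    ((lst d).map fun p => if p.v then (p.n + 1) / 2 else p.n + 1).sum = wt d := by
  induction d with
  | nil => rfl
  | cons l d ih =>
    obtain ⟨b, e, γ⟩ := l
    rw [lst, List.map_append, List.sum_append, ih h.2, wt]
    congr 1
    have h1 := h.1.1
    by_cases h2 : Even d.length
    · fin_cases e <;> simp_all [lev, wtl, ← Nat.not_even_iff_odd]
    · fin_cases e <;> simp [lev, wtl, ← Nat.not_even_iff_odd, h2, two_mul]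

/-- The type of a space. -/
abbrev Pl (S : FS (FormType.quad F)) : Prop := IsPlus (qfOf S.f)

omit [CharP F 2] in
theorem pl_congr (h : S.Iso S') : Pl S ↔ Pl S' := by
  obtain ⟨u, h1, -⟩ := h
  exact isPlus_congr u h1.q_eq

theorem pl_prod [Finite F] : Pl (S.prod S') ↔ (Pl S ↔ Pl S') := by
  rw [← Asch.isPlus_prod_iff (qfOf_nondeg S.nd) (qfOf_nondeg S'.nd)
    (even_finrank_of_two_eq_zero (qfOf_nondeg S.nd) (two_z F))
    (even_finrank_of_two_eq_zero (qfOf_nondeg S'.nd) (two_z F))]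
  exact isPlus_congr (LinearEquiv.refl F _) fun _ => rfl

theorem Has.pl_iff [Finite F] (hα : ¬ AS α) {l : List Pc} (h : Has α l S)
    (hl : ∀ p ∈ l, p.γ → p.v ∨ Even p.n) : Pl S ↔ Even (l.countP fun p => p.γ) := by
  induction l generalizing S with
  | nil =>
    obtain ⟨S₁, h1, h2⟩ := h
    rw [pl_congr h1]
    exact iff_of_true ⟨⊥, by simp, by simp [finrank_zero_of_subsingleton]⟩ (by simp)
  | cons p l ih =>
    obtain ⟨S₀, ⟨P, S₁, h1, h2, h3⟩, h4⟩ := h
    rw [pl_congr h2, pl_prod, Pl, h1.isPlus_iff hα (hl p (by simp)),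
      ih ⟨_, h3, h4⟩ fun p hp => hl p (by simp [hp]), List.countP_cons]
    cases p.γ <;> simp [Nat.even_add_one]

theorem lst_valid (d : List Lev) : ∀ p ∈ lst d, p.γ → p.v ∨ Even p.n := by
  induction d with
  | nil => simp [lst]
  | cons l d ih =>
    intro p hp
    rcases List.mem_append.1 hp with hp | hp
    · simp only [lev, List.mem_append, List.mem_replicate] at hp
      rcases hp with ⟨-, rfl⟩ | hp | hp
      · simp
      · split_ifs at hp <;> simp_all
      · split_ifs at hp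
        · simp at hp
        · rw [List.mem_singleton.1 hp]
          simpa using fun _ => (Nat.even_or_odd _).symm
    · exact ih p hp

theorem countP_lst {σ : Option Bool} {d : List Lev} (h : ok σ d) :
    (lst d).countP (fun p => p.γ) = d.countP fun l => l.2.2 := by
  induction d with
  | nil => rfl
  | cons l d ih =>
    obtain ⟨b, e, γ⟩ := l
    rw [lst, List.countP_append, ih h.2, List.countP_cons, add_comm]
    congr 1
    have h1 := h.1.2
    cases γ <;> fin_cases e <;> simp_all [lev, List.countP_replicate]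

/-- Normalising the bits for another initial state. -/
def nrm (σ : Option Bool) : List Lev → List Lev
  | [] => []
  | l :: d => (l.1, l.2.1, l.2.2 && decide (st σ d = some false)) :: nrm σ d

theorem length_nrm (σ : Option Bool) (d : List Lev) : (nrm σ d).length = d.length := by
  induction d with
  | nil => rfl
  | cons l d ih => simp [nrm, ih]

theorem st_nrm (σ τ : Option Bool) (d : List Lev) : st τ (nrm σ d) = st τ d := by
  induction d with
  | nil => rfl
  | cons l d ih => simp [nrm, st, ih, length_nrm]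

theorem wt_nrm (σ : Option Bool) (d : List Lev) : wt (nrm σ d) = wt d := by
  induction d with
  | nil => rfl
  | cons l d ih => simp [nrm, wt, wtl, ih, length_nrm]

theorem ok_nrm (σ : Option Bool) {τ : Option Bool} {d : List Lev} (h : ok τ d) : ok σ (nrm σ d) := by
  induction d with
  | nil => trivial
  | cons l d ih =>
    refine ⟨⟨by simpa [length_nrm] using h.1.1, fun h1 => ?_⟩, ih h.2⟩
    simp only [Bool.and_eq_true, decide_eq_true_eq] at h1
    exact ⟨(h.1.2 h1.1).1, by rw [st_nrm, h1.2]⟩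

theorem st_none (d : List Lev) : st (some false) d = some ((st none d).getD false) := by
  induction d with
  | nil => rfl
  | cons l d ih =>
    rw [st, st, ih, nxt, nxt]
    split_ifs <;> cases st none d <;> simp

theorem eq_of_nrm_none {d d' : List Lev} (h : ok (some false) d) (h' : ok (some false) d')
    (e : nrm none d = nrm none d') : (st none d = none → d = d') ∧
      ((Even (d.countP fun l => l.2.2) ↔ Even (d'.countP fun l => l.2.2)) → d = d') := by
  induction d generalizing d' with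
  | nil => cases d' <;> simp_all [nrm]
  | cons l d ih =>
    rcases d' with _ | ⟨l', d'⟩
    · simp [nrm] at e
    obtain ⟨b, c, γ⟩ := l
    obtain ⟨b', c', γ'⟩ := l'
    simp only [nrm, List.cons.injEq, Prod.mk.injEq] at e
    obtain ⟨⟨rfl, rfl, e1⟩, e2⟩ := e
    have h1 : st none d' = st none d := by rw [← st_nrm none, ← e2, st_nrm]
    have h2 := h.1.2
    have h3 := h'.1.2
    obtain ⟨h4, h5⟩ := ih h.2 h'.2 e2
    simp only [st_none, h1] at h2 h3 e1
    simp only [List.countP_cons, List.cons.injEq, Prod.mk.injEq, true_and, st, nxt]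
    rcases h6 : st none d with _ | _ | _
    · obtain rfl := h4 h6
      refine ⟨fun h7 => ?_, fun h7 => ?_⟩
      · split_ifs at h7 <;> cases γ <;> cases γ' <;> simp_all
      · cases γ <;> cases γ' <;> simpa [Nat.even_add_one, -Nat.not_even_iff_odd] using h7
    · obtain rfl : γ = γ' := by simpa [h6] using e1
      refine ⟨fun h7 => by split_ifs at h7 <;> simp at h7, fun h7 => ⟨rfl, h5 ?_⟩⟩
      cases γ <;> simpa [Nat.even_add_one, not_iff_not, -Nat.not_even_iff_odd] using h7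
    · obtain rfl : γ = false := by simpa [h6] using h2
      obtain rfl : γ' = false := by simpa [h6] using h3
      exact ⟨fun h7 => by split_ifs at h7 <;> simp at h7, fun h7 => ⟨rfl, h5 (by simpa using h7)⟩⟩

theorem st_eq_of_two_le {d : List Lev} (hd : 2 ≤ d.length) :
    st (some true) d = st (some false) d := by
  induction d with
  | nil => simp at hd
  | cons l d ih =>
    rw [st, st]
    rcases (by simp at hd; omega : d.length = 1 ∨ 2 ≤ d.length) with h | h
    · obtain ⟨l', rfl⟩ := List.length_eq_one_iff.1 h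
      simp only [st, nxt, List.length_nil, List.length_singleton]
      split_ifs <;> simp_all
    · rw [ih h]

theorem forall₂_of_nrm {d d' : List Lev} (h : ok (some false) d) (h' : ok (some false) d')
    (e : nrm (some true) d = nrm (some true) d') : List.Forall₂
      (fun p p' => p.v = p'.v ∧ p.n = p'.n ∧ (p.γ = p'.γ ∨ p.n ≤ 1)) (lst d) (lst d') := by
  induction d generalizing d' with
  | nil => cases d' <;> simp_all [nrm, lst]
  | cons l d ih =>
    rcases d' with _ | ⟨l', d'⟩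
    · simp [nrm] at e
    obtain ⟨b, c, γ⟩ := l
    obtain ⟨b', c', γ'⟩ := l'
    simp only [nrm, List.cons.injEq, Prod.mk.injEq] at e
    obtain ⟨⟨rfl, rfl, e1⟩, e2⟩ := e
    have h1 : d'.length = d.length := by rw [← length_nrm (some true), ← e2, length_nrm]
    have h2 : γ = γ' ∨ d.length ≤ 1 := by
      by_contra h2
      push Not at h2
      have h3 := h.1.2
      have h4 := h'.1.2
      rw [st_eq_of_two_le h2.2, st_eq_of_two_le (h1 ▸ h2.2)] at e1
      cases γ <;> cases γ' <;> simp_all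
    rw [lst, lst, h1]
    refine List.rel_append (List.rel_append (List.forall₂_same.2 (by simp))
      (List.rel_append (List.forall₂_same.2 (by simp)) ?_)) (ih h.2 h'.2 e2)
    dsimp only
    split_ifs
    · exact .nil
    · exact .cons ⟨rfl, rfl, h2⟩ .nil

end CL.Ev2
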