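/-
The numerical obstruction to `A₁₈` in `E₈`: a subgroup `3⁶ : 3`.
-/
import Cfsg.Agent.KSG.AltETr

set_option autoImplicit false
set_option synthInstance.maxSize 1024

namespace CL.AltE

open Function Finset Module Multiplicative Submodule
open Matrix hiding zpow_add zpow_mul zpow_sub one_zpow

/-- the base group -/
abbrev B6 := Fin 6 → ZMod 3

/-- the action of the top element -/
def sh (s : B6) : B6 := ![s 2, s 0, s 1, s 5, s 3, s 4]

/-- coset representatives -/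
def vv (a b : ZMod 3) : B6 := ![a, 0, 0, b, 0, 0]

/-- eigenvalue multiplicities of elements of order three -/
def L3 : List (ℕ × ℕ × ℕ) := [(134, 57, 57), (86, 81, 81), (80, 84, 84), (92, 78, 78)]

/-- eigenvalue multiplicities of rational elements of order nine -/
def L9 : List (ℕ × ℕ × ℕ) := [(28, 29, 29), (48, 19, 19), (34, 26, 26), (30, 28, 28)]

/-- weight and character value -/
def cd (l : B6) (s : Multiplicative B6) : ℕ := 3 * hw s + (l ⬝ᵥ s.toAdd).val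

theorem cd_lt (l : B6) (s : Multiplicative B6) : cd l s < 21 := by
  have : hw s ≤ 6 := (card_le_univ _).trans (by simp)
  have := ZMod.val_lt (l ⬝ᵥ s.toAdd)
  unfold cd; omega

theorem card_cd2 : ∀ j ∈ range 21, #{s | cd ![1, 1, 0, 0, 0, 0] s = j} =
    [1, 0, 0, 8, 2, 2, 26, 17, 17, 48, 56, 56, 64, 88, 88, 64, 64, 64, 32, 16, 16].getD j 0 := by decide +kernel

theorem card_cd3 : ∀ j ∈ range 21, #{s | cd ![1, 1, 1, 0, 0, 0] s = j} =
    [1, 0, 0, 6, 3, 3, 18, 21, 21, 46, 57, 57, 84, 78, 78, 72, 60, 60, 16, 24, 24].getD j 0 := by decide +kernel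

theorem card_cd6 : ∀ j ∈ range 21, #{s | cd ![1, 1, 1, 1, 1, 1] s = j} =
    [1, 0, 0, 0, 6, 6, 30, 15, 15, 40, 60, 60, 90, 75, 75, 60, 66, 66, 22, 21, 21].getD j 0 := by decide +kernel

theorem num1 : ∀ a ∈ L3, ∀ b ∈ L3, ∀ c ∈ L3, ∀ d ∈ L3, ∀ e ∈ L3, ∀ f ∈ L3,
    ∀ w ∈ [248 + 8 * a.1 + 2 * (a.2.1 + a.2.2) + 26 * b.1 + 17 * (b.2.1 + b.2.2) + 48 * c.1 + 56 * (c.2.1 + c.2.2) +
      64 * d.1 + 88 * (d.2.1 + d.2.2) + 64 * e.1 + 64 * (e.2.1 + e.2.2) + 32 * f.1 + 16 * (f.2.1 + f.2.2)],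
    w % 486 = 0 ∧ 60264 ≤ w →
    ∀ x ∈ [248 + 6 * a.1 + 3 * (a.2.1 + a.2.2) + 18 * b.1 + 21 * (b.2.1 + b.2.2) + 46 * c.1 + 57 * (c.2.1 + c.2.2) +
      84 * d.1 + 78 * (d.2.1 + d.2.2) + 72 * e.1 + 60 * (e.2.1 + e.2.2) + 16 * f.1 + 24 * (f.2.1 + f.2.2)],
    ∀ y ∈ [248 + 6 * (a.2.1 + a.2.2) + 30 * b.1 + 15 * (b.2.1 + b.2.2) + 40 * c.1 + 60 * (c.2.1 + c.2.2) +
      90 * d.1 + 75 * (d.2.1 + d.2.2) + 60 * e.1 + 66 * (e.2.1 + e.2.2) + 22 * f.1 + 21 * (f.2.1 + f.2.2)],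
    x % 486 = 0 ∧ 60264 ≤ x → y % 486 = 0 ∧ 60264 ≤ y → x = 60264 ∧ y = 61236 ∧ f = (86, 81, 81) := by
  decide +kernel

variable {K : Type*} {V : Type} [Field K] [AddCommGroup V] [Module K V]

/-- multiplicity of an eigenvalue -/
noncomputable def dm (ω : K) (T : End K V) (e : ZMod 3) : ℕ := finrank K (T.eigenspace (ω ^ e.val))

/-- all three multiplicities -/
noncomputable def d3 (ω : K) (T : End K V) : ℕ × ℕ × ℕ := (dm ω T 0, dm ω T 1, dm ω T 2)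

variable {ω : K} (hω : IsPrimitiveRoot ω 3)
include hω

theorem pow_val_add (a b : ZMod 3) : ω ^ (a + b).val = ω ^ a.val * ω ^ b.val := by
  rw [← pow_add, ZMod.val_add, ← pow_eq_pow_mod _ hω.pow_eq_one]

theorem pow_val_inj {a b : ZMod 3} : ω ^ a.val = ω ^ b.val ↔ a = b :=
  ⟨fun h => ZMod.val_injective 3 (hω.pow_inj (ZMod.val_lt a) (ZMod.val_lt b) h), fun h => by rw [h]⟩

/-- the characters of the base group -/
def ps (l : B6) : Multiplicative B6 →* K where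
  toFun s := ω ^ (l ⬝ᵥ s.toAdd).val
  map_one' := by simp
  map_mul' s t := by rw [toAdd_mul, dotProduct_add, pow_val_add hω]

variable [FiniteDimensional K V] [IsAlgClosed K] (h0 : ((3 : ℕ) : K) ≠ 0) (X : Multiplicative B6 →* End K V)
include h0

theorem step1 (hV : finrank K V = 248) (hX : ∀ s ≠ 1, d3 ω (X s) ∈ L3)
    (hc : ∀ s s', hw s = hw s' → ∀ μ, finrank K ((X s).eigenspace μ) = finrank K ((X s').eigenspace μ)) :
    finrank K ↥(⨅ s, (X s).eigenspace (ps hω ![1, 1, 1, 0, 0, 0] s)) = 0 ∧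
      finrank K ↥(⨅ s, (X s).eigenspace (ps hω ![1, 1, 1, 1, 1, 1] s)) = 2 ∧ d3 ω (X (rp 6 3 6)) = (86, 81, 81) := by
  let F : ℕ → ℕ := fun j => dm ω (X (rp 6 3 (j / 3))) (j % 3 : ℕ)
  have h1 : ∀ l, 3 * ∑ j ∈ range 21, #{s | cd l s = j} * F j =
      729 * (248 + 2 * finrank K ↥(⨅ s, (X s).eigenspace (ps hω l s))) := fun l => by
    have := sum_eig X mul_comm h0 pow_r (ps hω l)
    rw [← sum_code _ (cd_lt l), ← hV]
    refine Eq.trans (congrArg _ (sum_congr rfl fun s _ => ?_)) (this.trans (by simp))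
    have a1 := ZMod.val_lt (l ⬝ᵥ s.toAdd)
    have a2 : cd l s / 3 = hw s := by unfold cd; omega
    have a3 : cd l s % 3 = (l ⬝ᵥ s.toAdd).val := by unfold cd; omega
    simp only [F, a2, a3, ZMod.natCast_val, ZMod.cast_id', id_eq]
    exact hc _ _ (by clear * - s; revert s; decide +kernel) _
  have h2 := h1 ![1, 1, 0, 0, 0, 0]
  have h3 := h1 ![1, 1, 1, 0, 0, 0]
  have h6 := h1 ![1, 1, 1, 1, 1, 1]
  rw [sum_congr rfl fun j hj => by rw [card_cd2 j hj]] at h2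
  rw [sum_congr rfl fun j hj => by rw [card_cd3 j hj]] at h3
  rw [sum_congr rfl fun j hj => by rw [card_cd6 j hj]] at h6
  have h7 : F 0 = 248 := by
    rw [← hV, ← finrank_top, show (⊤ : Submodule K V) = (X 1).eigenspace (ω ^ 0) from (eq_top_iff.2 fun v _ =>
      End.mem_eigenspace_iff.2 (by simp)).symm]
    exact hc _ _ (by decide) _
  have h8 : ∀ k, (F (3 * k), F (3 * k + 1), F (3 * k + 2)) = d3 ω (X (rp 6 3 k)) := fun k => by
    simp only [F, d3, Nat.mul_add_mod, Nat.mul_mod_right, Nat.mul_add_div (show 0 < 3 by norm_num),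
      Nat.mul_div_cancel_left _ (show 0 < 3 by norm_num)]
    rfl
  have h9 : ∀ k, rp 6 3 k ≠ 1 → (F (3 * k), F (3 * k + 1), F (3 * k + 2)) ∈ L3 := fun k h => h8 k ▸ hX _ h
  rw [← h8]
  clear_value F
  simp only [sum_range_succ, sum_range_zero, h7, List.getD_cons_succ, List.getD_cons_zero] at h2 h3 h6
  have := num1 _ (h9 1 (by decide)) _ (h9 2 (by decide)) _ (h9 3 (by decide)) _ (h9 4 (by decide))
    _ (h9 5 (by decide)) _ (h9 6 (by decide))
  simp only [List.mem_singleton, forall_eq, Nat.reduceMul, Nat.reduceAdd] at this ⊢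
  have key : ∀ w m : ℕ, w = 60264 + 486 * m → w % 486 = 0 ∧ 60264 ≤ w := by omega
  generalize finrank K ↥(⨅ s, (X s).eigenspace (ps hω _ s)) = m at h2
  generalize finrank K ↥(⨅ s, (X s).eigenspace (ps hω ![1, 1, 1, 0, 0, 0] s)) = m₃ at h3 ⊢
  generalize finrank K ↥(⨅ s, (X s).eigenspace (ps hω ![1, 1, 1, 1, 1, 1] s)) = m₆ at h6 ⊢
  obtain ⟨a, b, c⟩ := this (key _ m (by linarith only [h2])) (key _ m₃ (by linarith only [h3]))
    (key _ m₆ (by linarith only [h6]))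
  exact ⟨by linarith only [a, h3], by linarith only [b, h6], c⟩

omit hω h0 [FiniteDimensional K V] [IsAlgClosed K] in
/-- fixed points of a subset of the base group -/
def fx (C : B6 → Prop) : Submodule K V where
  carrier := {v | ∀ s, C s → X (ofAdd s) v = v}
  add_mem' ha hb s hs := by rw [map_add, ha s hs, hb s hs]
  zero_mem' _ _ := map_zero _
  smul_mem' c _ hv s hs := by rw [map_smul, hv s hs]

variable {X} {g : End K V} (hg : ∀ s, g * X (ofAdd s) = X (ofAdd (sh s)) * g) {C C' : B6 → Prop}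

omit hω h0 [FiniteDimensional K V] [IsAlgClosed K] in
theorem X_add (s t : B6) (v : V) : X (ofAdd (s + t)) v = X (ofAdd s) (X (ofAdd t) v) := by
  rw [ofAdd_add, map_mul, End.mul_apply]

omit hω h0 [FiniteDimensional K V] [IsAlgClosed K] in
theorem X_mem (t : B6) : ∀ v ∈ fx X C, X (ofAdd t) v ∈ fx X C := fun v hv s hs => by
  rw [← X_add, add_comm, X_add, hv s hs]

include hg

omit hω h0 [FiniteDimensional K V] [IsAlgClosed K] in
theorem g_mem (h : ∀ s, C s → C (sh (sh s))) : ∀ v ∈ fx X C, g v ∈ fx X C := fun v hv s hs => by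
  have := congrArg (· v) (hg (sh (sh s)))
  simp only [End.mul_apply, hv _ (h s hs), show sh (sh (sh s)) = s from funext fun i => by fin_cases i <;> rfl] at this
  exact this.symm

omit hω h0 [FiniteDimensional K V] [IsAlgClosed K] in
theorem g_comm (h : ∀ s, C s → C (sh (sh s))) {c : B6} (hc : C (sh c - c)) :
    ∀ v ∈ fx X C, g (X (ofAdd c) v) = X (ofAdd c) (g v) := fun v hv => by
  rw [← End.mul_apply, hg, End.mul_apply, ← add_sub_cancel c (sh c), X_add, g_mem hg h v hv _ hc]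

theorem fx_step (y : B6) (h : C (sh (sh y - y) - (sh y - y)) ∧ C' (sh y - y) ∧ ∀ s, (C s → C (sh (sh s)) ∧ C' s) ∧
    (C' s → C s ∨ C (s - (sh y - y)) ∨ C (s + (sh y - y)))) :
    ∃ k, ∀ e < 3, finrank K ↥(fx X C ⊓ g.eigenspace (ω ^ e)) = finrank K ↥(fx X C' ⊓ g.eigenspace (ω ^ e)) + k := by
  obtain ⟨h1, h2, h3⟩ := h
  have h4 : fx X C ⊓ (X (ofAdd (sh y - y))).eigenspace 1 = fx X C' := by
    refine le_antisymm ?_ fun v hv => ⟨fun s hs => hv s ((h3 s).1 hs).2,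
      End.mem_eigenspace_iff.2 ((hv _ h2).trans (one_smul _ _).symm)⟩
    rintro v ⟨a, b⟩ s hs
    have b := (End.mem_eigenspace_iff.1 b).trans (one_smul _ _)
    rcases (h3 s).2 hs with c | c | c
    · exact a s c
    · rw [← sub_add_cancel s (sh y - y), X_add, b, a _ c]
    · rw [← b, ← X_add, a _ c, b]
  rw [← h4]
  exact exists_shift hω h0 _ (rep_injective X (ofAdd y)) (X_mem _) (X_mem _)
    (g_comm hg (fun s hs => ((h3 s).1 hs).1) h1) (by rw [← map_mul X, ← map_mul X, mul_comm])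
    (by rw [hg, ← map_mul X, ← ofAdd_add, add_sub_cancel]) (by rw [← map_pow, pow_r, map_one])

/-- the commutator subgroup of the group `3⁶ : 3` -/
abbrev C4 (s : B6) : Prop := s 0 + s 1 + s 2 = 0 ∧ s 3 + s 4 + s 5 = 0

theorem fx_all : ∃ k, ∀ e : ZMod 3, dm ω g e = finrank K ↥(fx X C4 ⊓ g.eigenspace (ω ^ e.val)) + k := by
  obtain ⟨k1, h1⟩ := fx_step hω h0 hg (C := fun s => s = 0)
    (C' := fun s => (s 0 = 0 ∧ s 1 = 0 ∧ s 2 = 0) ∧ s 3 = s 4 ∧ s 4 = s 5) ![0, 0, 0, 1, 2, 0] (by decide +kernel)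
  obtain ⟨k2, h2⟩ := fx_step hω h0 hg (C := fun s => (s 0 = 0 ∧ s 1 = 0 ∧ s 2 = 0) ∧ s 3 = s 4 ∧ s 4 = s 5)
    (C' := fun s => (s 0 = 0 ∧ s 1 = 0 ∧ s 2 = 0) ∧ s 3 + s 4 + s 5 = 0) ![0, 0, 0, 1, 0, 0] (by decide +kernel)
  obtain ⟨k3, h3⟩ := fx_step hω h0 hg (C := fun s => (s 0 = 0 ∧ s 1 = 0 ∧ s 2 = 0) ∧ s 3 + s 4 + s 5 = 0)
    (C' := fun s => (s 0 = s 1 ∧ s 1 = s 2) ∧ s 3 + s 4 + s 5 = 0) ![1, 2, 0, 0, 0, 0] (by decide +kernel)
  obtain ⟨k4, h4⟩ := fx_step hω h0 hg (C := fun s => (s 0 = s 1 ∧ s 1 = s 2) ∧ s 3 + s 4 + s 5 = 0)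
    (C' := C4) ![1, 0, 0, 0, 0, 0] (by decide +kernel)
  refine ⟨k4 + k3 + k2 + k1, fun e => ?_⟩
  have he := ZMod.val_lt e
  have h5 : fx X (fun s => s = 0) = ⊤ := eq_top_iff.2 fun v _ s hs => by rw [hs]; simp
  rw [← add_assoc, ← add_assoc, ← add_assoc, ← h4 _ he, ← h3 _ he, ← h2 _ he, ← h1 _ he, h5, top_inf_eq, dm]

omit hg hω h0 in
theorem count {I : Type*} [Fintype I] (a u w : I → ZMod 3) (u₀ w₀ e : ZMod 3) :
    ∑ s : ZMod 3 × ZMod 3, #{i | a i + (u i * s.1 + w i * s.2) = e + (u₀ * s.1 + w₀ * s.2)} =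
      9 * #{i | a i = e ∧ u i = u₀ ∧ w i = w₀} + 3 * #{i | ¬ (u i = u₀ ∧ w i = w₀)} := by
  simp only [card_filter]
  rw [sum_comm, mul_sum, mul_sum, ← sum_add_distrib]
  refine sum_congr rfl fun i _ => ?_
  generalize a i = x, u i = y, w i = z
  revert x y z u₀ w₀ e
  decide +kernel

/-- the entries of a triple -/
def tr3 (t : ℕ × ℕ × ℕ) (e : ZMod 3) : ℕ := if e = 0 then t.1 else if e = 1 then t.2.1 else t.2.2

/-- the three classes of cosets -/
def cls (A B : ℕ × ℕ × ℕ) (s : ZMod 3 × ZMod 3) : ℕ × ℕ × ℕ :=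
  if s.1 = 0 ∧ s.2 = 0 then (86, 81, 81) else if s.1 = 0 ∨ s.2 = 0 then A else B

/-- the Fourier sums -/
def fs (A B : ℕ × ℕ × ℕ) (u₀ w₀ e : ZMod 3) : ℕ := ∑ s, tr3 (cls A B s) (e + (u₀ * s.1 + w₀ * s.2))

omit hg hω h0 in
theorem num2 : ∀ A ∈ L9, ∀ B ∈ L9, fs A B 1 0 0 = fs A B 1 0 1 → ∀ a < 3, ∀ b < 3, ∀ c < 3, a + b + c = 2 →
    fs A B 1 1 0 + 9 * b = fs A B 1 1 1 + 9 * a → fs A B 1 1 0 + 9 * c ≠ fs A B 1 1 2 + 9 * a := by
  decide +kernel

theorem no18 (hV : finrank K V = 248) (hX : ∀ s ≠ 1, d3 ω (X s) ∈ L3)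
    (hc : ∀ s s', hw s = hw s' → ∀ μ, finrank K ((X s).eigenspace μ) = finrank K ((X s').eigenspace μ))
    (hg3 : g ^ 3 = 1) (h00 : d3 ω g = d3 ω (X (rp 6 3 6)))
    (hA : ∀ a b, d3 ω (g * X (ofAdd (vv a b))) = d3 ω (g * X (ofAdd (vv b (-a)))))
    (h01 : d3 ω (g * X (ofAdd (vv 0 1))) ∈ L9) (h11 : d3 ω (g * X (ofAdd (vv 1 1))) ∈ L9) : False := by
  obtain ⟨m1, m2, m3⟩ := step1 hω h0 X hV hX hc
  have z3 : ∀ s : ZMod 3, s = 0 ∨ s = 1 ∨ s = 2 := by decide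
  have hC : ∀ s, C4 s → C4 (sh (sh s)) := by decide +kernel
  have h5 : ∀ j x, (![g, X (ofAdd (vv 1 0)), X (ofAdd (vv 0 1))] j ^ 3) x = x := fun j x => by
    have a1 : ∀ s, (X s ^ 3) x = x := fun s => by rw [← map_pow, pow_r, map_one]; rfl
    fin_cases j
    exacts [congrArg (· x) hg3, a1 _, a1 _]
  obtain ⟨I, _, v, d, h1, h2, h3⟩ := exists_eb (fx X C4) ![g, X (ofAdd (vv 1 0)), X (ofAdd (vv 0 1))]
    (fun j => by fin_cases j; exacts [g_mem hg hC, X_mem _, X_mem _]) (fun i j x hx => by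
      have a1 := g_comm hg hC (c := vv 1 0) (by decide) x hx
      have a2 := g_comm hg hC (c := vv 0 1) (by decide) x hx
      have a3 : X (ofAdd (vv 1 0)) (X (ofAdd (vv 0 1)) x) = X (ofAdd (vv 0 1)) (X (ofAdd (vv 1 0)) x) := by
        rw [← X_add, add_comm, X_add]
      fin_cases i <;> fin_cases j
      exacts [rfl, a1, a2, a1.symm, rfl, a3, a2.symm, a3.symm, rfl]) h0 fun j x _ => h5 j x
  have h4 : ∀ j i, ∃ a : ZMod 3, d j i = ω ^ a.val := fun j i => by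
    obtain ⟨k, hk, e⟩ := hω.eq_pow_of_pow_eq_one (pow_eq_one_of_eig (h1.ne_zero i) (h3 j i) (n := 3) (h5 j _))
    exact ⟨k, by rw [ZMod.val_cast_of_lt hk, e]⟩
  choose a ha using h4
  simp only [ha] at h3
  have h6 : ∀ i s, X s (v i) = ps hω ![a 1 i, a 1 i, a 1 i, a 2 i, a 2 i, a 2 i] s • v i := fun i s => by
    set χ := ps hω ![a 1 i, a 1 i, a 1 i, a 2 i, a 2 i, a 2 i]
    have b1 : ∀ s t, X s (v i) = χ s • v i → X t (v i) = χ t • v i → X (s * t) (v i) = χ (s * t) • v i :=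
      fun s t hs ht => by rw [map_mul, End.mul_apply, ht, map_smul, hs, smul_smul, map_mul, mul_comm]
    have b2 : ∀ s (n : ℕ), X s (v i) = χ s • v i → X (s ^ n) (v i) = χ (s ^ n) • v i := fun s n hs => by
      rw [map_pow, eig_pow hs, map_pow]
    have b3 : ∀ s, C4 s → X (ofAdd s) (v i) = χ (ofAdd s) • v i := fun s hs => by
      rw [(h2 ▸ subset_span ⟨i, rfl⟩ : v i ∈ fx X C4) s hs]
      refine ((congrArg (fun a : ZMod 3 => ω ^ a.val • v i) (?_ : _ = (0 : ZMod 3))).trans (by simp)).symm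
      simp only [dotProduct, Fin.sum_univ_six, toAdd_ofAdd]
      linear_combination (norm := (simp; ring)) a 1 i * hs.1 + a 2 i * hs.2
    have b4 := b1 _ _ (b1 _ _ (b3 (s.toAdd - vv (s.toAdd 0 + s.toAdd 1 + s.toAdd 2) (s.toAdd 3 + s.toAdd 4 + s.toAdd 5))
      (by simp [vv, C4]; constructor <;> ring))
      (b2 _ (s.toAdd 0 + s.toAdd 1 + s.toAdd 2).val ((h3 1 i).trans (by simp [χ, ps, vv]))))
      (b2 _ (s.toAdd 3 + s.toAdd 4 + s.toAdd 5).val ((h3 2 i).trans (by simp [χ, ps, vv])))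
    convert b4 using 3 <;> (ext j; fin_cases j <;> simp [vv, vecHead, vecTail])
  have h7 : ∀ s : ZMod 3 × ZMod 3, ∃ k, ∀ e, dm ω (g * X (ofAdd (vv s.1 s.2))) e =
      #{i | a 0 i + (a 1 i * s.1 + a 2 i * s.2) = e} + k := fun s => by
    obtain ⟨k, hk⟩ := fx_all hω h0 (X := X) (g := g * X (ofAdd (vv s.1 s.2))) fun t => by
      rw [mul_assoc, ← map_mul X, mul_comm (ofAdd _), map_mul, ← mul_assoc, hg, mul_assoc]
    refine ⟨k, fun e => ?_⟩
    rw [hk, ← h2, finrank_inf₁ h1 (d := fun i => ω ^ (a 0 i + (a 1 i * s.1 + a 2 i * s.2)).val) (fun i => ?_) _ _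
      fun i => (pow_val_inj hω).symm]
    rw [End.mul_apply, h6, map_smul, show g (v i) = _ from h3 0 i, smul_smul, pow_val_add hω, mul_comm]
    simp [ps, vv]
  choose k hk using h7
  have h8 : ∀ u w, finrank K ↥(⨅ s, (X s).eigenspace (ps hω ![u, u, u, w, w, w] s)) = #{i | a 1 i = u ∧ a 2 i = w} :=
    fun u w => by
    rw [← finrank_inf h1 X _ (fun s i => h6 i s) (ps hω ![u, u, u, w, w, w]) _ fun i => ⟨fun e s => by rw [e.1, e.2],
      fun e => ⟨by simpa [ps, vv, pow_val_inj hω] using e (ofAdd (vv 1 0)),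
        by simpa [ps, vv, pow_val_inj hω] using e (ofAdd (vv 0 1))⟩⟩, h2, inf_eq_right.2]
    intro x hx s hs
    rw [End.mem_eigenspace_iff.1 ((mem_iInf _).1 hx _)]
    refine (congrArg (fun a : ZMod 3 => ω ^ a.val • x) (?_ : _ = (0 : ZMod 3))).trans (by simp)
    simp only [dotProduct, Fin.sum_univ_six, toAdd_ofAdd]
    linear_combination (norm := (simp; ring)) u * hs.1 + w * hs.2
  set A := d3 ω (g * X (ofAdd (vv 0 1)))
  set B := d3 ω (g * X (ofAdd (vv 1 1)))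
  have h9 : ∀ s : ZMod 3 × ZMod 3, d3 ω (g * X (ofAdd (vv s.1 s.2))) = cls A B s := by
    have a1 : A = d3 ω (g * X (ofAdd (vv 1 0))) := hA 0 1
    have a2 : _ = d3 ω (g * X (ofAdd (vv 0 2))) := a1.trans (hA 1 0)
    have a3 : _ = d3 ω (g * X (ofAdd (vv 2 0))) := a2.trans (hA 0 2)
    have b1 : B = d3 ω (g * X (ofAdd (vv 1 2))) := hA 1 1
    have b2 : _ = d3 ω (g * X (ofAdd (vv 2 2))) := b1.trans (hA 1 2)
    have b3 : _ = d3 ω (g * X (ofAdd (vv 2 1))) := b2.trans (hA 2 2)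
    have c : d3 ω (g * X (ofAdd (vv 0 0))) = (86, 81, 81) := by
      rw [show ofAdd (vv 0 0) = 1 by decide, map_one, mul_one, h00, m3]
    rintro ⟨x, y⟩
    rcases z3 x with rfl | rfl | rfl <;> rcases z3 y with rfl | rfl | rfl
    exacts [c, rfl, a2.symm, a1.symm, rfl, b1.symm, a3.symm, b3.symm, b2.symm]
  have h10 : ∀ u w e, fs A B u w e = 9 * #{i | a 0 i = e ∧ a 1 i = u ∧ a 2 i = w} +
      3 * #{i | ¬ (a 1 i = u ∧ a 2 i = w)} + ∑ s, k s := fun u w e => by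
    rw [← count, ← sum_add_distrib]
    refine sum_congr rfl fun s _ => ?_
    rw [← hk, ← h9]
    generalize e + _ = x
    rcases z3 x with rfl | rfl | rfl <;> rfl
  have h11' : ∀ u w, #{i | a 1 i = u ∧ a 2 i = w} = #{i | a 0 i = 0 ∧ a 1 i = u ∧ a 2 i = w} +
      #{i | a 0 i = 1 ∧ a 1 i = u ∧ a 2 i = w} + #{i | a 0 i = 2 ∧ a 1 i = u ∧ a 2 i = w} := fun u w => by
    simp only [card_filter, ← sum_add_distrib]
    refine sum_congr rfl fun i _ => ?_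
    generalize a 0 i = x, a 1 i = y, a 2 i = z
    clear * -
    revert x y z u w
    decide +kernel
  rw [h8, h11'] at m1 m2
  exact num2 A h01 B h11 (by rw [h10, h10]; omega) _ (by omega) _ (by omega) _ (by omega) m2
    (by rw [h10, h10]; omega) (by rw [h10, h10]; omega)

end CL.AltE
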