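/-
Alternating sections of `E₈`.
-/
import Cfsg.Agent.KSG.AltE8a

set_option autoImplicit false

namespace CL.AltE

open Function Equiv Equiv.Perm Finset Module CL.Chev Cfsg.Lie Multiplicative

theorem isConj_of {α : Type*} [Fintype α] [DecidableEq α] {x y : alternatingGroup α} (c : Perm α)
    (h : sign c = 1 ∧ ∀ a, c (x.1 a) = y.1 (c a)) : IsConj x y :=
  isConj_iff.2 ⟨⟨c, h.1⟩, Subtype.ext (mul_inv_eq_iff_eq_mul.2 (Equiv.ext h.2))⟩

/-- the top element -/
def G0 : alternatingGroup (Fin 6 × ZMod 3) :=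
  ⟨prodCongrLeft fun _ => [0, 1, 2].formPerm * [3, 4, 5].formPerm, mem_alt_of_pow (n := 3) (by decide) (by decide +kernel)⟩

/-- translations -/
abbrev T6 : Multiplicative B6 →* alternatingGroup (Fin 6 × ZMod 3) := trA (by norm_num)

theorem G0_mul (s : B6) : G0 * T6 (ofAdd s) = T6 (ofAdd (sh s)) * G0 :=
  Subtype.ext (Equiv.ext fun x => by obtain ⟨i, a⟩ := x; fin_cases i <;> rfl)

/-- the elements of the coset -/
def yy (a b : ZMod 3) : alternatingGroup (Fin 6 × ZMod 3) := G0 * T6 (ofAdd (vv a b))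

theorem yy_pow : ∀ a b, yy a b ^ 9 = 1 ∧ (b = 1 → yy a b ^ 3 ≠ 1) := by decide +kernel

theorem conj_yy (a b : ZMod 3) : IsConj (yy a b) (yy b (-a)) :=
  isConj_of ([(0, 0), (3, 0)].formPerm * [(0, 1), (3, 2), (0, 2), (3, 1)].formPerm * [(1, 0), (4, 0)].formPerm *
    [(1, 1), (4, 2), (1, 2), (4, 1)].formPerm * [(2, 0), (5, 0)].formPerm * [(2, 1), (5, 2), (2, 2), (5, 1)].formPerm)
    (by revert a b; decide +kernel)

theorem conj_y01 : IsConj (yy 0 1 ^ 1) (yy 0 1 ^ 2) :=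
  isConj_of ([(0, 1), (0, 2)].formPerm * [(1, 0), (2, 0)].formPerm * [(1, 1), (2, 2)].formPerm *
    [(1, 2), (2, 1)].formPerm * [(3, 1), (3, 2)].formPerm * [(4, 0), (5, 2), (4, 1), (5, 1), (4, 2), (5, 0)].formPerm)
    (by decide +kernel)

theorem conj_y11 : IsConj (yy 1 1 ^ 1) (yy 1 1 ^ 2) :=
  isConj_of ([(0, 1), (0, 2)].formPerm * [(1, 0), (2, 2), (1, 1), (2, 1), (1, 2), (2, 0)].formPerm *
    [(3, 1), (3, 2)].formPerm * [(4, 0), (5, 2), (4, 1), (5, 1), (4, 2), (5, 0)].formPerm) (by decide +kernel)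

theorem conj_G0 : IsConj G0 (T6 (rp 6 3 6)) :=
  isConj_of ([(0, 1), (1, 0)].formPerm * [(0, 2), (2, 0)].formPerm * [(1, 2), (2, 1)].formPerm *
    [(3, 1), (4, 0)].formPerm * [(3, 2), (5, 0)].formPerm * [(4, 2), (5, 1)].formPerm) (by decide +kernel)

/-- the group `3⁶ : 3` -/
def Q18 : Subgroup (alternatingGroup (Fin 6 × ZMod 3)) := T6.range ⊔ Subgroup.zpowers G0

theorem isPGroup_Q : IsPGroup 3 Q18 := by
  refine (isPGroup_trA _).to_sup_of_normal_left' (IsPGroup.of_card (n := 1) ?_) ?_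
  · rw [Nat.card_zpowers, pow_one]
    exact orderOf_eq_prime (by decide +kernel) (by decide +kernel)
  · rw [Subgroup.zpowers_le]
    refine Subgroup.mem_normalizer_fintype ?_
    rintro _ ⟨s, rfl⟩
    exact ⟨_, (mul_inv_eq_iff_eq_mul.2 (G0_mul s.toAdd)).symm⟩

variable {F : Type*} [Field F] [Fintype F] (p : ℕ) [hp : Fact p.Prime] [CharP F p]

theorem not_sec_E8 (h3 : p ≠ 3) : ¬ Sec (chevE8.group F) 18 := fun hs => by
  obtain ⟨ι, h1, h2⟩ := exists_fusion (r := 3) (c := 5) (by simp) p ord8 (by norm_num) hs (by norm_num) h3.symm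
    (by decide) (by decide) (Fintype.equivFinOfCardEq (α := Fin 6 × ZMod 3) (by simp)).symm.altCongrHom _ isPGroup_Q
  obtain ⟨φ, A, -⟩ := exists_alg_st (D := chevE8) (F := ZMod p) (by simp)
  obtain ⟨h9, z, hz⟩ := exists_root p (n := 9) fun e => h3 ((Nat.prime_dvd_prime_iff_eq hp.out Nat.prime_three).1
    (hp.out.dvd_of_dvd_pow (show p ∣ 3 ^ 2 from e)))
  have hω := hz.pow (by norm_num) (show 9 = 3 * 3 by norm_num)
  have h0 : ((3 : ℕ) : AlgebraicClosure (ZMod p)) ≠ 0 := fun e => h9 (by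
    rw [show 9 = 3 * 3 from rfl, Nat.cast_mul, e, zero_mul])
  let t : Multiplicative B6 →* Q18 :=
    T6.codRestrict _ fun s => Subgroup.mem_sup_left ⟨s, rfl⟩
  let g : Q18 := ⟨G0, Subgroup.mem_sup_right (Subgroup.mem_zpowers _)⟩
  obtain ⟨ρ, hρ⟩ : ∃ ρ : Q18 →* End _ _, ∀ x, ρ x = (w248 (AlgebraicClosure (ZMod p))).E (ι x) :=
    ⟨_, MonoidHom.comp_apply _ _⟩
  have h4 : ∀ x y : Q18, IsConj x.1 y.1 → ∀ μ,
      finrank (AlgebraicClosure (ZMod p)) ((ρ x).eigenspace μ) =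
        finrank (AlgebraicClosure (ZMod p)) ((ρ y).eigenspace μ) := fun x y h => by
    rw [hρ, hρ]; exact finrank_conj _ (h2 x y h)
  have h5 : ∀ x y : Q18, IsConj x.1 y.1 →
      d3 (z ^ 3) (ρ x) = d3 (z ^ 3) (ρ y) := fun x y h => by simp only [d3, dm, h4 x y h]
  have h6 : ∀ a, IsConj (yy a 1 ^ 1) (yy a 1 ^ 2) → d3 (z ^ 3) (ρ g * ρ (t (ofAdd (vv a 1)))) ∈ L9 := fun a h => by
    have a0 : ι (g * t (ofAdd (vv a 1))) ^ 9 = 1 := by
      rw [← map_pow, show (g * t (ofAdd (vv a 1))) ^ 9 = 1 from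
        Subtype.ext ((Subgroup.coe_pow _ _ _).trans (yy_pow a 1).1), map_one]
    obtain ⟨H, a1, a2, a3⟩ := exists_hist A (w248 _) ((w248_wt (K := AlgebraicClosure (ZMod p))).symm ▸ tab8_9) hz
      (Q := q8_9) alc8_9 a0
    have a4 : H 3 ≠ 248 := fun e => by
      have := a2 3 0 (by norm_num)
      rw [e, pow_zero z] at this
      have := eq_one_of_finrank A (w248 _) h0 (by rw [← pow_mul, a0]) this.symm
      rw [← map_pow, ← map_one ι] at this
      have := congrArg Subtype.val (h1 this)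
      rw [Subgroup.coe_pow] at this
      exact (yy_pow a 1).2 rfl this
    have a5 := a3 1 2 (by rw [← map_pow, ← map_pow]; exact h2 _ _ h)
    have a6 := a2 1 0 (by norm_num)
    rw [pow_zero 256, Nat.div_one] at a6
    rw [q8_9, ← a5, a6, a2 1 3 (by norm_num), a2 1 6 (by norm_num), pow_one] at a1
    rw [← map_mul, d3, dm, dm, dm, ← pow_mul, ← pow_mul, ← pow_mul, hρ]
    simp only [Nat.beq_refl, Bool.not_true, Bool.false_or, Bool.or_eq_true, Nat.beq_eq, a4, false_or,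
      decide_eq_true_eq] at a1
    exact a1
  refine no18 hω h0 (X := ρ.comp t) (g := ρ g) (fun s => ?_) (by simp) (fun s hs => ?_)
    (fun s s' h => ?_) ?_ ?_ (fun a b => ?_) ?_ ?_
  · simp only [MonoidHom.comp_apply, ← map_mul]
    exact congrArg ρ (Subtype.ext (G0_mul s))
  · have a0 : ι (t s) ^ 3 = 1 := by rw [← map_pow, ← map_pow, pow_r, map_one, map_one]
    obtain ⟨H, a1, a2, -⟩ := exists_hist A (w248 _) ((w248_wt (K := AlgebraicClosure (ZMod p))).symm ▸ tab8_3) hω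
      (Q := q8_3) alc8_3 a0
    have a3 : d3 (z ^ 3) (ρ (t s)) = (H 1 / 256 ^ 0 % 256, H 1 / 256 ^ 1 % 256, H 1 / 256 ^ 2 % 256) := by
      rw [a2 1 0 (by norm_num), a2 1 1 (by norm_num), a2 1 2 (by norm_num), pow_one (ι _), hρ]; rfl
    have a4 : H 1 ≠ 248 := fun e => by
      have := a2 1 0 (by norm_num)
      rw [e, pow_zero (z ^ 3), pow_one] at this
      have := eq_one_of_finrank A (w248 _) h0 a0 this.symm
      rw [← map_one ι] at this
      exact hs (trA_injective _ ((congrArg Subtype.val (h1 this)).trans (map_one T6).symm))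
    rw [MonoidHom.comp_apply, a3]
    simp only [q8_3, List.mem_cons, a4, false_or, List.not_mem_nil, or_false, decide_eq_true_eq] at a1
    rcases a1 with e | e | e | e <;> rw [e] <;> decide
  · exact h4 (t s) (t s') (isConj_trA _ (by norm_num) h)
  · rw [← map_pow, show g ^ 3 = 1 from
      Subtype.ext ((Subgroup.coe_pow _ _ _).trans (by decide +kernel : G0 ^ 3 = 1)), map_one]
  · exact h5 g (t (rp 6 3 6)) conj_G0
  · simp only [MonoidHom.comp_apply, ← map_mul]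
    exact h5 _ _ (conj_yy a b)
  · exact h6 0 conj_y01
  · exact h6 1 conj_y11

theorem exists_cyc {D : ChevalleyDatum} [Good D] (hD : D ∈ [chevG2, chevB2, chevD4, chevF4, chevE6, chevE7, chevE8])
    {N : ℕ} {d : Fin D.rank → ℕ} (h : Ord D N d) {n r k : ℕ} [Fact r.Prime] (hn : 9 ≤ n) (hs : Sec (D.group F) n)
    (h2 : r ≠ 2) (hrp : r ≠ p) (hc : ¬ r ^ (0 + 1) ∣ ∏ i, d i) (hl : D.rank + 0 + 2 < n)
    {a : alternatingGroup (Fin n)} (ha : a ^ r = 1 ∧ a ≠ 1) (hk : IsConj (a ^ 1) (a ^ k)) :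
    ∃ g : D.SteinbergGroup (AlgebraicClosure (ZMod p)), g ^ r = 1 ∧ g ≠ 1 ∧ IsConj (g ^ 1) (g ^ k) := by
  obtain ⟨ι, h1, h3⟩ := exists_fusion hD p h hn hs h2 hrp hc hl (MulEquiv.refl _) (Subgroup.zpowers a)
    (IsPGroup.of_card (n := 1) (by rw [Nat.card_zpowers, pow_one, orderOf_eq_prime ha.1 ha.2]))
  refine ⟨ι ⟨a, Subgroup.mem_zpowers a⟩, ?_, fun e => ha.2 (congrArg Subtype.val (h1 (e.trans (map_one ι).symm))), ?_⟩
  · rw [← map_pow, ← map_one ι]; exact congrArg ι (Subtype.ext ha.1)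
  · rw [← map_pow, ← map_pow]; exact h3 _ _ hk

theorem fact11 : Fact (Nat.Prime 11) := ⟨by norm_num⟩
theorem fact17 : Fact (Nat.Prime 17) := ⟨by norm_num⟩
attribute [local instance] fact11 fact17

theorem not_sec_E8' (h3 : p = 3) : ¬ Sec (chevE8.group F) 19 := fun hs => by
  obtain ⟨g, h1, h2, h4⟩ := exists_cyc (r := 17) (k := 3) p (by simp) ord8 (by norm_num) hs (by norm_num) (by omega)
    (by decide) (by decide) (a := ⟨[0, 1, 2, 3, 4, 5, 6, 7, 8, 9, 10, 11, 12, 13, 14, 15, 16].formPerm,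
      mem_alt_of_pow (n := 17) (by decide) (by decide +kernel)⟩) (by decide +kernel)
    (isConj_of ([1, 3, 9, 10, 13, 5, 15, 11, 16, 14, 8, 7, 4, 12, 2, 6].formPerm * swap 17 18) (by decide +kernel))
  obtain ⟨φ, A, -⟩ := exists_alg_st (D := chevE8) (F := ZMod p) (by simp)
  obtain ⟨h0, z, hz⟩ := exists_root p (n := 17) (by rw [h3]; norm_num)
  obtain ⟨H, a1, a2, a3⟩ := exists_hist A (w248 _) ((w248_wt (K := AlgebraicClosure (ZMod p))).symm ▸ tab8_17) hz
    (Q := q8_17) alc8_17 h1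
  have a4 := a2 1 0 (by norm_num)
  rw [show H 1 = 248 by simpa [q8_17, a3 1 3 h4] using a1, pow_zero z, pow_one] at a4
  exact h2 (eq_one_of_finrank A (w248 _) h0 h1 a4.symm)

theorem not_sec_E6' (h : p ≠ 11) : ¬ Sec (chevE6.group F) 13 := fun hs => by
  obtain ⟨g, h1, h2, h4⟩ := exists_cyc (r := 11) (k := 2) p (by simp) ord6 (by norm_num) hs (by norm_num) h.symm
    (by decide) (by decide) (a := ⟨[0, 1, 2, 3, 4, 5, 6, 7, 8, 9, 10].formPerm,
      mem_alt_of_pow (n := 11) (by decide) (by decide +kernel)⟩) (by decide +kernel)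
    (isConj_of ([1, 2, 4, 8, 5, 10, 9, 7, 3, 6].formPerm * swap 11 12) (by decide +kernel))
  obtain ⟨φ, A, -⟩ := exists_alg_st (D := chevE6) (F := ZMod p) (by simp)
  obtain ⟨h0, z, hz⟩ := exists_root p (n := 11) fun e => h ((Nat.prime_dvd_prime_iff_eq hp.out fact11.out).1 e)
  obtain ⟨H, a1, a2, a3⟩ := exists_hist A (w27 _) ((w27_wt (K := AlgebraicClosure (ZMod p))).symm ▸ tab6_11) hz
    (Q := q6_11) alc6_11 h1
  have a4 := a2 1 0 (by norm_num)
  rw [show H 1 = 27 by simpa [q6_11, a3 1 2 h4] using a1, pow_zero z, pow_one] at a4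
  exact h2 (eq_one_of_finrank A (w27 _) h0 h1 a4.symm)

end CL.AltE
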