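/-
Groups without small representations in the centraliser of a torus element.
-/
import Cfsg.Agent.KSG.AltE8b

set_option autoImplicit false

namespace CL.AltE

open Function Finset Module CL.Chev
open Matrix hiding zpow_add zpow_mul zpow_sub one_zpow

/-- all representations of degree at most `m` are trivial -/
def Triv (K L : Type*) [Field K] [Group L] (m : ℕ) : Prop :=
  ∀ (V : Type) [AddCommGroup V] [Module K V] [FiniteDimensional K V] (ρ : L →* End K V), finrank K V ≤ m → ∀ g, ρ g = 1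

variable {K : Type} {L : Type*} [Field K] [Group L]

section Blocks

variable {I : Type} [Fintype I] [DecidableEq I] {m : ℕ} (h : Triv K L m)
include h

theorem Triv.diag (ρ : L →* Matrix I I K) (β : I → ℤ) (hβ : ∀ l i k, β i ≠ β k → ρ l i k = 0) {k : I}
    (hk : #{i | β i = β k} ≤ m) (l : L) : ρ l k k = 1 := by
  have := h _ ((toEnd {i // β i = β k} K).comp (subHom ρ Subtype.val_injective
    fun g i j hi => hβ g i j fun e => hi ⟨⟨i, e.trans j.2⟩, rfl⟩))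
    (by rwa [finrank_fintype_fun_eq_card, Fintype.card_subtype]) l
  exact (congrFun (congrFun (toEnd_injective (this.trans (map_one _).symm)) ⟨k, rfl⟩) ⟨k, rfl⟩).trans (one_apply_eq _)

theorem Triv.conj_eq {Γ : Type} [Group Γ] (hm : 9 ≤ m) (ι : L →* Γ) (ρ : Γ →* Matrix I I K) {Y B : Subgroup Γ}
    (hY : Y ≤ B) (hB : ∀ a ∈ B, ∀ y ∈ Y, a * y * a⁻¹ ∈ Y)
    (hl : ∀ l, ∃ a ∈ B, ∀ y ∈ Y, ι l * y * (ι l)⁻¹ = a * y * a⁻¹) (β : I → ℤ)
    (hβ : ∀ a ∈ B, ∀ i k, β i ≠ β k → ρ a i k = 0) (hc : ∀ k, #{i | β i = β k} ≤ 3) (l : L) {y : Γ} (hy : y ∈ Y) :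
    ρ (ι l * y * (ι l)⁻¹) = ρ y := by
  have h1 : ∀ l, ∀ y ∈ Y, ι l * y * (ι l)⁻¹ ∈ Y := fun l y hy => by
    obtain ⟨a, ha, e⟩ := hl l
    exact e y hy ▸ hB a ha y hy
  ext i k
  by_cases e : β i = β k
  swap
  · rw [hβ _ (hY hy) _ _ e, hβ _ (hY (h1 l y hy)) _ _ e]
  let τ := subHom (ρ.comp B.subtype) (Subtype.val_injective (p := fun i => β i = β k))
    fun g i j hi => hβ g g.2 i j fun e => hi ⟨⟨i, e.trans j.2⟩, rfl⟩
  let Φ : Dual K (Matrix {i // β i = β k} {i // β i = β k} K) →ₗ[K] Y → K :=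
    LinearMap.pi fun y => LinearMap.applyₗ (τ ⟨y, hY y.2⟩)
  let α : Representation K L (Y → K) :=
    { toFun := fun l => LinearMap.funLeft K K fun y => ⟨_, h1 l⁻¹ y y.2⟩
      map_one' := by ext; simp [LinearMap.funLeft]
      map_mul' := fun a b => by ext; simp [LinearMap.funLeft, mul_assoc] }
  have h2 : ∀ l, LinearMap.range Φ ≤ (LinearMap.range Φ).comap (α l) := fun l => by
    rintro _ ⟨f, rfl⟩
    obtain ⟨a, ha, e⟩ := hl l⁻¹
    refine ⟨f ∘ₗ LinearMap.mulLeftRight K (τ ⟨a, ha⟩, τ ⟨a, ha⟩⁻¹), funext fun y => ?_⟩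
    change f (_ * _ * _) = f _
    rw [← map_mul, ← map_mul]
    exact congrArg (fun x => f (τ x)) (Subtype.ext (e y y.2).symm)
  have h3 := h _ (α.subrepresentation _ h2) (Φ.finrank_range_le.trans (by
    rw [Subspace.dual_finrank_eq, finrank_matrix, Fintype.card_subtype, finrank_self]
    have := hc k
    nlinarith)) l⁻¹
  have h4 := congrFun (congrArg Subtype.val (LinearMap.congr_fun h3
    ⟨Φ (entryLinearMap K K ⟨i, e⟩ ⟨k, rfl⟩), _, rfl⟩)) ⟨y, hy⟩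
  change ρ (ι l⁻¹⁻¹ * y * (ι l⁻¹⁻¹)⁻¹) i k = ρ y i k at h4
  rwa [inv_inv] at h4

end Blocks

variable {ι κ : Type*} [Fintype κ] [DecidableEq κ] {R : RootSys ι κ} {Γ : Type} [Group Γ] {S : StData R K Γ}

theorem WRep.graded' {h3 : S.R3} {N : ℕ} (W : WRep h3 N) {M : Matrix (Fin N) (Fin N) K} {b : κ → ℤ} [Infinite K]
    (h : ∀ y : Kˣ, Commute (W.ρ (h3.torHom fun i => y ^ b i)) M) {i k : Fin N}
    (hb : b ⬝ᵥ W.wt i ≠ b ⬝ᵥ W.wt k) : M i k = 0 := by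
  by_contra h0
  have : NeZero (b ⬝ᵥ W.wt i - b ⬝ᵥ W.wt k).natAbs := ⟨by omega⟩
  have h1 : rootsOfUnity (b ⬝ᵥ W.wt i - b ⬝ᵥ W.wt k).natAbs K = ⊤ := eq_top_iff.2 fun y _ => by
    have h2 := congrFun (congrFun (h y).eq i) k
    rw [W.tor, diagonal_mul, mul_diagonal, mul_comm, uchr_zpow_const, uchr_zpow_const] at h2
    rw [mem_rootsOfUnity, pow_natAbs_eq_one, zpow_sub, Units.ext (mul_left_cancel₀ h0 h2), mul_inv_cancel]
  have h2 : Finite (⊤ : Subgroup Kˣ) := h1 ▸ inferInstance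
  have h4 : Finite Kˣ := Finite.of_equiv _ Subgroup.topEquiv.toEquiv
  exact not_finite_iff_infinite.2 ‹Infinite K› (Finite.of_surjective (fun x : Option Kˣ => x.elim (0 : K) Units.val)
    fun x => by
      by_cases e : x = 0
      exacts [⟨none, e.symm⟩, ⟨some (Units.mk0 x e), rfl⟩])

variable [Finite ι] [IsAlgClosed K] {φ : K →+* K} {q : ℕ} {σ : Monoid.End Γ} (A : S.Alg φ q σ) {N : ℕ}
  (W : WRep A.r3 N) (h : Triv K L 10) {j : L →* Γ}
include h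

omit [Finite ι] in
theorem uchr_eq_one {b : κ → ℤ} (hb : ∀ l (y : Kˣ), Commute (W.ρ (A.r3.torHom fun i => y ^ b i)) (W.ρ (j l)))
    {k : Fin N} (hk : #{i | b ⬝ᵥ W.wt i = b ⬝ᵥ W.wt k} ≤ 10) {l : L} {s : κ → Kˣ} (e : j l = A.r3.torHom s) :
    uchr s (W.wt k) = 1 := by
  have := h.diag (W.ρ.comp j) _ (fun l i k => W.graded' (hb l)) hk l
  rwa [MonoidHom.comp_apply, e, W.tor, diagonal_apply_eq, Units.val_eq_one] at this

omit h [IsAlgClosed K] in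
theorem comm_of_orth {T : Set ι} {b : κ → ℤ} (hb : ∀ r ∈ T, b ⬝ᵥ R.wt r = 0) {g : Γ} (hg : g ∈ S.XS T ⊔ S.H) (y : Kˣ) :
    Commute (W.ρ (A.r3.torHom fun i => y ^ b i)) (W.ρ g) := by
  have h1 : T ⊆ R.Phi fun i => y ^ b i := fun r hr => (uchr_zpow_const _ _ _).trans (by rw [hb r hr, zpow_zero])
  have h2 : Commute g _ := Subgroup.mem_centralizer_singleton_iff.1
    (A.r3.XS_Phi_le A.good _ (sup_le_sup_right (S.XS_mono h1) _ hg))
  exact h2.symm.map W.ρ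

variable {t : κ → Kˣ} (hj : ∀ l, j l ∈ Subgroup.centralizer {A.r3.torHom t})
include hj

theorem caseD {b : κ → ℤ} (hb : ∀ r ∈ R.Phi t, b ⬝ᵥ R.wt r = 0) {k : Fin N}
    (hk : #{i | b ⬝ᵥ W.wt i = b ⬝ᵥ W.wt k} ≤ 10) {l : L} {s : κ → Kˣ} (e : j l = A.r3.torHom s) :
    uchr s (W.wt k) = 1 :=
  uchr_eq_one A W h (fun l => comm_of_orth A W hb (A.centralizer_torHom t ▸ hj l)) hk e

theorem caseA {θ : ι} (hθ : ∀ r ∈ R.Phi t, r = θ ∨ r = R.neg θ ∨ R.NoComb r θ ∧ R.NoComb r (R.neg θ)) {b : κ → ℤ}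
    (hb : b ⬝ᵥ R.wt θ = 0) (hc : ∀ k, #{i | b ⬝ᵥ W.wt i = b ⬝ᵥ W.wt k} ≤ 3) {k : Fin N}
    (hk : #{i | R.co θ ⬝ᵥ W.wt i = R.co θ ⬝ᵥ W.wt k} ≤ 10) {l : L} {s : κ → Kˣ} (e : j l = A.r3.torHom s) :
    uchr s (W.wt k) = 1 := by
  have hB : ∀ a ∈ S.XS {θ, R.neg θ} ⊔ S.H, ∀ y ∈ S.XS {θ, R.neg θ}, a * y * a⁻¹ ∈ S.XS {θ, R.neg θ} :=
    fun a ha y hy => (Subgroup.mem_normalizer_iff.1
      (sup_le Subgroup.le_normalizer (S.H_le_normalizer_XS _) ha) y).1 hy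
  let P : Subgroup Γ :=
    { carrier := {g | ∃ a ∈ S.XS {θ, R.neg θ} ⊔ S.H, ∀ y ∈ S.XS {θ, R.neg θ}, g * y * g⁻¹ = a * y * a⁻¹}
      one_mem' := ⟨1, one_mem _, fun _ _ => rfl⟩
      mul_mem' := by
        rintro g g' ⟨a, ha, e⟩ ⟨a', ha', e'⟩
        refine ⟨_, mul_mem ha ha', fun y hy => ?_⟩
        have := e _ (hB a' ha' y hy)
        rw [← e' y hy] at this
        calc _ = g * (g' * y * g'⁻¹) * g⁻¹ := by group
          _ = _ := by rw [this, e' y hy]; group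
      inv_mem' := by
        rintro g ⟨a, ha, e⟩
        refine ⟨_, inv_mem ha, fun y hy => ?_⟩
        calc _ = g⁻¹ * (a * (a⁻¹ * y * a⁻¹⁻¹) * a⁻¹) * g := by group
          _ = _ := by rw [← e _ (hB _ (inv_mem ha) y hy)]; group }
  have hP : S.XS (R.Phi t) ⊔ S.H ≤ P := by
    refine sup_le (S.XS_le_iff.2 fun r hr u => ?_) fun a ha => ⟨a, Subgroup.mem_sup_right ha, fun _ _ => rfl⟩
    rcases hθ r hr with rfl | rfl | c
    · exact ⟨_, Subgroup.mem_sup_left (S.x_mem_XS (by simp) u), fun _ _ => rfl⟩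
    · exact ⟨_, Subgroup.mem_sup_left (S.x_mem_XS (by simp) u), fun _ _ => rfl⟩
    · refine ⟨1, one_mem _, fun y hy => ?_⟩
      have := Subgroup.mem_bot.1 (S.commutator_XS_le (A := {θ, R.neg θ}) (B := {r}) (K := ⊥)
        (by rintro _ (rfl | rfl) _ rfl; exacts [c.1.symm.1, c.2.symm.1])
        (le_top.trans (Subgroup.normalizer_eq_top ⊥).ge) (le_top.trans (Subgroup.normalizer_eq_top ⊥).ge)
        (by rintro _ (rfl | rfl) _ rfl k hk; exacts [absurd hk (c.1.symm.2 k), absurd hk (c.2.symm.2 k)])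
        (Subgroup.commutator_mem_commutator (S.x_mem_XS (Set.mem_singleton r) u) hy))
      rw [(commutatorElement_eq_one_iff_commute.1 this).eq]; group
  refine uchr_eq_one A W h (fun l y => ?_) hk e
  have h1 : ∀ r ∈ ({θ, R.neg θ} : Set ι), b ⬝ᵥ R.wt r = 0 := by
    rintro _ (rfl | rfl); exacts [hb, by rw [R.wt_neg', dotProduct_neg, hb, neg_zero]]
  have h2 : ∀ l, j l ∈ P := fun l => hP (A.centralizer_torHom t ▸ hj l)
  have := h.conj_eq (by norm_num) j W.ρ le_sup_left hB h2 (fun i => b ⬝ᵥ W.wt i)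
    (fun a ha i k => W.graded' (comm_of_orth A W h1 ha)) hc l
    (S.h_mem_XS (T := {θ, R.neg θ}) (r := θ) (by simp) (by simp) y)
  rw [A.r3.h_eq_torHom] at this
  rw [Commute, SemiconjBy, ← this, ← map_mul, inv_mul_cancel_right, map_mul, this]

end CL.AltE
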