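/-
Alternating sections of `E₆`.
-/
import Cfsg.Agent.KSG.AltE6b
import Cfsg.Agent.PLOC.PNormal

set_option autoImplicit false
set_option backward.isDefEq.respectTransparency false

namespace CL.AltE

open Function Finset Module CL.Chev Cfsg.Lie Multiplicative Equiv Equiv.Perm
open Matrix hiding zpow_add zpow_mul zpow_sub one_zpow

theorem no_central {K : Type} {L : Type*} [Field K] [Group L] [IsAlgClosed K] {φ : K →+* K} {q : ℕ}
    {σ : Monoid.End (chevE6.SteinbergGroup K)} (A : (stS chevE6 K).Alg φ q σ) (h : Triv K L 10)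
    {j : L →* chevE6.SteinbergGroup K} (hj : Injective j) {z g : L} (hz : z ∈ Subgroup.center L) (h2 : z ^ 2 = 1)
    (h1 : z ≠ 1) {n : ℕ} (hn : Odd n) (hg : g ^ n = 1) (h0 : ((n * 2 : ℕ) : K) ≠ 0) : g = 1 := by
  have hc : Commute g z := Subgroup.mem_center_iff.1 hz g
  have h3 : (g * z) ^ n = z := by
    obtain ⟨k, rfl⟩ := hn
    rw [hc.mul_pow, hg, one_mul, pow_succ, pow_mul, h2, one_pow, one_mul]
  obtain ⟨y, u, e, hu⟩ := exists_tor A h0 (g := j (g * z)) (by rw [← map_pow, pow_mul, h3, h2, map_one])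
  let j' := (MulAut.conj y).toMonoidHom.comp j
  have hj' : Injective j' := (MulAut.conj y).injective.comp hj
  replace e : j' (g * z) = _ := e
  have ez : j' z = A.r3.torHom (u ^ n) := by rw [map_pow, ← e, ← map_pow, h3]
  have eg : j' g = A.r3.torHom (u * (u ^ n)⁻¹) := by rw [map_mul, map_inv, ← e, ← ez, map_mul, mul_inv_cancel_right]
  obtain ⟨m, hm, h4⟩ := (by decide +kernel : ∀ a : Fin 6 → Bool, ∃ m < 64, ∀ i, bit m i = if a i then 0 else 1)
    fun i => by classical exact decide ((u ^ n) i = 1)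
  have h5 : u ^ n = fun i => (-1) ^ bit m i := funext fun i => by
    rw [h4]
    split_ifs with c
    · simpa using c
    · have a : (((u ^ n) i : Kˣ) : K) ^ 2 = 1 := by
        rw [← Units.val_pow_eq_pow_val, ← Pi.pow_apply, ← pow_mul, hu]; rfl
      rw [zpow_one]
      exact Units.ext ((sq_eq_one_iff.1 a).resolve_left fun e => c (by simpa using Units.ext e))
  have h6 : ∀ x, uchr (u ^ n) x = 1 → bit m ⬝ᵥ x % 2 = 0 := fun x hx => by
    by_contra c
    rw [h5] at hx
    replace hx := (uchr_zpow_const (-1 : Kˣ) (bit m) x).symm.trans hx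
    rw [Odd.neg_one_zpow (Int.odd_iff.2 (by omega))] at hx
    have hx' : (-1 : K) = 1 := congrArg Units.val hx
    exact h0 (by push_cast; linear_combination (-n : K) * hx')
  have h7 : ∀ l, j' l ∈ Subgroup.centralizer {A.r3.torHom (u ^ n)} := fun l =>
    Subgroup.mem_centralizer_singleton_iff.2 (by rw [← ez, ← map_mul, ← map_mul, Subgroup.mem_center_iff.1 hz l])
  have h8 : ∀ r, (rootSys chevE6).wt r = wt6 r := fun r => funext (rootSys_wt' r)
  rcases tz_ok m hm with rfl | c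
  · exact absurd (hj' (ez.trans (by rw [h5, map_one, ← map_one A.r3.torHom]; congr 1; ext i; simp [bit]))) h1
  rcases c _ (List.mem_singleton_self _) with ⟨c1, c2, c3, c4, c5⟩ | ⟨c1, c2⟩
  · generalize Fin.ofNat 72 _ = θ at c1 c2 c4
    have a1 : (rootSys chevE6).co θ = rt6 θ := funext (rs6 θ).2.1
    have a2 : ∀ r, (rootSys chevE6).Long r := fun r k => by rw [(rs6 r).2.2, (rs6 k).2.2]
    refine absurd (h6 _ (caseA A (w27 K) h h7 (θ := θ) (fun r hr => (c1 r (h8 r ▸ h6 _ hr)).imp_right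
      (Or.imp (fun e => e.trans (rs6 θ).1.symm) fun e => ?_)) (by rwa [h8]) (by rwa [w27_wt]) (by rwa [w27_wt, a1]) ez))
      (by rwa [w27_wt])
    have a3 : (rootSys chevE6).pair θ r = 0 := by rwa [← a1, ← h8] at e
    exact ⟨((a2 _).noComb a3.ge).symm, ((a2 _).noComb (by rw [RootSys.pair_neg_left, a3, neg_zero])).symm⟩
  · have a1 : (u * (u ^ n)⁻¹) ^ 2 = 1 := funext fun i => pow_eq_one_of_cert (c2 i).1 fun x hx => w27_wt (K := K) ▸
      caseD A (w27 K) h h7 (fun r hr => h8 r ▸ c1 r (h8 r ▸ h6 _ hr)) (by rw [w27_wt]; exact (c2 i).2 x hx) eg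
    have a2 : g ^ 2 = 1 := hj' (by rw [map_pow, eg, ← map_pow, a1, map_one, map_one])
    obtain ⟨k, rfl⟩ := hn
    rwa [pow_succ, pow_mul, a2, one_pow, one_mul] at hg

theorem exists_toSylow {A E : Type*} [Group A] [Finite A] [Group E] {r : ℕ} [Fact r.Prime] (S : Sylow r A)
    (φ : E →* A) (h : ∀ e : E, e ^ r = 1) : ∃ ψ : E →* S, ∀ e, IsConj (φ e) (ψ e) := by
  obtain ⟨P, hP⟩ := (IsPGroup.of_surjective (p := r) (fun e => ⟨1, by rw [pow_one, h]⟩) _
    φ.rangeRestrict_surjective).exists_le_sylow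
  obtain ⟨g, rfl⟩ := MulAction.exists_smul_eq A P S
  exact ⟨((MulAut.conj g).toMonoidHom.comp φ).codRestrict _ fun e =>
    Subgroup.smul_mem_pointwise_smul _ _ _ (hP ⟨e, rfl⟩), fun e => isConj_iff.2 ⟨g, rfl⟩⟩

theorem isConj_two {x y : alternatingGroup (Fin 12)}
    (h : x.1 ^ 2 = 1 ∧ y.1 ^ 2 = 1 ∧ x.1.support.card = y.1.support.card ∧ x.1 10 = 10 ∧ x.1 11 = 11) : IsConj x y :=
  CL.KSG.isConj_alt_of_commute_odd (isConj_perm h.1 h.2.1 h.2.2.1) (swap 10 11) (by simp) (Disjoint.commute fun a => by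
    by_cases e : a = 10 ∨ a = 11
    · exact Or.inr (by rcases e with rfl | rfl; exacts [h.2.2.2.1, h.2.2.2.2])
    · exact Or.inl (swap_apply_of_ne_of_ne (not_or.1 e).1 (not_or.1 e).2))

/-- two four groups -/
def v16 : Multiplicative (Fin 4 → ZMod 2) →* alternatingGroup (Fin 12) := MonoidHom.mk' (fun s =>
  ⟨(swap 0 1 * swap 2 3) ^ (s.toAdd 0).val * (swap 0 2 * swap 1 3) ^ (s.toAdd 1).val *
    (swap 4 5 * swap 6 7) ^ (s.toAdd 2).val * (swap 4 6 * swap 5 7) ^ (s.toAdd 3).val, by simp⟩) (by decide +kernel)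

/-- a regular group of order eight -/
def v8 : Multiplicative (Fin 3 → ZMod 2) →* alternatingGroup (Fin 12) := MonoidHom.mk' (fun s =>
  ⟨(swap 0 1 * swap 2 3 * (swap 4 5 * swap 6 7)) ^ (s.toAdd 0).val *
    (swap 0 2 * swap 1 3 * (swap 4 6 * swap 5 7)) ^ (s.toAdd 1).val *
    (swap 0 4 * swap 1 5 * (swap 2 6 * swap 3 7)) ^ (s.toAdd 2).val, by simp⟩) (by decide +kernel)

section Inv

variable {K L : Type*} {V : Type} [Field K] [IsAlgClosed K] [AddCommGroup V] [Module K V] [FiniteDimensional K V]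
  [Group L] [Finite L] {f : L →* alternatingGroup (Fin 12)} (hf : Min f) (h0 : ((2 : ℕ) : K) ≠ 0) (ρ : L →* End K V)
  (hV : finrank K V = 27)
  (h4 : ∀ x : L, x ^ 2 = 1 → x ≠ 1 → finrank K ((ρ x).eigenspace 1) = 15 ∨ finrank K ((ρ x).eigenspace 1) = 11)
include hf h0 hV h4

theorem two_dvd_ker : 2 ∣ Nat.card f.ker := by
  by_contra hk
  obtain ⟨S⟩ : Nonempty (Sylow 2 (alternatingGroup (Fin 12))) := inferInstance
  obtain ⟨ι, i1, i2⟩ := exists_lift hf.1 hk S S.2
  obtain ⟨ψ, b1⟩ := exists_toSylow S v16 pow_r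
  obtain ⟨χ, b2⟩ := exists_toSylow S v8 pow_r
  let d : S → ℕ := fun x => finrank K ((ρ (ι x)).eigenspace 1)
  have c1 : ∀ x y : S, IsConj x.1 y.1 → d x = d y := fun x y h => finrank_conj ρ (i2 x y h) 1
  have c2 : ∀ s, v16 s ≠ 1 → d (ψ s) = 15 ∨ d (ψ s) = 11 := fun s hs => h4 _
    (by rw [← map_pow, ← map_pow, pow_r, map_one, map_one]) fun e =>
      hs (isConj_one_left.1 ((b1 s).trans (by rw [← i1, e, map_one])))
  have c3 := sum_eig (ρ.comp (ι.comp ψ)) mul_comm h0 pow_r 1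
  have c4 := sum_eig (ρ.comp (ι.comp χ)) mul_comm h0 pow_r 1
  let t : ℕ → Multiplicative (Fin 4 → ZMod 2) := fun k => ofAdd ![if k = 0 then 0 else 1, 0, if k = 2 then 1 else 0, 0]
  have c5 : ∀ s, d (ψ s) = d (ψ (t ((v16 s).1.support.card / 4))) := fun s =>
    c1 _ _ ((b1 _).symm.trans ((isConj_two (by clear * - s; revert s; decide +kernel)).trans (b1 _)))
  have c6 : ∀ s, d (χ s) = d (ψ (t ((v8 s).1.support.card / 4))) := fun s =>
    c1 _ _ ((b2 _).symm.trans ((isConj_two (by clear * - s; revert s; decide +kernel)).trans (b1 _)))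
  have c7 : d (ψ (t 0)) = 27 := by
    rw [show t 0 = 1 by decide, ← hV, ← finrank_top, show (⊤ : Submodule K V) = (ρ (ι (ψ 1))).eigenspace 1 from
      (eq_top_iff.2 fun v _ => End.mem_eigenspace_iff.2 (by simp)).symm]
  have c8 := sum_code (fun s => (v16 s).1.support.card / 4) (M := 3) (by decide +kernel) fun k => d (ψ (t k))
  have c9 := sum_code (fun s => (v8 s).1.support.card / 4) (M := 3) (by decide +kernel) fun k => d (ψ (t k))
  rw [← sum_congr rfl fun s _ => c5 s, sum_range_succ, sum_range_succ, sum_range_one, c7,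
    show #{s | (v16 s).1.support.card / 4 = 0} = 1 by decide +kernel,
    show #{s | (v16 s).1.support.card / 4 = 1} = 6 by decide +kernel,
    show #{s | (v16 s).1.support.card / 4 = 2} = 9 by decide +kernel] at c8
  rw [← sum_congr rfl fun s _ => c6 s, sum_range_succ, sum_range_succ, sum_range_one, c7,
    show #{s | (v8 s).1.support.card / 4 = 0} = 1 by decide +kernel,
    show #{s | (v8 s).1.support.card / 4 = 1} = 0 by decide +kernel,
    show #{s | (v8 s).1.support.card / 4 = 2} = 7 by decide +kernel] at c9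
  change 2 * ∑ s, d (ψ s) = _ at c3
  change 2 * ∑ s, d (χ s) = _ at c4
  have := c2 (t 1) (by decide +kernel)
  have := c2 (t 2) (by decide +kernel)
  simp only [Fintype.card_multiplicative, Fintype.card_fun, ZMod.card, Fintype.card_fin, hV] at c3 c4
  omega

theorem exists_central : ∃ z ∈ Subgroup.center L, z ^ 2 = 1 ∧ z ≠ 1 := by
  obtain ⟨P⟩ : Nonempty (Sylow 2 f.ker) := inferInstance
  have := hf.normal (CL.Fus.sylIn_map_subtype P)
  have := (Subgroup.nontrivial_iff_ne_bot _).2 (P.ne_bot_of_dvd_card (two_dvd_ker hf h0 ρ hV h4))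
  obtain ⟨w, -, w1, w2⟩ := CL.PN.exists_mem_center_orderOf_eq P.2 ⊤ top_ne_bot
  set Q := P.1.map f.ker.subtype
  let E : Subgroup L :=
    { carrier := {x | x ∈ Q ⊓ Subgroup.centralizer Q ∧ x ^ 2 = 1}
      one_mem' := ⟨one_mem _, one_pow _⟩
      mul_mem' := fun a b => ⟨mul_mem a.1 b.1, by rw [Commute.mul_pow (b.1.2 _ a.1.1), a.2, b.2, one_mul]⟩
      inv_mem' := fun a => ⟨inv_mem a.1, by rw [inv_pow, a.2, inv_one]⟩ }
  have : E.Normal := ⟨fun x a g => ⟨Subgroup.Normal.conj_mem inferInstance x a.1 g, by rw [conj_pow, a.2]; simp⟩⟩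
  have := Fintype.ofFinite E
  have a1 := card_le_of_two (ρ.comp E.subtype) (fun a b => Subtype.ext (b.2.1.2 _ a.2.1.1)) h0
    (fun e => Subtype.ext e.2.2) hV fun e he => h4 e e.2.2 fun c => he (Subtype.ext c)
  have a2 := hf.le_center (by norm_num) (P := E) (r := 2) (fun e => ⟨1, Subtype.ext e.2.2⟩) (m := 9)
    ((Nat.le_of_dvd Nat.card_pos (Subgroup.index_dvd_card _)).trans (by rw [Nat.card_eq_fintype_card]; omega))
    (by norm_num)
  have a3 : w.1.1 ^ 2 = 1 := congrArg (·.1.1) (orderOf_dvd_iff_pow_eq_one.1 w2.dvd)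
  refine ⟨_, a2 ⟨⟨⟨_, w.2, rfl⟩, ?_⟩, a3⟩, a3, fun e => ?_⟩
  · rintro _ ⟨x, hx, rfl⟩
    exact congrArg (·.1.1) (Subgroup.mem_center_iff.1 w1 ⟨x, hx⟩)
  · rw [show w = 1 from Subtype.ext (Subtype.ext e), orderOf_one] at w2; omega

end Inv

variable {F : Type*} [Field F] [Fintype F] (p : ℕ) [hp : Fact p.Prime] [CharP F p]

attribute [local instance] fact7 fact11

theorem not_sec_E6 (h2 : p ≠ 2) (h3 : p ≠ 3) : ¬ Sec (chevE6.group F) 12 := fun hs => by
  have := finite_st (D := chevE6) (by simp) F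
  obtain ⟨L, f, hf⟩ := (hs.of_surjective _ thetaS_surjective).exists_min
  obtain ⟨j, hj⟩ := exists_emb (D := chevE6) (by simp) (F := F) p
  obtain ⟨φ, A, -⟩ := exists_alg_st (D := chevE6) (F := ZMod p) (by simp)
  obtain ⟨h0, z, hz⟩ := exists_root p (n := 2) fun e => h2 ((Nat.prime_dvd_prime_iff_eq hp.out Nat.prime_two).1 e)
  replace hj : Injective (j.comp L.subtype) := hj.comp L.subtype_injective
  generalize j.comp L.subtype = j at hj
  obtain ⟨w, w1, w2, w3⟩ := exists_central hf h0 ((w27 _).E.comp j) (by simp) fun x hx h1 => by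
    have a0 : j x ^ 2 = 1 := by rw [← map_pow, hx, map_one]
    obtain ⟨H, a1, a2, -⟩ := exists_hist A (w27 _) ((w27_wt (K := AlgebraicClosure (ZMod p))).symm ▸ tab6_2) hz
      (Q := q6_2) alc6_2 a0
    have a4 := a2 1 0 (by norm_num)
    rw [pow_zero, pow_zero, pow_one, Nat.div_one] at a4
    rw [q6_2, a4] at a1
    rw [MonoidHom.comp_apply]
    exact (show _ = 27 ∨ _ by simpa using a1).resolve_left fun e =>
      h1 (hj ((eq_one_of_finrank A (w27 _) h0 a0 e).trans (map_one j).symm))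
  have h12 : ¬ p ∣ 12 := fun e => ((Nat.Prime.dvd_mul hp.out).1 (show p ∣ 2 ^ 2 * 3 from e)).elim
    (fun e => h2 ((Nat.prime_dvd_prime_iff_eq hp.out Nat.prime_two).1 (hp.out.dvd_of_dvd_pow e)))
    fun e => h3 ((Nat.prime_dvd_prime_iff_eq hp.out Nat.prime_three).1 e)
  have a4 : ∀ r, [Fact r.Prime] → r ≠ p → 2 < r → r ≤ 12 → False := fun r hr b1 b2 b3 => by
    obtain ⟨g, ⟨k, c1⟩, c2⟩ := exists_pow hf.1 (dvd_card_alt hr.out b2 b3)
    refine c2 ((congrArg f (no_central A (fun V _ _ _ τ hV => hf.triv (by norm_num) p τ (by rw [if_neg h12]; omega)) hj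
      w1 w2 w3 ((hr.out.odd_of_ne_two b2.ne').pow) c1 ?_)).trans (map_one f))
    rw [Nat.cast_mul, Nat.cast_pow]
    exact mul_ne_zero (pow_ne_zero _ (exists_root p fun e =>
      b1 ((Nat.prime_dvd_prime_iff_eq hp.out hr.out).1 e).symm).1) h0
  by_cases h7 : p = 7
  exacts [a4 11 (by omega) (by norm_num) (by norm_num), a4 7 (Ne.symm h7) (by norm_num) (by norm_num)]

end CL.AltE
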