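import Mathlib
import Cfsg.Agent.KSG.AltGlue
import Cfsg.Agent.KSG.Pres
import Cfsg.Agent.KSG.PrimeGap

/-!
Presentations of the alternating and symmetric groups with boundedly many relators
(after Guralnick, Kantor, Kassabov and Lubotzky).
-/

set_option autoImplicit false
set_option maxHeartbeats 400000

namespace CL.KSG

open Equiv Equiv.Perm Subgroup

variable {α : Type*} [Fintype α] [DecidableEq α] {J : Type*} [Group J]

/-- The affine group of the line over `ZMod p` inside the alternating group on `p + 2` points. -/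
structure Agl {p : ℕ} (pt : ZMod p ↪ α) (c₁ c₂ : α) (Δ : Finset α) (r : ZMod p) (ε : ℤ)
    (ab bb : Perm α) : Prop where
  hc : c₁ ≠ c₂
  pt1 : ∀ i, pt i ≠ c₁
  pt2 : ∀ i, pt i ≠ c₂
  mem : ∀ x, x ∈ Δ ↔ (∃ i, pt i = x) ∨ x = c₁ ∨ x = c₂
  hr : ∀ u, u ≠ 0 → ∃ k : ℕ, r ^ k = u
  hr1 : r ≠ 1
  hε : ε = 1 ∨ ε = -1
  ab_mem : ab ∈ altOn Δ
  bb_mem : bb ∈ altOn Δ
  ab_tri : ∀ i, ab * tri c₁ c₂ (pt i) * ab⁻¹ = tri c₁ c₂ (pt (i + 1))
  bb_tri : ∀ i, bb * tri c₁ c₂ (pt i) * bb⁻¹ = tri c₁ c₂ (pt (r * i)) ^ ε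
  ab_pow : ab ^ p = 1
  bb_ab : bb * ab * bb⁻¹ = ab ^ r.val

theorem addRight_one_pow {R : Type*} [Ring R] (k : ℕ) :
    Equiv.addRight (1 : R) ^ k = Equiv.addRight (k : R) := by
  induction k with
  | zero => ext; simp
  | succ k ih => ext; simp [pow_succ', ih, add_assoc]

theorem exists_agl {p : ℕ} (hp : p.Prime) (h3 : 3 ≤ p) (pt : ZMod p ↪ α) {c₁ c₂ : α} {Δ : Finset α}
    (hc : c₁ ≠ c₂) (pt1 : ∀ i, pt i ≠ c₁) (pt2 : ∀ i, pt i ≠ c₂)
    (mem : ∀ x, x ∈ Δ ↔ (∃ i, pt i = x) ∨ x = c₁ ∨ x = c₂) :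
    ∃ r ε ab bb, Agl pt c₁ c₂ Δ r ε ab bb := by
  have : Fact p.Prime := ⟨hp⟩
  obtain ⟨r, hr⟩ := IsCyclic.exists_monoid_generator (α := (ZMod p)ˣ)
  have hr' : ∀ u : ZMod p, u ≠ 0 → ∃ k : ℕ, (r : ZMod p) ^ k = u := fun u hu => by
    obtain ⟨k, hk⟩ := hr (Units.mk0 u hu)
    exact ⟨k, by simpa using congrArg Units.val hk⟩
  have hfix : ∀ (σ : Perm (ZMod p)) x, (¬ ∃ i, pt i = x) → viaEmbeddingHom pt σ x = x :=
    fun σ x hx => viaEmbedding_apply_of_notMem _ _ _ hx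
  have hf1 : ∀ σ, viaEmbeddingHom pt σ c₁ = c₁ := fun σ => hfix σ _ fun ⟨i, h⟩ => pt1 i h
  have hf2 : ∀ σ, viaEmbeddingHom pt σ c₂ = c₂ := fun σ => hfix σ _ fun ⟨i, h⟩ => pt2 i h
  have hon : ∀ σ, viaEmbeddingHom pt σ ∈ permOn Δ := fun σ =>
    mem_permOn.2 fun x hx => hfix σ x fun h => hx ((mem x).2 (Or.inl h))
  have happ : ∀ σ i, viaEmbeddingHom pt σ (pt i) = pt (σ i) := fun σ i => viaEmbedding_apply _ _ _
  obtain ⟨θ, ε, hθ, hA⟩ := exists_twist (viaEmbeddingHom pt r.mulLeft) hc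
  have hpow : viaEmbeddingHom pt (Equiv.addRight 1) ^ p = 1 := by
    rw [← map_pow, addRight_one_pow, ZMod.natCast_self, Equiv.addRight_zero, map_one]
  refine ⟨r, ε, viaEmbeddingHom pt (Equiv.addRight 1), viaEmbeddingHom pt r.mulLeft * θ,
    hc, pt1, pt2, mem, hr', fun h => ?_, hθ.imp And.right And.right, ⟨hon _, ?_⟩,
    ⟨mul_mem (hon _) ?_, hA⟩, fun i => ?_, fun i => ?_, hpow, ?_⟩
  · have h2 : (2 : ZMod p) ≠ 0 := by
      rw [show (2 : ZMod p) = ((2 : ℕ) : ZMod p) by simp, Ne, ZMod.natCast_eq_zero_iff]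
      exact fun h => by have := Nat.le_of_dvd two_pos h; omega
    obtain ⟨k, hk⟩ := hr' 2 h2
    rw [h, one_pow] at hk
    exact one_ne_zero (α := ZMod p) (by linear_combination -hk)
  · have := congrArg sign hpow
    rw [map_pow, map_one] at this
    refine mem_alternatingGroup.2 ?_
    rcases Int.units_eq_one_or (sign (viaEmbeddingHom pt (Equiv.addRight 1))) with h | h
    · exact h
    · rw [h, (hp.odd_of_ne_two (by omega)).neg_one_pow] at this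
      exact absurd this (by decide)
  · rcases hθ with ⟨rfl, -⟩ | ⟨rfl, -⟩
    · exact one_mem _
    · exact swap_mem_permOn ((mem _).2 (Or.inr (Or.inl rfl))) ((mem _).2 (Or.inr (Or.inr rfl)))
  · rw [conj_tri, hf1, hf2, happ]; rfl
  · rw [conj_tri_twist hc (pt1 i) (pt2 i) (hf1 _) (hf2 _) hθ, happ]; rfl
  · have h1 : θ * viaEmbeddingHom pt (Equiv.addRight 1) * θ⁻¹ =
        viaEmbeddingHom pt (Equiv.addRight 1) := by
      rcases hθ with ⟨rfl, -⟩ | ⟨rfl, -⟩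
      · simp
      · rw [mul_inv_eq_iff_eq_mul, mul_swap_eq_swap_mul, hf1, hf2]
    rw [mul_inv_rev, mul_assoc _ θ, mul_assoc, ← mul_assoc _ θ⁻¹, h1, ← map_inv, ← map_mul,
      ← map_mul, ← map_pow]
    congr 1
    rw [← mul_assoc, mul_inv_eq_iff_eq_mul, addRight_one_pow]
    ext i
    simp [mul_add]

theorem pow_val_add {p : ℕ} [NeZero p] {a : J} (ha : a ^ p = 1) (i j : ZMod p) :
    a ^ (i + j).val = a ^ i.val * a ^ j.val := by
  rw [ZMod.val_add, ← pow_eq_pow_mod _ ha, pow_add]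

theorem pow_val_mul {p : ℕ} [NeZero p] {a : J} (ha : a ^ p = 1) (i j : ZMod p) :
    a ^ (i * j).val = (a ^ i.val) ^ j.val := by
  rw [ZMod.val_mul, ← pow_eq_pow_mod _ ha, pow_mul]

namespace Agl

variable {p : ℕ} [hp : Fact p.Prime] {pt : ZMod p ↪ α} {c₁ c₂ : α} {Δ : Finset α} {r : ZMod p}
  {ε : ℤ} {ab bb : Perm α} (h : Agl pt c₁ c₂ Δ r ε ab bb)
include h

omit hp in
theorem c1_mem : c₁ ∈ Δ := (h.mem _).2 (Or.inr (Or.inl rfl))

omit hp in
theorem c2_mem : c₂ ∈ Δ := (h.mem _).2 (Or.inr (Or.inr rfl))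

omit hp in
theorem pt_mem (i : ZMod p) : pt i ∈ Δ := (h.mem _).2 (Or.inl ⟨i, rfl⟩)

omit hp in
theorem tri_mem (i : ZMod p) : tri c₁ c₂ (pt i) ∈ altOn Δ :=
  tri_mem_altOn h.hc (h.pt1 i) h.c1_mem h.c2_mem (h.pt_mem i)

omit hp in
theorem exists_pt {x : α} (hx : x ∈ Δ) (h1 : x ≠ c₁) (h2 : x ≠ c₂) : ∃ i, pt i = x :=
  ((h.mem x).1 hx).resolve_right (not_or.2 ⟨h1, h2⟩)

theorem ab_pow_tri (i : ZMod p) :
    ab ^ i.val * tri c₁ c₂ (pt 0) * (ab ^ i.val)⁻¹ = tri c₁ c₂ (pt i) := by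
  have : ∀ k : ℕ, ab ^ k * tri c₁ c₂ (pt 0) * (ab ^ k)⁻¹ = tri c₁ c₂ (pt k) := by
    intro k
    induction k with
    | zero => simp
    | succ k ih =>
      rw [Nat.cast_succ, ← h.ab_tri, ← ih, pow_succ']
      simp only [mul_inv_rev, mul_assoc]
  rw [this, ZMod.natCast_zmod_val]

theorem exists_phom {a b z : J} (ha : a ^ p = 1) (hb : b * a * b⁻¹ = a ^ r.val) (hz : z ^ 3 = 1)
    (hbz : b * z * b⁻¹ = z ^ ε) (hzz : (z * (a * z * a⁻¹)) ^ 2 = 1) :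
    ∃ f : Perm α → J, PHom Δ f ∧ (∀ i, f (tri c₁ c₂ (pt i)) = a ^ i.val * z * (a ^ i.val)⁻¹) ∧
      (∀ σ ∈ altOn Δ, b * f σ * b⁻¹ = f (bb * σ * bb⁻¹)) ∧ (b = f bb → a = f ab) := by
  let x : ZMod p → J := fun i => a ^ i.val * z * (a ^ i.val)⁻¹
  have xa : ∀ k i, a ^ k.val * x i * (a ^ k.val)⁻¹ = x (k + i) := fun k i => by
    simp only [x, pow_val_add ha, mul_inv_rev, mul_assoc]
  have xb : ∀ i, b * x i * b⁻¹ = x (r * i) ^ ε := fun i => by
    simp only [x]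
    rw [conj_zpow, ← hbz, pow_val_mul ha, ← hb, conj_pow]
    group
  have h01 : ∀ k : ℕ, (x 0 * x (r ^ k)) ^ 2 = 1 := by
    intro k
    induction k with
    | zero => simpa [x, ZMod.val_one] using hzz
    | succ k ih =>
      refine sq_of_zpow h.hε ?_
      rw [pow_succ' r, ← xb, ← mul_zero r, ← xb, conj_mul, conj_pow, ih, mul_one,
        mul_inv_cancel]
  have hij : ∀ i j, i ≠ j → (x i * x j) ^ 2 = 1 := fun i j hij => by
    obtain ⟨k, hk⟩ := h.hr (j - i) (sub_ne_zero.2 hij.symm)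
    rw [← add_zero i, ← xa, show j = i + r ^ k by rw [hk]; ring, ← xa, conj_mul, conj_pow, h01,
      mul_one, mul_inv_cancel]
  obtain ⟨f, hf, hfx⟩ := CL.KSG.exists_phom h.hc h.c1_mem h.c2_mem (Function.extend pt x fun _ => 1)
    (fun i hi h1 h2 => by
      obtain ⟨i, rfl⟩ := h.exists_pt hi h1 h2
      rw [pt.injective.extend_apply, conj_pow, hz, mul_one, mul_inv_cancel])
    (fun i hi h1 h2 j hj h3 h4 hne => by
      obtain ⟨i, rfl⟩ := h.exists_pt hi h1 h2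
      obtain ⟨j, rfl⟩ := h.exists_pt hj h3 h4
      rw [pt.injective.extend_apply, pt.injective.extend_apply]
      exact hij i j fun e => hne (e ▸ rfl))
  have hx : ∀ i, f (tri c₁ c₂ (pt i)) = x i := fun i => by
    rw [hfx _ (h.pt_mem i) (h.pt1 i) (h.pt2 i), pt.injective.extend_apply]
  have ca : ∀ σ ∈ altOn Δ, a * f σ * a⁻¹ = f (ab * σ * ab⁻¹) := fun σ hσ =>
    (hf.conj a).ext_star (hf.comp_conj fun _ hx => apply_mem_of_mem_permOn h.ab_mem.1 hx) h.hc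
      h.c1_mem h.c2_mem (fun i hi h1 h2 => by
        obtain ⟨i, rfl⟩ := h.exists_pt hi h1 h2
        rw [h.ab_tri, hx, hx, add_comm, ← xa, ZMod.val_one, pow_one]) hσ
  have cb : ∀ σ ∈ altOn Δ, b * f σ * b⁻¹ = f (bb * σ * bb⁻¹) := fun σ hσ =>
    (hf.conj b).ext_star (hf.comp_conj fun _ hx => apply_mem_of_mem_permOn h.bb_mem.1 hx) h.hc
      h.c1_mem h.c2_mem (fun i hi h1 h2 => by
        obtain ⟨i, rfl⟩ := h.exists_pt hi h1 h2
        rw [h.bb_tri, hf.zpow (h.tri_mem _), hx, hx, xb]) hσ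
  refine ⟨f, hf, hx, cb, fun hbf => ?_⟩
  obtain ⟨t, rfl⟩ : ∃ t, a = t * f ab := ⟨a * (f ab)⁻¹, by simp⟩
  have ht : ∀ σ ∈ altOn Δ, Commute t (f σ) := fun σ hσ => by
    have e1 := ca _ (conj_mem_altOn (y := ab⁻¹)
      (fun _ hx => apply_mem_of_mem_permOn (inv_mem h.ab_mem.1) hx) hσ)
    rw [hf.map_conj (inv_mem h.ab_mem) hσ, hf.inv h.ab_mem,
      show ab * (ab⁻¹ * σ * ab⁻¹⁻¹) * ab⁻¹ = σ by group] at e1
    rw [Commute, SemiconjBy, ← mul_inv_eq_iff_eq_mul]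
    conv_rhs => rw [← e1]
    group
  rw [(ht _ h.ab_mem).mul_pow, ← hf.pow h.ab_mem, h.ab_pow, hf.one, mul_one] at ha
  rw [(ht _ h.ab_mem).mul_pow, ← hf.pow h.ab_mem, ← h.bb_ab, ← cb _ h.ab_mem, ← mul_assoc b,
    hbf, ← (ht _ h.bb_mem).eq, mul_assoc t, mul_assoc t, mul_left_inj] at hb
  have e1 : orderOf t ∣ p := orderOf_dvd_of_pow_eq_one ha
  rcases (Nat.dvd_prime hp.out).1 e1 with e2 | e2
  · rw [orderOf_eq_one_iff.1 e2, one_mul]
  · exfalso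
    conv_lhs at hb => rw [← pow_one t]
    rw [pow_eq_pow_iff_modEq, e2, ← ZMod.natCast_eq_natCast_iff, ZMod.natCast_zmod_val,
      Nat.cast_one] at hb
    exact h.hr1 hb.symm

/-- The six relators common to the presentations of the alternating and symmetric groups. -/
theorem core {yb : Perm α} (hyb : yb * yb = 1) (y0 : yb (pt 0) = pt 0) (y1 : yb c₁ = c₁)
    (y2 : yb c₂ = c₂) :
    ∃ (L : List (FreeGroup (Fin 3))) (wd : Perm α → FreeGroup (Fin 3)), L.length = 6 ∧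
      (∀ w ∈ L, FreeGroup.lift ![ab, bb, yb * tri c₁ c₂ (pt 0)] w = 1) ∧
      (yb * tri c₁ c₂ (pt 0)) ^ 3 = yb ∧ (yb * tri c₁ c₂ (pt 0)) ^ 4 = tri c₁ c₂ (pt 0) ∧
      (∀ σ ∈ altOn Δ, FreeGroup.lift ![ab, bb, yb * tri c₁ c₂ (pt 0)] (wd σ) = σ) ∧
      ∀ (J : Type) [Group J] (x : Fin 3 → J), (∀ w ∈ L, FreeGroup.lift x w = 1) →
        ∃ f : Perm α → J, PHom Δ f ∧ x 0 = f ab ∧ x 1 = f bb ∧
          x 2 = x 2 ^ 3 * f (tri c₁ c₂ (pt 0)) ∧ x 2 ^ 3 * x 2 ^ 3 = 1 ∧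
          (∀ κ ∈ altOn (Δ.filter fun x => yb x ∈ Δ),
            x 2 ^ 3 * f κ * (x 2 ^ 3)⁻¹ = f (yb * κ * yb⁻¹)) ∧
          ∀ σ ∈ altOn Δ, FreeGroup.lift x (wd σ) = f σ := by
  set zb := tri c₁ c₂ (pt 0) with hzb
  have hz3 : zb ^ 3 = 1 := tri_cube h.hc (h.pt1 0) (h.pt2 0)
  have hyz : yb * zb * yb⁻¹ = zb := by rw [conj_tri, y0, y1, y2]
  have hcomm : Commute yb zb := mul_inv_eq_iff_eq_mul.1 hyz
  have g3 : (yb * zb) ^ 3 = yb := by
    rw [hcomm.mul_pow, hz3, mul_one, pow_succ, sq, hyb, one_mul]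
  have g4 : (yb * zb) ^ 4 = zb := by rw [pow_succ, g3, ← mul_assoc, hyb, one_mul]
  let π := FreeGroup.lift ![ab, bb, yb * zb]
  let A : FreeGroup (Fin 3) := FreeGroup.of 0
  let B : FreeGroup (Fin 3) := FreeGroup.of 1
  let C : FreeGroup (Fin 3) := FreeGroup.of 2
  let xw : ZMod p → FreeGroup (Fin 3) := fun i => A ^ i.val * C ^ 4 * (A ^ i.val)⁻¹
  have πA : π A = ab := FreeGroup.lift_apply_of
  have πB : π B = bb := FreeGroup.lift_apply_of
  have πC : π C = yb * zb := FreeGroup.lift_apply_of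
  have πx : ∀ i, π (xw i) = tri c₁ c₂ (pt i) := fun i => by
    simp only [xw, map_mul, map_inv, map_pow, πA, πC, g4]
    exact h.ab_pow_tri i
  have hw : ∀ σ, ∃ W, σ ∈ altOn Δ → W ∈ closure (Set.range xw) ∧ π W = σ := by
    intro σ
    by_cases hσ : σ ∈ altOn Δ
    · obtain ⟨W, hW⟩ := altOn_le_of_star (K := (closure (Set.range xw)).map π) h.hc h.c1_mem
        h.c2_mem (fun i hi h1 h2 => by
          obtain ⟨i, rfl⟩ := h.exists_pt hi h1 h2
          exact ⟨xw i, subset_closure ⟨i, rfl⟩, πx i⟩) hσ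
      exact ⟨W, fun _ => hW⟩
    · exact ⟨1, fun h' => absurd h' hσ⟩
  choose wd hwd using hw
  have m1 : c₁ ∈ Δ.filter fun x => yb x ∈ Δ := Finset.mem_filter.2 ⟨h.c1_mem, y1.symm ▸ h.c1_mem⟩
  have m2 : c₂ ∈ Δ.filter fun x => yb x ∈ Δ := Finset.mem_filter.2 ⟨h.c2_mem, y2.symm ▸ h.c2_mem⟩
  have m0 : pt 0 ∈ Δ.filter fun x => yb x ∈ Δ :=
    Finset.mem_filter.2 ⟨h.pt_mem 0, y0.symm ▸ h.pt_mem 0⟩
  obtain ⟨v, hv, hgen⟩ := exists_gen_altOn h.hc (h.pt1 0) (h.pt2 0) m1 m2 m0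
  have hv1 : v ∈ altOn Δ := altOn_mono (Finset.filter_subset _ _) hv
  have hv2 : yb * v * yb⁻¹ ∈ altOn Δ := conj_mem_altOn (fun x hx => (Finset.mem_filter.1 hx).2) hv
  refine ⟨[A ^ p, B * A * B⁻¹ * (A ^ r.val)⁻¹, C ^ 6, B * C ^ 4 * B⁻¹ * ((C ^ 4) ^ ε)⁻¹,
    (C ^ 4 * (A * C ^ 4 * A⁻¹)) ^ 2,
    C ^ 3 * wd v * (C ^ 3)⁻¹ * (wd (yb * v * yb⁻¹) * (B * (wd bb)⁻¹))⁻¹], wd, rfl, ?_, g3, g4,
    fun σ hσ => (hwd σ hσ).2, fun J _ x hx => ?_⟩
  · change ∀ w ∈ _, π w = 1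
    simp only [List.forall_mem_cons, map_mul, map_inv, map_pow, map_zpow, πA, πB, πC, g3, g4,
      mul_inv_eq_one, (hwd _ hv1).2, (hwd _ hv2).2, (hwd _ h.bb_mem).2, mul_inv_cancel, mul_one]
    refine ⟨h.ab_pow, h.bb_ab, ?_, ?_, ?_, trivial, by simp⟩
    · rw [show 6 = 3 + 3 from rfl, pow_add, g3, hyb]
    · rw [hzb, h.bb_tri, mul_zero]
    · rw [hzb, h.ab_tri]
      exact tri_mul_sq h.hc (h.pt1 _) (h.pt2 _) (h.pt1 _) (h.pt2 _) (pt.injective.ne (by simp))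
  · simp only [List.forall_mem_cons, map_mul, map_inv, map_pow, map_zpow, A, B, C,
      FreeGroup.lift_apply_of, mul_inv_eq_one] at hx
    obtain ⟨r1, r2, r3, r4, r5, r6, -⟩ := hx
    obtain ⟨f, hf, f1, f2, f3⟩ := h.exists_phom r1 r2
      (by rw [← pow_mul, show 4 * 3 = 6 * 2 from rfl, pow_mul, r3, one_pow]) r4 r5
    have hev : ∀ W ∈ closure (Set.range xw), π W ∈ altOn Δ ∧ FreeGroup.lift x W = f (π W) := by
      intro W hW
      induction hW using closure_induction with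
      | mem W hW =>
        obtain ⟨i, rfl⟩ := hW
        rw [πx, f1]
        exact ⟨h.tri_mem i, by simp [xw, A, C]⟩
      | one => exact ⟨by rw [map_one]; exact one_mem _, by rw [map_one, map_one, hf.one]⟩
      | mul U W _ _ hU hW =>
        rw [map_mul, map_mul, hf _ hU.1 _ hW.1, hU.2, hW.2]
        exact ⟨mul_mem hU.1 hW.1, rfl⟩
      | inv W _ hW =>
        rw [map_inv, map_inv, hf.inv hW.1, hW.2]
        exact ⟨inv_mem hW.1, rfl⟩
    have hev' : ∀ σ ∈ altOn Δ, FreeGroup.lift x (wd σ) = f σ := fun σ hσ => by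
      rw [(hev _ (hwd σ hσ).1).2, (hwd σ hσ).2]
    have fz : f zb = x 2 ^ 4 := by simpa using f1 0
    rw [hev' _ hv1, hev' _ hv2, hev' _ h.bb_mem] at r6
    obtain ⟨H1, ht⟩ := conj_of_rel (y := x 2 ^ 3) (yb := yb) hf (Finset.filter_subset _ _)
      (fun x hx => (Finset.mem_filter.1 hx).2) (tri_mem_altOn h.hc (h.pt1 0) m1 m2 m0) hv hgen
      (t := x 1 * (f bb)⁻¹) (fun σ hσ => by
        have e1 := f2 _ (conj_mem_altOn (y := bb⁻¹)
          (fun _ hx => apply_mem_of_mem_permOn (inv_mem h.bb_mem.1) hx) hσ)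
        rw [hf.map_conj (inv_mem h.bb_mem) hσ, hf.inv h.bb_mem,
          show bb * (bb⁻¹ * σ * bb⁻¹⁻¹) * bb⁻¹ = σ by group] at e1
        conv_rhs => rw [← e1]
        group)
      (by rw [← hzb, hyz, fz]; group) r6
    rw [mul_inv_eq_one] at ht
    refine ⟨f, hf, f3 ht, ht, ?_, by rw [← pow_add, r3], H1, hev'⟩
    rw [fz, ← pow_add, show 3 + 4 = 6 + 1 from rfl, pow_succ, r3, one_mul]

end Agl

/-- The permutations used to glue two alternating groups. -/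
structure Glue (Δ : Finset α) (e c₁ c₂ δ δ' : α) (y β : Perm α) : Prop where
  hδ : δ ≠ δ'
  δ_mem : δ ∈ Δ
  δ'_mem : δ' ∈ Δ
  e_mem : e ∈ Δ
  ne : δ ≠ e ∧ δ ≠ c₁ ∧ δ ≠ c₂ ∧ δ' ≠ e ∧ δ' ≠ c₁ ∧ δ' ≠ c₂
  yy : ∀ x, y (y x) = x
  cov : ∀ x, x ∈ Δ ∨ y x ∈ Δ
  yfix : y e = e ∧ y c₁ = c₁ ∧ y c₂ = c₂ ∧ y δ = δ ∧ y δ' = δ'
  yΓ : ∀ x ∈ Δ, y x ∈ Δ → y x = x
  βon : ∀ x, x ∉ Δ → β x = x
  ββ : ∀ x, β (β x) = x
  βfix : β e = e ∧ β δ = δ ∧ β δ' = δ'
  βD : ∀ x ∈ Δ, y x ∉ Δ → y (β x) = β x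
  braid : ∀ x, β (y (β x)) = y (β (y x))

theorem Glue.twist {Δ : Finset α} {e c₁ c₂ δ δ' : α} {y β : Perm α} (h : Glue Δ e c₁ c₂ δ δ' y β)
    {θ η : Perm α} (hθ : θ = 1 ∨ θ = swap δ δ') (hη : η = 1 ∨ η = swap δ δ') {yb βb : Perm α}
    (hy : yb = y * θ) (hβ : βb = β * η) :
    yb * yb = 1 ∧ (∀ x, x ∈ Δ ∨ yb x ∈ Δ) ∧ yb e = e ∧ yb c₁ = c₁ ∧ yb c₂ = c₂ ∧ yb δ ∈ Δ ∧
    yb δ' ∈ Δ ∧ βb ∈ permOn Δ ∧ βb * βb = 1 ∧
    (∀ x, x = δ ∨ x = δ' ∨ x ∉ Δ → (yb * βb * yb⁻¹) x ∈ Δ ∧ yb ((yb * βb * yb⁻¹) x) ∈ Δ) ∧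
    (∀ i ∈ Δ, yb i ∉ Δ → (yb * βb * yb⁻¹) i ∈ Δ) ∧
    (∀ x, x = δ ∨ x = δ' ∨ (x ∈ Δ ∧ yb x ∉ Δ) → βb x ∈ Δ ∧ yb (βb x) ∈ Δ) ∧
    (∀ x ∈ Δ, yb (βb x) ∈ Δ → (yb * βb * yb⁻¹) x ∈ Δ) ∧ βb e = e ∧
    (θ = η → βb * yb * βb⁻¹ = yb * βb * yb⁻¹) := by
  obtain ⟨a1, a2, a3, a4, a5, a6, a7, a8, a9, a10, a11, a12, a13, a14⟩ := h
  have hyi := y.injective
  have hβi := β.injective
  have βmem : ∀ x ∈ Δ, β x ∈ Δ := fun x hx => apply_mem_of_mem_permOn (mem_permOn.2 a10) hx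
  have key : ∀ θ : Perm α, θ = 1 ∨ θ = swap δ δ' → (∀ x, θ (θ x) = x) ∧ (∀ x, y (θ x) = θ (y x)) ∧
      (∀ x, β (θ x) = θ (β x)) ∧ (∀ x, θ x ∈ Δ ↔ x ∈ Δ) ∧ (∀ x, x ≠ δ → x ≠ δ' → θ x = x) ∧
      (θ δ = δ ∧ θ δ' = δ' ∨ θ δ = δ' ∧ θ δ' = δ) := by
    rintro _ (rfl | rfl)
    · simp
    · refine ⟨by simp, fun x => ?_, fun x => ?_, fun x => ?_,
        fun x => swap_apply_of_ne_of_ne, by simp⟩
      · rw [y.injective.map_swap, a8.2.2.2.1, a8.2.2.2.2]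
      · rw [β.injective.map_swap, a12.2.1, a12.2.2]
      · rw [swap_apply_def]; split_ifs <;> simp [*]
  obtain ⟨t1, t2, t3, t4, t5, t6⟩ := key θ hθ
  obtain ⟨u1, u2, u3, u4, u5, u6⟩ := key η hη
  have tu : ∀ x, θ (η x) = η (θ x) := by
    rcases hθ with rfl | rfl <;> rcases hη with rfl | rfl <;> simp
  have e1 : ∀ x, yb x = θ (y x) := fun x => by rw [hy, mul_apply, t2]
  have e2 : ∀ x, βb x = η (β x) := fun x => by rw [hβ, mul_apply, u3]
  have y2 : yb * yb = 1 := Equiv.ext fun x => by rw [mul_apply, e1, e1, t2, t1, a6]; rfl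
  have β2 : βb * βb = 1 := Equiv.ext fun x => by rw [mul_apply, e2, e2, u3, u1, a11]; rfl
  have e3 : ∀ x, (yb * βb * yb⁻¹) x = η (y (β (y x))) := fun x => by
    rw [inv_eq_of_mul_eq_one_right y2, mul_apply, mul_apply, e1, e1, e2, t3, u2, t2, tu, t1]
  have m1 : ∀ x, yb x ∈ Δ ↔ y x ∈ Δ := fun x => by rw [e1, t4]
  have m2 : ∀ x, yb (η x) ∈ Δ ↔ y x ∈ Δ := fun x => by rw [m1, u2, u4]
  simp only [e3, m1, e2, u2, u4]
  refine ⟨y2, a7, by rw [e1, a8.1, t5 _ a5.1.symm a5.2.2.2.1.symm],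
    by rw [e1, a8.2.1, t5 _ a5.2.1.symm a5.2.2.2.2.1.symm],
    by rw [e1, a8.2.2.1, t5 _ a5.2.2.1.symm a5.2.2.2.2.2.symm], by grind, by grind,
    mem_permOn.2 fun x hx => ?_, β2, ?_, ?_, ?_, ?_,
    by rw [a12.1, u5 _ a5.1.symm a5.2.2.2.1.symm], ?_⟩
  · rw [e2, a10 x hx, u5 x (fun h => hx (h ▸ a2)) (fun h => hx (h ▸ a3))]
  · rintro x (rfl | rfl | hx)
    · grind
    · grind
    · have h1 := (a7 x).resolve_left hx
      have h2 := a13 _ h1 (by rwa [a6])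
      rw [h2, h2]
      exact ⟨βmem _ h1, βmem _ h1⟩
  · intro i hi h1
    rwa [a10 _ h1, a6]
  · rintro x (rfl | rfl | ⟨h1, h2⟩)
    · grind
    · grind
    · rw [a13 _ h1 h2]
      exact ⟨βmem _ h1, βmem _ h1⟩
  · intro x hx h1
    rwa [← a14, a9 _ (βmem _ hx) h1, a11]
  · rintro rfl
    ext x
    rw [e3, inv_eq_of_mul_eq_one_right β2, mul_apply, mul_apply, e2, e1, e2, t2, t1, a14]

theorem isPres_of_list {G : Type*} [Group G] {d : ℕ} {g : Fin d → G} (L : List (FreeGroup (Fin d)))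
    (h1 : ∀ r ∈ L, FreeGroup.lift g r = 1) (h2 : Subgroup.closure (Set.range g) = ⊤)
    (h3 : ∀ (J : Type) [Group J] (x : Fin d → J), (∀ r ∈ L, FreeGroup.lift x r = 1) →
      ∃ ψ : G →* J, ∀ i, ψ (g i) = x i) :
    ∃ rels : Finset (FreeGroup (Fin d)), rels.card ≤ L.length ∧
      IsPres g (rels : Set (FreeGroup (Fin d))) := by
  classical
  exact ⟨L.toFinset, L.toFinset_card_le, isPres_of_section (by simpa using h1) h2
    fun J _ x hx => h3 J x (by simpa using hx)⟩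

section main

variable {p : ℕ} [hp : Fact p.Prime] {pt : ZMod p ↪ α} {c₁ c₂ δ δ' : α} {Δ : Finset α} {r : ZMod p}
  {ε : ℤ} {ab bb y β : Perm α}

theorem alt_le_of_mem (h : Agl pt c₁ c₂ Δ r ε ab bb) {yb : Perm α} (hyb : yb * yb = 1)
    (hcov : ∀ x, x ∈ Δ ∨ yb x ∈ Δ) (y1 : yb c₁ = c₁) (y2 : yb c₂ = c₂) {K : Subgroup (Perm α)}
    (k1 : ab ∈ K) (k2 : yb ∈ K) (k3 : tri c₁ c₂ (pt 0) ∈ K) : alternatingGroup α ≤ K := by
  have h1 : ∀ i ∈ Δ, i ≠ c₁ → i ≠ c₂ → tri c₁ c₂ i ∈ K := fun i hi i1 i2 => by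
    obtain ⟨i, rfl⟩ := h.exists_pt hi i1 i2
    rw [← h.ab_pow_tri]
    exact mul_mem (mul_mem (pow_mem k1 _) k3) (inv_mem (pow_mem k1 _))
  refine alternatingGroup_le_of_star h.hc fun i i1 i2 => ?_
  rcases hcov i with hi | hi
  · exact h1 i hi i1 i2
  · have := mul_mem (mul_mem k2 (h1 _ hi (y1 ▸ yb.injective.ne i1) (y2 ▸ yb.injective.ne i2)))
      (inv_mem k2)
    rwa [conj_tri, y1, y2, ← mul_apply, hyb] at this

theorem exists_pres_alt (h : Agl pt c₁ c₂ Δ r ε ab bb) (hg : Glue Δ (pt 0) c₁ c₂ δ δ' y β) :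
    ∃ (g : Fin 3 → alternatingGroup α) (rels : Finset (FreeGroup (Fin 3))), rels.card ≤ 7 ∧
      IsPres g (rels : Set (FreeGroup (Fin 3))) ∧ closure (Set.range ![g 0, g 2]) = ⊤ := by
  obtain ⟨θ, ε', hθ, hA⟩ := exists_twist y hg.hδ
  have hθ' := hθ.imp And.left And.left
  obtain ⟨t1, t2, t3, t4, t5, t6, t7, t8, t9, t10, t11, t12, -, -, t15⟩ :=
    hg.twist hθ' hθ' rfl rfl
  have braid := t15 rfl
  set yb := y * θ
  set βb := β * θ
  have hβA : βb ∈ alternatingGroup α := by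
    have := congrArg sign braid
    simp only [map_mul, sign_inv, mem_alternatingGroup.1 hA, mul_one, one_mul,
      Int.units_mul_self] at this
    exact mem_alternatingGroup.2 this.symm
  have hβ : βb ∈ altOn Δ := ⟨t8, hβA⟩
  obtain ⟨L, wd, l1, l2, g3, g4, l3, l4⟩ := h.core t1 t3 t4 t5
  let g : Fin 3 → alternatingGroup α :=
    ![⟨ab, h.ab_mem.2⟩, ⟨bb, h.bb_mem.2⟩, ⟨yb * tri c₁ c₂ (pt 0), mul_mem hA (h.tri_mem 0).2⟩]
  have hg' : (fun i => (alternatingGroup α).subtype (g i)) = ![ab, bb, yb * tri c₁ c₂ (pt 0)] := by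
    ext1 i; fin_cases i <;> rfl
  have hcl : closure (Set.range ![g 0, g 2]) = ⊤ := by
    set K := closure (Set.range ![g 0, g 2])
    have k0 : g 0 ∈ K := subset_closure ⟨0, rfl⟩
    have k2 : g 2 ∈ K := subset_closure ⟨1, rfl⟩
    have := alt_le_of_mem h t1 t2 t4 t5 (K := K.map (alternatingGroup α).subtype) ⟨_, k0, rfl⟩
      ⟨_, pow_mem k2 3, g3⟩ ⟨_, pow_mem k2 4, g4⟩
    rw [eq_top_iff]
    intro σ _
    obtain ⟨τ, hτ, e⟩ := this σ.2
    exact (Subtype.ext e : τ = σ) ▸ hτ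
  have key := isPres_of_list (g := g)
    ((wd βb * FreeGroup.of 2 ^ 3 * (wd βb)⁻¹ *
      (FreeGroup.of 2 ^ 3 * wd βb * (FreeGroup.of 2 ^ 3)⁻¹)⁻¹) :: L) ?_ ?_ ?_
  · obtain ⟨rels, r1, r2⟩ := key
    exact ⟨g, rels, by simpa [l1] using r1, r2, hcl⟩
  · intro w hw
    apply (alternatingGroup α).subtype_injective
    rw [map_lift, hg', map_one]
    rcases List.mem_cons.1 hw with rfl | hw
    · simp only [map_mul, map_inv, map_pow, l3 _ hβ, FreeGroup.lift_apply_of, mul_inv_eq_one]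
      exact g3.symm ▸ braid
    · exact l2 w hw
  · refine eq_top_iff.2 (hcl.ge.trans (closure_mono ?_))
    rintro _ ⟨i, rfl⟩
    fin_cases i
    · exact ⟨0, rfl⟩
    · exact ⟨2, rfl⟩
  · intro J _ x hx
    rw [List.forall_mem_cons] at hx
    obtain ⟨f, hf, f1, f2, f3, f4, H1, f5⟩ := l4 J x hx.2
    have r7 := hx.1
    simp only [map_mul, map_inv, map_pow, f5 _ hβ, FreeGroup.lift_apply_of, mul_inv_eq_one] at r7
    have hc : yb * (yb * βb * yb⁻¹) * yb⁻¹ = βb := by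
      rw [← mul_assoc, ← mul_assoc, t1, one_mul, mul_assoc, ← mul_inv_rev, t1, inv_one, mul_one]
    obtain ⟨Φ, hΦ, p1, p2⟩ := glue hf f4 t1 t2 hg.hδ hg.δ_mem hg.δ'_mem t6 t7 H1
      (c := yb * βb * yb⁻¹) (hc.symm ▸ hβ) t10 t11 (fun i hi hi' => by
        rw [hc]
        refine conj_of_braid hf H1 hβ braid r7 ?_
        rw [conj_tri, inv_eq_of_mul_eq_one_right t9]
        have k1 := t12 δ (Or.inl rfl)
        have k2 := t12 δ' (Or.inr (Or.inl rfl))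
        have k3 := t12 i (Or.inr (Or.inr ⟨hi, hi'⟩))
        exact tri_mem_altOn (βb.injective.ne hg.hδ) (βb.injective.ne fun e => hi' (e ▸ t6))
          (Finset.mem_filter.2 k1) (Finset.mem_filter.2 k2) (Finset.mem_filter.2 k3))
    obtain ⟨ψ, hψ⟩ := hΦ.exists_alt_hom
    have hy : Φ yb = x 2 ^ 3 := by
      have e1 := p2 _ hβA
      rw [← braid, hΦ.map_conj (mem_altOn_univ hβA) (mem_altOn_univ hA), p1 _ hβ, ← r7] at e1
      simpa using e1.symm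
    refine ⟨ψ, fun i => ?_⟩
    rw [hψ]
    fin_cases i
    · exact (p1 _ h.ab_mem).trans f1.symm
    · exact (p1 _ h.bb_mem).trans f2.symm
    · refine (hΦ _ (mem_altOn_univ hA) _ (mem_altOn_univ (h.tri_mem 0).2)).trans ?_
      rw [hy, p1 _ (h.tri_mem 0)]
      exact f3.symm

theorem exists_pres_perm (h : Agl pt c₁ c₂ Δ r ε ab bb) (hg : Glue Δ (pt 0) c₁ c₂ δ δ' y β) :
    ∃ (g : Fin 3 → Perm α) (rels : Finset (FreeGroup (Fin 3))), rels.card ≤ 7 ∧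
      IsPres g (rels : Set (FreeGroup (Fin 3))) ∧ closure (Set.range ![g 0, g 2]) = ⊤ := by
  obtain ⟨θ, hθ, hA⟩ : ∃ θ : Perm α, (θ = 1 ∨ θ = swap δ δ') ∧ y * θ ∉ alternatingGroup α := by
    by_cases hy : y ∈ alternatingGroup α
    · exact ⟨swap δ δ', Or.inr rfl, by simp [mem_alternatingGroup.1 hy, hg.hδ]⟩
    · exact ⟨1, Or.inl rfl, by rwa [mul_one]⟩
  obtain ⟨η, ε', hη, hβA⟩ := exists_twist β hg.hδ
  obtain ⟨t1, t2, t3, t4, t5, t6, t7, t8, t9, t10, t11, t12, t13, t14, -⟩ :=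
    hg.twist hθ (hη.imp And.left And.left) rfl rfl
  set yb := y * θ
  set βb := β * η
  have hβ : βb ∈ altOn Δ := ⟨t8, hβA⟩
  obtain ⟨L, wd, l1, l2, g3, g4, l3, l4⟩ := h.core t1 t3 t4 t5
  have hcl : closure (Set.range ![ab, yb * tri c₁ c₂ (pt 0)]) = ⊤ := by
    set K := closure (Set.range ![ab, yb * tri c₁ c₂ (pt 0)])
    have k0 : ab ∈ K := subset_closure ⟨0, rfl⟩
    have k2 : yb * tri c₁ c₂ (pt 0) ∈ K := subset_closure ⟨1, rfl⟩
    have k3 : yb ∈ K := g3 ▸ pow_mem k2 3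
    have := alt_le_of_mem h t1 t2 t4 t5 k0 k3 (g4 ▸ pow_mem k2 4)
    rw [eq_top_iff]
    intro σ _
    by_cases hσ : σ ∈ alternatingGroup α
    · exact this hσ
    · rw [← inv_mul_cancel_right σ yb]
      refine mul_mem (this ?_) k3
      rw [mem_alternatingGroup] at hσ hA ⊢
      rw [map_mul, sign_inv, (Int.units_eq_one_or _).resolve_left hσ,
        (Int.units_eq_one_or _).resolve_left hA]
      rfl
  set X := Δ.filter fun x => yb (βb x) ∈ Δ
  have x1 : δ ∈ X := Finset.mem_filter.2 ⟨hg.δ_mem, (t12 δ (Or.inl rfl)).2⟩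
  have x2 : δ' ∈ X := Finset.mem_filter.2 ⟨hg.δ'_mem, (t12 δ' (Or.inr (Or.inl rfl))).2⟩
  have x3 : pt 0 ∈ X := Finset.mem_filter.2 ⟨hg.e_mem, by rw [t14, t3]; exact hg.e_mem⟩
  have hX : ∀ x ∈ X, (yb * βb * yb⁻¹) x ∈ Δ := fun x hx =>
    t13 x (Finset.mem_filter.1 hx).1 (Finset.mem_filter.1 hx).2
  obtain ⟨d, hd, hgen⟩ := exists_gen_altOn hg.hδ hg.ne.1.symm hg.ne.2.2.2.1.symm x1 x2 x3
  have hd1 : d ∈ altOn Δ := altOn_mono (Finset.filter_subset _ _) hd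
  have hd2 := conj_mem_altOn hX hd
  have key := isPres_of_list (g := ![ab, bb, yb * tri c₁ c₂ (pt 0)])
    ((FreeGroup.of 2 ^ 3 * wd βb * (FreeGroup.of 2 ^ 3)⁻¹ * wd d *
      (FreeGroup.of 2 ^ 3 * wd βb * (FreeGroup.of 2 ^ 3)⁻¹)⁻¹ *
      (wd (yb * βb * yb⁻¹ * d * (yb * βb * yb⁻¹)⁻¹))⁻¹) :: L) ?_ ?_ ?_
  · obtain ⟨rels, r1, r2⟩ := key
    exact ⟨_, rels, by simpa [l1] using r1, r2, hcl⟩
  · intro w hw
    rcases List.mem_cons.1 hw with rfl | hw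
    · simp only [map_mul, map_inv, map_pow, l3 _ hβ, l3 _ hd1, l3 _ hd2, FreeGroup.lift_apply_of,
        mul_inv_eq_one]
      exact g3.symm ▸ rfl
    · exact l2 w hw
  · refine eq_top_iff.2 (hcl.ge.trans (closure_mono ?_))
    rintro _ ⟨i, rfl⟩
    fin_cases i
    · exact ⟨0, rfl⟩
    · exact ⟨2, rfl⟩
  · intro J _ x hx
    rw [List.forall_mem_cons] at hx
    obtain ⟨f, hf, f1, f2, f3, f4, H1, f5⟩ := l4 J x hx.2
    have r7 := hx.1
    simp only [map_mul, map_inv, map_pow, f5 _ hβ, f5 _ hd1, f5 _ hd2, FreeGroup.lift_apply_of,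
      mul_inv_eq_one] at r7
    have hc : yb * (yb * βb * yb⁻¹) * yb⁻¹ = βb := by
      rw [← mul_assoc, ← mul_assoc, t1, one_mul, mul_assoc, ← mul_inv_rev, t1, inv_one, mul_one]
    have he : (yb * βb * yb⁻¹) (pt 0) = pt 0 := by
      rw [inv_eq_of_mul_eq_one_right t1, mul_apply, mul_apply, t3, t14, t3]
    have q := (conj_of_rel (y := x 2 ^ 3 * f βb * (x 2 ^ 3)⁻¹) (yb := yb * βb * yb⁻¹) (t := 1) hf
      (Finset.filter_subset _ _) hX (tri_mem_altOn hg.hδ hg.ne.1.symm x1 x2 x3) hd hgen (by simp)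
      (by
        have := conj_conj_of_mem_inter hf f4 H1 (c := yb * βb * yb⁻¹) (κ := tri δ δ' (pt 0))
          (hc.symm ▸ hβ) (tri_mem_altOn hg.hδ hg.ne.1.symm (Finset.mem_filter.2 ⟨hg.δ_mem, t6⟩)
            (Finset.mem_filter.2 ⟨hg.δ'_mem, t7⟩)
            (Finset.mem_filter.2 ⟨hg.e_mem, t3.symm ▸ hg.e_mem⟩)) (by
            rw [conj_tri]
            exact tri_mem_altOn (Equiv.injective _ |>.ne hg.hδ)
              (Equiv.injective _ |>.ne hg.ne.1.symm) (Finset.mem_filter.2 (t10 δ (Or.inl rfl)))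
              (Finset.mem_filter.2 (t10 δ' (Or.inr (Or.inl rfl))))
              (he.symm ▸ Finset.mem_filter.2 ⟨hg.e_mem, t3.symm ▸ hg.e_mem⟩))
        rwa [hc] at this)
      (by rw [mul_one, r7])).1
    obtain ⟨Φ, hΦ, p1, p2⟩ := glue hf f4 t1 t2 hg.hδ hg.δ_mem hg.δ'_mem t6 t7 H1
      (c := yb * βb * yb⁻¹) (hc.symm ▸ hβ) t10 t11 (fun i hi hi' => by
        rw [hc]
        exact q _ (tri_mem_altOn hg.hδ (fun e => hi' (e ▸ t6)) x1 x2
          (Finset.mem_filter.2 ⟨hi, (t12 i (Or.inr (Or.inr ⟨hi, hi'⟩))).2⟩)))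
    obtain ⟨ψ, ψ1, ψ2⟩ := hΦ.exists_perm_hom hA (by rw [f4, t1, hΦ.one]) p2
    refine ⟨ψ, fun i => ?_⟩
    fin_cases i
    · exact (ψ1 _ h.ab_mem.2).trans ((p1 _ h.ab_mem).trans f1.symm)
    · exact (ψ1 _ h.bb_mem.2).trans ((p1 _ h.bb_mem).trans f2.symm)
    · refine (map_mul ψ _ _).trans ?_
      rw [ψ2, ψ1 _ (h.tri_mem 0).2, p1 _ (h.tri_mem 0)]
      exact f3.symm

end main

theorem exists_model {p l : ℕ} (hp : p.Prime) (h1 : l + 3 ≤ p) (h2 : 2 * l + 1 ≤ p) :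
    ∃ (pt : ZMod p ↪ Fin (p + 2 + l)) (c₁ c₂ δ δ' : Fin (p + 2 + l)) (Δ : Finset (Fin (p + 2 + l)))
      (r : ZMod p) (ε : ℤ) (ab bb y β : Perm (Fin (p + 2 + l))),
      Agl pt c₁ c₂ Δ r ε ab bb ∧ Glue Δ (pt 0) c₁ c₂ δ δ' y β := by
  have : NeZero p := ⟨hp.ne_zero⟩
  let pt : ZMod p ↪ Fin (p + 2 + l) := ⟨fun i => ⟨i.val, by have := i.val_lt; omega⟩,
    fun i j h => ZMod.val_injective p (congrArg Fin.val h)⟩
  have hpt : ∀ i, (pt i).val = i.val := fun _ => rfl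
  let Δ : Finset (Fin (p + 2 + l)) := Finset.univ.filter fun x => x.val < p + 2
  have hΔ : ∀ x, x ∈ Δ ↔ x.val < p + 2 := fun x => by simp [Δ]
  obtain ⟨r, ε, ab, bb, h⟩ := exists_agl hp (by omega) pt (c₁ := ⟨p, by omega⟩)
    (c₂ := ⟨p + 1, by omega⟩) (Δ := Δ) (by simp)
    (fun i h => by have := congrArg Fin.val h; have := i.val_lt; simp only [hpt] at *; omega)
    (fun i h => by have := congrArg Fin.val h; have := i.val_lt; simp only [hpt] at *; omega)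
    (fun x => by
      rw [hΔ]
      constructor
      · intro hx
        by_cases h : x.val < p
        · exact Or.inl ⟨x.val, Fin.ext (by rw [hpt, ZMod.val_cast_of_lt h])⟩
        · exact Or.inr (by simp only [Fin.ext_iff]; omega)
      · rintro (⟨i, rfl⟩ | rfl | rfl)
        · have := i.val_lt; rw [hpt]; omega
        · simp
        · simp)
  let fy : Fin (p + 2 + l) → Fin (p + 2 + l) := fun x =>
    ⟨if 3 ≤ x.val ∧ x.val < l + 3 then x.val + (p - 1) else if p + 2 ≤ x.val then x.val - (p - 1)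
      else x.val, by have := x.2; split_ifs <;> omega⟩
  let fb : Fin (p + 2 + l) → Fin (p + 2 + l) := fun x =>
    ⟨if 3 ≤ x.val ∧ x.val < l + 3 then x.val + l else if l + 3 ≤ x.val ∧ x.val < 2 * l + 3 then
      x.val - l else x.val, by have := x.2; split_ifs <;> omega⟩
  have hy : Function.Involutive fy := fun x => by
    have := x.2; simp only [fy, Fin.ext_iff]; grind
  have hb : Function.Involutive fb := fun x => by
    have := x.2; simp only [fb, Fin.ext_iff]; grind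
  refine ⟨pt, _, _, ⟨1, by omega⟩, ⟨2, by omega⟩, Δ, r, ε, ab, bb, hy.toPerm fy, hb.toPerm fb, h,
    by simp, ?_, ?_, ?_, ?_, hy, fun x => ?_, ?_, fun x => ?_, fun x => ?_, hb, ?_, fun x => ?_,
    fun x => ?_⟩
  all_goals
    simp only [hΔ, Function.Involutive.coe_toPerm, fy, fb, Fin.ext_iff, hpt, ZMod.val_zero, Ne]
  all_goals grind

theorem exists_words {d : ℕ} (π : FreeGroup (Fin d) →* Perm α) (xw : α → FreeGroup (Fin d))
    {S : Finset α} {a b : α} (hab : a ≠ b) (ha : a ∈ S) (hb : b ∈ S)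
    (hx : ∀ i ∈ S, i ≠ a → i ≠ b → π (xw i) = tri a b i) :
    ∃ wd : Perm α → FreeGroup (Fin d), (∀ σ ∈ altOn S, π (wd σ) = σ) ∧
      ∀ (J : Type) [Group J] (φ : FreeGroup (Fin d) →* J) (f : Perm α → J), PHom S f →
        (∀ i ∈ S, i ≠ a → i ≠ b → f (tri a b i) = φ (xw i)) → ∀ σ ∈ altOn S, φ (wd σ) = f σ := by
  have hw : ∀ σ, ∃ W, σ ∈ altOn S →
      W ∈ closure (xw '' {i | i ∈ S ∧ i ≠ a ∧ i ≠ b}) ∧ π W = σ := by
    intro σ
    by_cases hσ : σ ∈ altOn S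
    · obtain ⟨W, hW⟩ := altOn_le_of_star
        (K := (closure (xw '' {i | i ∈ S ∧ i ≠ a ∧ i ≠ b})).map π) hab ha hb
        (fun i hi h1 h2 => ⟨xw i, subset_closure ⟨i, ⟨hi, h1, h2⟩, rfl⟩, hx i hi h1 h2⟩) hσ
      exact ⟨W, fun _ => hW⟩
    · exact ⟨1, fun h' => absurd h' hσ⟩
  choose wd hwd using hw
  refine ⟨wd, fun σ hσ => (hwd σ hσ).2, fun J _ φ f hf h σ hσ => ?_⟩
  have hev : ∀ W ∈ closure (xw '' {i | i ∈ S ∧ i ≠ a ∧ i ≠ b}), π W ∈ altOn S ∧ φ W = f (π W) := by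
    intro W hW
    induction hW using closure_induction with
    | mem W hW =>
      obtain ⟨i, ⟨h1, h2, h3⟩, rfl⟩ := hW
      rw [hx i h1 h2 h3, h i h1 h2 h3]
      exact ⟨tri_mem_altOn hab h2 ha hb h1, rfl⟩
    | one => exact ⟨by rw [map_one]; exact one_mem _, by rw [map_one, map_one, hf.one]⟩
    | mul U W _ _ hU hW =>
      rw [map_mul, map_mul, hf _ hU.1 _ hW.1, hU.2, hW.2]
      exact ⟨mul_mem hU.1 hW.1, rfl⟩
    | inv W _ hW =>
      rw [map_inv, map_inv, hf.inv hW.1, hW.2]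
      exact ⟨inv_mem hW.1, rfl⟩
  rw [(hev _ (hwd σ hσ).1).2, (hwd σ hσ).2]

theorem six_core {ab : Perm (Fin 6)} {ε : ℤ} (hε : ε = 1 ∨ ε = -1) (h4 : ab ^ 4 = 1)
    (h : ∀ i : Fin 6, i ≠ 0 → i ≠ 1 →
      ab * tri 0 1 i * ab⁻¹ = tri 0 1 (![0, 1, 3, 4, 5, 2] i) ^ ε) :
    ∃ (L : List (FreeGroup (Fin 2))) (wd : Perm (Fin 6) → FreeGroup (Fin 2)), L.length = 4 ∧
      (∀ w ∈ L, FreeGroup.lift ![ab, tri 0 1 2] w = 1) ∧
      (∀ σ ∈ alternatingGroup (Fin 6), FreeGroup.lift ![ab, tri 0 1 2] (wd σ) = σ) ∧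
      ∀ (J : Type) [Group J] (x : Fin 2 → J), (∀ w ∈ L, FreeGroup.lift x w = 1) →
        ∃ f : Perm (Fin 6) → J, PHom Finset.univ f ∧ x 1 = f (tri 0 1 2) ∧
          (∀ σ ∈ alternatingGroup (Fin 6), x 0 * f σ * (x 0)⁻¹ = f (ab * σ * ab⁻¹)) ∧
          ∀ σ ∈ alternatingGroup (Fin 6), FreeGroup.lift x (wd σ) = f σ := by
  let A : FreeGroup (Fin 2) := FreeGroup.of 0
  let Z : FreeGroup (Fin 2) := FreeGroup.of 1
  let xw : Fin 6 → FreeGroup (Fin 2) := ![1, 1, Z, A * Z ^ ε * A⁻¹, A * (A * Z * A⁻¹) * A⁻¹,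
    A * (A * (A * Z ^ ε * A⁻¹) * A⁻¹) * A⁻¹]
  have hεε : ∀ {K : Type} [Group K] (u : K), (u ^ ε) ^ ε = u := fun u => by
    rcases hε with rfl | rfl <;> simp
  have e2 : ab * tri 0 1 2 * ab⁻¹ = tri 0 1 3 ^ ε := h 2 (by decide) (by decide)
  have e3 : ab * tri 0 1 3 * ab⁻¹ = tri 0 1 4 ^ ε := h 3 (by decide) (by decide)
  have e4 : ab * tri 0 1 4 * ab⁻¹ = tri 0 1 5 ^ ε := h 4 (by decide) (by decide)
  have hx : ∀ i : Fin 6, i ≠ 0 → i ≠ 1 → FreeGroup.lift ![ab, tri 0 1 2] (xw i) = tri 0 1 i := by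
    intro i h0 h1
    fin_cases i
    · exact absurd rfl h0
    · exact absurd rfl h1
    · simp [xw, Z]
    · simp [xw, Z, A, ← conj_zpow, e2, hεε]
    · simp [xw, Z, A, ← conj_zpow, e2, e3, hεε]
    · simp [xw, Z, A, ← conj_zpow, e2, e3, e4, hεε]
  obtain ⟨wd, w1, w2⟩ := exists_words (FreeGroup.lift ![ab, tri 0 1 2]) xw (S := Finset.univ)
    (by decide : (0 : Fin 6) ≠ 1) (Finset.mem_univ _) (Finset.mem_univ _) (fun i _ => hx i)
  refine ⟨[A ^ 4, xw 2 ^ 3, (xw 2 * xw 3) ^ 2, (xw 2 * xw 4) ^ 2], wd, rfl, ?_,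
    fun σ hσ => w1 σ (mem_altOn_univ hσ), fun J _ x hr => ?_⟩
  · simp only [List.forall_mem_cons, map_mul, map_pow, hx 2 (by decide) (by decide),
      hx 3 (by decide) (by decide), hx 4 (by decide) (by decide)]
    exact ⟨by simpa [A] using h4, by decide, by decide, by decide, by simp⟩
  · simp only [List.forall_mem_cons, map_mul, map_pow] at hr
    obtain ⟨r1, r2, r3, r4, -⟩ := hr
    set u : Fin 6 → J := fun i => FreeGroup.lift x (xw i) with hu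
    change u 2 ^ 3 = 1 at r2
    change (u 2 * u 3) ^ 2 = 1 at r3
    change (u 2 * u 4) ^ 2 = 1 at r4
    have c2 : x 0 * u 2 * (x 0)⁻¹ = u 3 ^ ε := by simp [u, xw, Z, A, conj_zpow, hεε]
    have c3 : x 0 * u 3 * (x 0)⁻¹ = u 4 ^ ε := by simp [u, xw, Z, A, conj_zpow]
    have c4 : x 0 * u 4 * (x 0)⁻¹ = u 5 ^ ε := by simp [u, xw, Z, A, conj_zpow, hεε]
    have c5 : x 0 * u 5 * (x 0)⁻¹ = u 2 ^ ε := by
      have : x 0 * u 5 * (x 0)⁻¹ = x 0 ^ 4 * x 1 ^ ε * (x 0 ^ 4)⁻¹ := by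
        simp [u, xw, Z, A, pow_succ, mul_assoc]
      rw [this, show x 0 ^ 4 = 1 by simpa [A] using r1]
      simp [u, xw, Z]
    have sh : ∀ {i j k l : Fin 6}, x 0 * u i * (x 0)⁻¹ = u k ^ ε → x 0 * u j * (x 0)⁻¹ = u l ^ ε →
        (u i * u j) ^ 2 = 1 → (u k * u l) ^ 2 = 1 := fun h1 h2 h3 => sq_of_zpow hε (by
      rw [← h1, ← h2, conj_mul, conj_pow, h3, mul_one, mul_inv_cancel])
    have cu : ∀ {i k : Fin 6}, x 0 * u i * (x 0)⁻¹ = u k ^ ε → u i ^ 3 = 1 → u k ^ 3 = 1 :=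
      fun {i k} h1 h2 => by
        rw [← hεε (u k), ← h1, ← zpow_natCast, ← zpow_mul, mul_comm, zpow_mul, zpow_natCast,
          conj_pow, h2, mul_one, mul_inv_cancel, one_zpow]
    have p34 := sh c2 c3 r3
    have p45 := sh c3 c4 p34
    have p52 := sh c4 c5 p45
    have p35 := sh c2 c4 r4
    obtain ⟨f, hf, hfx⟩ := exists_phom (S := Finset.univ) (by decide : (0 : Fin 6) ≠ 1)
      (Finset.mem_univ _) (Finset.mem_univ _) u
      (fun i _ h0 h1 => by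
        fin_cases i
        exacts [absurd rfl h0, absurd rfl h1, r2, cu c2 r2, cu c3 (cu c2 r2),
          cu c4 (cu c3 (cu c2 r2))])
      (fun i _ h0 h1 j _ h2 h3 hij => by
        fin_cases i
        · exact absurd rfl h0
        · exact absurd rfl h1
        all_goals
          fin_cases j
          · exact absurd rfl h2
          · exact absurd rfl h3
          all_goals first | exact absurd rfl hij | assumption | exact sq_mul_comm ‹_›)
    refine ⟨f, hf, ?_, fun σ hσ => (hf.conj _).ext_star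
      (hf.comp_conj (y := ab) fun _ _ => Finset.mem_univ _) (by decide : (0 : Fin 6) ≠ 1)
      (Finset.mem_univ _) (Finset.mem_univ _) (fun i _ h0 h1 => ?_) (mem_altOn_univ hσ),
      fun σ hσ => w2 J _ f hf hfx σ (mem_altOn_univ hσ)⟩
    · rw [hfx 2 (Finset.mem_univ _) (by decide) (by decide)]; simp [u, xw, Z]
    · have k : ∀ i : Fin 6, i ≠ 0 → i ≠ 1 → ![0, 1, 3, 4, 5, 2] i ≠ (0 : Fin 6) ∧
        ![0, 1, 3, 4, 5, 2] i ≠ (1 : Fin 6) := by decide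
      rw [h i h0 h1, hf.zpow (tri_mem_altOn (by decide) (k i h0 h1).1 (Finset.mem_univ _)
        (Finset.mem_univ _) (Finset.mem_univ _)), hfx i (Finset.mem_univ _) h0 h1,
        hfx _ (Finset.mem_univ _) (k i h0 h1).1 (k i h0 h1).2]
      fin_cases i
      exacts [absurd rfl h0, absurd rfl h1, c2, c3, c4, c5]

theorem exists_pres_alt_six : ∃ (g : Fin 2 → alternatingGroup (Fin 6))
    (rels : Finset (FreeGroup (Fin 2))), rels.card ≤ 5 ∧ IsPres g (rels : Set (FreeGroup (Fin 2))) := by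
  let ab : Perm (Fin 6) := swap 2 5 * swap 2 4 * swap 2 3 * swap 0 1
  have hA : ab ∈ alternatingGroup (Fin 6) := by rw [mem_alternatingGroup]; decide
  have hz : tri 0 1 2 ∈ alternatingGroup (Fin 6) := by rw [mem_alternatingGroup]; decide
  have h : ∀ i : Fin 6, i ≠ 0 → i ≠ 1 →
      ab * tri 0 1 i * ab⁻¹ = tri 0 1 (![0, 1, 3, 4, 5, 2] i) ^ (-1 : ℤ) := by
    simp only [zpow_neg_one]; decide
  obtain ⟨L, wd, l1, l2, l3, l4⟩ := six_core (Or.inr rfl) (by decide) h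
  let g : Fin 2 → alternatingGroup (Fin 6) := ![⟨ab, hA⟩, ⟨tri 0 1 2, hz⟩]
  have hg' : (fun i => (alternatingGroup (Fin 6)).subtype (g i)) = ![ab, tri 0 1 2] := by
    ext1 i; fin_cases i <;> rfl
  have key := isPres_of_list (g := g) ((FreeGroup.of 0 * (wd ab)⁻¹) :: L) ?_ ?_ ?_
  · obtain ⟨rels, r1, r2⟩ := key
    exact ⟨g, rels, by simpa [l1] using r1, r2⟩
  · intro w hw
    apply (alternatingGroup (Fin 6)).subtype_injective
    rw [map_lift, hg', map_one]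
    rcases List.mem_cons.1 hw with rfl | hw
    · simp [l3 _ hA]
    · exact l2 w hw
  · rw [← FreeGroup.range_lift_eq_closure, MonoidHom.range_eq_top]
    refine fun σ => ⟨wd σ, (alternatingGroup (Fin 6)).subtype_injective ?_⟩
    rw [map_lift, hg', l3 _ σ.2, subtype_apply]
  · intro J _ x hx
    rw [List.forall_mem_cons] at hx
    obtain ⟨f, hf, f1, -, f3⟩ := l4 J x hx.2
    obtain ⟨ψ, hψ⟩ := hf.exists_alt_hom
    refine ⟨ψ, fun i => ?_⟩
    rw [hψ]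
    fin_cases i
    · have := hx.1
      rw [map_mul, map_inv, f3 _ hA, FreeGroup.lift_apply_of, mul_inv_eq_one] at this
      exact this.symm
    · exact f1.symm

theorem exists_pres_perm_six : ∃ (g : Fin 2 → Perm (Fin 6))
    (rels : Finset (FreeGroup (Fin 2))), rels.card ≤ 5 ∧ IsPres g (rels : Set (FreeGroup (Fin 2))) := by
  let ab : Perm (Fin 6) := swap 2 5 * swap 2 4 * swap 2 3
  have hA : ab ∉ alternatingGroup (Fin 6) := by rw [mem_alternatingGroup]; decide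
  have hA2 : ab * ab ∈ alternatingGroup (Fin 6) := by rw [mem_alternatingGroup]; decide
  have hz : tri 0 1 2 ∈ alternatingGroup (Fin 6) := by rw [mem_alternatingGroup]; decide
  have h : ∀ i : Fin 6, i ≠ 0 → i ≠ 1 →
      ab * tri 0 1 i * ab⁻¹ = tri 0 1 (![0, 1, 3, 4, 5, 2] i) ^ (1 : ℤ) := by
    simp only [zpow_one]; decide
  obtain ⟨L, wd, l1, l2, l3, l4⟩ := six_core (Or.inl rfl) (by decide) h
  have key := isPres_of_list (g := ![ab, tri 0 1 2])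
    ((FreeGroup.of 0 * FreeGroup.of 0 * (wd (ab * ab))⁻¹) :: L) ?_ ?_ ?_
  · obtain ⟨rels, r1, r2⟩ := key
    exact ⟨_, rels, by simpa [l1] using r1, r2⟩
  · intro w hw
    rcases List.mem_cons.1 hw with rfl | hw
    · simp [l3 _ hA2]
    · exact l2 w hw
  · rw [← FreeGroup.range_lift_eq_closure, MonoidHom.range_eq_top]
    intro σ
    by_cases hσ : σ ∈ alternatingGroup (Fin 6)
    · exact ⟨wd σ, l3 _ hσ⟩
    · refine ⟨wd (σ * ab⁻¹) * FreeGroup.of 0, ?_⟩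
      rw [map_mul, l3, FreeGroup.lift_apply_of]
      · exact inv_mul_cancel_right σ ab
      · rw [mem_alternatingGroup] at hσ hA ⊢
        rw [map_mul, sign_inv, (Int.units_eq_one_or _).resolve_left hσ,
          (Int.units_eq_one_or _).resolve_left hA]
        rfl
  · intro J _ x hx
    rw [List.forall_mem_cons] at hx
    obtain ⟨f, hf, f1, f2, f3⟩ := l4 J x hx.2
    have := hx.1
    rw [map_mul, map_mul, map_inv, f3 _ hA2, FreeGroup.lift_apply_of, mul_inv_eq_one] at this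
    obtain ⟨ψ, ψ1, ψ2⟩ := hf.exists_perm_hom hA this f2
    refine ⟨ψ, fun i => ?_⟩
    fin_cases i
    · exact ψ2
    · exact (ψ1 _ hz).trans f1.symm

/-- A group has presentations with three and with two generators and at most seven relators. -/
def HasShortPres (G : Type*) [Group G] : Prop :=
  (∃ (g : Fin 3 → G) (rels : Finset (FreeGroup (Fin 3))), rels.card ≤ 7 ∧
    IsPres g (rels : Set (FreeGroup (Fin 3)))) ∧
  ∃ (g : Fin 2 → G) (rels : Finset (FreeGroup (Fin 2))), rels.card ≤ 7 ∧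
    IsPres g (rels : Set (FreeGroup (Fin 2)))

theorem hasShortPres_of_three {G : Type*} [Group G]
    (h : ∃ (g : Fin 3 → G) (rels : Finset (FreeGroup (Fin 3))), rels.card ≤ 7 ∧
      IsPres g (rels : Set (FreeGroup (Fin 3))) ∧ closure (Set.range ![g 0, g 2]) = ⊤) :
    HasShortPres G := by
  obtain ⟨g, rels, h1, h2, h3⟩ := h
  obtain ⟨rels', h4, h5⟩ := h2.tietze ![g 0, g 2] h3 ∅ ![0, 2]
    (fun j _ => by fin_cases j <;> rfl) (by decide)
  exact ⟨⟨g, rels, h1, h2⟩, _, rels', h4.trans h1, h5⟩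

theorem hasShortPres_of_two {G : Type*} [Group G]
    (h : ∃ (g : Fin 2 → G) (rels : Finset (FreeGroup (Fin 2))), rels.card ≤ 5 ∧
      IsPres g (rels : Set (FreeGroup (Fin 2)))) : HasShortPres G := by
  obtain ⟨g, rels, h1, h2⟩ := h
  obtain ⟨rels', h4, h5⟩ := h2.tietze_all ![g 0, g 1] (by
    rw [← h2.closure_eq]; congr 2; ext1 i; fin_cases i <;> rfl)
  obtain ⟨rels'', h6, h7⟩ := h2.tietze ![g 0, g 1, 1] (by
    refine eq_top_iff.2 (h2.closure_eq.ge.trans (closure_mono ?_))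
    rintro _ ⟨i, rfl⟩
    fin_cases i
    · exact ⟨0, rfl⟩
    · exact ⟨1, rfl⟩) {2} ![0, 1, 0] (fun j hj => by
      fin_cases j
      · rfl
      · rfl
      · simp at hj) (by decide)
  exact ⟨⟨_, rels'', by simp at h6; omega, h7⟩, g, rels, by omega, h2⟩

theorem hasShortPres {n : ℕ} (hn : 5 ≤ n) :
    HasShortPres (Perm (Fin n)) ∧ HasShortPres (alternatingGroup (Fin n)) := by
  by_cases h6 : n = 6
  · subst h6
    exact ⟨hasShortPres_of_two exists_pres_perm_six, hasShortPres_of_two exists_pres_alt_six⟩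
  obtain ⟨p, l, hp, rfl, h1, h2⟩ : ∃ p l : ℕ, p.Prime ∧ n = p + 2 + l ∧ l + 3 ≤ p ∧ 2 * l + 1 ≤ p := by
    by_cases h5 : n = 5
    · exact ⟨3, 0, Nat.prime_three, h5, le_rfl, by omega⟩
    · obtain ⟨p, hp, h1, h2⟩ := exists_prime_two_thirds (n := n) (by omega)
      exact ⟨p, n - p - 2, hp, by omega, by omega, by omega⟩
  obtain ⟨pt, c₁, c₂, δ, δ', Δ, r, ε, ab, bb, y, β, h, hg⟩ := exists_model hp h1 h2
  have : Fact p.Prime := ⟨hp⟩
  exact ⟨hasShortPres_of_three (exists_pres_perm h hg), hasShortPres_of_three (exists_pres_alt h hg)⟩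

theorem HasShortPres.pair {G : Type*} [Group G] (h : HasShortPres G) {a b : G}
    (hab : closure ({a, b} : Set G) = ⊤) : ∃ rels : Finset (FreeGroup (Fin 2)), rels.card ≤ 9 ∧
      ∃ e : PresentedGroup (rels : Set (FreeGroup (Fin 2))) ≃* G,
        e (PresentedGroup.of 0) = a ∧ e (PresentedGroup.of 1) = b := by
  obtain ⟨-, g, rels, h1, h2⟩ := h
  obtain ⟨rels', h3, e, he⟩ := h2.tietze_all ![a, b] (by simpa [Set.pair_comm] using hab)
  exact ⟨rels', by omega, e, he 0, he 1⟩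

theorem exists_pres_of_subsingleton (G : Type*) [Group G] [Subsingleton G] :
    ∃ rels : Finset (FreeGroup (Fin 2)), rels.card ≤ 2 ∧
      IsPres (fun _ => (1 : G)) (rels : Set (FreeGroup (Fin 2))) :=
  isPres_of_list [FreeGroup.of 0, FreeGroup.of 1] (fun _ _ => Subsingleton.elim _ _)
    (Subsingleton.elim _ _) fun J _ x hx => ⟨1, fun i => by
      fin_cases i
      · simpa using (hx (FreeGroup.of 0) (by simp)).symm
      · simpa using (hx (FreeGroup.of 1) (by simp)).symm⟩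

theorem exists_pres_carmichael (m : ℕ) : ∃ rels : Finset (FreeGroup (Fin m)),
    rels.card ≤ m * m ∧ IsPres (CL.AltPres.gen (m := m)) (rels : Set (FreeGroup (Fin m))) := by
  classical
  refine ⟨Finset.univ.image fun ij : Fin m × Fin m => if ij.1 = ij.2 then FreeGroup.of ij.1 ^ 3
    else (FreeGroup.of ij.1 * FreeGroup.of ij.2) ^ 2, Finset.card_image_le.trans (by simp),
    isPres_of_section ?_ (CL.AltPres.closure_gen m) fun J _ x hx => ?_⟩
  · simp only [Finset.coe_image, Set.forall_mem_image]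
    rintro ⟨i, j⟩ -
    split_ifs with h
    · simpa using CL.AltPres.gen_pow_three i
    · simpa using CL.AltPres.gen_mul_gen_sq h
  · simp only [Finset.coe_image, Set.forall_mem_image] at hx
    exact CL.AltPres.exists_alt_hom m x (fun i => by simpa using @hx (i, i) (by simp))
      (fun i j h => by simpa [h] using @hx (i, j) (by simp))

theorem exists_pres_coxeter (k : ℕ) : ∃ rels : Finset (FreeGroup (Fin k)),
    rels.card ≤ (Finset.univ.filter fun ij : Fin k × Fin k => ij.1 ≤ ij.2).card ∧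
      IsPres (fun i : Fin k => swap i.castSucc i.succ) (rels : Set (FreeGroup (Fin k))) := by
  classical
  refine ⟨(Finset.univ.filter fun ij : Fin k × Fin k => ij.1 ≤ ij.2).image fun ij =>
    if ij.1 = ij.2 then FreeGroup.of ij.1 * FreeGroup.of ij.1
    else if (ij.2 : ℕ) = ij.1 + 1 then FreeGroup.of ij.1 * FreeGroup.of ij.2 * FreeGroup.of ij.1 *
      (FreeGroup.of ij.2 * FreeGroup.of ij.1 * FreeGroup.of ij.2)⁻¹
    else FreeGroup.of ij.1 * FreeGroup.of ij.2 * (FreeGroup.of ij.2 * FreeGroup.of ij.1)⁻¹,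
    Finset.card_image_le, isPres_of_section ?_ ?_ fun J _ x hx => ?_⟩
  · simp only [Finset.coe_image, Set.forall_mem_image]
    rintro ⟨i, j⟩ hij
    have hij' : (i : ℕ) ≤ j := by simpa using hij
    split_ifs with h h'
    · simp
    · simp only [map_mul, map_inv, FreeGroup.lift_apply_of, mul_inv_eq_one]
      ext z
      simp only [mul_apply, swap_apply_def, Fin.ext_iff, Fin.val_castSucc, Fin.val_succ] at h h' ⊢
      grind
    · simp only [map_mul, map_inv, FreeGroup.lift_apply_of, mul_inv_eq_one]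
      ext z
      simp only [mul_apply, swap_apply_def, Fin.ext_iff, Fin.val_castSucc, Fin.val_succ] at h h' ⊢
      grind
  · exact eq_top_iff.2 fun σ _ => le_closure_toSubmonoid _
      ((mclosure_swap_castSucc_succ k).ge (Submonoid.mem_top σ))
  · simp only [Finset.coe_image, Set.forall_mem_image] at hx
    refine CL.exists_perm_hom_of_braid k x (fun i => by simpa using @hx (i, i) (by simp))
      (fun i j h => ?_) (fun i j h => ?_)
    · have := @hx (i, j) (Finset.mem_coe.2 (Finset.mem_filter.2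
        ⟨Finset.mem_univ _, Fin.le_def.2 (by simp only; omega)⟩))
      simp only [if_neg (show i ≠ j from fun e => by rw [e] at h; omega),
        if_neg (show (j : ℕ) ≠ i + 1 by omega), map_mul, map_inv, FreeGroup.lift_apply_of,
        mul_inv_eq_one] at this
      exact this
    · have := @hx (i, j) (Finset.mem_coe.2 (Finset.mem_filter.2
        ⟨Finset.mem_univ _, Fin.le_def.2 (by simp only; omega)⟩))
      simp only [if_neg (show i ≠ j from fun e => by rw [e] at h; omega), if_pos h, map_mul,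
        map_inv, FreeGroup.lift_apply_of, mul_inv_eq_one] at this
      exact this

end CL.KSG
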