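/-
Products of conjugacy classes in `SL(V)`: basic tools (classes, cyclic operators, padding).
-/
import Mathlib
import Cfsg.Agent.KSG.GLnPole

set_option autoImplicit false

namespace CL.Cov

open Module Polynomial CL.GLn
open scoped Pointwise

variable {F : Type*} [Field F] {U V W : Type*} [AddCommGroup U] [Module F U] [AddCommGroup V]
  [Module F V] [AddCommGroup W] [Module F W]

/-- Conjugation by a linear equivalence. -/
abbrev cj (e : V ≃ₗ[F] W) : End F V ≃ₐ[F] End F W := e.conjAlgEquiv F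

theorem cj_apply (e : V ≃ₗ[F] W) (A : End F V) (w : W) : cj e A w = e (A (e.symm w)) := rfl

theorem cj_trans (e : U ≃ₗ[F] V) (e' : V ≃ₗ[F] W) (A : End F U) :
    cj (e.trans e') A = cj e' (cj e A) := rfl

theorem simil_cj (e : V ≃ₗ[F] W) (A : End F V) : Simil A (cj e A) :=
  ⟨e, fun v => by simp⟩

theorem simil_iff {A : End F V} {B : End F W} : Simil A B ↔ ∃ e : V ≃ₗ[F] W, cj e A = B :=
  ⟨fun ⟨e, he⟩ => ⟨e, LinearMap.ext fun w => by rw [cj_apply, he, e.apply_symm_apply]⟩,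
    fun ⟨e, he⟩ => he ▸ simil_cj e A⟩

theorem exists_equiv {g : End F V} (hg : IsUnit g) : ∃ e : V ≃ₗ[F] V, (e : V →ₗ[F] V) = g :=
  ⟨LinearEquiv.ofBijective g ((End.isUnit_iff g).mp hg), rfl⟩

theorem isUnit_coe (e : V ≃ₗ[F] V) : IsUnit (e : End F V) := (End.isUnit_iff _).mpr e.bijective

theorem cj_mul (e : V ≃ₗ[F] V) (A : End F V) : cj e A * (e : End F V) = e * A :=
  LinearMap.ext fun v => by simp

theorem cj_eq_of_mul {e : V ≃ₗ[F] V} {A B : End F V} (h : B * (e : End F V) = e * A) :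
    cj e A = B := (isUnit_coe e).mul_right_cancel (by rw [cj_mul, h])

theorem det_ne_zero {g : End F V} (hg : IsUnit g) : LinearMap.det g ≠ 0 :=
  (hg.map LinearMap.det).ne_zero

theorem det_trans (e e' : V ≃ₗ[F] V) : LinearMap.det (e.trans e' : V →ₗ[F] V) =
    LinearMap.det (e' : V →ₗ[F] V) * LinearMap.det (e : V →ₗ[F] V) := by
  rw [LinearEquiv.coe_trans, LinearMap.det_comp]

/-- The class of `x` under `SL(V)`. -/
def Cl (x : End F V) : Set (End F V) :=
  {y | ∃ e : V ≃ₗ[F] V, LinearMap.det (e : V →ₗ[F] V) = 1 ∧ cj e x = y}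

/-- The centraliser of `x` contains elements of every determinant. -/
def Full (x : End F V) : Prop :=
  ∀ c : F, c ≠ 0 → ∃ g : End F V, IsUnit g ∧ Commute g x ∧ LinearMap.det g = c

/-- Closed under conjugation by `SL(V)`. -/
def Inv (C : Set (End F V)) : Prop := ∀ y ∈ C, Cl y ⊆ C

/-- Non-scalar. -/
def NS (g : End F V) : Prop := ∀ c : F, g ≠ algebraMap F _ c

theorem self_mem_Cl (x : End F V) : x ∈ Cl x := ⟨LinearEquiv.refl F V, by simp, rfl⟩

theorem simil_of_mem {x y : End F V} (h : y ∈ Cl x) : Simil x y :=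
  let ⟨e, _, he⟩ := h; he ▸ simil_cj e x

theorem inv_Cl (x : End F V) : Inv (Cl x) := by
  rintro _ ⟨e, he, rfl⟩ _ ⟨e', he', rfl⟩
  exact ⟨e.trans e', by rw [det_trans, he, he', one_mul], rfl⟩

theorem mem_Cl_of_det {x : End F V} (e : V ≃ₗ[F] V) (h : ∃ g : End F V, IsUnit g ∧ Commute g x ∧
    LinearMap.det g * LinearMap.det (e : V →ₗ[F] V) = 1) : cj e x ∈ Cl x := by
  obtain ⟨g, hg, hgx, hd⟩ := h
  obtain ⟨z, rfl⟩ := exists_equiv hg
  exact ⟨z.trans e, by rw [det_trans, mul_comm, hd], by rw [cj_trans, cj_eq_of_mul hgx.eq.symm]⟩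

theorem Full.mem_Cl {x y : End F V} (hx : Full x) (h : Simil x y) : y ∈ Cl x := by
  obtain ⟨e, rfl⟩ := simil_iff.mp h
  have he := det_ne_zero (isUnit_coe e)
  obtain ⟨g, hg, hgx, hd⟩ := hx _ (inv_ne_zero he)
  exact mem_Cl_of_det e ⟨g, hg, hgx, by rw [hd, inv_mul_cancel₀ he]⟩

theorem Full.of_simil {x : End F V} {y : End F W} (hx : Full x) (h : Simil x y) : Full y :=
  fun c hc => h.symm.exists_commute_det (hx c hc)

theorem map_mem_pow {M N Φ : Type*} [Monoid M] [Monoid N] [FunLike Φ M N] [MonoidHomClass Φ M N]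
    (f : Φ) {C : Set M} {D : Set N} (h : ∀ y ∈ C, f y ∈ D) {k : ℕ} {y : M} (hy : y ∈ C ^ k) :
    f y ∈ D ^ k :=
  Set.pow_subset_pow_left (Set.image_subset_iff.mpr h) (Set.image_pow f C k ▸ ⟨y, hy, rfl⟩)

theorem Inv.pow {C : Set (End F V)} (h : Inv C) (k : ℕ) : Inv (C ^ k) := by
  rintro y hy _ ⟨e, he, rfl⟩
  exact map_mem_pow (cj e) (fun z hz => h z hz ⟨e, he, rfl⟩) hy

theorem Inv.mul {C D : Set (End F V)} (h : Inv C) (h' : Inv D) : Inv (C * D) := by
  rintro _ ⟨y, hy, z, hz, rfl⟩ _ ⟨e, he, rfl⟩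
  exact ⟨_, h y hy ⟨e, he, rfl⟩, _, h' z hz ⟨e, he, rfl⟩, (map_mul _ _ _).symm⟩

theorem Inv.mem_of_simil {C : Set (End F V)} (h : Inv C) {x y : End F V} (hx : x ∈ C)
    (hf : Full x) (hs : Simil x y) : y ∈ C := h x hx (hf.mem_Cl hs)

theorem NS.of_simil {x : End F V} {y : End F W} (hx : NS x) (h : Simil x y) : NS y := by
  obtain ⟨e, rfl⟩ := simil_iff.mp h
  exact fun c hc => hx c ((cj e).injective (by rw [hc, AlgEquiv.commutes]))

theorem ns_iff {x : End F V} : NS x ↔ ∃ v, x v ∉ Submodule.span F {v} := by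
  refine ⟨fun h => ?_, fun ⟨v, hv⟩ c hc => hv (Submodule.mem_span_singleton.mpr ⟨c, by simp [hc]⟩)⟩
  by_contra! h'
  obtain ⟨a, ha⟩ := x.exists_eq_smul_id_of_forall_notLinearIndependent fun v hv => by
    obtain ⟨c, hc⟩ := Submodule.mem_span_singleton.mp (h' v)
    simpa using ((LinearIndependent.pair_iff.mp hv) c (-1) (by simp [hc])).2
  exact h a (by rw [ha, Algebra.algebraMap_eq_smul_one])

theorem mem_pow_succ {M : Type*} [Monoid M] {C : Set M} {k : ℕ} {y g : M} (hy : y ∈ C)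
    (hg : g ∈ C ^ k) : y * g ∈ C ^ (k + 1) := by
  rw [pow_succ']; exact Set.mul_mem_mul hy hg

theorem det_of_mem_pow {C : Set (End F V)} {d : F} (h : ∀ y ∈ C, LinearMap.det y = d) {k : ℕ} :
    ∀ {y}, y ∈ C ^ k → LinearMap.det y = d ^ k := by
  induction k with
  | zero => rintro y (rfl : y = 1); simp
  | succ k ih =>
    rw [pow_succ]
    rintro _ ⟨y, hy, z, hz, rfl⟩
    rw [map_mul, ih hy, h z hz, pow_succ]

/-! ### Cyclic operators -/

/-- `T` has a cyclic vector. -/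
def Cyc (T : End F V) : Prop :=
  ∃ a, ∀ N : Submodule F V, a ∈ N → (∀ v ∈ N, T v ∈ N) → N = ⊤

theorem Cyc.of_simil {A : End F V} {B : End F W} (h : Cyc A) (hs : Simil A B) : Cyc B := by
  obtain ⟨a, ha⟩ := h
  obtain ⟨e, he⟩ := hs
  refine ⟨e a, fun N h1 h2 => eq_top_iff.mpr fun w _ => ?_⟩
  have := (ha (N.comap (e : V →ₗ[F] W)) h1 fun v hv => by simpa [he] using h2 _ hv).ge
    (Submodule.mem_top (x := e.symm w))
  simpa using this

theorem cyc_cyc (h : F[X]) : Cyc (cyc h) := ⟨1, fun N h1 h2 => eq_top_iff.mpr fun v _ => by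
  obtain ⟨P, rfl⟩ := AdjoinRoot.mk_surjective v
  rw [← mul_one (AdjoinRoot.mk h P), ← aeval_cyc_apply]
  exact Polynomial.aeval_apply_smul_mem_of_le_comap h1 P _ h2⟩

variable [FiniteDimensional F V]

theorem Cyc.simil {T : End F V} (h : Cyc T) : Simil T (cyc T.charpoly) := by
  obtain ⟨a, ha⟩ := h
  have hm := T.charpoly_monic
  have := finiteDimensional_adjoinRoot hm.ne_zero
  have h0 : aeval T T.charpoly a = 0 := by rw [LinearMap.aeval_self_charpoly]; rfl
  have h1 : Function.Surjective (evV T a ∘ₗ AdjoinRoot.modByMonicHom hm) := fun v => by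
    obtain ⟨P, rfl⟩ : v ∈ LinearMap.range (evV T a) := (ha (LinearMap.range _) ⟨1, by simp⟩ (by
      rintro _ ⟨P, rfl⟩
      exact ⟨X * P, by simp⟩)).ge Submodule.mem_top
    exact ⟨AdjoinRoot.mk _ P, by simp [aeval_modByMonic_apply h0]⟩
  have h2 := (LinearMap.injective_iff_surjective_of_finrank_eq_finrank (by
    rw [finrank_adjoinRoot, T.charpoly_natDegree])).mpr h1
  refine simil_cyc_of_vector (a := a) hm T.charpoly_natDegree fun P => ⟨fun hP => ?_, ?_⟩
  · exact AdjoinRoot.mk_eq_zero.mp (h2 (by simpa [aeval_modByMonic_apply h0] using hP))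
  · rintro ⟨Q, rfl⟩
    rw [map_mul, LinearMap.aeval_self_charpoly, zero_mul]; rfl

theorem Cyc.of_mul_eq_one {A B : End F V} (h : Cyc A) (hAB : A * B = 1) : Cyc B := by
  obtain ⟨a, ha⟩ := h
  refine ⟨a, fun N h1 h2 => ha N h1 fun v hv => ?_⟩
  have hB : Function.Injective B := fun u w h => by
    simpa [← End.mul_apply, hAB] using congrArg A h
  obtain ⟨⟨w, hw⟩, hw'⟩ := LinearMap.surjective_of_injective (f := B.restrict h2)
    (fun u w h => Subtype.ext (hB (congrArg Subtype.val h))) ⟨v, hv⟩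
  obtain rfl : B w = v := congrArg Subtype.val hw'
  rwa [← End.mul_apply, hAB]

/-- Cyclic with a simple eigenvalue. -/
def ET (E : End F V) : Prop :=
  ∃ (h : F[X]) (δ : F), h.Monic ∧ h.eval δ ≠ 0 ∧ Simil E (cyc (h * (X - C δ)))

omit [FiniteDimensional F V] in
theorem ET.of_simil {A : End F V} {B : End F W} (h : ET A) (hs : Simil A B) : ET B :=
  let ⟨f, δ, h1, h2, h3⟩ := h; ⟨f, δ, h1, h2, hs.symm.trans h3⟩

omit [FiniteDimensional F V] in
theorem ET.full {E : End F V} (h : ET E) : Full E :=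
  let ⟨_, _, h1, h2, h3⟩ := h; fun _ hc => h3.exists_commute_det_of_cyc_mul h1 h2 hc

omit [FiniteDimensional F V] in
theorem ET.cyc {E : End F V} (h : ET E) : Cyc E :=
  let ⟨_, _, _, _, h3⟩ := h; (cyc_cyc _).of_simil h3.symm

theorem exists_simil_mul {g A E : End F V} (hg : IsUnit g) (hns : NS g) (hA : Cyc A) (hE : ET E)
    (hEu : IsUnit E) (hd : LinearMap.det g * LinearMap.det A = LinearMap.det E) :
    ∃ Y, Simil A Y ∧ Simil E (g * Y) := by
  obtain ⟨h, δ, h1, h2, h3⟩ := hE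
  have h4 := h1.mul (monic_X_sub_C δ)
  have h5 : (h * (X - C δ)).natDegree = h.natDegree + 1 := by
    rw [h1.natDegree_mul (monic_X_sub_C δ), natDegree_X_sub_C]
  have h6 : LinearMap.det E = (-1) ^ h.natDegree * h.coeff 0 * δ := by
    rw [h3.det_of_cyc h4, h5, mul_coeff_zero, pow_succ, coeff_sub, coeff_X_zero, coeff_C_zero]
    ring
  obtain ⟨Y, h7, h8⟩ := exists_mul_simil_cyc hg hns h1
    (by rw [h3.finrank_eq, finrank_adjoinRoot, h5]) (fun h0 => det_ne_zero hEu (by simp [h6, h0]))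
    A.charpoly_monic A.charpoly_natDegree h2 (by
      rw [← hA.simil.det_of_cyc A.charpoly_monic, hd, h6])
  exact ⟨Y, hA.simil.trans h7.symm, h3.trans h8.symm⟩

theorem exists_simil_factor {g A E : End F V} (hg : IsUnit g) (hns : NS g) (hA : Cyc A)
    (hAu : IsUnit A) (hE : ET E) (hEu : IsUnit E)
    (hd : LinearMap.det g = LinearMap.det E * LinearMap.det A) :
    ∃ E' A', Simil E E' ∧ Simil A A' ∧ g = E' * A' := by
  obtain ⟨B, hAB⟩ := hAu.exists_right_inv
  obtain ⟨Y, h1, h2⟩ := exists_simil_mul hg hns (hA.of_mul_eq_one hAB) hE hEu (by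
    rw [hd, mul_assoc, ← map_mul, hAB, map_one, mul_one])
  obtain ⟨e, rfl⟩ := simil_iff.mp h1
  exact ⟨_, _, h2, simil_cj e A, by
    rw [mul_assoc, ← map_mul, mul_eq_one_comm.mp hAB, map_one, mul_one]⟩

theorem mem_mul_of_ET {C D : Set (End F V)} (hC : Inv C) (hD : Inv D) {g A E : End F V}
    (hg : IsUnit g) (hns : NS g) (hA : Cyc A) (hAu : IsUnit A) (hAD : A ∈ D) (hE : ET E)
    (hEu : IsUnit E) (hEC : E ∈ C) (hf : Full A ∨ Full g)
    (hd : LinearMap.det g = LinearMap.det E * LinearMap.det A) : g ∈ C * D := by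
  obtain ⟨E', A', h1, h2, h3⟩ := exists_simil_factor hg hns hA hAu hE hEu hd
  rcases hf with hf | hf
  · exact h3 ▸ Set.mul_mem_mul (hC.mem_of_simil hEC hE.full h1) (hD.mem_of_simil hAD hf h2)
  · obtain ⟨e, rfl⟩ := simil_iff.mp h2
    have h4 : cj e.symm E' * A ∈ C * D :=
      Set.mul_mem_mul (hC.mem_of_simil hEC hE.full (h1.trans (simil_cj _ _))) hAD
    have h5 : Simil g (cj e.symm E' * A) := simil_iff.mpr ⟨e.symm, by
      rw [h3, map_mul]
      exact congrArg _ ((cj e).symm_apply_apply A)⟩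
    exact (hC.mul hD).mem_of_simil h4 (hf.of_simil h5) h5.symm

theorem mem_of_ET {C D : Set (End F V)} (hC : Inv C) (hD : Inv D) {x A E : End F V}
    (hx : IsUnit x) (hns : NS x) (hxC : x ∈ C) (hA : ET A) (hAD : A ∈ D) (hE : ET E)
    (hEu : IsUnit E) (hd : LinearMap.det x * LinearMap.det A = LinearMap.det E) : E ∈ C * D := by
  obtain ⟨Y, h1, h2⟩ := exists_simil_mul hx hns hA.cyc hE hEu hd
  exact (hC.mul hD).mem_of_simil (Set.mul_mem_mul hxC (hD.mem_of_simil hAD hA.full h1))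
    (hE.full.of_simil h2) h2.symm

/-! ### Transvections and padding -/

omit [FiniteDimensional F V] in
theorem exists_tv (θ : Dual F V) {v : V} (hv : θ v = 0) : ∃ τ : V ≃ₗ[F] V,
    (∀ z, τ z = z + θ z • v) ∧ ∀ z, τ.symm z = z - θ z • v :=
  ⟨LinearEquiv.ofLinearMap (1 + θ.smulRight v) (1 - θ.smulRight v) (by ext; simp [hv])
    (by ext; simp [hv]), fun _ => rfl, fun _ => rfl⟩

theorem det_tv {θ : Dual F V} {v : V} {τ : End F V} (h : ∀ z, τ z = z + θ z • v) :
    LinearMap.det τ = 1 + θ v := by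
  rw [← LinearMap.transvection.det]
  exact congrArg _ (LinearMap.ext h)

/-- Two ways of choosing a conjugate with prescribed values on `K ⊔ ⟨v⟩`. -/
theorem exists_conj_ns {y g : End F V} (hy : IsUnit y) {K : Submodule F V} {v : V}
    (hK : ∀ k ∈ K, y k ∈ K) (hK' : ∀ z, g z ∈ K ⊔ F ∙ y v → y z ∈ K ⊔ F ∙ y v)
    (hv : v ∉ K ⊔ F ∙ y v) (h3 : finrank F K + 3 ≤ finrank F V) :
    ∃ y' ∈ Cl y, (∀ k ∈ K, y' k = y k) ∧ y' v = y v ∧
      ∃ z, g z ∉ (K ⊔ F ∙ y v) ⊔ F ∙ y' z := by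
  by_cases h : ∃ z, g z ∉ (K ⊔ F ∙ y v) ⊔ F ∙ y z
  · exact ⟨y, self_mem_Cl y, fun _ _ => rfl, rfl, h⟩
  push Not at h
  obtain ⟨θ, hθ, hθ'⟩ := Submodule.exists_dual_map_eq_bot_of_lt_top
    (p := (K ⊔ F ∙ y v) ⊔ F ∙ v) (lt_top_iff_ne_top.mpr fun h => by
      have h1 := Submodule.finrank_add_le_finrank_add_finrank (K ⊔ F ∙ y v) (F ∙ v)
      have h2 := Submodule.finrank_add_le_finrank_add_finrank K (F ∙ y v)
      have h4 := (finrank_span_le_card (R := F) {v}).trans (by simp : _ ≤ 1)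
      have h5 := (finrank_span_le_card (R := F) {y v}).trans (by simp : _ ≤ 1)
      rw [h, finrank_top] at h1
      omega) inferInstance
  have h0 : ∀ z ∈ (K ⊔ F ∙ y v) ⊔ F ∙ v, θ z = 0 := fun z hz =>
    (Submodule.eq_bot_iff _).mp hθ' _ ⟨z, hz, rfl⟩
  have h1 : θ v = 0 := h0 _ (Submodule.mem_sup_right (Submodule.mem_span_singleton_self v))
  have h2 : ∀ z ∈ K ⊔ F ∙ y v, θ z = 0 := fun z hz => h0 _ (Submodule.mem_sup_left hz)
  have h4 : y v ∈ K ⊔ F ∙ y v := Submodule.mem_sup_right (Submodule.mem_span_singleton_self _)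
  obtain ⟨τ, hτ, hτ'⟩ := exists_tv θ h1
  obtain ⟨w, hw⟩ := DFunLike.ne_iff.mp hθ
  obtain ⟨z, rfl⟩ := ((End.isUnit_iff y).mp hy).2 w
  refine ⟨cj τ y, ⟨τ, by rw [det_tv hτ, h1, add_zero], rfl⟩, fun k hk => by
    simp [hτ, hτ', h2 k (Submodule.mem_sup_left hk),
      h2 _ (Submodule.mem_sup_left (hK k hk))], by simp [hτ, hτ', h1, h2 _ h4],
    z, fun hz => ?_⟩
  obtain ⟨k, hk, _, h6, ha⟩ := Submodule.mem_sup.mp (h z)
  obtain ⟨k', hk', _, h7, hb⟩ := Submodule.mem_sup.mp hz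
  obtain ⟨a, rfl⟩ := Submodule.mem_span_singleton.mp h6
  obtain ⟨b, rfl⟩ := Submodule.mem_span_singleton.mp h7
  simp only [cj_apply, hτ, hτ', map_sub, map_smul, h2 _ h4,
    smul_eq_mul, mul_zero] at ha hb
  have h5 := congrArg θ (ha.trans hb.symm)
  simp only [map_add, map_smul, map_sub, h2 k hk, h2 k' hk', h1, h2 _ h4, smul_eq_mul, mul_zero,
    add_zero, sub_zero, zero_add] at h5
  obtain rfl := mul_right_cancel₀ hw h5
  have ha0 : a ≠ 0 := by
    rintro rfl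
    exact hw (h2 _ (hK' z (by rw [← ha, zero_smul, add_zero]; exact hk)))
  refine hv ((Submodule.smul_mem_iff _ (mul_ne_zero ha0 hw)).mp ?_)
  rw [show (a * θ (y z)) • v = k - k' + (a * θ z) • y v by
    linear_combination (norm := module) hb.trans ha.symm]
  exact add_mem (sub_mem hk hk') (Submodule.smul_mem _ _ h4)

theorem exists_pad {x g : End F V} (hx : IsUnit x) (hns : NS x) (hg : IsUnit g)
    (h3 : 3 ≤ finrank F V) : ∃ y ∈ Cl x, ∃ g', IsUnit g' ∧ NS g' ∧ g = y * g' := by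
  suffices ∃ y ∈ Cl x, ∃ z, g z ∉ F ∙ y z by
    obtain ⟨y, hy, z, hz⟩ := this
    obtain ⟨u, rfl⟩ := (simil_of_mem hy).isUnit_iff.mp hx
    refine ⟨u, hy, ↑u⁻¹ * g, (Units.isUnit _).mul hg, fun c hc => hz ?_, by simp⟩
    rw [Units.inv_mul_eq_iff_eq_mul] at hc
    exact Submodule.mem_span_singleton.mpr ⟨c, by simp [hc]⟩
  by_cases h : ∃ z, g z ∉ F ∙ x z
  · exact ⟨x, self_mem_Cl x, h⟩
  push Not at h
  obtain ⟨v, hv⟩ := ns_iff.mp hns
  obtain ⟨y, hy, -, -, z, hz⟩ := exists_conj_ns hx (g := g) (K := ⊥) (v := v) (by simp) (fun z hz => by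
    obtain ⟨a, ha⟩ := Submodule.mem_span_singleton.mp (h z)
    by_cases ha0 : a = 0
    · obtain rfl : z = 0 := ((End.isUnit_iff g).mp hg).1 (by simp [← ha, ha0])
      simp
    · rwa [← ha, Submodule.smul_mem_iff _ ha0] at hz) (fun h => by
      obtain ⟨a, ha⟩ := Submodule.mem_span_singleton.mp (bot_sup_eq (F ∙ x v) ▸ h)
      by_cases ha0 : a = 0
      · rw [ha0, zero_smul] at ha
        exact hv (by simp [← ha])
      · exact hv (Submodule.mem_span_singleton.mpr ⟨a⁻¹, by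
          rw [inv_smul_eq_iff₀ ha0, ha]⟩)) (by simpa using h3)
  exact ⟨y, hy, z, fun h => hz (Submodule.mem_sup_right h)⟩

/-- Padding: one more factor covers everything of the right determinant. -/
theorem mem_mul_pad {x : End F V} (hx : IsUnit x) (hns : NS x) (h3 : 3 ≤ finrank F V)
    {C B : Set (End F V)} (hC : Cl x ⊆ C) {d : F}
    (h : ∀ g, IsUnit g → NS g → LinearMap.det g = d → g ∈ B) {g : End F V} (hg : IsUnit g)
    (hd : LinearMap.det g = LinearMap.det x * d) : g ∈ C * B := by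
  obtain ⟨y, hy, g', h1, h2, rfl⟩ := exists_pad hx hns hg h3
  refine Set.mul_mem_mul (hC hy) (h g' h1 h2 (mul_left_cancel₀ (det_ne_zero hx) ?_))
  rw [← hd, map_mul, (simil_of_mem hy).det]

theorem mem_pow_mul_pad {x : End F V} (hx : IsUnit x) (hns : NS x) (h3 : 3 ≤ finrank F V)
    {C B : Set (End F V)} (hC : Cl x ⊆ C) {d : F}
    (h : ∀ g, IsUnit g → NS g → LinearMap.det g = d → g ∈ B) (k : ℕ) :
    ∀ g, IsUnit g → NS g → LinearMap.det g = LinearMap.det x ^ k * d → g ∈ C ^ k * B := by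
  induction k with
  | zero => simpa using h
  | succ k ih =>
    intro g hg _ hd
    rw [pow_succ', mul_assoc]
    exact mem_mul_pad hx hns h3 hC ih hg (by rw [hd]; ring)

/-- The identity as a product of `n` conjugates. -/
theorem one_mem_pow {x : End F V} (hns : NS x) (hd : LinearMap.det x = 1)
    (h : ∃ g : End F V, IsUnit g ∧ Commute g x ∧ LinearMap.det g = (-1) ^ (finrank F V + 1)) :
    1 ∈ Cl x ^ finrank F V := by
  have hx : IsUnit x := (LinearMap.isUnit_iff_isUnit_det x).mpr (by simp [hd])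
  obtain ⟨l, hl⟩ := exists_dual_not_invariant hns
  have hl0 : l ≠ 0 := by rintro rfl; simp at hl
  obtain ⟨m, hm⟩ : ∃ m, finrank F V = m + 1 := ⟨_, (finrank_ker_dual_add_one hl0).symm⟩
  have h1 : (∑ i ∈ Finset.range (m + 1), (X : F[X]) ^ i).Monic := monic_geom_sum_X (by omega)
  have h2 : (∑ i ∈ Finset.range (m + 1), (X : F[X]) ^ i).natDegree = m := by
    have := congrArg natDegree (geom_sum_mul (X : F[X]) (m + 1))
    rw [← C_1, h1.natDegree_mul (monic_X_sub_C 1), natDegree_X_sub_C, natDegree_X_pow_sub_C] at this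
    omega
  have h3 : (∑ i ∈ Finset.range (m + 1), (X : F[X]) ^ i).coeff 0 = 1 := by
    simp [coeff_zero_eq_eval_zero, eval_geom_sum]
  have h4 : (X ^ (m + 1) - C 1 : F[X]).Monic := monic_X_pow_sub_C _ (by omega)
  obtain ⟨Y, hY, hX, hX'⟩ := exists_factor_cyc hx hl h1 (by rw [h2, hm]) (by simp [h3]) h4
    (by rw [natDegree_X_pow_sub_C, hm])
  have h5 : LinearMap.det Y = (-1) ^ m := by
    rw [hY.det_of_cyc h4, natDegree_X_pow_sub_C]
    simp [coeff_X_pow, pow_succ]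
  obtain ⟨δ, hδ⟩ := exists_eigenvalue_quot hl0 hX
  have h6 := det_eq_det_restrict_mul hl0 hX hδ
  rw [hX'.det_of_cyc h1, h2, h3, map_mul, hd, h5, one_mul, mul_one, eq_comm,
    mul_eq_left₀ (by simp)] at h6
  have h7 : (x * Y) ^ (m + 1) = 1 := by
    rw [← sub_eq_zero, ← geom_sum_mul]
    ext v
    have h8 : (x * Y - 1) v ∈ LinearMap.ker l := by
      rw [LinearMap.mem_ker, LinearMap.sub_apply, map_sub, hδ, h6]; simp
    have := intertwine_aeval (B := x * Y) (A := (x * Y).restrict hX) (LinearMap.ker l).subtype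
      (fun _ => rfl) (∑ i ∈ Finset.range (m + 1), X ^ i) ⟨_, h8⟩
    rw [hX'.aeval_cyc_self] at this
    simpa using this.symm
  have h8 : Y ^ (m + 1) = 1 := by simpa [sub_eq_zero] using hY.aeval_cyc_self
  obtain ⟨e, rfl⟩ := exists_equiv (hY.isUnit_of_cyc h4 (by simp [coeff_X_pow]))
  have h9 : ∀ y ∈ Cl x, cj e y ∈ Cl x := by
    rintro _ ⟨s, hs, rfl⟩
    obtain ⟨g, hg, hgx, hg'⟩ := h
    exact mem_Cl_of_det (s.trans e) ⟨g, hg, hgx, by
      rw [det_trans, hs, h5, hg', hm, mul_one, ← pow_add]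
      exact Even.neg_one_pow ⟨m + 1, by ring⟩⟩
  have key : ∀ k, ∃ z ∈ Cl x ^ k, (x * e) ^ k = z * (e : End F V) ^ k := fun k => by
    induction k with
    | zero => exact ⟨1, rfl, by simp⟩
    | succ k ih =>
      obtain ⟨z, hz, hz'⟩ := ih
      exact ⟨x * cj e z, mem_pow_succ (self_mem_Cl x) (map_mem_pow (cj e) h9 hz), by
        rw [pow_succ', hz', pow_succ', mul_assoc, mul_assoc, ← mul_assoc (cj e z), cj_mul,
          mul_assoc]⟩
  obtain ⟨z, hz, hz'⟩ := key (m + 1)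
  rw [h7, h8, mul_one] at hz'
  rwa [hm, hz']

end CL.Cov
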