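/-
Products of conjugacy classes in `SL(V)`: an operator with small eigenspaces moves some flag to an
opposite flag.
-/
import Mathlib
import Cfsg.Agent.KSG.Cov1
import Cfsg.Agent.KSG.LSCount

set_option autoImplicit false

namespace CL.Cov

open Module Polynomial CL.GLn

universe u

variable {F : Type*} [Field F] [Fintype F] {V : Type*} [AddCommGroup V] [Module F V]

theorem exists_forall_notMem {ι : Type*} (s : Finset ι) (p : ι → Submodule F V)
    (h : ∀ i, p i ≠ ⊤) (hs : s.card ≤ Fintype.card F) : ∃ v, ∀ i ∈ s, v ∉ p i := by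
  classical
  rcases s.eq_empty_or_nonempty with rfl | ⟨j, hj⟩
  · exact ⟨0, by simp⟩
  have h1 : (s.erase j).card < Fintype.card F := (Finset.card_erase_lt_of_mem hj).trans_le hs
  obtain ⟨x, -, hx⟩ := Set.exists_of_ssubset (Submodule.iUnion_ssubset_of_forall_ne_top_of_card_lt
    (s.erase j) p h (by simpa using h1))
  simp only [Set.mem_iUnion, SetLike.mem_coe, not_exists] at hx
  by_cases hxj : x ∈ p j
  · obtain ⟨y, -, hy⟩ := SetLike.exists_of_lt (h j).lt_top
    by_contra! hc
    choose f hf hf' using fun t : F => hc (y + t • x)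
    obtain ⟨a, -, b, -, hab, h2⟩ := Finset.exists_ne_map_eq_of_card_lt_of_maps_to (s := Finset.univ)
      (t := s.erase j) (f := f) h1 fun t _ => Finset.mem_erase.mpr ⟨fun h3 => hy
        (((p j).add_mem_iff_left ((p j).smul_mem t hxj)).mp (h3 ▸ hf' t)), hf t⟩
    by_cases h3 : f a = j
    · exact hy (((p j).add_mem_iff_left ((p j).smul_mem a hxj)).mp (h3 ▸ hf' a))
    · refine hx (f a) (Finset.mem_erase.mpr ⟨h3, hf a⟩) (((p _).smul_mem_iff
        (sub_ne_zero.mpr hab)).mp ?_)
      rw [sub_smul, ← add_sub_add_left_eq_sub _ _ y]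
      exact sub_mem (hf' a) (h2 ▸ hf' b)
  · exact ⟨x, fun i hi => if h : i = j then h ▸ hxj else hx i (Finset.mem_erase.mpr ⟨h, hi⟩)⟩

theorem exists_dual {ι : Type*} (s : Finset ι) (v : V) (w : ι → V) (h : ∀ i, w i ∉ F ∙ v)
    (hs : s.card ≤ Fintype.card F) : ∃ φ : Dual F V, φ v = 0 ∧ ∀ i ∈ s, φ (w i) ≠ 0 := by
  let N : Submodule F (Dual F V) := LinearMap.ker (Dual.eval F V v)
  obtain ⟨φ, hφ⟩ := exists_forall_notMem (V := N) s (fun i =>
    (LinearMap.ker (Dual.eval F V (w i))).comap N.subtype) (fun i hi => by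
      obtain ⟨φ, h1, h2⟩ := Submodule.exists_dual_map_eq_bot_of_notMem (h i) inferInstance
      have h3 : φ ∈ N := (Submodule.eq_bot_iff _).mp h2 _
        ⟨v, Submodule.mem_span_singleton_self v, rfl⟩
      exact h1 (hi.ge (Submodule.mem_top (x := ⟨φ, h3⟩)))) hs
  exact ⟨φ, φ.2, hφ⟩

variable [FiniteDimensional F V]

theorem exists_good_vector {x : End F V} (hx : IsUnit x) (hns : NS x) :
    ∃ v, x v ∉ F ∙ v ∧ ∀ c : F, x.eigenspace c ≠ ⊥ → ∀ u, x u - c • u ≠ v := by
  classical
  have h0 : x.eigenspace 0 = ⊥ := by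
    rw [End.eigenspace_zero, LinearMap.ker_eq_bot]
    exact ((End.isUnit_iff x).mp hx).1
  have h1 : ∀ c, x.eigenspace c ≠ ⊤ := fun c hc => hns c (LinearMap.ext fun v =>
    End.mem_eigenspace_iff.mp (hc.ge Submodule.mem_top))
  obtain ⟨μ, hμ⟩ : ∃ μ, ∀ c, x.eigenspace c ≠ ⊥ → x.eigenspace μ ≠ ⊥ := by
    by_cases h : ∃ c, x.eigenspace c ≠ ⊥
    · exact ⟨h.choose, fun _ _ => h.choose_spec⟩
    · exact ⟨0, fun c hc => absurd ⟨c, hc⟩ h⟩
  obtain ⟨v, hv⟩ := exists_forall_notMem Finset.univ (fun c : F => if x.eigenspace c = ⊥ then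
    x.eigenspace μ else LinearMap.range (x - c • 1)) (fun c => by
      split_ifs with h
      · exact h1 μ
      · rw [Ne, LinearMap.range_eq_top, ← LinearMap.injective_iff_surjective,
          ← LinearMap.ker_eq_bot, ← End.eigenspace_def]
        exact h) le_rfl
  have h2 : ∀ c : F, x.eigenspace c ≠ ⊥ → ∀ u, x u - c • u ≠ v := fun c hc u hu => by
    have := hv c (Finset.mem_univ _)
    rw [if_neg hc] at this
    exact this ⟨u, hu⟩
  have h3 := hv 0 (Finset.mem_univ _)
  rw [if_pos h0, End.mem_eigenspace_iff] at h3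
  refine ⟨v, fun h => ?_, h2⟩
  obtain ⟨c, hc⟩ := Submodule.mem_span_singleton.mp h
  have h4 : c - μ ≠ 0 := fun h => h3 (by rw [← hc, sub_eq_zero.mp h])
  refine h2 μ (hμ c ((Submodule.ne_bot_iff _).mpr ⟨v, End.mem_eigenspace_iff.mpr hc.symm,
    by rintro rfl; simp at h3⟩)) ((c - μ)⁻¹ • v) ?_
  rw [map_smul, ← hc, smul_comm μ, ← smul_sub, ← sub_smul, inv_smul_smul₀ h4]

theorem card_critical_le (x : End F V) [Nontrivial V] [DecidableEq F] : (Finset.univ.filter fun c : F =>
    finrank F V ≤ 2 * finrank F (x.eigenspace c)).card ≤ 2 := by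
  by_contra! h
  obtain ⟨a, ha, b, hb, c, hc, hab, hac, hbc⟩ := Finset.two_lt_card.mp h
  rw [Finset.mem_filter] at ha hb hc
  have h1 := Submodule.finrank_sup_add_finrank_inf_eq (x.eigenspace a) (x.eigenspace b)
  have h2 := Submodule.finrank_sup_add_finrank_inf_eq (x.eigenspace c)
    (x.eigenspace a ⊔ x.eigenspace b)
  rw [(x.eigenspaces_iSupIndep.pairwiseDisjoint hab).eq_bot, finrank_bot] at h1
  rw [((x.eigenspaces_iSupIndep c).mono_right (sup_le (le_iSup₂_of_le a hac le_rfl)
    (le_iSup₂_of_le b hbc le_rfl))).eq_bot, finrank_bot] at h2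
  have h3 := Submodule.finrank_le (x.eigenspace c ⊔ (x.eigenspace a ⊔ x.eigenspace b))
  have h4 := finrank_pos (R := F) (M := V)
  omega

theorem exists_anti_aux (h4 : 4 ≤ Fintype.card F) (n : ℕ) : ∀ {V : Type u} [AddCommGroup V]
    [Module F V] [FiniteDimensional F V] {x : End F V}, IsUnit x → finrank F V = n →
    (∀ c, 2 * finrank F (x.eigenspace c) ≤ n + 1) → ∃ f : Fin n → Dual F V,
      (∀ z, (∀ k, f k z = 0) → z = 0) ∧
      ∀ z (j : ℕ), (∀ k : Fin n, j ≤ k → f k z = 0) → ∀ i : Fin n, i + j < n → f i (x z) = 0 := by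
  classical
  induction n using Nat.twoStepInduction with
  | zero =>
    intro V _ _ _ x _ hn _
    exact ⟨Fin.elim0, fun z _ => finrank_zero_iff_forall_zero.mp hn z, fun _ _ _ i => i.elim0⟩
  | one =>
    intro V _ _ _ x _ hn _
    have key : ∀ z, (∀ k, (finBasisOfFinrankEq F V hn).coord k z = 0) → z = 0 := fun z hz =>
      (finBasisOfFinrankEq F V hn).forall_coord_eq_zero_iff.mp hz
    refine ⟨(finBasisOfFinrankEq F V hn).coord, key, fun z j hz i hi => ?_⟩
    rw [key z fun k => hz k (by omega), map_zero, map_zero]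
  | more n ih _ =>
    intro V _ _ _ x hx hn hc
    have : Nontrivial V := Module.nontrivial_of_finrank_pos (R := F) (by omega)
    obtain ⟨v, hv, hv'⟩ := exists_good_vector hx fun c h => by
      have h1 : x.eigenspace c = ⊤ := eq_top_iff.mpr fun v _ => by simp [h]
      have := hc c
      rw [h1, finrank_top] at this
      omega
    obtain ⟨e, rfl⟩ := exists_equiv hx
    have h1 : ∀ c : F, ∃ w, w ∉ F ∙ v ∧ (finrank F V ≤ 2 * finrank F (End.eigenspace (e : End F V) c) →
        e w = c • w) := fun c => by
      by_cases h : End.eigenspace (e : End F V) c = ⊥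
      · exact ⟨_, hv, fun h' => by rw [h, finrank_bot] at h'; omega⟩
      · obtain ⟨w, hw, hw0⟩ := (Submodule.ne_bot_iff _).mp h
        rw [End.mem_eigenspace_iff] at hw
        refine ⟨w, fun h => ?_, fun _ => hw⟩
        obtain ⟨a, rfl⟩ := Submodule.mem_span_singleton.mp h
        rw [map_smul, smul_comm c] at hw
        exact hv (Submodule.mem_span_singleton.mpr ⟨c, (smul_right_injective V
          (left_ne_zero_of_smul hw0) hw).symm⟩)
    choose w hw hw' using h1
    obtain ⟨φ, hφ, hφ'⟩ := exists_dual ((Finset.univ.filter fun c : F => finrank F V ≤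
      2 * finrank F (End.eigenspace (e : End F V) c)).disjSum (Finset.univ : Finset (Fin 2))) v
      (Sum.elim w ![e v, e.symm v]) (by
        rintro (c | i)
        · exact hw c
        · fin_cases i
          · exact hv
          · intro h
            obtain ⟨a, ha⟩ := Submodule.mem_span_singleton.mp h
            have h2 : a • e v = v := by simpa using congrArg e ha
            by_cases ha0 : a = 0
            · exact hv (by rw [← h2, ha0]; simp)
            · exact hv (Submodule.mem_span_singleton.mpr ⟨a⁻¹, by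
                rw [inv_smul_eq_iff₀ ha0]; exact h2.symm⟩)) (by
        have := card_critical_le (e : End F V)
        simp only [Finset.card_disjSum, Finset.card_univ, Fintype.card_fin]
        omega)
    have h2 : φ (e v) ≠ 0 := hφ' (.inr 0) (by simp)
    have h3 : φ (e.symm v) ≠ 0 := hφ' (.inr 1) (by simp)
    let α : Dual F V := (φ (e.symm v))⁻¹ • φ ∘ₗ (e.symm : V →ₗ[F] V)
    let γ : Dual F V := (φ (e v))⁻¹ • φ
    have a1 : α v = 1 := by simp [α, h3]
    have a2 : ∀ z, γ z = 0 → α (e z) = 0 := fun z hz => by simpa [α, γ, h2, h3] using hz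
    have g1 : γ v = 0 := by simp [γ, hφ]
    have g2 : γ (e v) = 1 := by simp [γ, h2]
    let W := LinearMap.ker (α.prod γ)
    have hW : ∀ z, z ∈ W ↔ α z = 0 ∧ γ z = 0 := fun z => by simp [W]
    have hWn : finrank F W = n := by
      rw [CL.LS.finrank_ker_two a1 (a2 v g1) g1 g2, hn]; rfl
    let π : V →ₗ[F] W := LinearMap.codRestrict W (1 - α.smulRight v - γ.smulRight (e v))
      fun z => by simp [hW, a1, a2 v g1, g1, g2]
    have hπ : ∀ z, (π z : V) = z - α z • v - γ z • e v := fun z => rfl
    let y : End F W := π ∘ₗ (e : End F V) ∘ₗ W.subtype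
    have hy : ∀ z : W, (y z : V) = e z - γ (e z) • e v := fun z => by
      rw [show (y z : V) = π (e z) from rfl, hπ, a2 _ ((hW _).mp z.2).2, zero_smul, sub_zero]
    have hyu : IsUnit y := by
      refine (LinearMap.isUnit_iff_ker_eq_bot y).mpr (LinearMap.ker_eq_bot'.mpr
        fun z hz => Subtype.ext ?_)
      have h5 := hy z
      rw [hz, eq_comm, ← map_smul, ← map_sub, ZeroMemClass.coe_zero, e.map_eq_zero_iff,
        sub_eq_zero] at h5
      have h6 := ((hW _).mp z.2).1
      rw [h5, map_smul, a1, smul_eq_mul, mul_one] at h6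
      rw [h5, h6, zero_smul, ZeroMemClass.coe_zero]
    have hyc : ∀ c, 2 * finrank F (y.eigenspace c) ≤ n + 1 := fun c => by
      by_cases h : End.eigenspace (e : End F V) c = ⊥
      · have h5 := LinearMap.finrank_le_finrank_of_injective (f := γ ∘ₗ (e : End F V) ∘ₗ
          W.subtype ∘ₗ (y.eigenspace c).subtype) ((injective_iff_map_eq_zero _).mpr fun z hz => by
            have h6 := congrArg Subtype.val (End.mem_eigenspace_iff.mp z.2)
            rw [hy, show γ (e z) = 0 from hz, zero_smul, sub_zero] at h6
            exact Subtype.ext (Subtype.ext ((Submodule.eq_bot_iff _).mp h _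
              (End.mem_eigenspace_iff.mpr h6))))
        have h6 := Submodule.finrank_le (y.eigenspace c)
        rw [finrank_self] at h5
        omega
      · have h5 : (y.eigenspace c).map W.subtype ≤
            End.eigenspace (e : End F V) c ⊓ LinearMap.ker φ := by
          rintro _ ⟨z, hz, rfl⟩
          have h6 := congrArg Subtype.val (End.mem_eigenspace_iff.mp hz)
          rw [hy] at h6
          refine ⟨End.mem_eigenspace_iff.mpr ?_, by simpa [γ, h2] using ((hW _).mp z.2).2⟩
          by_cases h7 : γ (e z) = 0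
          · simpa [h7] using h6
          · refine absurd ?_ (hv' c h ((γ (e z))⁻¹ • e.symm z))
            apply e.injective
            simp only [map_smul, LinearEquiv.coe_coe, map_sub, e.apply_symm_apply]
            rw [smul_comm c, ← smul_sub, inv_smul_eq_iff₀ h7, sub_eq_iff_eq_add',
              ← sub_eq_iff_eq_add]
            exact h6
        have h6 := Submodule.finrank_mono h5
        rw [Submodule.finrank_map_subtype_eq] at h6
        by_cases h7 : finrank F V ≤ 2 * finrank F (End.eigenspace (e : End F V) c)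
        · have h8 := Submodule.finrank_lt_finrank_of_lt (s := End.eigenspace (e : End F V) c ⊓
            LinearMap.ker φ) (inf_lt_left.mpr fun h8 => hφ' (.inl c) (by simpa using h7)
              (h8 (End.mem_eigenspace_iff.mpr (hw' c h7))))
          have := hc c
          omega
        · have h8 := Submodule.finrank_mono (inf_le_left (a := End.eigenspace (e : End F V) c)
            (b := LinearMap.ker φ))
          omega
    obtain ⟨f, hf, hf'⟩ := ih hyu hWn hyc
    refine ⟨Fin.cons α (Fin.snoc (α := fun _ => Dual F V) (fun i => f i ∘ₗ π) γ),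
      fun z hz => ?_, fun z j hz i hi => ?_⟩
    · have h5 : α z = 0 := hz 0
      have h6 : γ z = 0 := by simpa using hz (Fin.last n).succ
      have := congrArg Subtype.val (hf (π z) fun k => by simpa using hz k.castSucc.succ)
      simpa [hπ, h5, h6] using this
    · have h6 : γ z = 0 := by simpa using hz (Fin.last n).succ (by simp; omega)
      induction i using Fin.cases with
      | zero => exact a2 z h6
      | succ i =>
        induction i using Fin.lastCases with
        | cast i =>
          have h7 : π (e z) = y (π z) := Subtype.ext (by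
            rw [hy, hπ, hπ, a2 z h6, h6]
            simp [g2]
            module)
          simp only [Fin.cons_succ, Fin.snoc_castSucc, LinearMap.comp_apply,
            LinearEquiv.coe_coe, h7]
          exact hf' _ (j - 1) (fun k hk => by simpa using hz k.castSucc.succ (by simp; omega)) i
            (by simp at hi; omega)
        | last =>
          obtain rfl : j = 0 := by simp at hi; omega
          have h5 : α z = 0 := hz 0 (by simp)
          have := congrArg Subtype.val (hf (π z) fun k => by
            simpa using hz k.castSucc.succ (by simp))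
          obtain rfl : z = 0 := by simpa [hπ, h5, h6] using this
          simp

/-- An invertible operator with small eigenspaces has an anti-triangular matrix. -/
theorem exists_anti (h4 : 4 ≤ Fintype.card F) {n : ℕ} {x : End F V} (hx : IsUnit x)
    (hn : finrank F V = n) (hc : ∀ c, 2 * finrank F (x.eigenspace c) ≤ n + 1) :
    ∃ M : Matrix (Fin n) (Fin n) F, Simil x (Matrix.toLin' M) ∧
      ∀ i j : Fin n, i + j + 1 < n → M i j = 0 := by
  obtain ⟨f, hf, hf'⟩ := exists_anti_aux h4 n hx hn hc
  let e := LinearMap.linearEquivOfInjective (LinearMap.pi f)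
    ((injective_iff_map_eq_zero _).mpr fun z hz => hf z (congrFun hz)) (by simp [hn])
  refine ⟨LinearMap.toMatrix' (cj e x), by rw [Matrix.toLin'_toMatrix']; exact simil_cj e x,
    fun i j h => hf' _ (j + 1) (fun k hk => ?_) i h⟩
  have := congrFun (e.apply_symm_apply (Pi.single j 1)) k
  rw [Pi.single_eq_of_ne (by rintro rfl; omega)] at this
  exact this

end CL.Cov
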