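/-
Products of conjugacy classes in `SL(V)`: the square of a class with small eigenspaces contains a
cyclic operator with a simple eigenvalue.
-/
import Mathlib
import Cfsg.Agent.KSG.Cov2

set_option autoImplicit false

namespace CL.Cov

open Module Polynomial CL.GLn Matrix
open scoped Pointwise

variable {F : Type*} [Field F]

section Top

variable {n : ℕ}

/-- `k` is the last non-zero coordinate of `z`. -/
def Top (k : Fin n) (z : Fin n → F) : Prop := z k ≠ 0 ∧ ∀ i, k < i → z i = 0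

theorem exists_top {z : Fin n → F} (hz : z ≠ 0) : ∃ k, Top k z := by
  classical
  obtain ⟨k, hk, hk'⟩ := (Finset.univ.filter fun i => z i ≠ 0).exists_max_image id (by
    obtain ⟨i, hi⟩ := Function.ne_iff.mp hz
    exact ⟨i, by simpa using hi⟩)
  exact ⟨k, by simpa using hk, fun i hi => by_contra fun h => (hk' i (by simpa using h)).not_gt hi⟩

theorem Top.unique {k l : Fin n} {z : Fin n → F} (h : Top k z) (h' : Top l z) : k = l :=
  le_antisymm (not_lt.mp fun hl => h.1 (h'.2 _ hl)) (not_lt.mp fun hl => h'.1 (h.2 _ hl))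

variable {b : Matrix (Fin n) (Fin n) F}

theorem mulVec_of_le (hb : ∀ i j, j < i → b i j = 0) {z : Fin n → F} {k : Fin n}
    (hz : ∀ i, k < i → z i = 0) {i : Fin n} (hi : k ≤ i) : (b *ᵥ z) i = b i i * z i :=
  Finset.sum_eq_single (s := Finset.univ) (f := fun j => b i j * z j) i (fun j _ hj => by
    rcases lt_or_gt_of_ne hj with h | h
    · rw [hb i j h, zero_mul]
    · rw [hz j (hi.trans_lt h), mul_zero]) (by simp)

theorem mulVec_zero_of_lt (hb : ∀ i j, j < i → b i j = 0) {z : Fin n → F} {k : Fin n}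
    (hz : ∀ i, k < i → z i = 0) (i : Fin n) (hi : k < i) : (b *ᵥ z) i = 0 := by
  rw [mulVec_of_le hb hz hi.le, hz i hi, mul_zero]

theorem Top.mulVec (hb : ∀ i j, j < i → b i j = 0) (hb' : ∀ i, b i i ≠ 0) {z : Fin n → F}
    {k : Fin n} (hz : Top k z) : Top k (b *ᵥ z) :=
  ⟨by rw [mulVec_of_le hb hz.2 le_rfl]; exact mul_ne_zero (hb' k) hz.1, mulVec_zero_of_lt hb hz.2⟩

theorem mulVec_two (hb : ∀ i j, j < i → b i j = 0) {z : Fin n → F} {k l : Fin n}
    (hkl : (l : ℕ) = k + 1) (hz : ∀ i, l < i → z i = 0) :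
    (b *ᵥ z) k = b k k * z k + b k l * z l :=
  Finset.sum_eq_add_of_mem (s := Finset.univ) (f := fun j => b k j * z j) k l (by simp) (by simp)
    (by omega) fun j _ hj => by
    by_cases h : j < k
    · rw [hb k j h, zero_mul]
    · rw [hz j (by omega), mul_zero]

theorem mem_of_top {S : Submodule F (Fin n → F)} {m : ℕ}
    (h : ∀ k : Fin n, k.val < m → ∃ z ∈ S, Top k z) :
    ∀ z : Fin n → F, (∀ i : Fin n, m ≤ i → z i = 0) → z ∈ S := by
  induction m with
  | zero => intro z hz; rw [show z = 0 from funext fun i => hz i (by omega)]; exact S.zero_mem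
  | succ m ih =>
    intro z hz
    by_cases hm : m < n
    · obtain ⟨w, hw, hw'⟩ := h ⟨m, hm⟩ m.lt_succ_self
      refine (S.sub_mem_iff_left (S.smul_mem (z ⟨m, hm⟩ / w ⟨m, hm⟩) hw)).mp
        (ih (fun k hk => h k (by omega)) _ fun i hi => ?_)
      by_cases h1 : i = ⟨m, hm⟩
      · simp [h1, hw'.1]
      · simp [hz i (by rw [Fin.ext_iff] at h1; simp at h1; omega),
          hw'.2 i (by rw [Fin.ext_iff] at h1; simp [Fin.lt_def] at h1 ⊢; omega)]
    · exact ih (fun k hk => h k (by omega)) z fun i hi => by omega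

/-- A lower bidiagonal matrix. -/
def bd (t c : Fin n → F) : Matrix (Fin n) (Fin n) F :=
  diagonal t + Matrix.of fun i j : Fin n => if (i : ℕ) = j + 1 then c j else 0

theorem bd_mulVec (t c z : Fin n → F) {i j : Fin n} (h : (i : ℕ) = j + 1) :
    (bd t c *ᵥ z) i = t i * z i + c j * z j := by
  rw [bd, add_mulVec, Pi.add_apply, mulVec_diagonal]
  congr 1
  change ∑ l, (if (i : ℕ) = l.val + 1 then c l else 0) * z l = _
  exact (Finset.sum_eq_single j (fun l _ hl => by
    rw [if_neg (by omega), zero_mul]) (by simp)).trans (by simp [h])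

theorem bd_mulVec' (t c z : Fin n → F) {i : Fin n} (h : ∀ j : Fin n, (i : ℕ) = j + 1 → c j * z j = 0) :
    (bd t c *ᵥ z) i = t i * z i := by
  rw [bd, add_mulVec, Pi.add_apply, mulVec_diagonal, add_eq_left]
  change ∑ l, (if (i : ℕ) = l.val + 1 then c l else 0) * z l = _
  refine Finset.sum_eq_zero fun j _ => ?_
  split_ifs with hj
  · exact h j hj
  · exact zero_mul _

theorem bd_add (t c : Fin n → F) (s : F) (k : Fin n) : bd t (c + s • Pi.single k 1) =
    bd t c + s • vecMulVec (fun i : Fin n => if (i : ℕ) = k + 1 then 1 else 0) (Pi.single k 1) := by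
  ext i j
  by_cases h : j = k
  · subst h
    simp only [bd, Matrix.add_apply, of_apply, Pi.add_apply, Pi.smul_apply, Pi.single_eq_same,
      Matrix.smul_apply, vecMulVec_apply]
    split_ifs <;> simp [add_assoc]
  · simp [bd, vecMulVec_apply, h]

/-- The reversed (upper bidiagonal) matrix. -/
def bu (t c : Fin n → F) : Matrix (Fin n) (Fin n) F := (bd t c).submatrix Fin.rev Fin.rev

theorem bu_mulVec (t c z : Fin n → F) (i : Fin n) :
    (bu t c *ᵥ z) i = (bd t c *ᵥ (z ∘ Fin.rev)) i.rev :=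
  congrFun (submatrix_mulVec_equiv (bd t c) z Fin.rev Fin.revPerm) i

theorem bu_upper (t c : Fin n → F) (i j : Fin n) (h : j < i) : bu t c i j = 0 := by
  simp only [bu, bd, submatrix_apply, Matrix.add_apply, of_apply, Fin.val_rev]
  rw [diagonal_apply_ne _ (by simpa using h.ne'), if_neg (by omega), add_zero]

theorem bu_diag (t c : Fin n → F) (i : Fin n) : bu t c i i = t i.rev := by simp [bu, bd]

theorem det_bu (t c : Fin n → F) : (bu t c).det = ∏ i, t i := by
  rw [det_of_isUpperTriangular (fun i j h => bu_upper t c i j h)]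
  simp only [bu_diag]
  exact Equiv.prod_comp Fin.revPerm t

end Top

variable [Fintype F]

omit [Field F] in
theorem exists_ne_three (h4 : 4 ≤ Fintype.card F) (a b c : F) : ∃ s, s ≠ a ∧ s ≠ b ∧ s ≠ c := by
  classical
  obtain ⟨s, -, hs⟩ := Finset.exists_mem_notMem_of_card_lt_card (s := ({a, b, c} : Finset F))
    (t := Finset.univ) (Finset.card_le_three.trans_lt h4)
  exact ⟨s, by simpa using hs⟩

theorem exists_ne_four (h4 : 4 ≤ Fintype.card F) (a b : F) :
    ∃ s, s ≠ 0 ∧ s ≠ a ∧ s ≠ -a ∧ s ≠ b := by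
  classical
  by_cases h2 : (2 : F) = 0
  · obtain ⟨s, h, h', h''⟩ := exists_ne_three h4 0 a b
    exact ⟨s, h, h', fun h3 => h' (by linear_combination h3 - a * h2), h''⟩
  · obtain ⟨s, -, hs⟩ := Finset.exists_mem_notMem_of_card_lt_card (s := ({0, a, -a, b} : Finset F))
      (t := Finset.univ) (Finset.card_le_four.trans_lt (h4.lt_of_ne fun h => h2 (by
        have := FiniteField.cast_card_eq_zero F
        rw [← show 4 = Fintype.card F from h] at this
        exact mul_self_eq_zero.mp (by rw [← this]; norm_num))))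
    exact ⟨s, by simpa using hs⟩

theorem exists_quad (h4 : 4 ≤ Fintype.card F) {A B D : F} (h : A ≠ 0 ∨ D ≠ 0) (a : F) :
    ∃ s, s ≠ a ∧ A * s ^ 2 + B * s + D ≠ 0 := by
  classical
  have h0 : (C A * X ^ 2 + C B * X + C D : F[X]) ≠ 0 := fun h0 =>
    h.elim (fun h => h (by simpa using congrArg (coeff · 2) h0))
      fun h => h (by simpa using congrArg (coeff · 0) h0)
  obtain ⟨s, -, hs⟩ := Finset.exists_mem_notMem_of_card_lt_card
    (s := insert a (C A * X ^ 2 + C B * X + C D).roots.toFinset) (t := Finset.univ) (by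
      have := (Multiset.toFinset_card_le _).trans ((card_roots' _).trans
        (natDegree_quadratic_le (a := A) (b := B) (c := D)))
      exact ((Finset.card_insert_le _ _).trans (Nat.succ_le_succ this)).trans_lt h4)
  exact ⟨s, by simpa [h0] using hs⟩

theorem exists_det_ne_zero (h4 : 4 ≤ Fintype.card F) {ι : Type*} [Fintype ι] [DecidableEq ι]
    {Z : Matrix ι ι F} (hZ : Z.det ≠ 0) (p q p' q' : ι → F) (a : F) :
    ∃ s, s ≠ a ∧ (Z + s • (vecMulVec p q + vecMulVec p' q')).det ≠ 0 := by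
  let A : Matrix ι (Fin 2) F := (Matrix.of ![p, p'])ᵀ
  let B : Matrix (Fin 2) ι F := Matrix.of ![q, q']
  have h1 : vecMulVec p q + vecMulVec p' q' = A * B := by
    ext i j; simp [A, B, mul_apply, vecMulVec_apply]
  obtain ⟨s, hs, hs'⟩ := exists_quad h4 (A := (B * (Z⁻¹ * A)).det) (B := (B * (Z⁻¹ * A)).trace)
    (Or.inr one_ne_zero) a
  refine ⟨s, hs, ?_⟩
  rw [h1, show Z + s • (A * B) = Z * (1 + (Z⁻¹ * A) * (s • B)) by
    rw [mul_add, mul_one, Matrix.mul_smul, Matrix.mul_smul, ← Matrix.mul_assoc, ← Matrix.mul_assoc,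
      mul_nonsing_inv _ hZ.isUnit, Matrix.one_mul], det_mul, det_one_add_mul_comm, Matrix.smul_mul]
  refine mul_ne_zero hZ fun h => hs' ?_
  rw [← h]
  simp [det_fin_two, trace_fin_two]
  ring

theorem exists_torus (h4 : 4 ≤ Fintype.card F) {m : ℕ} (hm : 2 ≤ m) {β : Fin (m + 1) → F}
    (hβ : ∀ i, β i ≠ 0) {ε : F} (hε : ε ≠ 0) : ∃ (t : Fin (m + 1) → F) (δ : F), δ ≠ 0 ∧
      (∀ i, t i ≠ 0) ∧ ∏ i, t i = ε ∧ β (Fin.last m) ^ 2 * t (Fin.last m) = δ * t 0 ∧
      ∀ j : Fin (m + 1), j ≠ Fin.last m → 2 * j + 1 ≠ m → 2 * j ≠ m + 1 →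
        β j ^ 2 * t j ≠ δ * t j.rev := by
  classical
  let κ : Fin (m + 1) := ⟨m / 2, by omega⟩
  obtain ⟨δ, h0, h1, h2, h3⟩ := exists_ne_four h4 (β 0 * β (Fin.last m)) (β κ ^ 2)
  have : ∀ j : Fin (m + 1), ∃ s, s ≠ 0 ∧ (j = 0 → s = β (Fin.last m) ^ 2 / δ) ∧ β j ^ 2 * s ≠ δ ∧
      (j ≠ 0 → β j.rev ^ 2 ≠ δ * s) := fun j => by
    by_cases hj : j = 0
    · refine ⟨_, div_ne_zero (pow_ne_zero 2 (hβ _)) h0, fun _ => rfl, fun h => ?_,
        fun h => absurd hj h⟩
      rw [hj, ← mul_div_assoc, div_eq_iff h0, ← mul_pow, ← pow_two, eq_comm,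
        sq_eq_sq_iff_eq_or_eq_neg] at h
      exact h.elim h1 h2
    · obtain ⟨s, s0, s1, s2⟩ := exists_ne_three h4 0 (δ / β j ^ 2) (β j.rev ^ 2 / δ)
      exact ⟨s, s0, fun h => absurd h hj, fun h => s1 (by
        rw [← h, mul_div_cancel_left₀ _ (pow_ne_zero 2 (hβ _))]),
        fun _ h => s2 (by rw [h, mul_div_cancel_left₀ _ h0])⟩
  choose σ s0 s1 s2 s3 using this
  let t₀ : Fin (m + 1) → F := fun j => if j < j.rev then σ j else 1
  have ht₀ : ∀ j, t₀ j ≠ 0 := fun j => by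
    simp only [t₀]; split_ifs; exacts [s0 j, one_ne_zero]
  have hp := Finset.prod_ne_zero_iff.mpr fun j (_ : j ∈ Finset.univ \ {κ}) => ht₀ j
  have hτ := div_ne_zero hε hp
  refine ⟨Function.update t₀ κ (ε / ∏ j ∈ Finset.univ \ {κ}, t₀ j), δ, h0, fun i => ?_, by
    rw [Finset.prod_update_of_mem (Finset.mem_univ _), div_mul_cancel₀ _ hp], ?_,
    fun j hj hj1 hj2 => ?_⟩
  · by_cases hi : i = κ
    · rwa [hi, Function.update_self]
    · rw [Function.update_of_ne hi]; exact ht₀ i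
  · rw [Function.update_of_ne (by simp [κ, Fin.ext_iff]; omega),
      Function.update_of_ne (by simp [κ, Fin.ext_iff]; omega)]
    simp only [t₀, Fin.rev_last, Fin.rev_zero, Fin.not_lt_zero, if_false, s1 0 rfl,
      if_pos (show (0 : Fin (m + 1)) < Fin.last m by simp [Fin.lt_def]; omega)]
    field_simp
  · by_cases h : j = j.rev
    · obtain rfl : j = κ := by simp [κ, Fin.ext_iff] at h ⊢; omega
      rw [← h, Function.update_self]
      exact fun h' => h3 (mul_right_cancel₀ hτ h').symm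
    · have h5 : (j : ℕ) ≠ m := fun h => hj (Fin.ext h)
      rw [Function.update_of_ne (by simp [κ, Fin.ext_iff] at h ⊢; omega),
        Function.update_of_ne (by simp [κ, Fin.ext_iff] at h ⊢; omega)]
      simp only [t₀, Fin.rev_rev]
      rcases lt_or_gt_of_ne h with h | h
      · rw [if_pos h, if_neg h.not_gt, mul_one]; exact s2 j
      · rw [if_neg h.not_gt, if_pos h, mul_one]
        simpa using s3 j.rev (by simp [Fin.ext_iff]; omega)

section Main

variable {m : ℕ} {b : Matrix (Fin (m + 1)) (Fin (m + 1)) F} (hb : ∀ i j, j < i → b i j = 0)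
  (hb' : ∀ i, b i i ≠ 0) {t : Fin (m + 1) → F} {δ : F}
  (hl : b (Fin.last m) (Fin.last m) ^ 2 * t (Fin.last m) = δ * t 0)

omit [Fintype F] in
include hb hl in
theorem last_eq {c : Fin (m + 1) → F} (hc : ∀ i : Fin (m + 1), m ≤ i + 1 → c i = 0)
    (z : Fin (m + 1) → F) :
    ((b * bd t c * b) *ᵥ z) (Fin.last m) = δ * t 0 * z (Fin.last m) ∧
      (bu t c *ᵥ z) (Fin.last m) = t 0 * z (Fin.last m) := by
  have h : ∀ z : Fin (m + 1) → F, ∀ i, Fin.last m < i → z i = 0 := fun z i hi =>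
    absurd i.le_last hi.not_ge
  rw [← mulVec_mulVec, ← mulVec_mulVec, mulVec_of_le hb (h _) le_rfl, bd_mulVec' _ _ _ fun j hj => by
    rw [hc j (by simp at hj; omega), zero_mul], mulVec_of_le hb (h _) le_rfl,
    mulVec_of_le (bu_upper t c) (h _) le_rfl, bu_diag, Fin.rev_last, ← hl]
  exact ⟨by ring, rfl⟩

/-- The test matrix. -/
def ZZ (b : Matrix (Fin (m + 1)) (Fin (m + 1)) F) (t : Fin (m + 1) → F) (δ : F)
    (c : Fin (m + 1) → F) : Matrix (Fin (m + 1)) (Fin (m + 1)) F :=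
  b * bd t c * b - δ • bu t c + single (Fin.last m) (Fin.last m) 1

omit [Fintype F] in
theorem ZZ_mulVec (c z : Fin (m + 1) → F) (i : Fin (m + 1)) : (ZZ b t δ c *ᵥ z) i =
    (b *ᵥ bd t c *ᵥ b *ᵥ z) i - δ * (bu t c *ᵥ z) i + if i = Fin.last m then z i else 0 := by
  rw [ZZ, add_mulVec, sub_mulVec, smul_mulVec, single_mulVec, mulVec_mulVec, mulVec_mulVec]
  by_cases h : i = Fin.last m <;> simp [h]

include hb hb' hl in
theorem exists_start (h4 : 4 ≤ Fintype.card F) (hm : 2 ≤ m) (hδ : δ ≠ 0)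
    (ht : ∀ j : Fin (m + 1), j ≠ Fin.last m → 2 * j + 1 ≠ m → 2 * j ≠ m + 1 →
      b j j ^ 2 * t j ≠ δ * t j.rev) :
    ∃ c, (∀ i : Fin (m + 1), m ≤ i + 1 → c i = 0) ∧ (ZZ b t δ c).det ≠ 0 := by
  classical
  have key : ∀ c : Fin (m + 1) → F, (∀ i : Fin (m + 1), 2 * i + 1 ≠ m → c i = 0) →
      (∀ (z : Fin (m + 1) → F) (j : Fin (m + 1)), Top j z → (2 * j + 1 = m ∨ 2 * j = m + 1) →
        ZZ b t δ c *ᵥ z ≠ 0) → (ZZ b t δ c).det ≠ 0 := fun c hc h h0 => by
    obtain ⟨z, hz, hz'⟩ := exists_mulVec_eq_zero_iff.mpr h0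
    obtain ⟨j, hj⟩ := exists_top hz
    have h1 := congrFun hz' j
    rw [ZZ_mulVec] at h1
    by_cases h2 : j = Fin.last m
    · subst h2
      obtain ⟨h3, h5⟩ := last_eq hb hl (c := c) (fun i hi => hc i (by omega)) z
      rw [mulVec_mulVec, mulVec_mulVec, h3, h5] at h1
      exact hj.1 (by simpa [mul_assoc] using h1)
    · by_cases h3 : 2 * j + 1 = m ∨ 2 * j = m + 1
      · exact h z j hj h3 hz'
      · push Not at h3
        have h5 := hj.mulVec hb hb'
        have h6 : ∀ i, j ≤ i → (bd t c *ᵥ b *ᵥ z) i = t i * (b *ᵥ z) i := fun i hi =>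
          bd_mulVec' _ _ _ fun l hl => by
            by_cases h7 : 2 * l + 1 = m
            · rw [h5.2 l (by omega), mul_zero]
            · rw [hc l h7, zero_mul]
        rw [mulVec_of_le hb (fun i hi => by rw [h6 i hi.le, h5.2 i hi, mul_zero]) le_rfl,
          h6 j le_rfl, mulVec_of_le hb hj.2 le_rfl, mulVec_of_le (bu_upper t c) hj.2 le_rfl,
          bu_diag, if_neg h2] at h1
        rw [Pi.zero_apply] at h1
        exact ht j h2 h3.1 h3.2 (mul_right_cancel₀ hj.1 (by linear_combination h1))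
  rcases Nat.even_or_odd' m with ⟨k₀, hk | hk⟩
  · exact ⟨0, fun _ _ => rfl, key 0 (fun _ _ => rfl) fun z j _ h => by omega⟩
  let k : Fin (m + 1) := ⟨k₀, by omega⟩
  let l : Fin (m + 1) := ⟨k₀ + 1, by omega⟩
  obtain ⟨s, hs0, hs⟩ := exists_quad h4 (A := δ * b k k * b l l)
    (B := -(δ * t l * b k l * b l l) - δ * t k * b k k * b k l)
    (D := (b k k ^ 2 * t k - δ * t l) * (b l l ^ 2 * t l - δ * t k))
    (Or.inl (mul_ne_zero (mul_ne_zero hδ (hb' k)) (hb' l))) 0
  have hc : ∀ i : Fin (m + 1), i ≠ k → (Pi.single k s : Fin (m + 1) → F) i = 0 := fun i hi => by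
    simp [hi]
  refine ⟨Pi.single k s, fun i hi => hc i (by simp [k, Fin.ext_iff]; omega),
    key _ (fun i hi => hc i (by simp [k, Fin.ext_iff]; omega)) fun z j hj h hz => ?_⟩
  have h1 : ∀ i, l < i → z i = 0 := fun i hi => hj.2 i (by
    have : k₀ + 1 < (i : ℕ) := hi
    omega)
  have h2 := mulVec_zero_of_lt hb h1
  have h3 : ∀ i, l < i → (bd t (Pi.single k s) *ᵥ b *ᵥ z) i = 0 := fun i hi => by
    rw [bd_mulVec' _ _ _ fun i' hi' => by
      rw [hc i' (by simp [l, k, Fin.lt_def, Fin.ext_iff] at hi ⊢; omega), zero_mul], h2 i hi,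
      mul_zero]
  have hkl : k.rev = l := by simp [k, l, Fin.ext_iff]; omega
  have hlk : l.rev = k := by rw [← hkl, Fin.rev_rev]
  have h5 : (bd t (Pi.single k s) *ᵥ b *ᵥ z) k = t k * (b *ᵥ z) k := bd_mulVec' _ _ _ fun i hi => by
    rw [hc i (by simp [Fin.ext_iff]; omega), zero_mul]
  have e₁ := congrFun hz k
  have e₂ := congrFun hz l
  rw [ZZ_mulVec, if_neg (by simp [k, Fin.ext_iff]; omega), mulVec_two hb (l := l) rfl h3, h5,
    bd_mulVec _ _ _ (i := l) (j := k) rfl, bu_mulVec, hkl, bd_mulVec _ _ _ (i := l) (j := k) rfl,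
    mulVec_two hb (l := l) rfl h1, mulVec_of_le hb h1 le_rfl] at e₁
  rw [ZZ_mulVec, if_neg (by simp [l, Fin.ext_iff]; omega), mulVec_of_le hb h3 le_rfl,
    bd_mulVec _ _ _ (i := l) (j := k) rfl, mulVec_of_le (bu_upper _ _) h1 le_rfl, bu_diag, hlk,
    mulVec_two hb (k := k) (l := l) rfl h1, mulVec_of_le hb h1 le_rfl] at e₂
  simp only [Pi.single_eq_same, Function.comp_apply, hkl, hlk, Pi.zero_apply, add_zero] at e₁ e₂
  have h6 : z l = 0 := (mul_eq_zero.mp (by
    linear_combination (b k k ^ 2 * t k + b k l * s * b k k - δ * t l) * e₂ -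
      (b l l * s * b k k) * e₁)).resolve_left hs
  have h7 : z k = 0 := by
    rw [h6] at e₂
    simpa [hb' l, hb' k, hs0] using e₂
  rcases h with h | h
  · exact hj.1 (by rwa [show j = k from Fin.ext (by simp [k]; omega)])
  · exact hj.1 (by rwa [show j = l from Fin.ext (by simp [l]; omega)])

theorem exists_good (h4 : 4 ≤ Fintype.card F) {c₀ : Fin (m + 1) → F}
    (h₀ : ∀ i : Fin (m + 1), m ≤ i + 1 → c₀ i = 0) (h₁ : (ZZ b t δ c₀).det ≠ 0) :
    ∃ c, (∀ i : Fin (m + 1), c i = 0 ↔ m ≤ i + 1) ∧ (ZZ b t δ c).det ≠ 0 := by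
  have key : ∀ k : ℕ, ∃ c, (∀ i : Fin (m + 1), i.val < k → i + 1 < m → c i ≠ 0) ∧
      (∀ i : Fin (m + 1), m ≤ i + 1 → c i = 0) ∧ (ZZ b t δ c).det ≠ 0 := fun k => by
    induction k with
    | zero => exact ⟨c₀, fun _ h => by omega, h₀, h₁⟩
    | succ k ih =>
      obtain ⟨c, h1, h2, h3⟩ := ih
      by_cases hk : k + 1 < m
      · let κ : Fin (m + 1) := ⟨k, by omega⟩
        let p : Fin (m + 1) → F := fun i => if (i : ℕ) = κ + 1 then 1 else 0
        obtain ⟨s, hs, hs'⟩ := exists_det_ne_zero h4 h3 (b *ᵥ p) (Pi.single κ 1 ᵥ* b)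
          (-δ • (p ∘ Fin.rev)) (Pi.single κ 1 ∘ Fin.rev) (-c κ)
        refine ⟨c + s • Pi.single κ 1, fun i hi hi' => ?_, fun i hi => ?_, ?_⟩
        · by_cases h : i = κ
          · simpa [h, add_eq_zero_iff_eq_neg'] using hs
          · simpa [h] using h1 i (by simp [κ, Fin.ext_iff] at h; omega) hi'
        · simp [h2 i hi, show i ≠ κ by simp [κ, Fin.ext_iff]; omega]
        · convert hs' using 2
          rw [← vecMulVec_mul, ← mul_vecMulVec, smul_vecMulVec, ZZ, ZZ, bu, bu, bd_add]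
          simp only [Matrix.mul_add, Matrix.add_mul, Matrix.mul_smul, Matrix.smul_mul,
            submatrix_add, submatrix_smul, Pi.add_apply, Pi.smul_apply]
          rw [show (vecMulVec p (Pi.single κ 1)).submatrix Fin.rev Fin.rev =
            vecMulVec (p ∘ Fin.rev) (Pi.single κ 1 ∘ Fin.rev) from rfl]
          module
      · exact ⟨c, fun i hi hi' => h1 i (by omega) hi', h2, h3⟩
  obtain ⟨c, h1, h2, h3⟩ := key (m + 1)
  exact ⟨c, fun i => ⟨fun h => by_contra fun h' => h1 i i.2 (by omega) h, h2 i⟩, h3⟩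

omit [Fintype F] in
include hb hb' hl in
theorem et_of_good (ht : ∀ i, t i ≠ 0) {c : Fin (m + 1) → F}
    (hc : ∀ i : Fin (m + 1), c i = 0 ↔ m ≤ i + 1) (hZ : (ZZ b t δ c).det ≠ 0) (hm : 2 ≤ m) :
    ET (toLin' (b * bd t c * b * (bu t c)⁻¹)) := by
  have hu : IsUnit (bu t c).det := by
    rw [det_bu]; exact (Finset.prod_ne_zero_iff.mpr fun i _ => ht i).isUnit
  set T := toLin' (b * bd t c * b * (bu t c)⁻¹) with hT
  have h1 : ∀ z, T (bu t c *ᵥ z) = (b * bd t c * b) *ᵥ z := fun z => by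
    rw [hT, toLin'_apply, mulVec_mulVec, nonsing_inv_mul_cancel_right _ _ hu]
  have h2 : ∀ z, ∃ w, z = bu t c *ᵥ w := fun z =>
    ⟨(bu t c)⁻¹ *ᵥ z, by rw [mulVec_mulVec, mul_nonsing_inv _ hu, one_mulVec]⟩
  have h3 := last_eq hb hl fun i => (hc i).mpr
  let l : Dual F (Fin (m + 1) → F) := LinearMap.proj (Fin.last m)
  have h4 : ∀ z, l (T z) = δ * l z := fun z => by
    obtain ⟨w, rfl⟩ := h2 z
    rw [h1]
    exact (h3 w).1.trans (by rw [mul_assoc]; exact congrArg _ (h3 w).2.symm)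
  have h5 : ∀ v ∈ LinearMap.ker l, T v ∈ LinearMap.ker l := fun v hv => by
    rw [LinearMap.mem_ker, h4, hv, mul_zero]
  have h6 : Cyc (T.restrict h5) := by
    refine ⟨⟨Pi.single 0 1, Pi.single_eq_of_ne (by simp [Fin.ext_iff]; omega) _⟩,
      fun N hN hN' => eq_top_iff.mpr fun z _ => ?_⟩
    have key : ∀ k (hk : k < m), ∃ z ∈ N.map (LinearMap.ker l).subtype, Top ⟨k, by omega⟩ z :=
      fun k => by
        induction k with
        | zero => exact fun _ => ⟨_, ⟨_, hN, rfl⟩, by simp, fun i hi => Pi.single_eq_of_ne hi.ne' _⟩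
        | succ k ih =>
          intro hk
          obtain ⟨_, ⟨z, hz, rfl⟩, hz'⟩ := ih (by omega)
          refine ⟨_, ⟨_, hN' z hz, rfl⟩, ?_⟩
          obtain ⟨w, hw⟩ := h2 z
          change Top _ (z : Fin (m + 1) → F) at hz'
          change Top _ (T z)
          obtain ⟨j, hj⟩ := exists_top (z := w) (by rintro rfl; exact hz'.1 (by simp [hw]))
          rw [hw] at hz' ⊢
          obtain rfl := hz'.unique (hj.mulVec (bu_upper t c) fun i => by rw [bu_diag]; exact ht _)
          have h7 := hj.mulVec hb hb'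
          rw [h1, ← mulVec_mulVec, ← mulVec_mulVec]
          refine Top.mulVec hb hb' ⟨?_, fun i hi => ?_⟩
          · rw [bd_mulVec _ _ _ (j := ⟨k, by omega⟩) rfl, h7.2 _ (by simp [Fin.lt_def]), mul_zero,
              zero_add]
            exact mul_ne_zero (fun h => by simpa using (hc _).mp h |>.not_gt hk) h7.1
          · rw [bd_mulVec' _ _ _ fun j hj => by
              rw [h7.2 j (by simp [Fin.lt_def] at hi ⊢; omega), mul_zero],
              h7.2 i (by simp [Fin.lt_def] at hi ⊢; omega), mul_zero]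
    obtain ⟨w, hw, hw'⟩ := mem_of_top (fun k hk => key k hk) z fun i hi => by
      rw [show i = Fin.last m from Fin.ext (by simp; omega)]; exact z.2
    rwa [← Subtype.ext hw']
  refine ⟨_, δ, (T.restrict h5).charpoly_monic, fun h => ?_, simil_cyc_mul_of_restrict (fun h => by
    simpa [l] using LinearMap.congr_fun h (Pi.single (Fin.last m) 1)) h5 h4
    (T.restrict h5).charpoly_monic h6.simil fun h => ?_⟩
  all_goals
    obtain ⟨⟨z, hz⟩, hz'⟩ := ((End.hasEigenvalue_iff_isRoot_charpoly _ _).mpr h).exists_hasEigenvector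
    obtain ⟨w, rfl⟩ := h2 z
    have h7 := congrArg Subtype.val hz'.apply_eq_smul
    change T (bu t c *ᵥ w) = δ • (bu t c *ᵥ w) at h7
    have h8 : w (Fin.last m) = 0 := (mul_eq_zero.mp ((h3 w).2.symm.trans hz)).resolve_left (ht 0)
    refine hZ (exists_mulVec_eq_zero_iff.mp ⟨w, fun h => hz'.2 (Subtype.ext (by simp [h])), ?_⟩)
    rw [ZZ, add_mulVec, sub_mulVec, smul_mulVec, single_mulVec, ← h1, h7, h8]
    simp

end Main

variable {V : Type*} [AddCommGroup V] [Module F V] [FiniteDimensional F V]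

omit [Fintype F] [FiniteDimensional F V] in
theorem exists_det_transport {ι : Type*} [Fintype ι] [DecidableEq ι] {A B : End F V}
    {M N : Matrix ι ι F} (hA : Simil A (toLin' M)) (hB : Simil B (toLin' N)) :
    ∃ κ : F, κ ≠ 0 ∧ ∀ S : Matrix ι ι F, S.det = κ →
      ∃ y ∈ Cl B, Simil (A * y) (toLin' (M * (S * N * S⁻¹))) := by
  obtain ⟨e, he⟩ := simil_iff.mp hA
  obtain ⟨e', he'⟩ := simil_iff.mp hB
  have h0 := det_ne_zero (isUnit_coe (e'.symm.trans e))
  refine ⟨_, h0, fun S hS => ?_⟩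
  have hS' : IsUnit S.det := by rw [hS]; exact h0.isUnit
  let s := toLin'OfInv (mul_nonsing_inv S hS') (nonsing_inv_mul S hS')
  have h1 : ∀ z, s.symm z = S *ᵥ z := fun _ => rfl
  have h2 : ∀ z, s z = S⁻¹ *ᵥ z := fun _ => rfl
  refine ⟨_, ⟨(e'.trans s.symm).trans e.symm, ?_, rfl⟩, simil_iff.mpr ⟨e, ?_⟩⟩
  · rw [← LinearMap.det_conj _ e, ← mul_right_inj' h0, mul_one, mul_comm, ← LinearMap.det_comp,
      ← hS, ← LinearMap.det_toLin']
    congr 1
    ext1; ext1; simp [h1]
  · rw [map_mul, he, cj_trans, cj_trans, he', toLin'_mul, toLin'_mul, toLin'_mul]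
    congr 1
    ext1; ext1; simp [h1, h2]

/-- The square of a class with small eigenspaces contains a cyclic operator with a simple
eigenvalue. -/
theorem exists_et (h4 : 4 ≤ Fintype.card F) {x : End F V} (hx : IsUnit x) (hn : 3 ≤ finrank F V)
    (hc : ∀ c, 2 * finrank F (x.eigenspace c) ≤ finrank F V + 1) : ∃ E ∈ Cl x ^ 2, ET E := by
  obtain ⟨m, hm⟩ : ∃ m, finrank F V = m + 1 := ⟨finrank F V - 1, by omega⟩
  obtain ⟨M, hM, hM'⟩ := exists_anti h4 hx hm (hm ▸ hc)
  let b := M.submatrix Fin.rev id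
  have hb : ∀ i j, j < i → b i j = 0 := fun i j h => hM' _ _ (by simp; omega)
  have hb' : ∀ i, b i i ≠ 0 := fun i => by
    have h1 : b.det ≠ 0 := by
      rw [show b = M.submatrix Fin.revPerm id from rfl, det_permute, ← LinearMap.det_toLin',
        ← hM.det]
      exact mul_ne_zero ((Units.isUnit _).map (Int.castRingHom F)).ne_zero (det_ne_zero hx)
    rw [det_of_isUpperTriangular hb] at h1
    exact Finset.prod_ne_zero_iff.mp h1 i (Finset.mem_univ i)
  obtain ⟨κ, hκ, h⟩ := exists_det_transport (hM.trans (simil_reindex Fin.revPerm M)) hM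
  obtain ⟨t, δ, h0, h1, h2, h3, h5⟩ := exists_torus h4 (by omega) hb' hκ
  obtain ⟨c₀, h6, h7⟩ := exists_start hb hb' h3 h4 (by omega) h0 h5
  obtain ⟨c, h8, h9⟩ := exists_good h4 h6 h7
  obtain ⟨y, hy, hy'⟩ := h (bu t c) (by rw [det_bu, h2])
  refine ⟨x * y, by rw [pow_two]; exact Set.mul_mem_mul (self_mem_Cl x) hy,
    (et_of_good hb hb' h3 h1 h8 h9 (by omega)).of_simil ?_⟩
  convert hy'.symm using 2
  rw [← Matrix.mul_assoc, ← Matrix.mul_assoc]
  congr 1
  have h10 : M = b.submatrix Fin.revPerm id := by ext i j; simp [b]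
  have h11 : reindex Fin.revPerm Fin.revPerm M = b.submatrix id Fin.revPerm := by
    ext i j; simp [b]
  rw [h11, bu]
  conv_rhs => rw [h10]
  rw [show (bd t c).submatrix Fin.rev Fin.rev = (bd t c).submatrix Fin.revPerm Fin.revPerm from rfl,
    submatrix_mul_equiv, submatrix_mul_equiv, submatrix_id_id]

end CL.Cov
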