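/-
Products of conjugacy classes in `SL(V)`: classes with a large eigenspace.
-/
import Mathlib
import Cfsg.Agent.KSG.Cov3

set_option autoImplicit false

namespace CL.Cov

open Module Polynomial CL.GLn
open scoped Pointwise

variable {F : Type*} [Field F] {U V W : Type*} [AddCommGroup U] [Module F U] [AddCommGroup V]
  [Module F V] [AddCommGroup W] [Module F W]

/-- The class of `x` under `GL(V)`. -/
def Sm (x : End F V) : Set (End F V) := {y | Simil x y}

theorem mem_pow_of_simil {x g g' : End F V} {k : ℕ} (h : g ∈ Sm x ^ k) (hs : Simil g g') :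
    g' ∈ Sm x ^ k := by
  obtain ⟨e, rfl⟩ := simil_iff.mp hs
  exact map_mem_pow (cj e) (fun y hy => Simil.trans hy (simil_cj e y)) h

theorem finrank_eigenspace_eq {A : End F V} {B : End F W} (h : Simil A B) (c : F) :
    finrank F (A.eigenspace c) = finrank F (B.eigenspace c) := by
  obtain ⟨e, rfl⟩ := simil_iff.mp h
  rw [End.eigenspace_def, End.eigenspace_def, (simil_cj e _).finrank_ker, map_sub, map_smul, map_one]

theorem inj_triple {j : U →ₗ[F] V} (hj : Function.Injective j) {K : Submodule F V}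
    (hK : ∀ u, j u ∈ K) {v w : V} (hv : v ∉ K) (hw : w ∉ K ⊔ F ∙ v) : Function.Injective
    (j.coprod ((LinearMap.toSpanSingleton F V v).coprod (LinearMap.toSpanSingleton F V w))) := by
  refine (injective_iff_map_eq_zero _).mpr fun ⟨u, a, b⟩ h => ?_
  change j u + (a • v + b • w) = 0 at h
  obtain rfl : b = 0 := by_contra fun hb => hw ((Submodule.smul_mem_iff _ hb).mp (by
    rw [show b • w = -(j u + a • v) by linear_combination (norm := module) h]
    exact neg_mem (Submodule.add_mem_sup (hK u) (Submodule.mem_span_singleton.mpr ⟨a, rfl⟩))))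
  obtain rfl : a = 0 := by_contra fun ha => hv ((Submodule.smul_mem_iff _ ha).mp (by
    rw [show a • v = -j u by linear_combination (norm := module) h]
    exact neg_mem (hK u)))
  obtain rfl : u = 0 := hj (by simpa using h)
  rfl

variable [FiniteDimensional F V]

theorem exists_equiv_comp {f₀ f₁ : U →ₗ[F] V} (h₀ : Function.Injective f₀)
    (h₁ : Function.Injective f₁) : ∃ e : V ≃ₗ[F] V, ∀ u, e (f₀ u) = f₁ u := by
  obtain ⟨e, he⟩ := Submodule.exists_linearEquiv_restrict_eq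
    ((LinearEquiv.ofInjective f₀ h₀).symm.trans (LinearEquiv.ofInjective f₁ h₁))
  exact ⟨e, fun u => by simpa using (he (LinearEquiv.ofInjective f₀ h₀ u)).symm⟩

theorem exists_model {x : End F V} (hns : NS x) {K : Submodule F V}
    (hK : finrank F K + 1 ≤ finrank F (x.eigenspace 1)) {v w : V} (hv : v ∉ K)
    (hw : w ∉ K ⊔ F ∙ v) : ∃ y ∈ Sm x, (∀ k ∈ K, y k = k) ∧ y v = w := by
  obtain ⟨u, hu⟩ := ns_iff.mp hns
  obtain ⟨θ, h1, h2⟩ := Submodule.exists_dual_map_eq_bot_of_notMem hu inferInstance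
  have h3 : F ∙ u ≤ LinearMap.ker θ := fun z hz => (Submodule.eq_bot_iff _).mp h2 _ ⟨z, hz, rfl⟩
  have h4 := Submodule.finrank_sup_add_finrank_inf_eq (x.eigenspace 1) (LinearMap.ker θ)
  have h5 := Submodule.finrank_le (x.eigenspace 1 ⊔ LinearMap.ker θ)
  have h6 := finrank_ker_dual_add_one (φ := θ) (by rintro rfl; simp at h1)
  obtain ⟨j, hj⟩ := (finrank_le_iff_exists_linearMap (R := F) (M := K)
    (M' := ↥(x.eigenspace 1 ⊓ LinearMap.ker θ))).mp (by omega)
  obtain ⟨e, he⟩ := exists_equiv_comp (inj_triple (j := Submodule.subtype _ ∘ₗ j) (v := u) (w := x u)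
    (Subtype.val_injective.comp hj) (fun k => (j k).2)
    (fun h => hu (by rw [End.mem_eigenspace_iff.mp h.1]; simp))
    fun h => h1 (sup_le inf_le_right h3 h))
    (inj_triple (j := K.subtype) Subtype.val_injective (fun k => k.2) hv hw)
  refine ⟨_, simil_cj e x, fun k hk => ?_, ?_⟩
  · have h7 : e (j ⟨k, hk⟩) = k := by simpa using he (⟨k, hk⟩, 0, 0)
    rw [cj_apply, ← h7, e.symm_apply_apply, End.mem_eigenspace_iff.mp (j _).2.1, one_smul]
  · have h7 : e u = v := by simpa using he (0, 1, 0)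
    rw [cj_apply, ← h7, e.symm_apply_apply]
    simpa using he (0, 0, 1)

omit [FiniteDimensional F V] in
theorem exists_split {x y g : End F V} (hx : IsUnit x) (hy : y ∈ Sm x) (hg : IsUnit g)
    {K : Submodule F V} {v : V} (h1 : ∀ k ∈ K, y k = g k) (h2 : y v = g v) {m : ℕ}
    (hd : LinearMap.det g = LinearMap.det x ^ (m + 1)) : ∃ g', IsUnit g' ∧ g = y * g' ∧
      (∀ k ∈ K ⊔ F ∙ v, g' k = k) ∧ LinearMap.det g' = LinearMap.det x ^ m := by
  obtain ⟨u, rfl⟩ := (Simil.isUnit_iff hy).mp hx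
  refine ⟨↑u⁻¹ * g, (Units.isUnit _).mul hg, by simp, fun k hk => ?_,
    mul_left_cancel₀ (det_ne_zero hx) ?_⟩
  · obtain ⟨k, hk', _, h, rfl⟩ := Submodule.mem_sup.mp hk
    obtain ⟨a, rfl⟩ := Submodule.mem_span_singleton.mp h
    rw [End.mul_apply, map_add g, map_smul g, ← h1 k hk', ← h2, ← map_smul, ← map_add,
      ← End.mul_apply, Units.inv_mul, End.one_apply]
  · rw [← pow_succ', ← hd, Simil.det hy, ← map_mul, Units.mul_inv_cancel_left]

/-- Elements fixing a subspace of codimension `m` are products of `m` conjugates. -/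
def Cv (x : End F V) (m : ℕ) : Prop :=
  ∀ (K : Submodule F V) (g : End F V), finrank F K + m = finrank F V → IsUnit g →
    (∀ k ∈ K, g k = k) → (∃ v, g v ∉ K ⊔ F ∙ v) → LinearMap.det g = LinearMap.det x ^ m →
    g ∈ Sm x ^ m

theorem Cv.succ {x : End F V} (hx : IsUnit x) (hns : NS x) {m : ℕ} (hm : 2 ≤ m)
    (hE : finrank F V ≤ finrank F (x.eigenspace 1) + m) (h : Cv x m) : Cv x (m + 1) := by
  rintro K g hK hg h1 ⟨v, hv⟩ hd
  have h2 : v ∉ K := fun h => hv (by rw [h1 v h]; exact Submodule.mem_sup_left h)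
  obtain ⟨y, hy, h3, h4⟩ := exists_model hns (by omega) h2 hv
  obtain ⟨y', hy', h5, h6, z, hz⟩ := exists_conj_ns (g := g) (K := K) (v := v)
    ((Simil.isUnit_iff hy).mp hx) (fun k hk => by rwa [h3 k hk]) (fun z hz => by
      obtain ⟨k, hk, _, h, h7⟩ := Submodule.mem_sup.mp hz
      obtain ⟨a, rfl⟩ := Submodule.mem_span_singleton.mp h
      obtain rfl : k + a • v = z := ((End.isUnit_iff g).mp hg).1 (by
        rw [← h7, map_add, map_smul, h1 k hk, h4])
      rw [map_add, map_smul, h3 k hk]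
      exact Submodule.add_mem_sup hk h) (fun h => by
      obtain ⟨k, hk, _, h, h7⟩ := Submodule.mem_sup.mp h
      obtain ⟨a, rfl⟩ := Submodule.mem_span_singleton.mp h
      by_cases ha : a = 0
      · exact h2 (by rwa [← h7, ha, zero_smul, add_zero])
      · refine hv ((Submodule.smul_mem_iff _ ha).mp ?_)
        rw [← h4, eq_sub_of_add_eq' h7]
        exact sub_mem (Submodule.mem_sup_right (Submodule.mem_span_singleton_self v))
          (Submodule.mem_sup_left hk)) (by omega)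
  have h7 : y' ∈ Sm x := Simil.trans hy (simil_of_mem hy')
  obtain ⟨g', h8, h9, h10, h11⟩ := exists_split hx h7 hg (K := K) (v := v)
    (fun k hk => by rw [h5 k hk, h3 k hk, h1 k hk]) (h6.trans h4) hd
  rw [h9]
  refine mem_pow_succ h7 (h _ g' (by rw [Submodule.finrank_sup_span_singleton h2]; omega) h8 h10
    ⟨z, fun h => hz ?_⟩ h11)
  rw [h9, ← h6]
  refine Submodule.mem_comap.mp ((?_ : _ ≤ Submodule.comap y' _) h)
  simp only [sup_le_iff, Submodule.span_singleton_le_iff_mem, Submodule.mem_comap]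
  exact ⟨⟨fun k hk => Submodule.mem_sup_left (Submodule.mem_sup_left (by
    rwa [h5 k hk, h3 k hk])), Submodule.mem_sup_left (Submodule.mem_sup_right
      (Submodule.mem_span_singleton_self _))⟩,
    Submodule.mem_sup_right (Submodule.mem_span_singleton_self _)⟩

theorem exists_refl {K : Submodule F V} (hK : finrank F K + 1 = finrank F V) {g : End F V}
    (hg : ∀ k ∈ K, g k = k) : ∃ φ : Dual F V, φ ≠ 0 ∧ ∃ w, ∀ z, g z = z + φ z • w := by
  obtain ⟨φ, hφ, rfl⟩ := exists_dual_ker_eq K hK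
  obtain ⟨u, hu⟩ := LinearMap.surjective hφ 1
  refine ⟨φ, hφ, g u - u, fun z => ?_⟩
  have := hg (z - φ z • u) (by simp [hu])
  rw [map_sub, map_smul] at this
  linear_combination (norm := module) this

variable [Fintype F]

theorem simil_of_refl {x x' : End F V} {φ φ' : Dual F V} {w w' : V} (hx : ∀ z, x z = z + φ z • w)
    (hx' : ∀ z, x' z = z + φ' z • w') (hφ : φ ≠ 0) (hφ' : φ' ≠ 0) (hw : w ≠ 0) (hw' : w' ≠ 0)
    (h : φ w = φ' w') : Simil x x' := by
  obtain ⟨e, he⟩ := exists_equiv_comp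
    (LinearMap.ker_eq_bot.mp (LinearMap.ker_toSpanSingleton F hw))
    (LinearMap.ker_eq_bot.mp (LinearMap.ker_toSpanSingleton F hw'))
  have h1 : e w = w' := by simpa using he 1
  obtain ⟨u, hu⟩ := exists_forall_notMem Finset.univ ![LinearMap.ker φ, LinearMap.ker (φ' ∘ₗ e)]
    (fun i => by
      fin_cases i
      · simpa
      · simpa using fun h => hφ' ((LinearMap.cancel_right e.surjective).mp
          (h.trans (LinearMap.zero_comp _).symm))) Fintype.one_lt_card
  have h2 : φ u ≠ 0 := hu 0 (by simp)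
  have h3 : φ' (e u) ≠ 0 := hu 1 (by simp)
  obtain ⟨e', he'⟩ := exists_equiv (g := 1 + ((φ' (e u))⁻¹ • (φ - φ' ∘ₗ e)).smulRight u)
    ((LinearMap.isUnit_iff_isUnit_det _).mpr (by
      rw [det_tv fun _ => rfl]
      simp [mul_sub, h2, h3]))
  have h4 : ∀ z, e' z = z + ((φ' (e u))⁻¹ * (φ z - φ' (e z))) • u := LinearMap.congr_fun he'
  refine ⟨e'.trans e, fun z => ?_⟩
  rw [hx, hx', map_add, map_smul]
  congr 2
  · simp [h4, mul_right_comm _ _ (φ' (e u)), h3]
  · simp [h4, h1, h]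

theorem cov_two (h4 : 4 ≤ Fintype.card F) {x : End F V} (hx : IsUnit x) (hns : NS x)
    (hE : finrank F (x.eigenspace 1) + 1 = finrank F V) : Cv x 2 := by
  rintro K g hK hg h1 ⟨v, hv⟩ hd
  have h2 : v ∉ K := fun h => hv (by rw [h1 v h]; exact Submodule.mem_sup_left h)
  obtain ⟨y, hy, h3, h5⟩ := exists_model hns (by omega) h2 hv
  obtain ⟨g', -, rfl, h6, h7⟩ := exists_split hx hy hg (K := K) (v := v)
    (fun k hk => by rw [h3 k hk, h1 k hk]) h5 hd
  obtain ⟨φ, hφ, w, hw⟩ := exists_refl hE (g := x) fun k hk => by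
    rw [End.mem_eigenspace_iff.mp hk, one_smul]
  obtain ⟨φ', hφ', w', hw'⟩ := exists_refl
    (by rw [Submodule.finrank_sup_span_singleton h2]; omega) h6
  have h8 : w ≠ 0 := by
    rintro rfl
    exact hns 1 (by ext z; simp [hw])
  rw [pow_one, det_tv hw, det_tv hw', add_right_inj] at h7
  rw [pow_two]
  by_cases h9 : w' = 0
  · obtain ⟨a, ha, ha', -⟩ := exists_ne_three h4 (0 : F) 1 1
    rw [h9, map_zero] at h7
    have h10 : ∀ c : F, c ≠ 0 → 1 + φ.smulRight (c • w) ∈ Sm x := fun c hc =>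
      simil_of_refl hw (fun _ => rfl) hφ hφ h8 (smul_ne_zero hc h8) (by simp [← h7])
    rw [← pow_two, show g' = 1 by ext z; simp [hw', h9], mul_one]
    refine mem_pow_of_simil ?_ hy
    rw [pow_two]
    convert Set.mul_mem_mul (h10 a ha) (h10 (1 - a) (sub_ne_zero.mpr ha'.symm)) using 1
    ext z
    simp [hw, ← h7]
    module
  · exact Set.mul_mem_mul hy (simil_of_refl hw hw' hφ hφ' h8 h9 h7.symm)

omit [Fintype F] in
theorem exists_simil_cyc {f : F[X]} (hf : f.Monic) (hd : f.natDegree = finrank F V) :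
    ∃ T : End F V, Simil T (cyc f) :=
  have := finiteDimensional_adjoinRoot hf.ne_zero
  ⟨_, (simil_cj (LinearEquiv.ofFinrankEq _ _ (by rw [finrank_adjoinRoot, hd])) _).symm⟩

theorem exists_ET (h4 : 4 ≤ Fintype.card F) (h3 : 3 ≤ finrank F V) (D : F) :
    ∃ E : End F V, ET E ∧ LinearMap.det E = D ∧ E.eigenspace 1 = ⊥ := by
  obtain ⟨k, hk⟩ : ∃ k, finrank F V = k + 3 := ⟨finrank F V - 3, by omega⟩
  obtain ⟨d, h0, h1, -⟩ := exists_ne_three h4 (0 : F) 1 1
  obtain ⟨c, hc⟩ : ∃ c, (-1) ^ k * c * d = D := ⟨(-1) ^ k * D / d, by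
    rw [← mul_div_assoc, ← mul_assoc, ← mul_pow, div_mul_cancel₀ _ h0]; simp⟩
  obtain ⟨a, h5, h6, -⟩ := exists_ne_three h4 (-(1 + c)) (-(d ^ (k + 2) + c) / d) 0
  have h7 : (X ^ (k + 2) + (C a * X + C c) : F[X]).Monic := monic_X_pow_add (by
    refine degree_linear_le.trans_lt ?_
    exact_mod_cast (by omega : 1 < k + 2))
  have h8 : (X ^ (k + 2) + (C a * X + C c) : F[X]).natDegree = k + 2 := by
    rw [natDegree_add_eq_left_of_natDegree_lt] <;> rw [natDegree_X_pow]
    exact natDegree_linear_le.trans_lt (by omega)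
  have h9 := h7.mul (monic_X_sub_C d)
  have h10 := h7.natDegree_mul (monic_X_sub_C d)
  rw [h8, natDegree_X_sub_C] at h10
  obtain ⟨E, hE⟩ := exists_simil_cyc (V := V) h9 (by rw [h10, hk])
  have := finiteDimensional_adjoinRoot h9.ne_zero
  refine ⟨E, ⟨_, d, h7, fun h => h6 ?_, hE⟩, ?_, by_contra fun h => ?_⟩
  · simp only [eval_add, eval_pow, eval_X, eval_mul, eval_C] at h
    rw [eq_div_iff h0]
    linear_combination h
  · rw [hE.det_of_cyc h9, h10, ← hc]
    simp [pow_succ, coeff_X_pow]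
    ring
  · have := (End.hasEigenvalue_iff_isRoot_charpoly E 1).mp h
    rw [hE.charpoly, charpoly_cyc h9] at this
    simp only [IsRoot, eval_add, eval_pow, eval_X, eval_mul, eval_C, eval_sub, mul_eq_zero] at this
    exact this.elim (fun h => h5 (by linear_combination h - one_pow (M := F) (k + 2)))
      fun h => h1 (sub_eq_zero.mp h).symm

omit [Fintype F] in
theorem exists_quot {K : Submodule F V} {g : End F V} (hg : ∀ k ∈ K, g k = k) :
    ∃ a : End F (V ⧸ K), (∀ z, K.mkQ (g z) = a (K.mkQ z)) ∧ LinearMap.det a = LinearMap.det g := by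
  have h : K ≤ K.comap g := fun k hk => by rwa [Submodule.mem_comap, hg k hk]
  refine ⟨K.mapQ K g h, fun _ => rfl, ?_⟩
  rw [LinearMap.det_eq_det_mul_det K g h, show g.restrict h = 1 from
    LinearMap.ext fun k => Subtype.ext (hg k k.2), map_one, one_mul]

theorem cov_core (h4 : 4 ≤ Fintype.card F) {x : End F V} (hx : IsUnit x) {k : ℕ}
    {K : Submodule F V} (hE : 2 * finrank F (x.eigenspace 1) + k + 4 = 2 * finrank F V)
    (hK : finrank F K + (k + 5) = finrank F V) (hxK : ∀ k ∈ K, x k = k)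
    (hdis : Disjoint (LinearMap.range (x - (1 : F) • 1)) K) {g : End F V} (hg : IsUnit g)
    (h1 : ∀ k ∈ K, g k = k) (hv : ∃ v, g v ∉ K ⊔ F ∙ v)
    (hd : LinearMap.det g = LinearMap.det x ^ (k + 5)) : g ∈ Sm x ^ (k + 5) := by
  obtain ⟨W, hW, hc⟩ := hdis.exists_isCompl
  let s := W.subtype ∘ₗ (K.quotientEquivOfIsCompl W hc.symm).toLinearMap
  have hs : ∀ w, K.mkQ (s w) = w := K.mk_quotientEquivOfIsCompl_apply hc.symm
  have hs' : ∀ z, s (K.mkQ (x z - z)) = x z - z := fun z => congrArg Subtype.val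
    (K.quotientEquivOfIsCompl_apply_mk_right hc.symm ⟨_, hW ⟨z, by simp⟩⟩)
  let ι : End F (V ⧸ K) →* End F V :=
    { toFun a := 1 + s ∘ₗ (a - 1) ∘ₗ K.mkQ
      map_one' := by simp
      map_mul' a b := by ext z; simp [-Submodule.mkQ_apply, hs, add_assoc] }
  have hι : ∀ a z, ι a z = z + s (a (K.mkQ z) - K.mkQ z) := fun _ _ => rfl
  have hπ : ∀ a z, K.mkQ (ι a z) = a (K.mkQ z) := fun a z => by
    rw [hι, map_add, hs, add_sub_cancel]
  have hιK : ∀ a, ∀ z ∈ K, ι a z = z := fun a z hz => by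
    simp [hι, (Submodule.Quotient.mk_eq_zero K).mpr hz]
  obtain ⟨x', hx1, hx2⟩ := exists_quot hxK
  obtain ⟨g', hg1, hg2⟩ := exists_quot h1
  have hx3 : ι x' = x := LinearMap.ext fun z => by rw [hι, ← hx1, ← map_sub, hs', add_sub_cancel]
  have hq := K.finrank_quotient_add_finrank
  have hδ := det_ne_zero hx
  have hu : ∀ {a : End F (V ⧸ K)} {j : ℕ}, LinearMap.det a = LinearMap.det x ^ j → IsUnit a :=
    fun h => (LinearMap.isUnit_iff_isUnit_det _).mpr (h ▸ (pow_ne_zero _ hδ).isUnit)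
  have hx4 := hu (hx2.trans (pow_one _).symm)
  have hx5 : ∀ c, 2 * finrank F (x'.eigenspace c) ≤ finrank F (V ⧸ K) + 1 := fun c => by
    by_cases hc : c = 1
    · have h2 := (x - (1 : F) • 1).finrank_range_add_finrank_ker
      have h3 := (x' - (1 : F) • 1).finrank_range_add_finrank_ker
      have h5 := Submodule.finrank_mono (show LinearMap.range (x - (1 : F) • 1) ≤
        (LinearMap.range (x' - (1 : F) • 1)).map s by
          rintro _ ⟨z, rfl⟩
          exact ⟨_, ⟨K.mkQ z, rfl⟩, by simpa [-Submodule.mkQ_apply, hx1] using hs' z⟩)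
      have h6 := Submodule.finrank_map_le s (LinearMap.range (x' - (1 : F) • 1))
      rw [← End.eigenspace_def] at h2 h3
      subst hc
      omega
    · have h2 := LinearMap.finrank_le_finrank_of_injective (f := LinearMap.codRestrict
        (x.eigenspace c) (s ∘ₗ (x'.eigenspace c).subtype) fun z => by
          rw [End.mem_eigenspace_iff, ← hx3, hι]
          simp [-Submodule.mkQ_apply, hs, End.mem_eigenspace_iff.mp z.2]) fun z w h =>
        Subtype.ext (by simpa [-Submodule.mkQ_apply, hs] using congrArg (fun u => K.mkQ u.1) h)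
      have h3 := Submodule.finrank_sup_add_finrank_inf_eq (x.eigenspace c) (x.eigenspace 1)
      rw [(x.eigenspaces_iSupIndep.pairwiseDisjoint hc).eq_bot, finrank_bot] at h3
      have h5 := Submodule.finrank_le (x.eigenspace c ⊔ x.eigenspace 1)
      omega
  have hx6 : NS x' := fun c h => by
    have := hx5 c
    rw [show x'.eigenspace c = ⊤ from eq_top_iff.mpr fun v _ => by simp [h], finrank_top] at this
    omega
  have hg3 : NS g' := by
    obtain ⟨v, hv⟩ := hv
    refine ns_iff.mpr ⟨K.mkQ v, fun h => hv ?_⟩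
    obtain ⟨c, hc⟩ := Submodule.mem_span_singleton.mp h
    rw [← hg1, ← map_smul, eq_comm, Submodule.mkQ_apply, Submodule.mkQ_apply,
      Submodule.Quotient.eq] at hc
    rw [← sub_add_cancel (g v) (c • v)]
    exact Submodule.add_mem_sup hc (Submodule.mem_span_singleton.mpr ⟨c, rfl⟩)
  have hdet : ∀ {j : ℕ} {a}, a ∈ Cl x' ^ j → LinearMap.det a = LinearMap.det x ^ j :=
    det_of_mem_pow fun y hy => (simil_of_mem hy).det.symm.trans hx2
  obtain ⟨A, hA, hA'⟩ := exists_et h4 hx4 (by omega) hx5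
  obtain ⟨E, hE1, hE2, hE3⟩ := exists_ET (V := V ⧸ K) h4 (by omega) (LinearMap.det x ^ 3)
  have hE4 : E ∈ Cl x' ^ 3 := by
    rw [pow_succ']
    exact mem_of_ET (inv_Cl _) ((inv_Cl _).pow 2) hx4 hx6 (self_mem_Cl _) hA' hA hE1 (hu hE2)
      (by rw [hx2, hdet hA, hE2]; ring)
  have h2 := mem_pow_mul_pad hx4 hx6 (by omega) le_rfl (B := Cl x' ^ 2 * Cl E)
    (d := LinearMap.det x ^ 5) (fun h h1 h2 h3 => mem_mul_of_ET ((inv_Cl _).pow 2) (inv_Cl _) h1 h2
      hE1.cyc (hu hE2) (self_mem_Cl _) hA' (hu (hdet hA)) hA (Or.inl hE1.full)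
      (by rw [h3, hdet hA, hE2]; ring)) k g' (hu (hg2.trans hd)) hg3 (by rw [hg2, hd, hx2]; ring)
  rw [← mul_assoc, ← pow_add] at h2
  obtain ⟨R, hR, E', hE', rfl⟩ := h2
  have h3 : ∀ {j : ℕ} {a}, a ∈ Cl x' ^ j → ι a ∈ Sm x ^ j := map_mem_pow ι (by
    rintro _ ⟨e, -, rfl⟩
    obtain ⟨e', he'⟩ := exists_equiv ((isUnit_coe e).map ι)
    exact simil_iff.mpr ⟨e', cj_eq_of_mul (by rw [he', ← map_mul, cj_mul, map_mul, hx3])⟩)
  obtain ⟨R, rfl⟩ := hu (hdet hR)
  obtain ⟨u, hu'⟩ : IsUnit (E' - (1 : F) • 1) := by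
    rw [LinearMap.isUnit_iff_ker_eq_bot, ← End.eigenspace_def, ← Submodule.finrank_eq_zero,
      ← finrank_eigenspace_eq (simil_of_mem hE'), hE3, finrank_bot]
  have h5 : ∀ z ∈ K, (ι ↑R⁻¹ * g) z = z := fun z hz => by rw [End.mul_apply, h1 z hz, hιK _ z hz]
  have h6 : ∀ z, (ι ↑R⁻¹ * g - ι E') z ∈ K := fun z => by
    rw [← Submodule.Quotient.mk_eq_zero, ← Submodule.mkQ_apply, LinearMap.sub_apply, map_sub,
      End.mul_apply, hπ, hπ, hg1, ← End.mul_apply, Units.inv_mul_cancel_left, sub_self]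
  let T := (ι ↑R⁻¹ * g - ι E') ∘ₗ s ∘ₗ (↑u⁻¹ : End F (V ⧸ K)) ∘ₗ K.mkQ
  have h7 : ∀ z, T z ∈ K := fun z => h6 _
  have h8 : T * T = 0 := LinearMap.ext fun z => by
    have : K.mkQ (T z) = 0 := (Submodule.Quotient.mk_eq_zero K).mpr (h7 z)
    change (ι ↑R⁻¹ * g - ι E') (s ((↑u⁻¹ : End F (V ⧸ K)) (K.mkQ (T z)))) = 0
    rw [this, map_zero, map_zero, map_zero]
  obtain ⟨τ, hτ⟩ := exists_equiv (IsNilpotent.isUnit_one_add ⟨2, by rw [pow_two, h8]⟩)
  rw [show g = ι R * (ι ↑R⁻¹ * g) by rw [← mul_assoc, ← map_mul, Units.mul_inv, map_one, one_mul],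
    show k + 5 = k + 2 + 3 by ring, pow_add]
  refine Set.mul_mem_mul (h3 hR) (mem_pow_of_simil (h3 ((inv_Cl _).pow 3 E hE4 hE'))
    ⟨τ, fun z => ?_⟩)
  have h9 : T (ι E' z) - T z = (ι ↑R⁻¹ * g - ι E') z := by
    rw [← map_sub, ← sub_eq_zero]
    have h10 : K.mkQ (ι E' z - z) = (u : End F (V ⧸ K)) (K.mkQ z) := by
      rw [map_sub, hπ, hu']; simp
    have h11 : s (K.mkQ z) - z ∈ K := by
      rw [← Submodule.Quotient.mk_eq_zero, ← Submodule.mkQ_apply, map_sub, hs, sub_self]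
    simp only [T, LinearMap.comp_apply, h10]
    rw [← End.mul_apply _ (u : End F (V ⧸ K)), Units.inv_mul, End.one_apply, ← map_sub,
      LinearMap.sub_apply, h5 _ h11, hιK _ _ h11, sub_self]
  change (τ : End F V) _ = (ι ↑R⁻¹ * g) ((τ : End F V) z)
  rw [hτ, LinearMap.add_apply, LinearMap.add_apply, map_add, h5 _ (h7 z)]
  rw [LinearMap.sub_apply] at h9
  linear_combination (norm := module) h9

theorem cov_base (h4 : 4 ≤ Fintype.card F) {x : End F V} (hx : IsUnit x) {k : ℕ}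
    (hE : 2 * finrank F (x.eigenspace 1) + k + 4 = 2 * finrank F V) : Cv x (k + 5) := by
  intro K g hK hg h1 hv hd
  obtain ⟨Q, hQ⟩ := ((LinearMap.range (x - (1 : F) • 1)).comap
    (x.eigenspace 1).subtype).exists_isCompl
  have h2 := Submodule.finrank_add_eq_of_isCompl hQ
  have h3 := (x - (1 : F) • 1).finrank_range_add_finrank_ker
  have h5 := Submodule.finrank_mono ((LinearMap.range (x - (1 : F) • 1)).map_comap_le
    (x.eigenspace 1).subtype)
  rw [← End.eigenspace_def] at h3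
  rw [Submodule.finrank_map_subtype_eq] at h5
  obtain ⟨j, hj⟩ := (finrank_le_iff_exists_linearMap (R := F) (M := K) (M' := Q)).mp (by omega)
  obtain ⟨e, he⟩ := exists_equiv_comp (f₀ := Submodule.subtype _ ∘ₗ Q.subtype ∘ₗ j)
    (Subtype.val_injective.comp (Subtype.val_injective.comp hj)) K.injective_subtype
  have h6 : ∀ k : K, e.symm k = j k := fun k => e.symm_apply_eq.mpr (he k).symm
  have hs := simil_cj e x
  rw [show Sm x = Sm (cj e x) from Set.ext fun y => ⟨hs.symm.trans, hs.trans⟩]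
  refine cov_core h4 (hs.isUnit_iff.mp hx) (finrank_eigenspace_eq hs 1 ▸ hE) hK (fun k hk => ?_)
    (Submodule.disjoint_def.mpr ?_) hg h1 hv (hs.det ▸ hd)
  · rw [cj_apply, h6 ⟨k, hk⟩, End.mem_eigenspace_iff.mp (j _).1.2, one_smul]
    exact he ⟨k, hk⟩
  · rintro _ ⟨z, rfl⟩ hz
    have h7 := Submodule.disjoint_def.mp hQ.disjoint _ ⟨e.symm z, by
      rw [Submodule.subtype_apply, ← h6 ⟨_, hz⟩]; simp⟩ (j ⟨_, hz⟩).2
    exact congrArg Subtype.val (hj ((Subtype.ext h7).trans (map_zero j).symm))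

/-- Classes with a large fixed space. -/
theorem mem_pow_of_big (h4 : 4 ≤ Fintype.card F) {x : End F V} (hx : IsUnit x) (hns : NS x)
    (hE : finrank F V < 2 * finrank F (x.eigenspace 1)) {g : End F V} (hg : IsUnit g) (hg' : NS g)
    (hd : LinearMap.det g = LinearMap.det x ^ finrank F V) : g ∈ Sm x ^ finrank F V := by
  have h1 := Submodule.finrank_lt (s := x.eigenspace 1) fun h => hns 1 (LinearMap.ext fun v =>
    End.mem_eigenspace_iff.mp (h.ge Submodule.mem_top))
  obtain ⟨m, h2, h3, h5, h6⟩ : ∃ m, 2 ≤ m ∧ m ≤ finrank F V ∧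
      finrank F V ≤ finrank F (x.eigenspace 1) + m ∧ Cv x m := by
    by_cases h : finrank F (x.eigenspace 1) + 1 = finrank F V
    · exact ⟨2, le_rfl, by omega, by omega, cov_two h4 hx hns h⟩
    · exact ⟨_, by omega, by omega, by omega, cov_base h4 hx
        (k := 2 * (finrank F V - finrank F (x.eigenspace 1)) - 4) (by omega)⟩
  have : Cv x (finrank F V) :=
    Nat.le_induction h6 (fun j hj => Cv.succ hx hns (by omega) (by omega)) _ h3
  exact this ⊥ g (by simp) hg (by simp) (by simpa using ns_iff.mp hg') hd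

end CL.Cov
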