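/-
The covering number of `SL(V)` modulo scalars is `dim V`.
-/
import Mathlib
import Cfsg.Agent.KSG.Cov4

set_option autoImplicit false

namespace CL.Cov

open Module Polynomial CL.GLn Matrix
open scoped Pointwise

variable {F : Type*} [Field F] {V : Type*} [AddCommGroup V] [Module F V]

theorem exists_basis_of_span {n : ℕ} {x : End F V} (hn : finrank F V = n) (b : Fin n → V)
    (M : Matrix (Fin n) (Fin n) F) (h : ∀ j, x (b j) = ∑ i, M i j • b i)
    (hb : ∀ N : Submodule F V, (∀ i, b i ∈ N) → (∀ v ∈ N, x v ∈ N) → N = ⊤) :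
    ∃ B : Basis (Fin n) F V, x = toLin B B M := by
  have h1 : ∀ i, b i ∈ Submodule.span F (Set.range b) := fun i => Submodule.subset_span ⟨i, rfl⟩
  have h2 : Submodule.span F (Set.range b) ≤ (Submodule.span F (Set.range b)).comap x := by
    rw [Submodule.span_le]
    rintro _ ⟨j, rfl⟩
    exact show x _ ∈ _ from h j ▸ sum_mem fun i _ => Submodule.smul_mem _ _ (h1 i)
  let B := basisOfTopLeSpanOfCardEqFinrank b (hb _ h1 h2).ge (by simp [hn])
  exact ⟨B, B.ext fun j => by rw [toLin_self]; simp [B, h]⟩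

theorem scalar_mem {n : ℕ} (B : Basis (Fin n) F V) {M D : Matrix (Fin n) (Fin n) F} {t : F}
    (hD : D.det = 1) (h : M * D * M = t • D) : algebraMap F _ t ∈ Cl (toLin B B M) ^ 2 := by
  have := Module.Finite.of_basis B
  have h1 : LinearMap.det (toLin B B D) = 1 := by rwa [LinearMap.det_toLin]
  obtain ⟨e, he⟩ := exists_equiv ((LinearMap.isUnit_iff_isUnit_det _).mpr (h1 ▸ isUnit_one))
  rw [pow_two]
  refine ⟨_, self_mem_Cl _, _, ⟨e, he ▸ h1, rfl⟩, (isUnit_coe e).mul_right_cancel ?_⟩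
  rw [mul_assoc, cj_mul, he, ← Algebra.smul_def, ← map_smul, ← h, toLin_mul B B B, toLin_mul B B B]
  rfl

theorem smul_mem_pow {C D : Set (End F V)} {c : F} (h : ∀ y ∈ C, c • y ∈ D) {k : ℕ} :
    ∀ {y}, y ∈ C ^ k → c ^ k • y ∈ D ^ k := by
  induction k with
  | zero => simp
  | succ k ih =>
    rw [pow_succ, pow_succ, pow_succ]
    rintro _ ⟨y, hy, z, hz, rfl⟩
    exact ⟨_, ih hy, _, h z hz, smul_mul_smul_comm _ _ _ _⟩

variable [FiniteDimensional F V]

theorem finrank_le_of_mem_pow {C : Set (End F V)}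
    (h : ∀ y ∈ C, finrank F V ≤ finrank F (y.eigenspace 1) + 1) {k : ℕ} :
    ∀ {y}, y ∈ C ^ k → finrank F V ≤ finrank F (y.eigenspace 1) + k := by
  induction k with
  | zero =>
    rintro _ (rfl : _ = 1)
    rw [show (1 : End F V).eigenspace 1 = ⊤ from eq_top_iff.mpr fun v _ => by simp, finrank_top]
    rfl
  | succ k ih =>
    rw [pow_succ]
    rintro _ ⟨y, hy, z, hz, rfl⟩
    have h1 := Submodule.finrank_sup_add_finrank_inf_eq (y.eigenspace 1) (z.eigenspace 1)
    have h2 := Submodule.finrank_le (y.eigenspace 1 ⊔ z.eigenspace 1)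
    have h3 := Submodule.finrank_mono (show y.eigenspace 1 ⊓ z.eigenspace 1 ≤ (y * z).eigenspace 1
      from fun v hv => by simp_all)
    have := ih hy
    have := h z hz
    beta_reduce
    omega

theorem exists_no_eigen [Fintype F] (h2 : 2 ≤ finrank F V) :
    ∃ g : End F V, LinearMap.det g = 1 ∧ ∀ c, g.eigenspace c = ⊥ := by
  classical
  obtain ⟨k, hk⟩ : ∃ k, finrank F V = k + 2 := ⟨finrank F V - 2, by omega⟩
  obtain ⟨a, -, ha⟩ := Finset.exists_mem_notMem_of_card_lt_card (t := Finset.univ)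
    (s := (Finset.univ.erase (0 : F)).image fun d => -(d ^ (k + 2) + (-1) ^ k) / d)
    (Finset.card_image_le.trans_lt (Finset.card_erase_lt_of_mem (Finset.mem_univ _)))
  have h7 : (X ^ (k + 2) + (C a * X + C ((-1) ^ k)) : F[X]).Monic := monic_X_pow_add (by
    refine degree_linear_le.trans_lt ?_
    exact_mod_cast (by omega : 1 < k + 2))
  have h8 : (X ^ (k + 2) + (C a * X + C ((-1) ^ k)) : F[X]).natDegree = k + 2 := by
    rw [natDegree_add_eq_left_of_natDegree_lt] <;> rw [natDegree_X_pow]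
    exact natDegree_linear_le.trans_lt (by omega)
  obtain ⟨E, hE⟩ := exists_simil_cyc (V := V) h7 (by rw [h8, hk])
  have := finiteDimensional_adjoinRoot h7.ne_zero
  refine ⟨E, ?_, fun c => by_contra fun h => ?_⟩
  · rw [hE.det_of_cyc h7, h8, coeff_zero_eq_eval_zero]
    simp [pow_add, ← mul_pow]
  · have := (End.hasEigenvalue_iff_isRoot_charpoly E c).mp h
    rw [hE.charpoly, charpoly_cyc h7] at this
    simp only [IsRoot, eval_add, eval_pow, eval_X, eval_mul, eval_C] at this
    have hc : c ≠ 0 := by rintro rfl; simp at this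
    exact ha (Finset.mem_image.mpr ⟨c, by simpa, by rw [div_eq_iff hc]; linear_combination -this⟩)

theorem exists_gens [Finite F] {x : End F V} (h : ¬Full x) :
    ∃ (m : ℕ) (p : Fin m → F[X]) (e : Fin m → ℕ) (u : Fin m → V),
      (∀ i, (p i).Monic ∧ 0 < (p i).natDegree ∧ 2 ≤ e i ∧ aeval x (p i ^ e i) (u i) = 0) ∧
      ∑ i, e i * (p i).natDegree = finrank F V ∧
      ∀ N : Submodule F V, (∀ i, u i ∈ N) → (∀ v ∈ N, x v ∈ N) → N = ⊤ := by
  obtain ⟨s, hs⟩ := exists_hasED x
  obtain ⟨h1, m, y, rfl, e, he⟩ := id hs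
  have h2 : ∀ i P, aeval x P (e.symm (Pi.single i 1)) = e.symm (Pi.single i (AdjoinRoot.mk _ P)) :=
    fun i P => by
      refine e.eq_symm_apply.mpr ((intertwine_aeval e.toLinearMap he P _).trans ?_)
      ext1 j
      rw [aeval_model_apply, LinearEquiv.coe_coe, e.apply_symm_apply]
      rcases eq_or_ne j i with rfl | h
      · simp
      · simp [h]
  refine ⟨m, fun i => (y i).1, fun i => (y i).2, fun i => e.symm (Pi.single i 1), fun i => ?_,
    by rw [hs.finrank_eq, Multiset.map_map]; rfl, fun N h3 h4 => eq_top_iff.mpr fun v _ => ?_⟩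
  · obtain ⟨h3, h4, h5⟩ := h1 (y i) (by simp)
    refine ⟨h3, h4.natDegree_pos, by_contra fun h6 => h fun c hc =>
      hs.exists_commute_det_of_exp_one (x := y i) (by simp) (by simp at h6; omega) hc, by
        rw [h2, AdjoinRoot.mk_self]; simp⟩
  · rw [← e.symm_apply_apply v, ← Finset.univ_sum_single (e v), map_sum]
    refine sum_mem fun i _ => ?_
    obtain ⟨P, hP⟩ := AdjoinRoot.mk_surjective (e v i)
    rw [← hP, ← h2]
    exact Polynomial.aeval_apply_smul_mem_of_le_comap (h3 i) P _ h4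

theorem cyc_of_not_full [Finite F] {x : End F V} (hn : finrank F V = 3) (h : ¬Full x) : Cyc x := by
  obtain ⟨m, p, e, u, h1, h2, h3⟩ := exists_gens h
  have h4 := Finset.card_nsmul_le_sum Finset.univ (fun i => e i * (p i).natDegree) 2 fun i _ => by
    nlinarith [(h1 i).2.1, (h1 i).2.2.1]
  simp only [h2, hn, Finset.card_univ, Fintype.card_fin, smul_eq_mul] at h4
  obtain rfl | rfl : m = 0 ∨ m = 1 := by omega
  · simp [hn] at h2
  · exact ⟨u 0, fun N hN => h3 N fun i => Subsingleton.elim 0 i ▸ hN⟩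

theorem exists_scalar_four [Finite F] {x : End F V} (hn : finrank F V = 4)
    (hd : LinearMap.det x = 1) (h : ¬Full x) : ∃ t, algebraMap F _ t ∈ Cl x ^ 2 := by
  obtain ⟨m, p, e, u, h1, h2, h3⟩ := exists_gens h
  have h5 : ∀ i, 2 ≤ e i * (p i).natDegree := fun i => by nlinarith [(h1 i).2.1, (h1 i).2.2.1]
  have h4 := Finset.card_nsmul_le_sum Finset.univ (fun i => e i * (p i).natDegree) 2 fun i _ => h5 i
  simp only [h2, hn, Finset.card_univ, Fintype.card_fin, smul_eq_mul] at h4
  obtain rfl | rfl | rfl : m = 0 ∨ m = 1 ∨ m = 2 := by omega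
  · simp [hn] at h2
  · obtain ⟨h6, h7, h8, h9⟩ := h1 0
    rw [Fin.sum_univ_one, hn] at h2
    obtain ⟨f, hf, hf', h10⟩ : ∃ f : F[X], f.Monic ∧ f.natDegree = 2 ∧ p 0 ^ e 0 = f ^ 2 := by
      have : e 0 ≤ 4 := by nlinarith
      interval_cases e 0
      · exact ⟨_, h6, by omega, rfl⟩
      · omega
      · exact ⟨_, h6.pow 2, by rw [h6.natDegree_pow]; omega, by ring⟩
    rw [h10, eq_quadratic_of_degree_le_two (p := f) (degree_le_of_natDegree_le hf'.le),
      show f.coeff 2 = 1 from hf' ▸ hf.coeff_natDegree] at h9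
    generalize f.coeff 1 = a, f.coeff 0 = t at h9
    simp only [sq, map_mul, map_add, aeval_X, aeval_C, End.mul_apply, LinearMap.add_apply,
      algebraMap_end_apply, map_smul] at h9
    obtain ⟨B, hB⟩ := exists_basis_of_span hn ![u 0, x (u 0), x (x (u 0)), x (x (x (u 0)))]
      !![0, 0, 0, -t ^ 2; 1, 0, 0, -(2 * a * t); 0, 1, 0, -(a ^ 2 + 2 * t); 0, 0, 1, -(2 * a)]
      (fun j => by
        fin_cases j <;> simp [Fin.sum_univ_four]
        linear_combination (norm := module) h9)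
      fun N hN => h3 N fun i => Subsingleton.elim 0 i ▸ hN 0
    rw [hB, LinearMap.det_toLin] at hd
    have ht : t ^ 2 = 1 := by
      rw [← hd]; simp [det_succ_row_zero, Fin.sum_univ_succ, Fin.succAbove]; ring
    refine ⟨t, hB ▸ scalar_mem B (D := !![0, 0, 0, t; 0, 0, 1, 0; 0, t, 0, 0; 1, 0, 0, 0])
      (by simp [det_succ_row_zero, Fin.sum_univ_succ, Fin.succAbove]; linear_combination ht) ?_⟩
    rcases sq_eq_one_iff.mp ht with rfl | rfl <;> ext i j <;> fin_cases i <;>
      fin_cases j <;> simp [Matrix.mul_apply, Fin.sum_univ_four]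
  · have h6 : ∀ i, ∃ a : F, x (x (u i) - a • u i) = a • (x (u i) - a • u i) := fun i => by
      obtain ⟨h6, h7, h8, h9⟩ := h1 i
      have h10 : e i * (p i).natDegree = 2 := by
        have := h5 0
        have := h5 1
        rw [Fin.sum_univ_two, hn] at h2
        fin_cases i <;> simp <;> omega
      obtain h11 : (p i).natDegree = 1 := by nlinarith
      rw [show e i = 2 by simpa [h11] using h10, h6.eq_X_add_C h11] at h9
      simp only [sq, map_mul, map_add, aeval_X, aeval_C, End.mul_apply, LinearMap.add_apply,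
        algebraMap_end_apply, map_smul] at h9
      exact ⟨-(p i).coeff 0, by rw [map_sub, map_smul]; linear_combination (norm := module) h9⟩
    obtain ⟨a, ha⟩ := h6 0
    obtain ⟨c, hc⟩ := h6 1
    obtain ⟨B, hB⟩ := exists_basis_of_span hn ![u 0, x (u 0) - a • u 0, u 1, x (u 1) - c • u 1]
      !![a, 0, 0, 0; 1, a, 0, 0; 0, 0, c, 0; 0, 0, 1, c]
      (fun j => by fin_cases j <;> simp [Fin.sum_univ_four, -map_sub, ha, hc])
      fun N hN => h3 N (Fin.forall_fin_two.mpr ⟨hN 0, hN 2⟩)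
    rw [hB, LinearMap.det_toLin] at hd
    have ht : a * (a * (c * c)) = 1 := by
      simpa [det_succ_row_zero, Fin.sum_univ_succ, Fin.succAbove] using hd
    have ha0 : a ≠ 0 := by rintro rfl; simp at ht
    have hc0 : c ≠ 0 := by rintro rfl; simp at ht
    refine ⟨a * c, hB ▸ scalar_mem B
      (D := !![0, 0, 1, 0; 0, 0, 0, -(c / a); 1, 0, 0, 0; 0, -(a / c), 0, 0])
      (by simp [det_succ_row_zero, Fin.sum_univ_succ, Fin.succAbove, ha0, hc0]) ?_⟩
    ext i j
    fin_cases i <;> fin_cases j <;> simp [Matrix.mul_apply, Fin.sum_univ_four] <;> field_simp <;>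
      ring

theorem exists_anti_three {x : End F V} (hn : finrank F V = 3) (hx : Cyc x) :
    ∃ p q r : F, Simil x (toLin' !![0, 0, p; 0, 1, q; 1, 1, r]) := by
  obtain ⟨v, hv⟩ := hx
  have h1 := LinearMap.congr_fun (LinearMap.aeval_self_charpoly x) v
  have h2 := x.charpoly_monic.coeff_natDegree
  rw [aeval_eq_sum_range] at h1
  rw [x.charpoly_natDegree, hn] at h1 h2
  simp only [Finset.sum_range_succ, Finset.sum_range_zero, h2, pow_succ, pow_zero, End.mul_apply,
    LinearMap.add_apply, LinearMap.smul_apply, End.one_apply, LinearMap.zero_apply] at h1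
  obtain ⟨B, hB⟩ := exists_basis_of_span hn ![x v - v, x v, x (x v) - x v]
    !![0, 0, x.charpoly.coeff 0; 0, 1, -(x.charpoly.coeff 0 + x.charpoly.coeff 1 +
      x.charpoly.coeff 2 + 1); 1, 1, -(x.charpoly.coeff 2 + 1)] (fun j => by
      fin_cases j <;> simp [Fin.sum_univ_three]
      linear_combination (norm := module) h1)
    fun N hN => hv N (by simpa using sub_mem (hN 1) (hN 0))
  exact ⟨_, _, _, (LinearEquiv.symm_apply_eq _).mp hB.symm ▸ simil_toMatrix B x⟩

theorem exists_diag_three {x y : End F V} (hn : finrank F V = 3) (hx : Cyc x) (hy : Cyc y)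
    (hd : LinearMap.det x * LinearMap.det y = 1) {a : F} (ha : a ≠ 0) :
    ∃ y' ∈ Cl y, (x * y').charpoly = ∏ i, (X - C (![a, 1, a⁻¹] i)) := by
  obtain ⟨p, q, r, h1⟩ := exists_anti_three hn hx
  obtain ⟨p', q', r', h2⟩ := exists_anti_three hn hy
  have h3 : p * p' = 1 := by simpa [h1.det, h2.det, det_fin_three] using hd
  obtain ⟨κ, hκ, h⟩ := exists_det_transport (h1.trans (simil_reindex Fin.revPerm _)) h2
  obtain ⟨y', h4, h5⟩ := h !![1, 0, 0; 0, κ / a, 0; 0, 0, a] (by simp [det_fin_three, ha])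
  refine ⟨y', h4, ?_⟩
  rw [h5.charpoly, charpoly_toLin', inv_eq_right_inv (B := !![1, 0, 0; 0, a / κ, 0; 0, 0, a⁻¹])
    (by simp [one_fin_three, ha, hκ]), show reindex Fin.revPerm Fin.revPerm
      !![0, 0, p; 0, 1, q; 1, 1, r] = !![r, 1, 1; q, 1, 0; p, 0, 0] by
        ext i j; fin_cases i <;> fin_cases j <;> rfl, charpoly_of_isUpperTriangular]
  · simp [Fin.prod_univ_three, ha, hκ, ← mul_assoc, h3]
  · intro i j hij
    fin_cases i <;> fin_cases j <;> simp at hij ⊢

variable [Fintype F]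

theorem cyc_of_three {x : End F V} (hn : finrank F V = 3) (hx : IsUnit x) (hns : NS x)
    (hc : ∀ c, 2 * finrank F (x.eigenspace c) ≤ finrank F V) : Cyc x := by
  obtain ⟨v, hv, hv'⟩ := exists_good_vector hx hns
  refine ⟨v, fun N h1 h2 => by_contra fun h => ?_⟩
  have h3 := Submodule.finrank_lt h
  have h4 := Submodule.finrank_mono (show (F ∙ v) ⊔ F ∙ x v ≤ N by
    simpa [Submodule.span_singleton_le_iff_mem] using ⟨h1, h2 v h1⟩)
  rw [Submodule.finrank_sup_span_singleton hv, finrank_span_singleton (by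
    rintro rfl; simp at hv)] at h4
  obtain ⟨φ, hφ, rfl⟩ := exists_dual_ker_eq N (by omega)
  obtain ⟨δ, hδ⟩ := exists_eigenvalue_quot hφ h2
  have h5 : LinearMap.range (x - δ • 1) ≤ LinearMap.ker φ := by
    rintro _ ⟨z, rfl⟩; simp [hδ]
  have h6 := (x - δ • 1).finrank_range_add_finrank_ker
  have h7 := Submodule.finrank_mono h5
  have h8 := hc δ
  rw [← End.eigenspace_def] at h6
  obtain ⟨u, hu⟩ := (Submodule.eq_of_le_of_finrank_le h5 (by omega)).ge h1
  exact hv' δ (fun h => by rw [h, finrank_bot] at h6; omega) u hu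

theorem mem_pow_three (h4 : 4 ≤ Fintype.card F) {x g : End F V} (hn : finrank F V = 3)
    (hx : Cyc x) (hx' : LinearMap.det x = 1) (hg : Cyc g) (hg' : LinearMap.det g = 1) :
    g ∈ Cl x ^ 3 := by
  have : Nontrivial V := Module.nontrivial_of_finrank_pos (R := F) (by omega)
  obtain ⟨a, h0, h1, h2⟩ := exists_ne_three h4 (0 : F) 1 (-1)
  have h3 : a ≠ a⁻¹ := fun h => (mul_self_eq_one_iff.mp (by
    nth_rw 2 [h]; exact mul_inv_cancel₀ h0)).elim h1 h2
  have h5 : ∀ T : End F V, T.charpoly = ∏ i, (X - C (![a, 1, a⁻¹] i)) → T.IsSemisimple :=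
    fun T hT => End.isSemisimple_of_squarefree_aeval_eq_zero
      (hT ▸ (separable_prod_X_sub_C_iff.mpr fun i j => by
        fin_cases i <;> fin_cases j <;> simp [h1, h1.symm, h3, h3.symm]).squarefree)
      T.aeval_self_charpoly
  obtain ⟨z, hz⟩ := ((LinearMap.isUnit_iff_isUnit_det x).mpr (hx' ▸ isUnit_one)).exists_right_inv
  obtain ⟨y, hy, hy'⟩ := exists_diag_three hn hx hx (by simp [hx']) h0
  obtain ⟨_, ⟨e, he, rfl⟩, hz'⟩ := exists_diag_three hn hg (hx.of_mul_eq_one hz) (by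
    rw [hg', ← hx', ← map_mul, hz, map_one, hx']) h0
  rw [show g = g * cj e z * cj e x by
    rw [mul_assoc, ← map_mul, mul_eq_one_comm.mp hz, map_one, mul_one], pow_succ]
  refine Set.mul_mem_mul (((inv_Cl _).pow 2).mem_of_simil ?_
    (fun _ hc => exists_commute_det_of_isSemisimple (h5 _ hy') hc)
    (simil_of_isSemisimple_of_charpoly_eq (h5 _ hy') (h5 _ hz') (hy'.trans hz'.symm))) ⟨e, he, rfl⟩
  rw [pow_two]
  exact Set.mul_mem_mul (self_mem_Cl x) hy

/-- Every element of `SL(V)` is, up to a scalar, a product of `dim V` conjugates of `x`. -/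
theorem exists_smul_mem_pow (h4 : 4 ≤ Fintype.card F) (hn : 3 ≤ finrank F V) {x g : End F V}
    (hns : NS x) (hd : LinearMap.det x = 1) (hg : LinearMap.det g = 1) :
    ∃ c : F, c • g ∈ Cl x ^ finrank F V := by
  have hu : ∀ {y : End F V}, LinearMap.det y = 1 → IsUnit y := fun h =>
    (LinearMap.isUnit_iff_isUnit_det _).mpr (h ▸ isUnit_one)
  have hx := hu hd
  suffices (∀ g, IsUnit g → NS g → LinearMap.det g = 1 → g ∈ Cl x ^ finrank F V) ∧
      ∃ t, algebraMap F _ t ∈ Cl x ^ finrank F V by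
    by_cases h : NS g
    · exact ⟨1, by simpa using this.1 g (hu hg) h hg⟩
    · obtain ⟨c, rfl⟩ : ∃ c, g = algebraMap F _ c := by simpa [NS] using h
      obtain ⟨t, ht⟩ := this.2
      have hc : c ≠ 0 := by
        rintro rfl
        have : Nontrivial V := Module.nontrivial_of_finrank_pos (R := F) (by omega)
        simpa using hu hg
      exact ⟨t / c, by rwa [Algebra.smul_def, ← map_mul, div_mul_cancel₀ _ hc]⟩
  have h1 : Full x → ∃ t, algebraMap F _ t ∈ Cl x ^ finrank F V := fun h =>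
    ⟨1, by simpa using one_mem_pow hns hd (h _ (by simp))⟩
  by_cases hc : ∀ c, 2 * finrank F (x.eigenspace c) ≤ finrank F V
  · obtain ⟨E, hE, hE'⟩ := exists_et h4 hx hn fun c => (hc c).trans (by omega)
    have h2 : LinearMap.det E = 1 := by
      simpa using det_of_mem_pow (fun y hy => (simil_of_mem hy).det.symm.trans hd) hE
    have h3 : ∀ g, IsUnit g → NS g → LinearMap.det g = 1 → g ∈ Cl x ^ 4 := fun g h5 h6 h7 => by
      rw [show 4 = 2 + 2 from rfl, pow_add]
      exact mem_mul_of_ET ((inv_Cl _).pow 2) ((inv_Cl _).pow 2) h5 h6 hE'.cyc (hu h2) hE hE'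
        (hu h2) hE (Or.inl hE'.full) (by simp [h7, h2])
    obtain h | h | ⟨k, h⟩ : finrank F V = 3 ∨ finrank F V = 4 ∨ ∃ k, finrank F V = k + 4 + 1 := by
      by_contra! h; exact h.2.2 (finrank F V - 5) (by omega)
    · refine ⟨fun g h5 h6 h7 => ?_, 1, by
        simpa using one_mem_pow hns hd ⟨1, isUnit_one, Commute.one_left x, by simp [h]; norm_num⟩⟩
      rw [h]
      by_cases h8 : Full g
      · exact pow_succ (Cl x) 2 ▸ mem_mul_of_ET ((inv_Cl _).pow 2) (inv_Cl _) h5 h6
          (cyc_of_three h hx hns hc) hx (self_mem_Cl x) hE' (hu h2) hE (Or.inr h8)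
          (by simp [h7, h2, hd])
      · exact mem_pow_three h4 h (cyc_of_three h hx hns hc) hd (cyc_of_not_full h h8) h7
    · refine ⟨h ▸ h3, by_cases h1 fun h5 => ?_⟩
      obtain ⟨t, ht⟩ := exists_scalar_four h hd h5
      exact ⟨t * t, by rw [h, show 4 = 2 + 2 from rfl, pow_add, map_mul]; exact Set.mul_mem_mul ht ht⟩
    · have h5 : ∀ g, IsUnit g → LinearMap.det g = 1 → g ∈ Cl x ^ finrank F V := fun g h5 h6 => by
        rw [h, pow_succ', pow_add]
        exact mem_mul_pad hx hns hn le_rfl (mem_pow_mul_pad hx hns hn le_rfl h3 k) h5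
          (by simp [h6, hd])
      exact ⟨fun g h6 _ => h5 g h6, 1, by simpa using h5 1 isUnit_one (map_one _)⟩
  · obtain ⟨c, hc⟩ : ∃ c, finrank F V < 2 * finrank F (x.eigenspace c) := by simpa using hc
    have h2 := (x - c • 1).finrank_range_add_finrank_ker
    rw [← End.eigenspace_def] at h2
    obtain ⟨z, hz, hz'⟩ := SetLike.not_le_iff_exists.mp fun h : x.eigenspace c ≤
      LinearMap.range (x - c • 1) => by have := Submodule.finrank_mono h; omega
    rw [End.mem_eigenspace_iff] at hz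
    obtain ⟨l, hl, hl'⟩ := Submodule.exists_dual_map_eq_bot_of_notMem hz' inferInstance
    have h3 : Full x := fun _ => exists_commute_det_of_eigen (fun v => by
      simpa [sub_eq_zero] using (Submodule.eq_bot_iff _).mp hl' _ ⟨_, ⟨v, rfl⟩, rfl⟩) hz hl
    have hc0 : c ≠ 0 := by
      rintro rfl
      exact hl (by rw [((End.isUnit_iff x).mp hx).1 (hz.trans (by simp) : x z = x 0), map_zero])
    have h5 : ∀ {y : End F V} {a : F}, a ≠ 0 → NS y → NS (a • y) := fun {y a} ha h b hb =>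
      h (a⁻¹ * b) (by rw [map_mul, ← hb, ← Algebra.smul_def, inv_smul_smul₀ ha])
    have h6 := pow_ne_zero (finrank F V) hc0
    refine ⟨fun g h7 h8 h9 => ?_, h1 h3⟩
    simpa [h6] using smul_mem_pow (c := c) (D := Cl x) (fun y hy => h3.mem_Cl (by
      obtain ⟨e, rfl⟩ := simil_iff.mp hy
      simpa [hc0] using simil_cj e x)) (mem_pow_of_big h4 (x := c⁻¹ • x)
      (hx.smul (Units.mk0 _ (inv_ne_zero hc0))) (h5 (inv_ne_zero hc0) hns) (by
        rwa [show (c⁻¹ • x).eigenspace 1 = x.eigenspace c from Submodule.ext fun v => by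
          simp [inv_smul_eq_iff₀ hc0]]) (g := (c ^ finrank F V)⁻¹ • g)
      (h7.smul (Units.mk0 _ (inv_ne_zero h6))) (h5 (inv_ne_zero h6) h8) (by simp [h9, hd]))

end CL.Cov
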