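import Mathlib
import Cfsg.Agent.INV.W4.Facts

/-! Finite facts on the model `W = D₈ ≀ C₂`: automorphisms modulo inner and central ones. -/

set_option autoImplicit false

namespace CL.DWr

open CL.W4

/-- The automorphism of `D₈` exchanging `a` and `b`. -/
def tauf (x : D) : D := ⟨xor x.i (x.j && x.k), x.k, x.j⟩

def tau : D →* D := MonoidHom.mk' tauf (by decide +kernel)

/-- `σ ^ e` as a function. -/
def sgf (e : Bool) (w : W) : W := cond e ⟨tauf w.l, tauf w.r, w.s⟩ w

theorem sgf_mul (e : Bool) (x y : W) : sgf e (x * y) = sgf e x * sgf e y := by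
  cases e
  · rfl
  · exact map_mul (Wr.map tau) x y

def sg (e : Bool) : W →* W := MonoidHom.mk' (sgf e) (sgf_mul e)

/-- Congruence modulo the centre. -/
def Cg (x y : W) : Prop := x = y ∨ x = y * zz

instance (x y : W) : Decidable (Cg x y) := inferInstanceAs (Decidable (x = y ∨ x = y * zz))

theorem zz_sq : zz * zz = 1 := by decide +kernel

theorem Cg.refl (x : W) : Cg x x := Or.inl rfl

theorem Cg.mul {x y x' y' : W} (h : Cg x y) (h' : Cg x' y') : Cg (x * x') (y * y') := by
  rcases h with rfl | rfl <;> rcases h' with rfl | rfl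
  · exact Or.inl rfl
  · exact Or.inr (by rw [mul_assoc])
  · exact Or.inr (by rw [mul_assoc, ← f_cz, mul_assoc])
  · refine Or.inl ?_
    rw [mul_assoc, ← mul_assoc zz, ← f_cz, mul_assoc y', zz_sq, mul_one]

theorem Cg.symm {x y : W} (h : Cg x y) : Cg y x := by
  rcases h with rfl | rfl
  · exact Or.inl rfl
  · exact Or.inr (by rw [mul_assoc, zz_sq, mul_one])

theorem Cg.trans {x y w : W} (h : Cg x y) (h' : Cg y w) : Cg x w := by
  rcases h with rfl | rfl <;> rcases h' with rfl | rfl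
  · exact Or.inl rfl
  · exact Or.inr rfl
  · exact Or.inr rfl
  · exact Or.inl (by rw [mul_assoc, zz_sq, mul_one])

theorem aut_gen : ∀ p : W, p * p = 1 → p * (sw * p * sw) = sw * p * sw * p →
    ∀ q : W, q * q = 1 → q * (sw * q * sw) = sw * q * sw * q →
    p * (sw * q * sw) = sw * q * sw * p →
    p * q * (p * q) * (p * q * (p * q)) = 1 →
    p * q * (p * q) * (sw * (p * q * (p * q)) * sw) ≠ 1 →
    ∃ g : W, Cg sw (g * sw * g⁻¹) ∧ ∃ e : Bool, Cg p (g * sgf e a1 * g⁻¹) ∧
      Cg q (g * sgf e b1 * g⁻¹) := by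
  decide +kernel

theorem dec_W : ∀ w : W, w = pw (a1 * b1 * (a1 * b1)) w.l.i * pw a1 w.l.j * pw b1 w.l.k *
    pw (sw * (a1 * b1 * (a1 * b1)) * sw) w.r.i * pw (sw * a1 * sw) w.r.j *
    pw (sw * b1 * sw) w.r.k * pw sw w.s := by decide +kernel

theorem ind_W {R : W → Prop} (h1 : R 1) (hm : ∀ x y, R x → R y → R (x * y)) (ha : R a1)
    (hb : R b1) (hs : R sw) (w : W) : R w := by
  have hp : ∀ x c, R x → R (pw x c) := by
    intro x c hx; cases c
    · exact h1
    · exact hx
  have hz : R (a1 * b1 * (a1 * b1)) := hm _ _ (hm _ _ ha hb) (hm _ _ ha hb)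
  rw [dec_W w]
  refine hm _ _ (hm _ _ (hm _ _ (hm _ _ (hm _ _ (hm _ _ (hp _ _ hz) (hp _ _ ha)) (hp _ _ hb))
    (hp _ _ ?_)) (hp _ _ ?_)) (hp _ _ ?_)) (hp _ _ hs)
  · exact hm _ _ (hm _ _ hs hz) hs
  · exact hm _ _ (hm _ _ hs ha) hs
  · exact hm _ _ (hm _ _ hs hb) hs

theorem sgf_one : ∀ e : Bool, sgf e 1 = 1 := by decide +kernel
theorem sgf_sw : ∀ e : Bool, sgf e sw = sw := by decide +kernel
theorem sgf_zz : ∀ e : Bool, sgf e zz = zz := by decide +kernel
theorem sgf_sgf : ∀ w : W, sgf true (sgf true w) = w := by decide +kernel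

theorem aut_form0 (α : W →* W) (hα : Function.Injective α) (hs : α sw = sw) :
    ∃ g : W, ∃ e : Bool, ∀ w, Cg (α w) (g * sgf e w * g⁻¹) := by
  have r : ∀ x y : W, x = y → α x = α y := fun _ _ h => congrArg α h
  have r1 : ∀ x : W, x = 1 → α x = 1 := fun _ h => by rw [h, map_one]
  obtain ⟨g, h1, e, h2, h3⟩ := aut_gen (α a1)
    (by simpa only [map_mul] using r1 (a1 * a1) (by decide +kernel))
    (by simpa only [map_mul, hs] using
          r (a1 * (sw * a1 * sw)) (sw * a1 * sw * a1) (by decide +kernel))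
    (α b1) (by simpa only [map_mul] using r1 (b1 * b1) (by decide +kernel))
    (by simpa only [map_mul, hs] using
          r (b1 * (sw * b1 * sw)) (sw * b1 * sw * b1) (by decide +kernel))
    (by simpa only [map_mul, hs] using
          r (a1 * (sw * b1 * sw)) (sw * b1 * sw * a1) (by decide +kernel))
    (by simpa only [map_mul] using r1 (a1 * b1 * (a1 * b1) * (a1 * b1 * (a1 * b1)))
          (by decide +kernel))
    (by
      have : α (a1 * b1 * (a1 * b1) * (sw * (a1 * b1 * (a1 * b1)) * sw)) ≠ 1 := by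
        rw [Ne, map_eq_one_iff α hα]
        decide +kernel
      simpa only [map_mul, hs] using this)
  refine ⟨g, e, ind_W ?_ ?_ h2 h3 ?_⟩
  · rw [map_one, sgf_one]; simp [Cg.refl]
  · intro x y hx hy
    have := hx.mul hy
    rw [map_mul, sgf_mul]
    convert this using 1
    group
  · rwa [sgf_sw, hs]

theorem cent_W : ∀ u : W, u * a1 = a1 * u → u * b1 = b1 * u → u * sw = sw * u →
    u = 1 ∨ u = zz := by decide +kernel

theorem mem_Z_of : ∀ u : W, Cg (u * a1 * u⁻¹) a1 → Cg (u * b1 * u⁻¹) b1 → Cg (u * sw * u⁻¹) sw →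
    u ∈ Z := by decide +kernel

theorem map_zz (α : W →* W) (hα : Function.Injective α) : α zz = zz := by
  have hs : Function.Surjective α := Finite.surjective_of_injective hα
  have hc : ∀ w, α zz * w = w * α zz := by
    intro w
    obtain ⟨w, rfl⟩ := hs w
    rw [← map_mul, ← map_mul, f_cz]
  rcases cent_W _ (hc _) (hc _) (hc _) with h | h
  · rw [map_eq_one_iff α hα] at h; exact absurd h (by decide +kernel)
  · exact h

theorem Cg.map {α : W →* W} (hα : Function.Injective α) {x y : W} (h : Cg x y) :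
    Cg (α x) (α y) := by
  rcases h with rfl | rfl
  · exact Or.inl rfl
  · exact Or.inr (by rw [map_mul, map_zz α hα])

theorem Cg.conj (g : W) {x y : W} (h : Cg x y) : Cg (g * x * g⁻¹) (g * y * g⁻¹) :=
  ((Cg.refl g).mul h).mul (Cg.refl _)

theorem cg_z1 : ∀ w : W, Cg (z1 * w * z1⁻¹) w := by decide +kernel

theorem conj_sw : ∀ t : W, t.s = true → t * t = 1 →
    t = (⟨t.l, 1, false⟩ : W) * sw * (⟨t.l, 1, false⟩ : W)⁻¹ := by decide +kernel

/-- Every injective endomorphism is inner times `σ ^ e` modulo the centre. -/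
theorem aut_form (α : W →* W) (hα : Function.Injective α) :
    ∃ g : W, ∃ e : Bool, ∀ w, Cg (α w) (g * sgf e w * g⁻¹) := by
  have hs : Function.Surjective α := Finite.surjective_of_injective hα
  have hz : α z1 ∈ Z := by
    have : ∀ w, Cg (α z1 * w * (α z1)⁻¹) w := by
      intro w
      obtain ⟨w, rfl⟩ := hs w
      simpa only [map_mul, map_inv] using (cg_z1 w).map hα
    exact mem_Z_of _ (this _) (this _) (this _)
  have ht : (α sw).s = true := by
    by_contra h
    have := f_Zc _ hz _ (mem_J.2 (by simpa using h : (α sw).s = false))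
    rw [← map_mul, ← map_mul] at this
    exact absurd (hα this) (by decide +kernel)
  have h2 : α sw * α sw = 1 := by
    rw [← map_mul, show sw * sw = 1 by decide +kernel, map_one]
  obtain ⟨k, hk⟩ : ∃ k : W, α sw = k * sw * k⁻¹ := ⟨_, conj_sw _ ht h2⟩
  obtain ⟨g, e, h⟩ := aut_form0 ((MulAut.conj k⁻¹).toMonoidHom.comp α)
    ((MulAut.conj k⁻¹).injective.comp hα) (by simp [hk, mul_assoc])
  refine ⟨k * g, e, fun w => ?_⟩
  have := (h w).conj k
  simp only [MulEquiv.toMonoidHom_eq_coe, MonoidHom.coe_comp, MonoidHom.coe_coe,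
    Function.comp_apply, MulAut.conj_apply, inv_inv] at this
  convert this using 1 <;> group

theorem zz_J : ∀ y ∈ J, y * zz ∈ J := by decide +kernel
theorem zz_sqJ : ∀ y ∈ J, y * y ∈ Z ∧ y * (y * zz) ∈ Z := by decide +kernel
theorem cg_J {x y : W} (h : Cg x y) (hy : y ∈ J) : x ∈ J := by
  rcases h with rfl | rfl
  · exact hy
  · exact zz_J _ hy
theorem cg_sq {x y : W} (h : Cg x y) (hy : y ∈ J) : y * x ∈ Z := by
  rcases h with rfl | rfl
  · exact (zz_sqJ _ hy).1
  · exact (zz_sqJ _ hy).2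
theorem card_J : Nat.card J = 64 := by
  rw [Nat.card_eq_fintype_card, Fintype.card_subtype]; decide +kernel
theorem card_Z : Nat.card Z = 4 := by
  rw [Nat.card_eq_fintype_card, Fintype.card_subtype]; decide +kernel
theorem card_A : Nat.card A = 16 := by
  rw [Nat.card_eq_fintype_card, Fintype.card_subtype]; decide +kernel
theorem card_B : Nat.card B = 16 := by
  rw [Nat.card_eq_fintype_card, Fintype.card_subtype]; decide +kernel
theorem Z_le_J : Z ≤ J := fun _ hw => mem_J.2 hw.1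

theorem or_AB : ∀ u : W, u * u = 1 → u * (sw * u * sw⁻¹) = sw * u * sw⁻¹ * u →
    u * (a1 * b1 * u * (a1 * b1)⁻¹) = a1 * b1 * u * (a1 * b1)⁻¹ * u → u ∈ A ∨ u ∈ B := by
  decide +kernel

theorem not_AB : ∀ u ∈ B, u ∉ A → ∀ v ∈ A, v ∉ B → u * v = v * u →
    u * (sw * v * sw⁻¹) ≠ sw * v * sw⁻¹ * u := by decide +kernel

theorem nA (g : W) : ∀ x ∈ A, g * x * g⁻¹ ∈ A := by
  refine ind_W (R := fun g => ∀ x ∈ A, g * x * g⁻¹ ∈ A) (by simp) ?_ (by decide +kernel)
    (by decide +kernel) (by decide +kernel) g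
  intro x y hx hy w hw
  have := hx _ (hy w hw)
  convert this using 1; group

theorem zz_A : zz ∈ A := by decide +kernel
theorem zz_B : zz ∈ B := by decide +kernel

theorem cg_mem {X : Subgroup W} (hX : zz ∈ X) {x y : W} (h : Cg x y) : x ∈ X ↔ y ∈ X := by
  rcases h with rfl | rfl
  · rfl
  · exact X.mul_mem_cancel_right hX

theorem sg_A : ∀ x : W, (sgf true x ∈ A ↔ x ∈ B) := by decide +kernel
theorem sg_B : ∀ x : W, (sgf true x ∈ B ↔ x ∈ A) := by decide +kernel
theorem conj_A (g x : W) : g * x * g⁻¹ ∈ A ↔ x ∈ A :=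
  ⟨fun h => by have := nA g⁻¹ _ h; simpa [mul_assoc] using this, nA g x⟩
theorem conj_B (g x : W) : g * x * g⁻¹ ∈ B ↔ x ∈ B :=
  ⟨fun h => by have := f_nB g⁻¹ _ h; simpa [mul_assoc] using this, f_nB g x⟩

/-- Multiplication of pairs `w σ ^ e`. -/
def pm (x y : W × Bool) : W × Bool := (x.1 * sgf x.2 y.1, xor x.2 y.2)

def pp (x : W × Bool) (c : Bool) : W × Bool := cond c x (1, false)

def gp : W × Bool := (sw, true)
def gq : W × Bool := (⟨db, db, true⟩, false)
def gt : W × Bool := (b2, false)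
def gz : W × Bool := pm (pm gp gq) (pm gp gq)

/-- The isomorphism `W → (W / Z(W)) ⟨σ⟩`. -/
def Fm (w : W) : W × Bool :=
  pm (pm (pm (pm (pm (pm (pp gz w.l.i) (pp gp w.l.j)) (pp gq w.l.k))
    (pp (pm (pm gt gz) gt) w.r.i)) (pp (pm (pm gt gp) gt) w.r.j))
    (pp (pm (pm gt gq) gt) w.r.k)) (pp gt w.s)

theorem Fm_mul : ∀ x : W, ∀ y ∈ [a1, b1, sw], Cg (Fm (x * y)).1 (pm (Fm x) (Fm y)).1 ∧
    (Fm (x * y)).2 = xor (Fm x).2 (Fm y).2 := by decide +kernel

theorem Fm_one : Fm 1 = (1, false) := by decide +kernel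

theorem Fm_inj : ∀ x : W, (Fm x).2 = false → Cg (Fm x).1 1 → x = 1 := by decide +kernel

theorem Fm_surj : ∀ w : W, ∀ e : Bool, ∃ x, Cg w (Fm x).1 ∧ (Fm x).2 = e := by decide +kernel

/-! The action on eight points. -/

def pt (w : W) : Bool × Bool × Bool := cond w.s (true, w.r.i, w.r.j) (false, w.l.i, w.l.j)

def rep (p : Bool × Bool × Bool) : W :=
  cond p.1 ⟨1, ⟨p.2.1, p.2.2, false⟩, true⟩ ⟨⟨p.2.1, p.2.2, false⟩, 1, false⟩

theorem act_mul0 : ∀ x ∈ [1, a1, b1, sw], ∀ y : W, pt (x * y) = pt (x * rep (pt y)) := by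
  decide +kernel

theorem act_mul1 (x : W) : ∀ y : W, pt (x * y) = pt (x * rep (pt y)) := by
  refine ind_W (R := fun x => ∀ y : W, pt (x * y) = pt (x * rep (pt y)))
    (act_mul0 _ (by simp)) ?_ (act_mul0 _ (by simp)) (act_mul0 _ (by simp))
    (act_mul0 _ (by simp)) x
  intro x x' h h' y
  rw [mul_assoc, h, h', ← h, mul_assoc]

theorem act_one : ∀ a b c : Bool, pt (1 * rep (a, b, c)) = (a, b, c) := by decide +kernel

theorem act_inj : ∀ x : W, (∀ a b c : Bool, pt (x * rep (a, b, c)) = (a, b, c)) → x = 1 := by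
  decide +kernel

/-- The action of `W` on eight points. -/
@[reducible] def act : MulAction W (Bool × Bool × Bool) where
  smul w p := pt (w * rep p)
  one_smul := fun ⟨a, b, c⟩ => act_one a b c
  mul_smul := fun x y p => by
    show pt (x * y * rep p) = pt (x * rep (pt (y * rep p)))
    rw [mul_assoc, act_mul1]

theorem exists_emb : ∃ f : W →* Equiv.Perm (Fin 8), Function.Injective f := by
  let _ := act
  have e : (Bool × Bool × Bool) ≃ Fin 8 := Fintype.equivFinOfCardEq (by simp)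
  refine ⟨e.permCongrHom.toMonoidHom.comp (MulAction.toPermHom W (Bool × Bool × Bool)), ?_⟩
  refine e.permCongrHom.injective.comp ?_
  rw [injective_iff_map_eq_one]
  intro x hx
  exact act_inj x fun a b c => congrArg (fun π : Equiv.Perm _ => π (a, b, c)) hx

theorem iso_sylow (T : Sylow 2 (Equiv.Perm (Fin 8))) :
    Nonempty (W ≃* (T : Subgroup (Equiv.Perm (Fin 8)))) := by
  obtain ⟨f, hf⟩ := exists_emb
  have hc : Nat.card f.range = 2 ^ (Nat.card (Equiv.Perm (Fin 8))).factorization 2 := by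
    rw [← Nat.card_congr (f.ofInjective hf).toEquiv, card_W, Nat.card_eq_fintype_card,
      Fintype.card_perm, Fintype.card_fin]
    have : (Nat.factorial 8) = 2 ^ 7 * 315 := by decide
    rw [this, Nat.factorization_mul (by norm_num) (by norm_num), Nat.prime_two.factorization_pow]
    simp [Nat.factorization_eq_zero_of_not_dvd]
  let T0 : Sylow 2 (Equiv.Perm (Fin 8)) := Sylow.ofCard f.range hc
  exact ⟨(f.ofInjective hf).trans (Sylow.equiv T0 T)⟩

end CL.DWr
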