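import Mathlib
import Cfsg.Agent.KSG.Ev2NF
import Cfsg.Agent.KSG.ClsNum
import Cfsg.Agent.Eqns.CL_Ev2_ok

/-! Upper bounds for the class numbers of symplectic and orthogonal groups in characteristic two. -/

set_option autoImplicit false

namespace CL.Ev2

open Module CL.Witt CL.Witt.Form CL.SpU CL.Orth CL.Nil CL.GLn Finset Polynomial QuadraticMap

universe u

section Num

/-- All data with bounded multiplicities. -/
def allD (M : ℕ) : ℕ → Finset (List Lev)
  | 0 => {[]}
  | N + 1 => ((range M ×ˢ (univ : Finset (Fin 3 × Bool))) ×ˢ allD M N).image fun p => p.1 :: p.2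

theorem mem_allD {M : ℕ} {d : List Lev} (h : wt d < M) : d ∈ allD M d.length := by
  induction d with
  | nil => simp [allD]
  | cons l d ih =>
    rw [wt, wtl] at h
    exact mem_image.2 ⟨(l, d), mem_product.2 ⟨mem_product.2 ⟨mem_range.2 (by
      have := Nat.le_mul_of_pos_right l.1 (Nat.add_one_pos d.length); dsimp only; omega), mem_univ _⟩,
      ih (by omega)⟩, rfl⟩

theorem length_of_mem_allD {M N : ℕ} {d : List Lev} (h : d ∈ allD M N) : d.length = N := by
  induction N generalizing d with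
  | zero => simpa [allD] using h
  | succ N ih =>
    obtain ⟨p, hp, rfl⟩ := mem_image.1 h
    rw [List.length_cons, ih (mem_product.1 hp).2]

/-- The generating function of a layer. -/
def step (n : ℕ) (c : Option Bool → ℚ) (σ : Option Bool) : ℚ :=
  if n % 2 = 0 then c σ + (if σ = some false then 2 else 1) * (1 / 2) ^ (n + 1) * c (some true) /
    (1 - (1 / 2) ^ (n + 1))
  else (c (σ.map fun _ => false) + (if σ = some false then 2 else 1) *
    ((1 / 2) ^ ((n + 1) / 2) + (1 / 2) ^ (n + 1)) * c (some true)) / (1 - (1 / 2) ^ (n + 1))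

theorem geom_le {y A B : ℚ} (h0 : 0 ≤ y) (h1 : y < 1) (hA : 0 ≤ A) (hB : 0 ≤ B) (M : ℕ) :
    ∑ b ∈ range M, ((if b = 0 then A else 0) + y ^ b * B) ≤ A + B / (1 - y) := by
  rw [sum_add_distrib, sum_ite_eq', ← sum_mul]
  refine add_le_add (by split_ifs <;> simp [hA]) ?_
  rw [le_div_iff₀ (by linarith), mul_right_comm, geom_sum_mul_neg]
  exact mul_le_of_le_one_left hB (sub_le_self _ (by positivity))

open Classical in
theorem sum_le_step (M n : ℕ) {c : Option Bool → ℚ} (hc : ∀ σ, 0 ≤ c σ) (σ : Option Bool) :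
    ∑ l ∈ range M ×ˢ (univ : Finset (Fin 3 × Bool)),
      (if okl n l σ then (1 / 2) ^ wtl n l * c (nxt n l.2.1 σ) else 0) ≤ step n c σ := by
  have h0 : (0 : ℚ) ≤ (1 / 2) ^ (n + 1) := by positivity
  have h1 : (1 / 2 : ℚ) ^ (n + 1) < 1 := pow_lt_one₀ (by norm_num) (by norm_num) (by omega)
  have h2 := hc (some true)
  have h3 : (0 : ℚ) ≤ if σ = some false then 2 else 1 := by split_ifs <;> norm_num
  rw [sum_product, step]
  by_cases hn : n % 2 = 0
  · have h4 : Even n := Nat.even_iff.2 hn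
    rw [if_pos hn]
    refine (sum_le_sum fun b _ => le_of_eq ?_).trans (geom_le h0 h1 (hc σ) (by positivity) M)
    simp only [Fintype.sum_prod_type, Fin.sum_univ_three, Fintype.sum_bool, okl, wtl, nxt, h4,
      pow_add _ (b * _), pow_mul']
    by_cases hb : b = 0 <;> by_cases hσ : σ = some false <;> simp [hb, hσ] <;> ring
  · have h4 : ¬ Even n := mt Nat.even_iff.1 hn
    have h5 := hc (σ.map fun _ => false)
    rw [if_neg hn]
    refine (sum_le_sum fun b _ => le_of_eq ?_).trans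
      ((geom_le h0 h1 le_rfl (by positivity) M).trans_eq (zero_add _))
    simp only [Fintype.sum_prod_type, Fin.sum_univ_three, Fintype.sum_bool, okl, wtl, nxt, h4,
      pow_add _ (b * _), pow_mul' _ b]
    have h6 : 2 * ((n + 1) / 2) = n + 1 := by omega
    by_cases hσ : σ = some false <;> simp [hσ, h6] <;> ring

/-- The potential. -/
def pot (n : ℕ) (σ : Option Bool) : ℚ :=
  if n < 20 then (([135043582, 255521068, 151933338, 59076913, 103587730, 75966669, 23591889,
    36259206, 27621061, 20139256, 29353940, 24168428, 14019134, 17796483, 15556537, 13532992,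
    16824199, 15070395, 11595138, 13108519, 12276627, 11499226, 12916696, 12180715, 10721200,
    11400027, 11039718, 10699638, 11356903, 11018156, 10350772, 10668979, 10501156, 10345644,
    10658723, 10496028, 10180462, 10330809, 10249807, 10179210, 10328306, 10248555, 10098842,
    10168183, 10128389, 10098532, 10167564, 10128079, 10058893, 10088439, 10068716, 10058816,
    10088285, 10068639, 10039131, 10048954, 10039131, 10039111, 10048915, 10039111].getD
      (3 * n + σ.elim 0 fun s => bif s then 2 else 1) 0 : ℕ) : ℚ) / 10000000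
  else 1 + (if n % 2 = 0 then 3 else 11 / 4) * (1 / 2) ^ (n / 2)

theorem pot_small : ∀ n < 20, ∀ σ, 1 ≤ pot n σ ∧ step n (pot (n + 1)) σ ≤ pot n σ := by
  decide +kernel

theorem one_le_pot (n : ℕ) (σ : Option Bool) : 1 ≤ pot n σ := by
  by_cases h : n < 20
  · exact (pot_small n h σ).1
  · rw [pot, if_neg h]
    split_ifs <;> exact le_add_of_nonneg_right (by positivity)

theorem step_le_pot (n : ℕ) (σ : Option Bool) : step n (pot (n + 1)) σ ≤ pot n σ := by
  by_cases h : n < 20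
  · exact (pot_small n h σ).2
  have h1 : ¬ n + 1 < 20 := by omega
  have h2 : (if σ = some false then 2 else 1 : ℚ) ≤ 2 := by split_ifs <;> norm_num
  have h3 : (0 : ℚ) ≤ if σ = some false then 2 else 1 := by split_ifs <;> norm_num
  simp only [step, pot, if_neg h, if_neg h1]
  generalize (if σ = some false then 2 else 1 : ℚ) = κ at h2 h3
  obtain ⟨k, rfl | rfl⟩ := n.even_or_odd'
  · have h4 : (1 / 2 : ℚ) ^ k ≤ (1 / 2) ^ 10 :=
      pow_le_pow_of_le_one (by norm_num) (by norm_num) (by omega)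
    have h5 : (0 : ℚ) < (1 / 2) ^ k := by positivity
    rw [if_pos (by omega), if_neg (by omega), if_pos (by omega), show (2 * k + 1) / 2 = k by omega,
      show 2 * k / 2 = k by omega, pow_succ, pow_mul']
    generalize (1 / 2 : ℚ) ^ k = s at h4 h5
    norm_num at h4
    have h6 : s ^ 2 ≤ s / 1024 := by nlinarith
    have h7 : κ * (s ^ 2 * (1 / 2)) * (1 + 11 / 4 * s) / (1 - s ^ 2 * (1 / 2)) ≤ s / 4 := by
      rw [div_le_iff₀ (by nlinarith)]
      have h8 : κ * (s ^ 2 * (1 / 2)) ≤ s / 1024 := by nlinarith [sq_nonneg s]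
      have h9 : κ * (s ^ 2 * (1 / 2)) * (1 + 11 / 4 * s) ≤ s / 1024 * 2 :=
        mul_le_mul h8 (by linarith) (by positivity) (by positivity)
      nlinarith
    linarith
  · have h4 : (1 / 2 : ℚ) ^ (k + 1) ≤ (1 / 2) ^ 10 :=
      pow_le_pow_of_le_one (by norm_num) (by norm_num) (by omega)
    have h5 : (0 : ℚ) < (1 / 2) ^ (k + 1) := by positivity
    have h6 : (1 / 2 : ℚ) ^ k = 2 * (1 / 2) ^ (k + 1) := by ring
    rw [if_neg (by omega), if_pos (by omega), if_neg (by omega), show (2 * k + 1) / 2 = k by omega,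
      show (2 * k + 1 + 1) / 2 = k + 1 by omega, h6, show 2 * k + 1 + 1 = (k + 1) * 2 by ring,
      pow_mul]
    generalize (1 / 2 : ℚ) ^ (k + 1) = s at h4 h5
    norm_num at h4
    have h7 : s ^ 2 ≤ s / 1024 := by nlinarith
    have h8 : κ * (s + s ^ 2) * (1 + 3 * s) ≤ 2 * (s + s / 1024) * (1 + 3 / 1024) :=
      mul_le_mul (mul_le_mul h2 (by linarith) (by positivity) (by norm_num)) (by linarith)
        (by positivity) (by positivity)
    rw [div_le_iff₀ (by nlinarith)]
    nlinarith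

open Classical in
theorem sum_le_pot (σ : Option Bool) (M N : ℕ) :
    ∑ d ∈ allD M N, (if ok σ d then (1 / 2) ^ wt d * pot N (st σ d) else 0) ≤ pot 0 σ := by
  induction N with
  | zero => simp [allD, ok, wt, st]
  | succ N ih =>
    rw [allD, sum_image fun p _ p' _ h => Prod.ext (List.cons.inj h).1 (List.cons.inj h).2,
      sum_product_right]
    refine (sum_le_sum fun d hd => ?_).trans ih
    have h1 := length_of_mem_allD hd
    split_ifs with h2
    · refine le_trans (le_of_eq ?_) (mul_le_mul_of_nonneg_left ((sum_le_step M N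
        (fun τ => zero_le_one.trans (one_le_pot (N + 1) τ)) (st σ d)).trans (step_le_pot N _))
        (by positivity))
      rw [mul_sum]
      refine sum_congr rfl fun l _ => ?_
      simp only [ok, wt, st, h1, h2, and_true, pow_add]
      split_ifs <;> ring
    · simp [ok, h2]

end Num

variable {F : Type u} [Field F]

section Count

variable [Fintype F]

variable (F) in
/-- The invariants of a conjugacy class. -/
def Dt (σ : Option Bool) (n : ℕ) :=
  {p : List Lev × (Ix (2 * n) → MP F) // p.1.length = 2 * n ∧ ok σ p.1 ∧ wt p.1 + wtU p.2 = n}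

theorem card_Dt_le (σ : Option Bool) (n : ℕ) :
    Finite (Dt F σ n) ∧ (Nat.card (Dt F σ n) : ℚ) ≤ pot 0 σ * Fintype.card F ^ n := by
  classical
  let s := (allD (n + 1) (2 * n)).filter fun d => ok σ d ∧ wt d ≤ n
  let φ : Dt F σ n → Σ d : s, US F (2 * n) (n - wt d.1) := fun p =>
    ⟨⟨p.1.1, mem_filter.2 ⟨by
      have h := mem_allD (M := n + 1) (d := p.1.1) (by have := p.2.2.2; omega)
      rwa [p.2.1] at h, p.2.2.1,
      by have := p.2.2.2; omega⟩⟩, p.1.2, by have := p.2.2.2; dsimp only; omega⟩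
  have hφ : Function.Injective φ := fun p p' h => Subtype.ext (Prod.ext
    (congrArg (fun x => x.1.1) h) (congrArg (fun x => x.2.1) h))
  refine ⟨Finite.of_injective φ hφ, ?_⟩
  have h1 := Nat.card_le_card_of_injective φ hφ
  rw [Nat.card_sigma] at h1
  have h2 : (2 : ℚ) ≤ Fintype.card F := by exact_mod_cast Fintype.one_lt_card
  refine ((Nat.cast_le (α := ℚ)).2 h1).trans (le_trans ?_ (mul_le_mul_of_nonneg_right
    (sum_le_pot σ (n + 1) (2 * n)) (by positivity)))
  rw [Nat.cast_sum, sum_coe_sort s fun d => (Nat.card (US F (2 * n) (n - wt d)) : ℚ), sum_filter,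
    sum_mul]
  refine sum_le_sum fun d _ => ?_
  have h3 := one_le_pot (2 * n) (st σ d)
  split_ifs with h4 h5 h5
  · have h6 : (Nat.card (US F (2 * n) (n - wt d)) : ℚ) ≤ Fintype.card F ^ (n - wt d) := by
      exact_mod_cast card_US_le (by omega)
    have h7 : (1 : ℚ) ≤ (1 / 2) ^ wt d * Fintype.card F ^ wt d := by
      rw [← mul_pow]; exact one_le_pow₀ (by linarith)
    refine h6.trans ?_
    have h8 : (Fintype.card F : ℚ) ^ n = Fintype.card F ^ wt d * Fintype.card F ^ (n - wt d) := by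
      rw [← pow_add, Nat.add_sub_cancel' h4.2]
    rw [h8, ← mul_assoc, mul_right_comm _ (pot _ _)]
    exact le_mul_of_one_le_left (by positivity) (one_le_mul_of_one_le_of_one_le h7 h3)
  · exact absurd h4.1 h5
  · positivity
  · simp

variable (F) in
theorem exists_theta : ∃ θ : F[X] → MP F, (∀ w, IsW w → 2 * (θ w).1.natDegree = w.natDegree) ∧
    ∀ w w', IsW w → IsW w' → θ w = θ w' → w = w' := by
  have h1 : ∀ d, Nonempty ({w : F[X] | IsW w ∧ w.natDegree = 2 * d} ↪
      {f : MP F // f.1.natDegree = d}) := fun d => by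
    have h2 : {w : F[X] | IsW w ∧ w.natDegree = 2 * d} ⊆ palSet F d := fun w hw => ⟨hw.1.isPal, hw.2⟩
    have := ((finite_palSet d).subset h2).to_subtype
    have := finite_MP (F := F) d
    have := Fintype.ofFinite {w : F[X] | IsW w ∧ w.natDegree = 2 * d}
    have := Fintype.ofFinite {f : MP F // f.1.natDegree = d}
    refine Function.Embedding.nonempty_of_card_le ?_
    rw [← Nat.card_eq_fintype_card, ← Nat.card_eq_fintype_card, Nat.card_coe_set_eq, ← Nat.cast_le (α := ℤ),
      card_MP]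
    rcases d with _ | d
    · have h3 := Set.ncard_le_ncard h2 (finite_palSet 0)
      rw [ncard_palSet] at h3
      simpa using h3
    · have h3 := le_ncard_root (F := F) (Or.inl rfl) d
      have h4 := Set.ncard_le_ncard (Set.union_subset h2 (Set.sep_subset _ fun P => P.eval 1 = 0))
        (finite_palSet _)
      rw [Set.ncard_union_eq (Set.disjoint_left.2 fun w hw hw' => hw.1.one hw'.2)
        ((finite_palSet _).subset h2) ((finite_palSet _).subset (Set.sep_subset _ _)),
        ncard_palSet, pow_succ] at h4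
      rw [if_neg d.succ_ne_zero, Nat.add_sub_cancel]
      generalize Set.ncard {w : F[X] | IsW w ∧ w.natDegree = 2 * (d + 1)} = a at h4 ⊢
      zify at h3 h4
      linarith
  have e := fun d => (h1 d).some
  classical
  have h2 : ∀ w : F[X], IsW w → w.natDegree = 2 * (w.natDegree / 2) := fun w hw =>
    (Nat.two_mul_div_two_of_even hw.even).symm
  refine ⟨fun w => if h : IsW w then (e _ ⟨w, h, h2 w h⟩).1 else oneMP, fun w hw => ?_,
    fun w w' hw hw' h => ?_⟩
  · simp only [dif_pos hw]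
    rw [(e _ ⟨w, hw, h2 w hw⟩).2, ← h2 w hw]
  · simp only [dif_pos hw, dif_pos hw'] at h
    have key : ∀ {d d'} (a : {w : F[X] | IsW w ∧ w.natDegree = 2 * d})
        (b : {w : F[X] | IsW w ∧ w.natDegree = 2 * d'}), (e d a).1 = (e d' b).1 → a.1 = b.1 := by
      intro d d' a b h
      obtain rfl : d = d' := (e d a).2.symm.trans (h ▸ (e d' b).2)
      rw [(e d).injective (Subtype.ext h)]
    exact key _ _ h

omit [Fintype F] in
theorem isW_seqOf' {V : Type*} [AddCommGroup V] [Module F V] [FiniteDimensional F V]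
    {f : Form (FormType.quad F) V} (hf : f.Nondeg) {A : Module.End F V}
    (hA : IsIsom f f A) (hu : IsUnit (A ^ 2 - 1)) {s : Multiset (F[X] × ℕ)} (h : HasED A s)
    (i : ℕ) : IsW (seqOf s i) := by
  have h0 : Simil (adj hf A) A := by
    rw [simil_iff_kd]
    intro p
    have := finrank_ker_adj hf (aeval A p)
    rw [adj_aeval, show (FormType.quad F).σ = RingHom.id F from rfl, Polynomial.map_id] at this
    exact this
  have h1 : A ^ 2 - 1 = (A - 1) * (A + 1) := by noncomm_ring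
  have h2 : A ^ 2 - 1 = (A + 1) * (A - 1) := by noncomm_ring
  have h3 := eval_seqOf_ne_zero h (c := 1) (by
    rw [map_one]
    rw [h1] at hu
    exact isUnit_of_mul_isUnit_left hu) i
  refine ⟨monic_seqOf h.1 i, reverse_eq_of_rcp_eq ?_ h3, h3, eval_seqOf_ne_zero h ?_ i⟩
  · rw [← seqOf_map_rcp, map_rcp_eq (adj_mul_self hf hA) h0.symm h]
  · rw [map_neg, map_one, sub_neg_eq_add]
    rw [h2] at hu
    exact isUnit_of_mul_isUnit_left hu

/-- The invariants of an isometry. -/
def GD (α : F) (θ : F[X] → MP F) (N : ℕ) (S : FS (FormType.quad F)) (d : List Lev)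
    (u : Ix N → MP F) : Prop :=
  ∃ (S₁ S₀ : FS (FormType.quad F)) (t : Multiset (F[X] × ℕ)), S.Iso (S₁.prod S₀) ∧
    Has α (lst d) S₁ ∧ IsIsom S₀.f S₀.f S₀.A ∧ IsUnit (S₀.A ^ 2 - 1) ∧ HasED S₀.A t ∧
      (∀ x ∈ t, x.2 ∈ Ioc 0 N) ∧ ∀ i : Ix N, θ (seqOf t i) = u i

variable [CharP F 2] {α : F} {θ : F[X] → MP F} {S S' : FS (FormType.quad F)}

theorem exists_gd (hα : NA α) (hθ : ∀ w, IsW w → 2 * (θ w).1.natDegree = w.natDegree)
    (hA : IsIsom S.f S.f S.A) {n : ℕ} (hn : S.dim = 2 * n) : ∃ d u, d.length = 2 * n ∧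
      ok (some false) d ∧ wt d + wtU u = n ∧ GD α θ (2 * n) S d u := by
  obtain ⟨S₁, S₀, h1, h2, h3, h4, h5⟩ := exists_split_one S hA hn.le
  obtain ⟨d, h6, h7, h8, -⟩ := Un.exists_data hα ⟨h2, h3⟩
  have h9 : IsUnit (S₀.A ^ 2 - 1) := by
    have h10 : S₀.A ^ 2 - 1 = (S₀.A - 1) * (S₀.A - 1) := by
      have : (2 : F) • (S₀.A - 1) = 0 := by rw [two_z, zero_smul]
      rw [two_smul] at this
      linear_combination (norm := noncomm_ring) this
    have h11 : IsUnit (S₀.A - 1) := by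
      rw [LinearMap.isUnit_iff_ker_eq_bot, LinearMap.ker_eq_bot']
      exact fun x hx => h5 x (sub_eq_zero.1 hx)
    exact h10 ▸ h11.mul h11
  have h10 := hasED_elemDiv S₀.A
  have h11 := h1.dim_eq
  rw [FS.dim_prod, h8.dim_eq, sum_lst h7, hn] at h11
  have h12 : ∀ x ∈ elemDiv S₀.A, x.2 ∈ Ioc 0 (2 * n) := fun x hx => by
    have h13 : x.2 * x.1.natDegree ≤ S₀.dim := by
      rw [FS.dim, h10.finrank_eq]
      exact Multiset.single_le_sum (fun _ _ => Nat.zero_le _) _ (Multiset.mem_map_of_mem _ hx)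
    have h14 := Nat.le_mul_of_pos_right x.2 (h10.1 x hx).2.1.natDegree_pos
    exact mem_Ioc.2 ⟨(h10.1 x hx).2.2, by omega⟩
  refine ⟨d, _, h6, h7, ?_, S₁, S₀, _, h1, h8, h4, h9, h10, h12, fun _ => rfl⟩
  have h13 := weight_seqOf h10.1 h12
  rw [← h10.finrank_eq] at h13
  have h14 : 2 * wtU (fun i : Ix (2 * n) => θ (seqOf (elemDiv S₀.A) i)) = S₀.dim := by
    rw [FS.dim, ← h13, wtU, mul_sum]
    exact sum_congr rfl fun i _ => by rw [mul_left_comm, hθ _ (isW_seqOf' S₀.nd h4 h9 h10 i)]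
  omega

omit [CharP F 2] in
theorem GD.parts (hθ : ∀ w w', IsW w → IsW w' → θ w = θ w' → w = w') {N : ℕ} {d d' : List Lev}
    {u : Ix N → MP F} (h : GD α θ N S d u) (h' : GD α θ N S' d' u) :
    ∃ S₁ S₁' S₀ : FS (FormType.quad F), S.Iso (S₁.prod S₀) ∧ S'.Iso (S₁'.prod S₀) ∧
      Has α (lst d) S₁ ∧ Has α (lst d') S₁' := by
  obtain ⟨S₁, S₀, t, h1, h2, h3, h4, h5, h6, h7⟩ := h
  obtain ⟨S₁', S₀', t', h1', h2', h3', h4', h5', h6', h7'⟩ := h'
  obtain rfl : t = t' := eq_of_seqOf_eq h5.1 h5'.1 h6 h6' fun i => hθ _ _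
    (isW_seqOf' S₀.nd h3 h4 h5 i) (isW_seqOf' S₀'.nd h3' h4' h5' i) ((h7 i).trans (h7' i).symm)
  exact ⟨S₁, S₁', S₀, h1, h1'.trans ((FS.Iso.refl _).prod
    (isomConj_of_isUnit S₀'.nd S₀.nd h3' h3 (h5'.simil h5) h4')), h2, h2'⟩

theorem card_classes_le {G : Type*} [Monoid G] (σ : Option Bool) (n : ℕ)
    (R : G → FS (FormType.quad F) → Prop)
    (h1 : ∀ g, ∃ S, R g S ∧ IsIsom S.f S.f S.A ∧ S.dim = 2 * n)
    (h2 : ∀ α : F, NA α → ∀ g g' S S' S₁ S₁' S₀ d d', R g S → R g' S' → S.Iso (S₁.prod S₀) →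
      S'.Iso (S₁'.prod S₀) → Has α (lst d) S₁ → Has α (lst d') S₁' → ok (some false) d →
      ok (some false) d' → nrm σ d = nrm σ d' → IsConj g g') :
    (Nat.card (ConjClasses G) : ℚ) ≤ pot 0 σ * Fintype.card F ^ n := by
  obtain ⟨α, hα⟩ := exists_na F
  obtain ⟨θ, h3, h4⟩ := exists_theta F
  obtain ⟨h5, h6⟩ := card_Dt_le (F := F) σ n
  rw [← card_classes_true]
  refine le_trans (Nat.cast_le.2 (card_classes_le_of_rel (D := Dt F σ n) _ (fun g x => ∃ S d,
    R g S ∧ ok (some false) d ∧ nrm σ d = x.1.1 ∧ GD α θ (2 * n) S d x.1.2) (fun g _ => ?_) ?_)) h6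
  · obtain ⟨S, h7, h8, h9⟩ := h1 g
    obtain ⟨d, u, h10, h11, h12, h13⟩ := exists_gd hα h3 h8 h9
    exact ⟨⟨(nrm σ d, u), by rwa [length_nrm], ok_nrm σ h11, by rwa [wt_nrm]⟩, S, d, h7, h11, rfl,
      h13⟩
  · rintro g g' x ⟨S, d, h7, h8, h9, h10⟩ ⟨S', d', h7', h8', h9', h10'⟩
    obtain ⟨S₁, S₁', S₀, h11, h12, h13, h14⟩ := h10.parts h4 h10'
    exact h2 α hα g g' S S' S₁ S₁' S₀ d d' h7 h7' h11 h12 h13 h14 h8 h8' (h9.trans h9'.symm)

theorem card_classes_O_le {V : Type u} [AddCommGroup V] [Module F V] [FiniteDimensional F V]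
    {Q : QuadraticForm F V} (hQ : (polarBilin Q).Nondegenerate) {n : ℕ}
    (hn : finrank F V = 2 * n) : Nat.card (ConjClasses (Orth.O Q)) ≤ 15 * Fintype.card F ^ n := by
  have h1 := card_classes_le (F := F) (G := Orth.O Q) none n (fun g S => S = oFS hQ g)
    (fun g => ⟨_, rfl, isIsom_toEnd g, hn⟩) (by
      rintro α hα g g' _ _ S₁ S₁' S₀ d d' rfl rfl h1 h2 h3 h4 h5 h6 h7
      have h8 := pl_congr h2
      replace h8 := (pl_congr h1).symm.trans h8
      rw [pl_prod, pl_prod, h3.pl_iff hα.na (lst_valid d), h4.pl_iff hα.na (lst_valid d'),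
        countP_lst h5, countP_lst h6] at h8
      obtain rfl := (eq_of_nrm_none h5 h6 h7).2 (by tauto)
      exact isConj_of_iso hQ ((h1.trans ((h3.iso h4).prod (FS.Iso.refl _))).trans h2.symm))
  have h2 : pot 0 none ≤ 15 := by decide +kernel
  exact_mod_cast h1.trans (mul_le_mul_of_nonneg_right h2 (by positivity))

theorem card_classes_sp_le (n : ℕ) :
    5 * Nat.card (ConjClasses (Matrix.symplecticGroup (Fin n) F)) ≤ 76 * Fintype.card F ^ n := by
  have h1 := card_classes_le (F := F) (G := Matrix.symplecticGroup (Fin n) F) (some true) n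
    (fun g S => ∃ (Q : QuadraticForm F (Fin n ⊕ Fin n → F)) (h : (ofQuad Q).Nondeg),
      (∀ x y, polar Q x y = (Sp.spForm n F).B x y) ∧ S = ⟨_, ofQuad Q, h, Matrix.toLin' g.1⟩)
    (fun g => by
      obtain ⟨Q, h1, h2⟩ := exists_invariant_quad (B := bil (Sp.spForm n F))
        (Sp.spForm n F).alt_B_self (isIsom_sp g).B_eq
      exact ⟨_, ⟨Q, fun x hx => Sp.spForm_nondeg n F x fun y => (h1 x y).symm.trans (hx y), h1, rfl⟩,
        (quad_isIsom_iff _ _ _).2 h2, Sp.finrank_sp n F⟩) (by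
      rintro α hα g g' _ _ S₁ S₁' S₀ d d' ⟨Q, hQ, h8, rfl⟩ ⟨Q', hQ', h8', rfl⟩ h1 h2 h3 h4 h5 h6 h7
      obtain ⟨u, h9, h10⟩ := ((isoB_of_iso h1).trans ((h3.isoB h4 (forall₂_of_nrm h5 h6 h7)).prod
        (isoB_of_iso (FS.Iso.refl _)))).trans (isoB_of_iso h2.symm)
      exact (isConj_sp_iff g g').2 ⟨u, (alt_isIsom_iff _ _ _).2 fun x y =>
        (h8' _ _).symm.trans ((h9 x y).trans (h8 x y)), h10⟩)
  have h2 : pot 0 (some true) ≤ 76 / 5 := by decide +kernel
  have h3 := h1.trans (mul_le_mul_of_nonneg_right h2 (by positivity))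
  have h4 : (5 * Nat.card (ConjClasses (Matrix.symplecticGroup (Fin n) F)) : ℚ) ≤
      76 * Fintype.card F ^ n := by linarith
  exact_mod_cast h4

end Count

end CL.Ev2
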