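import Mathlib
import Cfsg.Agent.KSG.Ev2Num

/-! Lower bound for the class numbers of orthogonal groups in characteristic two. -/

set_option autoImplicit false

namespace CL.Ev2

open Module CL.Witt CL.Witt.Form CL.SpU CL.Orth CL.Nil CL.GLn Polynomial QuadraticMap AdjoinRoot

universe u

variable {F : Type u} [Field F]

theorem mul_mem_degreeLT {a b : F[X]} {i j : ℕ} (ha : a ∈ degreeLT F i) (hb : b ∈ degreeLT F j) :
    a * b ∈ degreeLT F (i + j - 1) := by
  rw [mem_degreeLT, degree_lt_iff_coeff_zero] at *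
  intro k hk
  rw [coeff_mul]
  refine Finset.sum_eq_zero fun p hp => ?_
  have : p.1 + p.2 = k := by simpa using hp
  rcases (by omega : i ≤ p.1 ∨ j ≤ p.2) with h | h
  · rw [ha _ h, zero_mul]
  · rw [hb _ h, mul_zero]

section Model

variable {h : F[X]} (hm : h.Monic) {n : ℕ} (hn : h.natDegree = n + 1)

/-- The top coefficient. -/
noncomputable def nu : AdjoinRoot h →ₗ[F] F :=
  lcoeff F (h.natDegree - 1) ∘ₗ AdjoinRoot.modByMonicHom hm

variable (h) in
/-- Elements of small degree. -/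
noncomputable def Wd (i : ℕ) : Submodule F (AdjoinRoot h) := (degreeLT F i).map (mkₐ h).toLinearMap

theorem Wd_mul {a b : AdjoinRoot h} {i j : ℕ} (ha : a ∈ Wd h i) (hb : b ∈ Wd h j) :
    a * b ∈ Wd h (i + j - 1) := by
  obtain ⟨a, ha, rfl⟩ := ha
  obtain ⟨b, hb, rfl⟩ := hb
  exact ⟨a * b, mul_mem_degreeLT ha hb, map_mul (mk h) a b⟩

theorem pow_mem_Wd (i : ℕ) : root h ^ i ∈ Wd h (i + 1) :=
  ⟨X ^ i, mem_degreeLT.2 (by rw [degree_X_pow]; exact_mod_cast i.lt_succ_self), by simp⟩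

theorem exists_sub_mem_Wd {a : AdjoinRoot h} {i : ℕ} (ha : a ∈ Wd h (i + 1)) :
    ∃ c : F, a - c • root h ^ i ∈ Wd h i := by
  obtain ⟨a, ha, rfl⟩ := ha
  refine ⟨a.coeff i, a - a.coeff i • X ^ i, ?_, by rw [map_sub, map_smul]; simp⟩
  rw [SetLike.mem_coe, mem_degreeLT, degree_lt_iff_coeff_zero] at *
  intro k hk
  rcases hk.eq_or_lt with rfl | hk
  · simp
  · simp [coeff_X_pow, hk.ne', ha k hk]

include hn

theorem nu_mk {p : F[X]} (hp : p ∈ degreeLT F (n + 1)) : nu hm (mk h p) = p.coeff n := by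
  rw [nu, LinearMap.comp_apply, modByMonicHom_mk, (modByMonic_eq_self_iff hm).2 (by
    rw [degree_eq_natDegree hm.ne_zero, hn]; exact mem_degreeLT.1 hp), hn]
  rfl

theorem nu_zero {a : AdjoinRoot h} {i : ℕ} (ha : a ∈ Wd h i) (hi : i ≤ n) : nu hm a = 0 := by
  obtain ⟨a, ha, rfl⟩ := ha
  exact (nu_mk hm hn (degreeLT_mono (by omega) ha)).trans
    ((degree_lt_iff_coeff_zero _ _).1 (mem_degreeLT.1 ha) n hi)

theorem nu_pow : nu hm (root h ^ n) = 1 := by
  rw [← mk_X, ← map_pow, nu_mk hm hn (mem_degreeLT.2 (by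
    rw [degree_X_pow]; exact_mod_cast n.lt_succ_self))]
  simp

theorem nu_pow_succ : nu hm (root h ^ (n + 1)) = -h.coeff n := by
  have h1 : root h ^ (n + 1) = mk h (X ^ (n + 1) - h) := by simp
  rw [h1, nu_mk hm hn (mem_degreeLT.2 ?_)]
  · simp [coeff_X_pow]
  · have := degree_sub_lt (p := X ^ (n + 1)) (q := h) (by
      rw [degree_X_pow, degree_eq_natDegree hm.ne_zero, hn]) (by simp) (by simp [hm.leadingCoeff])
    rwa [degree_X_pow] at this

theorem mem_Wd_of_nu {a : AdjoinRoot h} {i j : ℕ} (hij : i + j = n + 1)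
    (ha : ∀ l < j, nu hm (root h ^ l * a) = 0) : a ∈ Wd h i := by
  have h1 : (AdjoinRoot.modByMonicHom hm a).degree < (n + 1 : ℕ) := by
    obtain ⟨p, rfl⟩ := mk_surjective a
    rw [modByMonicHom_mk, ← hn, ← degree_eq_natDegree hm.ne_zero]
    exact degree_modByMonic_lt p hm
  rw [← mk_leftInverse hm a] at ha ⊢
  generalize AdjoinRoot.modByMonicHom hm a = p at h1 ha
  refine ⟨p, mem_degreeLT.2 ?_, rfl⟩
  by_contra h2
  have h3 : p ≠ 0 := by rintro rfl; simp at h2
  rw [degree_eq_natDegree h3, Nat.cast_lt] at h1 h2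
  have h4 := ha (n - p.natDegree) (by omega)
  rw [← mk_X, ← map_pow, ← map_mul, nu_mk hm hn (mem_degreeLT.2 (by
    rw [degree_eq_natDegree (by simp [h3]), natDegree_X_pow_mul _ h3, Nat.cast_lt]; omega)),
    coeff_X_pow_mul', if_pos (by omega), show n - (n - p.natDegree) = p.natDegree by omega] at h4
  exact h3 (leadingCoeff_eq_zero.1 h4)

omit hn

/-- The model quadratic form. -/
noncomputable def QH : QuadraticForm F (AdjoinRoot h × AdjoinRoot h) :=
  LinearMap.BilinMap.toQuadraticMap (LinearMap.mk₂ F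
    (fun x y => nu hm (root h * x.1 * y.1 + x.1 * y.2 + x.2 * y.2))
    (fun x x' y => by rw [← map_add]; congr 1; simp only [Prod.fst_add, Prod.snd_add]; ring)
    (fun c x y => by
      rw [← map_smul]; congr 1; simp only [Prod.smul_fst, Prod.smul_snd]; simp only [Algebra.smul_def]; ring)
    (fun x y y' => by rw [← map_add]; congr 1; simp only [Prod.fst_add, Prod.snd_add]; ring)
    (fun c x y => by
      rw [← map_smul]; congr 1; simp only [Prod.smul_fst, Prod.smul_snd]; simp only [Algebra.smul_def]; ring))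

theorem QH_apply (x : AdjoinRoot h × AdjoinRoot h) :
    QH hm x = nu hm (root h * x.1 * x.1 + x.1 * x.2 + x.2 * x.2) := rfl

variable [CharP F 2]

theorem two_root : (2 : AdjoinRoot h) = 0 := by
  rw [← map_ofNat (algebraMap F (AdjoinRoot h)) 2, two_z, map_zero]

theorem B_QH (x y : AdjoinRoot h × AdjoinRoot h) :
    (ofQuad (QH hm)).B x y = nu hm (x.1 * y.2 + x.2 * y.1) := by
  rw [ofQuad_B, QH, LinearMap.BilinMap.polar_toQuadraticMap, LinearMap.mk₂_apply,
    LinearMap.mk₂_apply, ← map_add]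
  congr 1
  linear_combination (root h * x.1 * y.1 + x.2 * y.2) * two_root (h := h)

include hn

theorem nondeg_QH : (ofQuad (QH hm)).Nondeg := fun x hx => by
  have key : ∀ a : AdjoinRoot h, (∀ b, nu hm (b * a) = 0) → a = 0 := fun a ha => by
    obtain ⟨p, hp, rfl⟩ := mem_Wd_of_nu hm hn (zero_add _) fun l _ => ha _
    rw [SetLike.mem_coe, mem_degreeLT, Nat.cast_zero, Nat.WithBot.lt_zero_iff, degree_eq_bot] at hp
    simp [hp]
  exact Prod.ext (key _ fun b => by simpa [B_QH, mul_comm] using hx (0, b))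
    (key _ fun b => by simpa [B_QH, mul_comm] using hx (b, 0))

/-- The model space. -/
noncomputable abbrev SH (A : Module.End F (AdjoinRoot h × AdjoinRoot h)) : FS (FormType.quad F) where
  V := AdjoinRoot h × AdjoinRoot h
  fd := by have := (powerBasis' hm).finite; infer_instance
  f := ofQuad (QH hm)
  nd := nondeg_QH hm hn
  A := A

theorem dim_SH (A : Module.End F (AdjoinRoot h × AdjoinRoot h)) :
    (SH hm hn A).dim = 2 * (n + 1) := by
  have := (powerBasis' hm).finite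
  change finrank F (AdjoinRoot h × AdjoinRoot h) = _
  rw [finrank_prod, (powerBasis' hm).finrank, powerBasis'_dim, hn, two_mul]

theorem pl_SH [Finite F] (A : Module.End F (AdjoinRoot h × AdjoinRoot h)) :
    Pl (SH hm hn A) ↔ AS (h.coeff n) := by
  obtain ⟨i, j, hij, hi, hj⟩ : ∃ i j, i + j = n ∧ 2 * i ≤ n ∧ 2 * j ≤ n + 1 :=
    ⟨n / 2, (n + 1) / 2, by omega, by omega, by omega⟩
  have := (SH hm hn A).fd
  rw [Pl, isPlus_iff_AS (SH hm hn A).nd (U := (Wd h i).prod (Wd h j)) (e := (root h ^ i, 0))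
    (e' := (0, root h ^ j)) (fun u hu => ?_) (fun u hu => ?_) (fun u hu => ?_) ?_ fun v hv => ?_]
  · simp only [ofQuad_q, QH_apply, mul_zero, zero_mul, add_zero, zero_add, ← pow_add, ← pow_succ']
    rcases (by omega : i + 1 + i = n + 1 ∧ j + j = n ∨ i + 1 + i = n ∧ j + j = n + 1) with h1 | h1 <;>
      rw [h1.1, h1.2, nu_pow hm hn, nu_pow_succ hm hn, CharTwo.neg_eq] <;> simp
  · rw [B_QH, mul_zero, add_zero, ← pow_add, hij, nu_pow hm hn]
  · rw [ofQuad_q, QH_apply, map_add, map_add, nu_zero hm hn (Wd_mul hu.1 hu.2) (by omega),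
      nu_zero hm hn (Wd_mul hu.2 hu.2) (by omega), nu_zero hm hn (Wd_mul (Wd_mul
        (pow_one (root h) ▸ pow_mem_Wd 1) hu.1) hu.1) (by omega), add_zero, add_zero]
  · rw [B_QH, mul_zero, zero_add, nu_zero hm hn (Wd_mul hu.2 (pow_mem_Wd i)) (by omega)]
  · rw [B_QH, mul_zero, add_zero, nu_zero hm hn (Wd_mul hu.1 (pow_mem_Wd j)) (by omega)]
  · obtain ⟨a, ha⟩ := exists_sub_mem_Wd (mem_Wd_of_nu hm hn (a := v.1) (i := i + 1) (j := j)
      (by omega) fun l hl => by
        simpa [B_QH] using hv (0, root h ^ l) ⟨zero_mem _,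
          Submodule.map_mono (degreeLT_mono hl) (pow_mem_Wd l)⟩)
    obtain ⟨b, hb⟩ := exists_sub_mem_Wd (mem_Wd_of_nu hm hn (a := v.2) (i := j + 1) (j := i)
      (by omega) fun l hl => by
        simpa [B_QH] using hv (root h ^ l, 0) ⟨Submodule.map_mono (degreeLT_mono hl) (pow_mem_Wd l),
          zero_mem _⟩)
    exact ⟨a, b, (_, _), ⟨ha, hb⟩, Prod.ext (by simp) (by simp)⟩

end Model

/-- A conjugacy invariant. -/
def JJ {V : Type*} [AddCommGroup V] [Module F V] (A : Module.End F V) : Set F[X] :=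
  {p | ∀ E, A * E = A * A + 1 → E * aeval E p = 0}

theorem JJ_eq {V : Type*} [AddCommGroup V] [Module F V] {A E : Module.End F V} (hA : IsUnit A)
    (h : A * E = A * A + 1) : JJ A = {p | E * aeval E p = 0} :=
  Set.ext fun _ => ⟨fun hp => hp E h, fun hp E' hE' => by
    rwa [hA.mul_left_cancel (hE'.trans h.symm)]⟩

theorem JJ_congr {V W : Type u} [AddCommGroup V] [Module F V] [AddCommGroup W] [Module F W]
    {A : Module.End F V} {B : Module.End F W} (h : Simil A B) : JJ A = JJ B := by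
  have key : ∀ {V W : Type u} [AddCommGroup V] [Module F V] [AddCommGroup W] [Module F W]
      {A : Module.End F V} {B : Module.End F W}, Simil A B → JJ B ⊆ JJ A := by
    intro V W _ _ _ _ A B ⟨e, he⟩ p hp E hE
    have h1 : e.conjAlgEquiv F A = B := LinearMap.ext fun v => by simp [he]
    have h2 := hp (e.conjAlgEquiv F E) (by rw [← h1, ← map_mul, hE, map_add, map_mul, map_one])
    rwa [aeval_algHom_apply, ← map_mul, map_eq_zero_iff _ (e.conjAlgEquiv F).injective] at h2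
  exact (key h.symm).antisymm (key h)

/-- The invariant attached to a polynomial. -/
def jj (h : F[X]) : Set F[X] := {p | ∀ e, root h * e = 1 → aeval e p = 0}

theorem exists_inv_root {h : F[X]} (h0 : h.coeff 0 ≠ 0) : ∃ e, root h * e = 1 := by
  refine ⟨-(mk h (C (h.coeff 0)⁻¹ * h.divX)), ?_⟩
  rw [← mk_X, ← map_neg, ← map_mul, ← map_one (mk h), mk_eq_mk]
  refine ⟨-C (h.coeff 0)⁻¹, ?_⟩
  have h1 := X_mul_divX_add h
  have h2 : C (h.coeff 0)⁻¹ * C (h.coeff 0) = 1 := by rw [← map_mul, inv_mul_cancel₀ h0, map_one]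
  linear_combination -C (h.coeff 0)⁻¹ * h1 + h2

theorem dvd_of_jj {h h' : F[X]} (h0 : h'.coeff 0 ≠ 0) (e : jj h ⊆ jj h') : h' ∣ h := by
  have key : ∀ {g : F[X]} {e : AdjoinRoot g}, root g * e = 1 →
      (aeval e h.reverse = 0 ↔ g ∣ h) := fun {g e} he => by
    rw [UniED.aeval_reverse_eq he (by rwa [mul_comm]), (IsUnit.of_mul_eq_one_right _ he).pow _ |>.mul_left_eq_zero,
      aeval_eq, mk_eq_zero]
  obtain ⟨e', he'⟩ := exists_inv_root h0
  exact (key he').1 (e (fun e he => (key he).2 dvd_rfl) e' he')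

variable [CharP F 2]

theorem exists_SH {h : F[X]} (hm : h.Monic) {n : ℕ} (hn : h.natDegree = n + 1)
    (h0 : h.coeff 0 ≠ 0) : ∃ A E : Module.End F (AdjoinRoot h × AdjoinRoot h),
      IsIsom (SH hm hn A).f (SH hm hn A).f A ∧ A * E = A * A + 1 ∧
        ∀ p, p ∈ jj h ↔ E * aeval E p = 0 := by
  obtain ⟨e, he⟩ := exists_inv_root h0
  have h2 := two_root (h := h)
  let φ := Algebra.lsmul F F (AdjoinRoot h × AdjoinRoot h) (A := AdjoinRoot h)
  let A : Module.End F (AdjoinRoot h × AdjoinRoot h) := 1 + LinearMap.prod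
    (LinearMap.mulLeft F e ∘ₗ (LinearMap.fst F _ _ + LinearMap.snd F _ _)) (LinearMap.fst F _ _)
  have hA : ∀ x, A x = (x.1 + e * (x.1 + x.2), x.2 + x.1) := fun x => rfl
  refine ⟨A, φ e, (quad_isIsom_iff _ _ _).2 fun x => ?_, LinearMap.ext fun x => ?_, fun p => ?_⟩
  · rw [ofQuad_q, ofQuad_q, QH_apply, QH_apply, hA]
    congr 1
    linear_combination (e * (x.1 + x.2) ^ 2 + 2 * x.1 * (x.1 + x.2)) * he +
      (e * (x.1 + x.2) ^ 2 + 2 * x.1 ^ 2 + 2 * x.1 * x.2) * h2
  · rw [LinearMap.add_apply, Module.End.mul_apply, Module.End.mul_apply, hA, hA, hA]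
    refine Prod.ext ?_ ?_ <;> simp [φ]
    · linear_combination (-x.1 - e * x.1 - e * x.2) * h2
    · linear_combination (-x.1 - x.2) * h2
  · rw [aeval_algHom_apply, ← map_mul]
    constructor
    · exact fun hp => by rw [hp e he, mul_zero, map_zero]
    · intro hp e' he'
      obtain rfl : e = e' := by linear_combination e' * he - e * he'
      have h3 := congrArg Prod.fst (LinearMap.congr_fun hp (1, 0))
      simp only [φ, Algebra.lsmul_apply, Prod.smul_fst, smul_eq_mul, mul_one,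
        LinearMap.zero_apply, Prod.fst_zero] at h3
      linear_combination root h * h3 - aeval e p * he

variable [Fintype F]

theorem exists_model (s : Prop) {h : F[X]} (hm : h.Monic) (h0 : h.coeff 0 ≠ 0) {n : ℕ}
    (hn : h.natDegree = n + 2 ∧ (AS (h.coeff (n + 1)) ↔ s) ∨ h.natDegree = n + 1) :
    ∃ S : FS (FormType.quad F), IsIsom S.f S.f S.A ∧ S.dim = 2 * (n + 2) ∧ (Pl S ↔ s) ∧
      JJ S.A = jj h := by
  rcases hn with ⟨hn, hs⟩ | hn
  · obtain ⟨A, E, h1, h2, h3⟩ := exists_SH hm hn h0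
    have := (SH hm hn A).fd
    exact ⟨SH hm hn A, h1, dim_SH .., (pl_SH ..).trans hs,
      (JJ_eq (isUnit_of_isIsom (SH hm hn A).nd h1) h2).trans (Set.ext h3).symm⟩
  obtain ⟨A, E, h1, h2, h3⟩ := exists_SH hm hn h0
  obtain ⟨α, hα⟩ := exists_na F
  obtain ⟨c, hc⟩ : ∃ c : F, (AS (h.coeff n) ↔ AS c) ↔ s := by
    by_cases h4 : AS (h.coeff n) ↔ s
    · exact ⟨0, by simpa [as_zero] using h4⟩
    · exact ⟨α, by have := hα.na; tauto⟩
  have h4 : (X + C c).natDegree = 0 + 1 := natDegree_X_add_C c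
  have h5 := isIsom_prodMap (B := (SH (monic_X_add_C c) h4 1).A) h1 (IsIsom.id (SH (monic_X_add_C c) h4 1).f)
  refine ⟨(SH hm hn A).prod (SH (monic_X_add_C c) h4 1), h5, by
    rw [FS.dim_prod, dim_SH, dim_SH]; ring, by rw [pl_prod, pl_SH, pl_SH]; simpa using hc, ?_⟩
  have := ((SH hm hn A).prod (SH (monic_X_add_C c) h4 1)).fd
  rw [JJ_eq (E := E.prodMap 0) (isUnit_of_isIsom ((SH hm hn A).prod
    (SH (monic_X_add_C c) h4 1)).nd h5) (LinearMap.ext fun x => by
      refine Prod.ext (LinearMap.congr_fun h2 x.1 :) ?_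
      change (0 : AdjoinRoot _ × AdjoinRoot _) = x.2 + x.2
      rw [← two_smul F, two_z, zero_smul])]
  ext p
  have h6 : ∀ x, E.prodMap 0 (aeval (R := F) (A := Module.End F ((AdjoinRoot h × AdjoinRoot h) ×
      (AdjoinRoot (X + C c) × AdjoinRoot (X + C c)))) (E.prodMap 0) p x) =
      ((E * aeval E p) x.1, (0 : AdjoinRoot (X + C c) × AdjoinRoot (X + C c))) :=
    fun x => Prod.ext (congrArg E (intertwine_aeval (A := E.prodMap 0) (B := E)
      (LinearMap.fst F _ _) (fun _ => rfl) p x)) rfl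
  rw [h3, Set.mem_setOf_eq]
  exact ⟨fun h => LinearMap.ext fun x => congrArg Prod.fst ((h6 (x, 0)).symm.trans
    (LinearMap.congr_fun h _)), fun h => LinearMap.ext fun x => (h6 x).trans (by rw [h]; rfl)⟩

theorem le_card_classes_O {V : Type u} [AddCommGroup V] [Module F V] [FiniteDimensional F V]
    {Q : QuadraticForm F V} (hQ : (polarBilin Q).Nondegenerate) {n : ℕ} (hn : 2 ≤ n)
    (hV : finrank F V = 2 * n) : Fintype.card F ^ n ≤ 2 * Nat.card (ConjClasses (Orth.O Q)) := by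
  obtain ⟨n, rfl⟩ : ∃ m, n = m + 2 := ⟨n - 2, by omega⟩
  have : Finite V := Module.finite_of_finite F
  have := finite_O (Q := Q)
  obtain ⟨α, hα⟩ := exists_na F
  let M : ℕ → Set F[X] := fun d => {h | h.Monic ∧ h.natDegree = d ∧ h.coeff 0 ≠ 0}
  have hM : ∀ d, (M (d + 1)).ncard = (Fintype.card F - 1) * Fintype.card F ^ d := fun d =>
    card_monic_natDegree_coeff_zero_ne (F := F) (n := d + 1) (by omega)
  have hM' : ∀ d, (M d).Finite := fun d =>
    (Set.finite_coe_iff.1 (finite_monic d)).subset fun h hh => ⟨hh.1, hh.2.1⟩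
  set A := {h ∈ M (n + 2) | AS (h.coeff (n + 1)) ↔ IsPlus Q}
  have hA : A.Finite := (hM' _).subset (Set.sep_subset _ _)
  have h1 : (A ∪ M (n + 1)).ncard ≤ Nat.card (ConjClasses (Orth.O Q)) := by
    have h2 : ∀ h ∈ A ∪ M (n + 1), h.Monic ∧ h.coeff 0 ≠ 0 := by
      rintro h (hh | hh)
      exacts [⟨hh.1.1, hh.1.2.2⟩, ⟨hh.1, hh.2.2⟩]
    rw [← Nat.card_coe_set_eq]
    refine card_le_card_classes (fun g => JJ (toEnd Q g)) (fun g g' hc => ?_)
      (fun x : ↥(A ∪ M (n + 1)) => jj x.1) (fun x y h => Subtype.ext (eq_of_monic_of_associated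
        (h2 _ x.2).1 (h2 _ y.2).1 (associated_of_dvd_dvd (dvd_of_jj (h2 _ x.2).2 h.ge)
          (dvd_of_jj (h2 _ y.2).2 h.le)))) fun x => ?_
    · obtain ⟨k, rfl⟩ := isConj_iff.1 hc
      exact JJ_congr ⟨k.1, fun v => congrArg (fun w => k.1 (g.1 w)) (k.1.symm_apply_apply v).symm⟩
    · obtain ⟨S, h3, h4, h5, h6⟩ := exists_model (IsPlus Q) (h2 _ x.2).1 (h2 _ x.2).2 (n := n)
        (x.2.imp (fun h => ⟨h.1.2.1, h.2⟩) fun h => h.2.1)
      obtain ⟨φ, hφ⟩ := exists_isometry_of_isPlus_iff (qfOf_nondeg S.nd) hQ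
        (h4 ▸ even_two_mul _ : Even S.dim) (h4.trans hV.symm) h5
      obtain ⟨g, hg⟩ := exists_O_of_isom (qfOf_nondeg S.nd) (A := S.A) h3.q_eq
      refine ⟨congrO φ hφ g, (JJ_congr ⟨φ, fun v => ?_⟩).symm.trans h6⟩
      rw [← hg]
      exact congrArg (fun w => φ (g.1 w)) (φ.symm_apply_apply v).symm
  rw [Set.ncard_union_eq (Set.disjoint_left.2 fun h hh hh' => by
    have := hh.1.2.1.symm.trans hh'.2.1; omega) hA (hM' _), hM] at h1
  have h3 : (M (n + 2) \ A).ncard ≤ A.ncard := by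
    refine Set.ncard_le_ncard_of_injOn (fun h => h + C α * X ^ (n + 1)) (fun h hh => ?_)
      (fun f _ g _ h => add_right_cancel h) hA
    obtain ⟨⟨h4, h5, h6⟩, h7⟩ := hh
    have h8 : (C α * X ^ (n + 1) : F[X]).natDegree < h.natDegree :=
      (natDegree_C_mul_X_pow_le α _).trans_lt (by omega)
    refine ⟨⟨h4.add_of_left (degree_lt_degree h8),
      (natDegree_add_eq_left_of_natDegree_lt h8).trans h5, by simpa using h6⟩, ?_⟩
    have h9 : ¬ (AS (h.coeff (n + 1)) ↔ IsPlus Q) := fun h9 => h7 ⟨⟨h4, h5, h6⟩, h9⟩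
    have h10 := hα.dich (h.coeff (n + 1))
    have h11 : ¬ (AS (h.coeff (n + 1)) ∧ AS (h.coeff (n + 1) + α)) := fun ⟨⟨t, ht⟩, t', ht'⟩ =>
      hα.na ⟨t + t', by linear_combination ht + ht' + (t * t' + h.coeff (n + 1)) * two_z F⟩
    rw [coeff_add, coeff_C_mul_X_pow, if_pos rfl]
    tauto
  have h7 : (M (n + 2) \ A).ncard + A.ncard = (M (n + 2)).ncard :=
    Set.ncard_sdiff_add_ncard_of_subset (Set.sep_subset _ _) (hM' _)
  rw [hM] at h7
  obtain ⟨q, hq⟩ : ∃ q, Fintype.card F = q + 2 := ⟨Fintype.card F - 2, by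
    have := Fintype.one_lt_card (α := F); omega⟩
  rw [hq, show q + 2 - 1 = q + 1 from rfl] at h1 h7
  rw [hq, pow_succ, pow_succ]
  rw [pow_succ] at h7
  nlinarith [Nat.zero_le (q * (q + 2) ^ n)]

end CL.Ev2
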