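import Cfsg.Agent.KSG.GenTwo
import Cfsg.Agent.CHEV.ClGroups

/-!
The finite classical groups of types `B`, `C`, `D` are generated by two elements.
-/

set_option autoImplicit false
set_option linter.unusedSectionVars false
set_option maxHeartbeats 400000

namespace CL.Chev.Cl

open Equiv

variable {T : Ty} {m n : ℕ} {κ : Type*} [Fintype κ] [DecidableEq κ]

/-- `w` is an element of the Weyl group induced by the map `π` on indices -/
def Base.IndW (Δ : Base T m κ) (w : Perm (Root T m)) (π : Ix m → Ix m) : Prop :=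
  w ∈ Δ.R.W ∧ ∀ a b h, ∃ h', w (.mk a b h) = .mk (π a) (π b) h'

theorem Base.IndW.mul {Δ : Base T m κ} {w w' : Perm (Root T m)} {π π' : Ix m → Ix m} (h : Δ.IndW w π)
    (h' : Δ.IndW w' π') : Δ.IndW (w * w') (π ∘ π') :=
  ⟨mul_mem h.1 h'.1, fun a b e => by
    obtain ⟨e', h1⟩ := h'.2 a b e
    rw [Perm.mul_apply, h1]; exact h.2 _ _ _⟩

theorem Base.indW_refl (Δ : Base T m κ) {a b : Ix m} (h : adm T a b) (ha : a ≠ none) :
    Δ.IndW (Δ.R.refl (.mk a b h)) (piP a b) :=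
  ⟨Δ.R.refl_mem_W _, fun _ _ _ => ⟨_, Δ.refl_mk h ha _⟩⟩

theorem adm_pm (T : Ty) {i j : Fin m} (h : i ≠ j) : adm T (some (.inl i)) (some (.inr j)) :=
  ⟨by simpa using h.symm, by simp, by simp, by simp, by simp⟩

theorem Base.exists_indW (Δ : Base T m κ) (σ : Perm (Fin m)) : ∃ w, Δ.IndW w (Option.map (Sum.map σ σ)) := by
  induction σ using Perm.swap_induction_on with
  | one => exact ⟨1, one_mem _, fun a b h => by simp [h]⟩
  | swap_mul σ i j h ih =>
    obtain ⟨w, hw⟩ := ih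
    have := (Δ.indW_refl (adm_pm T h) (by simp)).mul hw
    refine ⟨_, (funext ?_ : (piP _ _ ∘ _) = _) ▸ this⟩
    rintro (_ | c | c) <;> simp [piP, swap_apply_def] <;> grind

section Orbit

variable {π : Ix m → Ix m} (hb : ∀ a, π (bar a) = bar (π a)) {f : Fin (n + 2) → Ix m}
  (h1 : ∀ k : Fin (n + 1), π (f k.castSucc) = f k.succ) (h2 : π (f (Fin.last _)) = bar (f 0))

include h1 in
theorem iter_frame (j : Fin (n + 2)) (d : ℕ) (h : j + d < n + 2) : π^[d] (f j) = f ⟨j + d, h⟩ := by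
  induction d with
  | zero => rfl
  | succ d ih => rw [Function.iterate_succ_apply', ih (by omega)]; exact h1 ⟨j + d, by omega⟩

include hb in
theorem iter_bar (d : ℕ) (a : Ix m) : π^[d] (bar a) = bar (π^[d] a) :=
  (Function.Commute.iterate_left hb d) a

include hb h1 h2

theorem iter_neg (i j : Fin (n + 2)) : π^[j + (n + 1 - i + 1)] (f i) = bar (f j) := by
  have := i.2
  rw [Function.iterate_add_apply, Function.iterate_succ_apply', iter_frame h1 i _ (by omega),
    show (⟨i + (n + 1 - i), by omega⟩ : Fin (n + 2)) = Fin.last _ from Fin.ext (by simp; omega), h2, iter_bar hb,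
    iter_frame h1 0 j (by simp)]
  simp

theorem orbit_un {U : Ix m → Prop} (hU : ∀ a, U a → U (π a)) {i : Fin (n + 2)} (h : U (f i)) (j : Fin (n + 2)) :
    U (f j) ∧ U (bar (f j)) := by
  have key : ∀ d a, U a → U (π^[d] a) := fun d _ h => Function.Iterate.rec U h hU d
  have e := fun j => iter_neg hb h1 h2 i j ▸ key _ _ h
  exact ⟨by simpa [iter_bar hb, iter_neg hb h1 h2] using key (j + (n + 1 - i + 1)) _ (e i), e j⟩

theorem orbit_bin {Q : Ix m → Ix m → Prop} (hQ : ∀ a b, Q a b → Q (π a) (π b)) (h : Q (f 0) (bar (f 1)))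
    (k : Fin (n + 1)) : Q (f k.castSucc) (bar (f k.succ)) ∧ Q (bar (f k.castSucc)) (f k.succ) := by
  have key : ∀ d a b, Q a b → Q (π^[d] a) (π^[d] b) := fun d a b h => by
    induction d with
    | zero => exact h
    | succ d ih => simpa only [Function.iterate_succ_apply'] using hQ _ _ ih
  have := k.2
  have e := key k _ _ h
  rw [iter_bar hb, iter_frame h1 0 k (by simp; omega), iter_frame h1 1 k (by simp; omega)] at e
  simp only [Fin.val_zero, zero_add, Fin.val_one, add_comm 1] at e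
  refine ⟨e, ?_⟩
  have e' := key (n + 2) _ _ e
  have e1 := fun i => iter_neg hb h1 h2 i i
  simp only [show ∀ i : Fin (n + 2), i + (n + 1 - i + 1) = n + 2 from fun i => by have := i.2; omega] at e1
  rwa [iter_bar hb, e1, e1, bar_bar] at e'

end Orbit

/-- a set of roots as a relation on indices -/
def Qp (P : Root T m → Prop) (a b : Ix m) : Prop := ∃ h, P (.mk a b h)

theorem Qp.symm {P : Root T m → Prop} {a b : Ix m} (h : Qp P a b) : Qp P b a :=
  ⟨h.1.symm, Root.mk_swap h.1 ▸ h.2⟩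

variable {Δ : Base T m κ} {w : Perm (Root T m)} {π : Ix m → Ix m} {P : Root T m → Prop}

theorem Base.IndW.qp (hw : Δ.IndW w π) (hP : Δ.R.Cl2 w P) (a b : Ix m) (h : Qp P a b) : Qp P (π a) (π b) := by
  obtain ⟨h', e⟩ := hw.2 a b h.1
  exact ⟨h', e ▸ hP.1 _ h.2⟩

theorem Qp.refl (hP : Δ.R.Cl2 w P) {a b c d : Ix m} (ha : a ≠ none) (h1 : Qp P a b) (h2 : Qp P (bar a) (bar b))
    (h3 : Qp P c d) : Qp P (piP a b c) (piP a b d) :=
  ⟨_, (Δ.refl_mk h1.1 ha _).trans (Root.refl_mk ..) ▸ hP.2 _ _ h1.2 h2.2 h3.2⟩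

theorem Base.IndW.pair (hw : Δ.IndW w π) {a b : Ix m} (h : adm T a b) (s : Root T m) :
    Δ.R.pair (w (.mk a b h)) s = cw (π a) (π b) ⬝ᵥ s.v := by
  obtain ⟨h', e⟩ := hw.2 a b h
  rw [e, Δ.R_pair, Root.w_mk]

theorem map_bar (σ : Perm (Fin m)) (a : Ix m) : (bar a).map (Sum.map σ σ) = bar (a.map (Sum.map σ σ)) := by
  rcases a with _ | a | a <;> rfl

theorem exists_negCycle (Δ : Base T (n + 2) κ) {b : Ix (n + 2)} (h : adm T (some (.inl (Fin.last _))) b)
    (hb : b = none ∨ some (.inl (Fin.last _)) = b) : ∃ w π, Δ.IndW w π ∧ (∀ a, π (bar a) = bar (π a)) ∧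
      (∀ k : Fin (n + 1), π (some (.inl k.castSucc)) = some (.inl k.succ)) ∧
      π (some (.inl (Fin.last _))) = bar (some (.inl 0)) ∧ π none = none := by
  obtain ⟨w, hw⟩ := Δ.exists_indW (finRotate _)
  exact ⟨_, _, hw.mul (Δ.indW_refl h (by simp)), fun a => by simp [piP_bar h, map_bar],
    fun k => by simp [piP, hb, Fin.castSucc_ne_last], by simp [piP, hb], by simp [piP, hb]⟩

theorem exists_negCycle_D (Δ : Base T (n + 3) κ) (hT : T ≠ .A) : ∃ w π, Δ.IndW w π ∧ (∀ a, π (bar a) = bar (π a)) ∧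
      (∀ k : Fin (n + 1), π (some (.inl k.castSucc.castSucc)) = some (.inl k.succ.castSucc)) ∧
      π (some (.inl (Fin.last _).castSucc)) = bar (some (.inl (Fin.castSucc 0))) ∧
      π (some (.inl (Fin.last _))) = some (.inr (Fin.last _)) := by
  obtain ⟨w, hw⟩ := Δ.exists_indW (Fin.cycleRange (Fin.last _).castSucc)
  have h : (Fin.last (n + 1)).castSucc ≠ Fin.last _ := Fin.castSucc_ne_last _
  exact ⟨_, _, hw.mul ((Δ.indW_refl (adm_pm T h) (by simp)).mul (Δ.indW_refl (adm_D T hT h) (by simp))),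
    fun a => by simp [piP_bar (adm_pm T h), piP_bar (adm_D T hT h), map_bar],
    fun k => by simp [piP, Fin.castSucc_ne_last, Fin.cycleRange_of_lt, Fin.castSucc_lt_last], by simp [piP, h, h.symm],
    by simp [piP, h, Fin.cycleRange_of_gt, Fin.castSucc_lt_last]⟩

theorem simple_of_qp {xa xb : Ix (n + 1)} {hx hxa hht hsg hpos hco} {P : Root T (n + 1) → Prop}
    (h1 : ∀ k : Fin n, Qp P (some (.inl k.castSucc)) (some (.inr k.succ)) ∧
      Qp P (some (.inr k.castSucc)) (some (.inl k.succ))) (h2 : Qp P xa xb ∧ Qp P (bar xa) (bar xb)) (i : Fin (n + 1)) :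
    P ((baseSnoc T n xa xb hx hxa hht hsg hpos hco).R.simple i) ∧
      P ((baseSnoc T n xa xb hx hxa hht hsg hpos hco).R.neg ((baseSnoc T n xa xb hx hxa hht hsg hpos hco).R.simple i)) := by
  simp only [Base.R_simple, Base.R_neg, Root.neg_mk, baseSnoc]
  induction i using Fin.lastCases with
  | last => simpa only [Fin.lastCases_last] using ⟨h2.1.2, h2.2.2⟩
  | cast k => simpa only [Fin.lastCases_castSucc] using ⟨(h1 k).1.2, (h1 k).2.2⟩

variable {F G : Type*} [Field F] [Fintype F] [Group G]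

theorem two_gen_C {S : StData (baseC (n + 1)).R F G} (hS : S.Good) (htop : S.grp = ⊤)
    (hq : n = 0 → 2 < Fintype.card F) : ∃ a b : G, Subgroup.closure {a, b} = ⊤ := by
  obtain ⟨w, π, hw, hb, h1, h2, -⟩ := exists_negCycle (baseC (n + 1)) (adm_C _) (Or.inr rfl)
  have un := fun P (hP : (baseC (n + 1)).R.Cl2 w P) => @orbit_un _ _ _ hb (fun k => some (.inl k)) h1 h2
    (fun a => Qp P a a) fun a => hw.qp hP a a
  have fin : ∀ P, (baseC (n + 1)).R.Cl2 w P → P (.mk _ _ (adm_pm _ Fin.zero_ne_one)) → P (.mk _ _ (adm_C 1)) →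
      ∀ i, P ((baseC (n + 1)).R.simple i) ∧ P ((baseC (n + 1)).R.neg ((baseC (n + 1)).R.simple i)) := by
    exact fun P hP p1 p2 => simple_of_qp (orbit_bin hb (f := fun k => some (.inl k)) h1 h2 (hw.qp hP) ⟨_, p1⟩)
      (un P hP ⟨_, p2⟩ (Fin.last _))
  have e0 := h1 0
  rcases lt_or_ge 2 (Fintype.card F) with h | h
  · refine S.two_gen_big htop h hw.1 (c := .mk _ _ (adm_C 0)) ?_ ?_ ?_ ?_ fin <;>
      simp_all [hw.pair, Base.R_pair, Root.w_mk, Root.v_mk, cw_diag]
  obtain ⟨n, rfl⟩ : ∃ k, n = k + 1 := ⟨n - 1, by omega⟩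
  have lg : ∀ i, (baseC (n + 2)).R.Long (.mk _ _ (adm_C i)) := fun i k => by
    induction k using Root.ind with | H a b h _ =>
    simp only [Base.R_len, Root.len_mk, lenP]; split_ifs <;> omega
  refine S.two_gen_two hS htop h hw.1 (r := .mk _ _ (adm_pm _ Fin.zero_ne_one)) (lg 2)
    (by simp [Base.R_pair, Root.w_mk, Root.v_mk, cw_diag, Fin.ext_iff, Nat.mod_eq_of_lt]) fun P hP p1 p2 => ?_
  have u := un P hP ⟨_, p1⟩
  have := p2 _ (lg 1) (by simp [Base.R_pair, Root.w_mk, Root.v_mk, cw_diag]) (u 1).1.2 (Or.inr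
    ⟨by simp [Base.R_pair, Root.w_mk, Root.v_mk, cw], by simpa [Base.refl_mk, Root.refl_mk, piP] using (u 0).1.2⟩)
  refine fin P hP ?_ (u 1).1.2
  simpa [RootSys.refl_refl] using hP.2 _ _ (u 1).1.2 (u 1).2.2 this


theorem two_gen_B {S : StData (baseB (n + 1)).R F G} (htop : S.grp = ⊤) (hq : 2 < Fintype.card F) :
    ∃ a b : G, Subgroup.closure {a, b} = ⊤ := by
  obtain ⟨w, π, hw, hb, h1, h2, h3⟩ := exists_negCycle (baseB (n + 1)) (adm_B _) (Or.inl rfl)
  have e0 : π (some (.inl 0)) = some (.inl 1) := h1 0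
  have e1 := hb (some (.inl (Fin.last _)))
  have h : (0 : Fin (n + 2)) ≠ Fin.last _ := (Fin.last_pos (n := n)).ne
  refine S.two_gen_big htop hq hw.1 (c := .mk _ _ (adm_pm _ h)) (r := .mk _ _ (adm_B 0))
    (s := .mk _ _ (adm_D _ (by decide) h)) ?_ ?_ ?_ ?_ fun P hP p1 p2 => ?_
  iterate 4 simp_all [hw.pair, Base.R_pair, Root.w_mk, Root.v_mk, cw, Pi.single_apply]
  · split_ifs <;> simp
  have q := hw.qp hP
  refine simple_of_qp (orbit_bin hb (f := fun k => some (.inl k)) h1 h2 q ?_)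
    (orbit_un hb (f := fun k => some (.inl k)) h1 h2 (U := fun a => Qp P a none)
      (fun a h => h3 ▸ q a none h) ⟨_, p1⟩ (Fin.last _))
  have := (orbit_bin (π := π) hb (f := fun k => bar (some (.inl k))) (fun k => by rw [hb, h1]) (by rw [hb, h2])
    q (by simpa [e0, h2] using (q _ _ ⟨_, p2⟩).symm) 0).2
  simpa using this

theorem two_gen_D {S : StData (baseD (n + 2)).R F G} (hS : S.Good) (htop : S.grp = ⊤) :
    ∃ a b : G, Subgroup.closure {a, b} = ⊤ := by
  obtain ⟨w, π, hw, hb, h1, h2, h3⟩ := exists_negCycle_D (baseD (n + 2)) (by decide)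
  have e0 : π (some (.inl 0)) = some (.inl 1) := h1 0
  have e1 : π (some (.inr (Fin.last _))) = _ := hb (some (.inl (Fin.last _)))
  have n0 : (0 : Fin (n + 4)) ≠ Fin.last _ := (Fin.last_pos (n := n + 2)).ne
  have n1 : (1 : Fin (n + 4)) ≠ Fin.last _ := by simp [Fin.ext_iff]
  have n2 : (2 : Fin (n + 4)) ≠ Fin.last _ := by simp [Fin.ext_iff, Nat.mod_eq_of_lt]
  have n12 : (1 : Fin (n + 4)) ≠ 2 := by simp [Fin.ext_iff, Nat.mod_eq_of_lt]
  have n02 : (0 : Fin (n + 4)) ≠ 2 := by simp [Fin.ext_iff, Nat.mod_eq_of_lt]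
  have bin := fun P (hP : (baseD (n + 2)).R.Cl2 w P) (p : P (.mk _ _ (adm_pm _ Fin.zero_ne_one))) =>
    orbit_bin hb (f := fun k => some (.inl k.castSucc)) h1 h2 (hw.qp hP) ⟨_, p⟩
  have fin : ∀ P, (baseD (n + 2)).R.Cl2 w P → P (.mk _ _ (adm_pm _ Fin.zero_ne_one)) → P (.mk _ _ (adm_pm _ n0)) →
      ∀ i, P ((baseD (n + 2)).R.simple i) ∧ P ((baseD (n + 2)).R.neg ((baseD (n + 2)).R.simple i)) := by
    intro P hP p1 p2
    have b := bin P hP p1
    have := orbit_un hb (f := fun k => some (.inl k.castSucc)) h1 h2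
      (U := fun a => Qp P a (some (.inl (Fin.last _))) ∧ Qp P a (some (.inr (Fin.last _))))
      (fun a h => ⟨by simpa [e1, h3] using hw.qp hP _ _ h.2, h3 ▸ hw.qp hP _ _ h.1⟩) (i := 1)
      ⟨by simpa [e0, e1, h3] using hw.qp hP _ _ ⟨_, p2⟩, by
        simpa [piP, n0, n1, n0.symm, n1.symm] using Qp.refl hP (by simp) (b 0).1 (b 0).2 ⟨_, p2⟩⟩ (Fin.last _)
    refine simple_of_qp (fun k => ?_) ⟨this.1.1, this.2.2⟩
    induction k using Fin.lastCases with
    | last => exact ⟨this.1.2, this.2.1⟩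
    | cast k => exact b k
  rcases lt_or_ge 2 (Fintype.card F) with h | h
  · refine S.two_gen_big htop h hw.1 (c := .mk _ _ (adm_D _ (by decide) n0)) ?_ ?_ ?_ ?_ fin <;>
      simp_all [hw.pair, Base.R_pair, Root.w_mk, Root.v_mk, cw]
  have lg : ∀ r, (baseD (n + 2)).R.Long r := fun r k => by
    induction r using Root.ind with | H c d h' _ =>
    induction k using Root.ind with | H a b h _ =>
    simp only [Base.R_len, Root.len_mk, lenP]
    grind [adm]
  refine S.two_gen_two hS htop h hw.1 (r := .mk _ _ (adm_pm _ n2)) (lg (.mk _ _ (adm_pm _ Fin.zero_ne_one)))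
    (by simp [Base.R_pair, Root.w_mk, Root.v_mk, cw, n1, n02, n12]) fun P hP p1 p2 => ?_
  have b := bin P hP p1
  have := p2 (.mk _ _ (adm_pm _ n12)) (lg _) (by simp [Base.R_pair, Root.w_mk, Root.v_mk, cw,
    n1, n2, n12]) (b 1).1.2 (Or.inl (lg _))
  rw [Base.refl_mk _ _ (by simp), Root.refl_mk] at this
  refine fin P hP p1 (Exists.snd (p := fun h => P (.mk _ _ h)) ?_)
  change Qp P _ _
  simpa [piP, n0, n1, n2, n12, n0.symm, n1.symm, n2.symm, n12.symm] using
    Qp.refl hP (by simp) (b 0).1 (b 0).2 ⟨_, this⟩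

end CL.Chev.Cl
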