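import Cfsg.Agent.KSG.ShortGenSL
import Cfsg.Agent.CHEV.Rank2
import Cfsg.Agent.CHEV.LiftMain
import Cfsg.Agent.CHEV.TorHom
import Cfsg.Agent.CHEV.CTApp

/-!
Steinberg's pairs of generators for finite groups with root elements.
-/

set_option autoImplicit false
set_option linter.unusedSectionVars false
set_option maxHeartbeats 400000

namespace CL.Chev

open CL.KSG

variable {ι κ : Type*} [Fintype κ] [DecidableEq κ] {R : RootSys ι κ} {F G : Type*} [Field F] [Group G]

/-- a set of roots closed under `w` and under the reflections in its symmetric part -/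
def RootSys.Cl2 (R : RootSys ι κ) (w : Equiv.Perm ι) (P : ι → Prop) : Prop :=
  (∀ r, P r → P (w r)) ∧ ∀ r s, P r → P (R.neg r) → P s → P (R.refl r s)

theorem gen_poly_zpow [Fintype F] {ζ : Fˣ} (hζ : ∀ u, u ∈ Subgroup.zpowers ζ) {k : ℤ}
    (hk : k.natAbs = 1 ∨ k.natAbs = 2) (t : F) : ∃ f : Polynomial ℤ, Polynomial.aeval ((ζ : F) ^ k) f = t := by
  obtain ⟨n, rfl | rfl⟩ := Int.eq_nat_or_neg k
  · simpa using gen_poly_pow hζ (e := n) (by omega) (by omega) t
  · simpa using gen_poly_pow (ζ := ζ⁻¹) (by simpa using hζ) (e := n) (by omega) (by omega) t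

namespace StData

variable (S : StData R F G)

theorem mem_of_acts {K : Subgroup G} {g : G} {w : Equiv.Perm ι} (hg : g ∈ K) (ha : S.Acts g w) {r : ι}
    (h : ∀ t, S.x r t ∈ K) (t : F) : S.x (w r) t ∈ K := by
  obtain ⟨c, hc, e⟩ := ha.exists_conj r
  rw [← mul_inv_cancel_left₀ hc t, ← e]
  exact mul_mem (mul_mem hg (h _)) (inv_mem hg)

theorem cl2 {K : Subgroup G} {g : G} {w : Equiv.Perm ι} (hg : g ∈ K) (ha : S.Acts g w) :
    R.Cl2 w fun r => ∀ t, S.x r t ∈ K :=
  ⟨fun _ => S.mem_of_acts hg ha, fun r _ h h' =>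
    S.mem_of_acts (mul_mem (mul_mem (h _) (h' _)) (h _)) (S.acts_n r one_ne_zero)⟩

theorem eq_top_of_simple (htop : S.grp = ⊤) {K : Subgroup G}
    (h : ∀ i, (∀ t, S.x (R.simple i) t ∈ K) ∧ ∀ t, S.x (R.neg (R.simple i)) t ∈ K) : K = ⊤ := by
  rw [eq_top_iff, ← htop, grp, ← R.sub_univ]
  exact S.XS_sub_le fun k _ t => ⟨(h k).1 t, (h k).2 t⟩

theorem x_pow (r : ι) (t : F) (k : ℕ) : S.x r t ^ k = S.x r (k * t) := by
  induction k with
  | zero => simp [S.x_zero]
  | succ k ih => rw [pow_succ, ih, ← S.x_add]; congr 1; push_cast; ring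

theorem two_gen_big [Fintype F] (htop : S.grp = ⊤) (hq : 2 < Fintype.card F) {w : Equiv.Perm ι} (hw : w ∈ R.W)
    {r s c : ι} (h1 : R.pair c s = 0) (h2 : (R.pair c r).natAbs = 1) (h3 : (R.pair (w c) r).natAbs = 1)
    (h4 : (R.pair (w c) s).natAbs = 1 ∨ (R.pair (w c) s).natAbs = 2)
    (hP : ∀ P, R.Cl2 w P → P r → P s → ∀ i, P (R.simple i) ∧ P (R.neg (R.simple i))) :
    ∃ a b : G, Subgroup.closure {a, b} = ⊤ := by
  obtain ⟨ζ, hζ⟩ := IsCyclic.exists_generator (α := Fˣ)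
  obtain ⟨g, -, ha⟩ := S.exists_acts hw
  have h0 := ζ.ne_zero
  have hz : ∀ {k : ℤ}, k.natAbs = 1 → (ζ : F) ^ k ≠ 1 := fun {k} hk e => by
    have : (ζ : F) ^ 1 = 1 := by
      rcases Int.natAbs_eq k with e' | e' <;> rw [e', hk] at e <;> simpa using e
    have := Nat.le_of_dvd one_pos ((card_sub_one_dvd_of_gen hζ).1 this)
    omega
  refine ⟨S.h c ζ * S.x s 1, S.x r 1 * g, ?_⟩
  set K := Subgroup.closure {S.h c ζ * S.x s 1, S.x r 1 * g}
  have ma : S.h c ζ * S.x s 1 ∈ K := Subgroup.subset_closure (Or.inl rfl)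
  have mh : S.h c ζ ∈ K := by
    have hc : Commute (S.h c ζ) (S.x s 1) := by
      have := S.h_conj c s h0 1
      rwa [h1, zpow_zero, one_mul, mul_inv_eq_iff_eq_mul] at this
    have := pow_mem ma (Fintype.card F)
    rwa [hc.mul_pow, x_pow, FiniteField.cast_card_eq_zero, zero_mul, S.x_zero, mul_one,
      ← S.R3_of_finite.hHom_apply, ← map_pow, show ζ ^ Fintype.card F = ζ from
        Units.ext (by simp [FiniteField.pow_card])] at this
  have e := S.R3_of_finite.conj_h ha c h0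
  obtain ⟨p1, p2⟩ := addx_mem_of_pair (S.x_add r) mh (Subgroup.subset_closure (Or.inr rfl))
    (gen_poly_zpow hζ (Or.inl h2)) (hz h2) (hz h3) (S.h_conj c r h0) (by rw [e]; exact S.h_conj _ r h0)
    (by rw [e]; exact S.R3_of_finite.h_commute _ _ h0 h0)
  exact S.eq_top_of_simple htop (hP _ (S.cl2 p2 ha) p1 (addx_mem_of_conj (S.x_add s)
    (e ▸ mul_mem (mul_mem p2 mh) (inv_mem p2)) (gen_poly_zpow hζ h4) (S.h_conj _ s h0) one_ne_zero
    ((mul_mem_cancel_left mh).1 ma)))

theorem two_gen_two [Finite ι] [Fintype F] (hS : S.Good) (htop : S.grp = ⊤) (hq : Fintype.card F ≤ 2)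
    {w : Equiv.Perm ι} (hw : w ∈ R.W) {r s : ι} (h1 : R.Long s) (h2 : R.pair s r = 0)
    (hP : ∀ P, R.Cl2 w P → P s → (∀ d, R.Long d → R.pair d r = -1 → P d →
      (R.Long r ∨ R.pair r d = -2 ∧ P (R.refl r d)) → P (R.refl d r)) →
      ∀ i, P (R.simple i) ∧ P (R.neg (R.simple i))) :
    ∃ a b : G, Subgroup.closure {a, b} = ⊤ := by
  obtain ⟨g, -, ha⟩ := S.exists_acts hw
  have h20 : ((2 : ℕ) : F) = 0 := by
    have := Fintype.one_lt_card (α := F)
    rw [← FiniteField.cast_card_eq_zero F, show Fintype.card F = 2 by omega]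
  have sq : ∀ r, S.x r 1 * S.x r 1 = 1 := fun r => by rw [← sq, x_pow, h20, zero_mul, S.x_zero]
  have m1 : (-1 : F) = 1 := by push_cast at h20; linear_combination -h20
  set y := S.x r 1 * S.x (R.neg r) 1 with hy
  refine ⟨S.x s 1 * y, g, ?_⟩
  set K := Subgroup.closure {S.x s 1 * y, g}
  have ma : S.x s 1 * y ∈ K := Subgroup.subset_closure (Or.inl rfl)
  have ms : S.x s 1 ∈ K := by
    have hc : Commute (S.x s 1) y := (S.commute_of_noComb (h1.noComb h2.ge) _ _).mul_right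
      (S.commute_of_noComb (h1.noComb (by rw [R.pair_neg_right, h2]; rfl)) _ _)
    have y3 : y ^ 3 = 1 := by
      have := S.n_conj_self r one_ne_zero 1
      simp only [n, inv_one, m1, one_pow, mul_one, mul_inv_eq_iff_eq_mul] at this
      rw [mul_assoc, sq, mul_one] at this
      calc y ^ 3 = S.x r 1 * (S.x (R.neg r) 1 * (y * S.x r 1)) * S.x (R.neg r) 1 := by
            simp only [hy, pow_succ, pow_zero, one_mul, mul_assoc]
        _ = 1 := by rw [← this, ← mul_assoc, sq, one_mul, sq]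
    have := pow_mem ma 3
    rwa [hc.mul_pow, y3, mul_one, pow_succ, pow_two, sq, one_mul] at this
  have my : y ∈ K := (mul_mem_cancel_left ms).1 ma
  have al : ∀ {k} {u : F}, u ≠ 0 → S.x k u ∈ K → ∀ t, S.x k t ∈ K := fun {k u} hu h =>
    addx_mem_of_card (S.x_add k) (by omega) (by
      have := FiniteField.pow_card_sub_one_eq_one u hu
      have := Fintype.one_lt_card (α := F)
      rw [show Fintype.card F - 1 = 1 by omega, pow_one] at *
      simp_all)
  refine S.eq_top_of_simple htop (hP _ (S.cl2 (Subgroup.subset_closure (Or.inr rfl)) ha) (al one_ne_zero ms)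
    fun d d1 d2 d3 d4 => ?_)
  have key : S.x r 1 * S.x d 1 * (S.x r 1)⁻¹ ∈ K := by
    have := mul_mem (mul_mem my (d3 1)) (inv_mem my)
    rwa [hy, mul_assoc (S.x r 1), ← S.comm_of_noComb (d1.noComb (by rw [R.pair_neg_right, d2]; decide)),
      mul_inv_rev, ← mul_assoc, ← mul_assoc, mul_inv_cancel_right] at this
  rcases d4 with d4 | ⟨d4, d5⟩
  · obtain ⟨ε, hε, e⟩ := hS.A2_conj (d4.a2P d1 (s := R.refl d r) (by rw [d4.pair_symm d1, d2])
      (by rw [RootSys.rt_refl_of_neg_one d2, add_comm]))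
    rw [e, mul_mem_cancel_left (d3 1)] at key
    exact al (by rcases hε with rfl | rfl <;> simp) key
  · obtain ⟨ε, δ, hε, -, e, -⟩ := hS.B2_conj (RootSys.b2P_refl d4 d2)
    rw [e, mul_mem_cancel_right (d5 _), mul_mem_cancel_left (d3 1)] at key
    exact al (by rcases hε with rfl | rfl <;> simp) key

end StData

end CL.Chev
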