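import Mathlib

/-!
Binomial coefficients without small prime factors (a weak form of Ecklund's theorem).
-/

set_option autoImplicit false

namespace CL.HallSym

open Finset

theorem coprime_of_le {d C x : ℕ} (hC : ∀ p, p.Prime → p ≤ d → ¬ p ∣ C)
    (hx : ∀ p, p.Prime → p ∣ x → p ≤ d) : x.Coprime C :=
  Nat.coprime_of_dvd fun p hp h => hC p hp (hx p hp h)

theorem coprime_of_even {d C u : ℕ} (hC : ∀ p, p.Prime → p ≤ d → ¬ p ∣ C) (h0 : 0 < u)
    (h1 : u ≤ d) (h2 : 2 ≤ d) : (2 * u).Coprime C :=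
  coprime_of_le hC fun _ hp h => ((Nat.Prime.dvd_mul hp).1 h).elim
    (fun h => (Nat.le_of_dvd two_pos h).trans h2) fun h => (Nat.le_of_dvd h0 h).trans h1

theorem asc_split (e t : ℕ) : (2 * e + 1).ascFactorial (2 * t + 1) =
    (∏ j ∈ range (t + 1), (2 * e + 1 + 2 * j)) * (2 ^ t * (e + 1).ascFactorial t) := by
  induction t with
  | zero => simp [Nat.ascFactorial_succ]
  | succ t ih =>
    rw [show 2 * (t + 1) + 1 = 2 * t + 1 + 1 + 1 by ring, Nat.ascFactorial_succ,
      Nat.ascFactorial_succ, ih, prod_range_succ _ (t + 1), Nat.ascFactorial_succ]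
    ring

theorem odd_dvd_prod {w k : ℕ} (h : 2 * w + 1 ∣ k.factorial) (e : ℕ) :
    2 * w + 1 ∣ ∏ j ∈ range k, (2 * e + 1 + 2 * j) := by
  have h1 := (ZMod.natCast_eq_zero_iff _ _).2
    ((h.trans (Nat.factorial_dvd_ascFactorial (e + w + 1) k)).mul_left (2 ^ k))
  rw [← ZMod.natCast_eq_zero_iff, ← h1, Nat.ascFactorial_eq_prod_range, ← card_range k,
    ← prod_const, card_range, ← prod_mul_distrib, Nat.cast_prod, Nat.cast_prod]
  refine prod_congr rfl fun j _ => ?_
  rw [show 2 * (e + w + 1 + j) = 2 * e + 1 + 2 * j + (2 * w + 1) by ring, Nat.cast_add _ (2 * w + 1),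
    ZMod.natCast_self, add_zero]

theorem choose_small {d k : ℕ} (hk : 2 ≤ k) (hkd : k < d)
    (hC : ∀ p, p.Prime → p ≤ d → ¬ p ∣ (d + k).choose k) : d = 4 ∧ k = 3 := by
  obtain ⟨k, rfl⟩ := Nat.exists_eq_add_of_le' hk
  have i1 := Nat.choose_succ_right_eq (d + (k + 2)) (k + 1)
  have i2 := Nat.choose_succ_right_eq (d + (k + 2)) k
  have i3 := Nat.add_one_mul_choose_eq (d + (k + 1)) (k + 1)
  rw [show d + (k + 2) - (k + 1) = d + 1 by omega] at i1
  rw [show d + (k + 2) - k = d + 2 by omega] at i2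
  obtain ⟨e, rfl | rfl⟩ := Nat.even_or_odd' d
  swap
  · have := Nat.le_of_dvd (by omega) ((coprime_of_even (u := e + 1) hC (by omega) (by omega)
      (by omega)).dvd_of_dvd_mul_left ⟨_, i1.trans (mul_comm _ _)⟩)
    omega
  obtain ⟨t, rfl | rfl⟩ := Nat.even_or_odd' k
  · have := Nat.le_of_dvd (by omega) ((coprime_of_even (u := e + t + 1) hC (by omega) (by omega)
      (by omega)).dvd_of_dvd_mul_left ⟨_, i3.symm.trans (by congr 1; ring)⟩)
    omega
  by_cases he : e = t + 2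
  · subst he
    have h1 : 2 * (t + 3) ∣ (2 * t + 3) * (2 * t + 2) :=
      (coprime_of_even (u := t + 3) hC (by omega) (by omega) (by omega)).dvd_of_dvd_mul_left
      ⟨(2 * (t + 2) + (2 * t + 1 + 2)).choose (2 * t + 1) * (2 * t + 5), by
        linear_combination (2 * t + 2) * i1 + (2 * t + 5) * i2⟩
    have h2 : 2 * (t + 3) ∣ 12 := by
      zify at h1 ⊢
      have := h1.sub (Dvd.intro (2 * t - 1 : ℤ) rfl)
      rwa [show (2 * t + 3) * (2 * t + 2) - 2 * (t + 3) * (2 * t - 1) = (12 : ℤ) by ring] at this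
    have := Nat.le_of_dvd (by norm_num) h2
    have : t ≤ 3 := by omega
    interval_cases t
    · simp
    · omega
    · omega
    · exact absurd (by decide) (hC 2 Nat.prime_two (by norm_num))
  exfalso
  obtain ⟨v, u, ⟨w, rfl⟩, hu⟩ := Nat.exists_eq_two_pow_mul_odd (t + 2).factorial_ne_zero
  have hv : v ≤ t + 1 := by
    have := Nat.emultiplicity_two_factorial_lt (n := t + 2) (by omega)
    have h2 := (le_emultiplicity_of_pow_dvd (a := 2) (k := v) ⟨_, hu⟩).trans_lt this
    have : v < t + 2 := by exact_mod_cast h2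
    omega
  have h1 := Nat.ascFactorial_eq_factorial_mul_choose (2 * e) (2 * (t + 1) + 1)
  rw [asc_split] at h1
  obtain ⟨W, hW⟩ := odd_dvd_prod (w := w) (k := t + 2) ⟨2 ^ v, by rw [hu, mul_comm]⟩ e
  change ∀ p, p.Prime → p ≤ 2 * e → ¬ p ∣ (2 * e + (2 * (t + 1) + 1)).choose (2 * (t + 1) + 1)
    at hC
  generalize (2 * e + (2 * (t + 1) + 1)).choose (2 * (t + 1) + 1) = C at hC h1
  have hC0 : C ≠ 0 := by rintro rfl; exact hC 2 Nat.prime_two (by omega) (dvd_zero _)
  have c1 : (2 ^ (t + 1) * (e + 1).ascFactorial (t + 1)).Coprime C := by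
    refine Nat.Coprime.mul_left ((coprime_of_even (u := 1) hC one_pos (by omega)
      (by omega)).pow_left _) ?_
    rw [Nat.ascFactorial_eq_prod_range]
    exact Nat.Coprime.prod_left fun i hi => coprime_of_le hC fun p _ h =>
      (Nat.le_of_dvd (by omega) h).trans (by have := mem_range.1 hi; omega)
  have c2 : (2 * w + 1).Coprime C := coprime_of_le hC fun p hp h =>
    ((hp.dvd_factorial (n := t + 2)).1 (h.trans ⟨2 ^ v, by rw [hu, mul_comm]⟩)).trans (by omega)
  rw [show t + 1 + 1 = t + 2 from rfl, hW] at h1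
  obtain ⟨W, rfl⟩ := c2.symm.dvd_of_dvd_mul_left (c1.symm.dvd_of_dvd_mul_right
    ⟨_, h1.trans (mul_comm _ _)⟩)
  have h2 := Nat.factorial_mul_ascFactorial (t + 2) (t + 1)
  rw [show t + 2 + (t + 1) = 2 * (t + 1) + 1 by ring, hu] at h2
  have h3 : (t + 2 + 1).ascFactorial (t + 1) < (e + 1).ascFactorial (t + 1) := by
    rw [Nat.ascFactorial_eq_prod_range, Nat.ascFactorial_eq_prod_range]
    exact prod_lt_prod_of_nonempty (fun _ _ => by omega) (fun _ _ => by omega) (by simp)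
  have h4 : W * (2 ^ (t + 1) * (e + 1).ascFactorial (t + 1)) =
      2 ^ v * (t + 2 + 1).ascFactorial (t + 1) := by
    refine Nat.eq_of_mul_eq_mul_left (Nat.mul_pos (show 0 < 2 * w + 1 by omega)
      (Nat.pos_of_ne_zero hC0)) ?_
    rw [← h2] at h1
    linear_combination h1
  have h5 : 0 < W := Nat.pos_of_ne_zero (by
    rintro rfl
    rw [zero_mul, eq_comm] at h4
    exact (Nat.mul_pos (Nat.two_pow_pos v) (Nat.ascFactorial_pos _ _)).ne' h4)
  have h6 := Nat.mul_lt_mul_of_le_of_lt (Nat.pow_le_pow_right two_pos hv) h3 (Nat.two_pow_pos _)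
  exact (h6.trans_le (Nat.le_mul_of_pos_left _ h5)).ne' h4

end CL.HallSym
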