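import Mathlib
import Cfsg.Agent.KSG.AltAb
import Cfsg.Agent.SOLV.PiSep
import Cfsg.Agent.KSG.HallSymNT

/-!
Hall subgroups of symmetric and alternating groups, I: index tools.
-/

set_option autoImplicit false

namespace CL.HallSym

open Equiv Equiv.Perm Subgroup MulAction CL.KSG
open scoped Pointwise

section general

variable {G : Type*} [Group G] [Finite G]

theorem exists_conj_mem {p : ℕ} [Fact p.Prime] {Q H K : Subgroup G} (hQ : IsPGroup p Q)
    (hQK : Q ≤ K) (h : ¬ p ∣ H.relIndex K) : ∃ g ∈ K, ∀ x ∈ Q, g * x * g⁻¹ ∈ H := by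
  obtain ⟨y, hy⟩ := (hQ.comap_subtype (K := K)).nonempty_fixed_point_of_prime_not_dvd_card
    (K ⧸ H.subgroupOf K) h
  obtain ⟨g, rfl⟩ := QuotientGroup.mk_surjective y
  refine ⟨g⁻¹, K.inv_mem g.2, fun x hx => ?_⟩
  have := QuotientGroup.eq.1 (hy ⟨⟨x, hQK hx⟩, hx⟩).symm
  simpa [mem_subgroupOf, mul_assoc] using! this

theorem relIndex_dvd_of_normalizer {N K A H : Subgroup G} (hNK : N ≤ K) (hKA : K ≤ A)
    (hn : K ≤ normalizer (N : Set G)) (hH : H ⊓ A ≤ K) : H.relIndex N ∣ H.relIndex A := by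
  have := (normal_subgroupOf_iff_le_normalizer hNK).2 hn
  have h1 := CL.relIndex_normal_dvd_index (H.subgroupOf K) (N.subgroupOf K)
  rw [relIndex_subgroupOf hNK] at h1
  refine h1.trans ?_
  rw [← inf_relIndex_right H A, ← relIndex_mul_relIndex _ _ _ hH hKA]
  refine Dvd.dvd.mul_right (dvd_of_eq ?_) _
  rw [← inf_relIndex_right (H ⊓ A), inf_assoc, inf_eq_right.2 hKA, inf_relIndex_right]
  rfl

omit [Finite G] in
theorem relIndex_fixing_dvd' {X : Type*} [MulAction G X] (N : Subgroup G) (S : Finset X)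
    (hS : ∀ g ∈ N, ∀ x ∈ S, g • x ∈ S) :
    (fixingSubgroup G (S : Set X)).relIndex N ∣ S.card.factorial := by
  classical
  have h1 : ∀ g : N, ∀ x, toPerm g.1 x ∈ S ↔ x ∈ S := fun g x =>
    ⟨fun h => by simpa using hS _ (inv_mem g.2) _ h, hS _ g.2 x⟩
  let φ : N →* Perm S := MonoidHom.mk' (fun g => (toPerm g.1).subtypePerm (h1 g))
    (fun a b => Equiv.ext fun y => Subtype.ext (mul_smul a.1 b.1 y.1))
  have h2 : φ.ker = (fixingSubgroup G (S : Set X)).subgroupOf N := by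
    ext g
    rw [MonoidHom.mem_ker, mem_subgroupOf, mem_fixingSubgroup_iff]
    exact ⟨fun h y hy => congrArg (fun σ : Perm S => (σ ⟨y, hy⟩).1) h,
      fun h => Equiv.ext fun y => Subtype.ext (h y.1 y.2)⟩
  rw [relIndex, ← h2, index_ker, ← Fintype.card_coe, ← Fintype.card_perm, ← Nat.card_eq_fintype_card]
  exact card_subgroup_dvd_card _

end general

variable {α : Type*} [Fintype α] [DecidableEq α]

theorem card_dvd_prod (B : Finset (Finset α)) (L : Subgroup (Perm α))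
    (h1 : L ≤ permOn (B.biUnion id)) (h2 : ∀ g ∈ L, ∀ S ∈ B, ∀ x ∈ S, g x ∈ S) :
    Nat.card L ∣ ∏ S ∈ B, S.card.factorial := by
  induction B using Finset.induction_on generalizing L with
  | empty =>
    rw [show L = ⊥ from eq_bot_iff.2 fun g hg => Equiv.ext fun x => mem_permOn.1 (h1 hg) x (by simp),
      card_bot]
    exact one_dvd _
  | insert S B hS ih =>
    rw [Finset.prod_insert hS, ← card_inf_mul_relIndex (fixingSubgroup (Perm α) (S : Set α)),
      mul_comm]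
    refine mul_dvd_mul (relIndex_fixing_dvd' L S fun g hg => h2 g hg S (by simp))
      (ih _ (fun g hg => mem_permOn.2 fun x hx => ?_) fun g hg T hT => h2 g hg.2 T (by simp [hT]))
    by_cases hxS : x ∈ S
    · exact (mem_fixingSubgroup_iff _).1 hg.1 x hxS
    · exact mem_permOn.1 (h1 hg.2) x (by simpa [hxS] using hx)

theorem card_dvd_prod' (B : Finset (Finset α)) (L : Subgroup (Perm α))
    (h1 : L ≤ permOn (B.biUnion id)) (h2 : ∀ g ∈ L, ∀ S ∈ B, g • S ∈ B) :
    Nat.card L ∣ (∏ S ∈ B, S.card.factorial) * B.card.factorial := by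
  rw [← card_inf_mul_relIndex (fixingSubgroup (Perm α) (B : Set (Finset α)))]
  exact mul_dvd_mul (card_dvd_prod B _ (inf_le_right.trans h1) fun g hg S hS x hx =>
    (mem_fixingSubgroup_iff _).1 hg.1 S hS ▸ Finset.smul_mem_smul_finset (a := g) hx)
    (relIndex_fixing_dvd' L B h2)

theorem dvd_relIndex {H L : Subgroup (Perm α)} {Γ : Finset α} (hA : ¬ L ≤ alternatingGroup α)
    (hH : H ⊓ altOn Γ ≤ L) (h2 : 2 ≤ Γ.card) {N U : ℕ} (hN : Nat.card L ∣ N)
    (hU : U * N = Γ.card.factorial) : U ∣ H.relIndex (altOn Γ) := by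
  obtain ⟨w, hw⟩ := card_dvd_of_le (le_inf (inf_le_right.trans inf_le_right) hH :
    H ⊓ altOn Γ ≤ alternatingGroup α ⊓ L)
  obtain ⟨v, rfl⟩ := hN
  rw [← two_mul_card_altOn h2, ← card_inf_mul_relIndex H (altOn Γ),
    ← card_inf_mul_relIndex (alternatingGroup α) L, relIndex_alt_eq_two hA, hw] at hU
  refine ⟨w * v, Nat.eq_of_mul_eq_mul_left (Nat.mul_pos two_pos
    (Nat.card_pos (α := ↥(H ⊓ altOn Γ)))) ?_⟩
  linear_combination hU.symm

omit [Fintype α] in
theorem smul_eq_of_inv {g : Perm α} {Γ : Finset α} (h : ∀ x ∈ Γ, g x ∈ Γ) : g • Γ = Γ :=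
  Finset.eq_of_subset_of_card_le (fun _ hy => by
    obtain ⟨x, hx, rfl⟩ := Finset.mem_smul_finset.1 hy
    exact h x hx) (Finset.card_smul_finset g Γ).ge

theorem conj_mem_permOn {g x : Perm α} {S : Finset α} (hx : x ∈ permOn S) :
    g * x * g⁻¹ ∈ permOn (g • S) :=
  mem_permOn.2 fun y hy => by
    rw [mul_apply, mul_apply, mem_permOn.1 hx (g⁻¹ y) fun h => hy (Finset.inv_smul_mem_iff.1 h)]
    simp

theorem conj_mem_altOn {g x : Perm α} {S : Finset α} (hx : x ∈ altOn S) :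
    g * x * g⁻¹ ∈ altOn (g • S) :=
  ⟨conj_mem_permOn hx.1, (alternatingGroup.normal).conj_mem _ hx.2 _⟩

theorem swap_mem_permOn {S : Finset α} {a b : α} (ha : a ∈ S) (hb : b ∈ S) : swap a b ∈ permOn S :=
  mem_permOn.2 fun _ hx => swap_apply_of_ne_of_ne (fun h => hx (h ▸ ha)) fun h => hx (h ▸ hb)

theorem swap_swap_mem_altOn {S : Finset α} {a b c d : α} (ha : a ∈ S) (hb : b ∈ S) (hc : c ∈ S)
    (hd : d ∈ S) (hab : a ≠ b) (hcd : c ≠ d) : swap a b * swap c d ∈ altOn S :=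
  ⟨mul_mem (swap_mem_permOn ha hb) (swap_mem_permOn hc hd),
    mul_mem_alternatingGroup_of_isSwap ⟨a, b, hab, rfl⟩ ⟨c, d, hcd, rfl⟩⟩

theorem swap_notMem_alt {a b : α} (h : a ≠ b) : swap a b ∉ alternatingGroup α := by
  simp [h]

/-- The properties of a Hall subgroup that are used. -/
structure Hyp (π : Set ℕ) (H : Subgroup (Perm α)) : Prop where
  card : ∀ p, p.Prime → p ∣ Nat.card H → p ∈ π
  idx : ∀ p, p.Prime → p ∈ π → ¬ p ∣ H.relIndex (alternatingGroup α)

namespace Hyp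

variable {π : Set ℕ} {H : Subgroup (Perm α)} (h : Hyp π H)
include h

theorem loc {Γ : Finset α} (hΓ : ∀ g ∈ H, ∀ x ∈ Γ, g x ∈ Γ) {p : ℕ} (hp : p.Prime) (hπ : p ∈ π) :
    ¬ p ∣ H.relIndex (altOn Γ) := fun hd => h.idx p hp hπ (hd.trans
  (relIndex_dvd_of_normalizer (K := stabilizer (Perm α) Γ ⊓ alternatingGroup α)
    (fun g hg => ⟨smul_eq_of_inv fun _ => apply_mem_of_mem_permOn hg.1, hg.2⟩) inf_le_right
    (fun g hg => mem_normalizer_fintype fun x hx => by
      simpa only [mem_stabilizer_iff.1 hg.1] using! conj_mem_altOn (g := g) hx)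
    fun g hg => ⟨smul_eq_of_inv (hΓ g hg.1), hg.2⟩))

theorem choose {S T : Finset α} (hS : ∀ g ∈ H, ∀ x ∈ S, g x ∈ S) (hT : ∀ g ∈ H, ∀ x ∈ T, g x ∈ T)
    (hd : Disjoint S T) (h2 : 2 ≤ S.card) {p : ℕ} (hp : p.Prime) (hπ : p ∈ π) :
    ¬ p ∣ (S.card + T.card).choose T.card := by
  have hne : S ≠ T := by
    rintro rfl
    rw [disjoint_self.1 hd] at h2
    simp at h2
  obtain ⟨a, ha, b, hb, hab⟩ := Finset.one_lt_card.1 h2
  have hab' := swap_mem_permOn ha hb
  refine fun hd' => h.loc (Γ := S ∪ T) (fun g hg x hx => Finset.mem_union.2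
    ((Finset.mem_union.1 hx).imp (hS g hg x) (hT g hg x))) hp hπ (hd'.trans (dvd_relIndex
    (L := permOn (S ∪ T) ⊓ (stabilizer (Perm α) S ⊓ stabilizer (Perm α) T))
    (fun h' => swap_notMem_alt hab (h' ⟨permOn_mono Finset.subset_union_left hab',
      smul_eq_of_inv fun _ => apply_mem_of_mem_permOn hab', smul_eq_of_inv fun x hx => by
        rwa [mem_permOn.1 hab' x (Finset.disjoint_right.1 hd hx)]⟩))
    (fun g hg => ⟨hg.2.1, smul_eq_of_inv (hS g hg.1), smul_eq_of_inv (hT g hg.1)⟩)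
    (h2.trans (Finset.card_le_card Finset.subset_union_left))
    (card_dvd_prod {S, T} _ (by simp) fun g hg U hU x hx => ?_) ?_))
  · rcases Finset.mem_insert.1 hU with rfl | hU
    · exact hg.2.1 ▸ Finset.smul_mem_smul_finset (a := g) hx
    · rw [Finset.mem_singleton.1 hU] at hx ⊢
      exact hg.2.2 ▸ Finset.smul_mem_smul_finset (a := g) hx
  · rw [Finset.prod_pair hne, Finset.card_union_of_disjoint hd, ← mul_assoc,
      Nat.add_choose_mul_factorial_mul_factorial]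

theorem bell {B : Finset (Finset α)} (hB : ∀ g ∈ H, ∀ S ∈ B, g • S ∈ B)
    (hd : (B : Set (Finset α)).PairwiseDisjoint id) {s : ℕ} (hs : ∀ S ∈ B, S.card = s) (h2 : 2 ≤ s)
    (hne : B.Nonempty) {p : ℕ} (hp : p.Prime) (hπ : p ∈ π) : ¬ p ∣ B.card.uniformBell s := by
  obtain ⟨S, hS⟩ := hne
  obtain ⟨a, ha, b, hb, hab⟩ := Finset.one_lt_card.1 (h2.trans (hs S hS).ge)
  have hab' := swap_mem_permOn ha hb
  have hsub : S ⊆ B.biUnion id := Finset.subset_biUnion_of_mem id hS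
  have st : ∀ g : Perm α, (∀ S ∈ B, g • S ∈ B) → g ∈ stabilizer (Perm α) B := fun g hg =>
    Finset.eq_of_subset_of_card_le (fun _ hy => by
      obtain ⟨x, hx, rfl⟩ := Finset.mem_smul_finset.1 hy
      exact hg x hx) (Finset.card_smul_finset g B).ge
  refine fun hd' => h.loc (Γ := B.biUnion id) (fun g hg x hx => ?_) hp hπ (hd'.trans (dvd_relIndex
    (L := permOn (B.biUnion id) ⊓ stabilizer (Perm α) B)
    (fun h' => swap_notMem_alt hab (h' ⟨permOn_mono hsub hab', st _ fun T hT => ?_⟩))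
    (fun g hg => ⟨hg.2.1, st g (hB g hg.1)⟩)
    ((h2.trans (hs S hS).ge).trans (Finset.card_le_card hsub))
    (card_dvd_prod' B _ inf_le_left fun g hg T hT =>
      hg.2 ▸ Finset.smul_mem_smul_finset (a := g) hT) ?_))
  · obtain ⟨T, hT, hx⟩ := Finset.mem_biUnion.1 hx
    exact Finset.mem_biUnion.2 ⟨_, hB g hg T hT, Finset.smul_mem_smul_finset (a := g) hx⟩
  · rw [smul_eq_of_inv fun x hx => ?_]
    · exact hT
    rcases eq_or_ne S T with rfl | hST
    · exact apply_mem_of_mem_permOn hab' hx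
    · rwa [mem_permOn.1 hab' x (Finset.disjoint_right.1 (hd hS hT hST) hx)]
  · rw [Finset.card_biUnion hd, Finset.prod_congr rfl fun T hT => by rw [hs T hT],
      Finset.sum_congr rfl (f := fun u : Finset α => (id u).card) hs, Finset.prod_const, Finset.sum_const, smul_eq_mul, ← mul_assoc,
      Nat.uniformBell_mul_eq _ (by omega)]

end Hyp

end CL.HallSym
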