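import Mathlib
import Cfsg.Agent.KSG.HallSym1
import Cfsg.Agent.KSG.AltInvol
import Cfsg.Agent.FGS.SemiReg
import Cfsg.Agent.PERM.InvTools

/-!
Hall subgroups of symmetric and alternating groups, II: two primes force `2` and `3`.
-/

set_option autoImplicit false

namespace CL.HallSym

open Equiv Equiv.Perm Subgroup MulAction CL.KSG
open scoped Pointwise

variable {α : Type*} [Fintype α] [DecidableEq α]

theorem le_card_of_pow {g : Perm α} {q : ℕ} (hq : q.Prime) (hg : g ^ q = 1) {z : α} (hz : g z ≠ z)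
    {S : Finset α} (hS : g • S = S) (hzS : z ∈ S) : q ≤ S.card := by
  have := Fact.mk hq
  have h1 := CL.SR.relIndex_stabilizer_le_ncard (H := zpowers g) (S := (S : Set α))
    (fun k hk x hx => (mem_stabilizer_iff.1 ((zpowers_le (H := stabilizer (Perm α) S)).2 hS hk)) ▸
      Finset.smul_mem_smul_finset (a := k) hx) hzS
  have h2 := relIndex_dvd_card (stabilizer (Perm α) z) (zpowers g)
  rw [Nat.card_zpowers, orderOf_eq_prime hg (by rintro rfl; exact hz rfl), Nat.dvd_prime hq] at h2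
  rw [h2.resolve_left fun e => hz (relIndex_eq_one.1 e (mem_zpowers g))] at h1
  simpa using h1

theorem no_blocks {H : Subgroup (Perm α)} {P : Finset α → Prop}
    (hP : ∀ g ∈ H, ∀ A, P A → P (g • A)) (hd : ∀ A B, P A → P B → ¬ Disjoint A B → A = B)
    {q : ℕ} (hq : q.Prime) (hs : ∀ A, P A → 2 ≤ A.card ∧ A.card < q)
    (hex : ∀ Γ : Finset α, (∀ g ∈ H, ∀ x ∈ Γ, g x ∈ Γ) → q ≤ Γ.card → ∃ A, P A ∧ A ⊆ Γ)
    {c : Perm α} (hc : c ∈ H) (hcyc : c.IsCycle) (hcq : c.support.card = q) : False := by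
  classical
  obtain ⟨A, hA, hAΓ⟩ := hex (Finset.univ.filter fun x => ∀ A, P A → x ∉ A) (fun g hg x hx => by
    simp only [Finset.mem_filter, Finset.mem_univ, true_and] at hx ⊢
    exact fun A hA h => hx _ (hP _ (inv_mem hg) A hA) (Finset.smul_mem_smul_finset_iff g |>.1
      (by simpa using h))) (hcq ▸ Finset.card_le_card fun z hz => by
    simp only [Finset.mem_filter, Finset.mem_univ, true_and]
    intro A hA hzA
    have hz' := mem_support.1 hz
    obtain ⟨w, hw, hwz⟩ := Finset.exists_mem_ne (hs A hA).1 z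
    have hcq' : c ^ q = 1 := by rw [← hcq, ← hcyc.orderOf, pow_orderOf_eq_one]
    have key : ∀ i : ℕ, (c ^ i) z ≠ z → ∀ u ∈ A, (c ^ i) u ∈ A → False := fun i hi u hu hu' =>
      (hs A hA).2.not_ge (le_card_of_pow hq (by rw [← pow_mul, mul_comm, pow_mul, hcq', one_pow]) hi
        (hd _ _ (hP _ (pow_mem hc i) A hA) hA (Finset.not_disjoint_iff.2
          ⟨_, Finset.smul_mem_smul_finset hu, hu'⟩)) hzA)
    by_cases h : c w = w
    · exact key 1 (by simpa using hz') w hw (by simpa [h] using hw)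
    · obtain ⟨i, hi⟩ := hcyc.exists_pow_eq hz' h
      exact key i (hi ▸ hwz) z hzA (hi ▸ hw))
  obtain ⟨x, hx⟩ := Finset.card_pos.1 (lt_of_lt_of_le two_pos (hs A hA).1)
  exact (Finset.mem_filter.1 (hAΓ hx)).2 A hA hx

omit [Fintype α] in
theorem exists_of_ne {A B : Finset α} (hc : A.card = B.card) (hne : A ≠ B) : ∃ x ∈ A, x ∉ B := by
  by_contra h
  push Not at h
  exact hne (Finset.eq_of_subset_of_card_le h hc.ge)

theorem tournament {U : Finset α} (hU : U.Nonempty) (R : α → α → Prop) [DecidableRel R]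
    (hR : ∀ x y, R x y → ¬ R y x) {p : ℕ} (h : ∀ x ∈ U, p ≤ (U.filter (R x)).card) :
    2 * p + 1 ≤ U.card := by
  have h1 := Finset.sum_card_bipartiteAbove_eq_sum_card_bipartiteBelow (s := U) (t := U) R
  have h2 : ∑ x ∈ U, ((U.bipartiteAbove R x).card + (U.bipartiteBelow R x).card + 1) ≤
      ∑ _x ∈ U, U.card := Finset.sum_le_sum fun x hx => by
    rw [Finset.bipartiteAbove, Finset.bipartiteBelow,
      ← Finset.card_union_of_disjoint (Finset.disjoint_filter.2 fun y _ => hR x y),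
      ← Finset.card_insert_of_notMem (a := x) (by simpa using fun _ h => hR x x h h)]
    exact Finset.card_le_card (Finset.insert_subset hx
      (Finset.union_subset (Finset.filter_subset _ _) (Finset.filter_subset _ _)))
  have h3 : ∑ _x ∈ U, p ≤ ∑ x ∈ U, (U.bipartiteAbove R x).card := Finset.sum_le_sum h
  simp only [Finset.sum_add_distrib, ← h1, Finset.sum_const, smul_eq_mul] at h2 h3
  exact Nat.le_of_mul_le_mul_left (by linarith) hU.card_pos

theorem support_eq_of_odd {H : Subgroup (Perm α)} (hH : ¬ 2 ∣ Nat.card H) {a b : Perm α}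
    (ha : a ∈ H) (hb : b ∈ H) (ha' : a.IsCycle) (hb' : b.IsCycle)
    (hc : a.support.card = b.support.card) (hd : ¬ Disjoint a.support b.support) :
    a.support = b.support := by
  classical
  by_contra hne
  obtain ⟨y, hy, hya⟩ := exists_of_ne hc.symm (Ne.symm hne)
  obtain ⟨z, hza, hzb⟩ := Finset.not_disjoint_iff.1 hd
  set U := a.support ∪ b.support
  let L := H ⊓ permOn U
  have haL : a ∈ L := ⟨ha, mem_permOn.2 fun x hx => notMem_support.1 fun h => hx (by simp [U, h])⟩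
  have hbL : b ∈ L := ⟨hb, mem_permOn.2 fun x hx => notMem_support.1 fun h => hx (by simp [U, h])⟩
  have h1 := tournament (U := U) ⟨z, by simp [U, hza]⟩ (fun u v => ∃ g ∈ L, g y = u ∧ g z = v)
    (p := a.support.card) (by
      rintro _ _ ⟨g, hg, rfl, rfl⟩ ⟨k, hk, h1, h2⟩
      have := CL.InvT.smul_eq_of_odd_of_pair (g := g⁻¹ * k) (p := y) (q := z)
        (Nat.not_even_iff_odd.1 fun h => hH (h.two_dvd.trans
          (orderOf_dvd_natCard _ (mul_mem (inv_mem hg.1) hk.1)))) (by simp [h1]) (by simp [h2])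
      exact hya ((by simpa [h1] using this : z = y) ▸ hza)) fun x hx => by
    obtain ⟨g, hg, rfl⟩ : ∃ g ∈ L, g y = x := by
      rcases Finset.mem_union.1 hx with h | h
      · obtain ⟨i, hi⟩ := hb'.exists_pow_eq (mem_support.1 hy) (mem_support.1 hzb)
        obtain ⟨j, hj⟩ := ha'.exists_pow_eq (mem_support.1 hza) (mem_support.1 h)
        exact ⟨a ^ j * b ^ i, mul_mem (pow_mem haL j) (pow_mem hbL i), by rw [mul_apply, hi, hj]⟩
      · obtain ⟨i, hi⟩ := hb'.exists_pow_eq (mem_support.1 hy) (mem_support.1 h)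
        exact ⟨b ^ i, pow_mem hbL i, hi⟩
    rw [← Finset.card_smul_finset g]
    refine Finset.card_le_card fun _ hw' => ?_
    obtain ⟨w, hw, rfl⟩ := Finset.mem_smul_finset.1 hw'
    obtain ⟨j, hj⟩ := ha'.exists_pow_eq (mem_support.1 hza) (mem_support.1 hw)
    exact Finset.mem_filter.2 ⟨apply_mem_of_mem_permOn hg.2 (by simp [U, hw]), g * a ^ j,
      mul_mem hg (pow_mem haL j), by rw [mul_apply, pow_apply_eq_self_of_apply_eq_self
        (notMem_support.1 hya)], by rw [mul_apply, hj]; rfl⟩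
  have : U.card ≤ _ := Finset.card_union_le a.support b.support
  omega

namespace Hyp

variable {π : Set ℕ} {H : Subgroup (Perm α)} (h : Hyp π H)
include h

theorem exists_cycle {Γ : Finset α} (hΓ : ∀ g ∈ H, ∀ x ∈ Γ, g x ∈ Γ) {p : ℕ} (hp : p.Prime)
    (hp2 : p ≠ 2) (hπ : p ∈ π) (hle : p ≤ Γ.card) :
    ∃ c ∈ H, c.IsCycle ∧ c.support.card = p ∧ c.support ⊆ Γ := by
  have := Fact.mk hp
  obtain ⟨S, hS, rfl⟩ := Finset.exists_subset_card_eq hle
  have h1 := List.isCycle_formPerm S.nodup_toList (by simpa using hp.two_le)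
  have h2 : S.toList.formPerm.support = S := by
    rw [List.support_formPerm_of_nodup _ S.nodup_toList fun x e => hp.one_lt.ne'
      (by simpa using congrArg List.length e), Finset.toList_toFinset]
  have h3 : S.toList.formPerm ∈ altOn Γ :=
    ⟨mem_permOn.2 fun x hx => notMem_support.1 fun h' => hx (hS (h2 ▸ h')), by
      change sign _ = 1
      rw [h1.sign, h2, (hp.odd_of_ne_two hp2).neg_one_pow, neg_neg]⟩
  obtain ⟨g, hg, h4⟩ := exists_conj_mem (Q := zpowers S.toList.formPerm)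
    (IsPGroup.of_card (n := 1) (by rw [Nat.card_zpowers, h1.orderOf, h2, pow_one]))
    ((zpowers_le (H := altOn Γ)).2 h3) (h.loc hΓ hp hπ)
  exact ⟨_, h4 _ (mem_zpowers _), h1.conj, by rw [card_support_conj, h2], fun x hx => by
    by_contra hx'
    exact mem_support.1 hx (mem_permOn.1 (mul_mem (mul_mem hg h3) (inv_mem hg)).1 x hx')⟩

theorem two_mem {p q : ℕ} (hp : p.Prime) (hq : q.Prime) (hpq : p < q) (hpπ : p ∈ π) (hqπ : q ∈ π)
    (hn : q ≤ Fintype.card α) : 2 ∈ π := by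
  by_contra h2
  have hp2 : p ≠ 2 := fun e => h2 (e ▸ hpπ)
  obtain ⟨c, hc, hc1, hc2, -⟩ := h.exists_cycle (Γ := Finset.univ) (by simp) hq
    (fun e => h2 (e ▸ hqπ)) hqπ hn
  refine no_blocks (P := fun A => ∃ a ∈ H, a.IsCycle ∧ a.support.card = p ∧ a.support = A) ?_ ?_ hq
    ?_ (fun Γ hΓ hle => ?_) hc hc1 hc2
  · rintro g hg _ ⟨a, ha, h1, h3, rfl⟩
    exact ⟨_, mul_mem (mul_mem hg ha) (inv_mem hg), h1.conj, by rw [card_support_conj, h3], by
      rw [support_conj, Finset.map_eq_image]; rfl⟩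
  · rintro _ _ ⟨a, ha, a1, a2, rfl⟩ ⟨b, hb, b1, b2, rfl⟩
    exact support_eq_of_odd (fun h' => h2 (h.card 2 Nat.prime_two h')) ha hb a1 b1
      (a2.trans b2.symm)
  · rintro _ ⟨a, -, -, a2, rfl⟩
    exact ⟨a2 ▸ hp.two_le, a2 ▸ hpq⟩
  · obtain ⟨a, ha, a1, a2, a3⟩ := h.exists_cycle hΓ hp hp2 hpπ (hpq.le.trans hle)
    exact ⟨_, ⟨a, ha, a1, a2, rfl⟩, a3⟩

theorem three_mem (h2 : 2 ∈ π) {q : ℕ} (hq : q.Prime) (hq2 : q ≠ 2) (hqπ : q ∈ π)
    (hn : q ≤ Fintype.card α) : 3 ∈ π := by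
  by_contra h3
  have hq5 : 5 ≤ q := hq.five_le_of_ne_two_of_ne_three hq2 fun e => h3 (e ▸ hqπ)
  obtain ⟨c, hc, hc1, hc2, -⟩ := h.exists_cycle (Γ := Finset.univ) (by simp) hq hq2 hqπ hn
  refine no_blocks (P := fun A => A.card = 4 ∧ ∀ x ∈ A, ∀ z ∈ A, ∃ s ∈ H,
    s x = z ∧ s z = x ∧ ∀ w ∉ A, s w = w) ?_ ?_ hq (fun A hA => by omega) (fun Γ hΓ hle => ?_)
    hc hc1 hc2
  · rintro g hg A ⟨h1, h4⟩
    refine ⟨by rw [Finset.card_smul_finset, h1], fun x hx z hz => ?_⟩
    obtain ⟨s, hs, s1, s2, s3⟩ := h4 (g⁻¹ x) (Finset.inv_smul_mem_iff.2 hx) (g⁻¹ z)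
      (Finset.inv_smul_mem_iff.2 hz)
    refine ⟨_, mul_mem (mul_mem hg hs) (inv_mem hg), by rw [mul_apply, mul_apply, s1]; simp,
      by rw [mul_apply, mul_apply, s2]; simp, fun w hw => ?_⟩
    rw [mul_apply, mul_apply, s3 (g⁻¹ w) fun h => hw (Finset.inv_smul_mem_iff.1 h)]
    simp
  · rintro A B ⟨a1, a2⟩ ⟨b1, b2⟩ hd
    by_contra hne
    obtain ⟨x, hx, hxB⟩ := exists_of_ne (a1.trans b1.symm) hne
    obtain ⟨y, hy, hyA⟩ := exists_of_ne (b1.trans a1.symm) (Ne.symm hne)
    obtain ⟨z, hzA, hzB⟩ := Finset.not_disjoint_iff.1 hd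
    obtain ⟨s, hs, s1, s2, s3⟩ := a2 x hx z hzA
    obtain ⟨t, ht, t1, t2, t3⟩ := b2 y hy z hzB
    refine h3 (h.card 3 Nat.prime_three (Dvd.dvd.trans ?_ (orderOf_dvd_natCard _ (mul_mem hs ht))))
    have := Fact.mk Nat.prime_three
    have e1 : (s * t) x = z := by rw [mul_apply, t3 x hxB, s1]
    rw [← Function.minimalPeriod_eq_prime (p := 3) (f := s * t) (x := x) (by
      change (s * t) ((s * t) ((s * t) x)) = x
      rw [e1, mul_apply, mul_apply, t2, s3 y hyA, t1, s2]) fun e => hxB (e.symm.trans e1 ▸ hzB)]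
    exact Function.IsPeriodicPt.minimalPeriod_dvd (by
      rw [Function.IsPeriodicPt, ← coe_pow, pow_orderOf_eq_one]; rfl)
  · obtain ⟨S, hS, hS4⟩ := Finset.exists_subset_card_eq (show 4 ≤ Γ.card by omega)
    obtain ⟨a, b, c, d, hab, hac, had, hbc, hbd, hcd, rfl⟩ := Finset.card_eq_four.1 hS4
    have nd : [a, b, c, d].Nodup := by simp [*]
    have nd' : [a, c, b, d].Nodup := by simp [*, hbc.symm]
    have m : ∀ x ∈ ({a, b, c, d} : Finset α), x ∈ Γ := hS
    simp only [Finset.mem_insert, Finset.mem_singleton, forall_eq_or_imp, forall_eq] at m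
    obtain ⟨g, hg, h4⟩ := exists_conj_mem (Q := closure {swap a b * swap c d, swap a c * swap b d})
      (K := altOn Γ) (isPGroup_closure_of_commute_involutions (by
        have : swap a b * swap c d * (swap a c * swap b d) =
            swap a c * swap b d * (swap a b * swap c d) := by
          rw [CL.AltInvol.swap_swap_mul_swap_swap nd, CL.AltInvol.swap_swap_mul_swap_swap nd',
            swap_comm]
        simp [this]) (by simp [CL.AltInvol.swap_swap_sq nd, CL.AltInvol.swap_swap_sq nd']))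
      ((closure_le _).2 (by
        rintro _ (rfl | rfl)
        exacts [swap_swap_mem_altOn m.1 m.2.1 m.2.2.1 m.2.2.2 hab hcd,
          swap_swap_mem_altOn m.1 m.2.2.1 m.2.1 m.2.2.2 hac hbd])) (h.loc hΓ Nat.prime_two h2)
    refine ⟨g • {a, b, c, d}, ⟨by rw [Finset.card_smul_finset, hS4], fun x hx z hz => ?_⟩,
      smul_eq_of_inv (fun _ => apply_mem_of_mem_permOn hg.1) ▸ Finset.smul_finset_subset_smul_finset hS⟩
    have key : ∀ x ∈ ({a, b, c, d} : Finset α), ∀ z ∈ ({a, b, c, d} : Finset α),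
        ∃ s ∈ closure {swap a b * swap c d, swap a c * swap b d},
        s x = z ∧ s z = x ∧ ∀ w ∉ ({a, b, c, d} : Finset α), s w = w := by
      have m1 := subset_closure (k := {swap a b * swap c d, swap a c * swap b d}) (Or.inl rfl)
      have m2 := subset_closure (k := {swap a b * swap c d, swap a c * swap b d}) (Or.inr rfl)
      simp only [Finset.mem_insert, Finset.mem_singleton]
      rintro x (rfl | rfl | rfl | rfl) z (rfl | rfl | rfl | rfl) <;>
      first
      | exact ⟨1, one_mem _, rfl, rfl, fun _ _ => rfl⟩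
      | (refine ⟨_, m1, ?_⟩; simp only [mul_apply, swap_apply_def]; grind)
      | (refine ⟨_, m2, ?_⟩; simp only [mul_apply, swap_apply_def]; grind)
      | (refine ⟨_, mul_mem m1 m2, ?_⟩; simp only [mul_apply, swap_apply_def]; grind)
    obtain ⟨s, hs, s1, s2, s3⟩ := key (g⁻¹ x) (Finset.inv_smul_mem_iff.2 hx) (g⁻¹ z)
      (Finset.inv_smul_mem_iff.2 hz)
    refine ⟨_, h4 s hs, by rw [mul_apply, mul_apply, s1]; simp,
      by rw [mul_apply, mul_apply, s2]; simp, fun w hw => ?_⟩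
    rw [mul_apply, mul_apply, s3 (g⁻¹ w) fun h => hw (Finset.inv_smul_mem_iff.1 h)]
    simp

end Hyp

end CL.HallSym
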