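import Mathlib
import Cfsg.Agent.KSG.HallSym2

/-!
Hall subgroups of symmetric and alternating groups, III: the classification (P. Hall, Thompson).
-/

set_option autoImplicit false

namespace CL.HallSym

open Equiv Equiv.Perm Subgroup MulAction CL.KSG
open scoped Pointwise

variable {α : Type*} [Fintype α] [DecidableEq α] {H : Subgroup (Perm α)}

theorem full_smul {g : Perm α} (hg : g ∈ H) {S : Finset α} (h : altOn S ≤ H) :
    altOn (g • S) ≤ H := fun x hx => by
  have := conj_mem_altOn (g := g⁻¹) hx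
  rw [inv_smul_smul] at this
  simpa [mul_assoc] using mul_mem (mul_mem hg (h this)) (inv_mem hg)

theorem exists_altOn_apply {S : Finset α} (h3 : 3 ≤ S.card) {u w : α} (hu : u ∈ S) (hw : w ∈ S) :
    ∃ k ∈ altOn S, k u = w := by
  rcases eq_or_ne u w with rfl | huw
  · exact ⟨1, one_mem _, rfl⟩
  obtain ⟨v, hv, h⟩ := Finset.exists_mem_notMem_of_card_lt_card (s := {u, w})
    (Finset.card_le_two.trans_lt h3)
  simp only [Finset.mem_insert, Finset.mem_singleton, not_or] at h
  exact ⟨_, swap_swap_mem_altOn hu hw hw hv huw (Ne.symm h.2), by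
    rw [mul_apply, swap_apply_of_ne_of_ne huw (Ne.symm h.1), swap_apply_left]⟩

theorem full_insert {S : Finset α} (h : altOn S ≤ H) (h3 : 3 ≤ S.card) {y : α} {t : Perm α}
    (ht : t ∈ H) (ht' : t ∈ altOn (insert y S)) (hy : t y ≠ y) : altOn (insert y S) ≤ H := by
  have key : ∀ g ∈ altOn (insert y S), g y = y → g ∈ H := fun g hg e =>
    h ⟨mem_permOn.2 fun x hx => by
      rcases eq_or_ne x y with rfl | hxy
      exacts [e, mem_permOn.1 hg.1 x (by simp [hx, hxy])], hg.2⟩
  have mem : ∀ g ∈ altOn (insert y S), g y ≠ y → g y ∈ S := fun g hg e =>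
    (Finset.mem_insert.1 (apply_mem_of_mem_permOn hg.1 (Finset.mem_insert_self y S))).resolve_left e
  intro g hg
  by_cases e : g y = y
  · exact key g hg e
  obtain ⟨k, hk, e'⟩ := exists_altOn_apply h3 (mem t ht' hy) (mem g hg e)
  simpa [mul_assoc] using mul_mem (mul_mem (h hk) ht) (key ((k * t)⁻¹ * g) (mul_mem (inv_mem
    (mul_mem (altOn_mono (Finset.subset_insert y S) hk) ht')) hg) (by rw [mul_apply, ← e']; simp))

/-- Maximal sets of at least three points on which `H` contains the alternating group. -/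
structure Mx (H : Subgroup (Perm α)) (S : Finset α) : Prop where
  full : altOn S ≤ H
  three : 3 ≤ S.card
  max : ∀ y, altOn (insert y S) ≤ H → y ∈ S

theorem Mx.smul {S : Finset α} (h : Mx H S) {g : Perm α} (hg : g ∈ H) : Mx H (g • S) :=
  ⟨full_smul hg h.full, by rw [Finset.card_smul_finset]; exact h.three, fun y hy =>
    Finset.inv_smul_mem_iff.1 (h.max _ (by
      have := full_smul (inv_mem hg) hy
      rwa [Finset.smul_finset_insert, inv_smul_smul] at this))⟩

theorem Mx.subset {S T : Finset α} (hS : Mx H S) (hT : Mx H T) {z : α} (hzS : z ∈ S) (hzT : z ∈ T) :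
    T ⊆ S := by
  intro y hy
  by_contra hyS
  have ne : ∀ a ∈ S, y ≠ a := fun a ha e => hyS (e ▸ ha)
  have key : ∀ a ∈ S, ∀ b ∈ S, a ≠ b → swap y a * swap y b ∈ H → False := fun a ha b hb hab h =>
    hyS (hS.max y (full_insert hS.full hS.three h (swap_swap_mem_altOn (by simp) (by simp [ha])
      (by simp) (by simp [hb]) (ne a ha) (ne b hb)) (by
        rw [mul_apply, swap_apply_left, swap_apply_of_ne_of_ne (ne b hb).symm hab.symm]
        exact (ne b hb).symm)))
  by_cases h : ∃ w ∈ S, w ≠ z ∧ w ∈ T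
  · obtain ⟨w, hw, hwz, hwT⟩ := h
    exact key w hw z hzS hwz (hT.full (swap_swap_mem_altOn hy hwT hy hzT (ne w hw) (ne z hzS)))
  push Not at h
  obtain ⟨a, ha, b, hb, hab⟩ := Finset.one_lt_card.1 (show 1 < (S.erase z).card by
    have := hS.three
    rw [Finset.card_erase_of_mem hzS]; omega)
  obtain ⟨a1, a2⟩ := Finset.mem_erase.1 ha
  obtain ⟨b1, b2⟩ := Finset.mem_erase.1 hb
  obtain ⟨k, hk, e⟩ := exists_altOn_apply hT.three hzT hy
  refine key a a2 b b2 hab ?_
  have := mul_mem (mul_mem (hT.full hk) (hS.full (swap_swap_mem_altOn hzS a2 hzS b2 a1.symm b1.symm)))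
    (inv_mem (hT.full hk))
  rwa [← conj_mul, ← swap_apply_apply, ← swap_apply_apply, e, mem_permOn.1 hk.1 a (h a a2 a1),
    mem_permOn.1 hk.1 b (h b b2 b1)] at this

theorem Mx.eq {S T : Finset α} (hS : Mx H S) (hT : Mx H T) (h : ¬ Disjoint S T) : S = T := by
  obtain ⟨z, h1, h2⟩ := Finset.not_disjoint_iff.1 h
  exact (hT.subset hS h2 h1).antisymm (hS.subset hT h1 h2)

theorem exists_mx {S : Finset α} (h : altOn S ≤ H) (h3 : 3 ≤ S.card) : ∃ T, Mx H T ∧ S ⊆ T := by
  classical
  obtain ⟨T, hT, hm⟩ := Finset.exists_max_image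
    (Finset.univ.filter fun T : Finset α => altOn T ≤ H ∧ S ⊆ T) Finset.card ⟨S, by simp [h]⟩
  simp only [Finset.mem_filter, Finset.mem_univ, true_and] at hT hm
  refine ⟨T, ⟨hT.1, h3.trans (Finset.card_le_card hT.2), fun y hy => ?_⟩, hT.2⟩
  by_contra hyT
  have := hm _ ⟨hy, hT.2.trans (Finset.subset_insert y T)⟩
  rw [Finset.card_insert_of_notMem hyT] at this
  omega

open Classical in
/-- The maximal sets of a given size. -/
noncomputable def mxs (H : Subgroup (Perm α)) (s : ℕ) : Finset (Finset α) :=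
  Finset.univ.filter fun S => Mx H S ∧ S.card = s

theorem mem_mxs {s : ℕ} {S : Finset α} : S ∈ mxs H s ↔ Mx H S ∧ S.card = s := by simp [mxs]

theorem smul_mem_mxs {s : ℕ} : ∀ g ∈ H, ∀ S ∈ mxs H s, g • S ∈ mxs H s := fun g hg S hS =>
  mem_mxs.2 ⟨(mem_mxs.1 hS).1.smul hg, by rw [Finset.card_smul_finset, (mem_mxs.1 hS).2]⟩

theorem mxs_disjoint {s : ℕ} : (mxs H s : Set (Finset α)).PairwiseDisjoint id :=
  fun _ hS _ hT hne => by_contra fun h => hne ((mem_mxs.1 hS).1.eq (mem_mxs.1 hT).1 h)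

theorem inv_piece {s : ℕ} : ∀ g ∈ H, ∀ x ∈ (mxs H s).biUnion id, g x ∈ (mxs H s).biUnion id :=
  fun g hg x hx => by
    obtain ⟨T, hT, hx⟩ := Finset.mem_biUnion.1 hx
    exact Finset.mem_biUnion.2 ⟨_, smul_mem_mxs g hg T hT, Finset.smul_mem_smul_finset (a := g) hx⟩

theorem card_piece {s : ℕ} : ((mxs H s).biUnion id).card = (mxs H s).card * s := by
  rw [Finset.card_biUnion mxs_disjoint, Finset.sum_congr rfl (f := fun u : Finset α => (id u).card)
    fun S hS => (mem_mxs.1 hS).2, Finset.sum_const, smul_eq_mul]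

theorem inv_compl {Γ : Finset α} (h : ∀ g ∈ H, ∀ x ∈ Γ, g x ∈ Γ) : ∀ g ∈ H, ∀ x ∈ Γᶜ, g x ∈ Γᶜ :=
  fun g hg x hx => Finset.mem_compl.2 fun h' => Finset.mem_compl.1 hx
    (by simpa using h _ (inv_mem hg) _ h')

/-- The numerical types of the proper Hall subgroups involving two primes. -/
def Typ (n : ℕ) (π : Set ℕ) (k : ℕ) : Prop :=
  (n.Prime ∧ k + 1 = n ∧ ∀ r : ℕ, r.Prime → r ≤ n → (r ∈ π ↔ r < n)) ∨
    ((n = 7 ∨ n = 8) ∧ k = 4 ∧ ∀ r : ℕ, r.Prime → r ≤ n → (r ∈ π ↔ (r = 2 ∨ r = 3)))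

namespace Hyp

variable {π : Set ℕ} (h : Hyp π H) (h2 : 2 ∈ π) (h3 : 3 ∈ π)
include h

include h3 in
theorem exists_mx_of_inv {Γ : Finset α} (hΓ : ∀ g ∈ H, ∀ x ∈ Γ, g x ∈ Γ) (hle : 3 ≤ Γ.card) :
    ∃ T, Mx H T ∧ ∃ x ∈ T, x ∈ Γ := by
  have := Fact.mk Nat.prime_three
  obtain ⟨S, hS, hS3⟩ := Finset.exists_subset_card_eq hle
  obtain ⟨g, hg, h4⟩ := exists_conj_mem (p := 3) (Q := altOn S) (IsPGroup.of_card (n := 1) (by
    have := two_mul_card_altOn (S := S) (by omega)
    rw [hS3] at this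
    simp only [Nat.factorial] at this
    omega)) (altOn_mono hS) (h.loc hΓ Nat.prime_three h3)
  obtain ⟨T, hT, hST⟩ := exists_mx (H := H) (S := g • S) (fun x hx => by
    have := conj_mem_altOn (g := g⁻¹) hx
    rw [inv_smul_smul] at this
    simpa [mul_assoc] using h4 _ this) (by rw [Finset.card_smul_finset, hS3])
  obtain ⟨x, hx⟩ := Finset.card_pos.1 (show 0 < S.card by omega)
  exact ⟨T, hT, g x, hST (Finset.smul_mem_smul_finset hx), apply_mem_of_mem_permOn hg.1 (hS hx)⟩

include h2 in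
theorem mem_of_le {S : Finset α} (hS : Mx H S) {p : ℕ} (hp : p.Prime) (hle : p ≤ S.card) :
    p ∈ π := by
  rcases eq_or_ne p 2 with rfl | hp2
  · exact h2
  have := hp.dvd_factorial.2 hle
  rw [← two_mul_card_altOn (by have := hS.three; omega), hp.dvd_mul] at this
  exact h.card p hp ((this.resolve_left fun e =>
    hp2 ((Nat.prime_dvd_prime_iff_eq hp Nat.prime_two).1 e)).trans (card_dvd_of_le hS.full))

include h2 h3 in
theorem card_mxs (s : ℕ) : (mxs H s).card ≤ 1 ∨ (s = 4 ∧ (mxs H s).card = 2) := by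
  refine or_iff_not_imp_left.2 fun h1 => ?_
  obtain ⟨S, hS⟩ := Finset.card_pos.1 (show 0 < (mxs H s).card by omega)
  obtain ⟨hS1, hS2⟩ := mem_mxs.1 hS
  have hs := hS2 ▸ hS1.three
  have key : ∀ j < (mxs H s).card, ∀ p, p.Prime → p ∈ π → ¬ p ∣ (j * s + s - 1).choose (s - 1) :=
    fun j hj p hp hπ hd => h.bell smul_mem_mxs mxs_disjoint (fun _ hT => (mem_mxs.1 hT).2)
      (by omega) ⟨S, hS⟩ hp hπ (by
        rw [Nat.uniformBell_eq]
        exact hd.trans (Finset.dvd_prod_of_mem _ (Finset.mem_range.2 hj)))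
  obtain ⟨rfl, -⟩ := choose_small (d := s) (k := s - 1) (by omega) (by omega) fun p hp hle => by
    have := key 1 (by omega) p hp (h.mem_of_le h2 hS1 hp (hS2 ▸ hle))
    rwa [one_mul, Nat.add_sub_assoc (by omega)] at this
  refine ⟨rfl, by_contra fun h4 => key 2 (by omega) 3 Nat.prime_three h3 (by decide)⟩

include h2 h3 in
theorem core {r : ℕ} (hr : r.Prime) (hrn : r ≤ Fintype.card α) (hrπ : r ∉ π) :
    ∃ T : Finset α, H ≤ halvesStab (T : Set α) ∧ Typ (Fintype.card α) π T.card := by
  classical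
  have hr5 : 5 ≤ r := hr.five_le_of_ne_two_of_ne_three (fun e => hrπ (e ▸ h2)) fun e => hrπ (e ▸ h3)
  obtain ⟨T₀, hT₀, -⟩ := h.exists_mx_of_inv h3 (Γ := Finset.univ) (by simp)
    (by rw [Finset.card_univ]; omega)
  obtain ⟨T, hT, hm⟩ := Finset.exists_max_image (Finset.univ.filter fun T : Finset α => Mx H T)
    Finset.card ⟨T₀, by simpa⟩
  simp only [Finset.mem_filter, Finset.mem_univ, true_and] at hT hm
  have hd := hT.three
  have hlt : T.card < r := not_le.1 fun h' => hrπ (h.mem_of_le h2 hT hr h')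
  have hTm : T ∈ mxs H T.card := mem_mxs.2 ⟨hT, rfl⟩
  set F := Finset.univ.filter fun x => ∀ S, Mx H S → x ∉ S
  have hF : F.card ≤ 2 := by
    by_contra h4
    obtain ⟨S, hS, x, hx, hx'⟩ := h.exists_mx_of_inv h3 (Γ := F) (fun g hg x hx => by
      simp only [F, Finset.mem_filter, Finset.mem_univ, true_and] at hx ⊢
      exact fun A hA h => hx _ (hA.smul (inv_mem hg)) (Finset.smul_mem_smul_finset_iff g |>.1
        (by simpa using h))) (by omega)
    exact (Finset.mem_filter.1 hx').2 S hS hx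
  have h34 : T.card = 4 → Fintype.card α ≤ (mxs H 4).card * 4 + 5 := fun e => by
    have h5 : Finset.univ ⊆ (mxs H 4).biUnion id ∪ (mxs H 3).biUnion id ∪ F := fun x _ => by
      refine Finset.mem_union.2 (or_iff_not_imp_right.2 fun hx => ?_)
      simp only [F, Finset.mem_filter, Finset.mem_univ, true_and, not_forall, not_not] at hx
      obtain ⟨S, hS, hx⟩ := hx
      have := hm S hS
      have := hS.three
      refine Finset.mem_union.2 ((show S.card = 4 ∨ S.card = 3 by omega).imp (fun e => ?_)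
        fun e => ?_) <;> exact Finset.mem_biUnion.2 ⟨S, mem_mxs.2 ⟨hS, e⟩, hx⟩
    have h6 := (Finset.card_le_card h5).trans ((Finset.card_union_le _ _).trans
      (Nat.add_le_add_right (Finset.card_union_le _ _) _))
    rw [card_piece, card_piece, Finset.card_univ] at h6
    have := (h.card_mxs h2 h3 3).resolve_right (by omega)
    omega
  have stab : ∀ g : Perm α, ∀ U : Finset α, g • T = U → ∀ z, g z ∈ U ↔ z ∈ T := by
    rintro g _ rfl z
    exact Finset.smul_mem_smul_finset_iff g
  have p8 : ∀ n, n ≤ 8 → 5 ∉ π → 7 ∉ π → ∀ r : ℕ, r.Prime → r ≤ n → (r ∈ π ↔ (r = 2 ∨ r = 3)) :=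
    fun n hn h5 h7 r hr hrn => ⟨fun hπ => by
      have : r ≤ 8 := hrn.trans hn
      interval_cases r <;> simp_all (decide := true), by rintro (rfl | rfl) <;> assumption⟩
  rcases h.card_mxs h2 h3 T.card with h1 | ⟨e, h1⟩
  · have hTi : ∀ g ∈ H, g • T = T := fun g hg =>
      Finset.card_le_one.1 h1 _ (smul_mem_mxs g hg T hTm) _ hTm
    have hTi' : ∀ g ∈ H, ∀ x ∈ T, g x ∈ T := fun g hg x hx => (stab g T (hTi g hg) x).2 hx
    refine ⟨T, fun g hg => Or.inl (stab g T (hTi g hg)), ?_⟩
    have hC := fun p hp hπ => h.choose (p := p) hTi' (inv_compl hTi') disjoint_compl_right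
      (by omega) hp hπ
    rw [Finset.card_add_card_compl, Finset.card_compl] at hC
    have hP : T.card + 1 = Fintype.card α → Typ (Fintype.card α) π T.card := fun e => by
      rw [← e, Nat.add_sub_cancel_left, Nat.choose_one_right] at hC
      refine Or.inl ⟨e ▸ ?_, e, fun q hq hqn => ⟨fun hπ => lt_of_le_of_ne hqn fun e' =>
        hC q hq hπ (by rw [e, e']), fun h' => h.mem_of_le h2 hT hq (by omega)⟩⟩
      have h4 := Nat.minFac_prime (n := T.card + 1) (by omega)
      by_contra h5
      exact hC _ h4 (h.mem_of_le h2 hT h4 (Nat.lt_succ_iff.1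
        ((Nat.not_prime_iff_minFac_lt (by omega)).1 h5))) (Nat.minFac_dvd _)
    by_cases e : T.card = 4
    · have h4 := h34 e
      rw [e] at h1 hC hP ⊢
      have h5 := hC 2 Nat.prime_two h2
      have h6 := hC 3 Nat.prime_three h3
      have h7 : 5 ≤ Fintype.card α := by omega
      have h8 : Fintype.card α ≤ 9 := by omega
      generalize Fintype.card α = n at *
      interval_cases n
      · exact hP rfl
      · exact absurd (by decide) h6
      · exact Or.inr ⟨Or.inl rfl, rfl, p8 7 (by norm_num)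
          (fun h' => hC 5 (by norm_num) h' (by decide)) fun h' => hC 7 (by norm_num) h' (by decide)⟩
      · exact absurd (by decide) h5
      · exact absurd (by decide) h5
    have h4 : Tᶜ ⊆ F := fun x hx => Finset.mem_filter.2 ⟨Finset.mem_univ x, fun S hS hxS => by
      have hSm : S ∈ mxs H S.card := mem_mxs.2 ⟨hS, rfl⟩
      have h5 : S.card < T.card := (hm S hS).lt_of_ne fun e' => Finset.mem_compl.1 hx
        (Finset.card_le_one.1 h1 _ (e' ▸ hSm) _ hTm ▸ hxS)
      have h6 := fun p hp hle => h.choose (p := p) hTi' (inv_piece (s := S.card))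
        ((Finset.disjoint_biUnion_right _ _ _).2 fun U hU => by_contra fun h' => h5.ne'
          ((congrArg Finset.card (hT.eq (mem_mxs.1 hU).1 h')).trans (mem_mxs.1 hU).2))
        (by omega) hp (h.mem_of_le h2 hT hp hle)
      rw [card_piece] at h6
      have := hS.three
      rcases h.card_mxs h2 h3 S.card with h7 | ⟨h7, h8⟩
      · rw [le_antisymm h7 (Finset.card_pos.2 ⟨S, hSm⟩), one_mul] at h6
        exact e (choose_small (by omega) h5 h6).1
      · rw [h8, h7] at h6
        by_cases h9 : 8 < T.card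
        · exact e (choose_small (by norm_num) h9 h6).1
        have h10 := h6 3 Nat.prime_three hd
        rw [h7] at h5
        generalize T.card = d at *
        interval_cases d <;> exact h10 (by decide)⟩
    have h5 := (Finset.card_le_card h4).trans hF
    rw [Finset.card_compl] at h5
    refine hP (by_contra fun h6 => e ?_)
    rw [show Fintype.card α = T.card + 2 by omega, Nat.add_sub_cancel_left] at hC
    exact (choose_small le_rfl hd fun p hp hle => hC p hp (h.mem_of_le h2 hT hp hle)).1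
  · have h4 := h34 e
    rw [e] at h1 hTm
    have h5 := h.choose (inv_piece (s := 4)) (inv_compl inv_piece) disjoint_compl_right
      (by rw [card_piece]; omega) Nat.prime_three h3
    have h6 := Finset.card_le_univ ((mxs H 4).biUnion id)
    rw [Finset.card_add_card_compl, Finset.card_compl, card_piece, h1] at h5
    rw [card_piece, h1] at h6
    have h7 : Fintype.card α = 8 := by
      rw [h1] at h4
      generalize Fintype.card α = n at *
      interval_cases n <;> first | rfl | exact absurd (by decide) h5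
    have h8 := fun p hp hπ => h.bell (p := p) smul_mem_mxs mxs_disjoint
      (fun _ hT => (mem_mxs.1 hT).2) (by norm_num) ⟨T, hTm⟩ hp hπ
    rw [h1, Nat.uniformBell_eq] at h8
    refine ⟨T, fun g hg => ?_, Or.inr ⟨Or.inr h7, e, p8 _ h7.le
      (fun h' => h8 5 (by norm_num) h' (by decide)) fun h' => h8 7 (by norm_num) h' (by decide)⟩⟩
    by_cases h9 : Disjoint (g • T) T
    · refine Or.inr fun z => ?_
      have := stab g Tᶜ (Finset.eq_of_subset_of_card_le (Finset.subset_compl_iff_disjoint_right.2 h9)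
        (by rw [Finset.card_compl, Finset.card_smul_finset]; omega)) z
      rw [Finset.mem_compl] at this
      simp only [Finset.mem_coe]
      tauto
    · exact Or.inl (stab g T ((hT.smul hg).eq hT h9))

theorem classify {p q r : ℕ} (hp : p.Prime) (hq : q.Prime) (hpq : p ≠ q) (hpπ : p ∈ π)
    (hqπ : q ∈ π) (hpn : p ≤ Fintype.card α) (hqn : q ≤ Fintype.card α) (hr : r.Prime)
    (hrn : r ≤ Fintype.card α) (hrπ : r ∉ π) :
    ∃ T : Finset α, H ≤ halvesStab (T : Set α) ∧ Typ (Fintype.card α) π T.card := by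
  wlog hlt : p < q generalizing p q
  · exact this hq hp hpq.symm hqπ hpπ hqn hpn (by omega)
  have h2 := h.two_mem hp hq hlt hpπ hqπ hqn
  exact h.core h2 (h.three_mem h2 hq (by have := hp.two_le; omega) hqπ hqn) hr hrn hrπ

end Hyp

end CL.HallSym
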