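import Mathlib
import Cfsg.Prelude.Def_HallClasses
import Cfsg.Agent.SOLV.Hall
import Cfsg.Agent.KSG.HallSym3

/-!
Hall subgroups of symmetric and alternating groups, IV: existence, conjugacy, `D_π`.
-/

set_option autoImplicit false

namespace CL.HallSym

open Equiv Equiv.Perm Subgroup MulAction CL.KSG Cfsg
open scoped Pointwise

section general

variable {G : Type*} [Group G] [Finite G] {π : Set ℕ}

theorem maximal_of_hall {H : Subgroup G} (h : IsPiHall π H) : Maximal (IsPiSubgroup π) H :=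
  ⟨h.1, fun _ hK hle => (CL.IsPiHall.eq_of_le h hle hK).ge⟩

theorem c_of_d (h : IsDPiGroup π G) : IsCPiGroup π G := by
  refine ⟨?_, fun H K hH hK => h H K (maximal_of_hall hH) (maximal_of_hall hK)⟩
  obtain ⟨H, -, hH⟩ := Finite.exists_le_maximal (p := IsPiSubgroup π) (a := (⊥ : Subgroup G))
    (fun p hp hd => by rw [card_bot] at hd; exact absurd (Nat.dvd_one.1 hd) hp.ne_one)
  refine ⟨H, hH.1, fun p hp hπ hd => ?_⟩
  have := Fact.mk hp
  obtain ⟨P⟩ : Nonempty (Sylow p G) := inferInstance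
  obtain ⟨K, hPK, hK⟩ := Finite.exists_le_maximal (p := IsPiSubgroup π) (a := (P : Subgroup G))
    (fun r hr hd => by
      obtain ⟨k, hk⟩ := IsPGroup.iff_card.1 P.isPGroup'
      rw [hk] at hd
      rwa [(Nat.prime_dvd_prime_iff_eq hr hp).1 (hr.dvd_of_dvd_pow hd)])
  obtain ⟨g, hg⟩ := h H K hH hK
  refine P.not_dvd_index (dvd_trans ?_ (index_dvd_of_le hPK))
  rwa [hg, index_map_of_bijective (MulAut.conj g).bijective]

theorem d_of_triv (h : (∀ r s : ℕ, r.Prime → s.Prime → r ∈ π → s ∈ π → r ∣ Nat.card G →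
    s ∣ Nat.card G → r = s) ∨ ∀ r : ℕ, r.Prime → r ∣ Nat.card G → r ∈ π) : IsDPiGroup π G := by
  intro H K hH hK
  rcases h with h | h
  swap
  · have ht : IsPiSubgroup π (⊤ : Subgroup G) := fun r hr hd => h r hr (by rwa [card_top] at hd)
    exact ⟨1, by rw [hK.eq_of_le ht le_top, hH.eq_of_le ht le_top,
      map_top_of_surjective _ (MulAut.conj 1).surjective]⟩
  by_cases h1 : ∃ p : ℕ, p.Prime ∧ p ∈ π ∧ p ∣ Nat.card G
  · obtain ⟨p, hp, hπ, hd⟩ := h1
    have := Fact.mk hp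
    have key : ∀ H : Subgroup G, Maximal (IsPiSubgroup π) H → ∃ P : Sylow p G, H = P := by
      intro H hH
      obtain ⟨P, hP⟩ := (IsPGroup.of_card (Nat.eq_prime_pow_of_unique_prime_dvd Nat.card_pos.ne'
        fun {r} hr hrd => h r p hr hp (hH.1 r hr hrd) hπ (hrd.trans H.card_subgroup_dvd_card)
          hd)).exists_le_sylow
      refine ⟨P, hH.eq_of_le (fun r hr hd => ?_) hP⟩
      obtain ⟨k, hk⟩ := IsPGroup.iff_card.1 P.isPGroup'
      rw [hk] at hd
      rwa [(Nat.prime_dvd_prime_iff_eq hr hp).1 (hr.dvd_of_dvd_pow hd)]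
    obtain ⟨P, rfl⟩ := key H hH
    obtain ⟨Q, rfl⟩ := key K hK
    obtain ⟨g, rfl⟩ := exists_smul_eq G P Q
    exact ⟨g, rfl⟩
  · have key : ∀ H : Subgroup G, IsPiSubgroup π H → H = ⊥ := fun H hH =>
      card_eq_one.1 (Nat.eq_one_iff_not_exists_prime_dvd.2 fun r hr hd =>
        h1 ⟨r, hr, hH r hr hd, hd.trans H.card_subgroup_dvd_card⟩)
    exact ⟨1, by rw [key H hH.1, key K hK.1, Subgroup.map_bot]⟩

end general

variable {α : Type*} [Fintype α] [DecidableEq α] {π : Set ℕ} {G : Subgroup (Perm α)}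

theorem hyp_of_hall (hA : alternatingGroup α ≤ G) {H : Subgroup (Perm α)}
    (h : IsPiHallOf π H G) : Hyp π H :=
  ⟨h.2.1, fun p hp hπ hd => h.2.2 p hp hπ (hd.trans (relIndex_dvd_of_normalizer hA le_rfl
    (by rw [normalizer_eq_top]; exact le_top) (inf_le_right)))⟩

theorem relIndex_stabilizer (hA : alternatingGroup α ≤ G) {T : Finset α} (h2 : 2 ≤ T.card) :
    (stabilizer (Perm α) T).relIndex G = (Fintype.card α).choose T.card := by
  rw [← CL.SR.ncard_orbit_eq_relIndex, ← Finset.card_univ, ← Finset.card_powersetCard,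
    ← Set.ncard_coe_finset]
  congr 1
  ext U
  simp only [Finset.mem_coe, Finset.mem_powersetCard, Finset.subset_univ, true_and]
  refine ⟨by rintro ⟨g, rfl⟩; exact Finset.card_smul_finset g T, fun h => ?_⟩
  obtain ⟨τ, hτ, h'⟩ := exists_mem_altOn_map (Finset.subset_univ T) (Finset.subset_univ U) h.symm h2
  refine ⟨⟨τ, hA hτ.2⟩, Finset.ext fun x => ?_⟩
  change x ∈ τ • T ↔ _
  rw [← Finset.inv_smul_mem_iff, ← h']
  simp

omit [Fintype α] in
theorem mem_stabilizer_iff' {T : Finset α} {g : Perm α} :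
    g ∈ stabilizer (Perm α) T ↔ ∀ z, g z ∈ (T : Set α) ↔ z ∈ (T : Set α) :=
  ⟨fun h z => by
    conv_lhs => rw [← mem_stabilizer_iff.1 h]
    exact Finset.smul_mem_smul_finset_iff g, fun h => smul_eq_of_inv fun x => (h x).2⟩

theorem halves_le {T : Finset α} (h : 2 * T.card ≠ Fintype.card α) :
    halvesStab (T : Set α) ≤ stabilizer (Perm α) T := by
  rintro g (hg | hg)
  · exact mem_stabilizer_iff'.2 hg
  · have : g • Tᶜ = T := Finset.ext fun x => by
      rw [← Finset.inv_smul_mem_iff, Finset.mem_compl, ← Finset.mem_coe, ← hg]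
      simp
    have h1 := congrArg Finset.card this
    have h2 := Finset.card_add_card_compl T
    rw [Finset.card_smul_finset] at h1
    omega

theorem relIndex_halves (hA : alternatingGroup α ≤ G) {T : Finset α} (h2 : 2 ≤ T.card) :
    (if 2 * T.card = Fintype.card α then 2 else 1) * (halvesStab (T : Set α)).relIndex G =
      (Fintype.card α).choose T.card := by
  rw [← relIndex_stabilizer hA h2, ← inf_eq_left.2 (show stabilizer (Perm α) T ≤ halvesStab ↑T from
    fun g hg => Or.inl (mem_stabilizer_iff'.1 hg)), ← relIndex_inf_mul_relIndex]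
  congr 1
  split_ifs with h
  swap
  · exact (relIndex_eq_one.2 (inf_le_left.trans (halves_le h))).symm
  obtain ⟨τ, hτ, h'⟩ := exists_mem_altOn_map (Finset.subset_univ T) (Finset.subset_univ Tᶜ)
    (by rw [Finset.card_compl]; omega) h2
  simp only [Finset.mem_compl] at h'
  obtain ⟨x, hx⟩ := Finset.card_pos.1 (show 0 < T.card by omega)
  refine (relIndex_eq_two_iff.2 ⟨τ, mem_inf.2 ⟨Or.inr fun z => iff_not_comm.1
    (h' z).symm, hA hτ.2⟩, ?_⟩).symm
  simp only [mem_stabilizer_iff', mul_apply, Finset.mem_coe]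
  rintro g ⟨hg | hg, -⟩
  · exact Or.inr ⟨hg, fun e => (h' x).2 hx ((hg _).1 ((e x).2 hx))⟩
  · exact Or.inl ⟨fun z => (hg _).trans (h' z), fun e => (hg x).1 ((e x).2 hx) hx⟩

theorem hall_halves (hA : alternatingGroup α ≤ G) {T : Finset α} (h2 : 2 ≤ T.card)
    (h : Typ (Fintype.card α) π T.card) : IsPiHallOf π (halvesStab (T : Set α) ⊓ G) G := by
  have h1 := relIndex_halves hA h2
  have h3 : Nat.card ↥(halvesStab (T : Set α) ⊓ G) * (halvesStab (T : Set α)).relIndex G ∣
      (Fintype.card α).factorial := by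
    rw [card_inf_mul_relIndex, ← Fintype.card_perm, ← Nat.card_eq_fintype_card]
    exact card_subgroup_dvd_card G
  rw [IsPiHallOf, inf_relIndex_right]
  generalize (halvesStab (T : Set α)).relIndex G = i at *
  generalize Nat.card ↥(halvesStab (T : Set α) ⊓ G) = c at *
  generalize T.card = k at *
  generalize Fintype.card α = n at *
  refine ⟨inf_le_right, ?_⟩
  rcases h with ⟨hn, rfl, h⟩ | ⟨hn, rfl, h⟩
  · rw [if_neg (by omega), one_mul, Nat.choose_succ_self_right] at h1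
    subst h1
    rw [Nat.factorial_succ, mul_comm, Nat.mul_dvd_mul_iff_left (by omega)] at h3
    refine ⟨fun p hp hd => ?_, fun p hp hπ hd => ?_⟩
    · have := hp.dvd_factorial.1 (hd.trans h3)
      exact (h p hp (by omega)).2 (by omega)
    · obtain rfl := (Nat.prime_dvd_prime_iff_eq hp hn).1 hd
      exact lt_irrefl _ ((h _ hp le_rfl).1 hπ)
  · obtain rfl : i = 35 := by rcases hn with rfl | rfl <;> simp [Nat.choose] at h1 <;> omega
    have h4 : c ∣ 2 ^ 7 * 3 ^ 2 := Nat.dvd_of_mul_dvd_mul_right (k := 35) (by norm_num)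
      (h3.trans (by rcases hn with rfl | rfl <;> decide))
    refine ⟨fun p hp hd => ?_, fun p hp hπ hd => ?_⟩
    · have : p = 2 ∨ p = 3 := (hp.dvd_mul.1 (hd.trans h4)).imp
        (fun e => (Nat.prime_dvd_prime_iff_eq hp Nat.prime_two).1 (hp.dvd_of_dvd_pow e))
        fun e => (Nat.prime_dvd_prime_iff_eq hp Nat.prime_three).1 (hp.dvd_of_dvd_pow e)
      exact (h p hp (by omega)).2 this
    · have : p = 5 ∨ p = 7 := ((hp.dvd_mul (m := 5) (n := 7)).1 hd).imp
        (Nat.prime_dvd_prime_iff_eq hp (by norm_num)).1 (Nat.prime_dvd_prime_iff_eq hp (by norm_num)).1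
      have := (h p hp (by omega)).1 hπ
      omega

theorem Typ.eq {n k l : ℕ} (h : Typ n π k) (h' : Typ n π l) : k = l := by
  rcases h with ⟨-, h1, h⟩ | ⟨h0, h1, h⟩ <;> rcases h' with ⟨-, h2, h'⟩ | ⟨h0', h2, h'⟩
  · omega
  · have := (h' 5 (by norm_num) (by omega)).1 ((h 5 (by norm_num) (by omega)).2 (by omega))
    omega
  · have := (h 5 (by norm_num) (by omega)).1 ((h' 5 (by norm_num) (by omega)).2 (by omega))
    omega
  · omega

/-- At least two but not all primes up to `n` lie in `π`. -/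
def Prop2 (n : ℕ) (π : Set ℕ) : Prop :=
  (∃ r s : ℕ, r.Prime ∧ s.Prime ∧ r ≠ s ∧ r ∈ π ∧ s ∈ π ∧ r ≤ n ∧ s ≤ n) ∧
    ∃ r : ℕ, r.Prime ∧ r ≤ n ∧ r ∉ π

theorem Prop2.five_le {n : ℕ} (h : Prop2 n π) : 5 ≤ n := by
  obtain ⟨⟨r, s, hr, hs, h1, h2, h3, h4, h5⟩, t, ht, h6, h7⟩ := h
  have h8 : t ≠ r := fun e => h7 (e ▸ h2)
  have h9 : t ≠ s := fun e => h7 (e ▸ h3)
  have key : ∀ p : ℕ, p.Prime → p ≤ 4 → p = 2 ∨ p = 3 := fun p hp h => by
    interval_cases p <;> simp_all (decide := true)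
  by_contra h
  have := key r hr (by omega)
  have := key s hs (by omega)
  have := key t ht (by omega)
  omega

theorem Typ.two_le {n k : ℕ} (h : Typ n π k) (h5 : 5 ≤ n) : 2 ≤ k ∧ k ≤ n := by
  rcases h with ⟨-, h1, -⟩ | ⟨h0, h1, -⟩ <;> omega

theorem exists_halves (h : Prop2 (Fintype.card α) π) (hA : alternatingGroup α ≤ G)
    {H : Subgroup (Perm α)} (hH : IsPiHallOf π H G) :
    ∃ T : Finset α, H = halvesStab (T : Set α) ⊓ G ∧ Typ (Fintype.card α) π T.card := by
  have h5 := h.five_le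
  obtain ⟨⟨r, s, hr, hs, h1, h2, h3, h4, h5'⟩, t, ht, h6, h7⟩ := h
  obtain ⟨T, hT, hT'⟩ := (hyp_of_hall hA hH).classify hr hs h1 h2 h3 h4 h5' ht h6 h7
  exact ⟨T, CL.IsPiHallOf.eq_of_le hH (le_inf hT hH.1) inf_le_right
    (hall_halves hA (hT'.two_le h5).1 hT').2.1, hT'⟩

theorem exists_hall (h5 : 5 ≤ Fintype.card α) (hA : alternatingGroup α ≤ G) {k : ℕ}
    (h : Typ (Fintype.card α) π k) : ∃ H, IsPiHallOf π H G := by
  obtain ⟨T, -, rfl⟩ := Finset.exists_subset_card_eq (s := (Finset.univ : Finset α)) (h.two_le h5).2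
  exact ⟨_, hall_halves hA (h.two_le h5).1 h⟩

omit [Fintype α] [DecidableEq α] in
theorem conj_mem_halves {T U : Set α} {τ g : Perm α} (h : ∀ x, τ x ∈ U ↔ x ∈ T)
    (hg : g ∈ halvesStab T) : τ * g * τ⁻¹ ∈ halvesStab U := by
  have h' : ∀ x, τ⁻¹ x ∈ T ↔ x ∈ U := fun x => by rw [← h]; simp
  exact hg.imp (fun e z => by rw [mul_apply, mul_apply, h, e, h'])
    fun e z => by rw [mul_apply, mul_apply, h, e, h']

theorem exists_conj (h : Prop2 (Fintype.card α) π) (hA : alternatingGroup α ≤ G)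
    {H K : Subgroup (Perm α)} (hH : IsPiHallOf π H G) (hK : IsPiHallOf π K G) :
    ∃ g ∈ G, K = H.map (MulAut.conj g).toMonoidHom := by
  obtain ⟨T, e1, hT⟩ := exists_halves h hA hH
  obtain ⟨U, e2, hU⟩ := exists_halves h hA hK
  obtain ⟨τ, hτ, h'⟩ := exists_mem_altOn_map (Finset.subset_univ T) (Finset.subset_univ U)
    (hT.eq hU) (hT.two_le h.five_le).1
  have h1 := CL.IsPiHallOf.conj_smul_of_mem_normalizer hH (le_normalizer (hA hτ.2))
  refine ⟨τ, hA hτ.2, (CL.IsPiHallOf.eq_of_le h1 ?_ hK.1 hK.2.1).symm⟩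
  rw [e2]
  refine le_inf ?_ h1.1
  rintro _ ⟨g, hg, rfl⟩
  exact conj_mem_halves h' (e1 ▸ hg : g ∈ halvesStab (T : Set α) ⊓ G).1

omit [DecidableEq α] in
theorem triv_of_not (h : ¬ Prop2 (Fintype.card α) π) {X : Type*} [Group X] [Finite X]
    (hX : Nat.card X ∣ (Fintype.card α).factorial) : IsDPiGroup π X := by
  refine d_of_triv (or_iff_not_imp_left.2 fun h1 r hr hd => by_contra fun h2 => h ⟨?_, r, hr,
    hr.dvd_factorial.1 (hd.trans hX), h2⟩)
  push Not at h1
  obtain ⟨r, s, hr, hs, h3, h4, h5, h6, h7⟩ := h1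
  exact ⟨r, s, hr, hs, h7, h3, h4, hr.dvd_factorial.1 (h5.trans hX),
    hs.dvd_factorial.1 (h6.trans hX)⟩

theorem card_dvd (G : Subgroup (Perm α)) : Nat.card G ∣ (Fintype.card α).factorial := by
  rw [← Fintype.card_perm, ← Nat.card_eq_fintype_card]
  exact card_subgroup_dvd_card G

theorem card_perm_dvd : Nat.card (Perm α) ∣ (Fintype.card α).factorial := by
  rw [← Fintype.card_perm, ← Nat.card_eq_fintype_card]

theorem c_perm (h : IsEPiGroup π (Perm α)) : IsCPiGroup π (Perm α) := by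
  by_cases h1 : Prop2 (Fintype.card α) π
  · exact ⟨h, fun H K hH hK => (exists_conj h1 le_top (CL.isPiHallOf_top.2 hH)
      (CL.isPiHallOf_top.2 hK)).imp fun _ h => h.2⟩
  · exact c_of_d (triv_of_not h1 card_perm_dvd)

theorem c_alt (h : IsEPiGroup π (alternatingGroup α)) : IsCPiGroup π (alternatingGroup α) := by
  by_cases h1 : Prop2 (Fintype.card α) π
  · refine ⟨h, fun H K hH hK => ?_⟩
    obtain ⟨g, hg, e⟩ := exists_conj h1 le_rfl (CL.isPiHallOf_map_subtype_iff.2 hH)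
      (CL.isPiHallOf_map_subtype_iff.2 hK)
    exact ⟨⟨g, hg⟩, map_injective (subtype_injective _) (by rw [e, map_map, map_map]; rfl)⟩
  · exact c_of_d (triv_of_not h1 (card_dvd _))

theorem e_iff : IsEPiGroup π (Perm α) ↔ IsEPiGroup π (alternatingGroup α) := by
  refine ⟨fun ⟨H, h⟩ => ⟨_, CL.IsPiHall.subgroupOf_normal h _⟩, fun ⟨H, h⟩ => ?_⟩
  by_cases h1 : Prop2 (Fintype.card α) π
  · obtain ⟨T, -, hT⟩ := exists_halves h1 le_rfl (CL.isPiHallOf_map_subtype_iff.2 h)
    exact (exists_hall h1.five_le le_top hT).imp fun _ => CL.isPiHallOf_top.1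
  · exact (c_of_d (triv_of_not h1 card_perm_dvd)).1

theorem exists_bad {n k : ℕ} (h5 : 5 ≤ n) (h : Typ n π k) : ∃ K : Subgroup (Perm (Fin n)),
    K ≤ alternatingGroup (Fin n) ∧ IsPiSubgroup π K ∧
      ∀ T : Finset (Fin n), T.card = k → ¬ K ≤ halvesStab (T : Set (Fin n)) := by
  have key : ∀ B : Finset (Finset (Fin n)), B.biUnion id = Finset.univ →
      Nat.card ↥(stabilizer (Perm (Fin n)) B ⊓ alternatingGroup (Fin n)) ∣
        (∏ S ∈ B, S.card.factorial) * B.card.factorial := fun B hB =>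
    card_dvd_prod' B _ (by rw [hB, permOn_univ]; exact le_top) fun g hg T hT =>
      hg.1 ▸ Finset.smul_mem_smul_finset (a := g) hT
  rcases h with ⟨hn, rfl, h⟩ | ⟨hn, rfl, h⟩
  · obtain ⟨S, -, hS⟩ := Finset.exists_subset_card_eq (s := (Finset.univ : Finset (Fin (k + 1))))
      (n := 2) (by simp; omega)
    have hS' : Sᶜ.card = k - 1 := by rw [Finset.card_compl, hS]; simp
    refine ⟨stabilizer _ S ⊓ alternatingGroup _, inf_le_right, fun p hp hd => ?_, fun T hT hle => ?_⟩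
    · have := card_dvd_prod {S, Sᶜ} (stabilizer _ S ⊓ alternatingGroup _)
        (by simp [permOn_univ]) fun g hg U hU x hx => by
          have := mem_stabilizer_iff'.1 hg.1 x
          rcases Finset.mem_insert.1 hU with rfl | hU
          · exact this.2 hx
          · rw [Finset.mem_singleton.1 hU, Finset.mem_compl] at hx ⊢
            exact fun h' => hx (this.1 h')
      rw [Finset.prod_pair (fun e => by have := congrArg Finset.card e; omega), hS, hS'] at this
      have := (hp.dvd_mul.1 (hd.trans this)).imp hp.dvd_factorial.1 hp.dvd_factorial.1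
      exact (h p hp (by omega)).2 (by omega)
    obtain ⟨w, hw⟩ := Finset.card_eq_one.1 (show Tᶜ.card = 1 by rw [Finset.card_compl, hT]; simp)
    have hw' : ∀ x, x ∉ T ↔ x = w := fun x => by rw [← Finset.mem_compl, hw, Finset.mem_singleton]
    have fix : ∀ g ∈ stabilizer (Perm (Fin (k + 1))) S ⊓ alternatingGroup _, g w = w :=
      fun g hg => (hw' _).1 fun h' => (hw' w).2 rfl
        ((mem_stabilizer_iff'.1 (halves_le (by simp; omega) (hle hg)) w).1 h')
    have st : ∀ g ∈ permOn Sᶜ, g ∈ stabilizer (Perm (Fin (k + 1))) S := fun g hg =>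
      smul_eq_of_inv fun x hx => by rwa [mem_permOn.1 hg x (by simpa using hx)]
    by_cases hwS : w ∈ S
    · obtain ⟨u, hu, huw⟩ := Finset.exists_mem_ne (hS ▸ one_lt_two) w
      obtain ⟨a, ha, b, hb, hab⟩ := Finset.one_lt_card.1 (show 1 < Sᶜ.card by omega)
      have := fix (swap w u * swap a b) ⟨mul_mem (smul_eq_of_inv fun _ =>
        apply_mem_of_mem_permOn (swap_mem_permOn hwS hu)) (st _ (swap_mem_permOn ha hb)),
        mul_mem_alternatingGroup_of_isSwap ⟨_, _, huw.symm, rfl⟩ ⟨_, _, hab, rfl⟩⟩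
      rw [mul_apply, mem_permOn.1 (swap_mem_permOn ha hb) w (by simpa using hwS),
        swap_apply_left] at this
      exact huw this
    · obtain ⟨u, hu, huw⟩ := Finset.exists_mem_ne (show 1 < Sᶜ.card by omega) w
      obtain ⟨g, hg, e⟩ := exists_altOn_apply (show 3 ≤ Sᶜ.card by omega)
        (Finset.mem_compl.2 hwS) hu
      exact huw (e.symm.trans (fix g ⟨st g hg.1, hg.2⟩))
  have h23 : ∀ c : ℕ, c ∣ 2 ^ 7 * 3 → ∀ p : ℕ, p.Prime → p ∣ c → p ∈ π := fun c hc p hp hd => by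
    have : p = 2 ∨ p = 3 := (hp.dvd_mul.1 (hd.trans hc)).imp
      (fun e => (Nat.prime_dvd_prime_iff_eq hp Nat.prime_two).1 (hp.dvd_of_dvd_pow e))
      (Nat.prime_dvd_prime_iff_eq hp Nat.prime_three).1
    exact (h p hp (by omega)).2 this
  rcases hn with rfl | rfl
  · refine ⟨_, inf_le_right, h23 _ ((key {{0, 1}, {2, 3}, {4, 5}, {6}} (by decide)).trans
      (by decide)), fun T hT hle => ?_⟩
    have h1 := hle (x := swap 0 2 * swap 2 4 * (swap 1 3 * swap 3 5)) 
      ⟨mem_stabilizer_iff.2 (by decide), mem_alternatingGroup.2 (by decide)⟩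
    have h2 := hle (x := swap 0 1 * swap 2 3) 
      ⟨mem_stabilizer_iff.2 (by decide), mem_alternatingGroup.2 (by decide)⟩
    simp only [halvesStab, mem_mk, Submonoid.mem_mk, Subsemigroup.mem_mk, Set.mem_ofPred_eq,
      Finset.mem_coe] at h1 h2
    clear hle
    revert T
    decide +kernel
  · refine ⟨_, inf_le_right, h23 _ ((key {{0, 1}, {2, 3}, {4, 5}, {6, 7}} (by decide)).trans
      (by decide)), fun T hT hle => ?_⟩
    have h1 := hle (x := swap 0 2 * swap 2 4 * (swap 1 3 * swap 3 5)) 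
      ⟨mem_stabilizer_iff.2 (by decide), mem_alternatingGroup.2 (by decide)⟩
    have h2 := hle (x := swap 0 1 * swap 2 3) 
      ⟨mem_stabilizer_iff.2 (by decide), mem_alternatingGroup.2 (by decide)⟩
    simp only [halvesStab, mem_mk, Submonoid.mem_mk, Subsemigroup.mem_mk, Set.mem_ofPred_eq,
      Finset.mem_coe] at h1 h2
    clear hle
    revert T
    decide +kernel

theorem not_d {n : ℕ} (h : Prop2 n π) : ¬ IsDPiGroup π (alternatingGroup (Fin n)) := by
  intro hD
  obtain ⟨H, hH⟩ := (c_of_d hD).1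
  obtain ⟨T, e, hT⟩ := exists_halves (α := Fin n) (by simpa using h) le_rfl
    (CL.isPiHallOf_map_subtype_iff.2 hH)
  rw [Fintype.card_fin] at hT
  obtain ⟨K, hK, h1, h2⟩ := exists_bad h.five_le hT
  obtain ⟨M, hKM, hM⟩ := Finite.exists_le_maximal (p := IsPiSubgroup π)
    (a := K.subgroupOf (alternatingGroup (Fin n))) fun p hp hd => h1 p hp
      (by rwa [Nat.card_congr (subgroupOfEquivOfLe hK).toEquiv] at hd)
  obtain ⟨g, rfl⟩ := hD H M (maximal_of_hall hH) hM
  refine h2 ((g : Perm (Fin n)) • T) (Finset.card_smul_finset _ _) fun x hx => ?_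
  obtain ⟨y, hy, e'⟩ := hKM (x := ⟨x, hK hx⟩) hx
  have : x = g * y * (g : Perm (Fin n))⁻¹ := (congrArg Subtype.val e').symm
  exact this ▸ conj_mem_halves (fun z => Finset.smul_mem_smul_finset_iff (g : Perm (Fin n)))
    (e ▸ mem_map_of_mem _ hy : (y : Perm (Fin n)) ∈ halvesStab (T : Set (Fin n)) ⊓ _).1

end CL.HallSym
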