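import Cfsg.Agent.KSG.IrrTv
import Cfsg.Agent.S0801

/-!
# Producing full transvection groups; regular nilpotent maps
-/

set_option autoImplicit false
set_option linter.unusedSectionVars false

namespace CL.KSG.Irr

open Matrix Module Cfsg Cfsg.Geo CL.Tv

section field

variable {E : Type*} [Field E] [Finite E]

/-- An additive subgroup closed under multiplication by a field generator. -/
theorem addSubgroup_mul_mem (A : AddSubgroup E) {lam : E}
    (hgen : Subfield.closure ({lam} : Set E) = ⊤) (h : ∀ a ∈ A, lam * a ∈ A) (c : E) :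
    ∀ a ∈ A, c * a ∈ A := by
  let R : Subfield E :=
    { carrier := {c | ∀ a ∈ A, c * a ∈ A}
      mul_mem' := fun {c d} hc hd a ha => by rw [mul_assoc]; exact hc _ (hd a ha)
      one_mem' := fun a ha => by rwa [one_mul]
      add_mem' := fun {c d} hc hd a ha => by rw [add_mul]; exact A.add_mem (hc a ha) (hd a ha)
      zero_mem' := fun a _ => by rw [zero_mul]; exact A.zero_mem
      neg_mem' := fun {c} hc a ha => by rw [neg_mul]; exact A.neg_mem (hc a ha)
      inv_mem' := fun c hc => by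
        have hpow : ∀ k : ℕ, ∀ a ∈ A, c ^ k * a ∈ A := by
          intro k
          induction k with
          | zero => intro a ha; simpa using ha
          | succ k ih => intro a ha; rw [pow_succ, mul_assoc]; exact ih _ (hc a ha)
        by_cases h0 : c = 0
        · intro a _; simp [h0]
        have := Fintype.ofFinite E
        have h1 : c⁻¹ = c ^ (Fintype.card E - 2) := by
          have h2 := FiniteField.pow_card_sub_one_eq_one c h0
          have h3 : Fintype.card E - 1 = Fintype.card E - 2 + 1 := by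
            have := Fintype.one_lt_card (α := E); omega
          rw [h3, pow_succ] at h2
          exact (eq_inv_of_mul_eq_one_left h2).symm
        rw [h1]; exact hpow _ }
  have : Subfield.closure ({lam} : Set E) ≤ R := Subfield.closure_le.2 (by rintro _ rfl; exact h)
  rw [hgen] at this
  exact this (Subfield.mem_top c)

/-- A power of a primitive element generates the field unless it lies in a proper subfield. -/
theorem closure_eq_top_of_order [Fintype E] {lam : E} (h0 : lam ≠ 0)
    (h : ∀ e d : ℕ, 2 ≤ e → 2 ≤ d → Fintype.card E = e ^ d → lam ^ (e - 1) ≠ 1) :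
    Subfield.closure ({lam} : Set E) = ⊤ := by
  classical
  set S := Subfield.closure ({lam} : Set E)
  have hd := Module.card_eq_pow_finrank (K := S) (V := E)
  have h2 : 2 ≤ Fintype.card S := Fintype.one_lt_card
  by_cases h1 : finrank S E = 1
  · rw [h1, pow_one] at hd
    apply SetLike.coe_injective
    rw [Subfield.coe_top]
    apply Set.eq_of_subset_of_ncard_le (Set.subset_univ _)
    rw [Set.ncard_univ, Nat.card_eq_fintype_card, hd, ← Nat.card_eq_fintype_card]
    rfl
  · exfalso
    have h3 : 0 < finrank S E := Module.finrank_pos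
    refine h _ _ h2 (by omega) hd ?_
    have hm : lam ∈ S := Subfield.subset_closure rfl
    have := FiniteField.pow_card_sub_one_eq_one (⟨lam, hm⟩ : S) (fun e => h0 (congrArg Subtype.val e))
    exact congrArg Subtype.val this

theorem closure_eq_top_of_mem {lam mu : E} (h : Subfield.closure ({mu} : Set E) = ⊤)
    (hm : mu ∈ Subfield.closure ({lam} : Set E)) : Subfield.closure ({lam} : Set E) = ⊤ := by
  rw [eq_top_iff, ← h, Subfield.closure_le]
  rintro _ rfl
  exact hm

/-- a primitive element, with the exponents of its powers -/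
theorem exists_prim [Fintype E] : ∃ w : E, w ≠ 0 ∧ ∀ k : ℕ, w ^ k = 1 → Fintype.card E - 1 ∣ k := by
  classical
  obtain ⟨g, hg⟩ := IsCyclic.exists_ofOrder_eq_natCard (α := Eˣ)
  refine ⟨g, g.ne_zero, fun k hk => ?_⟩
  rw [← Fintype.card_units, ← Nat.card_eq_fintype_card, ← hg, orderOf_dvd_iff_pow_eq_one]
  exact Units.ext (by simpa using hk)

theorem geom_le {e d m : ℕ} (he : 2 ≤ e) (hd : 2 ≤ d) (hm : 0 < m) (h : e ^ d - 1 ∣ m * (e - 1)) :
    e + 1 ≤ m ∧ (d = 2 ∨ e ^ 2 + e + 1 ≤ m) ∧ (d = 2 → e + 1 ∣ m) := by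
  obtain ⟨f, rfl⟩ : ∃ f, e = f + 1 := ⟨e - 1, by omega⟩
  have hf : 0 < f := by omega
  have h1 := Nat.le_of_dvd (by simp; omega) h
  simp only [Nat.add_sub_cancel] at h h1
  have h2 : (f + 1) ^ 2 ≤ (f + 1) ^ d := Nat.pow_le_pow_right (by omega) hd
  refine ⟨?_, ?_, ?_⟩
  · have : f * (f + 2) ≤ f * m := by
      have : (f + 1) ^ 2 = f * (f + 2) + 1 := by ring
      rw [mul_comm f m]; omega
    have := Nat.le_of_mul_le_mul_left this hf
    omega
  · by_cases h3 : d = 2
    · exact Or.inl h3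
    · right
      have h4 : (f + 1) ^ 3 ≤ (f + 1) ^ d := Nat.pow_le_pow_right (by omega) (by omega)
      have : f * ((f + 1) ^ 2 + (f + 1) + 1) ≤ f * m := by
        have : (f + 1) ^ 3 = f * ((f + 1) ^ 2 + (f + 1) + 1) + 1 := by ring
        rw [mul_comm f m]; omega
      exact Nat.le_of_mul_le_mul_left this hf
  · rintro rfl
    have : (f + 1) ^ 2 - 1 = (f + 1 + 1) * f := by
      have : (f + 1) ^ 2 = (f + 1 + 1) * f + 1 := by ring
      omega
    rw [this] at h
    exact Nat.dvd_of_mul_dvd_mul_right hf h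

/-- a primitive element and its square generate the field -/
theorem exists_gen [Fintype E] : ∃ w : E, w ≠ 0 ∧ (∀ k : ℕ, w ^ k = 1 → Fintype.card E - 1 ∣ k) ∧
    Subfield.closure ({w} : Set E) = ⊤ ∧ Subfield.closure ({w ^ 2} : Set E) = ⊤ := by
  obtain ⟨w, h0, hw⟩ := exists_prim (E := E)
  have h2 : Subfield.closure ({w ^ 2} : Set E) = ⊤ := by
    refine closure_eq_top_of_order (pow_ne_zero _ h0) fun e d he hd hc h => ?_
    rw [← pow_mul] at h
    have := hw _ h
    rw [hc] at this
    have := (geom_le he hd (by norm_num) this).1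
    omega
  exact ⟨w, h0, hw, closure_eq_top_of_mem h2
    (pow_mem (Subfield.subset_closure (Set.mem_singleton w)) 2), h2⟩

theorem closure_eq_top_of_prime [Fintype E] (hp : (Fintype.card E).Prime) (lam : E) :
    Subfield.closure ({lam} : Set E) = ⊤ := by
  classical
  set S := Subfield.closure ({lam} : Set E)
  have hd := Module.card_eq_pow_finrank (K := S) (V := E)
  have h1 : finrank S E = 1 := by
    rw [hd] at hp
    exact (Nat.Prime.eq_one_of_pow hp)
  rw [h1, pow_one] at hd
  apply SetLike.coe_injective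
  rw [Subfield.coe_top]
  apply Set.eq_of_subset_of_ncard_le (Set.subset_univ _)
  rw [Set.ncard_univ, Nat.card_eq_fintype_card, hd, ← Nat.card_eq_fintype_card]
  rfl

end field

variable {ι : Type} [Fintype ι] [DecidableEq ι] {F : Type*} [Field F] {K : Subgroup (GL ι F)}

section gen

variable {E : Type*} [Field E] [Finite E] (σ : E →+* F)

/-- the parameters of the transvections with given centre and axis -/
def par (K : Subgroup (GL ι F)) {x : ι → F} {φ : Dual F (ι → F)} (h0 : φ x = 0) : AddSubgroup E where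
  carrier := {a | HasTv K x (σ a • φ)}
  add_mem' {a b} ha hb := by
    change HasTv K x _
    rw [map_add, add_smul]
    exact ha.add_right hb (by simp [h0])
  zero_mem' := by
    change HasTv K x _
    rw [map_zero, zero_smul]
    exact HasTv.zero_right x
  neg_mem' {a} ha := by
    change HasTv K x (σ (-a) • φ)
    have : σ (-a) • φ = -(σ a • φ) := LinearMap.ext fun v => by simp
    rw [this]
    exact ha.neg_right (by simp [h0])

theorem all_of_mul {x : ι → F} {φ : Dual F (ι → F)} (h0 : φ x = 0) (h : HasTv K x φ) {lam : E}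
    (hgen : Subfield.closure ({lam} : Set E) = ⊤)
    (hl : ∀ a : E, HasTv K x (σ a • φ) → HasTv K x (σ (lam * a) • φ)) (a : E) :
    HasTv K x (σ a • φ) := by
  have := addSubgroup_mul_mem (par σ K h0) hgen hl a 1 (by
    change HasTv K x _
    simpa using h)
  rwa [mul_one] at this

/-- Dickson's lemma in a plane. -/
theorem all_of_dickson [Fintype E] (h2 : (2 : E) ≠ 0) {lam : E} (hlam : lam ≠ 0)
    (hgen : Subfield.closure ({lam} : Set E) = ⊤) (hex : ¬ (Fintype.card E = 9 ∧ lam ^ 2 = -1))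
    {x y : ι → F} {φ ψ : Dual F (ι → F)} (hφ : φ x = 0) (hψ : ψ y = 0) (hψx : ψ x = 1)
    (hφy : φ y = σ lam) (ht : HasTv K x φ) {g : GL ι F} (hg : g ∈ K) (gx : act g x = x + y)
    (gy : act g y = y) (gN : ∀ v, φ v = 0 → ψ v = 0 → φ (act g v) = 0 ∧ ψ (act g v) = 0) (a : E) :
    HasTv K x (σ a • φ) := by
  have hcl := (Cfsg.Agent.S0801.result h2 lam hlam hgen).resolve_right
    (fun h => hex ⟨h.1, h.2.1⟩) |>.1
  have hl : σ lam ≠ 0 := by simpa using hlam
  have key : ∀ m : SpecialLinearGroup (Fin 2) E, ∃ k ∈ K,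
      act k x = σ (m 0 0) • x + σ (m 1 0) • y ∧ act k y = σ (m 0 1) • x + σ (m 1 1) • y ∧
      ∀ v, φ v = 0 → ψ v = 0 → φ (act k v) = 0 ∧ ψ (act k v) = 0 := by
    intro m
    have hm : m ∈ Submonoid.closure {g : SpecialLinearGroup (Fin 2) E |
        (g : Matrix (Fin 2) (Fin 2) E) = !![1, 0; 1, 1] ∨
        (g : Matrix (Fin 2) (Fin 2) E) = !![1, lam; 0, 1]} := by
      rw [← Subgroup.closure_toSubmonoid_of_finite, hcl]; trivial
    induction hm using Submonoid.closure_induction with
    | mem m hm =>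
      rcases hm with hm | hm
      · refine ⟨g, hg, ?_, ?_, gN⟩
        · simp [gx, hm]
        · simp [gy, hm]
      · obtain ⟨t, ht, e⟩ := ht
        refine ⟨t, ht, ?_, ?_, fun v h1 h2 => ?_⟩
        · simp [e, hm, hφ]
        · simp [e, hm, hφy, add_comm]
        · simp [e, h1, h2]
    | one => exact ⟨1, K.one_mem, by simp [act_one], by simp [act_one], fun v h1 h2 => by
        simp [act_one, h1, h2]⟩
    | mul m m' _ _ ih ih' =>
      obtain ⟨k, hk, h1, h2, h3⟩ := ih
      obtain ⟨k', hk', h1', h2', h3'⟩ := ih'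
      have hm : ∀ i j, (m * m') i j = m i 0 * m' 0 j + m i 1 * m' 1 j := fun i j => by
        change (m.1 * m'.1) i j = _
        rw [Matrix.mul_apply, Fin.sum_univ_two]
      refine ⟨k * k', K.mul_mem hk hk', ?_, ?_, fun v h4 h5 => ?_⟩
      · simp only [act_mul, h1', map_add, map_smul, h1, h2, hm, map_mul]; module
      · simp only [act_mul, h2', map_add, map_smul, h1, h2, hm, map_mul]; module
      · rw [act_mul]; exact h3 _ (h3' v h4 h5).1 (h3' v h4 h5).2
  have hsq : ∀ s : E, HasTv K x (σ (s ^ 2) • φ) := by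
    intro s
    by_cases hs : s = 0
    · simp [hs, HasTv.zero_right]
    obtain ⟨k, hk, h1, h2, h3⟩ := key ⟨!![s, 0; 0, s⁻¹], by simp [Matrix.det_fin_two, hs]⟩
    simp only [of_apply, cons_val', cons_val_zero, cons_val_one,
      cons_val_fin_one, map_zero, zero_smul, add_zero, zero_add] at h1 h2
    have hs' : σ s ≠ 0 := by simpa using hs
    have := ht.conj' hk h1 (φ' := σ s • φ) fun v => by
      have e : v = (v - ψ v • x - (φ v / σ lam) • y) + ψ v • x + (φ v / σ lam) • y := by abel
      have h4 := (h3 (v - ψ v • x - (φ v / σ lam) • y) (by simp [hφ, hφy, hl])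
        (by simp [hψx, hψ])).1
      conv_lhs => rw [e]
      simp only [map_add, map_smul, h1, h2, LinearMap.smul_apply, smul_eq_mul, h4, hφ, hφy, map_inv₀]
      field_simp
      ring
    rw [HasTv.smul_left_iff, smul_smul] at this
    rwa [map_pow, pow_two]
  have e : a = ((a + 1) / 2) ^ 2 - ((a - 1) / 2) ^ 2 := by field_simp; ring
  rw [e]
  exact (par σ K hφ).sub_mem (hsq _) (hsq _)

end gen

section two

/-- Two opposite transvections in characteristic two have a product of odd order. -/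
theorem odd_orderOf [Finite F] (h2 : (2 : F) = 0) {x y : ι → F} {φ ψ : Dual F (ι → F)}
    {t t' : GL ι F} (ht : ∀ v, act t v = v + φ v • x) (ht' : ∀ v, act t' v = v + ψ v • y)
    (hφ : φ x = 0) (hψ : ψ y = 0) (h1 : φ y ≠ 0) (h1' : ψ x ≠ 0) :
    t * t = 1 ∧ t' * t' = 1 ∧ Odd (orderOf (t * t')) := by
  have hinv : ∀ {x : ι → F} {φ : Dual F (ι → F)} {t : GL ι F},
      (∀ v, act t v = v + φ v • x) → φ x = 0 → t * t = 1 := by
    intro x φ t ht hφ
    refine ext_act fun v => ?_
    rw [act_mul, ht, ht, act_one, map_add, map_smul, hφ, smul_zero, add_zero, add_assoc, ← add_smul,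
      ← two_mul, h2, zero_mul, zero_smul, add_zero]
  have e1 := hinv ht hφ
  have e2 := hinv ht' hψ
  refine ⟨e1, e2, ?_⟩
  by_contra hodd
  rw [Nat.not_odd_iff_even] at hodd
  obtain ⟨k, hk⟩ := hodd
  have hpos : 0 < orderOf (t * t') := orderOf_pos _
  set j := (t * t') ^ k with hj
  have hjj : j * j = 1 := by rw [hj, ← pow_add, ← hk, pow_orderOf_eq_one]
  have hi : t⁻¹ = t := inv_eq_of_mul_eq_one_right e1
  have hi' : t'⁻¹ = t' := inv_eq_of_mul_eq_one_right e2
  have hji : j⁻¹ = j := inv_eq_of_mul_eq_one_right hjj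
  have c1 : t * j * t⁻¹ = j := by
    rw [hj, ← conj_pow, ← hj, ← hji, hj, ← inv_pow, _root_.mul_inv_rev, hi, hi']
    congr 1
    rw [← mul_assoc, e1, one_mul]
  have c2 : t' * j * t'⁻¹ = j := by
    rw [hj, ← conj_pow, ← hj, ← hji, hj, ← inv_pow, _root_.mul_inv_rev, hi, hi']
    congr 1
    rw [mul_assoc, mul_assoc, e2, mul_one]
  have fixc : ∀ {x y : ι → F} {φ : Dual F (ι → F)} {t : GL ι F},
      (∀ v, act t v = v + φ v • x) → φ y ≠ 0 → x ≠ 0 → t * j * t⁻¹ = j → act j x = x := by
    intro x y φ t ht h1 hx c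
    have c' : t * j = j * t := mul_inv_eq_iff_eq_mul.1 c
    have e := congrArg (fun g => act g y) c'
    simp only [act_mul, ht, map_add, map_smul, add_right_inj] at e
    have e' : act j x = (φ (act j y) / φ y) • x := by
      rw [div_eq_inv_mul, mul_smul, e, smul_smul, inv_mul_cancel₀ h1, one_smul]
    set α := φ (act j y) / φ y
    have e3 : act (j * j) x = (α * α) • x := by rw [act_mul, e', map_smul, e', smul_smul]
    rw [hjj, act_one] at e3
    have e4 : α * α = 1 := by
      have : (α * α - 1) • x = 0 := by rw [sub_smul, one_smul, ← e3, sub_self]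
      exact sub_eq_zero.1 ((smul_eq_zero.1 this).resolve_right hx)
    have e5 : α = 1 := by
      have : (α - 1) ^ 2 = 0 := by linear_combination e4 + (1 - α) * h2
      exact sub_eq_zero.1 (pow_eq_zero_iff (two_ne_zero) |>.1 this)
    rw [e', e5, one_smul]
  have hx : x ≠ 0 := by rintro rfl; simp at h1'
  have hy : y ≠ 0 := by rintro rfl; simp at h1
  have jx := fixc ht h1 hx c1
  have jy := fixc ht' h1' hy c2
  have jN : ∀ v, φ v = 0 → ψ v = 0 → ∀ k : ℕ, act ((t * t') ^ k) v = v := by
    intro v h3 h4 k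
    induction k with
    | zero => simp [act_one]
    | succ k ih => rw [pow_succ, act_mul, act_mul, ht', h4, zero_smul, add_zero, ht, h3, zero_smul,
        add_zero, ih]
  have : j = 1 := ext_act fun v => by
    have e : v = (v - (ψ v / ψ x) • x - (φ v / φ y) • y) + (ψ v / ψ x) • x + (φ v / φ y) • y := by
      abel
    have h4 := jN (v - (ψ v / ψ x) • x - (φ v / φ y) • y) (by simp [hφ, h1]) (by simp [hψ, h1']) k
    rw [act_one]
    conv_lhs => rw [e]
    rw [map_add, map_add, map_smul, map_smul, jx, jy, h4]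
    abel
  have := orderOf_dvd_of_pow_eq_one this
  have := Nat.le_of_dvd (by omega) this
  omega

theorem exists_conj_two [Finite F] (h2 : (2 : F) = 0) {x y : ι → F} {φ ψ : Dual F (ι → F)}
    {t t' : GL ι F} (ht : ∀ v, act t v = v + φ v • x) (ht' : ∀ v, act t' v = v + ψ v • y)
    (hφ : φ x = 0) (hψ : ψ y = 0) (h1 : φ y ≠ 0) (h1' : ψ x ≠ 0) (hK : t ∈ K) (hK' : t' ∈ K) :
    ∃ k ∈ K, k * t * k⁻¹ = t' := by
  obtain ⟨e1, e2, m, hm⟩ := odd_orderOf h2 ht ht' hφ hψ h1 h1'
  have hi : t⁻¹ = t := inv_eq_of_mul_eq_one_right e1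
  have hi' : t'⁻¹ = t' := inv_eq_of_mul_eq_one_right e2
  refine ⟨(t * t') ^ m, K.pow_mem (K.mul_mem hK hK') m, ?_⟩
  have h3 : (t * t') ^ (2 * m + 1) = 1 := by rw [← hm, pow_orderOf_eq_one]
  have h4 : t * ((t * t') ^ m)⁻¹ = (t * t') ^ m * t := by
    rw [← inv_pow, _root_.mul_inv_rev, hi, hi']
    have : (t * t') ^ m = t * (t' * t) ^ m * t⁻¹ := by
      rw [← conj_pow]; congr 1; group
    rw [this]; group
  rw [mul_assoc, h4, ← mul_assoc, ← pow_add, ← two_mul]
  have h5 : (t * t') ^ (2 * m) = (t * t')⁻¹ := by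
    rw [pow_succ] at h3
    exact eq_inv_of_mul_eq_one_left h3
  rw [h5, _root_.mul_inv_rev, hi', mul_assoc, inv_mul_cancel, mul_one]

/-- In characteristic two, two transvections with the same centre and axis and an opposite one
give a multiplier. -/
theorem mul_of_two [Finite F] (h2 : (2 : F) = 0) {x y : ι → F} {φ ψ : Dual F (ι → F)} {b : F}
    (hb : b ≠ 0) (h : HasTv K x φ) (h' : HasTv K x (b • φ)) (hy : HasTv K y ψ)
    (hφ : φ x = 0) (hψ : ψ y = 0) (h1 : φ y ≠ 0) (h1' : ψ x ≠ 0) {a : F} (ha : HasTv K x (a • φ)) :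
    HasTv K x ((b * a) • φ) := by
  obtain ⟨t1, ht1, e1⟩ := h
  obtain ⟨t2, ht2, e2⟩ := h'
  obtain ⟨t', ht', e'⟩ := hy
  obtain ⟨k1, hk1, c1⟩ := exists_conj_two h2 e1 e' hφ hψ h1 h1' ht1 ht'
  obtain ⟨k2, hk2, c2⟩ := exists_conj_two h2 e2 e' (by simp [hφ]) hψ (by simp [hb, h1]) h1' ht2 ht'
  have c : (k2⁻¹ * k1) * t1 * (k2⁻¹ * k1)⁻¹ = t2 := by
    rw [← c2] at c1
    calc _ = k2⁻¹ * (k1 * t1 * k1⁻¹) * k2 := by group
      _ = t2 := by rw [c1]; group
  set k := k2⁻¹ * k1
  have hk : k ∈ K := K.mul_mem (K.inv_mem hk2) hk1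
  obtain ⟨s, hs, es⟩ := ha
  refine ⟨k * s * k⁻¹, K.mul_mem (K.mul_mem hk hs) (K.inv_mem hk), fun v => ?_⟩
  have e := e2 v
  rw [← c, act_mul, act_mul, e1, map_add, map_smul, act_act_inv, add_right_inj] at e
  rw [act_mul, act_mul, es, map_add, map_smul, act_act_inv, add_right_inj, LinearMap.smul_apply,
    smul_eq_mul, mul_smul, e]
  simp only [LinearMap.smul_apply, smul_eq_mul, smul_smul]
  ring_nf

end two

section reg

variable {V : Type*} [AddCommGroup V] [Module F V] [FiniteDimensional F V] {N : V →ₗ[F] V} {e : V}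

theorem finrank_ker_pow_le (hk : ∀ v, N v = 0 → ∃ c : F, v = c • e) (k : ℕ) :
    finrank F (LinearMap.ker (N ^ k)) ≤ k := by
  induction k with
  | zero => simp [Module.End.one_eq_id]
  | succ k ih =>
    have h1 : finrank F (LinearMap.ker N) ≤ 1 := by
      have : LinearMap.ker N ≤ F ∙ e := fun v hv => by
        obtain ⟨c, rfl⟩ := hk v hv
        exact Submodule.smul_mem _ _ (Submodule.mem_span_singleton_self e)
      exact (Submodule.finrank_mono this).trans (by simpa using finrank_span_le_card ({e} : Set V))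
    let f : LinearMap.ker (N ^ (k + 1)) →ₗ[F] LinearMap.ker (N ^ k) :=
      N.restrict fun v hv => by
        rw [LinearMap.mem_ker] at hv ⊢
        rwa [pow_succ, Module.End.mul_apply] at hv
    have h2 := LinearMap.finrank_range_add_finrank_ker f
    have h3 := Submodule.finrank_le (LinearMap.range f)
    have h4 : finrank F (LinearMap.ker f) ≤ finrank F (LinearMap.ker N) := by
      let j : LinearMap.ker f →ₗ[F] LinearMap.ker N :=
        ((LinearMap.ker (N ^ (k + 1))).subtype.comp (LinearMap.ker f).subtype).codRestrict _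
          fun v => congrArg Subtype.val v.2
      exact LinearMap.finrank_le_finrank_of_injective (f := j) fun a b hab =>
        Subtype.ext (Subtype.ext (congrArg (fun z : LinearMap.ker N => (z : V)) hab))
    omega

theorem pow_ne_zero_of_ker (hk : ∀ v, N v = 0 → ∃ c : F, v = c • e) {m : ℕ}
    (hm : m < finrank F V) : N ^ m ≠ 0 := by
  intro h0
  have := finrank_ker_pow_le hk m
  rw [h0, LinearMap.ker_zero, finrank_top] at this
  omega

theorem mem_of_inv (hN : IsNilpotent N) (hk : ∀ v, N v = 0 → ∃ c : F, v = c • e)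
    {W : Submodule F V} (hW : ∀ v ∈ W, N v ∈ W) (h0 : W ≠ ⊥) : e ∈ W := by
  obtain ⟨v, hv, hv0⟩ := (Submodule.ne_bot_iff W).1 h0
  obtain ⟨k, hk'⟩ := hN
  have key : ∀ k : ℕ, ∀ v ∈ W, v ≠ 0 → (N ^ k) v = 0 → e ∈ W := by
    intro k
    induction k with
    | zero => intro v _ h1 h2; exact absurd h2 h1
    | succ k ih =>
      intro v hv h1 h2
      by_cases h3 : N v = 0
      · obtain ⟨c, rfl⟩ := hk v h3
        have hc : c ≠ 0 := by rintro rfl; simp at h1
        simpa [hc] using W.smul_mem c⁻¹ hv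
      · exact ih _ (hW v hv) h3 (by rwa [pow_succ, Module.End.mul_apply] at h2)
  exact key k v hv hv0 (by simp [hk'])

theorem range_eq_ker (hk : ∀ v, N v = 0 → ∃ c : F, v = c • e) {φ : Dual F V} (hφ : φ ≠ 0)
    (hφN : ∀ v, φ (N v) = 0) : LinearMap.range N = LinearMap.ker φ := by
  apply Submodule.eq_of_le_of_finrank_le
  · rintro _ ⟨v, rfl⟩; exact hφN v
  · have h1 := finrank_ker_pow_le hk 1
    rw [pow_one] at h1
    have h2 := LinearMap.finrank_range_add_finrank_ker N
    have h3 : finrank F (LinearMap.ker φ) < finrank F V :=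
      Submodule.finrank_lt fun h => hφ (LinearMap.ker_eq_top.1 h)
    omega

theorem eq_top_of_inv (hN : IsNilpotent N) (hk : ∀ v, N v = 0 → ∃ c : F, v = c • e)
    {φ : Dual F V} (hφN : ∀ v, φ (N v) = 0) {W : Submodule F V} (hW : ∀ v ∈ W, N v ∈ W) {w : V}
    (hw : w ∈ W) (h0 : φ w ≠ 0) : W = ⊤ := by
  have hφ : φ ≠ 0 := by rintro rfl; simp at h0
  have hr := range_eq_ker hk hφ hφN
  obtain ⟨k, hk'⟩ := hN
  have key : ∀ k : ℕ, ∀ v, ∃ u, v - (N ^ k) u ∈ W := by
    intro k
    induction k with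
    | zero => exact fun v => ⟨v, by simp⟩
    | succ k ih =>
      intro v
      obtain ⟨u, hu⟩ := ih v
      obtain ⟨u', hu'⟩ : u - (φ u / φ w) • w ∈ LinearMap.range N := by
        rw [hr, LinearMap.mem_ker]; simp [h0]
      refine ⟨u', ?_⟩
      have h1 : ∀ k : ℕ, (N ^ k) w ∈ W := by
        intro k
        induction k with
        | zero => simpa using hw
        | succ k ih => rw [pow_succ', Module.End.mul_apply]; exact hW _ ih
      rw [pow_succ, Module.End.mul_apply, hu', map_sub, map_smul]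
      have := W.add_mem hu (W.smul_mem (φ u / φ w) (h1 k))
      convert this using 1
      abel
  rw [eq_top_iff]
  intro v _
  obtain ⟨u, hu⟩ := key k v
  simpa [hk'] using hu

end reg

/-- `act g - 1` -/
noncomputable def nil (g : GL ι F) : (ι → F) →ₗ[F] (ι → F) := Matrix.toLin' ((g : Matrix ι ι F) - 1)

theorem nil_apply (g : GL ι F) (v : ι → F) : nil g v = act g v - v := by
  simp [nil, act_apply]

theorem nil_pow (g : GL ι F) (k : ℕ) : nil g ^ k = Matrix.toLin' (((g : Matrix ι ι F) - 1) ^ k) := by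
  rw [nil, Matrix.toLin'_pow]

theorem isNilpotent_nil_iff (g : GL ι F) : IsNilpotent (nil g) ↔ IsNilpotent ((g : Matrix ι ι F) - 1) := by
  constructor
  · rintro ⟨k, hk⟩
    rw [nil_pow] at hk
    exact ⟨k, Matrix.toLin'.injective (by simpa using hk)⟩
  · rintro ⟨k, hk⟩
    exact ⟨k, by rw [nil_pow, hk, map_zero]⟩

/-- A unipotent element with a unique fixed line is regular. -/
theorem pow_ne_zero_of_fix {g : GL ι F} {e : ι → F} (hk : ∀ v, act g v = v → ∃ c : F, v = c • e)
    {m : ℕ} (hm : m < Fintype.card ι) : ((g : Matrix ι ι F) - 1) ^ m ≠ 0 := by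
  intro h0
  refine pow_ne_zero_of_ker (N := nil g) (e := e) (m := m)
    (fun v hv => hk v (by rwa [nil_apply, sub_eq_zero] at hv)) (by simpa using hm) ?_
  rw [nil_pow, h0, map_zero]

/-- An irreducibility criterion. -/
theorem irred_of_reg {x z : GL ι F} (hx : x ∈ K) (hz : z ∈ K) {e : ι → F} {φ : Dual F (ι → F)}
    (hN : IsNilpotent ((x : Matrix ι ι F) - 1)) (hk : ∀ v, act x v = v → ∃ c : F, v = c • e)
    (hφ : ∀ v, φ (act x v) = φ v) (h0 : φ (act z e) ≠ 0) : Irred K := by
  intro W hW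
  by_cases hb : W = ⊥
  · exact Or.inl hb
  right
  have hk' : ∀ v, nil x v = 0 → ∃ c : F, v = c • e :=
    fun v hv => hk v (by rwa [nil_apply, sub_eq_zero] at hv)
  have hW' : ∀ v ∈ W, nil x v ∈ W := fun v hv => by
    rw [nil_apply]; exact W.sub_mem (hW x hx v hv) hv
  have he := mem_of_inv ((isNilpotent_nil_iff x).2 hN) hk' hW' hb
  exact eq_top_of_inv ((isNilpotent_nil_iff x).2 hN) hk' (φ := φ)
    (fun v => by rw [nil_apply, map_sub, hφ, sub_self]) hW' (hW z hz e he) h0

theorem conj_reg {h u : GL ι F} {m : ℕ} (h1 : IsNilpotent ((u : Matrix ι ι F) - 1))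
    (h2 : ((u : Matrix ι ι F) - 1) ^ m ≠ 0) :
    IsNilpotent (((h * u * h⁻¹ : GL ι F) : Matrix ι ι F) - 1) ∧
      (((h * u * h⁻¹ : GL ι F) : Matrix ι ι F) - 1) ^ m ≠ 0 := by
  have e : ((h * u * h⁻¹ : GL ι F) : Matrix ι ι F) - 1 =
      (h : Matrix ι ι F) * ((u : Matrix ι ι F) - 1) * ((h⁻¹ : GL ι F) : Matrix ι ι F) := by
    rw [mul_sub, sub_mul, mul_one, Units.mul_inv, Units.val_mul, Units.val_mul]
  have ep : ∀ k : ℕ, (((h * u * h⁻¹ : GL ι F) : Matrix ι ι F) - 1) ^ k =
      (h : Matrix ι ι F) * ((u : Matrix ι ι F) - 1) ^ k * ((h⁻¹ : GL ι F) : Matrix ι ι F) := by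
    intro k
    rw [e]
    exact Units.conj_pow h _ k
  obtain ⟨k, hk⟩ := h1
  refine ⟨⟨k, by rw [ep, hk]; simp⟩, fun h0 => h2 ?_⟩
  rw [ep] at h0
  exact (Units.mul_right_eq_zero h).1 ((Units.mul_left_eq_zero h⁻¹).1 h0)

end CL.KSG.Irr
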