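import Cfsg.Agent.CHEV.McL2
import Cfsg.Agent.CLAS.Tv

/-!
# Irreducible linear groups containing full transvection groups

A version of McLaughlin's theorem for an irreducible subgroup `K` of `GL ι F` that contains a full
transvection group connected to its conjugates under a generating set.
-/

set_option autoImplicit false
set_option linter.unusedSectionVars false

namespace CL.KSG.Irr

open Matrix Module Cfsg Cfsg.Geo CL.Tv CL.McL

variable {ι : Type} [Fintype ι] [DecidableEq ι] {F : Type*} [Field F]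

/-- `K` contains the full transvection group with centre `x` and axis `φ`. -/
def Root (K : Subgroup (GL ι F)) (x : ι → F) (φ : Dual F (ι → F)) : Prop :=
  x ≠ 0 ∧ φ ≠ 0 ∧ φ x = 0 ∧ ∀ a : F, HasTv K x (a • φ)

/-- `K` acts irreducibly on column vectors. -/
def Irred (K : Subgroup (GL ι F)) : Prop :=
  ∀ W : Submodule F (ι → F), (∀ g ∈ K, ∀ v ∈ W, act g v ∈ W) → W = ⊥ ∨ W = ⊤

/-- the image of a functional under `g` -/
noncomputable def dact (g : GL ι F) (φ : Dual F (ι → F)) : Dual F (ι → F) :=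
  φ ∘ₗ (act g⁻¹ : (ι → F) →ₗ[F] (ι → F))

theorem dact_apply (g : GL ι F) (φ : Dual F (ι → F)) (v : ι → F) :
    dact g φ v = φ (act g⁻¹ v) := rfl

theorem dact_act (g : GL ι F) (φ : Dual F (ι → F)) (v : ι → F) : dact g φ (act g v) = φ v := by
  rw [dact_apply, act_inv_act]

theorem dact_mul (g h : GL ι F) (φ : Dual F (ι → F)) : dact (g * h) φ = dact g (dact h φ) := by
  refine LinearMap.ext fun v => ?_
  simp only [dact_apply, _root_.mul_inv_rev, act_mul]

theorem dact_one (φ : Dual F (ι → F)) : dact (1 : GL ι F) φ = φ := by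
  refine LinearMap.ext fun v => ?_
  simp only [dact_apply, inv_one, act_one]

theorem dact_smul (g : GL ι F) (a : F) (φ : Dual F (ι → F)) : dact g (a • φ) = a • dact g φ := rfl

theorem dact_eq {g : GL ι F} {φ ψ : Dual F (ι → F)} (h : ∀ v, ψ (act g v) = φ v) : dact g φ = ψ := by
  refine LinearMap.ext fun v => ?_
  rw [dact_apply, ← h, act_act_inv]

/-- `act` as a homomorphism -/
noncomputable def actHom : GL ι F →* ((ι → F) ≃ₗ[F] (ι → F)) where
  toFun := act
  map_one' := LinearEquiv.ext act_one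
  map_mul' g h := LinearEquiv.ext (act_mul g h)

theorem actHom_injective : Function.Injective (actHom : GL ι F →* _) :=
  fun _ _ h => ext_act fun v => LinearEquiv.congr_fun h v

variable {K : Subgroup (GL ι F)}

theorem Root.conj {x : ι → F} {φ : Dual F (ι → F)} (h : Root K x φ) {g : GL ι F} (hg : g ∈ K) :
    Root K (act g x) (dact g φ) := by
  refine ⟨by simpa using h.1, fun h0 => h.2.1 (LinearMap.ext fun v => ?_), ?_, fun a => ?_⟩
  · rw [← dact_act g φ v, h0]; rfl
  · rw [dact_act, h.2.2.1]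
  · exact (h.2.2.2 a).conj hg

theorem Root.smul {x : ι → F} {φ : Dual F (ι → F)} (h : Root K x φ) {a b : F} (ha : a ≠ 0)
    (hb : b ≠ 0) : Root K (a • x) (b • φ) := by
  refine ⟨smul_ne_zero ha h.1, smul_ne_zero hb h.2.1, by simp [h.2.2.1], fun c => ?_⟩
  rw [HasTv.smul_left_iff, smul_smul, smul_smul]
  exact h.2.2.2 _

theorem Root.hasTv {x : ι → F} {φ : Dual F (ι → F)} (h : Root K x φ) : HasTv K x φ := by
  simpa using h.2.2.2 1

/-- A normal `p`-subgroup of an irreducible group in characteristic `p` is trivial. -/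
theorem Irred.eq_one_of_normal [Finite F] [Nonempty ι] (hK : Irred K) {p : ℕ} [Fact p.Prime]
    [CharP F p] {N : Subgroup K} (hN : N.Normal) (hp : IsPGroup p N) {t : K} (ht : t ∈ N) :
    t = 1 := by
  classical
  let W : Submodule F (ι → F) :=
    { carrier := {v | ∀ n ∈ N, act (n : K).1 v = v}
      add_mem' := fun {a b} ha hb n hn => by rw [map_add, ha n hn, hb n hn]
      zero_mem' := fun n _ => map_zero _
      smul_mem' := fun c v hv n hn => by rw [map_smul, hv n hn] }
  have hW : ∀ g ∈ K, ∀ v ∈ W, act g v ∈ W := by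
    intro g hg v hv n hn
    have h1 := hv _ (hN.conj_mem' n hn ⟨g, hg⟩)
    have h2 : act g (act (g⁻¹ * n.1 * g) v) = act g v := congrArg (act g) h1
    rwa [← act_mul, ← mul_assoc, ← mul_assoc, mul_inv_cancel, one_mul, act_mul] at h2
  let : MulAction N (ι → F) :=
    { smul := fun n v => act (n : K).1 v
      one_smul := fun v => act_one v
      mul_smul := fun a b v => act_mul _ _ v }
  have hdvd : p ∣ Nat.card (ι → F) := by
    have := Fintype.ofFinite F
    obtain ⟨k, -, hk⟩ := FiniteField.card F p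
    rw [Nat.card_fun, Nat.card_eq_fintype_card, hk]
    exact dvd_pow (dvd_pow_self p k.ne_zero) Nat.card_pos.ne'
  obtain ⟨v, hv, hv0⟩ := hp.exists_fixed_point_of_prime_dvd_card_of_fixed_point (ι → F) hdvd
    (a := 0) (fun n => map_zero (act (n : K).1))
  rcases hK W hW with h | h
  · have : v ∈ W := fun n hn => hv ⟨n, hn⟩
    rw [h] at this
    exact absurd this.symm hv0
  · exact Subtype.ext (ext_act fun v => by
      rw [(h ▸ Submodule.mem_top : v ∈ W) t ht]; exact (act_one v).symm)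

theorem isPGroup_pair {p : ℕ} [Fact p.Prime] [CharP F p] {x y : ι → F} {φ ψ : Dual F (ι → F)}
    {t t' : K} (ht : ∀ v, act t.1 v = v + φ v • x) (ht' : ∀ v, act t'.1 v = v + ψ v • y)
    (h1 : φ x = 0) (h2 : ψ y = 0) (h3 : φ y = 0) : IsPGroup p (Subgroup.closure ({t, t'} : Set K)) := by
  have hx : x ∈ Submodule.span F {x, y} := Submodule.subset_span (by simp)
  have hy : y ∈ Submodule.span F {x, y} := Submodule.subset_span (by simp)
  have hy' := Submodule.mem_span_singleton_self (R := F) y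
  refine ((isPGroup_unip p (F ∙ y) (Submodule.span F {x, y})).comap_of_injective
    (actHom.comp K.subtype) (actHom_injective.comp K.subtype_injective)).to_le ?_
  rw [Subgroup.closure_le]
  rintro _ (rfl | rfl)
  · refine ⟨fun v => ?_, fun v hv => ?_, fun v hv => ?_⟩
    · change act _ v - v ∈ _
      simpa [ht v] using Submodule.smul_mem _ _ hx
    · obtain ⟨a, b, rfl⟩ := Submodule.mem_span_pair.1 hv
      change act _ _ - _ ∈ _
      simp [ht _, h1, h3]
    · obtain ⟨a, rfl⟩ := Submodule.mem_span_singleton.1 hv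
      change act _ _ = _
      simp [ht _, h3]
  · refine ⟨fun v => ?_, fun v hv => ?_, fun v hv => ?_⟩
    · change act _ v - v ∈ _
      simpa [ht' v] using Submodule.smul_mem _ _ hy
    · change act _ v - v ∈ _
      simpa [ht' v] using Submodule.smul_mem _ _ hy'
    · obtain ⟨a, rfl⟩ := Submodule.mem_span_singleton.1 hv
      change act _ _ = _
      simp [ht' _, h2]

/-- In an irreducible group every transvection has an opposite conjugate. -/
theorem Irred.exists_opp [Finite F] (hK : Irred K) {x : ι → F} {φ : Dual F (ι → F)}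
    (h : HasTv K x φ) (hx : x ≠ 0) (hφ : φ ≠ 0) (h0 : φ x = 0) :
    ∃ g ∈ K, φ (act g x) ≠ 0 ∧ φ (act g⁻¹ x) ≠ 0 := by
  by_contra hcon
  push Not at hcon
  have : Nonempty ι := by
    by_contra hι
    rw [not_nonempty_iff] at hι
    exact hx (Subsingleton.elim _ _)
  obtain ⟨p, hp⟩ := CharP.exists F
  have : Fact p.Prime := ⟨CharP.char_is_prime F p⟩
  obtain ⟨t, ht, h4⟩ := h
  obtain ⟨N, hN, hp, hmem⟩ := CL.Inv.baer_suzuki_exists_normal (p := p) (x := (⟨t, ht⟩ : K)) fun g => by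
    have h6 : ∀ v, act (g * ⟨t, ht⟩ * g⁻¹ : K).1 v = v + dact g.1 φ v • act g.1 x := by
      intro v
      change act (g.1 * t * g.1⁻¹) v = _
      rw [act_mul, act_mul, h4, map_add, map_smul, act_act_inv, dact_apply]
    have h5 : dact g.1 φ (act g.1 x) = 0 := by rw [dact_act, h0]
    by_cases h7 : φ (act g.1 x) = 0
    · exact isPGroup_pair h4 h6 h0 h5 h7
    · rw [Set.pair_comm]
      exact isPGroup_pair h6 h4 h5 h0 (hcon _ g.2 h7)
  have h6 : t = 1 := congrArg Subtype.val (hK.eq_one_of_normal hN hp hmem)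
  refine hφ (LinearMap.ext fun v => ?_)
  have := h4 v
  simpa [h6, act_one, hx] using this

theorem Root.nbr [Finite F] (hK : Irred K) {x : ι → F} {φ : Dual F (ι → F)} (h : Root K x φ) :
    ∃ y ψ, Root K y ψ ∧ ψ x ≠ 0 ∧ φ y ≠ 0 := by
  obtain ⟨g, hg, h1, h2⟩ := hK.exists_opp h.hasTv h.1 h.2.1 h.2.2.1
  exact ⟨_, _, h.conj hg, h2, h1⟩

/-- the connected component of a full transvection group -/
def Comp (K : Subgroup (GL ι F)) (x₀ : ι → F) (φ₀ : Dual F (ι → F)) (y : ι → F)
    (ψ : Dual F (ι → F)) : Prop :=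
  Root K y ψ ∧ Relation.ReflTransGen (NAdj (ev F (ι → F)) (Root K)) (x₀, φ₀) (y, ψ)

variable {x₀ : ι → F} {φ₀ : Dual F (ι → F)}

theorem path_symm {p q : (ι → F) × Dual F (ι → F)}
    (h : Relation.ReflTransGen (NAdj (ev F (ι → F)) (Root K)) p q) :
    Relation.ReflTransGen (NAdj (ev F (ι → F)) (Root K)) q p := by
  induction h with
  | refl => exact .refl
  | tail _ h1 ih => exact .head ⟨h1.2.1, h1.1, h1.2.2.symm⟩ ih

theorem path_conj {p q : (ι → F) × Dual F (ι → F)}
    (h : Relation.ReflTransGen (NAdj (ev F (ι → F)) (Root K)) p q) {g : GL ι F} (hg : g ∈ K) :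
    Relation.ReflTransGen (NAdj (ev F (ι → F)) (Root K)) (act g p.1, dact g p.2)
      (act g q.1, dact g q.2) := by
  induction h with
  | refl => exact .refl
  | tail _ h1 ih =>
    refine ih.tail ⟨h1.1.conj hg, h1.2.1.conj hg, ?_⟩
    have := h1.2.2
    simp only [Dual.eval_apply] at this ⊢
    rwa [dact_act, dact_act]

theorem Comp.self (h : Root K x₀ φ₀) : Comp K x₀ φ₀ x₀ φ₀ := ⟨h, .refl⟩

theorem Comp.adj {x y : ι → F} {φ ψ : Dual F (ι → F)} (h : Comp K x₀ φ₀ x φ) (h' : Root K y ψ)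
    (h1 : ψ x ≠ 0 ∨ φ y ≠ 0) : Comp K x₀ φ₀ y ψ :=
  ⟨h', h.2.tail ⟨h.1, h', h1⟩⟩

theorem Comp.of_centre [Finite F] (hK : Irred K) {x : ι → F} {φ ψ : Dual F (ι → F)} {c : F}
    (h : Comp K x₀ φ₀ x φ) (h' : Root K (c • x) ψ) : Comp K x₀ φ₀ (c • x) ψ := by
  obtain ⟨y, θ, h1, h2, -⟩ := h.1.nbr hK
  have hc : c ≠ 0 := by rintro rfl; exact h'.1 (zero_smul _ _)
  exact (h.adj h1 (Or.inl h2)).adj h' (Or.inr (by simp [hc, h2]))

theorem Comp.of_axis [Finite F] (hK : Irred K) {x y : ι → F} {φ : Dual F (ι → F)} {c : F}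
    (h : Comp K x₀ φ₀ x φ) (h' : Root K y (c • φ)) : Comp K x₀ φ₀ y (c • φ) := by
  obtain ⟨z, θ, h1, -, h2⟩ := h.1.nbr hK
  have hc : c ≠ 0 := by rintro rfl; exact h'.2.1 (zero_smul _ _)
  exact (h.adj h1 (Or.inr h2)).adj h' (Or.inl (by simp [hc, h2]))

/-- The component is invariant under `K`. -/
def Conn (K : Subgroup (GL ι F)) (x₀ : ι → F) (φ₀ : Dual F (ι → F)) : Prop :=
  ∀ g ∈ K, Comp K x₀ φ₀ (act g x₀) (dact g φ₀)

theorem conn_of_closure {T : Set (GL ι F)} (hT : K = Subgroup.closure T) (h : Root K x₀ φ₀)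
    (hs : ∀ s ∈ T, Comp K x₀ φ₀ (act s x₀) (dact s φ₀)) : Conn K x₀ φ₀ := by
  intro g hg
  have hg' : g ∈ Subgroup.closure T := hT ▸ hg
  clear hg
  induction hg' using Subgroup.closure_induction with
  | mem s hs' => exact hs s hs'
  | one => rw [act_one, dact_one]; exact Comp.self h
  | mul a b ha hb iha ihb =>
    refine ⟨h.conj (K.mul_mem (hT ▸ ha) (hT ▸ hb)), iha.2.trans ?_⟩
    rw [act_mul, dact_mul]
    exact path_conj ihb.2 (hT ▸ ha)
  | inv a ha iha =>
    refine ⟨h.conj (K.inv_mem (hT ▸ ha)), path_symm ?_⟩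
    have := path_conj iha.2 (K.inv_mem (hT ▸ ha))
    simp only at this
    rwa [act_inv_act, ← dact_mul, inv_mul_cancel, dact_one] at this

theorem Conn.conj (hc : Conn K x₀ φ₀) {x : ι → F} {φ : Dual F (ι → F)} (h : Comp K x₀ φ₀ x φ)
    {g : GL ι F} (hg : g ∈ K) : Comp K x₀ φ₀ (act g x) (dact g φ) :=
  ⟨h.1.conj hg, (hc g hg).2.trans (path_conj h.2 hg)⟩

/-- sufficient conditions for a generator to preserve the component -/
theorem comp_of_gen [Finite F] (hK : Irred K) (h : Root K x₀ φ₀) {s : GL ι F} (hs : s ∈ K)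
    (h1 : (∃ c : F, act s x₀ = c • x₀) ∨ φ₀ (act s x₀) ≠ 0 ∨ φ₀ (act s⁻¹ x₀) ≠ 0) :
    Comp K x₀ φ₀ (act s x₀) (dact s φ₀) := by
  rcases h1 with ⟨c, hc⟩ | h1 | h1
  · have := h.conj hs
    rw [hc] at this ⊢
    exact (Comp.self h).of_centre hK this
  · exact (Comp.self h).adj (h.conj hs) (Or.inr h1)
  · exact (Comp.self h).adj (h.conj hs) (Or.inl h1)

theorem cen_eq_top (hK : Irred K) (h : Root K x₀ φ₀) (hc : Conn K x₀ φ₀) :
    cen F (Comp K x₀ φ₀) = ⊤ := by
  refine (hK _ fun g hg v hv => ?_).resolve_left fun h0 => h.1 ?_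
  · induction hv using Submodule.span_induction with
    | mem v hv => obtain ⟨φ, hv⟩ := hv; exact mem_cen (hc.conj hv hg)
    | zero => simp
    | add _ _ _ _ h1 h2 => rw [map_add]; exact add_mem h1 h2
    | smul _ _ _ h1 => rw [map_smul]; exact Submodule.smul_mem _ _ h1
  · have := mem_cen (F := F) (Comp.self h)
    rwa [h0] at this

theorem fix_eq_bot (hK : Irred K) (h : Root K x₀ φ₀) (hc : Conn K x₀ φ₀) :
    fix (Comp K x₀ φ₀) = ⊥ := by
  refine (hK _ fun g hg v hv => ?_).resolve_right fun h0 => h.2.1 (LinearMap.ext fun v => ?_)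
  · refine mem_fix.2 fun y ψ hy => ?_
    have := mem_fix.1 hv _ _ (hc.conj hy (K.inv_mem hg))
    rwa [dact_apply, inv_inv] at this
  · exact mem_fix.1 (h0 ▸ Submodule.mem_top : v ∈ fix (Comp K x₀ φ₀)) _ _ (Comp.self h)

theorem cen_dual_eq_top (hK : Irred K) (h : Root K x₀ φ₀) (hc : Conn K x₀ φ₀) :
    cen F (fun φ x => Comp K x₀ φ₀ x φ) = ⊤ := by
  have := fix_eq_bot hK h hc
  rw [fix] at this
  rw [← Subspace.dualCoannihilator_dualAnnihilator_eq (W := cen F (fun φ x => Comp K x₀ φ₀ x φ)),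
    this, Submodule.dualAnnihilator_bot]

theorem eq_zero_of_cen (hK : Irred K) (h : Root K x₀ φ₀) (hc : Conn K x₀ φ₀) {θ : Dual F (ι → F)}
    (h1 : ∀ y ψ, Comp K x₀ φ₀ y ψ → θ y = 0) : θ = 0 := by
  have : cen F (Comp K x₀ φ₀) ≤ LinearMap.ker θ := by
    rw [cen, Submodule.span_le]
    rintro y ⟨ψ, hy⟩
    exact h1 y ψ hy
  rw [cen_eq_top hK h hc] at this
  exact LinearMap.ext fun v => this Submodule.mem_top

theorem ts [Finite F] (hK : Irred K) (h : Root K x₀ φ₀) (hc : Conn K x₀ φ₀) :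
    TS (ev F (ι → F)) (Comp K x₀ φ₀) where
  orth hx := hx.1.2.2.1
  smul hx ha hb := hx.of_centre hK (hx.1.smul ha hb)
  add_left {x x' φ} hx hx' h0 := by
    have : Root K (x + x') ((1 : F) • φ) := by
      refine ⟨h0, by simpa using hx.1.2.1, by simp [hx.1.2.2.1, hx'.1.2.2.1], fun a => ?_⟩
      rw [one_smul]
      exact (hx.1.2.2.2 a).add_left (hx'.1.2.2.2 a) (by simp [hx'.1.2.2.1])
    simpa using hx.of_axis hK this
  add_right {x φ φ'} hx hx' h0 := by
    have : Root K ((1 : F) • x) (φ + φ') := by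
      refine ⟨by simpa using hx.1.1, h0, by simp [hx.1.2.2.1, hx'.1.2.2.1], fun a => ?_⟩
      rw [one_smul, smul_add]
      exact (hx.1.2.2.2 a).add_right (hx'.1.2.2.2 a) (by simp [hx.1.2.2.1])
    simpa using hx.of_centre hK this
  conj {x φ y ψ} c hx hy := by
    obtain ⟨t, ht, e⟩ := hy.1.2.2.2 c
    have := hc.conj hx ht
    rw [e, dact_eq (ψ := φ - (c * φ y) • ψ)] at this
    · simpa using this
    · intro v
      rw [e]
      simp [hy.1.2.2.1]
      ring
  nbr hx := by
    obtain ⟨y, ψ, hy, h1, h2⟩ := hx.1.nbr hK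
    exact ⟨y, ψ, hx.adj hy (Or.inl h1), h1, h2⟩
  conn {x φ y ψ} hx hy := by
    have key : ∀ q : (ι → F) × Dual F (ι → F),
        Relation.ReflTransGen (NAdj (ev F (ι → F)) (Root K)) (x, φ) q →
        Comp K x₀ φ₀ q.1 q.2 ∧
          Relation.ReflTransGen (NAdj (ev F (ι → F)) (Comp K x₀ φ₀)) (x, φ) q := by
      intro q hq
      induction hq with
      | refl => exact ⟨hx, .refl⟩
      | tail _ h1 ih =>
        have := ih.1.adj h1.2.1 h1.2.2
        exact ⟨this, ih.2.tail ⟨ih.1, this, h1.2.2⟩⟩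
    exact (key _ ((path_symm hx.2).trans hy.2)).2
  inj {x φ x' φ'} _ _ h1 h2 := by
    constructor
    · have : x - x' ∈ fix (Comp K x₀ φ₀) := mem_fix.2 h1
      rw [fix_eq_bot hK h hc] at this
      exact sub_eq_zero.1 this
    · exact sub_eq_zero.1 (eq_zero_of_cen hK h hc h2)

/-- The linear case: the component has a pair of transvection groups generating a nonabelian
unipotent group. -/
theorem SL_le_of_pair [Finite F] (hK : Irred K) (h : Root K x₀ φ₀) (hc : Conn K x₀ φ₀)
    (hSL : ∃ x φ y ψ, Comp K x₀ φ₀ x φ ∧ Comp K x₀ φ₀ y ψ ∧ φ y = 0 ∧ ψ x ≠ 0) :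
    specialLinear ι F ≤ K := by
  refine SL_le_of_hasTv fun x φ h0 => ?_
  by_cases hx : x = 0
  · rw [hx]; exact HasTv.zero_left φ
  by_cases hφ : φ = 0
  · rw [hφ]; exact HasTv.zero_right x
  refine ((ts hK h hc).sl_full hSL ?_ ?_ hx hφ h0).1.hasTv
  · rw [cen_eq_top hK h hc]; trivial
  · rw [cen_dual_eq_top hK h hc]; trivial

theorem SL_le_of_conj [Finite F] (hK : Irred K) (h : Root K x₀ φ₀) (hc : Conn K x₀ φ₀)
    {g : GL ι F} (hg : g ∈ K) (h1 : φ₀ (act g x₀) = 0) (h2 : φ₀ (act g⁻¹ x₀) ≠ 0) :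
    specialLinear ι F ≤ K :=
  SL_le_of_pair hK h hc ⟨_, _, _, _, Comp.self h, hc g hg, h1, h2⟩

/-- three transvection groups with a non-alternating Gram matrix -/
theorem SL_le_of_triangle [Finite F] (hK : Irred K) (h : Root K x₀ φ₀) (hc : Conn K x₀ φ₀)
    {x y z : ι → F} {φ ψ θ : Dual F (ι → F)} (hx : Comp K x₀ φ₀ x φ) (hy : Comp K x₀ φ₀ y ψ)
    (hz : Comp K x₀ φ₀ z θ) (hd : φ y * ψ z * θ x + φ z * θ y * ψ x ≠ 0) :
    specialLinear ι F ≤ K := by
  refine SL_le_of_pair hK h hc ?_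
  by_contra hcon
  push Not at hcon
  obtain ⟨G, hG, -, hG', -⟩ := (ts hK h hc).sp_graph hcon
  obtain ⟨a, ha, h1⟩ := hG' _ _ hx
  obtain ⟨b, hb, h2⟩ := hG' _ _ hy
  obtain ⟨c, hc', h3⟩ := hG' _ _ hz
  have e1 := hG _ h1 _ h2
  have e2 := hG _ h2 _ h3
  have e3 := hG _ h3 _ h1
  simp only [Dual.eval_apply, LinearMap.smul_apply, smul_eq_mul] at e1 e2 e3
  apply hd
  have : a * b * c * (φ y * ψ z * θ x + φ z * θ y * ψ x) = 0 := by
    have e4 : (b * ψ x) * (c * θ y) * (a * φ z) = -(a * φ y) * -(b * ψ z) * -(c * θ x) := by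
      rw [e1, e2, e3]
    linear_combination e4
  simpa [ha, hb, hc'] using this

/-- two transvection groups with the same centre -/
theorem SL_le_of_two_axes [Finite F] (hK : Irred K) (h : Root K x₀ φ₀) (hc : Conn K x₀ φ₀)
    {η : Dual F (ι → F)} (h' : Root K x₀ η) {v : ι → F} (h1 : φ₀ v = 0) (h2 : η v ≠ 0) :
    specialLinear ι F ≤ K := by
  refine SL_le_of_pair hK h hc ?_
  by_contra hcon
  push Not at hcon
  obtain ⟨G, hG, -, hG', -⟩ := (ts hK h hc).sp_graph hcon
  have h3 : Comp K x₀ φ₀ x₀ η := by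
    simpa using (Comp.self h).of_centre hK (c := 1) (by simpa using h')
  obtain ⟨a, ha, h4⟩ := hG' _ _ (Comp.self h)
  obtain ⟨b, hb, h5⟩ := hG' _ _ h3
  have : a • φ₀ - b • η = 0 := eq_zero_of_cen hK h hc fun y ψ hy => by
    obtain ⟨c, -, h6⟩ := hG' _ _ hy
    have e1 := hG _ h6 _ h4
    have e2 := hG _ h6 _ h5
    simp only [Dual.eval_apply, LinearMap.smul_apply, smul_eq_mul, LinearMap.sub_apply] at e1 e2 ⊢
    linear_combination e1 - e2
  have := LinearMap.congr_fun this v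
  simp [h1, hb, h2] at this

/-- The symplectic case. -/
theorem hasTv_of_form [Finite F] (h3 : ∃ a : F, a ≠ 0 ∧ a ≠ 1) (hK : Irred K) (h : Root K x₀ φ₀)
    (hc : Conn K x₀ φ₀) (B : (ι → F) →ₗ[F] Dual F (ι → F)) (halt : ∀ v, B v v = 0)
    (hnd : ∀ v, B v = 0 → v = 0) (hB : ∀ g ∈ K, ∀ u v, B (act g u) (act g v) = B u v)
    (v : ι → F) (c : F) : HasTv K v (c • B v) := by
  by_cases hv : v = 0
  · rw [hv]; exact HasTv.zero_left _
  have hBv : B v ≠ 0 := fun h0 => hv (hnd v h0)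
  rcases (ts hK h hc).main h3 with h1 | ⟨h1, -⟩
  · refine (h1 v ?_ (B v) ?_ hv hBv (halt v)).1.2.2.2 c
    · rw [cen_eq_top hK h hc]; trivial
    · rw [cen_dual_eq_top hK h hc]; trivial
  · obtain ⟨θ, hθ⟩ := h1 v (by rw [cen_eq_top hK h hc]; trivial) hv
    obtain ⟨t, ht, e⟩ := hθ.1.hasTv
    have hsk : ∀ u w, B u w = - B w u := fun u w => by
      have := halt (u + w)
      simp only [map_add, LinearMap.add_apply, halt] at this
      linear_combination this
    obtain ⟨u, hu⟩ : ∃ u, B v u ≠ 0 := by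
      by_contra h0
      push Not at h0
      exact hBv (LinearMap.ext h0)
    have key : ∀ w, θ w * B v u = θ u * B v w := fun w => by
      have := hB t ht u w
      rw [e, e] at this
      simp only [map_add, map_smul, LinearMap.add_apply, LinearMap.smul_apply, smul_eq_mul,
        halt v, hsk u v] at this
      linear_combination -this
    have hθu : θ u ≠ 0 := fun h0 => hθ.1.2.1 (LinearMap.ext fun w => by
      have := key w
      rw [h0, zero_mul] at this
      simpa [hu] using this)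
    have := hθ.1.2.2.2 (c * B v u / θ u)
    convert this using 1
    refine LinearMap.ext fun w => ?_
    simp only [LinearMap.smul_apply, smul_eq_mul]
    field_simp
    linear_combination (-c) * key w

end CL.KSG.Irr
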