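import Cfsg.Agent.KSG.RegSL

/-!
# Symplectic transvections in characteristic two
-/

set_option autoImplicit false
set_option linter.unusedSectionVars false

namespace CL.KSG.Irr

open Matrix Module Cfsg Cfsg.Geo CL.Tv CL.McL

variable {F : Type*} [Field F]

section f2

variable {V : Type*} [AddCommGroup V] [Module F V] {B : V →ₗ[F] Dual F V} {D : V → Prop}

theorem skew_of_alt (halt : ∀ v, B v v = 0) (u w : V) : B u w = - B w u := by
  have := halt (u + w)
  simp only [map_add, LinearMap.add_apply, halt] at this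
  linear_combination this

/-- A connected spanning set of vectors of a symplectic space over the field with two elements,
closed under hyperbolic lines and containing an isotropic line, is everything. -/
theorem all_of_triple (hF : ∀ a : F, a = 0 ∨ a = 1) (halt : ∀ v, B v v = 0)
    (hadd : ∀ v w, D v → D w → B v w ≠ 0 → D (v + w))
    (hnb : ∀ v w, D v → D w → ∃ z, D z ∧ B z v ≠ 0 ∧ B z w ≠ 0)
    (hsp : ∀ v, v ≠ 0 → ∃ z, D z ∧ B z v ≠ 0) (hspan : Submodule.span F {v | D v} = ⊤)
    {a₀ b₀ : V} (ha₀ : D a₀) (hb₀ : D b₀) (hc₀ : D (a₀ + b₀)) (h₀ : B a₀ b₀ = 0) {v : V} (hv : v ≠ 0) :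
    D v := by
  have h2 : (1 : F) + 1 = 0 := (hF _).resolve_right (by simp)
  have hone : ∀ {a : F}, a ≠ 0 → a = 1 := fun h => (hF _).resolve_left h
  have hvv : ∀ v : V, v + v = 0 := fun v => by rw [← one_smul F v, ← add_smul, h2, zero_smul]
  have hsym : ∀ u w, B u w = B w u := fun u w => by
    rw [skew_of_alt halt u w]; linear_combination (- B w u) * h2
  have hne : ∀ v, D v → v ≠ 0 := fun v hv h0 => by
    obtain ⟨z, -, h, -⟩ := hnb v v hv hv
    exact h (by rw [h0, map_zero])
  have A : ∀ a b w, D b → D (a + b) → B a b = 0 → D w → B a w = 0 → B b w = 1 → D (a + w) := by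
    intro a b w hb hc hab hw h1 h3
    have h4 := hadd _ _ hc hw (by simp [h1, h3])
    have h5 := hadd _ _ h4 hb (by simp [hab, halt, hsym w b, h3])
    rwa [show a + b + w + b = a + w + (b + b) by abel, hvv, add_zero] at h5
  have F1 : ∀ a b w z, D b → D (a + b) → B a b = 0 → D w → B a w = 0 → D z → B z w = 1 → B z a = 0 →
      B z b = 1 → D (a + w) := by
    intro a b w z hb hc hab hw h1 hz h3 h4 h5
    exact A a z w hz (A a b z hb hc hab hz (by rw [hsym, h4]) (by rw [hsym, h5])) (by rw [hsym, h4])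
      hw h1 h3
  have B1 : ∀ a b w, D a → D b → D (a + b) → B a b = 0 → D w → B a w = 0 → B b w = 0 → a + w ≠ 0 →
      (∃ z, D z ∧ B z a = 1 ∧ B z w = 1 ∧ B z b = 0) → D (a + w) := by
    rintro a b w ha hb hc hab hw h1 h3 h0 ⟨z, hz, z1, z2, z3⟩
    have hbw : D (b + w) := F1 b a w z ha (by rwa [add_comm]) (by rw [hsym, hab]) hw h3 hz z2 z3 z1
    have good : ∀ z, D z → B z b = 1 → B z a + B z w = 1 → D (a + w) := by
      intro z hz g1 g2
      rcases hF (B z a) with g3 | g3
      · exact F1 a b w z hb hc hab hw h1 hz (by rwa [g3, zero_add] at g2) g3 g1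
      · rw [add_comm]
        exact F1 w b a z hb (by rwa [add_comm]) (by rw [hsym, h3]) ha (by rw [hsym, h1]) hz g3
          (by rwa [g3, add_eq_left] at g2) g1
    obtain ⟨y, hy, y1⟩ := hsp b (hne b hb)
    obtain ⟨x, hx, x1⟩ := hsp _ h0
    have y1' := hone y1
    have x1' := hone x1
    rw [map_add] at x1'
    rcases hF (B y a + B y w) with y2 | y2
    swap
    · exact good y hy y1' y2
    rcases hF (B x b) with x2 | x2
    swap
    · exact good x hx x2 x1'
    obtain ⟨d, hd, d1, d2, d3, d4⟩ : ∃ d, D d ∧ B y d = 1 ∧ B x d = 1 ∧ B d b = 0 ∧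
        B d a + B d w = 0 := by
      rcases hF (B y a) with y3 | y3 <;> rcases hF (B x a) with x3 | x3
      · rw [y3, zero_add] at y2
        rw [x3, zero_add] at x1'
        exact ⟨b + w, hbw, by simp [y1', y2], by simp [x2, x1'], by simp [halt, hsym w b, h3],
          by simp [halt, hsym b a, hab, hsym w a, h1, h3]⟩
      · exact ⟨a + b, hc, by simp [y1', y3], by simp [x2, x3], by simp [halt, hab],
          by simp [halt, hsym b a, hab, h1, h3]⟩
      · rw [x3, zero_add] at x1'
        exact ⟨w, hw, by linear_combination y2 - y3 - h2, x1', by rw [hsym, h3],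
          by simp [halt, hsym w a, h1]⟩
      · exact ⟨a, ha, y3, x3, hab, by simp [halt, h1]⟩
    rcases hF (B y x) with e | e
    · have h5 := hadd _ _ hx hd (by simp [d2])
      refine good _ (hadd _ _ hy h5 (by simp [e, d1])) (by simp [y1', x2, d3]) ?_
      simp only [map_add, LinearMap.add_apply]
      linear_combination y2 + x1' + d4
    · refine good _ (hadd _ _ hy hx (by simp [e])) (by simp [y1', x2]) ?_
      simp only [map_add, LinearMap.add_apply]
      linear_combination y2 + x1'
  have B2 : ∀ a b w, D a → D b → D (a + b) → B a b = 0 → D w → B a w = 0 → a + w ≠ 0 → D (a + w) := by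
    intro a b w ha hb hc hab hw h1 h0
    rcases hF (B b w) with h3 | h3
    swap
    · exact A a b w hb hc hab hw h1 h3
    obtain ⟨z, hz, z1, z2⟩ := hnb a w ha hw
    rcases hF (B z b) with z3 | z3
    · exact B1 a b w ha hb hc hab hw h1 h3 h0 ⟨z, hz, hone z1, hone z2, z3⟩
    · refine B1 a (a + b) w ha hc (by rwa [← add_assoc, hvv, zero_add]) (by simp [halt, hab]) hw h1
        (by simp [h1, h3]) h0 ⟨z, hz, hone z1, hone z2, ?_⟩
      rw [map_add, hone z1, z3, h2]
  have move : ∀ a z, D a → D z → B z a ≠ 0 → (∃ b, D b ∧ D (a + b) ∧ B a b = 0) →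
      ∃ b, D b ∧ D (z + b) ∧ B z b = 0 := by
    rintro a z ha hz h1 ⟨b, hb, hc, hab⟩
    have hd := hadd _ _ hz ha h1
    rcases hF (B z b) with h3 | h3
    · refine ⟨b, hb, ?_, h3⟩
      have := hadd _ _ hd hc (by simp [halt, hab, h3, h1])
      rwa [show z + a + (a + b) = z + b + (a + a) by abel, hvv, add_zero] at this
    · refine ⟨z + a + b, hadd _ _ hd hb (by simp [hab, h3]), ?_, ?_⟩
      · rwa [show z + (z + a + b) = a + b + (z + z) by abel, hvv, add_zero]
      · simp only [map_add, halt, hone h1, h3, zero_add, h2]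
  have tri : ∀ a, D a → ∃ b, D b ∧ D (a + b) ∧ B a b = 0 := by
    intro a ha
    obtain ⟨z, hz, z1, z2⟩ := hnb a₀ a ha₀ ha
    exact move z a hz ha (by rwa [hsym]) (move a₀ z ha₀ hz z1 ⟨b₀, hb₀, hc₀, h₀⟩)
  let W : Submodule F V :=
    { carrier := {v | v = 0 ∨ D v}
      zero_mem' := Or.inl rfl
      add_mem' := by
        rintro a w (rfl | ha) (rfl | hw)
        · simp
        · simpa using Or.inr hw
        · simpa using Or.inr ha
        · by_cases h0 : a + w = 0
          · exact Or.inl h0
          by_cases h1 : B a w = 0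
          · obtain ⟨b, hb, hc, hab⟩ := tri a ha
            exact Or.inr (B2 a b w ha hb hc hab hw h1 h0)
          · exact Or.inr (hadd _ _ ha hw h1)
      smul_mem' := by
        intro c v hv
        rcases hF c with rfl | rfl
        · simp
        · simpa using hv }
  have : Submodule.span F {v | D v} ≤ W := Submodule.span_le.2 fun v hv => Or.inr hv
  rw [hspan] at this
  exact (this (Submodule.mem_top (x := v))).resolve_left hv

end f2

variable {ι : Type} [Fintype ι] [DecidableEq ι] {K : Subgroup (GL ι F)}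
  {B : (ι → F) →ₗ[F] Dual F (ι → F)}

theorem axis_eq (halt : ∀ v, B v v = 0) (hnd : ∀ v, B v = 0 → v = 0)
    (hB : ∀ g ∈ K, ∀ u v, B (act g u) (act g v) = B u v) {v : ι → F} {θ : Dual F (ι → F)}
    (hv : v ≠ 0) (h : HasTv K v θ) : ∃ c : F, θ = c • B v := by
  obtain ⟨t, ht, e⟩ := h
  obtain ⟨u, hu⟩ : ∃ u, B v u ≠ 0 := by
    by_contra h0
    push Not at h0
    exact hv (hnd v (LinearMap.ext h0))
  refine ⟨θ u / B v u, LinearMap.ext fun w => ?_⟩
  have := hB t ht u w
  rw [e, e] at this
  simp only [map_add, map_smul, LinearMap.add_apply, LinearMap.smul_apply, smul_eq_mul,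
    halt v, skew_of_alt halt u v] at this
  simp only [LinearMap.smul_apply, smul_eq_mul]
  field_simp
  linear_combination -this

/-- The symplectic case over the field with two elements. -/
theorem hasTv_of_form_two [Finite F] (hF : ∀ a : F, a = 0 ∨ a = 1) (hK : Irred K) {a₀ b₀ : ι → F}
    (h : Root K a₀ (B a₀)) (hc : Conn K a₀ (B a₀)) (halt : ∀ v, B v v = 0)
    (hnd : ∀ v, B v = 0 → v = 0) (hB : ∀ g ∈ K, ∀ u v, B (act g u) (act g v) = B u v)
    (hb : Comp K a₀ (B a₀) b₀ (B b₀)) (hab : Comp K a₀ (B a₀) (a₀ + b₀) (B (a₀ + b₀)))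
    (h₀ : B a₀ b₀ = 0) (v : ι → F) (c : F) : HasTv K v (c • B v) := by
  by_cases hv : v = 0
  · rw [hv]; exact HasTv.zero_left _
  have hax : ∀ {x θ}, Comp K a₀ (B a₀) x θ → θ = B x := fun {x θ} hx => by
    obtain ⟨c, rfl⟩ := axis_eq halt hnd hB hx.1.1 hx.1.hasTv
    rcases hF c with rfl | rfl
    · exact absurd (zero_smul _ _) hx.1.2.1
    · exact one_smul _ _
  have hts := ts hK h hc
  refine (all_of_triple (D := fun x => Comp K a₀ (B a₀) x (B x)) hF halt ?_ ?_ ?_ ?_ (Comp.self h) hb hab
    h₀ hv).1.2.2.2 c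
  · intro x y hx hy h1
    obtain ⟨θ, h2⟩ := hts.line hx hy (by rw [Dual.eval_apply, skew_of_alt halt]; simpa using h1) 1
    rw [one_smul] at h2
    rwa [hax h2] at h2
  · intro x y hx hy
    obtain ⟨z, θ, hz, h1, h2⟩ := hts.sp_diam (fun x φ y ψ hx hy h1 => by
      rw [hax hx] at h1
      rw [hax hy, Dual.eval_apply, skew_of_alt halt]
      simpa using h1) hx hy
    obtain rfl := hax hz
    exact ⟨z, hz, h1, h2⟩
  · intro x hx
    by_contra hcon
    push Not at hcon
    refine hx (hnd x (eq_zero_of_cen hK h hc fun y ψ hy => ?_))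
    rw [skew_of_alt halt, hcon y (hax hy ▸ hy), neg_zero]
  · rw [eq_top_iff, ← cen_eq_top hK h hc]
    exact Submodule.span_mono fun x ⟨θ, hx⟩ => by
      obtain rfl := hax hx
      exact hx

/-- In characteristic two fullness passes to opposite transvections. -/
theorem Root.of_opp [Finite F] (h2 : (2 : F) = 0) {x y : ι → F} {φ ψ : Dual F (ι → F)}
    (h : Root K x φ) (hy : HasTv K y ψ) (hψ : ψ y = 0) (h1 : φ y ≠ 0) (h1' : ψ x ≠ 0) :
    Root K y ψ := by
  refine ⟨by rintro rfl; simp at h1, by rintro rfl; simp at h1', hψ, fun a => ?_⟩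
  obtain ⟨t, ht, e⟩ := h.hasTv
  obtain ⟨t', ht', e'⟩ := hy
  obtain ⟨k, hk, c⟩ := exists_conj_two h2 e e' h.2.2.1 hψ h1 h1' ht ht'
  obtain ⟨s, hs, es⟩ := h.2.2.2 a
  refine ⟨k * s * k⁻¹, K.mul_mem (K.mul_mem hk hs) (K.inv_mem hk), fun v => ?_⟩
  have e1 := e' v
  rw [← c, act_mul, act_mul, e, map_add, map_smul, act_act_inv, add_right_inj] at e1
  rw [act_mul, act_mul, es, map_add, map_smul, act_act_inv, add_right_inj, LinearMap.smul_apply,
    smul_eq_mul, mul_smul, e1, LinearMap.smul_apply, smul_eq_mul, mul_smul]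

theorem closure_sq_two [Fintype F] (h2 : (2 : F) = 0) {a : F}
    (h : Subfield.closure ({a} : Set F) = ⊤) : Subfield.closure ({a ^ 2} : Set F) = ⊤ := by
  refine closure_eq_top_of_mem h ?_
  have : CharP F 2 := (CharP.charP_iff_prime_eq_zero Nat.prime_two).2 (by exact_mod_cast h2)
  obtain ⟨k, -, hk⟩ := FiniteField.card F 2
  have e : a = (a ^ 2) ^ (2 ^ ((k : ℕ) - 1)) := by
    rw [← pow_mul, ← pow_succ', Nat.sub_add_cancel k.pos, ← hk, FiniteField.pow_card]
  have := pow_mem (Subfield.subset_closure (Set.mem_singleton (a ^ 2))) (2 ^ ((k : ℕ) - 1))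
  rwa [← e] at this

/-- `K` contains the symplectic transvection with centre `v` and parameter one -/
def Dv (K : Subgroup (GL ι F)) (B : (ι → F) →ₗ[F] Dual F (ι → F)) (v : ι → F) : Prop :=
  HasTv K v (B v)

theorem Dv.conj {v : ι → F} (h : Dv K B v) {l : GL ι F} (hl : l ∈ K)
    (hB : ∀ u v, B (act l u) (act l v) = B u v) : Dv K B (act l v) :=
  HasTv.conj' h hl rfl fun u => hB v u

theorem dv_smul {v : ι → F} (c : F) : Dv K B (c • v) ↔ HasTv K v (c ^ 2 • B v) := by
  rw [Dv, HasTv.smul_left_iff, map_smul, smul_smul, pow_two]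

section siegel

variable (halt : ∀ v, B v v = 0)
include halt

theorem tv_step {v w : ι → F} (hv : Dv K B v) (hw : Dv K B w) : Dv K B (w + B v w • v) := by
  have := HasTv.conj_tv hw hv (halt v)
  unfold Dv
  convert this using 1
  refine LinearMap.ext fun u => ?_
  simp [skew_of_alt halt w v]

theorem siegel (h2 : (2 : F) = 0) {v δ w : ι → F} (hv : Dv K B v) (hv' : Dv K B (v + δ))
    (hw : Dv K B w) (h1 : B v δ = 0) (h3 : B δ w = 0) : Dv K B (w + B v w • δ) := by
  have := tv_step halt hv (tv_step halt hv' hw)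
  convert this using 1
  simp only [map_add, map_smul, LinearMap.add_apply, h3, halt, h1, smul_eq_mul, add_zero, mul_zero,
    smul_add]
  have : (2 : F) • (B v w • v) = 0 := by rw [h2, zero_smul]
  linear_combination (norm := module) -this

variable {m : ℕ}

theorem affine [Finite F] (h2 : (2 : F) = 0) (hm : 1 ≤ m) (j : (Fin (m + 1) → F) →ₗ[F] (ι → F))
    (hj : ∀ a b, B (j a) (j b) = 0) {l : GL ι F} (hl : l ∈ K)
    (hB : ∀ u v, B (act l u) (act l v) = B u v)
    (hlj : ∀ a, act l (j a) = j (act (xU F (m + 1)) a)) {ρ κ : F} (hρ : ρ ≠ 0) (hκ : κ ≠ 0)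
    (hgen : Subfield.closure ({(κ * ρ) ^ 2} : Set F) = ⊤) (h0 : Dv K B (j (ρ • bs m)))
    {w : ι → F} (hw : Dv K B w) (hwj : ∀ a, B w (j a) = κ * co m a) (β : F) :
    Dv K B (j (ρ • bs m + β • bs 0)) := by
  set lam := (κ * ρ) ^ 2 with hlam
  let P : (Fin (m + 1) → F) → Prop := fun a => co m a = 0 ∧ Dv K B (j (ρ • bs m + a))
  have hjw : ∀ a, B (j a) w = κ * co m a := fun a => by
    rw [skew_of_alt halt, hwj]; linear_combination (-(κ * co m a)) * h2
  have hbm : co m (bs m : Fin (m + 1) → F) = 1 := co_bs_self (by omega)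
  have k1 : ∀ a, P a → ∀ b, P b → P (b + lam • a) := by
    rintro a ⟨ha0, ha⟩ b ⟨hb0, hb⟩
    refine ⟨by simp [ha0, hb0], ?_⟩
    rw [map_add] at ha
    have h3 := siegel halt h2 h0 ha hw (hj _ _) (by rw [hjw, ha0, mul_zero])
    have h4 := siegel halt h2 hw h3 hb (by rw [map_smul, hwj, ha0]; simp)
      (by rw [map_smul, LinearMap.smul_apply, hj, smul_zero])
    convert h4 using 1
    simp only [map_add, map_smul, hwj, hjw, hbm, hb0, smul_eq_mul, LinearMap.smul_apply, hlam]
    module
  have P0 : P 0 := ⟨map_zero _, by rwa [add_zero]⟩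
  have k2 : ∀ a, P a → ∀ k : ℕ, P (lam ^ k • a) := by
    intro a ha k
    induction k with
    | zero => simpa using ha
    | succ k ih => simpa [pow_succ', mul_smul] using k1 _ ih 0 P0
  have k3 : ∀ a b, P a → P b → P (a + b) := by
    intro a b ha hb
    have := Fintype.ofFinite F
    have h3 := k1 _ (k2 b hb (Fintype.card F - 2)) a ha
    have hl0 : lam ≠ 0 := pow_ne_zero _ (mul_ne_zero hκ hρ)
    have h4 := FiniteField.pow_card_sub_one_eq_one lam hl0
    have h5 : Fintype.card F - 1 = Fintype.card F - 2 + 1 := by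
      have := Fintype.one_lt_card (α := F); omega
    rwa [smul_smul, ← pow_succ', ← h5, h4, one_smul] at h3
  let U : Submodule F (Fin (m + 1) → F) :=
    { carrier := {a | P a}
      zero_mem' := P0
      add_mem' := fun {a b} ha hb => k3 a b ha hb
      smul_mem' := fun c a ha => by
        let A : AddSubgroup F :=
          { carrier := {c | P (c • a)}
            zero_mem' := by simpa using P0
            add_mem' := fun {c d} hc hd => by
              change P _
              rw [add_smul]; exact k3 _ _ hc hd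
            neg_mem' := fun {c} hc => by
              rwa [show -c = c by linear_combination (-c) * h2] }
        have := addSubgroup_mul_mem A hgen (fun c hc => by
          change P _
          simpa [mul_smul] using k1 _ hc 0 P0) c 1 (by
            change P _
            simpa using ha)
        rwa [mul_one] at this }
  obtain ⟨m, rfl⟩ : ∃ m', m = m' + 1 := ⟨m - 1, by omega⟩
  have k4 : ∀ a, P a → P (ρ • bs m + act (xU F (m + 1 + 1)) a) := by
    rintro a ⟨ha0, ha⟩
    refine ⟨by rw [map_add, map_smul, co_last_xU, ha0, co_bs_ne (by omega)]; simp, ?_⟩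
    have := ha.conj hl hB
    rwa [hlj, map_add, map_smul, xU_bs_succ (by omega), smul_add,
      add_assoc (ρ • bs (m + 1))] at this
  have k5 : ρ • bs m ∈ U := by
    have := k4 0 P0
    rwa [map_zero, add_zero] at this
  have := mem_of_inv (e := bs 0) ((isNilpotent_nil_iff _).2 nilp_xU)
    (fun v hv => fix_xU v (by rwa [nil_apply, sub_eq_zero] at hv)) (W := U) (fun v hv => by
      rw [nil_apply]
      have := U.sub_mem (U.sub_mem (k4 v hv) k5) hv
      rwa [add_sub_cancel_left] at this) (fun h => by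
        rw [h, Submodule.mem_bot] at k5
        have := congrArg (co m) k5
        simp [co_bs, hρ] at this)
  exact (U.smul_mem β this).2

end siegel

end CL.KSG.Irr
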