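import Cfsg.Agent.KSG.RegSL

/-!
# Subgroups of unitary groups containing many unitary transvection groups
-/

set_option autoImplicit false
set_option linter.unusedSectionVars false

namespace CL.KSG.Irr

open Matrix Module Cfsg Cfsg.Geo CL.Tv

variable {F : Type*} [Field F] {ι : Type} [Fintype ι] [DecidableEq ι] {K : Subgroup (GL ι F)}

theorem all_of_two_tv {E : Type*} [Field E] [Fintype E] (τ : E →+* F) (h2 : (2 : E) ≠ 0) {lam : E}
    (hl0 : lam ≠ 0) (hgen : Subfield.closure ({lam} : Set E) = ⊤)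
    (hex : ¬ (Fintype.card E = 9 ∧ lam ^ 2 = -1)) {x y : ι → F} {φ ψ : Dual F (ι → F)}
    (hφ : φ x = 0) (hψ : ψ y = 0) (hx : HasTv K x φ) (hy : HasTv K y ψ) (hl : τ lam = ψ x * φ y)
    (a : E) : HasTv K x (τ a • φ) := by
  obtain ⟨g, hg, e⟩ := hy
  have h1 : ψ x ≠ 0 := left_ne_zero_of_mul (by rw [← hl]; simpa using hl0)
  exact all_of_dickson τ h2 hl0 hgen hex (y := ψ x • y) (ψ := (ψ x)⁻¹ • ψ) hφ (by simp [hψ])
    (by simp [h1]) (by simp [hl]) hx hg (e x) (by rw [e]; simp [hψ])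
    (fun v h3 h4 => by
      have h5 : ψ v = 0 := by simpa [h1] using h4
      rw [e, h5]; simp [h3, h5]) a

variable {σ : F →+* F} {B : (ι → F) →ₛₗ[σ] (ι → F) →ₗ[F] F}

/-- `g` preserves the form -/
def Isom (B : (ι → F) →ₛₗ[σ] (ι → F) →ₗ[F] F) (g : GL ι F) : Prop :=
  ∀ u v, B (act g u) (act g v) = B u v

theorem Isom.mul {g h : GL ι F} (hg : Isom B g) (hh : Isom B h) : Isom B (g * h) := fun u v => by
  rw [act_mul, act_mul, hg, hh]

theorem Isom.inv {g : GL ι F} (hg : Isom B g) : Isom B g⁻¹ := fun u v => by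
  rw [← hg, act_act_inv, act_act_inv]

/-- `K` contains the full unitary transvection group with centre `v` -/
def Du (K : Subgroup (GL ι F)) (B : (ι → F) →ₛₗ[σ] (ι → F) →ₗ[F] F) (v : ι → F) : Prop :=
  B v v = 0 ∧ ∀ κ : F, κ + σ κ = 0 → HasTv K v (κ • B v)

theorem Du.conj {v : ι → F} (h : Du K B v) {g : GL ι F} (hg : g ∈ K) (hB : Isom B g) :
    Du K B (act g v) :=
  ⟨by rw [hB, h.1], fun κ hκ => (h.2 κ hκ).conj' hg rfl fun u => by simp [hB v u]⟩

/-- `K` contains the map of the unipotent radical with data `t`, `c` -/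
def HasE (K : Subgroup (GL ι F)) (B : (ι → F) →ₛₗ[σ] (ι → F) →ₗ[F] F) (P t : ι → F) (c : F) : Prop :=
  ∃ g ∈ K, ∀ v, act g v = v + B P v • t - B t v • P + (c * B P v) • P

/-- affine points -/
def Mp (K : Subgroup (GL ι F)) (B : (ι → F) →ₛₗ[σ] (ι → F) →ₗ[F] F) (P R : ι → F) : Prop :=
  B P R = 1 ∧ ∃ c : F, Du K B (R + c • P)

/-- the standing hypotheses -/
structure Herm (K : Subgroup (GL ι F)) (B : (ι → F) →ₛₗ[σ] (ι → F) →ₗ[F] F) : Prop where
  hσ : ∀ a, σ (σ a) = a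
  hB : ∀ u v, B u v = σ (B v u)
  nd : ∀ v, (∀ u, B u v = 0) → v = 0
  hK : ∀ g ∈ K, Isom B g
  ex : ∃ ω : F, σ ω ≠ ω

theorem isom_tv (hB : ∀ u v, B u v = σ (B v u)) {P : ι → F} (hP : B P P = 0) {κ : F}
    (hκ : κ + σ κ = 0) {g : GL ι F} (e : ∀ v, act g v = v + (κ • B P) v • P) : Isom B g := by
  intro u v
  simp only [e, map_add, LinearMap.map_smulₛₗ, LinearMap.add_apply, LinearMap.smul_apply, hP,
    smul_eq_mul, map_mul, RingHom.id_apply, hB u P]
  linear_combination (B P v * σ (B P u)) * hκ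

theorem exists_E (hB : ∀ u v, B u v = σ (B v u)) {P t : ι → F}
    (hP : B P P = 0) (ht : B P t = 0) {c : F} (hc : c + σ c + B t t = 0) :
    ∃ g : GL ι F, (g : Matrix ι ι F).det = 1 ∧ Isom B g ∧
      ∀ v, act g v = v + B P v • t - B t v • P + (c * B P v) • P := by
  have ht' : B t P = 0 := by rw [hB, ht, map_zero]
  have h1 : (-B t) P = 0 := by simp [ht']
  have h2 : B P (t + (c + B t t) • P) = 0 := by simp [ht, hP]
  have e : ∀ v, act (tv _ _ h1 * tv _ _ h2) v = v + B P v • t - B t v • P + (c * B P v) • P := by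
    intro v
    rw [act_mul, act_tv, act_tv]
    simp only [map_add, map_smul, LinearMap.neg_apply, ht', smul_eq_mul]
    module
  refine ⟨_, mem_SL_iff.1 (mul_mem (tv_mem_SL _ _ _) (tv_mem_SL _ _ _)), fun u v => ?_, e⟩
  simp only [e, map_add, map_sub, LinearMap.map_smulₛₗ, LinearMap.add_apply, LinearMap.sub_apply,
    LinearMap.smul_apply, hP, ht, ht', smul_eq_mul, map_mul, RingHom.id_apply, hB u P, hB u t]
  linear_combination (B P v * σ (B P u)) * hc

theorem exists_aniso (hB : ∀ u v, B u v = σ (B v u)) {t₁ : ι → F} (h : B t₁ t₁ ≠ 0) (t : ι → F) :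
    ∃ s : F, B (t + s • t₁) (t + s • t₁) ≠ 0 := by
  set t' := t + (-(B t₁ t / B t₁ t₁)) • t₁ with ht'
  have h1 : B t₁ t' = 0 := by simp [ht', h]
  have h2 : B t' t₁ = 0 := by rw [hB, h1, map_zero]
  by_cases h3 : B t' t' = 0
  · refine ⟨-(B t₁ t / B t₁ t₁) + 1, ?_⟩
    rw [add_smul, ← add_assoc, ← ht', one_smul]
    simpa [h1, h2, h3] using h
  · exact ⟨_, h3⟩

theorem smul_mem_of_aniso (hB : ∀ u v, B u v = σ (B v u)) (S : AddSubgroup (ι → F))
    (hS : ∀ t ∈ S, B t t ≠ 0 → ∀ c : F, c • t ∈ S) {t₁ : ι → F} (h1 : t₁ ∈ S) (h : B t₁ t₁ ≠ 0)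
    {t : ι → F} (ht : t ∈ S) (c : F) : c • t ∈ S := by
  obtain ⟨s, hs⟩ := exists_aniso hB h t
  have := S.sub_mem (hS _ (S.add_mem ht (hS _ h1 h s)) hs c) (hS _ h1 h (c * s))
  rwa [smul_add, smul_smul, add_sub_cancel_right] at this

namespace HasE

variable {P t t' : ι → F} {c c' : F}

theorem mul (hP : B P P = 0) (ht : B t P = 0) (ht' : B P t' = 0) (h : HasE K B P t c)
    (h' : HasE K B P t' c') : HasE K B P (t + t') (c + c' - B t t') := by
  obtain ⟨g, hg, e⟩ := h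
  obtain ⟨g', hg', e'⟩ := h'
  refine ⟨g * g', K.mul_mem hg hg', fun v => ?_⟩
  rw [act_mul, e, e']
  simp only [map_add, map_sub, map_smul, hP, ht, ht', smul_eq_mul, LinearMap.add_apply]
  module

theorem inv (hP : B P P = 0) (ht : B t P = 0) (ht' : B P t = 0) (h : HasE K B P t c) :
    HasE K B P (-t) (-c - B t t) := by
  obtain ⟨g, hg, e⟩ := h
  refine ⟨g⁻¹, K.inv_mem hg, fun v => act_inv_eq ?_⟩
  rw [e]
  simp only [map_add, map_sub, map_smul, map_neg, hP, ht, ht', smul_eq_mul, LinearMap.neg_apply]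
  module

theorem conj (h : HasE K B P t c) {g : GL ι F} (hg : g ∈ K) (hB : Isom B g) (hP : act g P = P) :
    HasE K B P (act g t) c := by
  obtain ⟨s, hs, e⟩ := h
  refine ⟨g * s * g⁻¹, K.mul_mem (K.mul_mem hg hs) (K.inv_mem hg), fun v => ?_⟩
  obtain ⟨u, rfl⟩ := (act g).surjective v
  have : B P (act g u) = B P u := by rw [← hB P u, hP]
  rw [act_mul, act_mul, act_inv_act, e, this, hB]
  simp only [map_add, map_sub, map_smul, hP]

theorem hasTv {β : F} (h : HasE K B P (β • P) c) : HasTv K P ((c + β - σ β) • B P) := by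
  obtain ⟨s, hs, e⟩ := h
  refine ⟨s, hs, fun v => ?_⟩
  rw [e]
  simp only [LinearMap.map_smulₛₗ, LinearMap.smul_apply, smul_eq_mul]
  module

end HasE

namespace Herm

variable (H : Herm K B)
include H

theorem zero_symm {u v : ι → F} (h : B u v = 0) : B v u = 0 := by rw [H.hB, h, map_zero]

theorem exists_tz : ∃ θ : F, θ ≠ 0 ∧ θ + σ θ = 0 := by
  obtain ⟨ω, hω⟩ := H.ex
  exact ⟨ω - σ ω, sub_ne_zero.2 hω.symm, by simp [H.hσ]⟩

theorem smul {v : ι → F} (h : Du K B v) (c : F) : Du K B (c • v) := by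
  refine ⟨by simp [h.1], fun κ hκ => ?_⟩
  rw [HasTv.smul_left_iff, LinearMap.map_smulₛₗ, smul_smul, smul_smul]
  refine h.2 _ ?_
  simp only [map_mul, H.hσ]
  linear_combination (c * σ c) * hκ

theorem step {v w : ι → F} (hv : Du K B v) (hw : Du K B w) {κ : F} (hκ : κ + σ κ = 0) :
    Du K B (w + (κ * B v w) • v) := by
  obtain ⟨t, ht, e⟩ := hv.2 κ hκ
  have := hw.conj ht (H.hK t ht)
  rwa [e] at this

theorem tz_of_hasTv {P : ι → F} (hP : B P P = 0) (hP0 : P ≠ 0) {κ : F} (h : HasTv K P (κ • B P)) :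
    κ + σ κ = 0 := by
  obtain ⟨t, ht, e⟩ := h
  obtain ⟨u, hu⟩ : ∃ u, B u P ≠ 0 := by
    by_contra h0
    push Not at h0
    exact hP0 (H.nd P h0)
  have h1 := H.hK t ht u u
  have hu' : B P u ≠ 0 := fun h0 => hu (H.zero_symm h0)
  simp only [e, map_add, LinearMap.map_smulₛₗ, LinearMap.add_apply, LinearMap.smul_apply, hP,
    smul_eq_mul, map_mul, RingHom.id_apply, H.hB u P] at h1
  have h2 : (κ + σ κ) * (B P u * σ (B P u)) = 0 := by linear_combination h1
  simpa [hu'] using h2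

variable {P : ι → F} (hP : Du K B P)
include hP

theorem mp_conj {R : ι → F} (h : Mp K B P R) {g : GL ι F} (hg : g ∈ K) (e : act g P = P) :
    Mp K B P (act g R) := by
  obtain ⟨h1, c, h2⟩ := h
  refine ⟨by rw [← h1, ← H.hK g hg P R, e], c, ?_⟩
  have := h2.conj hg (H.hK g hg)
  rwa [map_add, map_smul, e] at this

theorem mp_line {R S : ι → F} (hR : Mp K B P R) (hS : Mp K B P S) :
    ∃ ζ : F, ζ + σ ζ + B (S - R) (S - R) = 0 ∧ ∀ κ κ' : F, κ + σ κ = 0 → κ' + σ κ' = 0 →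
      1 + κ' * (ζ + κ) ≠ 0 → Mp K B P (R + (1 + κ' * (ζ + κ))⁻¹ • (S - R)) := by
  obtain ⟨r1, c, hR⟩ := hR
  obtain ⟨s1, d, hS⟩ := hS
  have r2 : B P (R + c • P) = 1 := by simp [r1, hP.1]
  have s2 : B P (S + d • P) = 1 := by simp [s1, hP.1]
  have r3 : B (R + c • P) P = 1 := by rw [H.hB, r2, map_one]
  have h0 : B P (S - R) = 0 := by simp [r1, s1]
  refine ⟨B (R + c • P) (S + d • P), ?_, fun κ κ' hκ hκ' hμ => ⟨by simp [r1, s1], ?_⟩⟩
  · have e : S - R = ((S + d • P) - (R + c • P)) + (c - d) • P := by module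
    have h1 : B (S - R) (S - R) = B ((S + d • P) - (R + c • P)) ((S + d • P) - (R + c • P)) := by
      have h2 : B P ((S + d • P) - (R + c • P)) = 0 := by rw [map_sub, r2, s2, sub_self]
      have h3 := H.zero_symm h2
      conv_lhs => rw [e]
      simp only [map_add (B _), map_add B, LinearMap.add_apply, LinearMap.map_smulₛₗ, h2, h3, hP.1,
        LinearMap.smul_apply, smul_zero, add_zero]
    rw [h1, ← H.hB]
    simp only [map_sub B, map_sub (B _), LinearMap.sub_apply, hR.1, hS.1]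
    ring
  · have h1 := H.step hP hS hκ
    have h2 := H.smul (H.step hR h1 hκ') (1 + κ' * (B (R + c • P) (S + d • P) + κ))⁻¹
    rw [s2, map_add (B _) (S + d • P), map_smul, r3, mul_one, smul_eq_mul, mul_one] at h2
    set ζ := B (R + c • P) (S + d • P)
    refine ⟨(1 + κ' * (ζ + κ))⁻¹ * (d + κ + κ' * (ζ + κ) * c), ?_⟩
    convert h2 using 1
    have : (1 : F) = (1 + κ' * (ζ + κ))⁻¹ * (1 + κ' * (ζ + κ)) := (inv_mul_cancel₀ hμ).symm
    linear_combination (norm := module) this • R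

theorem mp_aniso {R S : ι → F} (hR : Mp K B P R) (hS : Mp K B P S) (h : B (S - R) (S - R) ≠ 0)
    (ν : F) : Mp K B P (R + ν • (S - R)) := by
  have key : ∀ {S : ι → F}, Mp K B P S → B (S - R) (S - R) ≠ 0 → ∀ ν : F, σ ν ≠ ν →
      Mp K B P (R + ν • (S - R)) := by
    intro S hS h ν hν
    obtain ⟨ζ, h1, h2⟩ := H.mp_line hP hR hS
    have hν0 : ν ≠ 0 := by rintro rfl; simp at hν
    have hσν : σ ν ≠ 0 := by simpa using hν0
    set ξ := ν⁻¹ - 1 with hξ
    have hξ' : ξ - σ ξ ≠ 0 := by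
      rw [hξ, map_sub, map_one, map_inv₀, sub_sub_sub_cancel_right, sub_ne_zero]
      exact fun e => hν (inv_injective e).symm
    have hτ : ζ + σ ζ ≠ 0 := fun e => h (by rwa [e, zero_add] at h1)
    have hτ' : σ ζ + ζ ≠ 0 := by rwa [add_comm]
    have hξ'' : σ ξ - ξ ≠ 0 := fun e => hξ' (by linear_combination -e)
    have := h2 (ξ / ((ξ - σ ξ) / (ζ + σ ζ)) - ζ) ((ξ - σ ξ) / (ζ + σ ζ)) (by
      simp only [map_sub, map_div₀, map_add, H.hσ]
      field_simp
      ring) (by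
      simp only [map_sub, map_div₀, map_add, H.hσ]
      field_simp
      ring)
    have e : 1 + (ξ - σ ξ) / (ζ + σ ζ) * (ζ + (ξ / ((ξ - σ ξ) / (ζ + σ ζ)) - ζ)) = ν⁻¹ := by
      rw [add_sub_cancel, mul_div_cancel₀ _ (div_ne_zero hξ' hτ), hξ]; ring
    rw [e, inv_inv] at this
    exact this (inv_ne_zero hν0)
  by_cases hν : σ ν = ν
  swap
  · exact key hS h ν hν
  by_cases hν0 : ν = 0
  · simpa [hν0] using hR
  obtain ⟨ω, hω⟩ := H.ex
  have hω0 : ω ≠ 0 := by rintro rfl; simp at hω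
  have := key (key hS h ω hω) (by
    rw [add_sub_cancel_left, LinearMap.map_smulₛₗ B, LinearMap.smul_apply, map_smul]
    exact smul_ne_zero (by simpa using hω0) (smul_ne_zero hω0 h)) (ν / ω) (by
    rw [map_div₀, hν, div_eq_mul_inv, div_eq_mul_inv]
    exact fun e => hω (inv_injective (mul_left_cancel₀ hν0 e)))
  rwa [add_sub_cancel_left, smul_smul, div_mul_cancel₀ _ hω0] at this

theorem mp_fixed {R S : ι → F} (hR : Mp K B P R) (hS : Mp K B P S) {ν : F} (hν : σ ν = ν) :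
    Mp K B P (R + ν • (S - R)) := by
  by_cases h : B (S - R) (S - R) = 0
  swap
  · exact H.mp_aniso hP hR hS h ν
  by_cases hν0 : ν = 0
  · simpa [hν0] using hR
  obtain ⟨ζ, h1, h2⟩ := H.mp_line hP hR hS
  obtain ⟨θ, hθ0, hθ⟩ := H.exists_tz
  have hθ' : σ θ = -θ := by linear_combination hθ
  have := h2 ((ν⁻¹ - 1) / θ - ζ) θ (by
    simp only [map_sub, map_div₀, map_inv₀, map_one, hν, hθ']
    rw [h, add_zero] at h1
    rw [div_neg]
    linear_combination -h1) hθ
  have e : 1 + θ * (ζ + ((ν⁻¹ - 1) / θ - ζ)) = ν⁻¹ := by field_simp; ring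
  rw [e, inv_inv] at this
  exact this (inv_ne_zero hν0)

/-- If all affine points are present then so are all isotropic vectors. -/
theorem du_of_mp (hall : ∀ R, B P R = 1 → Mp K B P R) {Q : ι → F} (hQ : B P Q = 1) {v : ι → F}
    (hv : B v v = 0) : Du K B v := by
  have k1 : ∀ v, B v v = 0 → B P v ≠ 0 → Du K B v := by
    intro v hv h1
    obtain ⟨h2, c, h3⟩ := hall ((B P v)⁻¹ • v) (by simp [h1])
    have h4 : -c + σ (-c) = 0 := by
      have h5 := h3.1
      have h6 : B ((B P v)⁻¹ • v) P = 1 := by rw [H.hB, h2, map_one]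
      have h7 : B ((B P v)⁻¹ • v) ((B P v)⁻¹ • v) = 0 := by simp [hv]
      simp only [map_add (B _), map_add B, LinearMap.add_apply, LinearMap.map_smulₛₗ B c,
        map_smul (B _) c, LinearMap.smul_apply, h2, h6, h7, hP.1, smul_eq_mul] at h5
      rw [map_neg]; linear_combination -h5
    have h5 := H.smul (H.step hP h3 h4) (B P v)
    rw [map_add, h2, map_smul, hP.1, smul_zero, add_zero, mul_one, add_assoc, ← add_smul,
      add_neg_cancel, zero_smul, add_zero, smul_smul, mul_inv_cancel₀ h1, one_smul] at h5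
    exact h5
  by_cases h1 : B P v = 0
  swap
  · exact k1 v hv h1
  by_cases h0 : v = 0
  · rw [h0]; exact ⟨by simp, fun κ _ => HasTv.zero_left _⟩
  obtain ⟨R, r1, r2⟩ : ∃ R, B P R = 1 ∧ B R v ≠ 0 := by
    by_cases h2 : B Q v = 0
    · obtain ⟨u, hu⟩ : ∃ u, B u v ≠ 0 := by
        by_contra h3
        push Not at h3
        exact h0 (H.nd v h3)
      exact ⟨u + (1 - B P u) • Q, by simp [hQ], by simpa [h2] using hu⟩
    · exact ⟨Q, hQ, h2⟩
  obtain ⟨-, c, hS⟩ := hall R r1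
  set S := R + c • P with hSd
  have s1 : B P S = 1 := by simp [hSd, r1, hP.1]
  have s2 : B S v ≠ 0 := by simpa [hSd, h1] using r2
  obtain ⟨θ, hθ0, hθ⟩ := H.exists_tz
  have hθ' : σ θ = -θ := by linear_combination hθ
  set b := B S v with hb
  have s3 : B v S = σ b := H.hB _ _
  have hσb : σ b ≠ 0 := by simpa using s2
  have h3 := k1 (S + (θ * σ b) • v) (by
    simp only [map_add, LinearMap.add_apply, LinearMap.map_smulₛₗ, LinearMap.smul_apply, hS.1, hv, s3,
      ← hb, smul_eq_mul, map_mul, H.hσ, hθ', RingHom.id_apply]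
    ring) (by simp [s1, h1])
  have h4 := H.smul (H.step hS h3 (κ := -(θ * σ b * b)⁻¹) (by
    simp only [map_neg, map_inv₀, map_mul, H.hσ, hθ']
    field_simp
    ring)) (θ * σ b)⁻¹
  convert h4 using 1
  rw [map_add, map_smul, hS.1, ← hb, zero_add, smul_eq_mul,
    show -(θ * σ b * b)⁻¹ * (θ * σ b * b) = -1 by field_simp]
  have : (1 : F) = (θ * σ b)⁻¹ * (θ * σ b) := (inv_mul_cancel₀ (mul_ne_zero hθ0 hσb)).symm
  linear_combination (norm := module) this • v

end Herm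

/-- the translations of the set of affine points -/
def trans [Finite F] (K : Subgroup (GL ι F)) (B : (ι → F) →ₛₗ[σ] (ι → F) →ₗ[F] F) (P : ι → F) :
    AddSubgroup (ι → F) where
  carrier := {t | ∀ R, Mp K B P R → Mp K B P (R + t)}
  zero_mem' R hR := by rwa [add_zero]
  add_mem' {a b} ha hb R hR := by rw [← add_assoc]; exact hb _ (ha R hR)
  neg_mem' {t} ht := by
    have h1 : ∀ k : ℕ, ∀ R, Mp K B P R → Mp K B P (R + k • t) := by
      intro k
      induction k with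
      | zero => intro R hR; simpa using hR
      | succ k ih => intro R hR; rw [succ_nsmul, ← add_assoc]; exact ht _ (ih R hR)
    have h2 : -t = (addOrderOf t - 1) • t := by
      have h3 := addOrderOf_nsmul_eq_zero t
      have h4 : addOrderOf t = addOrderOf t - 1 + 1 := by have := addOrderOf_pos t; omega
      rw [h4, succ_nsmul] at h3
      exact (eq_neg_of_add_eq_zero_left h3).symm
    rw [h2]; exact h1 _

namespace Herm

variable [Finite F] (H : Herm K B) {P : ι → F} (hP : Du K B P)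
include H hP

theorem trans_smul {t₁ : ι → F} (h1 : t₁ ∈ trans K B P) (h : B t₁ t₁ ≠ 0) {t : ι → F}
    (ht : t ∈ trans K B P) (c : F) : c • t ∈ trans K B P :=
  smul_mem_of_aniso H.hB (trans K B P) (fun t ht h0 c R hR => by
    have := H.mp_aniso hP hR (ht R hR) (by rwa [add_sub_cancel_left]) c
    rwa [add_sub_cancel_left] at this) h1 h ht c

theorem trans_conj {t : ι → F} (ht : t ∈ trans K B P) {g : GL ι F} (hg : g ∈ K) (e : act g P = P) :
    act g t ∈ trans K B P := fun R hR => by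
  have := H.mp_conj hP (ht _ (H.mp_conj hP hR (K.inv_mem hg) (act_inv_eq e))) hg e
  rwa [map_add, act_act_inv] at this

theorem trans_of_E {t : ι → F} {c : F} (ht : B P t = 0) (h : HasE K B P t c) : t ∈ trans K B P := by
  obtain ⟨g, hg, e⟩ := h
  intro R hR
  obtain ⟨h1, d, h2⟩ := H.mp_conj hP hR hg (by rw [e]; simp [hP.1, H.zero_symm ht])
  refine ⟨by simp [hR.1, ht], d + c - B t R, ?_⟩
  convert h2 using 1
  rw [e, hR.1]
  module

theorem trans_of_mp {ν : F} (h0 : ν ≠ 0) (h1 : ν ≠ 1) (hν : σ ν = ν) {R S : ι → F} (hR : Mp K B P R)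
    (hS : Mp K B P S) : S - R ∈ trans K B P := fun T hT => by
  have h1' : 1 - ν ≠ 0 := sub_ne_zero.2 h1.symm
  have h2 := H.mp_fixed hP hR hT (ν := (1 - ν)⁻¹) (by simp [hν])
  have h3 := H.mp_fixed hP hR hS (ν := ν⁻¹) (by simp [hν])
  have h4 := H.mp_fixed hP h2 h3 hν
  convert h4 using 1
  have e1 : (1 : F) = (1 - ν) * (1 - ν)⁻¹ := (mul_inv_cancel₀ h1').symm
  have e2 : (1 : F) = ν * ν⁻¹ := (mul_inv_cancel₀ h0).symm
  linear_combination (norm := module) e1 • (T - R) + e2 • (S - R)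

end Herm

end CL.KSG.Irr
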