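/-
Weight projections for the unipotent radicals of point stabilisers of orthogonal groups.
-/
import Mathlib
import Cfsg.Agent.KSG.LSProj
import Cfsg.Agent.KSG.LSWeil
import Cfsg.Agent.KSG.CoopO2

set_option autoImplicit false

namespace CL.MDO

open Module Submodule CL.Witt CL.Witt.Form CL.Witt.FormType CL.Coop

variable {F V : Type*} [Field F] [AddCommGroup V] [Module F V] {f : Form (quad F) V}
  {y z u u' v α β γ : V}

variable (f) in
/-- The Eichler element of a quadratic form. -/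
noncomputable def ee (z u : V) : f.E := ⟨f.ei z u (f.q u), ei_mem_E _ _ _⟩

theorem ee_apply (hz : f.q z = 0) (h : f.B z u = 0) (v : V) :
    (ee f z u).1 v = v + f.B z v • u - (f.B u v + f.q u * f.B z v) • z := by
  simpa [quad_ε, ee] using (okQ hz h).ei_apply v

theorem ee_fix (hz : f.q z = 0) (h : f.B z u = 0) (h1 : f.B z v = 0) (h2 : f.B u v = 0) :
    (ee f z u).1 v = v := by simp [ee_apply hz h, h1, h2]

theorem ee_add (hz : f.q z = 0) (h : f.B z u = 0) (h' : f.B z u' = 0) :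
    ee f z (u + u') = ee f z u * ee f z u' :=
  Subtype.ext (by simpa [ee, quad_q_add] using ((okQ hz h).ei_mul (okQ hz h')).symm)

theorem ee_zero (z : V) : ee f z 0 = 1 := Subtype.ext (by simpa [ee, f.q_zero] using ei_zero z)

theorem ee_smul (hz : f.q z = 0) (h : f.B z u = 0) (c : F) : ee f (c • z) u = ee f z (c • u) :=
  Subtype.ext (by simpa [ee, quad_q_smul, quad_σ, sq] using (okQ hz h).ei_smul_left c)

theorem ee_zero_left (u : V) : ee f 0 u = 1 := by
  refine Subtype.ext (LinearEquiv.ext fun v => ?_)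
  simp [ee_apply f.q_zero (f.B_zero_left u)]

theorem ee_add_smul (hz : f.q z = 0) (h : f.B z u = 0) (c : F) :
    ee f z (u + c • z) = ee f z u := by
  have := ((okQ hz h).add_smul_u c).ha
  have h2 := (okQ hz h).ei_add_smul_u c
  simp only [quad_σ, quad_ε, quad_π, one_mul, sub_self, add_zero] at this h2
  exact Subtype.ext (by simp only [ee, ← this, h2])

theorem ee_swap (hz : f.q z = 0) (hu : f.q u = 0) (h : f.B z u = 0) :
    ee f u (-z) = ee f z u := by
  refine Subtype.ext (LinearEquiv.ext fun v => ?_)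
  rw [ee_apply hz h, ee_apply hu (by simp [f.B_eq_zero_symm h])]
  simp only [f.q_neg, hz, hu, B_neg_left]
  module

theorem mul_ee (hz : f.q z = 0) (h : f.B z u = 0) (g : f.E) :
    g * ee f z u = ee f (g.1 z) (g.1 u) * g := by
  refine eq_mul_inv_iff_mul_eq.mp (Subtype.ext ?_) |>.symm
  simpa [ee, mem_O_q (E_le_O g.2)] using ((okQ hz h).conj_ei (E_le_O g.2)).symm

theorem B_E (g : f.E) (u v : V) : f.B (g.1 u) (g.1 v) = f.B u v := mem_O_B (E_le_O g.2) u v

theorem q_E (g : f.E) (u : V) : f.q (g.1 u) = f.q u := mem_O_q (E_le_O g.2) u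

section Sums

variable [Fintype F] [Fintype V]

open Classical in
theorem sum_shift {R : Type*} [AddCommMonoid R] (l : V →ₗ[F] F) (hu : l u ≠ 0) (Φ : V → R)
    (h : ∀ v (c : F), Φ (v + c • u) = Φ v) :
    ∑ v, Φ v = Nat.card F • ∑ v, if l v = 0 then Φ v else 0 := by
  rw [← Finset.sum_fiberwise (s := Finset.univ) (g := l), Nat.card_eq_fintype_card,
    ← Finset.card_univ, ← Finset.sum_const]
  refine Finset.sum_congr rfl fun c _ => ?_
  rw [Finset.sum_filter, ← Equiv.sum_comp (Equiv.addRight ((c / l u) • u))]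
  refine Finset.sum_congr rfl fun v _ => ?_
  simp [h, hu]

open Classical in
theorem sum_split (l : V →ₗ[F] F) (Φ : V → V → ℂ) (h : ∀ z u (c : F), Φ z (u + c • z) = Φ z u)
    (h' : ∀ z u, Φ u (-z) = Φ z u) :
    ∑ z, ∑ u, Φ z u = (Nat.card F + 1) * (∑ z, ∑ u, if l z = 0 then Φ z u else 0) -
      Nat.card F * ∑ z, ∑ u, if l z = 0 ∧ l u = 0 then Φ z u else 0 := by
  have h1 : ∀ z, ∑ u, Φ z u = (∑ u, if l z = 0 then Φ z u else 0) +
      Nat.card F * ∑ u, if l u = 0 ∧ l z ≠ 0 then Φ z u else 0 := fun z => by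
    by_cases hz : l z = 0
    · simp [hz]
    · simpa [hz] using sum_shift l hz (Φ z) (h z)
  have h2 : ∑ z, ∑ u, (if l u = 0 ∧ l z ≠ 0 then Φ z u else 0) =
      ∑ z, ∑ u, if l z = 0 ∧ l u ≠ 0 then Φ z u else 0 := by
    rw [Finset.sum_comm, ← Equiv.sum_comp (Equiv.neg V)]
    refine Finset.sum_congr rfl fun z _ => Finset.sum_congr rfl fun u _ => ?_
    simp [h']
  simp only [h1, Finset.sum_add_distrib, ← Finset.mul_sum, h2]
  rw [add_mul, one_mul, add_comm, add_sub_right_comm, ← mul_sub, ← Finset.sum_sub_distrib]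
  congr 2
  refine Finset.sum_congr rfl fun z _ => ?_
  rw [← Finset.sum_sub_distrib]
  refine Finset.sum_congr rfl fun u _ => ?_
  by_cases hz : l z = 0 <;> by_cases hu : l u = 0 <;> simp [hz, hu]

theorem sum_ite_card {α : Type*} [Fintype α] (p : α → Prop) [DecidablePred p] (c : ℂ) :
    ∑ a, (if p a then c else 0) = Nat.card {a // p a} * c := by
  rw [← Finset.sum_filter, Finset.sum_const, Nat.card_eq_fintype_card, Fintype.card_subtype,
    nsmul_eq_mul]

variable {ψ : AddChar F ℂ}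

open Classical in
theorem sum_one_sub (hψ : ψ ≠ 1) (a : F) :
    ∑ c, (1 - ψ (c * a)) = if a = 0 then 0 else (Nat.card F : ℂ) := by
  split_ifs with h
  · simp [h]
  · have := LS.sum_addChar_dual hψ (U := F) (l := a • LinearMap.id)
      fun h' => h (by simpa using LinearMap.congr_fun h' (1 : F))
    simp only [LinearMap.smul_apply, LinearMap.id_apply, smul_eq_mul] at this
    simp [Finset.sum_sub_distrib, mul_comm _ a, this]

open Classical in
theorem sum_scale (hψ : ψ ≠ 1) (l : V →ₗ[F] F) (p : V → Prop) [DecidablePred p]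
    (h : ∀ v (c : F), c ≠ 0 → (p (c • v) ↔ p v)) :
    (Nat.card F - 1) * ∑ v, (if p v then 1 - ψ (l v) else 0) =
      Nat.card F * Nat.card {v // p v ∧ l v ≠ 0} := by
  have h1 : ∀ c : F, ∑ v, (if p v then 1 - ψ (c * l v) else 0) =
      (∑ v, if p v then 1 - ψ (l v) else 0) -
        if c = 0 then ∑ v, (if p v then 1 - ψ (l v) else 0) else 0 := fun c => by
    split_ifs with hc
    · simp [hc]
    · rw [sub_zero, ← Equiv.sum_comp (LinearEquiv.smulOfNeZero F V c hc).toEquiv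
        (fun v => if p v then 1 - ψ (l v) else 0)]
      simp [h _ _ hc]
  have h2 := Finset.sum_congr rfl fun c (_ : c ∈ Finset.univ) => h1 c
  rw [Finset.sum_comm, Finset.sum_sub_distrib, Finset.sum_const, Finset.card_univ,
    ← Nat.card_eq_fintype_card, Finset.sum_ite_eq', if_pos (Finset.mem_univ _)] at h2
  rw [mul_comm (Nat.card F : ℂ), ← sum_ite_card, sub_mul, one_mul, ← nsmul_eq_mul, ← h2]
  refine Finset.sum_congr rfl fun v _ => ?_
  by_cases hv : p v
  · simp [hv, sum_one_sub hψ]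
  · simp [hv]

end Sums

variable [Finite F] [Fintype V] {ψ : AddChar F ℂ} {M : Type*} [AddCommGroup M] [Module ℂ M]

open Classical in
theorem sum_perp (hf : f.Nondeg) (hψ : ψ ≠ 1) (z γ : V) :
    ∑ u : f.perp (F ∙ z), ψ (f.B γ u) =
      if γ ∈ F ∙ z then (Nat.card (f.perp (F ∙ z)) : ℂ) else 0 := by
  split_ifs with h
  · rw [Finset.sum_congr rfl (g := fun _ => 1) fun u _ => by rw [f.mem_perp.mp u.2 γ h]; simp]
    simp
  · refine LS.sum_addChar_dual hψ (l := (f.B γ).domRestrict _) fun h' => h ?_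
    rw [← hf.perp_perp (F ∙ z)]
    exact f.mem_perp'.mpr fun w hw => LinearMap.congr_fun h' ⟨w, hw⟩

variable (ψ) in
open Classical in
/-- The projection onto the weight space of `u ↦ ψ (B α u)` for the group of the `ee z u`. -/
noncomputable def wp (ρ : f.E →* Module.End ℂ M) (z α : V) : Module.End ℂ M :=
  (Nat.card (f.perp (F ∙ z)) : ℂ)⁻¹ • ∑ u : f.perp (F ∙ z), ψ (-f.B α u) • ρ (ee f z u)

variable {ρ : f.E →* Module.End ℂ M}

omit [Finite F] [Fintype V] in
theorem perp_B (u : f.perp (F ∙ z)) : f.B z u = 0 := f.mem_perp_span_singleton.mp u.2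

omit [Finite F] in
theorem card_perp_ne (z : V) : (Nat.card (f.perp (F ∙ z)) : ℂ) ≠ 0 :=
  Nat.cast_ne_zero.mpr Nat.card_pos.ne'

omit [Finite F] in
theorem ee_mul_wp (hz : f.q z = 0) (hu : f.B z u = 0) (α : V) :
    ρ (ee f z u) * wp ψ ρ z α = ψ (f.B α u) • wp ψ ρ z α := by
  classical
  rw [wp, mul_smul_comm, smul_comm (ψ (f.B α u)), Finset.mul_sum]
  congr 1
  rw [Finset.smul_sum]
  refine Fintype.sum_equiv (Equiv.addLeft
    (⟨u, f.mem_perp_span_singleton.mpr hu⟩ : f.perp (F ∙ z))) _ _ fun θ => ?_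
  rw [mul_smul_comm, ← map_mul, ← ee_add hz hu (perp_B θ), smul_smul, ← AddChar.map_add_eq_mul]
  simp

open Classical in
theorem wp_mul (hf : f.Nondeg) (hψ : ψ ≠ 1) {E : Module.End ℂ M}
    (h : ∀ u, f.B z u = 0 → ρ (ee f z u) * E = ψ (f.B β u) • E) (α : V) :
    wp ψ ρ z α * E = if β - α ∈ F ∙ z then E else 0 := by
  rw [wp, smul_mul_assoc, Finset.sum_mul,
    Finset.sum_congr rfl (g := fun u : f.perp (F ∙ z) => ψ (f.B (β - α) u) • E),
    ← Finset.sum_smul, sum_perp hf hψ]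
  · split_ifs
    · rw [inv_smul_smul₀ (card_perp_ne z)]
    · simp
  · intro u _
    rw [smul_mul_assoc, h _ (perp_B u), smul_smul, ← AddChar.map_add_eq_mul, B_sub_left,
      neg_add_eq_sub]

open Classical in
theorem wp_mul_wp (hf : f.Nondeg) (hψ : ψ ≠ 1) (hz : f.q z = 0) (α β : V) :
    wp ψ ρ z α * wp ψ ρ z β = if β - α ∈ F ∙ z then wp ψ ρ z β else 0 :=
  wp_mul hf hψ (fun _ hu => ee_mul_wp hz hu β) α

theorem wp_mul_self (hf : f.Nondeg) (hψ : ψ ≠ 1) (hz : f.q z = 0) (α : V) :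
    wp ψ ρ z α * wp ψ ρ z α = wp ψ ρ z α := by
  rw [wp_mul_wp hf hψ hz, sub_self, if_pos (zero_mem _)]

omit [Finite F] in
theorem wp_congr (h : α - β ∈ F ∙ z) : wp ψ ρ z α = wp ψ ρ z β := by
  simp only [wp]
  congr 1
  refine Finset.sum_congr rfl fun u _ => ?_
  rw [← sub_eq_zero.mp ((f.B_sub_left α β u).symm.trans (f.mem_perp.mp u.2 _ h))]

omit [Finite F] in
theorem commute_wp {E : Module.End ℂ M} (h : ∀ u, f.B z u = 0 → Commute E (ρ (ee f z u)))
    (α : V) : Commute E (wp ψ ρ z α) :=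
  (Commute.sum_right _ _ _ fun u _ => (h _ (perp_B u)).smul_right _).smul_right _

omit [Finite F] in
theorem wp_mul_ee (hz : f.q z = 0) (hu : f.B z u = 0) (α : V) :
    wp ψ ρ z α * ρ (ee f z u) = ψ (f.B α u) • wp ψ ρ z α := by
  rw [← ee_mul_wp hz hu]
  refine (commute_wp (fun u' hu' => ?_) α).eq.symm
  rw [Commute, SemiconjBy, ← map_mul, ← map_mul, ← ee_add hz hu hu', ← ee_add hz hu' hu, add_comm]

omit [Finite F] in
theorem mul_wp (hz : f.q z = 0) (g : f.E) (α : V) :
    ρ g * wp ψ ρ z α = wp ψ ρ (g.1 z) (g.1 α) * ρ g := by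
  classical
  let i : f.perp (F ∙ z) ≃ f.perp (F ∙ g.1 z) := g.1.toEquiv.subtypeEquiv fun u => by
    simp [mem_perp_span_singleton, B_E]
  rw [wp, wp, mul_smul_comm, smul_mul_assoc, Nat.card_congr i, Finset.mul_sum, Finset.sum_mul]
  congr 1
  refine Fintype.sum_equiv i _ _ fun u => ?_
  rw [mul_smul_comm, smul_mul_assoc, ← map_mul, ← map_mul, mul_ee hz (perp_B u), ← B_E g α]
  rfl

omit [Finite F] in
theorem wp_smul (hz : f.q z = 0) {c : F} (hc : c ≠ 0) (α : V) :
    wp ψ ρ (c • z) (c • α) = wp ψ ρ z α := by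
  classical
  let i : f.perp (F ∙ c • z) ≃ f.perp (F ∙ z) :=
    (LinearEquiv.smulOfNeZero F V c hc).toEquiv.subtypeEquiv fun u => by
      simp [mem_perp_span_singleton, hc, quad_σ]
  rw [wp, wp, Nat.card_congr i]
  congr 1
  refine Fintype.sum_equiv i _ _ fun u => ?_
  rw [ee_smul hz (by simpa [quad_σ, hc] using perp_B u)]
  simp [i, quad_σ]

omit [Finite F] in
theorem commute_wp_of_fix (hz : f.q z = 0) {g : f.E} (h : g.1 z = z) (h' : g.1 α = α) :
    Commute (ρ g) (wp ψ ρ z α) := by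
  rw [Commute, SemiconjBy, mul_wp hz, h, h']

theorem wp_eq_zero (hψ : ψ ≠ 1) (hz : f.q z = 0) (h : f.B z α ≠ 0) : wp ψ ρ z α = 0 := by
  obtain ⟨a, ha⟩ := AddChar.ne_one_iff.mp hψ
  have h1 := ee_mul_wp (ψ := ψ) (ρ := ρ) hz (u := 0 + (a / f.B z α) • z)
    (by simp [f.B_self_eq_zero hz]) α
  rw [ee_add_smul hz (by simp), ee_zero, map_one, one_mul, zero_add, B_smul_right,
    f.quad_symm z α, div_mul_cancel₀ _ h] at h1
  exact (smul_eq_zero.mp (show (ψ a - 1) • wp ψ ρ z α = 0 by rw [sub_smul, ← h1]; simp)).resolve_left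
    (sub_ne_zero.mpr ha)

theorem card_perp_mul (hf : f.Nondeg) (hz : z ≠ 0) :
    Nat.card (f.perp (F ∙ z)) * Nat.card F = Nat.card V := by
  have h := hf.finrank_add_finrank_perp (F ∙ z)
  rw [finrank_span_singleton hz] at h
  rw [Module.natCard_eq_pow_finrank (K := F) (V := V), Module.natCard_eq_pow_finrank (K := F),
    ← h, pow_add, pow_one, mul_comm]

theorem sum_wp (hf : f.Nondeg) (hψ : ψ ≠ 1) (hz : z ≠ 0) :
    ∑ α, wp ψ ρ z α = (Nat.card F : ℂ) • 1 := by
  classical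
  simp only [wp, ← Finset.smul_sum]
  rw [Finset.sum_comm, Finset.sum_eq_single 0]
  · simp only [ZeroMemClass.coe_zero, map_zero, neg_zero, AddChar.map_zero_eq_one,
      one_smul, ee_zero, map_one, Finset.sum_const, Finset.card_univ]
    rw [← Nat.card_eq_fintype_card, ← card_perp_mul hf hz, ← Nat.cast_smul_eq_nsmul ℂ, smul_smul,
      Nat.cast_mul, inv_mul_cancel_left₀ (card_perp_ne z)]
  · intro u _ hu
    have := LS.sum_addChar_dual hψ (l := -f.B u) (by
      simpa using fun h => hu (Subtype.ext (hf _ (LinearMap.congr_fun h))))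
    simp only [LinearMap.neg_apply, f.quad_symm _ u.1] at this
    rw [← Finset.sum_smul, this, zero_smul]
  · simp

variable (f) in
/-- The number of singular vectors orthogonal to `a`, `b` and not to `c`. -/
noncomputable def cnt (a b c : V) : ℕ :=
  Nat.card {u // (f.q u = 0 ∧ f.B a u = 0 ∧ f.B b u = 0) ∧ f.B c u ≠ 0}

omit [Finite F] [Fintype V] in
theorem cnt_map {g : V ≃ₗ[F] V} (hg : g ∈ f.O) (a b c : V) :
    cnt f (g a) (g b) (g c) = cnt f a b c :=
  (Nat.card_congr (g.toEquiv.subtypeEquiv fun u => by simp [mem_O_B hg, mem_O_q hg])).symm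

omit [Finite F] [Fintype V] in
theorem cnt_eq_zero {a b c : V} (h : c ∈ span F {a, b}) : cnt f a b c = 0 := by
  obtain ⟨s, t, rfl⟩ := mem_span_pair.mp h
  have : IsEmpty {u // (f.q u = 0 ∧ f.B a u = 0 ∧ f.B b u = 0) ∧ f.B (s • a + t • b) u ≠ 0} :=
    ⟨fun u => u.2.2 (by simp [u.2.1])⟩
  exact Nat.card_of_isEmpty

open Classical in
theorem sum_defect (hf : f.Nondeg) (hψ : ψ ≠ 1) (hz : f.q z = 0) (h0 : z ≠ 0) (b : V) :
    ((Nat.card F : ℂ) - 1) • ∑ u, (if f.q u = 0 ∧ f.B z u = 0 ∧ f.B b u = 0 then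
      1 - ρ (ee f z u) else 0) = ∑ γ, (cnt f z b γ : ℂ) • wp ψ ρ z γ := by
  have hq : (Nat.card F : ℂ) ≠ 0 := Nat.cast_ne_zero.mpr Nat.card_pos.ne'
  let := Fintype.ofFinite F
  refine smul_right_injective _ hq ?_
  have h1 : ∀ u, (Nat.card F : ℂ) • (if f.q u = 0 ∧ f.B z u = 0 ∧ f.B b u = 0 then
      1 - ρ (ee f z u) else 0) = ∑ γ, (if f.q u = 0 ∧ f.B z u = 0 ∧ f.B b u = 0 then
        1 - ψ (f.B γ u) else 0) • wp ψ ρ z γ := fun u => by
    split_ifs with h
    · rw [← mul_one (1 - _), ← mul_smul_comm, ← sum_wp (ρ := ρ) hf hψ h0, Finset.mul_sum]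
      simp only [sub_mul, one_mul, ee_mul_wp hz h.2.1, sub_smul, one_smul]
    · simp
  dsimp only
  rw [smul_comm, Finset.smul_sum, Finset.sum_congr rfl fun u _ => h1 u, Finset.sum_comm,
    Finset.smul_sum, Finset.smul_sum]
  refine Finset.sum_congr rfl fun γ _ => ?_
  rw [← Finset.sum_smul, smul_smul, smul_smul, sum_scale hψ (f.B γ) _ fun v c hc => by
    simp [quad_q_smul, hc], cnt]

end CL.MDO
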