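/-
Orthogonal groups: one-dimensional weight spaces.
-/
import Mathlib
import Cfsg.Agent.KSG.MDOBasic

set_option autoImplicit false
set_option linter.unusedSectionVars false

namespace CL.MDO

open Module Submodule CL.Witt CL.Witt.Form CL.Witt.FormType CL.Coop

variable {F V : Type*} [Field F] [Finite F] [AddCommGroup V] [Module F V] [Fintype V]
  {f : Form (quad F) V} {y z u u' v α β γ : V} {ψ : AddChar F ℂ}
  {M : Type*} [AddCommGroup M] [Module ℂ M] [FiniteDimensional ℂ M]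
  {ρ : f.E →* Module.End ℂ M} {a : F}

variable (f) in
/-- A singular vector and a non-zero weight. -/
structure Fl (y α : V) : Prop where
  q0 : f.q y = 0
  ne : y ≠ 0
  perp : f.B y α = 0
  nm : α ∉ F ∙ y

theorem hp_pair (hf : f.Nondeg) (hn : 7 ≤ finrank F V) (y z : V) : HP f (span F {y, z}) :=
  hp_of_le hf (quad_iso3 f) inf_le_left (by have := LS.finrank_span_pair_le (F := F) y z; omega)

theorem Fl.li (h : Fl f y α) : LinearIndependent F ![y, α] := by
  rw [LinearIndependent.pair_symm_iff, linearIndependent_fin2]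
  exact ⟨h.ne, fun c hc => h.nm (mem_span_singleton.mpr ⟨c, hc⟩)⟩

theorem Fl.finrank_eq (h : Fl f y α) : finrank F (span F {y, α}) = 2 := by
  rw [span_insert, finrank_sup_span_singleton h.nm, finrank_span_singleton h.ne]

theorem Fl.exists_E (hf : f.Nondeg) (hn : 7 ≤ finrank F V) (h : Fl f y α) (h' : Fl f z γ)
    (hq : f.q γ = f.q α) : ∃ g : f.E, g.1 y = z ∧ g.1 α = γ := by
  obtain ⟨g, hg, h1, h2⟩ := hf.witt_pair h.li h'.li (h'.q0.trans h.q0.symm) hq
    (h'.perp.trans h.perp.symm)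
  obtain ⟨e, he, h3⟩ := (hp_pair hf hn y α).agree hf g hg
  exact ⟨⟨e, he⟩, (h3 y (subset_span (by simp))).trans h1, (h3 α (subset_span (by simp))).trans h2⟩

theorem trace_wp_map (hz : f.q z = 0) (g : f.E) (α : V) :
    LinearMap.trace ℂ M (wp ψ ρ (g.1 z) (g.1 α)) = LinearMap.trace ℂ M (wp ψ ρ z α) :=
  (LS.trace_eq_of_semiconj ρ (mul_wp hz g α)).symm

omit [FiniteDimensional ℂ M] in
theorem mul_eq_zero_of {E e g : Module.End ℂ M} {s t : ℂ} (h : E * g = s • E) (h' : g * e = t • e)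
    (hst : s ≠ t) : E * e = 0 := by
  have : (s - t) • (E * e) = 0 := by
    rw [sub_smul, ← smul_mul_assoc, ← h, mul_assoc, h', mul_smul_comm, sub_self]
  exact (smul_eq_zero.mp this).resolve_left (sub_ne_zero.mpr hst)

variable (hf : f.Nondeg) (hψ : ψ ≠ 1)
include hf hψ

theorem trace_mul_eq_zero (hy : f.q y = 0) {g : f.E} (h : g.1 y = y) (h' : g.1 α - α ∉ F ∙ y) :
    LinearMap.trace ℂ M (ρ g * wp ψ ρ y α) = 0 := by
  rw [← wp_mul_self hf hψ hy, ← mul_assoc, mul_wp hy, h, LinearMap.trace_mul_comm, ← mul_assoc,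
    wp_mul_wp hf hψ hy, if_neg h', zero_mul, map_zero]

variable (f) in
omit hf hψ in
/-- The cases in which long root elements fixing a weight act trivially on its space. -/
def Triv (a : F) : Prop := 4 ≤ Nat.card F ∨ 9 ≤ finrank F V ∨
  8 ≤ finrank F V ∧ a = 0 ∧ ∀ X, f.TotSing X → finrank F X ≤ 3

theorem ee_mul_eq (hn : 7 ≤ finrank F V) (hT : Triv f (f.q α)) (hy : f.q y = 0)
    (hα : f.B y α = 0) (h1 : LinearMap.trace ℂ M (wp ψ ρ y α) = 1) (hz : f.q z = 0)
    (hu : f.q u = 0) (hzu : f.B z u = 0) (hyz : f.B y z = 0) (hyu : f.B y u = 0)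
    (hαz : f.B α z = 0) (hαu : f.B α u = 0) : ρ (ee f z u) * wp ψ ρ y α = wp ψ ρ y α := by
  have he := wp_mul_self (ρ := ρ) hf hψ hy α
  have hc : ∀ {z u}, f.q z = 0 → f.B z u = 0 → f.B y z = 0 → f.B y u = 0 → f.B α z = 0 →
      f.B α u = 0 → Commute (ρ (ee f z u)) (wp ψ ρ y α) := fun h₁ h₂ h₃ h₄ h₅ h₆ =>
    commute_wp_of_fix hy (ee_fix h₁ h₂ (f.B_eq_zero_symm h₃) (f.B_eq_zero_symm h₄))
      (ee_fix h₁ h₂ (f.B_eq_zero_symm h₅) (f.B_eq_zero_symm h₆))
  have hzz := f.B_self_eq_zero hz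
  have huu := f.B_self_eq_zero hu
  have huz := f.B_eq_zero_symm hzu
  rcases hT with h4 | hT
  · have key : ∀ {z u}, f.q z = 0 → f.B z u = 0 → f.B y z = 0 → f.B y u = 0 → f.B α z = 0 →
        f.B α u = 0 → z ∉ span F {y, α, u} → ρ (ee f z u) * wp ψ ρ y α = wp ψ ρ y α := by
      intro z u h₁ h₂ h₃ h₄ h₅ h₆ h₇
      obtain ⟨w, hw, hw', hzw⟩ := hf.exists_partner h₁ h₇ (f.mem_perp_span.mpr (by
        simp [h₃, h₅, f.B_eq_zero_symm h₂]))
      obtain ⟨t, c, ht, hc1, -, hW⟩ := exists_torus_E hf (by omega) h₁ hw' hzw h4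
      have hW' : ∀ x ∈ span F {y, α, u}, f.B z x = 0 → t x = x := fun x hx h =>
        hW x (f.mem_perp_span_pair.mpr ⟨h, f.mem_perp'.mp hw x hx⟩)
      have h8 : f.B z ((c - 1)⁻¹ • u) = 0 := by simp [h₂]
      refine LS.mul_eq_of_comm (A := ρ ⟨t, ht.mem⟩) (B := ρ (ee f z ((c - 1)⁻¹ • u))) he h1
        (commute_wp_of_fix hy (hW' y (subset_span (by simp)) (f.B_eq_zero_symm h₃))
          (hW' α (subset_span (by simp)) (f.B_eq_zero_symm h₅)))
        (hc h₁ h8 h₃ (by simp [h₄]) h₅ (by simp [h₆])) (hc h₁ h₂ h₃ h₄ h₅ h₆)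
        (LS.injective_rep ρ _) (LS.injective_rep ρ _) ?_
      simp only [← map_mul]
      rw [mul_ee h₁ h8, ← ee_add h₁ h8 h₂, map_smul, hW' u (subset_span (by simp)) h₂, ht.left,
        ee_smul h₁ h8, smul_smul]
      have : c - 1 ≠ 0 := sub_ne_zero.mpr hc1
      congr 3
      match_scalars
      field_simp
      ring
    by_cases h2 : z ∈ span F {y, α, u}
    swap
    · exact key hz hzu hyz hyu hαz hαu h2
    obtain ⟨r, s, t, rfl⟩ := mem_span_triple.mp h2
    set x := r • y + s • α with hx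
    have hxu : f.B x u = 0 := by simp [hx, hyu, hαu]
    have hxq : f.q x = 0 := by simpa [quad_q_add, quad_q_smul, hu, hxu] using hz
    have hyx : f.B y x = 0 := by simpa [hyu] using hyz
    have hαx : f.B α x = 0 := by simpa [hαu] using hαz
    have hux := f.B_eq_zero_symm hxu
    rw [← ee_swap hz hu hzu, neg_add, ← neg_smul t, ee_add_smul hu (by simp [hux])]
    by_cases h3 : u ∈ span F {y, α, -x}
    swap
    · exact key hu (by simp [hux]) hyu (by simp [hyx]) hαu (by simp [hαx]) h3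
    have h5 : span F {y, α, -x} ≤ span F {y, α} := span_le.mpr (by
      rintro _ (rfl | rfl | rfl)
      exacts [subset_span (by simp), subset_span (by simp),
        neg_mem (mem_span_pair.mpr ⟨r, s, rfl⟩)])
    obtain ⟨r', s', rfl⟩ := mem_span_pair.mp (h5 h3)
    have h6 : ee f (r' • y + s' • α) (-x) = ee f y ((s' * r - r' * s) • α) ∨
        ee f (r' • y + s' • α) (-x) = 1 := by
      by_cases h7 : f.q α = 0
      · refine Or.inl (Subtype.ext (LinearEquiv.ext fun v => ?_))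
        rw [ee_apply hu (by simp only [B_neg_right, hux, neg_zero]), ee_apply hy (by simp [hα])]
        simp only [f.q_neg, hxq, quad_q_smul, h7]
        simp only [hx, B_neg_left, B_add_left, B_smul_left, quad_σ]
        module
      · have h8 : s = 0 := by simpa [hx, quad_q_add, quad_q_smul, hy, hα, h7, quad_σ] using hxq
        have h9 : s' = 0 := by simpa [quad_q_add, quad_q_smul, hy, hα, h7, quad_σ] using hu
        refine Or.inr (Subtype.ext (LinearEquiv.ext fun v => ?_))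
        rw [ee_apply hu (by simp only [B_neg_right, hux, neg_zero])]
        simp only [f.q_neg, hxq]
        simp only [hx, h8, h9, B_neg_left, B_add_left, B_smul_left, quad_σ, OneMemClass.coe_one,
          LinearEquiv.coe_one, id]
        module
    rcases h6 with h6 | h6
    · by_cases h7 : s' * r - r' * s = 0
      · rw [h6, h7, zero_smul, ee_zero, map_one, one_mul]
      rw [h6, ee_mul_wp hy (by simp [hα]), B_smul_right]
      have h8 : s * f.B α α = 0 := by simpa [hx, f.B_eq_zero_symm hα] using hαx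
      have h9 : s' * f.B α α = 0 := by simpa [f.B_eq_zero_symm hα] using hαu
      rw [show (s' * r - r' * s) * f.B α α = 0 by linear_combination r * h9 - r' * h8]
      simp
    · rw [h6, map_one, one_mul]
  · obtain ⟨a, ha, b, hb, hab⟩ : ∃ a ∈ f.perp (span F {y, α, z, u}),
        ∃ b ∈ f.perp (span F {y, α, z, u}), f.B a b ≠ 0 := by
      by_contra! h2
      have h3 : f.perp (span F {y, α, z, u}) ≤ span F {y, α, z, u} := fun b hb =>
        hf.perp_perp (span F {y, α, z, u}) ▸ fun a ha => h2 a ha b hb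
      have h4 := Submodule.finrank_mono h3
      have h5 := hf.finrank_add_finrank_perp (span F {y, α, z, u})
      have h6 := Tv.finrank_span_four_le (F := F) y α z u
      rcases hT with hT | ⟨h7, h8, h9⟩
      · omega
      have := h9 _ (f.totSing_span (s := {y, α, z, u}) (by simp [*]) (by
        simp [f.B_self_eq_zero, f.B_eq_zero_symm hα, f.B_eq_zero_symm hyz,
          f.B_eq_zero_symm hyu, f.B_eq_zero_symm hαz, f.B_eq_zero_symm hαu, *]))
      omega
    simp only [mem_perp_span, Set.mem_insert_iff, Set.mem_singleton_iff, forall_eq_or_imp,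
      forall_eq] at ha hb
    have h2 : f.B u ((f.B a b)⁻¹ • b) = 0 := by simp [hb]
    refine LS.mul_eq_of_comm (A := ρ (ee f z a)) (B := ρ (ee f u ((f.B a b)⁻¹ • b))) he h1
      (hc hz ha.2.2.1 hyz ha.1 hαz ha.2.1) (hc hu h2 hyu (by simp [hb]) hαu (by simp [hb]))
      (hc hz hzu hyz hyu hαz hαu) (LS.injective_rep ρ _) (LS.injective_rep ρ _) ?_
    simp only [← map_mul]
    rw [mul_ee hu h2, ee_fix hz ha.2.2.1 hzu (f.B_eq_zero_symm ha.2.2.2), ← ee_swap hz hu hzu,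
      ← ee_add hu h2 (by simp [huz]), ee_apply hz ha.2.2.1]
    simp [hb, hab, sub_eq_add_neg]

omit hf hψ in
variable (ψ ρ) in
/-- All non-zero weights have the same norm and multiplicity one. -/
def One (a : F) : Prop :=
  ∀ z γ, Fl f z γ → (f.q γ = a → LinearMap.trace ℂ M (wp ψ ρ z γ) = 1) ∧
    (f.q γ ≠ a → wp ψ ρ z γ = 0)

variable (hn : 7 ≤ finrank F V) (h1 : One ψ ρ (f.q α)) (h : Fl f y α)
include h1 h

omit hf h in
theorem One.of_ne (hz : f.q z = 0) (h0 : z ≠ 0) (hγ : γ ∉ F ∙ z) (h2 : wp ψ ρ z γ ≠ 0) :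
    Fl f z γ ∧ f.q γ = f.q α := by
  have h3 : Fl f z γ := ⟨hz, h0, by_contra fun h => h2 (wp_eq_zero hψ hz h), hγ⟩
  exact ⟨h3, by_contra fun h => h2 ((h1 z γ h3).2 h)⟩

open Classical in
theorem sum_defect_one (hz : f.q z = 0) (h0 : z ≠ 0) :
    ((Nat.card F : ℂ) - 1) • ∑ u, (if f.q u = 0 ∧ f.B z u = 0 then 1 - ρ (ee f z u) else 0) =
      ((Nat.card F : ℂ) * cnt f y 0 α) • (1 - wp ψ ρ z 0) := by
  have h2 := sum_defect (ρ := ρ) hf hψ hz h0 0
  simp only [B_zero_left, and_true] at h2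
  rw [h2, Finset.sum_congr rfl (g := fun γ => (cnt f y 0 α : ℂ) • wp ψ ρ z γ -
    (if γ ∈ F ∙ z then (cnt f y 0 α : ℂ) else 0) • wp ψ ρ z 0), Finset.sum_sub_distrib,
    ← Finset.smul_sum, ← Finset.sum_smul, sum_wp hf hψ h0, LS.sum_ite_mem,
    finrank_span_singleton h0, pow_one, smul_smul, mul_comm, smul_sub]
  intro γ _
  split_ifs with hγ
  · rw [cnt_eq_zero (span_mono (by simp) hγ), wp_congr (β := 0) (by simpa using hγ)]
    simp
  by_cases h3 : wp ψ ρ z γ = 0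
  · simp [h3]
  obtain ⟨h4, h5⟩ := h1.of_ne hψ hz h0 hγ h3
  obtain ⟨g, hg, rfl, rfl⟩ := hf.witt_pair h.li h4.li (hz.trans h.q0.symm) h5
    (h4.perp.trans h.perp.symm)
  simpa using congrArg (fun k : ℕ => (k : ℂ) • wp ψ ρ (g y) (g α)) (cnt_map hg y 0 α)

omit h in
theorem trace_one_sub (hy : f.q y = 0) (h0 : y ≠ 0) :
    (Nat.card F : ℂ) * LinearMap.trace ℂ M (1 - wp ψ ρ y 0) =
      Nat.card {γ // f.B y γ = 0 ∧ γ ∉ F ∙ y ∧ f.q γ = f.q α} := by
  classical
  have h2 := congrArg (LinearMap.trace ℂ M) (sum_wp (ρ := ρ) hf hψ h0)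
  rw [map_sum, Finset.sum_congr rfl (g := fun γ =>
    (if γ ∈ F ∙ y then LinearMap.trace ℂ M (wp ψ ρ y 0) else 0) +
      if f.B y γ = 0 ∧ γ ∉ F ∙ y ∧ f.q γ = f.q α then 1 else 0), Finset.sum_add_distrib,
    LS.sum_ite_mem, sum_ite_card, finrank_span_singleton h0, map_smul, smul_eq_mul] at h2
  · rw [map_sub]
    linear_combination -h2
  intro γ _
  by_cases hγ : γ ∈ F ∙ y
  · simp [hγ, wp_congr (α := γ) (β := 0) (by simpa using hγ)]
  rw [if_neg hγ, zero_add]
  split_ifs with h3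
  · exact (h1 y γ ⟨hy, h0, h3.1, hγ⟩).1 h3.2.2
  · rw [by_contra fun h4 => h3 (let ⟨h5, h6⟩ := h1.of_ne hψ hy h0 hγ h4; ⟨h5.perp, hγ, h6⟩ :
      _ ∧ _ ∧ _), map_zero]

omit hf h1 in
theorem wp_mul_eq_zero (hz : f.q z = 0) (hyz : f.B y z = 0) (h2 : f.B γ y ≠ -f.B α z) :
    wp ψ ρ z γ * wp ψ ρ y α = 0 := by
  obtain ⟨c, hc⟩ : ∃ c, ψ (c * f.B γ y) ≠ ψ (c * -f.B α z) := by
    by_contra! h3
    exact h2 (LS.eq_of_addChar hψ h3)
  have hzy := f.B_eq_zero_symm hyz
  refine mul_eq_zero_of (wp_mul_ee hz (u := c • y) (by simp [hzy]) γ) (t := ψ (c * -f.B α z)) ?_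
    (by simpa using hc)
  rw [← ee_smul hz hzy, ← ee_swap (f.q_smul_eq_zero hz c) h.q0 (by simp [hzy]),
    ee_mul_wp h.q0 (by simp [hyz])]
  simp

variable (hT : Triv f (f.q α))
include hn hT

open Classical in
theorem trace_defect (hz : f.q z = 0) (hu : f.q u = 0) (hzu : f.B z u = 0) (hyz : f.B y z = 0)
    (hyu : f.B y u = 0) (hαz : f.B α z = 0) (hz' : z ∉ F ∙ y) :
    LinearMap.trace ℂ M ((1 - ρ (ee f z u)) * wp ψ ρ y α) = if f.B α u ≠ 0 then 1 else 0 := by
  have h2 := (h1 y α h).1 rfl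
  split_ifs with h3
  · rw [sub_mul, one_mul, map_sub, h2, trace_mul_eq_zero hf hψ h.q0
      (ee_fix hz hzu (f.B_eq_zero_symm hyz) (f.B_eq_zero_symm hyu)), sub_zero]
    rw [ee_apply hz hzu, f.B_eq_zero_symm hαz, f.quad_symm α u]
    simpa [smul_mem_iff _ h3] using hz'
  · rw [sub_mul, ee_mul_eq hf hψ hn hT h.q0 h.perp h2 hz hu hzu hyz hyu hαz (not_not.mp h3)]
    simp

theorem trace_fix (hz : f.q z = 0) (hyz : f.B y z = 0) (hαz : f.B α z = 0)
    (hz' : z ∉ span F {y, α}) :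
    (Nat.card F : ℂ) * LinearMap.trace ℂ M (wp ψ ρ z 0 * wp ψ ρ y α) = 1 := by
  classical
  have h0 : z ≠ 0 := fun h => hz' (h ▸ zero_mem _)
  have hzy : z ∉ F ∙ y := fun h => hz' (span_mono (by simp) h)
  have hα : α ∉ span F {z, y} := fun h2 => by
    obtain ⟨s, t, rfl⟩ := mem_span_pair.mp h2
    have hs : s ≠ 0 := fun h3 => h.nm (by simp [h3, smul_mem])
    exact hz' (mem_span_pair.mpr ⟨-(t / s), s⁻¹, by match_scalars <;> field_simp <;> ring⟩)
  have hB : (cnt f z y α : ℂ) ≠ 0 := Nat.cast_ne_zero.mpr (Nat.card_ne_zero.mpr ⟨by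
    by_contra! h2
    refine hα (mem_of_HP hf (hp_pair hf hn z y) fun v hv h3 _ => by_contra fun h4 => ?_)
    rw [mem_perp_span_pair] at hv
    exact h2.false ⟨v, ⟨h3, hv⟩, by rwa [quad_symm]⟩, inferInstance⟩)
  have h2 := congrArg (fun E => LinearMap.trace ℂ M (E * wp ψ ρ y α))
    (sum_defect (ρ := ρ) hf hψ hz h0 y)
  have h3 := congrArg (fun E => LinearMap.trace ℂ M (E * wp ψ ρ y α)) (sum_wp (ρ := ρ) hf hψ h0)
  simp only [smul_mul_assoc, map_smul, Finset.sum_mul, map_sum, smul_eq_mul, one_mul,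
    (h1 y α h).1 rfl, mul_one] at h2 h3
  rw [Finset.sum_congr rfl (g := fun u => if (f.q u = 0 ∧ f.B z u = 0 ∧ f.B y u = 0) ∧
      f.B α u ≠ 0 then 1 else 0), sum_ite_card, mul_one, ← cnt, Finset.sum_congr rfl
    (g := fun γ => cnt f z y α * (LinearMap.trace ℂ M (wp ψ ρ z γ * wp ψ ρ y α) -
      if γ ∈ F ∙ z then LinearMap.trace ℂ M (wp ψ ρ z 0 * wp ψ ρ y α) else 0)), ← Finset.mul_sum,
    Finset.sum_sub_distrib, h3, LS.sum_ite_mem, finrank_span_singleton h0, mul_comm,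
    mul_right_inj' hB] at h2
  · linear_combination h2
  · intro γ _
    by_cases hγ : γ ∈ F ∙ z
    · rw [cnt_eq_zero (span_mono (by simp) hγ), wp_congr (β := 0) (by simpa using hγ), if_pos hγ]
      simp
    rw [if_neg hγ, sub_zero]
    by_cases h4 : wp ψ ρ z γ * wp ψ ρ y α = 0
    · simp [h4]
    obtain ⟨h5, h6⟩ := h1.of_ne hψ hz h0 hγ (left_ne_zero_of_mul h4)
    have h7 : f.B γ y = 0 := by
      simpa [hαz] using by_contra fun h' => h4 (wp_mul_eq_zero hψ h hz hyz h')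
    have hzy' := f.B_eq_zero_symm hyz
    by_cases h8 : γ ∈ span F {z, y}
    · exfalso
      obtain ⟨s, t, rfl⟩ := mem_span_pair.mp h8
      have h9 : f.q α = 0 := by simpa [quad_q_add, quad_q_smul, hz, h.q0, hzy'] using h6.symm
      obtain ⟨w, hw, hw', h10⟩ := hf.exists_partner h9 hα (f.mem_perp_span_pair.mpr
        ⟨f.B_eq_zero_symm hαz, h.perp⟩)
      rw [mem_perp_span_pair] at hw
      obtain ⟨c, hc⟩ := AddChar.ne_one_iff.mp hψ
      have h11 : f.B y (c • w) = 0 := by simp [hw]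
      have h12 : f.B z (c • w) = 0 := by simp [hw]
      have h13 : f.B (s • z + t • y) (c • w) = 0 := by simp [hw]
      refine h4 (mul_eq_zero_of (s := 1) ?_ (ee_mul_wp h.q0 h11 α) (by simpa [h10] using hc.symm))
      rw [one_smul, ← (commute_wp_of_fix hz (ee_fix h.q0 h11 hyz (f.B_eq_zero_symm h12))
        (ee_fix h.q0 h11 (f.B_eq_zero_symm h7) (f.B_eq_zero_symm h13))).eq]
      exact ee_mul_eq hf hψ hn (h6 ▸ hT) hz h5.perp ((h1 _ _ h5).1 h6) h.q0
        (f.q_smul_eq_zero hw' c) h11 hzy' h12 h7 h13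
    · obtain ⟨g, hg, h9, h10⟩ := hf.witt_step hα h8 (fun v hv => by
        obtain ⟨s, t, rfl⟩ := mem_span_pair.mp hv
        simp [hαz, h7, f.B_eq_zero_symm h.perp, f.B_eq_zero_symm h5.perp]) h6.symm
      rw [← cnt_map hg z y α, h9, h10 z (subset_span (by simp)), h10 y (subset_span (by simp))]
  · intro u _
    by_cases h4 : f.q u = 0 ∧ f.B z u = 0 ∧ f.B y u = 0
    · rw [if_pos h4, trace_defect hf hψ hn h1 h hT hz h4.1 h4.2.1 hyz h4.2.2 hαz hzy]
      simp [h4]
    · simp [h4]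

end CL.MDO
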