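/-
Orthogonal groups: the trace identities for one-dimensional weight spaces.
-/
import Mathlib
import Cfsg.Agent.KSG.MDOOne

set_option autoImplicit false
set_option linter.unusedSectionVars false

namespace CL.MDO

open Module Submodule CL.Witt CL.Witt.Form CL.Witt.FormType CL.Coop

variable {F V : Type*} [Field F] [Finite F] [AddCommGroup V] [Module F V] [Fintype V]
  {f : Form (quad F) V} {y z u u' v α β γ : V} {ψ : AddChar F ℂ}
  {M : Type*} [AddCommGroup M] [Module ℂ M] [FiniteDimensional ℂ M]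
  {ρ : f.E →* Module.End ℂ M} {a : F}

theorem cnt_zero (y α : V) :
    cnt f y 0 α = Nat.card {u // (f.q u = 0 ∧ f.B y u = 0) ∧ f.B α u ≠ 0} :=
  Nat.card_congr (Equiv.subtypeEquivRight fun u => by simp)

open Classical in
theorem sum_span [Fintype F] (h0 : y ≠ 0) (g : V → ℂ) :
    ∑ z, (if z ∈ F ∙ y then g z else 0) = ∑ c : F, g (c • y) := by
  rw [← Finset.sum_filter]
  exact (Finset.sum_bij (fun c _ => c • y) (fun c _ => by simp [smul_mem])
    (fun c _ d _ h => smul_left_injective F h0 h)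
    (fun z hz => by simpa [mem_span_singleton] using hz) fun _ _ => rfl).symm

variable (hf : f.Nondeg)
include hf

theorem card_perp_eq {X : Submodule F V} (hu : f.q u = 0) (h1 : u ∉ X) (h2 : u ∈ f.perp X)
    (a : F) : Nat.card {z // z ∈ f.perp X ∧ f.q z = a} =
      Nat.card {z // (z ∈ f.perp X ∧ f.q z = a) ∧ f.B u z = 0} +
        (Nat.card F - 1) * Nat.card F ^ (finrank F V - finrank F X - 2) := by
  have := card_value_ne hf hu h1 h2 0 a
  rw [card_ker_quad, mul_one] at this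
  rw [card_split _ fun z => f.B u z = 0, ← this, add_right_inj]
  exact Nat.card_congr (Equiv.subtypeEquivRight fun z => by
    simp [mem_perp', quad_π, f.quad_symm z u, and_assoc])

variable (hψ : ψ ≠ 1) (hn : 7 ≤ finrank F V) (h1 : One ψ ρ (f.q α)) (h : Fl f y α)
  (hT : Triv f (f.q α))
include hψ hn h1 h hT

open Classical in
theorem sum_inner (hu : f.q u = 0) (hyu : f.B y u = 0) :
    (Nat.card F : ℂ) * ∑ z, (if f.q z = 0 ∧ f.B z u = 0 ∧ f.B y z = 0 ∧ f.B α z = 0 then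
      LinearMap.trace ℂ M ((1 - ρ (ee f z u)) * wp ψ ρ y α) else 0) = if f.B α u ≠ 0 then
        (Nat.card {z // f.q z = 0 ∧ f.B y z = 0} : ℂ) -
          (Nat.card F - 1) * (Nat.card F : ℂ) ^ (finrank F V - 3) else 0 := by
  let := Fintype.ofFinite F
  have he := (h1 y α h).1 rfl
  have hy : ∀ c : F, LinearMap.trace ℂ M ((1 - ρ (ee f (c • y) u)) * wp ψ ρ y α) =
      1 - ψ (c * f.B α u) := fun c => by
    rw [ee_smul h.q0 hyu, sub_mul, ee_mul_wp h.q0 (by simp [hyu])]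
    simp [he]
  split_ifs with h2
  · have h3 := card_perp_eq hf (X := F ∙ y) hu (fun h3 => by
      obtain ⟨c, rfl⟩ := mem_span_singleton.mp h3
      simp [f.B_eq_zero_symm h.perp] at h2) (f.mem_perp_span_singleton.mpr hyu) 0
    have h4 := sum_shift (f.B α) h2 (fun z => if (z ∈ f.perp (F ∙ y) ∧ f.q z = 0) ∧ f.B u z = 0
      then (1 : ℂ) else 0) fun v c => by
        by_cases h5 : f.B u v = 0 <;>
          simp [mem_perp_span_singleton, hyu, quad_q_add, quad_q_smul, hu, f.B_self_eq_zero hu,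
            f.quad_symm u v, h5]
    have h5 := sum_one_sub hψ (f.B α u)
    rw [if_neg h2, ← Finset.sum_congr rfl fun c _ => hy c,
      ← sum_span h.ne fun z => LinearMap.trace ℂ M ((1 - ρ (ee f z u)) * wp ψ ρ y α)] at h5
    have h6 := LS.sum_ite_mem (F ∙ y) 1
    rw [finrank_span_singleton h.ne] at h3 h6
    rw [sum_ite_card, nsmul_eq_mul] at h4
    rw [Nat.card_congr (Equiv.subtypeEquivRight fun z => show _ ↔ z ∈ f.perp (F ∙ y) ∧ f.q z = 0 by
      rw [mem_perp_span_singleton, and_comm]), h3, Finset.sum_congr rfl (g := fun z =>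
      (if f.B α z = 0 then if (z ∈ f.perp (F ∙ y) ∧ f.q z = 0) ∧ f.B u z = 0 then (1 : ℂ) else 0
        else 0) + (if z ∈ F ∙ y then LinearMap.trace ℂ M ((1 - ρ (ee f z u)) * wp ψ ρ y α)
        else 0) - if z ∈ F ∙ y then 1 else 0), Finset.sum_sub_distrib, Finset.sum_add_distrib, h5,
      h6, Nat.cast_add, Nat.cast_mul, Nat.cast_sub Nat.card_pos, Nat.sub_sub]
    · push_cast
      linear_combination -h4
    intro z _
    by_cases hz : z ∈ F ∙ y
    · obtain ⟨c, rfl⟩ := mem_span_singleton.mp hz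
      simp [hz, mem_perp_span_singleton, quad_q_smul, h.q0, hyu, f.B_self_eq_zero h.q0,
        f.B_eq_zero_symm h.perp, f.B_eq_zero_symm hyu]
    by_cases h7 : f.q z = 0 ∧ f.B z u = 0 ∧ f.B y z = 0 ∧ f.B α z = 0
    · rw [if_pos h7, trace_defect hf hψ hn h1 h hT h7.1 hu h7.2.1 h7.2.2.1 hyu h7.2.2.2 hz]
      simp [h2, hz, h7, mem_perp_span_singleton, f.B_eq_zero_symm h7.2.1]
    · rw [if_neg h7]
      simp only [hz, if_false, mem_perp_span_singleton, f.quad_symm z u]
      split_ifs <;> simp_all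
  · rw [Finset.sum_eq_zero, mul_zero]
    intro z _
    split_ifs with h3
    · rw [sub_mul, ee_mul_eq hf hψ hn hT h.q0 h.perp he h3.1 hu h3.2.1 h3.2.2.1 hyu h3.2.2.2
        (not_not.mp h2)]
      simp
    · rfl

open Classical in
theorem sum_tau : (Nat.card F : ℂ) * ∑ z, (if f.q z = 0 ∧ z ≠ 0 ∧ f.B y z = 0 then
    1 - LinearMap.trace ℂ M (wp ψ ρ z 0 * wp ψ ρ y α) else 0) =
      (Nat.card F - 1) * Nat.card {z // f.q z = 0 ∧ f.B y z = 0} + cnt f y 0 α +
        ∑ z, if f.q z = 0 ∧ z ∈ span F {y, α} ∧ z ∉ F ∙ y then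
          1 - Nat.card F * LinearMap.trace ℂ M (wp ψ ρ z 0 * wp ψ ρ y α) else 0 := by
  have h2 := LS.sum_ite_mem (F ∙ y) 1
  rw [finrank_span_singleton h.ne] at h2
  rw [Finset.mul_sum, Finset.sum_congr rfl (g := fun z =>
    (if f.q z = 0 ∧ f.B y z = 0 then (Nat.card F : ℂ) - 1 else 0) + (if z ∈ F ∙ y then 1 else 0) -
      (if z = 0 then (Nat.card F : ℂ) else 0) +
      (if (f.q z = 0 ∧ f.B y z = 0) ∧ f.B α z ≠ 0 then 1 else 0) +
      if f.q z = 0 ∧ z ∈ span F {y, α} ∧ z ∉ F ∙ y then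
        1 - Nat.card F * LinearMap.trace ℂ M (wp ψ ρ z 0 * wp ψ ρ y α) else 0),
    Finset.sum_add_distrib, Finset.sum_add_distrib, Finset.sum_sub_distrib, Finset.sum_add_distrib,
    h2, sum_ite_card, sum_ite_card _ 1, Finset.sum_ite_eq', if_pos (Finset.mem_univ _), cnt_zero]
  · ring
  intro z _
  by_cases h0 : z = 0
  · simp [h0, f.q_zero]
  by_cases hz : z ∈ F ∙ y
  · obtain ⟨c, rfl⟩ := mem_span_singleton.mp hz
    have h3 := wp_smul (ψ := ψ) (ρ := ρ) h.q0 (left_ne_zero_of_smul h0) 0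
    rw [smul_zero] at h3
    simp [hz, h0, h3, quad_q_smul, h.q0, f.B_self_eq_zero h.q0, f.B_eq_zero_symm h.perp,
      wp_mul_wp hf hψ h.q0, h.nm]
  by_cases h3 : f.q z = 0
  swap
  · simp [h3, hz, h0]
  by_cases h4 : z ∈ span F {y, α}
  · obtain ⟨s, t, rfl⟩ := mem_span_pair.mp h4
    have h5 : t ≠ 0 := fun h5 => hz (by simp [h5, smul_mem])
    have h6 : f.q α = 0 := by simpa [quad_q_add, quad_q_smul, h.q0, h.perp, h5] using h3
    simp only [h3, h4, hz, h0, ne_eq]
    simp [f.B_self_eq_zero h.q0, f.B_eq_zero_symm h.perp, f.B_self_eq_zero h6, h.perp]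
    ring
  by_cases h5 : f.B y z = 0
  swap
  · simp [h4, h5, hz, h0]
  by_cases h6 : f.B α z = 0
  · simp only [h3, h4, h5, h6, hz, h0, ne_eq]
    simp
    linear_combination -trace_fix hf hψ hn h1 h hT h3 h5 h6 h4
  · simp [h3, h4, h5, h6, hz, h0, wp_mul_eq_zero hψ h h3 h5 (γ := 0) (by simpa using h6)]

open Classical in
theorem global_identity (hS : ∀ E, (∀ g, Commute (ρ g) E) → ∃ c : ℂ, E = c • 1) :
    (finrank ℂ M : ℂ) * (Nat.card F + 1) * (cnt f y 0 α + (Nat.card F - 1) ^ 2 *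
      (Nat.card F : ℂ) ^ (finrank F V - 3) + ∑ z, if f.q z = 0 ∧ z ∈ span F {y, α} ∧ z ∉ F ∙ y then
        1 - Nat.card F * LinearMap.trace ℂ M (wp ψ ρ z 0 * wp ψ ρ y α) else 0) =
      Nat.card {v // v ≠ 0 ∧ f.q v = 0} *
        Nat.card {γ // f.B y γ = 0 ∧ γ ∉ F ∙ y ∧ f.q γ = f.q α} := by
  let := Fintype.ofFinite F
  have he := (h1 y α h).1 rfl
  have hq : (Nat.card F : ℂ) ≠ 0 := Nat.cast_ne_zero.mpr Nat.card_pos.ne'
  have hA : (cnt f y 0 α : ℂ) ≠ 0 := Nat.cast_ne_zero.mpr (Nat.card_ne_zero.mpr ⟨by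
    by_contra! h2
    refine h.nm (by
      simpa [Set.pair_comm y 0] using mem_of_HP hf (hp_pair hf hn y 0) fun v hv h3 _ => by_contra fun h4 =>
        h2.false ⟨v, ⟨h3, f.mem_perp_span_pair.mp hv⟩, by rwa [quad_symm]⟩), inferInstance⟩)
  let T : V → V → Module.End ℂ M := fun z u =>
    if f.q z = 0 ∧ f.q u = 0 ∧ f.B z u = 0 then 1 - ρ (ee f z u) else 0
  have hT1 : ∀ z u (c : F), T z (u + c • z) = T z u := fun z u c => by
    by_cases hz : f.q z = 0
    · by_cases hu : f.B z u = 0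
      · simp [T, hz, hu, quad_q_add, quad_q_smul, f.B_self_eq_zero hz, f.B_eq_zero_symm hu,
          ee_add_smul hz hu]
      · simp [T, hu, f.B_self_eq_zero hz]
    · simp [T, hz]
  have hT2 : ∀ z u, T u (-z) = T z u := fun z u => by
    by_cases h2 : f.q z = 0 ∧ f.q u = 0 ∧ f.B z u = 0
    · simp [T, h2, f.q_neg, f.B_eq_zero_symm h2.2.2, ee_swap h2.1 h2.2.1 h2.2.2]
    · simp only [T, if_neg h2, f.q_neg, B_neg_right, neg_eq_zero, f.quad_symm z u]
      rw [if_neg (by tauto)]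
  have hT3 : ∀ z, ((Nat.card F : ℂ) - 1) • ∑ u, T z u = if f.q z = 0 ∧ z ≠ 0 then
      ((Nat.card F : ℂ) * cnt f y 0 α) • (1 - wp ψ ρ z 0) else 0 := fun z => by
    split_ifs with h2
    · simpa only [T, h2.1, true_and] using sum_defect_one hf hψ h1 h h2.1 h2.2
    · by_cases h0 : z = 0
      · simp [T, h0, ee_zero_left]
      · simp [T, show f.q z ≠ 0 by tauto]
  obtain ⟨c, hc⟩ := hS (∑ z, ∑ u, T z u) fun g => by
    simp only [Commute, SemiconjBy, Finset.mul_sum, Finset.sum_mul]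
    refine Fintype.sum_equiv g.1.toEquiv _ _ fun z => Fintype.sum_equiv g.1.toEquiv _ _ fun u => ?_
    simp only [T, LinearEquiv.coe_toEquiv, B_E, q_E]
    split_ifs with h2
    · rw [mul_sub, sub_mul, ← map_mul, ← map_mul, mul_ee h2.1 h2.2.2, mul_one, one_mul]
    · simp
  have h2 := congrArg (fun E => Nat.card F * LinearMap.trace ℂ M (((Nat.card F : ℂ) - 1) • E)) hc
  simp only [Finset.smul_sum (s := Finset.univ) (f := fun z => ∑ u, T z u), hT3, map_sum,
    Finset.mul_sum] at h2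
  rw [Finset.sum_congr rfl (g := fun z => if z ≠ 0 ∧ f.q z = 0 then (Nat.card F * cnt f y 0 α *
    Nat.card {γ // f.B y γ = 0 ∧ γ ∉ F ∙ y ∧ f.q γ = f.q α} : ℂ) else 0) fun z _ => by
      by_cases h3 : f.q z = 0 ∧ z ≠ 0
      · obtain ⟨g, hg, rfl⟩ := ((quad_iso3 f).idx2 hf (by omega)).exists_E_apply_eq hf h.ne h3.2
          (h.q0.trans h3.1.symm)
        have h4 := trace_wp_map (ψ := ψ) (ρ := ρ) h.q0 ⟨g, hg⟩ 0
        rw [map_zero] at h4
        rw [if_pos h3, if_pos h3.symm, ← trace_one_sub hf hψ h1 h.q0 h.ne, map_smul, map_sub,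
          map_sub, h4, smul_eq_mul, mul_left_comm]
      · rw [if_neg h3, if_neg (and_comm.not.mp h3), map_zero, mul_zero], sum_ite_card, map_smul,
    map_smul, LinearMap.trace_one] at h2
  let Φ : V → V → ℂ := fun z u => LinearMap.trace ℂ M (T z u * wp ψ ρ y α)
  have h3 := congrArg (fun E => LinearMap.trace ℂ M (E * wp ψ ρ y α)) hc
  simp only [Finset.sum_mul, map_sum, smul_mul_assoc, one_mul, map_smul, he] at h3
  have h4 := sum_split (f.B y) Φ (fun z u c => by simp only [Φ, hT1]) fun z u => by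
    simp only [Φ, hT2]
  have h5 := sum_split (f.B α) (fun z u => if f.B y z = 0 ∧ f.B y u = 0 then Φ z u else 0)
    (fun z u c => by by_cases h5 : f.B y z = 0 <;> simp [Φ, hT1, h5]) fun z u => by
      simp [Φ, hT2, and_comm]
  have h6 : ∑ z, ∑ u, (if f.B α z = 0 ∧ f.B α u = 0 then
      if f.B y z = 0 ∧ f.B y u = 0 then Φ z u else 0 else 0) = 0 :=
    Finset.sum_eq_zero fun z _ => Finset.sum_eq_zero fun u _ => by
      simp only [Φ, T]
      split_ifs with h6 h7 h8
      · rw [sub_mul, ee_mul_eq hf hψ hn hT h.q0 h.perp he h8.1 h8.2.1 h8.2.2 h7.1 h7.2 h6.1 h6.2]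
        simp
      all_goals simp
  have h7 : (Nat.card F : ℂ) * ∑ z, ∑ u, (if f.B α z = 0 then
      if f.B y z = 0 ∧ f.B y u = 0 then Φ z u else 0 else 0) = cnt f y 0 α *
        ((Nat.card {z // f.q z = 0 ∧ f.B y z = 0} : ℂ) -
          (Nat.card F - 1) * (Nat.card F : ℂ) ^ (finrank F V - 3)) := by
    rw [Finset.sum_comm, Finset.mul_sum, cnt_zero, ← sum_ite_card]
    refine Finset.sum_congr rfl fun u _ => ?_
    by_cases h7 : f.q u = 0 ∧ f.B y u = 0
    · simp only [h7, true_and, ← sum_inner hf hψ hn h1 h hT h7.1 h7.2, Φ, T]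
      congr 1
      refine Finset.sum_congr rfl fun z _ => ?_
      split_ifs <;> simp_all
    · rw [if_neg (by tauto), Finset.sum_eq_zero, mul_zero]
      intro z _
      simp only [Φ, T]
      split_ifs <;> simp_all
  have h8 : ((Nat.card F : ℂ) - 1) * ∑ z, ∑ u, (if f.B y z = 0 then Φ z u else 0) =
      Nat.card F * cnt f y 0 α * ∑ z, (if f.q z = 0 ∧ z ≠ 0 ∧ f.B y z = 0 then
        1 - LinearMap.trace ℂ M (wp ψ ρ z 0 * wp ψ ρ y α) else 0) := by
    rw [Finset.mul_sum, Finset.mul_sum]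
    refine Finset.sum_congr rfl fun z _ => ?_
    by_cases h8 : f.B y z = 0
    · have h9 := congrArg (fun E => LinearMap.trace ℂ M (E * wp ψ ρ y α)) (hT3 z)
      simp only [Finset.sum_mul, map_sum, smul_mul_assoc, map_smul, smul_eq_mul] at h9
      simp only [h8, if_true, Φ, h9, and_true]
      split_ifs <;> simp [sub_mul, he]
    · simp [h8]
  have h9 := sum_tau hf hψ hn h1 h hT
  simp only [smul_eq_mul, mul_one] at h2 h3
  rw [h3, h5, h6] at h4
  refine mul_left_cancel₀ (mul_ne_zero hq hA) ?_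
  linear_combination (exp := 1) -h2 - Nat.card F * finrank ℂ M * (((Nat.card F : ℂ) - 1) * h4 +
    (Nat.card F + 1) * h8 + (Nat.card F + 1) * cnt f y 0 α * h9 -
      (Nat.card F - 1) * (Nat.card F + 1) * h7)

omit hn h1 h hT in
theorem wp_zero : wp ψ ρ (0 : V) 0 = 1 := by
  simpa using wp_mul (ρ := ρ) hf hψ (z := 0) (E := 1) (β := 0) (fun u _ => by simp [ee_zero_left]) 0

open Classical in
theorem local_identity (hα : f.q α = 0) : ∃ δ r : ℕ, 0 < δ ∧ δ + 1 ≤ r + Nat.card F ∧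
    (∑ z, if z ∈ span F {y, α} ∧ z ∉ F ∙ y then
      LinearMap.trace ℂ M (wp ψ ρ z 0 * wp ψ ρ y α) else 0) * δ =
        ((Nat.card F : ℂ) ^ 2 - 1) * r := by
  have : Finite (V ≃ₗ[F] V) := Finite.of_injective _ DFunLike.coe_injective
  set L := span F {y, α} with hL
  have hL2 : finrank F L = 2 := h.finrank_eq
  have hyL : y ∈ L := subset_span (by simp)
  have hαL : α ∈ L := subset_span (by simp)
  have hts : f.TotSing L := f.totSing_span (by simp [h.q0, hα]) (by
    simp [f.B_self_eq_zero h.q0, f.B_self_eq_zero hα, h.perp, f.B_eq_zero_symm h.perp])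
  set e := wp ψ ρ y α with he
  have he₁ : e * e = e := wp_mul_self hf hψ h.q0 α
  have he₂ : LinearMap.trace ℂ M e = 1 := (h1 y α h).1 rfl
  let P : Subgroup f.E := (stab L).comap f.E.subtype
  have hP : ∀ {z u}, z ∈ L → f.B z u = 0 → ee f z u ∈ P := fun hz hu =>
    mem_stab_of_le fun v hv => by
      rw [Subgroup.coe_subtype, ee_apply (hts.1 _ hz) hu, hts.2 _ hz _ hv, zero_smul, add_zero]
      exact L.sub_mem hv (L.smul_mem _ hz)
  let T : Module.End ℂ M := ∑ z, if z ∈ L then wp ψ ρ z 0 else 0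
  have hT' : ∀ g ∈ P, Commute (ρ g) T := fun g hg => by
    rw [Commute, SemiconjBy, Finset.mul_sum, Finset.sum_mul]
    refine Fintype.sum_equiv g.1.toEquiv _ _ fun z => ?_
    by_cases hz : z ∈ L
    · simp [hz, (hg z).mp hz, mul_wp (hts.1 _ hz), show g.1 z ∈ L from (hg z).mp hz]
    · simp [hz, show g.1 z ∉ L from fun h => hz ((hg z).mpr h)]
  obtain ⟨c, hc⟩ := LS.exists_mul_eq_smul he₁ he₂
    (commute_wp (fun u hu => (hT' _ (hP hyL hu)).symm) α)
  have h₂ := congrArg (LinearMap.trace ℂ M) hc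
  rw [map_smul, he₂, Finset.sum_mul, map_sum, Finset.sum_congr rfl (g := fun z =>
    (if z = 0 then 1 else 0) + if z ∈ L ∧ z ∉ F ∙ y then
      LinearMap.trace ℂ M (wp ψ ρ z 0 * e) else 0) fun z _ => by
      by_cases h0 : z = 0
      · simp [h0, wp_zero hf hψ, he₂]
      by_cases hz : z ∈ F ∙ y
      · obtain ⟨c, rfl⟩ := mem_span_singleton.mp hz
        have h3 := wp_smul (ψ := ψ) (ρ := ρ) h.q0 (left_ne_zero_of_smul h0) 0
        rw [smul_zero] at h3
        simp [hz, h0, h3, he, wp_mul_wp hf hψ h.q0, h.nm]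
      · by_cases hz' : z ∈ L <;> simp [h0, hz, hz'], Finset.sum_add_distrib, Finset.sum_ite_eq',
    if_pos (Finset.mem_univ _), smul_eq_mul, mul_one] at h₂
  let N : Submodule ℂ M := ⨆ g : P, LinearMap.range (ρ g * e)
  obtain ⟨E, hE, hE₁, hE₂⟩ := LS.exists_equivariant_proj (ρ.comp P.subtype) (U := N) fun g =>
    (iSup_le fun g' => by
      rintro _ ⟨v, rfl⟩
      exact Submodule.mem_iSup_of_mem (g * g') ⟨v, by simp⟩ : N ≤ N.comap (ρ g))
  have hEE : E * E = E := LinearMap.ext fun v => hE₂ _ (hE₁ v)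
  have hN : ∀ (S : Module.End ℂ M) (a : ℂ), (∀ g ∈ P, S * (ρ g * e) = a • (ρ g * e)) →
      S * E = a • E := fun S a h => LinearMap.ext fun v =>
    Module.End.mem_eigenspace_iff.mp ((iSup_le fun g => by
      rintro _ ⟨v, rfl⟩
      exact Module.End.mem_eigenspace_iff.mpr (LinearMap.congr_fun (h g g.2) v) :
        N ≤ S.eigenspace a) (hE₁ v))
  have hEw : ∀ β, Commute (wp ψ ρ y β) E := fun β =>
    (commute_wp (fun u hu => (hE ⟨_, hP hyL hu⟩).symm) β).symm
  obtain ⟨r, hr, -⟩ := LS.trace_mul_le (wp_mul_self hf hψ h.q0 0) hEE (hEw 0)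
  have hδ := LS.trace_idem hEE
  set δ := finrank ℂ (LinearMap.range E)
  have hδ0 : 0 < δ := Nat.pos_of_ne_zero fun h0 => by
    have h3 : E * e = e := LinearMap.ext fun v =>
      hE₂ _ (Submodule.mem_iSup_of_mem 1 ⟨v, by simp⟩)
    rw [← h3, LinearMap.range_eq_bot.mp (Submodule.finrank_eq_zero.mp h0), zero_mul,
      map_zero] at he₂
    exact zero_ne_one he₂
  have h₃ : c * δ = δ + ((Nat.card F : ℂ) ^ 2 - 1) * r := by
    have := congrArg (LinearMap.trace ℂ M) (hN T c fun g hg => by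
      rw [← mul_assoc, ← (hT' g hg).eq, mul_assoc, hc, mul_smul_comm])
    rw [map_smul, hδ, Finset.sum_mul, map_sum, Finset.sum_congr rfl (g := fun z =>
      (if z = 0 then (δ : ℂ) - r else 0) + if z ∈ L then (r : ℂ) else 0) fun z _ => ?_,
      Finset.sum_add_distrib, LS.sum_ite_mem, hL2] at this
    · simp only [Finset.sum_ite_eq', Finset.mem_univ, if_true, smul_eq_mul] at this
      linear_combination -this
    by_cases hz : z = 0
    · simp [hz, wp_zero hf hψ, hδ]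
    by_cases hzL : z ∈ L
    · rw [if_pos hzL, if_neg hz, if_pos hzL, zero_add, ← hr]
      by_cases hzy : y ∈ F ∙ z
      · obtain ⟨a, rfl⟩ := mem_span_singleton.mp hzy
        have := wp_smul (ψ := ψ) (ρ := ρ) (hts.1 _ hzL) (left_ne_zero_of_smul h.ne) 0
        rw [smul_zero] at this
        rw [this]
      · obtain ⟨g, h3, h4⟩ := h.exists_E hf hn ⟨hts.1 _ hzL, hz, hts.2 _ hzL _ hyL, hzy⟩
          (h.q0.trans hα.symm)
        have hg : g ∈ P := mem_stab_of_le fun v hv => by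
          obtain ⟨s, t, rfl⟩ := mem_span_pair.mp hv
          rw [Subgroup.coe_subtype, map_add, map_smul, map_smul, h3, h4]
          exact L.add_mem (L.smul_mem _ hzL) (L.smul_mem _ hyL)
        refine (LS.trace_eq_of_semiconj ρ (g := g) ?_).symm
        rw [← mul_assoc, mul_wp h.q0, mul_assoc, mul_assoc, h3, map_zero]
        erw [(hE ⟨g, hg⟩).eq]
        rfl
    · simp [hz, hzL]
  have h₄ : δ + 1 ≤ r + Nat.card F := by
    have h6 : ∀ β, ∃ j : ℕ, LinearMap.trace ℂ M (wp ψ ρ y β * E) = j ∧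
        (j : ℤ) ≤ (if β ∈ L then 1 else 0) + if β ∈ F ∙ y then (r : ℤ) - 1 else 0 := fun β => by
      by_cases hβ : β ∈ F ∙ y
      · have hβL := (span_singleton_le_iff_mem _ _).mpr hyL hβ
        exact ⟨r, by rw [wp_congr (β := 0) (by simpa), hr], by simp [hβ, hβL]⟩
      by_cases hβL : β ∈ L
      · obtain ⟨j, hj, hj'⟩ := LS.trace_mul_le (wp_mul_self hf hψ h.q0 β) hEE (hEw β)
        have := (h1 y β ⟨h.q0, h.ne, hts.2 _ hyL _ hβL, hβ⟩).1 ((hts.1 _ hβL).trans hα.symm)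
        rw [LS.trace_idem (wp_mul_self hf hψ h.q0 β), Nat.cast_eq_one] at this
        exact ⟨j, hj, by simp [hβ, hβL]; omega⟩
      refine ⟨0, ?_, by simp [hβ, hβL]⟩
      obtain ⟨u, hu, hu', h7⟩ : ∃ u ∈ f.perp L, f.q u = 0 ∧ f.B u β ≠ 0 := by
        by_contra! h7
        exact hβL (mem_of_HP hf (hp_pair hf hn y α) fun v hv h8 _ => h7 v hv h8)
      obtain ⟨a, ha⟩ := AddChar.ne_one_iff.mp hψ
      have h8 := f.mem_perp.mp ((f.perp L).smul_mem (a / f.B u β) hu)
      have h9 := f.q_smul_eq_zero hu' (a / f.B u β)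
      rw [mul_eq_zero_of (t := 1) (wp_mul_ee h.q0 (h8 y hyL) β) (hN _ _ fun g hg => ?_)
        (by rwa [B_smul_right, f.quad_symm u β, div_mul_cancel₀ _ h7]), map_zero, Nat.cast_zero]
      have h10 : ∀ v ∈ L, f.B v (g⁻¹.1 ((a / f.B u β) • u)) = 0 := fun v hv => by
        rw [← B_E g]
        simpa using h8 _ ((hg v).mp hv)
      have h11 : g⁻¹.1 y ∈ L := (P.inv_mem hg y).mp hyL
      have h12 := mul_ee h.q0 (h8 y hyL) g⁻¹
      rw [← mul_assoc, ← map_mul, inv_mul_eq_iff_eq_mul.mp h12, mul_assoc, inv_mul_cancel_right,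
        map_mul, mul_assoc, ee_mul_eq hf hψ hn hT h.q0 h.perp he₂ (hts.1 _ h11)
          (by rw [q_E, h9]) (h10 _ h11) (hts.2 _ hyL _ h11) (h10 _ hyL) (hts.2 _ hαL _ h11)
          (h10 _ hαL), one_smul]
    choose j hj hj' using h6
    have h7 := congrArg (fun S => LinearMap.trace ℂ M (S * E)) (sum_wp (ρ := ρ) hf hψ h.ne)
    simp only [smul_mul_assoc, map_smul, hδ, Finset.sum_mul, map_sum, hj, smul_eq_mul,
      one_mul] at h7
    have h8 := Finset.sum_le_sum fun β (_ : β ∈ Finset.univ) => hj' β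
    have h9 : ((∑ β, ((if β ∈ L then 1 else 0) + if β ∈ F ∙ y then (r : ℤ) - 1 else 0) : ℤ) : ℂ) =
        ((Nat.card F * (Nat.card F + (r - 1)) : ℤ) : ℂ) := by
      push_cast [apply_ite (Int.cast : ℤ → ℂ)]
      rw [Finset.sum_add_distrib, LS.sum_ite_mem, LS.sum_ite_mem, hL2, finrank_span_singleton h.ne]
      ring
    have h10 : ∑ β, (j β : ℤ) = (Nat.card F * δ : ℤ) := by exact_mod_cast h7
    rw [Int.cast_injective h9, h10] at h8
    have := le_of_mul_le_mul_left h8 (by exact_mod_cast Nat.card_pos)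
    omega
  exact ⟨δ, r, hδ0, h₄, by linear_combination h₃ + δ * h₂⟩

end CL.MDO
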