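/-
The smallest degrees of non-trivial irreducible complex representations of orthogonal groups.
-/
import Mathlib
import Cfsg.Agent.KSG.MDOMain
import Cfsg.Agent.KSG.CoopO5

set_option autoImplicit false
set_option linter.unusedSectionVars false

namespace CL.MDO

open Module Submodule CL.Witt CL.Witt.Form CL.Witt.FormType CL.Coop

section

variable {F V : Type*} [Field F] [Finite F] [AddCommGroup V] [Module F V] [Fintype V]
  {f : Form (quad F) V} {y z u u' v α β γ : V} {ψ : AddChar F ℂ}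
  {M : Type*} [AddCommGroup M] [Module ℂ M] [FiniteDimensional ℂ M]
  {ρ : f.E →* Module.End ℂ M} {a : F} (hf : f.Nondeg) (hψ : ψ ≠ 1) (hn : 7 ≤ finrank F V)

include hf hn in
theorem le_card_fl (hy : f.q y = 0) (h0 : y ≠ 0) (a : F) :
    Nat.card F * ((Nat.card F - 1) * (Nat.card F + 1) * Nat.card F ^ (finrank F V - 5)) ≤
      Nat.card {γ // Fl f y γ ∧ f.q γ = a} := by
  obtain ⟨y', hy', h1⟩ := hf.exists_partner' hy h0
  refine (Nat.mul_le_mul_left _ (sigma_quad hf hn hy' h1 hy a)).trans ?_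
  rw [← Nat.card_prod]
  have h2 : ∀ w ∈ Wp f y y', ∀ c : F, f.B y' (w + c • y) = c := fun w hw c => by
    simp [(f.mem_perp_span_pair.mp hw).2, f.quad_symm y y', h1]
  refine Nat.card_le_card_of_injective (fun p => ⟨p.2.1 + p.1 • y, ⟨hy, h0, by
    simp [(f.mem_perp_span_pair.mp p.2.2.1).1, f.B_self_eq_zero hy], fun h => ?_⟩, by
    simp [quad_q_add, quad_q_smul, hy, p.2.2.2.2,
      f.B_eq_zero_symm (f.mem_perp_span_pair.mp p.2.2.1).1]⟩) fun p p' h => ?_
  · exact not_mem_of_Wp hy hy' h1 p.2.2.1 p.2.2.2.1 (span_mono (s := {y}) (by simp)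
      (((F ∙ y).add_mem_iff_left (smul_mem _ _ (mem_span_singleton_self y))).mp h))
  · have h3 : p.2.1 + p.1 • y = p'.2.1 + p'.1 • y := congrArg Subtype.val h
    have h4 : p.1 = p'.1 := by rw [← h2 _ p.2.2.1 p.1, h3, h2 _ p'.2.2.1]
    exact Prod.ext h4 (Subtype.ext (by simpa [h4] using h3))

include hf hψ hn in
theorem exists_one (hy : f.q y = 0) (h0 : y ≠ 0) (h1 : ∃ g, ρ g ≠ 1) :
    2 * ((Nat.card F - 1) * (Nat.card F + 1) * Nat.card F ^ (finrank F V - 5)) ≤ finrank ℂ M ∨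
      ∃ α, Fl f y α ∧ One ψ ρ (f.q α) := by
  classical
  let := Fintype.ofFinite F
  have hq : 1 < Nat.card F := Finite.one_lt_card
  have h2 := le_card_fl hf hn hy h0
  set σ := (Nat.card F - 1) * (Nat.card F + 1) * Nat.card F ^ (finrank F V - 5)
  have h3 : ∀ a, ∃ γ, Fl f y γ ∧ f.q γ = a := fun a => by
    obtain ⟨γ⟩ := (Nat.card_pos_iff.mp ((Nat.mul_pos (by omega) (Nat.mul_pos
      (Nat.mul_pos (by omega) (by omega)) (by positivity))).trans_le (h2 a))).1
    exact ⟨γ, γ.2⟩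
  choose w hw hw' using h3
  let μ : F → ℕ := fun a => finrank ℂ (LinearMap.range (wp ψ ρ y (w a)))
  have hμ : ∀ z γ, Fl f z γ → LinearMap.trace ℂ M (wp ψ ρ z γ) = μ (f.q γ) := fun z γ h => by
    obtain ⟨g, rfl, hg⟩ := (hw (f.q γ)).exists_E hf hn h (hw' _).symm
    rw [← LS.trace_idem (wp_mul_self hf hψ hy _), ← trace_wp_map hy g, hg]
  have hμ0 : ∀ z γ, Fl f z γ → μ (f.q γ) = 0 → wp ψ ρ z γ = 0 := fun z γ h h4 => by
    have := hμ z γ h
    rwa [h4, LS.trace_idem (wp_mul_self hf hψ h.q0 _), Nat.cast_inj, finrank_eq_zero,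
      LinearMap.range_eq_bot] at this
  rcases Nat.lt_trichotomy (∑ a, μ a) 1 with h4 | h4 | h4
  · exfalso
    obtain ⟨g, hg⟩ := h1
    have h5 : wp ψ ρ y 0 = 1 := by
      have h6 := sum_wp (ρ := ρ) hf hψ h0
      rw [Finset.sum_congr rfl (g := fun γ => (if γ ∈ F ∙ y then (1 : ℂ) else 0) • wp ψ ρ y 0),
        ← Finset.sum_smul, LS.sum_ite_mem, finrank_span_singleton h0, pow_one, mul_one] at h6
      · exact smul_right_injective _ (Nat.cast_ne_zero.mpr Nat.card_pos.ne') h6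
      intro γ _
      split_ifs with h7
      · rw [one_smul, wp_congr (β := 0) (by simpa using h7)]
      rw [zero_smul]
      exact by_contra fun h8 => h8 (hμ0 y γ ⟨hy, h0, by_contra fun h => h8 (wp_eq_zero hψ hy h), h7⟩
        (Finset.sum_eq_zero_iff.mp (Nat.lt_one_iff.mp h4) _ (Finset.mem_univ _)))
    obtain ⟨k, hk, hk'⟩ : g.1 ∈ ρ.ker.map f.E.subtype := by
      refine (E_le_iff (M := ρ.ker.map f.E.subtype)).mpr (fun z hz0 hz =>
        U_le_iff.mpr fun u a h => Subgroup.mem_map.mpr ⟨ee f z u, ?_, ?_⟩) g.2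
      · obtain ⟨k, hk, rfl⟩ := ((quad_iso3 f).idx2 hf (by omega)).exists_E_apply_eq hf h0 hz0
          (hy.trans hz.symm)
        have h6 := mul_wp (ψ := ψ) (ρ := ρ) hy ⟨k, hk⟩ 0
        have h7 := ee_mul_wp (ψ := ψ) (ρ := ρ) hz h.huv 0
        have h8 := congrArg (· * ρ (⟨k, hk⟩ : f.E)⁻¹) h6
        simp only [h5, map_zero, mul_one, mul_assoc, ← map_mul, mul_inv_cancel, map_one] at h8
        simpa [← h8] using h7
      · rw [show a = f.q u from h.ha]; rfl
    exact hg (Subtype.ext hk' ▸ hk :)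
  · obtain ⟨a, -, ha⟩ := Finset.exists_ne_zero_of_sum_ne_zero (h4 ▸ one_ne_zero)
    rw [← Finset.add_sum_erase _ _ (Finset.mem_univ a)] at h4
    refine Or.inr ⟨w a, hw a, fun z γ h => ⟨fun h5 => ?_, fun h5 => hμ0 z γ h ?_⟩⟩
    · rw [hμ z γ h, h5, hw', show μ a = 1 by omega, Nat.cast_one]
    · exact Finset.sum_eq_zero_iff.mp (show ∑ x ∈ Finset.univ.erase a, μ x = 0 by omega) _
        (by simpa [hw'] using h5)
  · left
    have h5 := congrArg (LinearMap.trace ℂ M) (sum_wp (ρ := ρ) hf hψ h0)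
    simp only [map_sum, LS.trace_idem (wp_mul_self hf hψ hy _), map_smul, LinearMap.trace_one,
      smul_eq_mul] at h5
    have h6 : ∑ γ, finrank ℂ (LinearMap.range (wp ψ ρ y γ)) = Nat.card F * finrank ℂ M := by
      exact_mod_cast h5
    refine Nat.le_of_mul_le_mul_left ?_ (zero_lt_one.trans hq)
    calc Nat.card F * (2 * σ) ≤ (∑ a, μ a) * (Nat.card F * σ) := by
          rw [mul_left_comm]; exact Nat.mul_le_mul_right _ h4
      _ ≤ ∑ a, ∑ γ, if Fl f y γ ∧ f.q γ = a then μ a else 0 := by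
          rw [Finset.sum_mul]
          refine Finset.sum_le_sum fun a _ => ?_
          rw [← Finset.sum_filter, Finset.sum_const, ← Fintype.card_subtype,
            ← Nat.card_eq_fintype_card, smul_eq_mul, mul_comm]
          exact Nat.mul_le_mul_right _ (h2 a)
      _ ≤ _ := by
          rw [← h6, Finset.sum_comm]
          refine Finset.sum_le_sum fun γ _ => ?_
          by_cases h7 : Fl f y γ
          · have := hμ y γ h7
            rw [LS.trace_idem (wp_mul_self hf hψ hy _), Nat.cast_inj] at this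
            simp [h7, this]
          · simp [h7]

open Classical in
theorem card_perp_sing (hy : f.q y = 0) (a : F) :
    (Nat.card {γ // f.B y γ = 0 ∧ f.q γ = a} : ℤ) = Nat.card {γ // f.B y γ = 0 ∧ γ ∉ F ∙ y ∧
      f.q γ = a} + if a = 0 then Nat.card (F ∙ y) else 0 := by
  rw [card_split _ fun γ => γ ∈ F ∙ y, add_comm, Nat.cast_add]
  congr 1
  · exact congrArg _ (Nat.card_congr (Equiv.subtypeEquivRight fun γ => by tauto))
  have h1 : ∀ γ ∈ F ∙ y, f.B y γ = 0 ∧ f.q γ = 0 := fun γ h => by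
    obtain ⟨c, rfl⟩ := mem_span_singleton.mp h
    simp [quad_q_smul, hy, f.B_self_eq_zero hy]
  split_ifs with h
  · exact congrArg _ (Nat.card_congr (Equiv.subtypeEquivRight fun γ =>
      ⟨fun h => h.2, fun h2 => ⟨h ▸ h1 γ h2, h2⟩⟩))
  · have : IsEmpty {γ // (f.B y γ = 0 ∧ f.q γ = a) ∧ γ ∈ F ∙ y} :=
      ⟨fun γ => h (γ.2.1.2.symm.trans (h1 _ γ.2.2).2)⟩
    simp

include hf in
theorem min_degree {k q : ℕ} (hN : finrank F V = k + 7) (hq : Nat.card F = q)
    (hS : ∀ E, (∀ g, Commute (ρ g) E) → ∃ c : ℂ, E = c • 1) (h1 : ∃ g, ρ g ≠ 1) {S s D : ℤ}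
    (hD : finrank ℂ M = D) (hZ : Nat.card {v // f.q v = 0} = S + 1)
    (hs : S = q * s + (q - 1) * (q ^ (k + 5) + 1)) :
    2 * (q ^ 2 - 1) * q ^ (k + 2) ≤ D ∨ (Triv f 0 → D * (q ^ 2 - 1) * (q ^ (k + 4) + 1) = S * s ∨
      q * (S * s) ≤ D * (q ^ 2 - 1) * (q ^ (k + 5) - 1)) ∨ q ≤ 3 ∧ ∃ a ≠ 0, ∃ n A : ℤ,
        n + (q - 1) * q ^ (k + 5) = Nat.card {v // f.q v = a} ∧ n ≤ q * D ∧
        (2 ≤ k → A * n = q * s * ((q - 1) * q ^ (k + 4)) ∧
          D * (q + 1) * (A + (q - 1) ^ 2 * q ^ (k + 4)) = S * n) := by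
  classical
  obtain ⟨ψ, hψ⟩ := LS.exists_addChar_ne_one (F := F) (K := ℂ) (by
    rw [ringChar.eq_zero]
    exact (CharP.char_ne_zero_of_finite F _).symm)
  have hn : 7 ≤ finrank F V := by omega
  have hq1 : 1 < q := hq ▸ Finite.one_lt_card
  obtain ⟨y, h0, hy⟩ := (quad_iso3 f).exists_singular (by omega)
  rcases exists_one hf hψ hn hy h0 h1 with h2 | ⟨α, h, h2⟩
  · left
    rw [hN, hq] at h2
    zify [hq1.le] at h2
    simp only [show k + 7 - 5 = k + 2 from rfl] at h2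
    linarith
  right
  have hS' : (Nat.card {v // v ≠ 0 ∧ f.q v = 0} : ℤ) = S := by
    rw [card_zero_succ (F := F) f.q f.q_zero] at hZ
    push_cast at hZ
    omega
  have h3 : ∀ a, (Nat.card {γ // f.B y γ = 0 ∧ γ ∉ F ∙ y ∧ f.q γ = a} : ℤ) +
      (if a = 0 then q else 0 : ℕ) + (q - 1) * q ^ (k + 5) = Nat.card {v // f.q v = a} := fun a => by
    have h4 := card_perp_eq hf (X := ⊥) hy (by simpa) (by simp [perp_bot]) a
    have h5 := card_perp_sing hy a
    rw [card_span_singleton h0, hq] at h5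
    rw [Nat.card_congr (Equiv.subtypeEquivRight fun z => show _ ↔ f.q z = a by simp [perp_bot]),
      Nat.card_congr (Equiv.subtypeEquivRight fun z => show (_ ∧ _) ∧ _ ↔
        f.B y z = 0 ∧ f.q z = a by simp [perp_bot, and_comm]), finrank_bot, hN, hq] at h4
    zify [hq1.le] at h4
    rw [h4, h5]
    simp
  have hc : ∀ {p}, f.q p = 0 → f.B y p = 0 → p ∉ F ∙ y → ∀ a,
      (Nat.card {z // (f.q z = a ∧ f.B y z = 0) ∧ f.B p z ≠ 0} : ℤ) = (q - 1) * q ^ (k + 4) :=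
    fun {p} h4 h5 h6 a => by
      have := card_value_ne hf h4 h6 (f.mem_perp_span_singleton.mpr h5) 0 a
      rw [card_ker_quad, mul_one, finrank_span_singleton h0, hN, hq, Nat.card_congr
        (Equiv.subtypeEquivRight fun z => show _ ↔ (f.q z = a ∧ f.B y z = 0) ∧ f.B p z ≠ 0 by
          simp [mem_span_singleton, quad_π, f.quad_symm z, and_assoc, and_left_comm]
          exact fun _ _ => ⟨fun h => by simpa using h 1, fun h _ => Or.inr h⟩)] at this
      zify [hq1.le] at this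
      exact this
  have h4 := h3 0
  rw [hZ, if_pos rfl] at h4
  by_cases hα : f.q α = 0
  · refine Or.inl fun hT => ?_
    rw [← hα] at hT
    obtain ⟨δ, r, h5, h6, h7⟩ := local_identity hf hψ hn h2 h hT hα
    have h8 := global_identity hf hψ hn h2 h hT hS
    have h9 := LS.sum_ite_mem (span F {y, α}) 1
    have h10 := LS.sum_ite_mem (F ∙ y) 1
    have h11 := congrArg (Int.cast : ℤ → ℂ) (hc hα h.perp h.nm 0)
    rw [Finset.sum_congr rfl (g := fun z => (if z ∈ span F {y, α} then 1 else 0) -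
      (if z ∈ F ∙ y then 1 else 0) - Nat.card F * if z ∈ span F {y, α} ∧ z ∉ F ∙ y then
        LinearMap.trace ℂ M (wp ψ ρ z 0 * wp ψ ρ y α) else 0) fun z _ => by
          by_cases h12 : z ∈ span F {y, α}
          · obtain ⟨s, t, rfl⟩ := mem_span_pair.mp h12
            by_cases h13 : s • y + t • α ∈ F ∙ y <;>
              simp [h12, h13, quad_q_add, quad_q_smul, hy, hα, h.perp]
          · simp [h12, show z ∉ F ∙ y from fun h => h12 (span_mono (by simp) h)],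
      Finset.sum_sub_distrib, Finset.sum_sub_distrib, h9, h10, ← Finset.mul_sum, h.finrank_eq,
      finrank_span_singleton h0, cnt_zero, hN, hα] at h8
    rw [hq] at h6 h7 h8
    have h12 : D * (q ^ 2 - 1) * ((q ^ (k + 4) + 1) * δ - (q + 1) * r) = S * s * δ := by
      refine mul_left_cancel₀ (show (q : ℤ) ≠ 0 by omega) (Int.cast_injective (α := ℂ) ?_)
      have e₁ := congrArg (Int.cast : ℤ → ℂ) hS'
      have e₂ := congrArg (Int.cast : ℤ → ℂ) (h4.trans (congrArg (· + 1) hs))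
      have e₃ := congrArg (Int.cast : ℤ → ℂ) hD
      simp only [show k + 7 - 3 = k + 4 from rfl] at h8
      push_cast at e₁ e₂ e₃ h11 ⊢
      rw [h11, e₁, e₃] at h8
      linear_combination δ * h8 + δ * S * e₂ + D * (q + 1) * q * h7
    have hD0 : 0 ≤ D * (q ^ 2 - 1) := mul_nonneg (by omega) (by nlinarith)
    rcases r.eq_zero_or_pos with rfl | hr
    · exact Or.inl (mul_right_cancel₀ (show (δ : ℤ) ≠ 0 by omega) (by linear_combination h12))
    · refine Or.inr (le_of_mul_le_mul_right ?_ (show (0 : ℤ) < δ by omega))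
      have h13 : (δ : ℤ) ≤ q * r := by nlinarith
      linear_combination mul_le_mul_of_nonneg_left h13
        (mul_nonneg hD0 (show (0 : ℤ) ≤ q + 1 by omega)) - q * h12
  · have h5 := h3 (f.q α)
    rw [if_neg hα, Nat.cast_zero, add_zero] at h5
    refine Or.inr ⟨by_contra fun h6 => ?_, _, hα, _, cnt f y 0 α, h5, ?_, fun hk => ⟨?_, ?_⟩⟩
    · obtain ⟨c, hc, hc'⟩ := exists_sq_ne (F := F) (by omega)
      have h7 := wp_smul (ψ := ψ) (ρ := ρ) hy hc (c⁻¹ • α)
      have h8 := (h2 y (c⁻¹ • α) ⟨hy, h0, by simp [h.perp], by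
        simpa [smul_mem_iff _ (inv_ne_zero hc)] using h.nm⟩).2 (by simp [quad_q_smul, hα, hc'])
      have h9 := (h2 (c • y) α ⟨f.q_smul_eq_zero hy c, smul_ne_zero hc h0, by simp [h.perp], by
        simpa [span_singleton_smul_eq hc.isUnit] using h.nm⟩).1 rfl
      rw [smul_inv_smul₀ hc, h8] at h7
      simp [h7] at h9
    · have h6 := trace_one_sub hf hψ h2 hy h0
      rw [map_sub, LinearMap.trace_one, LS.trace_idem (wp_mul_self hf hψ hy _), hq] at h6
      have h7 : (q : ℤ) * (finrank ℂ M - finrank ℂ (LinearMap.range (wp ψ ρ y 0))) =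
        Nat.card {γ // f.B y γ = 0 ∧ γ ∉ F ∙ y ∧ f.q γ = f.q α} := by exact_mod_cast h6
      rw [← h7, hD]
      exact mul_le_mul_of_nonneg_left (by omega) (by omega)
    · let P : V → V → Prop := fun γ u => (f.B y γ = 0 ∧ γ ∉ F ∙ y ∧ f.q γ = f.q α) ∧
        (f.q u = 0 ∧ f.B y u = 0) ∧ f.B γ u ≠ 0
      have h6 := congrArg (Nat.cast : ℕ → ℂ)
        ((FormCount.card_subtype_prod P).symm.trans (FormCount.card_subtype_prod' P))
      push_cast at h6
      rw [Finset.sum_congr rfl (g := fun γ => if f.B y γ = 0 ∧ γ ∉ F ∙ y ∧ f.q γ = f.q α then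
        (cnt f y 0 α : ℂ) else 0), sum_ite_card, Finset.sum_congr rfl (g := fun u =>
        if f.B y u = 0 ∧ u ∉ F ∙ y ∧ f.q u = 0 then (((q - 1) * q ^ (k + 4) : ℤ) : ℂ) else 0),
        sum_ite_card] at h6
      · have h7 : (Nat.card {γ // f.B y γ = 0 ∧ γ ∉ F ∙ y ∧ f.q γ = f.q α} : ℤ) * cnt f y 0 α =
          Nat.card {u // f.B y u = 0 ∧ u ∉ F ∙ y ∧ f.q u = 0} * ((q - 1) * q ^ (k + 4)) := by
          exact_mod_cast h6
        linear_combination h7 + ((q : ℤ) - 1) * q ^ (k + 4) * (h4 + hs)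
      · intro u _
        split_ifs with h7
        · rw [← hc h7.2.2 h7.1 h7.2.1 (f.q α), Int.cast_natCast, Nat.cast_inj]
          refine Nat.card_congr (Equiv.subtypeEquivRight fun γ => ⟨fun h => ⟨⟨h.1.2.2, h.1.1⟩,
            by rw [quad_symm]; exact h.2.2⟩, fun h8 => ⟨⟨h8.1.2, fun h9 => ?_, h8.1.1⟩,
            ⟨h7.2.2, h7.1⟩, by rw [quad_symm]; exact h8.2⟩⟩)
          obtain ⟨c, rfl⟩ := mem_span_singleton.mp h9
          simp [f.B_eq_zero_symm h7.1] at h8
        · have : IsEmpty {γ // P γ u} := ⟨fun γ => h7 ⟨γ.2.2.1.2, fun h8 => by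
            obtain ⟨c, rfl⟩ := mem_span_singleton.mp h8
            exact γ.2.2.2 (by simp [f.B_eq_zero_symm γ.2.1.1]), γ.2.2.1.1⟩⟩
          simp
      · intro γ _
        split_ifs with h7
        · obtain ⟨g, h8, h9⟩ := h.exists_E hf hn ⟨hy, h0, h7.1, h7.2.1⟩ h7.2.2
          rw [← cnt_map (E_le_O g.2), h8, h9, map_zero, cnt_zero, Nat.cast_inj]
          exact Nat.card_congr (Equiv.subtypeEquivRight fun u => and_iff_right h7)
        · have : IsEmpty {u // P γ u} := ⟨fun u => h7 u.2.1⟩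
          simp
    · have h8 := global_identity hf hψ hn h2 h (Or.inr (Or.inl (by omega))) hS
      rw [Finset.sum_eq_zero fun z _ => if_neg fun h9 => by
        obtain ⟨s, t, rfl⟩ := mem_span_pair.mp h9.2.1
        have h10 : t = 0 := by simpa [quad_q_add, quad_q_smul, hy, hα, h.perp] using h9.1
        exact h9.2.2 (by simp [h10, smul_mem]), hN, hq, add_zero] at h8
      rw [← hD, ← hS']
      exact_mod_cast h8

end

open CL.Root in
theorem exists_rep {F : Type*} [Field F] [Finite F] {ι : Type} [Fintype ι] [DecidableEq ι]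
    (Q : QuadraticForm F (ι → F)) (hf : (ofQuad Q).Nondeg) (h5 : 5 ≤ Fintype.card ι) {k : ℕ}
    (ρ : Representation ℂ (Cfsg.Omega F Q) (Fin k → ℂ)) (hρ : ρ.IsIrreducible) (hk : 2 ≤ k) :
    ∃ ρ' : (ofQuad Q).E →* Module.End ℂ (Fin k → ℂ),
      (∀ E, (∀ g, Commute (ρ' g) E) → ∃ c : ℂ, E = c • 1) ∧ ∃ g, ρ' g ≠ 1 := by
  let j := (actE ι F).toMonoidHom.comp
    ((Cfsg.isometryGroup F Q).subtype.comp (Cfsg.Omega F Q).subtype)
  have hj : Function.Injective j :=
    (actE ι F).injective.comp (Subtype.val_injective.comp Subtype.val_injective)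
  have hr : j.range = (ofQuad Q).E := by
    ext e
    rw [← act_actE_symm e, ← mem_omegaGL_iff_E hf h5]
    exact ⟨fun ⟨g, hg⟩ => ⟨g.1, g.2, (actE ι F).injective hg⟩,
      fun ⟨g, hg, h⟩ => ⟨⟨g, hg⟩, congrArg (actE ι F) h⟩⟩
  let e := (MonoidHom.ofInjective hj).trans (MulEquiv.subgroupCongr hr)
  obtain ⟨g₀, hg₀⟩ := LS.exists_ne_one_of_irreducible ρ hρ (by rwa [Module.finrank_fin_fun])
  refine ⟨ρ.comp e.symm.toMonoidHom, fun E hE => ?_, e g₀, by simpa using hg₀⟩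
  obtain ⟨c, hc⟩ :=
    (Representation.IsIrreducible.algebraMap_intertwiningMap_bijective_of_isAlgClosed
      (ρ := ρ)).2 ⟨E, fun g => by simpa [Module.End.mul_eq_comp] using (hE (e g)).eq.symm⟩
  exact ⟨c, (congrArg Representation.IntertwiningMap.toLinearMap hc).symm⟩

theorem arith_plus {q Y D : ℤ} (hq : 4 ≤ q) (hY : q ^ 2 ≤ Y) {d : ℤ}
    (hd : d * (q ^ 2 - 1) = (q ^ 2 * Y - 1) * (q * Y + q))
    (h : D * (q ^ 2 - 1) * (q * Y ^ 2 + 1) = (q ^ 2 * Y - 1) * (q * Y + 1) * ((q * Y - 1) * (Y + 1))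
      ∨ q * ((q ^ 2 * Y - 1) * (q * Y + 1) * ((q * Y - 1) * (Y + 1))) ≤
        D * (q ^ 2 - 1) * (q ^ 2 * Y ^ 2 - 1)) : d ≤ D := by
  have h1 : 4 * q ≤ Y := by nlinarith
  rcases h with h | h
  · have h2 : (d - D) * ((q - 1) * (q * Y ^ 2 + 1)) = (q ^ 2 * Y - 1) * (Y + 1) :=
      mul_left_cancel₀ (show q + 1 ≠ 0 by omega) (by linear_combination (q * Y ^ 2 + 1) * hd - h)
    have h3 : 0 ≤ (q - 1) * (q * Y ^ 2 + 1) := by
      have : 0 ≤ q - 1 := by omega
      positivity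
    have h4 : 0 ≤ q * Y := by nlinarith
    rcases le_or_gt (d - D) 1 with h5 | h5
    · nlinarith [mul_le_mul_of_nonneg_right h5 h3, mul_le_mul_of_nonneg_right h1 h4]
    · nlinarith [mul_le_mul_of_nonneg_right (show 2 ≤ d - D by omega) h3,
        mul_le_mul_of_nonneg_right hY h4, mul_nonneg h4 (show 0 ≤ (q - 4) * Y by nlinarith)]
  · refine le_of_mul_le_mul_right (le_of_mul_le_mul_right ?_ (show 0 < q ^ 2 * Y ^ 2 - 1 by
      nlinarith [show 2 ≤ q * Y by nlinarith])) (show 0 < q ^ 2 - 1 by nlinarith)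
    rw [hd]
    linarith

theorem arith_minus {q Y D : ℤ} (hq : 2 ≤ q) (hY : q ^ 2 ≤ Y) {d : ℤ}
    (hd : d * (q ^ 2 - 1) = (q ^ 2 * Y + 1) * (q * Y - q))
    (h : D * (q ^ 2 - 1) * (q * Y ^ 2 + 1) = (q ^ 2 * Y + 1) * (q * Y - 1) * ((q * Y + 1) * (Y - 1))
      ∨ q * ((q ^ 2 * Y + 1) * (q * Y - 1) * ((q * Y + 1) * (Y - 1))) ≤
        D * (q ^ 2 - 1) * (q ^ 2 * Y ^ 2 - 1)) : d ≤ D := by
  have h1 : 2 * q ≤ Y := by nlinarith
  rcases h with h | h
  · have h2 : (d - D) * ((q - 1) * (q * Y ^ 2 + 1)) = (q ^ 2 * Y + 1) * (Y - 1) :=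
      mul_left_cancel₀ (show q + 1 ≠ 0 by omega) (by linear_combination (q * Y ^ 2 + 1) * hd - h)
    have h3 : 0 ≤ (q - 1) * (q * Y ^ 2 + 1) := by
      have : 0 ≤ q - 1 := by omega
      positivity
    have h4 : 0 ≤ q * Y := by nlinarith
    rcases le_or_gt (d - D) 1 with h5 | h5
    · nlinarith [mul_le_mul_of_nonneg_right h5 h3, mul_le_mul_of_nonneg_right h1 h4]
    · nlinarith [mul_le_mul_of_nonneg_right (show 2 ≤ d - D by omega) h3,
        mul_nonneg h4 (show 0 ≤ (q - 2) * Y by nlinarith)]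
  · refine le_of_mul_le_mul_right (le_of_mul_le_mul_right ?_ (show 0 < q ^ 2 * Y ^ 2 - 1 by
      nlinarith [show 2 ≤ q * Y by nlinarith])) (show 0 < q ^ 2 - 1 by nlinarith)
    rw [hd]
    linarith

theorem arith_odd {q X D : ℤ} (hq : 2 ≤ q) (hX : q ^ 2 < X) {d : ℤ}
    (hd : d * (q ^ 2 - 1) = q ^ 2 * X - 1)
    (h : D * (q ^ 2 - 1) * (X + 1) = (q ^ 2 * X - 1) * (X - 1)
      ∨ q * ((q ^ 2 * X - 1) * (X - 1)) ≤ D * (q ^ 2 - 1) * (q * X - 1)) : d ≤ D := by
  have h0 : 0 < q ^ 2 - 1 := by nlinarith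
  have h1 : 0 ≤ (q ^ 2 - 1) * (X + 1) := by nlinarith
  rcases h with h | h
  · have h2 : (d - D) * ((q ^ 2 - 1) * (X + 1)) = 2 * (q ^ 2 * X - 1) := by
      linear_combination (X + 1) * hd - h
    rcases le_or_gt (d - D) 2 with h5 | h5
    · nlinarith [mul_le_mul_of_nonneg_right h5 h1]
    · nlinarith [mul_le_mul_of_nonneg_right (show 3 ≤ d - D by omega) h1,
        mul_nonneg (show 0 ≤ q ^ 2 - 3 by nlinarith) (show 0 ≤ X by nlinarith)]
  · by_contra! h2
    have h3 : 0 ≤ (q ^ 2 - 1) * (q * X - 1) := mul_nonneg h0.le (by nlinarith)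
    have h4 := mul_le_mul_of_nonneg_right (show D + 1 ≤ d by omega) h3
    have h5 : d * ((q ^ 2 - 1) * (q * X - 1)) = (q ^ 2 * X - 1) * (q * X - 1) := by
      linear_combination (q * X - 1) * hd
    nlinarith [mul_pos (show 0 < q - 1 by omega) (show 0 < q * (X - 1) by nlinarith)]

theorem exists_pow_eq (q : ℤ) (k : ℕ) :
    ∃ t, q ^ k = 1 + (q ^ 2 - 1) * t ∨ q ^ k = q + q * (q ^ 2 - 1) * t := by
  obtain ⟨m, rfl | rfl⟩ := k.even_or_odd'
  all_goals obtain ⟨t, ht⟩ := sub_one_dvd_pow_sub_one (q ^ 2) m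
  · exact ⟨t, Or.inl (by linear_combination ht)⟩
  · exact ⟨t, Or.inr (by linear_combination q * ht)⟩

theorem div_le_of {R q k : ℕ} {d : ℤ} (hq : 1 < q) (hd : d * (q ^ 2 - 1) = R) (h : d ≤ k) :
    R / (q ^ 2 - 1) ≤ k := by
  have h1 := Nat.one_le_pow 2 q (by omega)
  refine Nat.div_le_of_le_mul ?_
  zify [h1]
  rw [← hd, mul_comm]
  exact mul_le_mul_of_nonneg_left h (sub_nonneg.mpr (by exact_mod_cast h1))

end CL.MDO
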