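import Mathlib
import Cfsg.Agent.CLAS.WittHyp
import Cfsg.Agent.CLAS.Eichler
import Cfsg.Agent.KSG.SpUAdj

/-! Gauss decomposition with respect to a pair of opposite totally singular subspaces and a
criterion for an isometry to be a commutator. -/

set_option autoImplicit false

namespace CL.Ore

open Module CL.Witt CL.Witt.Form Polynomial

section Grp
variable {G : Type*} [Group G]

theorem exists_conj_of_cent (P : Subgroup G) [Finite P] {h : G} (hn : ∀ x ∈ P, h * x * h⁻¹ ∈ P)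
    (hc : ∀ x ∈ P, x * h = h * x → x = 1) {v : G} (hv : v ∈ P) :
    ∃ x ∈ P, v * h = x * h * x⁻¹ := by
  let φ : P → P := fun x => ⟨x * (h * x⁻¹ * h⁻¹), mul_mem x.2 (hn _ (inv_mem x.2))⟩
  have hφ : Function.Injective φ := fun x y e => by
    have e1 : (x : G) * (h * x⁻¹ * h⁻¹) = y * (h * y⁻¹ * h⁻¹) := congrArg Subtype.val e
    have := hc _ (mul_mem (inv_mem y.2) x.2) (by
      calc (y : G)⁻¹ * x * h = (y : G)⁻¹ * (x * (h * x⁻¹ * h⁻¹)) * h * x := by simp [mul_assoc]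
        _ = _ := by rw [e1]; simp [mul_assoc])
    exact Subtype.ext (inv_mul_eq_one.1 this).symm
  obtain ⟨x, hx⟩ := Finite.injective_iff_surjective.1 hφ ⟨v, hv⟩
  refine ⟨x, x.2, ?_⟩
  have e1 : (x : G) * (h * x⁻¹ * h⁻¹) = v := congrArg Subtype.val hx
  rw [← e1]; simp [mul_assoc]

/-- The commutator criterion. -/
theorem comm_of_cent {O N P Q : Subgroup G} [Finite P] [Finite Q]
    (hN : ∀ g ∈ O, ∀ x ∈ N, g * x * g⁻¹ ∈ N) (hP : P ≤ O) (hQ : Q ≤ O) {d e c v u : G}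
    (hd : d ∈ N) (he : e ∈ N) (hc : c ∈ N) (h : d = c * e⁻¹ * c⁻¹)
    (n1 : ∀ x ∈ P, d * x * d⁻¹ ∈ P) (c1 : ∀ x ∈ P, x * d = d * x → x = 1)
    (n2 : ∀ x ∈ Q, e * x * e⁻¹ ∈ Q) (c2 : ∀ x ∈ Q, x * e = e * x → x = 1)
    (hv : v ∈ P) (hu : u ∈ Q) : ∃ a ∈ N, ∃ b ∈ N, v * (d * e) * u = a * b * a⁻¹ * b⁻¹ := by
  have k : ∀ {R : Subgroup G} [Finite R] {t : G}, R ≤ O → t ∈ N → (∀ x ∈ R, t * x * t⁻¹ ∈ R) →
      (∀ x ∈ R, x * t = t * x → x = 1) → R ≤ N := fun hR ht a b w hw => by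
    obtain ⟨x, hx, e⟩ := exists_conj_of_cent _ a b hw
    rw [eq_mul_inv_of_mul_eq e]
    exact mul_mem (hN x (hR hx) _ ht) (inv_mem ht)
  obtain ⟨x, hx, e1⟩ := exists_conj_of_cent P n1 c1 hv
  obtain ⟨y, hy, e2⟩ := exists_conj_of_cent Q n2 c2 (n2 u hu)
  have hx' := k hP hd n1 c1 hx
  have hy' := k hQ he n2 c2 hy
  refine ⟨x * c * y⁻¹, mul_mem (mul_mem hx' hc) (inv_mem hy'), y * e⁻¹ * y⁻¹,
    mul_mem (mul_mem hy' (inv_mem he)) (inv_mem hy'), ?_⟩
  calc v * (d * e) * u = (v * d) * (e * u * e⁻¹ * e) := by group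
    _ = _ := by rw [e1, e2, h]; group

end Grp

variable {F : Type*} [Field F] {T : FormType F} {V : Type*} [AddCommGroup V] [Module F V]
  {f : Form T V} {L L' K K' : Submodule F V}

/-- A pair of opposite totally singular subspaces. -/
structure Fr (f : Form T V) (L L' : Submodule F V) : Prop where
  nd : f.Nondeg
  l : f.TotSing L
  r : f.TotSing L'
  cl : IsCompl L (f.perp L')
  cr : IsCompl L' (f.perp L)

/-- The middle part. -/
def mid (f : Form T V) (L L' : Submodule F V) : Submodule F V := f.perp L ⊓ f.perp L'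

/-- The unipotent radical of the stabiliser of `L`. -/
def Ur (f : Form T V) (L : Submodule F V) : Subgroup (V ≃ₗ[F] V) where
  carrier := {u | u ∈ f.fix L ∧ ∀ x ∈ f.perp L, u x - x ∈ L}
  one_mem' := ⟨one_mem _, fun x _ => by simp⟩
  mul_mem' := fun {a b} ha hb => ⟨mul_mem ha.1 hb.1, fun x hx => by
    have := add_mem (ha.2 x hx) (hb.2 x hx)
    have e := ha.1.2 _ (hb.2 x hx)
    rw [map_sub] at e
    convert this using 1
    rw [← e, LinearEquiv.mul_apply]; abel⟩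
  inv_mem' := fun {a} ha => ⟨inv_mem ha.1, fun x hx => by
    have := neg_mem (ha.2 _ ((f.stab_le_stab_perp L (f.fix_le_stab L (inv_mem ha.1))).2 x |>.1 hx))
    rwa [neg_sub, ← LinearEquiv.mul_apply, mul_inv_cancel] at this⟩

/-- The Levi subgroup. -/
def Lv (f : Form T V) (L L' : Submodule F V) : Subgroup (V ≃ₗ[F] V) := f.stab L ⊓ f.stab L'

theorem Ur_le_O : Ur f L ≤ f.O := fun _ h => h.1.1

theorem Lv_le_O : Lv f L L' ≤ f.O := fun _ h => h.1.1

theorem Lv_comm : Lv f L L' = Lv f L' L := inf_comm _ _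

theorem mid_comm : mid f L L' = mid f L' L := inf_comm _ _

theorem Lv_left {d : V ≃ₗ[F] V} (h : d ∈ Lv f L L') {x : V} (hx : x ∈ L) : d x ∈ L :=
  (h.1.2 x).1 hx

theorem Lv_right {d : V ≃ₗ[F] V} (h : d ∈ Lv f L L') {x : V} (hx : x ∈ L') : d x ∈ L' :=
  (h.2.2 x).1 hx

theorem stab_perp {d : V ≃ₗ[F] V} (h : d ∈ f.stab L) {x : V} (hx : x ∈ f.perp L) :
    d x ∈ f.perp L := ((f.stab_le_stab_perp L h).2 x).1 hx

theorem Lv_mid {d : V ≃ₗ[F] V} (h : d ∈ Lv f L L') {x : V} (hx : x ∈ mid f L L') :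
    d x ∈ mid f L L' := ⟨stab_perp h.1 hx.1, stab_perp h.2 hx.2⟩

theorem Ur_sub {u : V ≃ₗ[F] V} (h : u ∈ Ur f L) (x : V) : u x - x ∈ f.perp L :=
  f.mem_perp.2 fun w hw => by
    rw [f.B_sub_right, ← mem_O_B h.1.1 w x, h.1.2 w hw, sub_self]

theorem conj_mem_Ur {d u : V ≃ₗ[F] V} (hd : d ∈ f.stab L) (h : u ∈ Ur f L) :
    d * u * d⁻¹ ∈ Ur f L := by
  have hi := inv_mem hd
  refine ⟨⟨mul_mem (mul_mem hd.1 h.1.1) hi.1, fun v hv => ?_⟩, fun x hx => ?_⟩
  · rw [LinearEquiv.mul_apply, LinearEquiv.mul_apply, h.1.2 _ ((hi.2 v).1 hv),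
      ← LinearEquiv.mul_apply, mul_inv_cancel]; rfl
  · have := (hd.2 _).1 (h.2 _ (stab_perp hi hx))
    rwa [map_sub, ← LinearEquiv.mul_apply d d⁻¹, mul_inv_cancel] at this

theorem aeval_mem {A : Module.End F V} {W : Submodule F V} (hW : ∀ x ∈ W, A x ∈ W) (p : F[X])
    {x : V} (hx : x ∈ W) : aeval A p x ∈ W := by
  induction p using Polynomial.induction_on with
  | C a => simpa using W.smul_mem a hx
  | add p q hp hq => simpa using add_mem hp hq
  | monomial n a h =>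
    rw [pow_succ, ← mul_assoc, mul_comm, map_mul, aeval_X]
    exact hW _ h

theorem commute_aeval {A N : Module.End F V} (h : Commute N A) (p : F[X]) :
    Commute N (aeval A p) := by
  induction p using Polynomial.induction_on with
  | C a => rw [aeval_C]; exact (Algebra.commutes a N).symm
  | add p q hp hq => rw [map_add]; exact hp.add_right hq
  | monomial n a hp => rw [pow_succ, ← mul_assoc, map_mul, aeval_X]; exact hp.mul_right h

theorem surj_on [FiniteDimensional F V] {S : Module.End F V} {W : Submodule F V}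
    (hW : ∀ x ∈ W, S x ∈ W) (hi : ∀ x ∈ W, S x = 0 → x = 0) {y : V} (hy : y ∈ W) :
    ∃ x ∈ W, S x = y := by
  have : Function.Injective (S.restrict hW) := (injective_iff_map_eq_zero _).2 fun x e =>
    Subtype.ext (hi x x.2 (congrArg Subtype.val e))
  obtain ⟨x, e⟩ := LinearMap.injective_iff_surjective.1 this ⟨y, hy⟩
  exact ⟨x, x.2, congrArg Subtype.val e⟩

theorem B_aeval {A A' : Module.End F V} (h : ∀ x y, f.B (A x) y = f.B x (A' y)) (p : F[X])
    (x y : V) : f.B (aeval A p x) y = f.B x (aeval A' (p.map T.σ) y) := by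
  induction p using Polynomial.induction_on generalizing y with
  | C a => simp
  | add p q hp hq => simp [hp, hq]
  | monomial n a hp =>
    rw [pow_succ, ← mul_assoc, Polynomial.map_mul, map_X, map_mul (aeval A'), mul_comm, map_mul,
      aeval_X, aeval_X, Module.End.mul_apply, h, hp, Module.End.mul_apply]

theorem B_inv {d : V ≃ₗ[F] V} (hd : d ∈ f.O) (x y : V) : f.B (d x) y = f.B x (d⁻¹ y) := by
  rw [← mem_O_B hd x]; congr 1; exact (d.apply_symm_apply y).symm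

theorem finite_sub [Finite V] (P : Subgroup (V ≃ₗ[F] V)) : Finite P :=
  Finite.of_injective (fun g : P => (g.1 : V → V)) fun _ _ e => Subtype.ext (DFunLike.coe_injective e)

namespace Fr

theorem symm (h : Fr f L L') : Fr f L' L := ⟨h.nd, h.r, h.l, h.cr, h.cl⟩

theorem eq_zero (h : Fr f L L') {x : V} (h1 : x ∈ L) (h2 : x ∈ f.perp L') : x = 0 :=
  Submodule.disjoint_def.1 h.cl.disjoint x h1 h2

/-- projection onto `L` -/
noncomputable def pl (h : Fr f L L') : V →ₗ[F] V := L.projection _ h.cl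

theorem pl_mem (h : Fr f L L') (v : V) : h.pl v ∈ L := Submodule.projection_apply_mem _ _

theorem sub_pl (h : Fr f L L') (v : V) : v - h.pl v ∈ f.perp L' := Submodule.sub_projection_mem _ _

theorem pl_left (h : Fr f L L') {v : V} (hv : v ∈ L) : h.pl v = v :=
  Submodule.projection_apply_of_mem_left _ hv

theorem pl_right (h : Fr f L L') {v : V} (hv : v ∈ f.perp L') : h.pl v = 0 :=
  Submodule.projection_apply_of_mem_right _ hv

theorem B_pl (h : Fr f L L') {y : V} (hy : y ∈ L') (v : V) : f.B y (h.pl v) = f.B y v := by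
  have := f.mem_perp.1 (h.sub_pl v) y hy
  rw [f.B_sub_right, sub_eq_zero] at this
  exact this.symm

theorem sub_mem_mid (h : Fr f L L') (v : V) : v - h.pl v - h.symm.pl v ∈ mid f L L' :=
  ⟨by rw [sub_right_comm]; exact sub_mem (h.symm.sub_pl v) (h.l.le_perp (h.pl_mem v)),
    sub_mem (h.sub_pl v) (h.r.le_perp (h.symm.pl_mem v))⟩

theorem decomp (h : Fr f L L') (v : V) :
    ∃ l ∈ L, ∃ x ∈ mid f L L', ∃ y ∈ L', v = l + x + y :=
  ⟨_, h.pl_mem v, _, h.sub_mem_mid v, _, h.symm.pl_mem v, by abel⟩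

theorem decomp_perp (h : Fr f L L') {v : V} (hv : v ∈ f.perp L) :
    ∃ l ∈ L, ∃ x ∈ mid f L L', v = l + x :=
  ⟨_, h.pl_mem v, v - h.pl v, ⟨sub_mem hv (h.l.le_perp (h.pl_mem v)), h.sub_pl v⟩, by abel⟩

theorem B_three (h : Fr f L L') {l x y l' x' y' : V} (hl : l ∈ L) (hx : x ∈ mid f L L') (hy : y ∈ L')
    (hl' : l' ∈ L) (hx' : x' ∈ mid f L L') (hy' : y' ∈ L') :
    f.B (l + x + y) (l' + x' + y') = f.B l y' + f.B x x' + f.B y l' := by
  simp only [f.B_add_left, f.B_add_right, h.l.2 l hl l' hl', h.r.2 y hy y' hy',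
    f.mem_perp.1 hx'.1 l hl, f.mem_perp.1 hx'.2 y hy, f.mem_perp'.1 hx.1 l' hl',
    f.mem_perp'.1 hx.2 y' hy']
  ring

theorem q_three (h : Fr f L L') {l x y : V} (hl : l ∈ L) (hx : x ∈ mid f L L') (hy : y ∈ L') :
    f.q (l + x + y) = f.q x + T.π (f.B l y) := by
  rw [f.q_add, f.q_add, f.B_add_left, h.l.1 l hl, h.r.1 y hy, f.mem_perp.1 hx.1 l hl,
    f.mem_perp'.1 hx.2 y hy]
  simp

theorem mid_nd (h : Fr f L L') {x : V} (hx : x ∈ mid f L L')
    (h0 : ∀ x' ∈ mid f L L', f.B x x' = 0) : x = 0 := h.nd x fun v => by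
  obtain ⟨l, hl, x', hx', y, hy, rfl⟩ := h.decomp v
  rw [f.B_add_right, f.B_add_right, h0 x' hx', f.mem_perp'.1 hx.1 l hl, f.mem_perp'.1 hx.2 y hy]
  simp

theorem ext (h : Fr f L L') {a b : V →ₗ[F] V} (h1 : ∀ l ∈ L, a l = b l)
    (h2 : ∀ x ∈ mid f L L', a x = b x) (h3 : ∀ y ∈ L', a y = b y) : a = b :=
  LinearMap.ext fun v => by
    obtain ⟨l, hl, x, hx, y, hy, rfl⟩ := h.decomp v
    simp only [map_add, h1 l hl, h2 x hx, h3 y hy]

theorem ext_Lv (h : Fr f L L') {a b : V ≃ₗ[F] V} (ha : a ∈ Lv f L L') (hb : b ∈ Lv f L L')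
    (h1 : ∀ l ∈ L, a l = b l) (h2 : ∀ x ∈ mid f L L', a x = b x) : a = b := by
  refine LinearEquiv.toLinearMap_injective (h.ext h1 h2 fun y hy => sub_eq_zero.1 ?_)
  refine h.symm.eq_zero (sub_mem (Lv_right ha hy) (Lv_right hb hy)) (f.mem_perp.2 fun l hl => ?_)
  have e := Lv_left (inv_mem ha) hl
  have e1 : a (a⁻¹ l) = l := a.apply_symm_apply l
  change f.B l (a y - b y) = 0
  rw [f.B_sub_right, ← e1, mem_O_B ha.1.1, h1 _ e, mem_O_B hb.1.1, sub_self]

variable [FiniteDimensional F V]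

theorem of_isCompl (hf : f.Nondeg) (h1 : f.TotSing L) (h2 : f.TotSing L')
    (h : IsCompl L (f.perp L')) : Fr f L L' := by
  refine ⟨hf, h1, h2, h, disjoint_iff.2 ?_, codisjoint_iff.2 ?_⟩
  · rw [← hf.perp_perp L', inf_comm, ← f.perp_sup, h.sup_eq_top, f.perp_top hf]
  · rw [← hf.perp_perp L', sup_comm, ← hf.perp_inf, h.inf_eq_bot, f.perp_bot]

theorem finrank_eq (h : Fr f L L') : finrank F L = finrank F L' := by
  have := Submodule.finrank_add_eq_of_isCompl h.cl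
  have := h.nd.finrank_add_finrank_perp L'
  omega

/-- Isometries are assembled from their three parts. -/
theorem assemble (h : Fr f L L') (h' : Fr f K K') (a s b : V →ₗ[F] V) (ha : ∀ l ∈ L, a l ∈ K)
    (hs : ∀ x ∈ mid f L L', s x ∈ mid f K K') (hb : ∀ y ∈ L', b y ∈ K')
    (hB : ∀ l ∈ L, ∀ y ∈ L', f.B (a l) (b y) = f.B l y)
    (sB : ∀ x ∈ mid f L L', ∀ x' ∈ mid f L L', f.B (s x) (s x') = f.B x x')
    (sq : ∀ x ∈ mid f L L', f.q (s x) = f.q x) :
    ∃ g ∈ f.O, (∀ l ∈ L, g l = a l) ∧ (∀ x ∈ mid f L L', g x = s x) ∧ ∀ y ∈ L', g y = b y := by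
  let G : V →ₗ[F] V := a ∘ₗ h.pl + s ∘ₗ (LinearMap.id - h.pl - h.symm.pl) + b ∘ₗ h.symm.pl
  have hG : ∀ l ∈ L, ∀ x ∈ mid f L L', ∀ y ∈ L', G (l + x + y) = a l + s x + b y :=
    fun l hl x hx y hy => by
      simp [G, h.pl_left hl, h.pl_right hx.2, h.pl_right (h.r.le_perp hy), h.symm.pl_left hy,
        h.symm.pl_right hx.1, h.symm.pl_right (h.l.le_perp hl)]
      abel
  obtain ⟨g, hg, e⟩ := IsIsom.exists_mem_O h.nd (g := G) ⟨fun v w => by
      obtain ⟨l, hl, x, hx, y, hy, rfl⟩ := h.decomp v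
      obtain ⟨l', hl', x', hx', y', hy', rfl⟩ := h.decomp w
      rw [hG l hl x hx y hy, hG l' hl' x' hx' y' hy', h.B_three hl hx hy hl' hx' hy',
        h'.B_three (ha l hl) (hs x hx) (hb y hy) (ha l' hl') (hs x' hx') (hb y' hy'),
        hB l hl y' hy', sB x hx x' hx', f.symm (a l'), hB l' hl' y hy, ← f.symm], fun v => by
      obtain ⟨l, hl, x, hx, y, hy, rfl⟩ := h.decomp v
      rw [hG l hl x hx y hy, h.q_three hl hx hy, h'.q_three (ha l hl) (hs x hx) (hb y hy),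
        hB l hl y hy, sq x hx]⟩
  refine ⟨g, hg, fun l hl => ?_, fun x hx => ?_, fun y hy => ?_⟩
  · simpa [e] using hG l hl 0 (zero_mem _) 0 (zero_mem _)
  · simpa [e] using hG 0 (zero_mem _) x hx 0 (zero_mem _)
  · simpa [e] using hG 0 (zero_mem _) 0 (zero_mem _) y hy

/-- The unipotent radical is transitive on the opposite subspaces. -/
theorem exists_Ur (h : Fr f L L') (h' : Fr f L K') : ∃ u ∈ Ur f L, ∀ y ∈ L', u y ∈ K' := by
  have k : ∀ x ∈ mid f L L', x - h'.pl x ∈ mid f L K' := fun x hx =>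
    ⟨sub_mem hx.1 (h.l.le_perp (h'.pl_mem x)), h'.sub_pl x⟩
  obtain ⟨g, hg, h1, h2, h3⟩ := h.assemble h' LinearMap.id (LinearMap.id - h'.pl) h'.symm.pl
    (fun _ hl => hl) k (fun y _ => h'.symm.pl_mem y) (fun l hl y _ => h'.symm.B_pl hl y)
    (fun x hx x' hx' => by
      change f.B (x - h'.pl x) (x' - h'.pl x') = _
      rw [f.B_sub_left, f.mem_perp.1 (k x' hx').1 _ (h'.pl_mem x), f.B_sub_right,
        f.mem_perp'.1 hx.1 _ (h'.pl_mem x'), sub_zero, sub_zero])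
    (fun x hx => by
      change f.q (x - h'.pl x) = _
      rw [f.q_sub, h.l.1 _ (h'.pl_mem x), f.mem_perp'.1 hx.1 _ (h'.pl_mem x), map_zero, add_zero,
        sub_zero])
  refine ⟨g, ⟨⟨hg, h1⟩, fun v hv => ?_⟩, fun y hy => by rw [h3 y hy]; exact h'.symm.pl_mem y⟩
  obtain ⟨l, hl, x, hx, rfl⟩ := h.decomp_perp hv
  rw [map_add, h1 l hl, h2 x hx]
  simpa using h'.pl_mem x

theorem map (h : Fr f L L') {g : V ≃ₗ[F] V} (hg : g ∈ f.O) :
    Fr f (L.map (g : V →ₗ[F] V)) (L'.map (g : V →ₗ[F] V)) :=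
  of_isCompl h.nd (h.l.map hg) (h.r.map hg) (by
    rw [← IsIsom.map_perp hg]
    exact (Submodule.orderIsoMapComap g).isCompl h.cl)

theorem mem_Lv {d : V ≃ₗ[F] V} (hd : d ∈ f.O) (h1 : ∀ l ∈ L, d l ∈ L) (h2 : ∀ y ∈ L', d y ∈ L') :
    d ∈ Lv f L L' := ⟨f.mem_stab_iff_le.2 ⟨hd, h1⟩, f.mem_stab_iff_le.2 ⟨hd, h2⟩⟩

/-- Gauss decomposition. -/
theorem gauss (h : Fr f L L') {g : V ≃ₗ[F] V} (hg : g ∈ f.O) (b : L ≃ₗ[F] L)
    (hb : ∀ l : L, g l - b l ∈ f.perp L') :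
    ∃ v ∈ Ur f L', ∃ d ∈ Lv f L L', ∃ u ∈ Ur f L, (∀ l : L, d l = b l) ∧ g = v * d * u := by
  have h1 : Fr f (L.map (g : V →ₗ[F] V)) L' := by
    refine of_isCompl h.nd (h.l.map hg) h.r ⟨Submodule.disjoint_def.2 ?_, codisjoint_iff.2 ?_⟩
    · rintro _ ⟨l, hl, rfl⟩ e
      have := h.eq_zero (b ⟨l, hl⟩).2 (by simpa using sub_mem e (hb ⟨l, hl⟩))
      have e2 : (⟨l, hl⟩ : L) = 0 := by simpa using this
      simp [show l = 0 from congrArg Subtype.val e2]
    · rw [eq_top_iff, ← h.cl.sup_eq_top]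
      refine sup_le (fun l hl => ?_) le_sup_right
      have := sub_mem (Submodule.mem_sup_left (Submodule.mem_map_of_mem (f := (g : V →ₗ[F] V))
        (b.symm ⟨l, hl⟩).2)) (Submodule.mem_sup_right (hb (b.symm ⟨l, hl⟩)))
      simpa using this
  obtain ⟨v, hv, h2⟩ := h.symm.exists_Ur h1.symm
  have hk : g⁻¹ * v ∈ f.stab L := f.mem_stab_iff_le.2 ⟨mul_mem (inv_mem hg) hv.1.1, fun l hl => by
    obtain ⟨l', hl', e⟩ := h2 l hl
    rw [LinearEquiv.mul_apply, ← e]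
    exact (g.symm_apply_apply l').symm ▸ hl'⟩
  have h3 := h.map hk.1
  rw [(f.mem_stab_iff_map.1 hk).2] at h3
  obtain ⟨u, hu, h4⟩ := h.exists_Ur h3
  have hk' := inv_mem hk
  refine ⟨v, hv, (g⁻¹ * v)⁻¹ * u, mem_Lv (mul_mem hk'.1 hu.1.1) (fun l hl => ?_) fun y hy => ?_,
    u⁻¹, inv_mem hu, fun l => ?_, by group⟩
  · rw [LinearEquiv.mul_apply, hu.1.2 l hl]; exact (hk'.2 l).1 hl
  · obtain ⟨y', hy', e⟩ := h4 y hy
    rw [LinearEquiv.mul_apply, ← e]
    exact ((g⁻¹ * v).symm_apply_apply y').symm ▸ hy'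
  · rw [LinearEquiv.mul_apply, hu.1.2 l l.2]
    refine sub_eq_zero.1 (h.eq_zero (sub_mem ((hk'.2 l).1 l.2) (b l).2) ?_)
    have := sub_mem (hb l) (Ur_sub hv ((g⁻¹ * v)⁻¹ l))
    rw [← LinearEquiv.mul_apply v, show v * (g⁻¹ * v)⁻¹ = g by group] at this
    convert this using 1; abel

theorem exists_lev (h : Fr f L L') (b : L ≃ₗ[F] L) :
    ∃ d ∈ Lv f L L', (∀ l : L, d l = b l) ∧ ∀ x ∈ mid f L L', d x = x := by
  obtain ⟨g, hg, e⟩ := h.nd.witt (L.subtype ∘ₗ b) (Subtype.val_injective.comp b.injective)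
    ⟨fun x y => (h.l.2 _ (b x).2 _ (b y).2).trans (h.l.2 _ x.2 _ y.2).symm,
      fun x => (h.l.1 _ (b x).2).trans (h.l.1 _ x.2).symm⟩
  have e1 : ∀ l ∈ L, g l ∈ L := fun l hl => by rw [e ⟨l, hl⟩]; exact (b _).2
  obtain ⟨d, hd, h1, h2, h3⟩ := h.assemble h g LinearMap.id (h.symm.pl ∘ₗ g) e1 (fun _ hx => hx)
    (fun y _ => h.symm.pl_mem _) (fun l hl y _ => (h.symm.B_pl (e1 l hl) _).trans (mem_O_B hg l y))
    (fun _ _ _ _ => rfl) fun _ _ => rfl
  exact ⟨d, mem_Lv hd (fun l hl => by rw [h1 l hl]; exact e1 l hl)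
    (fun y hy => by rw [h3 y hy]; exact h.symm.pl_mem _), fun l => (h1 l l.2).trans (e l), h2⟩

/-- The general linear group of `L` inside the Levi subgroup. -/
noncomputable def lev (h : Fr f L L') : (L ≃ₗ[F] L) →* (V ≃ₗ[F] V) :=
  MonoidHom.mk' (fun b => (h.exists_lev b).choose) fun a b => by
    obtain ⟨a1, a2, a3⟩ := (h.exists_lev a).choose_spec
    obtain ⟨b1, b2, b3⟩ := (h.exists_lev b).choose_spec
    obtain ⟨c1, c2, c3⟩ := (h.exists_lev (a * b)).choose_spec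
    refine h.ext_Lv c1 (mul_mem a1 b1) (fun l hl => ?_) fun x hx => ?_
    · rw [c2 ⟨l, hl⟩, LinearEquiv.mul_apply, LinearEquiv.mul_apply, b2 ⟨l, hl⟩, a2]
    · rw [c3 x hx, LinearEquiv.mul_apply, b3 x hx, a3 x hx]

theorem lev_mem (h : Fr f L L') (b : L ≃ₗ[F] L) : h.lev b ∈ Lv f L L' :=
  (h.exists_lev b).choose_spec.1

theorem lev_left (h : Fr f L L') (b : L ≃ₗ[F] L) (l : L) : h.lev b l = b l :=
  (h.exists_lev b).choose_spec.2.1 l

theorem lev_mid (h : Fr f L L') (b : L ≃ₗ[F] L) {x : V} (hx : x ∈ mid f L L') : h.lev b x = x :=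
  (h.exists_lev b).choose_spec.2.2 x hx

theorem cent_aux (h : Fr f L L') {d : V ≃ₗ[F] V} {S : Module.End F V}
    (hS : ∀ N : Module.End F V, Commute N d → Commute N S) (h0 : ∀ l ∈ L, S l = 0)
    (h1 : ∀ x ∈ mid f L L', ∃ x' ∈ mid f L L', S x' = x) (h2 : ∀ y ∈ L', ∃ y', S y' = y) :
    ∀ u ∈ Ur f L, u * d = d * u → u = 1 := fun u hu e => by
  have c : ∀ x, u (S x) - S x = S (u x - x) := fun x => by
    have := hS u (LinearMap.ext fun x => LinearEquiv.congr_fun e x)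
    rw [map_sub]; exact congrArg (· - _) (LinearMap.congr_fun this x)
  have k1 : ∀ x ∈ mid f L L', u x = x := fun x hx => by
    obtain ⟨x', hx', rfl⟩ := h1 x hx
    rw [← sub_eq_zero, c, h0 _ (hu.2 _ hx'.1)]
  have k2 : ∀ v, u v - v ∈ L := fun v => by
    rw [← h.nd.perp_perp L]
    refine f.mem_perp.2 fun w hw => ?_
    obtain ⟨l, hl, x, hx, rfl⟩ := h.decomp_perp hw
    rw [f.B_sub_right, ← mem_O_B hu.1.1 _ v, map_add u, hu.1.2 l hl, k1 x hx, sub_self]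
  refine LinearEquiv.toLinearMap_injective (h.ext hu.1.2 k1 fun y hy => ?_)
  obtain ⟨y', rfl⟩ := h2 y hy
  exact sub_eq_zero.1 ((c y').trans (h0 _ (k2 y')))

/-- A Levi element whose eigenvalues on the three parts are suitably disjoint acts fixed point
freely on both unipotent radicals. -/
theorem cent (h : Fr f L L') {d : V ≃ₗ[F] V} (hd : d ∈ Lv f L L') (p : F[X])
    (h0 : ∀ l ∈ L, aeval (d : Module.End F V) p l = 0)
    (h1 : ∀ l ∈ L, aeval ((d⁻¹ : V ≃ₗ[F] V) : Module.End F V) (p.map T.σ) l = 0 → l = 0)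
    (h2 : ∀ x ∈ mid f L L', aeval (d : Module.End F V) p x = 0 → x = 0) :
    (∀ u ∈ Ur f L, u * d = d * u → u = 1) ∧ ∀ u ∈ Ur f L', u * d = d * u → u = 1 := by
  have hi := inv_mem hd
  have hB := B_aeval (f := f) (A := d) (A' := (d⁻¹ : V ≃ₗ[F] V)) (B_inv hd.1.1) p
  have m1 := fun x hx => aeval_mem (A := d) (fun x hx => Lv_mid hd hx) p (x := x) hx
  have m2 := fun x hx => aeval_mem (A := d) (fun x hx => Lv_right hd hx) p (x := x) hx
  have m3 := fun x hx => aeval_mem (A := (d⁻¹ : V ≃ₗ[F] V)) (fun x hx => Lv_left hi hx)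
    (p.map T.σ) (x := x) hx
  have m4 := fun x hx => aeval_mem (A := (d⁻¹ : V ≃ₗ[F] V)) (fun x hx => Lv_mid hi hx)
    (p.map T.σ) (x := x) hx
  refine ⟨h.cent_aux (fun N hN => commute_aeval hN p) h0 (fun x hx => surj_on m1 h2 hx)
    fun y hy => ?_, h.symm.cent_aux (S := aeval ((d⁻¹ : V ≃ₗ[F] V) : Module.End F V) (p.map T.σ))
      (fun N hN => commute_aeval ?_ _) (fun y hy => ?_) (fun x hx => ?_) fun l hl => ?_⟩
  · refine (surj_on m2 (fun y hy e => h.symm.eq_zero hy (f.mem_perp'.2 fun l hl => ?_)) hy).imp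
      fun _ k => k.2
    obtain ⟨l', -, rfl⟩ := surj_on m3 h1 hl
    rw [← hB, e, f.B_zero_left]
  · refine LinearMap.ext fun x => d.injective ?_
    have := LinearMap.congr_fun hN (d⁻¹ x)
    simp only [Module.End.mul_apply, LinearEquiv.coe_coe] at this ⊢
    rw [← this]
    exact (congrArg N (d.apply_symm_apply x)).trans (d.apply_symm_apply _).symm
  · exact h.symm.eq_zero (aeval_mem (A := (d⁻¹ : V ≃ₗ[F] V)) (fun x hx => Lv_right hi hx) _ hy)
      (f.mem_perp.2 fun l hl => by rw [← hB, h0 l hl, f.B_zero_left])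
  · rw [mid_comm] at hx ⊢
    refine surj_on m4 (fun x hx e => h.mid_nd hx fun x' hx' => ?_) hx
    obtain ⟨z, -, rfl⟩ := surj_on m1 h2 hx'
    rw [f.B_eq_zero_comm, hB, e, f.B_zero_right]
  · exact (surj_on m3 h1 hl).imp fun _ k => k.2

end Fr

end CL.Ore
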