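import Mathlib
import Cfsg.Agent.KSG.OreG
import Cfsg.Agent.KSG.GLnPole

/-! Fixed point free Levi elements, the swap of the two subspaces, companion operators. -/

set_option autoImplicit false

namespace CL.Ore

open Module CL.Witt CL.Witt.Form Polynomial CL.GLn

variable {F : Type*} [Field F] {W : Type*} [AddCommGroup W] [Module F W]

/-- No root of `p` is the inverse of a root of the conjugate polynomial. -/
def Fp (σ : F →+* F) (p : F[X]) : Prop :=
  ∀ y : AlgebraicClosure F, aeval y p = 0 → y ≠ 0 ∧ aeval y⁻¹ (p.map σ) ≠ 0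

theorem Fp.eval_one {σ : F →+* F} {p : F[X]} (h : Fp σ p) : p.eval 1 ≠ 0 := fun e => by
  have k : ∀ q : F[X], aeval (1 : AlgebraicClosure F) q = algebraMap F _ (q.eval 1) := fun q => by
    rw [← aeval_algebraMap_apply_eq_algebraMap_eval, map_one]
  refine (h 1 (by rw [k, e, map_zero])).2 ?_
  rw [inv_one, k, eval_one_map, e, map_zero, map_zero]

theorem Fp.map {σ : F →+* F} (hσ : ∀ a, σ (σ a) = a) {p : F[X]} (h : Fp σ p) : Fp σ (p.map σ) := by
  intro y hy
  rw [map_map, show σ.comp σ = RingHom.id F from RingHom.ext hσ, map_id]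
  refine ⟨?_, fun e => (h _ e).2 (by rwa [inv_inv])⟩
  rintro rfl
  refine (h 0 ?_).1 rfl
  rw [← coeff_zero_eq_aeval_zero'] at hy ⊢
  simpa using hy

theorem aeval_reflect {A A' : Module.End F W} (h : A * A' = 1) (N : ℕ) (q : F[X])
    (hq : q.natDegree ≤ N) : aeval A (reflect N q) = A ^ N * aeval A' q := by
  refine induction_with_natDegree_le (fun q => aeval A (reflect N q) = A ^ N * aeval A' q) _ ?_ ?_ ?_
    q hq
  · simp
  · intro n r _ hn
    obtain ⟨k, rfl⟩ := Nat.exists_eq_add_of_le' hn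
    have : ∀ n, A ^ n * A' ^ n = 1 := fun n => by
      induction n with
      | zero => simp
      | succ n ih => rw [pow_succ, pow_succ', mul_assoc, ← mul_assoc A, h, one_mul, ih]
    rw [reflect_C_mul_X_pow, revAt_le hn, map_mul, map_mul, aeval_C, aeval_C, map_pow, map_pow, aeval_X,
      aeval_X, Nat.add_sub_cancel, ← mul_assoc, ← Algebra.commutes, mul_assoc, pow_add, mul_assoc,
      this, mul_one]
  · intros
    simp [*, mul_add]

theorem Fp.inj {σ : F →+* F} {p : F[X]} (hp : Fp σ p) {A A' : Module.End F W} (h : A * A' = 1)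
    {x : W} (h0 : aeval A p = 0) (h1 : aeval A' (p.map σ) x = 0) : x = 0 := by
  obtain ⟨a, b, e⟩ : IsCoprime p (reflect (p.map σ).natDegree (p.map σ)) := by
    refine (isCoprime_iff_aeval_ne_zero_of_isAlgClosed F (AlgebraicClosure F) _ _).2 fun y => ?_
    refine or_iff_not_imp_left.2 fun e e' => ?_
    obtain ⟨h2, h3⟩ := hp y (not_not.1 e)
    let _ := invertibleOfNonzero (inv_ne_zero h2)
    refine h3 ((eval₂_reflect_eq_zero_iff (algebraMap F _) y⁻¹ _ _ le_rfl).1 ?_)
    rwa [invOf_eq_inv, inv_inv]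
  have := congrArg (fun q => aeval A q x) e
  simp only [map_add, map_mul, aeval_reflect h _ _ le_rfl] at this
  simpa [h0, h1] using this.symm

theorem simil_of_irr [FiniteDimensional F W] {A : Module.End F W} {p : F[X]} (hp : Irreducible p)
    (hm : p.Monic) (hd : p.natDegree = finrank F W) (h : aeval A p = 0) : Simil A (cyc p) := by
  have : Nontrivial W := Module.nontrivial_of_finrank_pos (R := F) (hd ▸ hp.natDegree_pos)
  obtain ⟨a, ha⟩ := exists_ne (0 : W)
  refine simil_cyc_of_vector (a := a) hm hd fun P => ⟨fun e => ?_, ?_⟩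
  · by_contra hc
    obtain ⟨u, v, e1⟩ := hp.coprime_iff_not_dvd.2 hc
    have := congrArg (fun q => aeval A q a) e1
    simp [h, e, ha.symm] at this
  · rintro ⟨Q, rfl⟩
    simp [h]

theorem conj_of_simil {a b : W ≃ₗ[F] W} (h : Simil (a : Module.End F W) (b : Module.End F W)) :
    ∃ c : W ≃ₗ[F] W, b = c * a * c⁻¹ := by
  obtain ⟨c, hc⟩ := h
  exact ⟨c, eq_mul_inv_of_mul_eq (LinearEquiv.ext fun v => (hc v).symm)⟩

/-- A companion operator which is conjugate to its product with a diagonal operator. -/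
theorem exists_companion {m j : ℕ} (e : Basis (Fin m) F W) (hj : 0 < j) (hjm : j < m ∨ j = 1 ∧ m = 1)
    (α β : F) (hβ : β ≠ 0) (hα : j < m ∨ α = 0) (a : W ≃ₗ[F] W) (t : ℕ → F) (ht : ∀ i, t i ≠ 0)
    (ha : ∀ i : Fin m, t i • a (e i) = t (i + 1) • e i) (h1 : t m = t 0) (h2 : α * t j = α * t 0) :
    ∃ b c : W ≃ₗ[F] W, aeval (b : Module.End F W) (X ^ m - C α * X ^ j - C β : F[X]) = 0 ∧
      a * b = c * b * c⁻¹ := by
  have := Module.Finite.of_basis e
  have hm : 0 < m := by omega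
  let E : ℕ → W := fun i => if h : i < m then e ⟨i, h⟩ else 0
  have hE : ∀ i : Fin m, E i = e i := fun i => dif_pos i.2
  let E' : ℕ → W := fun i => if i < m then E i else β • E 0 + α • E j
  let b : Module.End F W := e.constr F fun i => E' (i + 1)
  have hb : ∀ i < m, b (E i) = E' (i + 1) := fun i hi => by
    rw [hE ⟨i, hi⟩]; exact e.constr_basis F _ _
  have hb' : ∀ i ≤ m, (b ^ i) (E 0) = E' i := fun i => by
    induction i with
    | zero => exact fun _ => (if_pos hm).symm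
    | succ i ih =>
      intro hi
      rw [pow_succ', Module.End.mul_apply, ih (by omega), ← hb i hi]
      exact congrArg b (if_pos hi)
  have hp : aeval b (X ^ m - C α * X ^ j - C β : F[X]) = 0 := by
    have h3 : aeval b (X ^ m - C α * X ^ j - C β : F[X]) (E 0) = 0 := by
      have h4 : α • E' j = α • E j := by
        rcases hα with h | rfl
        · simp only [E', if_pos h]
        · simp
      simp [hb' m le_rfl, hb' j (by omega), h4, E']
    refine e.ext fun i => ?_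
    have h4 : e i = (b ^ (i : ℕ)) (E 0) := by rw [hb' i i.2.le, ← hE]; exact (if_pos i.2).symm
    rw [h4, ← Module.End.mul_apply, ← (commute_aeval ((Commute.refl b).pow_left _) _).eq,
      Module.End.mul_apply, h3]
    simp
  have hi : Function.Injective b := (injective_iff_map_eq_zero b).2 fun x hx => by
    have := LinearMap.congr_fun hp x
    obtain ⟨m, rfl⟩ := Nat.exists_eq_succ_of_ne_zero hm.ne'
    obtain ⟨j, rfl⟩ := Nat.exists_eq_succ_of_ne_zero hj.ne'
    simpa [pow_succ, hx, hβ] using this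
  let c : W ≃ₗ[F] W := e.equiv (e.unitsSMul fun i => Units.mk0 _ (ht (i + 1))) (Equiv.refl _)
  have hc : ∀ i < m, c (E i) = t (i + 1) • E i := fun i hi => by
    rw [hE ⟨i, hi⟩]; simp [c, Basis.unitsSMul_apply]
  have ha' : ∀ i < m, t i • a (E i) = t (i + 1) • E i := fun i hi => by
    rw [hE ⟨i, hi⟩]; exact ha ⟨i, hi⟩
  refine ⟨LinearEquiv.ofInjectiveEndo b hi, c, hp, eq_mul_inv_of_mul_eq
    (LinearEquiv.toLinearMap_injective (e.ext fun i => ?_))⟩
  change a (b (c (e i))) = c (b (e i))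
  rw [← hE, hc i i.2, map_smul, map_smul, hb i i.2]
  by_cases h : (i : ℕ) + 1 < m
  · simp only [E', if_pos h, ha' _ h, hc _ h]
  · simp only [E', if_neg h, map_add, map_smul, smul_add]
    rw [show (i : ℕ) + 1 = m by omega, h1, smul_comm, ha' 0 hm, hc 0 hm, smul_smul (t 0), mul_comm,
      ← h2, mul_smul]
    rcases hα with h | rfl
    · rw [ha' j h, hc j h]
    · simp

variable {T : FormType F} {V : Type*} [AddCommGroup V] [Module F V] [FiniteDimensional F V]
  {f : Form T V} {L L' : Submodule F V}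

namespace Fr

theorem aeval_lev (h : Fr f L L') (b : L ≃ₗ[F] L) (p : F[X]) (l : L) :
    aeval (h.lev b : Module.End F V) p l = aeval (b : Module.End F L) p l :=
  (intertwine_aeval L.subtype (fun v => (h.lev_left b v).symm) p l).symm

theorem cent_lev (h : Fr f L L') {b : L ≃ₗ[F] L} {p : F[X]} (hp : Fp T.σ p)
    (h0 : aeval (b : Module.End F L) p = 0) :
    (∀ u ∈ Ur f L, u * h.lev b = h.lev b * u → u = 1) ∧
      ∀ u ∈ Ur f L', u * h.lev b = h.lev b * u → u = 1 := by
  refine h.cent (h.lev_mem b) p (fun l hl => ?_) (fun l hl e => ?_) fun x hx e => ?_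
  · rw [h.aeval_lev b p ⟨l, hl⟩, h0]; rfl
  · rw [← map_inv, h.aeval_lev _ _ ⟨l, hl⟩, Submodule.coe_eq_zero] at e
    exact congrArg Subtype.val (hp.inj (LinearMap.ext b.apply_symm_apply) h0 e)
  · have := intertwine_aeval (A := algebraMap F (Module.End F F) 1) (B := h.lev b)
      (LinearMap.toSpanSingleton F V x) (fun v => by simp [h.lev_mid b hx]) p 1
    rw [aeval_algebraMap_apply_eq_algebraMap_eval] at this
    simpa [e, hp.eval_one] using this

/-- The commutator criterion for a Levi element inside `GL(L)`. -/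
theorem comm_lev [Finite V] (h : Fr f L L') {N : Subgroup (V ≃ₗ[F] V)}
    (hN : ∀ g ∈ f.O, ∀ x ∈ N, g * x * g⁻¹ ∈ N) {x y : L ≃ₗ[F] L} {c v u : V ≃ₗ[F] V} (hc : c ∈ N)
    (hy : h.lev y ∈ N) (e : h.lev x = c * h.lev y * c⁻¹) {p q : F[X]} (hp : Fp T.σ p)
    (hq : Fp T.σ q) (h1 : aeval (x : Module.End F L) p = 0 ∨
      aeval ((x⁻¹ : L ≃ₗ[F] L) : Module.End F L) p = 0) (h2 : aeval (y : Module.End F L) q = 0)
    (hv : v ∈ Ur f L') (hu : u ∈ Ur f L) :
    ∃ a ∈ N, ∃ b ∈ N, v * h.lev (x * y⁻¹) * u = a * b * a⁻¹ * b⁻¹ := by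
  have := finite_sub (Ur f L)
  have := finite_sub (Ur f L')
  have k : ∀ (w d : V ≃ₗ[F] V), w * d⁻¹ = d⁻¹ * w → w * d = d * w := fun w d e =>
    (Commute.inv_right_iff.1 e).eq
  rw [map_mul]
  refine comm_of_cent hN Ur_le_O Ur_le_O (e ▸ mul_mem (mul_mem hc hy) (inv_mem hc))
    (map_inv h.lev y ▸ inv_mem hy) hc (by rw [map_inv, inv_inv, e])
    (fun w hw => conj_mem_Ur (h.lev_mem x).2 hw) (fun w hw e => ?_)
    (fun w hw => conj_mem_Ur (h.lev_mem _).1 hw)
    (fun w hw e => (h.cent_lev hq h2).1 w hw (k _ _ (map_inv h.lev y ▸ e))) hv hu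
  rcases h1 with h1 | h1
  · exact (h.cent_lev hp h1).2 w hw e
  · exact (h.cent_lev hp h1).2 w hw (map_inv h.lev x ▸ (Commute.inv_right e).eq)

theorem exists_swap (h : Fr f L L') : ∃ w ∈ f.O, (∀ l ∈ L, w l ∈ L') ∧ (∀ y ∈ L', w y ∈ L) ∧
    ∀ x ∈ mid f L L', w x = x := by
  obtain ⟨g, hg, e⟩ := h.nd.witt_totSing h.l h.r h.finrank_eq
  have e1 : ∀ l ∈ L, g l ∈ L' := fun l hl => e ▸ Submodule.mem_map_of_mem hl
  obtain ⟨d, hd, h1, h2, h3⟩ := h.assemble h.symm g LinearMap.id (h.pl ∘ₗ g) e1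
    (fun _ hx => ⟨hx.2, hx.1⟩) (fun y _ => h.pl_mem _)
    (fun l hl y _ => (h.B_pl (e1 l hl) _).trans (mem_O_B hg l y)) (fun _ _ _ _ => rfl) fun _ _ => rfl
  exact ⟨d, hd, fun l hl => by rw [h1 l hl]; exact e1 l hl,
    fun y hy => by rw [h3 y hy]; exact h.pl_mem _, h2⟩

theorem exists_eq_lev (h : Fr f L L') {d : V ≃ₗ[F] V} (hd : d ∈ Lv f L L')
    (h1 : ∀ x ∈ mid f L L', d x = x) : ∃ b, d = h.lev b := by
  refine ⟨d.ofSubmodules L L (f.mem_stab_iff_map.1 hd.1).2, h.ext_Lv hd (h.lev_mem _)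
    (fun l hl => (h.lev_left _ ⟨l, hl⟩).symm ▸ rfl) fun x hx => by rw [h1 x hx, h.lev_mid _ hx]⟩

/-- An irreducible Levi element is conjugate to its contragredient. -/
theorem swap_conj (h : Fr f L L') {x y : L ≃ₗ[F] L} {p : F[X]} (hp : Irreducible p) (hm : p.Monic)
    (hd : p.natDegree = finrank F L) (h1 : aeval (y : Module.End F L) p = 0)
    (h2 : aeval ((x⁻¹ : L ≃ₗ[F] L) : Module.End F L) (p.map T.σ) = 0) :
    ∃ c ∈ f.O, h.lev x = c * h.lev y * c⁻¹ := by
  obtain ⟨w, hw, w1, w2, w3⟩ := h.exists_swap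
  have hy := h.lev_mem y
  have i1 : ∀ l ∈ L, w⁻¹ l ∈ L' := fun l hl => by
    have : L'.map (w : V →ₗ[F] V) = L := Submodule.eq_of_le_of_finrank_eq
      (Submodule.map_le_iff_le_comap.2 w2) (by rw [LinearEquiv.finrank_map_eq, h.finrank_eq])
    obtain ⟨z, hz, rfl⟩ := this.ge hl
    exact (w.symm_apply_apply z).symm ▸ hz
  have i2 : ∀ l ∈ L', w⁻¹ l ∈ L := fun l hl => by
    have : L.map (w : V →ₗ[F] V) = L' := Submodule.eq_of_le_of_finrank_eq
      (Submodule.map_le_iff_le_comap.2 w1) (by rw [LinearEquiv.finrank_map_eq, h.finrank_eq])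
    obtain ⟨z, hz, rfl⟩ := this.ge hl
    exact (w.symm_apply_apply z).symm ▸ hz
  obtain ⟨b, hb⟩ := h.exists_eq_lev (d := w * h.lev y * w⁻¹) (mem_Lv
    (mul_mem (mul_mem hw hy.1.1) (inv_mem hw)) (fun l hl => w2 _ (Lv_right hy (i1 l hl)))
    fun l hl => w1 _ (Lv_left hy (i2 l hl))) fun z hz => by
      rw [LinearEquiv.mul_apply, LinearEquiv.mul_apply, show w⁻¹ z = z from
        w.symm_apply_eq.2 (w3 z hz).symm, h.lev_mid y hz, w3 z hz]
  have h3 : aeval ((b⁻¹ : L ≃ₗ[F] L) : Module.End F L) (p.map T.σ) = 0 := LinearMap.ext fun l => by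
    have hb' := h.lev_mem b
    rw [LinearMap.zero_apply, ← Submodule.coe_eq_zero, ← h.aeval_lev, map_inv]
    refine h.eq_zero (aeval_mem (A := (h.lev b)⁻¹.toLinearMap) (fun _ hx => Lv_left (inv_mem hb') hx)
      _ l.2) (f.mem_perp.2 fun z hz => ?_)
    rw [← B_aeval (A := h.lev b) (B_inv hb'.1.1)]
    have := intertwine_aeval (A := h.lev y) (B := h.lev b) (w : V →ₗ[F] V) (fun v => by
      rw [← hb]; simp) p (w⁻¹ z)
    rw [h.aeval_lev y p ⟨_, i2 z hz⟩, h1] at this
    rw [show z = (w : V →ₗ[F] V) (w⁻¹ z) from (w.apply_symm_apply z).symm, ← this]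
    simp
  have hp' : Irreducible (p.map T.σ) := (MulEquiv.irreducible_iff (mapEquiv (RingEquiv.ofBijective
    T.σ ⟨T.σ_injective, T.σ_surjective⟩))).2 hp
  have hd' : (p.map T.σ).natDegree = finrank F L := by rw [natDegree_map, hd]
  obtain ⟨c, hc⟩ := conj_of_simil ((simil_of_irr hp' (hm.map _) hd' h3).trans
    (simil_of_irr hp' (hm.map _) hd' h2).symm)
  refine ⟨h.lev c * w, mul_mem (h.lev_mem c).1.1 hw, ?_⟩
  rw [show x = c * b * c⁻¹ by rw [← inv_inv x, hc]; group, map_mul, map_mul, map_inv, ← hb]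
  group

end Fr

end CL.Ore
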