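import Mathlib

/-! A model of the field with four elements and two finite checks. -/

set_option autoImplicit false

namespace CL.Ore

/-- A model of the field with four elements. -/
abbrev K4 := QuadraticAlgebra (ZMod 2) 1 1

namespace K4

/-- A primitive element. -/
def w : K4 := ⟨0, 1⟩

instance : Fintype K4 := ⟨⟨([0, 1, w, w + 1] : List K4), by decide⟩, fun ⟨a, b⟩ => by
  revert a b; decide⟩

/-- Witnesses in dimension two. -/
def l2 : List (Matrix (Fin 2) (Fin 2) K4) :=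
  [!![0,1;1,w], !![1,w+1;w+1,w+1], !![w,w;w+1,0], !![1,w;1,w+1], !![0,w+1;w,w], !![1,1;w,w+1]]

/-- Witnesses in dimension three. -/
def l3 : List (Matrix (Fin 3) (Fin 3) K4) :=
  [!![0,1,0;0,1,1;1,0,1], !![0,w,0;1,w,w+1;w,0,w], !![1,0,w;1,1,w;w+1,w+1,0],
    !![0,w,w+1;0,w,w;w+1,0,w], !![0,w+1,1;w,w,1;w+1,0,w], !![0,1,1;1,1,1;1,0,1],
    !![0,w+1,w;1,w,1;w+1,0,w], !![w+1,1,w;1,w+1,1;w,1,0], !![0,w,1;w+1,1,0;1,w,1],
    !![1,1,w;1,w,1;1,w,w+1], !![0,1,1;w,w+1,w+1;1,0,w+1], !![w+1,w,0;w+1,1,w;w+1,0,w],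
    !![0,1,1;0,w+1,1;w+1,0,w+1], !![0,w,w+1;w+1,w,0;1,1,w], !![0,0,1;1,w+1,1;1,w,w+1]]

theorem l2_spec : ∀ a b c d : K4, a * d - b * c = 1 → ∃ y ∈ l2, y * y + w • y + 1 = 0 ∧
    (!![a,b;c,d] * y * (!![a,b;c,d] * y) + w • (!![a,b;c,d] * y) + 1 = 0 ∨
      !![a,b;c,d] * y * (!![a,b;c,d] * y) + (w + 1) • (!![a,b;c,d] * y) + 1 = 0) := by
  decide +kernel

theorem l3_mem : ∀ y ∈ l3, y * y * y + y + 1 = 0 := by
  simpa using (by decide +kernel : l3.all (fun y => y * y * y + y + 1 = 0) = true)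

theorem l3_spec : ∀ c b e : K4, (c = 0 ∧ b = 0 ∧ e = 1 ∨ e = 0) → ∀ z x : K4, x * e - c * z = 1 →
    ∀ t : K4, ∃ y ∈ l3, (fun u : Matrix (Fin 3) (Fin 3) K4 =>
      u * u * u + u + 1 = 0 ∨ u * u * u + u * u + 1 = 0) (!![0,c,x;1,b,t;0,e,z] * y) := by
  decide +kernel

end K4

variable {F : Type*} [Field F]


theorem exists_K4 [Finite F] (hF : Nat.card F = 4) : Nonempty (K4 ≃+* F) := by
  classical
  have := Fintype.ofFinite F
  rw [Nat.card_eq_fintype_card] at hF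
  have h4 := FiniteField.cast_card_eq_zero F
  rw [hF] at h4
  have h2 : (2 : F) = 0 := pow_eq_zero_iff two_ne_zero |>.1 (by rw [← h4]; norm_num)
  have := CharTwo.of_one_ne_zero_of_two_eq_zero one_ne_zero h2
  let _ := ZMod.algebra F 2
  obtain ⟨ω, h⟩ : ∃ ω : F, ω ∉ ({0, 1} : Finset F) := by
    by_contra hc
    push Not at hc
    have := (Finset.card_le_card (show Finset.univ ⊆ _ from fun x _ => hc x)).trans Finset.card_le_two
    rw [Finset.card_univ] at this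
    omega
  simp only [Finset.mem_insert, Finset.mem_singleton, not_or] at h
  have h3 := FiniteField.pow_card_sub_one_eq_one ω h.1
  rw [hF] at h3
  have h5 : ω * ω = 1 + ω := mul_left_cancel₀ (sub_ne_zero.2 h.2) (by
    linear_combination h3 + (1 - ω ^ 2) * h2)
  let φ : K4 →ₐ[ZMod 2] F := QuadraticAlgebra.lift ⟨ω, by simpa using h5⟩
  have hw : φ K4.w = ω := by simp [φ, K4.w]
  refine ⟨RingEquiv.ofBijective φ.toRingHom ((Fintype.bijective_iff_injective_and_card _).2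
    ⟨(injective_iff_map_eq_zero _).2 fun k hk => ?_, hF ▸ rfl⟩)⟩
  obtain rfl | rfl | rfl | rfl := (by decide : ∀ k : K4, k = 0 ∨ k = 1 ∨ k = K4.w ∨ k = K4.w + 1) k
  · rfl
  · simp at hk
  · exact absurd (hw ▸ hk) h.1
  · exact absurd (by simpa [hw, CharTwo.add_eq_zero] using hk) h.2

end CL.Ore
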