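import Mathlib
import Cfsg.Agent.KSG.OrthMaxTS
import Cfsg.Agent.KSG.OrthUnip
import Cfsg.Agent.KSG.GLnPole

/-!
Commutators in orthogonal groups, part 1: the unipotent radical of the stabiliser of a totally
singular subspace, elements acting on it without fixed points, and the model
`(U × U*) × W` with its Levi subgroup and the Gauss decomposition.
-/

set_option autoImplicit false
set_option linter.unusedSectionVars false

namespace CL.OreO

open Module QuadraticMap Polynomial CL.Orth CL.GLn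

section Grp

variable {G : Type*} [Group G]

/-- `g` is a commutator of two elements of the commutator subgroup. -/
def IsCom (g : G) : Prop :=
  ∃ a ∈ commutator G, ∃ b ∈ commutator G, g = a * b * a⁻¹ * b⁻¹

theorem IsCom.conj {g : G} (h : IsCom g) (y : G) : IsCom (y * g * y⁻¹) := by
  obtain ⟨a, ha, b, hb, rfl⟩ := h
  have hN : (commutator G).Normal := inferInstance
  exact ⟨y * a * y⁻¹, hN.conj_mem a ha y, y * b * y⁻¹, hN.conj_mem b hb y, by group⟩

theorem IsCom.of_conj {g : G} (y : G) (h : IsCom (y * g * y⁻¹)) : IsCom g := by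
  have := h.conj y⁻¹
  rwa [show y⁻¹ * (y * g * y⁻¹) * y⁻¹⁻¹ = g by group] at this

theorem isCom_one : IsCom (1 : G) := ⟨1, one_mem _, 1, one_mem _, by group⟩

theorem isCom_of {c y z : G} (hc : c ∈ commutator G) (hy : y ∈ commutator G)
    (hz : z ∈ commutator G) : IsCom (y * c * y⁻¹ * (z * c⁻¹ * z⁻¹)) :=
  IsCom.of_conj z⁻¹ ⟨z⁻¹ * y, mul_mem (inv_mem hz) hy, c, hc, by group⟩

theorem IsCom.map {H : Type*} [Group H] (e : G →* H) {g : G} (h : IsCom g) : IsCom (e g) := by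
  obtain ⟨a, ha, b, hb, rfl⟩ := h
  exact ⟨e a, map_mem_commutator e ha, e b, map_mem_commutator e hb, by simp⟩

theorem exists_conj_of_fpf (N : Subgroup G) [Finite N] {c : G}
    (hN : ∀ v ∈ N, c * v * c⁻¹ ∈ N) (hc : ∀ v ∈ N, v * c = c * v → v = 1) {u : G} (hu : u ∈ N) :
    ∃ v ∈ N, u * c = v * c * v⁻¹ := by
  let f : N → N := fun v => ⟨v * (c * v⁻¹ * c⁻¹), mul_mem v.2 (hN _ (inv_mem v.2))⟩
  have hf : Function.Injective f := by
    intro v w h
    have h1 : (v : G) * (c * v⁻¹ * c⁻¹) = w * (c * w⁻¹ * c⁻¹) := congrArg Subtype.val h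
    have h2 : ((w : G)⁻¹ * v) * c = c * ((w : G)⁻¹ * v) := by
      calc ((w : G)⁻¹ * v) * c = (w : G)⁻¹ * ((v : G) * (c * v⁻¹ * c⁻¹)) * c * v := by
            simp only [Subgroup.coe_inv]; group
        _ = c * ((w : G)⁻¹ * v) := by rw [h1]; simp only [Subgroup.coe_inv]; group
    have h3 := hc _ (mul_mem (inv_mem w.2) v.2) h2
    exact Subtype.ext (inv_mul_eq_one.1 h3).symm
  obtain ⟨v, hv⟩ := Finite.surjective_of_injective hf ⟨u, hu⟩
  have h1 : (v : G) * (c * v⁻¹ * c⁻¹) = u := congrArg Subtype.val hv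
  refine ⟨v, v.2, ?_⟩
  rw [← h1]; simp only [Subgroup.coe_inv]; group

end Grp

section Rad

variable {F V : Type*} [Field F] [AddCommGroup V] [Module F V] {Q : QuadraticForm F V}

/-- The isometries acting trivially on `L` and on `L^⊥ / L`. -/
def rad (Q : QuadraticForm F V) (L : Submodule F V) : Subgroup (O Q) where
  carrier := {v | (∀ x ∈ L, v.1 x = x) ∧ ∀ x ∈ perp Q L, v.1 x - x ∈ L}
  mul_mem' := by
    rintro a b ⟨ha, ha'⟩ ⟨hb, hb'⟩
    refine ⟨fun x hx => by rw [O_mul_apply, hb x hx, ha x hx], fun x hx => ?_⟩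
    have h1 : (a * b).1 x - x = a.1 (b.1 x - x) + (a.1 x - x) := by
      rw [O_mul_apply, map_sub]; abel
    rw [h1, ha _ (hb' x hx)]
    exact L.add_mem (hb' x hx) (ha' x hx)
  one_mem' := ⟨fun _ _ => rfl, fun x _ => by simp [O_one_apply]⟩
  inv_mem' := by
    rintro a ⟨ha, ha'⟩
    have h0 : ∀ x ∈ L, (a⁻¹).1 x = x := fun x hx => by
      conv_lhs => rw [← ha x hx]
      exact O_inv_apply a x
    refine ⟨h0, fun x hx => ?_⟩
    have h1 : (a⁻¹).1 x - x = -((a⁻¹).1 (a.1 x - x)) := by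
      rw [map_sub, O_inv_apply]; abel
    rw [h1, h0 _ (ha' x hx)]
    exact L.neg_mem (ha' x hx)

theorem mem_rad {L : Submodule F V} {v : O Q} :
    v ∈ rad Q L ↔ (∀ x ∈ L, v.1 x = x) ∧ ∀ x ∈ perp Q L, v.1 x - x ∈ L := Iff.rfl

theorem conj_mem_rad {L : Submodule F V} {l : O Q} (hl : ∀ x ∈ L, l.1 x ∈ L)
    (hl' : ∀ x ∈ L, (l⁻¹).1 x ∈ L) {v : O Q} (hv : v ∈ rad Q L) : l * v * l⁻¹ ∈ rad Q L := by
  refine ⟨fun x hx => ?_, fun x hx => ?_⟩
  · rw [O_mul_apply, O_mul_apply, hv.1 _ (hl' x hx), O_apply_inv]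
  · have h1 : (l⁻¹).1 x ∈ perp Q L := mem_perp.2 fun w hw => by
      rw [← O_polar_inv]; exact mem_perp.1 hx _ (hl w hw)
    have h2 : (l * v * l⁻¹).1 x - x = l.1 (v.1 ((l⁻¹).1 x) - (l⁻¹).1 x) := by
      rw [map_sub, O_apply_inv]; rfl
    rw [h2]
    exact hl _ (hv.2 _ h1)

/-- The endomorphism underlying an isometry. -/
abbrev en (g : O Q) : Module.End F V := (g.1 : V →ₗ[F] V)

variable [FiniteDimensional F V]

theorem eq_one_of_rad (hQ : (polarBilin Q).Nondegenerate) {L : Submodule F V}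
    (hL : ∀ x ∈ L, Q x = 0) {l v : O Q} (hv : v ∈ rad Q L) (hc : v * l = l * v) (p h : F[X])
    (h1 : ∀ x ∈ L, aeval (en l) p x = 0)
    (h2 : ∀ x ∈ perp Q L, ∃ x' ∈ perp Q L, x - aeval (en l) p x' ∈ L)
    (h3 : ∀ x, ∃ x', x - aeval (en l) h x' ∈ perp Q L)
    (h4 : ∃ e ∈ L, ∀ x ∈ L, aeval (en l) h x ∈ F ∙ e) : v = 1 := by
  have hcm : ∀ x, mv v (en l x) = en l (mv v x) := fun x => by
    have := congrArg (fun g : O Q => g.1 x) hc
    simp only [O_mul_apply] at this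
    simp [mv_apply, this]
  have hp : ∀ (r : F[X]) x, mv v (aeval (en l) r x) = aeval (en l) r (mv v x) :=
    fun r x => intertwine_aeval (mv v) hcm r x
  have k1 : ∀ x ∈ L, mv v x = 0 := fun x hx => by rw [mv_apply, hv.1 x hx, sub_self]
  have k2 : ∀ x ∈ perp Q L, mv v x = 0 := fun x hx => by
    obtain ⟨x', hx', hxx⟩ := h2 x hx
    have := k1 _ hxx
    rw [map_sub, hp, h1 (mv v x') (hv.2 x' hx'), sub_zero] at this
    exact this
  have k3 : moved v ≤ L := by
    rw [moved_eq_perp hQ, ← perp_perp hQ L]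
    exact perp_anti fun x hx => k2 x hx
  obtain ⟨e, he, h4⟩ := h4
  have k4 : moved v ≤ F ∙ e := by
    rintro _ ⟨x, rfl⟩
    obtain ⟨x', hx⟩ := h3 x
    have := k2 _ hx
    rw [map_sub, hp, sub_eq_zero] at this
    rw [this]
    exact h4 _ (k3 ⟨x', rfl⟩)
  have k5 : finrank F (moved v) ≤ 1 :=
    (Submodule.finrank_mono k4).trans (by
      simpa using (finrank_span_le_card (R := F) ({e} : Set V)))
  rcases Nat.le_one_iff_eq_zero_or_eq_one.1 k5 with k | k
  · exact eq_one_of_moved_eq_bot (Submodule.finrank_eq_zero.1 k)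
  · obtain ⟨z, hz, hz', -⟩ := eq_refl_of_finrank_moved hQ k
    exact absurd (hL z (k3 hz)) hz'

theorem finite_O [Finite F] : Finite (O Q) := by
  have : Finite V := Module.finite_of_finite F
  exact Finite.of_injective (fun g : O Q => (g.1 : V → V)) fun a b h => O_ext fun v => congrFun h v

end Rad

section Model

variable {F U W : Type*} [Field F] [AddCommGroup U] [Module F U] [AddCommGroup W] [Module F W]

/-- The model space. -/
abbrev MV (F U W : Type*) [Field F] [AddCommGroup U] [Module F U] := (U × Dual F U) × W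

/-- The model form. -/
def MQ (U : Type*) [AddCommGroup U] [Module F U] (R : QuadraticForm F W) :
    QuadraticForm F (MV F U W) := (hypQ F U).prod R

variable {R : QuadraticForm F W}

theorem MQ_apply (v : MV F U W) : MQ U R v = v.1.2 v.1.1 + R v.2 := rfl

theorem polar_MQ (v v' : MV F U W) :
    polar (MQ U R) v v' = v.1.2 v'.1.1 + v'.1.2 v.1.1 + polar R v.2 v'.2 := by
  rw [MQ, QuadraticMap.polar_prod, polar_hypQ]

theorem MQ_nondeg (hR : (polarBilin R).Nondegenerate) : (polarBilin (MQ U R)).Nondegenerate :=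
  prod_nondeg hypQ_nondeg hR

/-- The hyperbolic isometry attached to an automorphism of `U`. -/
def hl (s : U ≃ₗ[F] U) : O (hypQ F U) :=
  ⟨s.prodCongr s.symm.dualMap, fun v => by simp [hypQ_apply]⟩

/-- The Levi subgroup. -/
def lev (R : QuadraticForm F W) : (U ≃ₗ[F] U) × O R →* O (MQ U R) where
  toFun x := prodO _ _ (hl x.1, x.2)
  map_one' := O_ext fun _ => rfl
  map_mul' _ _ := O_ext fun _ => rfl

theorem lev_apply (s : U ≃ₗ[F] U) (a : O R) (v : MV F U W) :
    (lev R (s, a)).1 v = ((s v.1.1, s.symm.dualMap v.1.2), a.1 v.2) := rfl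

theorem lev_inv_apply (s : U ≃ₗ[F] U) (a : O R) (v : MV F U W) :
    ((lev R (s, a))⁻¹).1 v = ((s.symm v.1.1, s.dualMap v.1.2), (a⁻¹).1 v.2) := by
  rw [← map_inv]; rfl

variable (F U W) in
/-- The first totally singular subspace. -/
def L1 : Submodule F (MV F U W) where
  carrier := {v | v.1.2 = 0 ∧ v.2 = 0}
  add_mem' := by rintro a b ⟨h1, h2⟩ ⟨h3, h4⟩; simp [h1, h2, h3, h4]
  zero_mem' := ⟨rfl, rfl⟩
  smul_mem' := by rintro c a ⟨h1, h2⟩; simp [h1, h2]

variable (F U W) in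
/-- The second totally singular subspace. -/
def L2 : Submodule F (MV F U W) where
  carrier := {v | v.1.1 = 0 ∧ v.2 = 0}
  add_mem' := by rintro a b ⟨h1, h2⟩ ⟨h3, h4⟩; simp [h1, h2, h3, h4]
  zero_mem' := ⟨rfl, rfl⟩
  smul_mem' := by rintro c a ⟨h1, h2⟩; simp [h1, h2]

theorem mem_L1 {v : MV F U W} : v ∈ L1 F U W ↔ v.1.2 = 0 ∧ v.2 = 0 := Iff.rfl

theorem mem_L2 {v : MV F U W} : v ∈ L2 F U W ↔ v.1.1 = 0 ∧ v.2 = 0 := Iff.rfl

theorem mem_perp_L1 {v : MV F U W} : v ∈ perp (MQ U R) (L1 F U W) ↔ v.1.2 = 0 := by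
  rw [mem_perp]
  refine ⟨fun h => LinearMap.ext fun x => ?_, fun h w hw => ?_⟩
  · simpa [polar_MQ] using h ((x, 0), 0) ⟨rfl, rfl⟩
  · simp [polar_MQ, h, hw.1, hw.2]

theorem mem_perp_L2 {v : MV F U W} : v ∈ perp (MQ U R) (L2 F U W) ↔ v.1.1 = 0 := by
  rw [mem_perp]
  refine ⟨fun h => (Module.forall_dual_apply_eq_zero_iff F _).1 fun φ => ?_, fun h w hw => ?_⟩
  · simpa [polar_MQ] using h ((0, φ), 0) ⟨rfl, rfl⟩
  · simp [polar_MQ, h, hw.1, hw.2]

theorem singular_L1 : ∀ v ∈ L1 F U W, MQ U R v = 0 := fun v hv => by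
  simp [MQ_apply, hv.1, hv.2]

theorem singular_L2 : ∀ v ∈ L2 F U W, MQ U R v = 0 := fun v hv => by
  simp [MQ_apply, hv.1, hv.2]

theorem aeval_lev (s : U ≃ₗ[F] U) (a : O R) (p : F[X]) (v : MV F U W) :
    aeval (en (lev R (s, a))) p v = ((aeval (s : Module.End F U) p v.1.1,
      (aeval (s.symm : Module.End F U) p).dualMap v.1.2), aeval (en a) p v.2) := by
  have h1 := intertwine_aeval (A := en (lev R (s, a))) (B := (s : Module.End F U))
    ((LinearMap.fst F _ _).comp (LinearMap.fst F _ _)) (fun _ => rfl) p v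
  have h2 := intertwine_aeval (A := en (lev R (s, a)))
    (B := ((s.symm : Module.End F U).dualMap : Module.End F (Dual F U)))
    ((LinearMap.snd F _ _).comp (LinearMap.fst F _ _)) (fun _ => rfl) p v
  have h3 := intertwine_aeval (A := en (lev R (s, a))) (B := en a)
    (LinearMap.snd F _ _) (fun _ => rfl) p v
  rw [CL.SpU.aeval_dualMap] at h2
  exact Prod.ext (Prod.ext h1 h2) h3

/-- The polynomial conditions that make a Levi element act without fixed points on both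
unipotent radicals. -/
structure Good (s : U ≃ₗ[F] U) (a : O R) (p h : F[X]) : Prop where
  hp : aeval (s : Module.End F U) p = 0
  hr : ∃ (e : U) (φ : Dual F U), ∀ x, aeval (s : Module.End F U) h x = φ x • e
  hi : IsUnit (aeval (s.symm : Module.End F U) h)
  ha : IsUnit (aeval (en a) p)
  ha' : IsUnit (aeval (en a⁻¹) p)

variable [FiniteDimensional F U] [FiniteDimensional F W]

theorem Good.fpf1 (hR : (polarBilin R).Nondegenerate) {s : U ≃ₗ[F] U} {a : O R} {p h : F[X]}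
    (H : Good s a p h) {v : O (MQ U R)} (hv : v ∈ rad (MQ U R) (L1 F U W))
    (hc : v * lev R (s, a) = lev R (s, a) * v) : v = 1 := by
  refine eq_one_of_rad (MQ_nondeg hR) singular_L1 hv hc p h (fun x hx => ?_) (fun x hx => ?_)
    (fun x => ?_) ?_
  · simp [aeval_lev, H.hp, hx.1, hx.2]
  · obtain ⟨w, hw⟩ := ((Module.End.isUnit_iff _).1 H.ha).2 x.2
    refine ⟨((0, 0), w), mem_perp_L1.2 rfl, ?_⟩
    simp [aeval_lev, mem_L1, mem_perp_L1.1 hx, hw]
  · obtain ⟨φ, hφ⟩ := LinearMap.dualMap_surjective_of_injective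
      ((Module.End.isUnit_iff _).1 H.hi).1 x.1.2
    refine ⟨((0, φ), 0), mem_perp_L1.2 ?_⟩
    simp [aeval_lev, hφ]
  · obtain ⟨e, φ, h⟩ := H.hr
    refine ⟨((e, 0), 0), ⟨rfl, rfl⟩, fun x hx => Submodule.mem_span_singleton.2 ⟨φ x.1.1, ?_⟩⟩
    simp [aeval_lev, h, hx.1, hx.2]

theorem Good.fpf2 (hR : (polarBilin R).Nondegenerate) {s : U ≃ₗ[F] U} {a : O R} {p h : F[X]}
    (H : Good s a p h) {v : O (MQ U R)} (hv : v ∈ rad (MQ U R) (L2 F U W))
    (hc : v * lev R (s, a) = lev R (s, a) * v) : v = 1 := by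
  have hc' : v * lev R (s.symm, a⁻¹) = lev R (s.symm, a⁻¹) * v := by
    have : lev R (s.symm, a⁻¹) = (lev R (s, a))⁻¹ := by rw [← map_inv]; rfl
    rw [this]
    exact (Commute.inv_right (show Commute v _ from hc)).eq
  refine eq_one_of_rad (MQ_nondeg hR) singular_L2 hv hc' p h (fun x hx => ?_) (fun x hx => ?_)
    (fun x => ?_) ?_
  · rw [aeval_lev, LinearEquiv.symm_symm, H.hp]
    refine Prod.ext (Prod.ext ?_ ?_) ?_
    · simp [hx.1]
    · ext y; simp
    · simp [hx.2]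
  · obtain ⟨w, hw⟩ := ((Module.End.isUnit_iff _).1 H.ha').2 x.2
    refine ⟨((0, 0), w), mem_perp_L2.2 rfl, ?_⟩
    simp [aeval_lev, mem_L2, mem_perp_L2.1 hx, hw]
  · obtain ⟨y, hy⟩ := ((Module.End.isUnit_iff _).1 H.hi).2 x.1.1
    refine ⟨((y, 0), 0), mem_perp_L2.2 ?_⟩
    simp [aeval_lev, hy]
  · obtain ⟨e, φ, h⟩ := H.hr
    refine ⟨((0, φ), 0), ⟨rfl, rfl⟩, fun x hx => Submodule.mem_span_singleton.2 ⟨x.1.2 e, ?_⟩⟩
    rw [aeval_lev, LinearEquiv.symm_symm]
    refine Prod.ext (Prod.ext ?_ ?_) ?_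
    · simp [hx.1]
    · ext y
      simp [h, mul_comm]
    · simp [hx.2]

theorem lev_conj_rad1 (x : (U ≃ₗ[F] U) × O R) {v : O (MQ U R)}
    (hv : v ∈ rad (MQ U R) (L1 F U W)) : lev R x * v * (lev R x)⁻¹ ∈ rad (MQ U R) (L1 F U W) := by
  obtain ⟨s, a⟩ := x
  refine conj_mem_rad (fun x hx => ?_) (fun x hx => ?_) hv
  · simp [lev_apply, mem_L1, hx.1, hx.2]
  · rw [lev_inv_apply]; simp [mem_L1, hx.1, hx.2]

theorem lev_conj_rad2 (x : (U ≃ₗ[F] U) × O R) {v : O (MQ U R)}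
    (hv : v ∈ rad (MQ U R) (L2 F U W)) : lev R x * v * (lev R x)⁻¹ ∈ rad (MQ U R) (L2 F U W) := by
  obtain ⟨s, a⟩ := x
  refine conj_mem_rad (fun x hx => ?_) (fun x hx => ?_) hv
  · simp [lev_apply, mem_L2, hx.1, hx.2]
  · rw [lev_inv_apply]; simp [mem_L2, hx.1, hx.2]

variable [Finite F]

theorem Good.conj1 (hR : (polarBilin R).Nondegenerate) {s : U ≃ₗ[F] U} {a : O R} {p h : F[X]}
    (H : Good s a p h) {u : O (MQ U R)} (hu : u ∈ rad (MQ U R) (L1 F U W)) :
    ∃ v ∈ rad (MQ U R) (L1 F U W), u * lev R (s, a) = v * lev R (s, a) * v⁻¹ :=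
  have := finite_O (Q := MQ U R)
  exists_conj_of_fpf _ (fun _ hv => lev_conj_rad1 _ hv) (fun _ hv hc => H.fpf1 hR hv hc) hu

theorem Good.conj2 (hR : (polarBilin R).Nondegenerate) {s : U ≃ₗ[F] U} {a : O R} {p h : F[X]}
    (H : Good s a p h) {u : O (MQ U R)} (hu : u ∈ rad (MQ U R) (L2 F U W)) :
    ∃ v ∈ rad (MQ U R) (L2 F U W), u * lev R (s, a) = v * lev R (s, a) * v⁻¹ :=
  have := finite_O (Q := MQ U R)
  exists_conj_of_fpf _ (fun _ hv => lev_conj_rad2 _ hv) (fun _ hv hc => H.fpf2 hR hv hc) hu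

theorem mem_commutator_of_mul_eq {G : Type*} [Group G] {u c v : G} (h : u * c = v * c * v⁻¹) :
    u ∈ commutator G := by
  have : u = v * c * v⁻¹ * c⁻¹ := by rw [← h]; group
  rw [this, ← commutatorElement_def]
  exact Subgroup.commutator_mem_commutator (Subgroup.mem_top _) (Subgroup.mem_top _)

theorem Good.rad1_le (hR : (polarBilin R).Nondegenerate) {s : U ≃ₗ[F] U} {a : O R} {p h : F[X]}
    (H : Good s a p h) : rad (MQ U R) (L1 F U W) ≤ commutator (O (MQ U R)) := fun _ hu => by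
  obtain ⟨v, -, h⟩ := H.conj1 hR hu
  exact mem_commutator_of_mul_eq h

theorem Good.rad2_le (hR : (polarBilin R).Nondegenerate) {s : U ≃ₗ[F] U} {a : O R} {p h : F[X]}
    (H : Good s a p h) : rad (MQ U R) (L2 F U W) ≤ commutator (O (MQ U R)) := fun _ hu => by
  obtain ⟨v, -, h⟩ := H.conj2 hR hu
  exact mem_commutator_of_mul_eq h

/-- The key step: if the Levi part is `c' * c⁻¹` with `c, c'` good and conjugate under the
commutator subgroup, the element is a commutator. -/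
theorem isCom_of_gauss (hR : (polarBilin R).Nondegenerate) {s s' : U ≃ₗ[F] U} {a a' : O R}
    {p h p' h' : F[X]} (H : Good s a p h) (H' : Good s' a' p' h') {n u c y : O (MQ U R)}
    (hn : n ∈ rad (MQ U R) (L2 F U W)) (hu : u ∈ rad (MQ U R) (L1 F U W))
    (hc : lev R (s', a') ∈ commutator (O (MQ U R))) (hy : y ∈ commutator (O (MQ U R)))
    (hc' : c = lev R (s, a) ∨ c = (lev R (s, a))⁻¹) (hyc : c⁻¹ = y * lev R (s', a') * y⁻¹) :
    IsCom (n * (lev R (s', a') * c) * u) := by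
  obtain ⟨v, hv, h1⟩ := H'.conj2 hR hn
  obtain ⟨w, hw, h2⟩ : ∃ w ∈ rad (MQ U R) (L1 F U W), c * u = w * c * w⁻¹ := by
    rcases hc' with rfl | rfl
    · obtain ⟨w, hw, h2⟩ := H.conj1 hR (lev_conj_rad1 (s, a) hu)
      exact ⟨w, hw, by rw [← h2]; group⟩
    · obtain ⟨w, hw, h2⟩ := H.conj1 hR (inv_mem hu)
      refine ⟨w, hw, ?_⟩
      have := congrArg Inv.inv h2
      simpa [mul_assoc] using this
  have h3 : n * (lev R (s', a') * c) * u =
      v * lev R (s', a') * v⁻¹ * ((w * y) * (lev R (s', a'))⁻¹ * (w * y)⁻¹) := by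
    have h4 : c = y * (lev R (s', a'))⁻¹ * y⁻¹ := by
      rw [← inv_inj, hyc]; group
    calc n * (lev R (s', a') * c) * u = n * lev R (s', a') * (c * u) := by group
      _ = _ := by rw [h1, h2, h4]; group
  rw [h3]
  exact isCom_of hc (H.rad2_le hR hv) (mul_mem (H.rad1_le hR hw) hy)

end Model

end CL.OreO
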