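import Mathlib
import Cfsg.Agent.KSG.OreO1

/-!
Commutators in orthogonal groups, part 2: blocks of an isometry of the model, the Gauss
decomposition, and the effect of Eichler transformations on the blocks.
-/

set_option autoImplicit false
set_option linter.unusedSectionVars false

namespace CL.OreO

open Module QuadraticMap Polynomial CL.Orth CL.GLn

variable {F U W : Type*} [Field F] [AddCommGroup U] [Module F U] [AddCommGroup W] [Module F W]
  {R : QuadraticForm F W}

variable (F W) in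
/-- The inclusion of `U`. -/
def i1 : U →ₗ[F] MV F U W := (LinearMap.inl F _ _).comp (LinearMap.inl F _ _)

theorem i1_apply (x : U) : i1 F W x = ((x, 0), 0) := rfl

/-- The `U → U` block. -/
def bD (g : O (MQ U R)) : U →ₗ[F] U :=
  (LinearMap.fst F _ _).comp ((LinearMap.fst F _ _).comp ((en g).comp (i1 F W)))

/-- The `U → U*` block. -/
def bC (g : O (MQ U R)) : U →ₗ[F] Dual F U :=
  (LinearMap.snd F _ _).comp ((LinearMap.fst F _ _).comp ((en g).comp (i1 F W)))

/-- The `U → W` block. -/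
def bB (g : O (MQ U R)) : U →ₗ[F] W := (LinearMap.snd F _ _).comp ((en g).comp (i1 F W))

theorem apply_i1 (g : O (MQ U R)) (x : U) : g.1 ((x, 0), 0) = ((bD g x, bC g x), bB g x) := rfl

theorem C_D_self (g : O (MQ U R)) (x : U) : bC g x (bD g x) = - R (bB g x) := by
  have := O_map g ((x, 0), 0)
  rw [apply_i1, MQ_apply, MQ_apply] at this
  simp only [LinearMap.zero_apply, QuadraticMap.map_zero, add_zero] at this
  linear_combination this

theorem C_D (g : O (MQ U R)) (x y : U) :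
    bC g x (bD g y) + bC g y (bD g x) + polar R (bB g x) (bB g y) = 0 := by
  have := O_polar g ((x, 0), 0) ((y, 0), 0)
  rw [apply_i1, apply_i1, polar_MQ, polar_MQ] at this
  simpa using this

/-- `a` is the middle part of `g`. -/
def Mid (g : O (MQ U R)) (a : W → W) : Prop :=
  ∀ w, ∃ x φ, g.1 ((x, 0), w) = ((0, φ), a w)

theorem Mid.rel {g : O (MQ U R)} {x : U} {w w' : W} {φ : Dual F U}
    (h : g.1 ((x, 0), w) = ((0, φ), w')) (y : U) : φ (bD g y) + polar R w' (bB g y) = 0 := by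
  have := O_polar g ((x, 0), w) ((y, 0), 0)
  rw [h, apply_i1, polar_MQ, polar_MQ] at this
  simpa using this

theorem rad1_inv_apply {v : O (MQ U R)} (hv : v ∈ rad (MQ U R) (L1 F U W)) (x : U) :
    (v⁻¹).1 ((x, 0), 0) = ((x, 0), 0) := (inv_mem hv).1 _ ⟨rfl, rfl⟩

theorem conj_i1 {v : O (MQ U R)} (hv : v ∈ rad (MQ U R) (L1 F U W)) (g : O (MQ U R)) (x : U) :
    (v * g * v⁻¹).1 ((x, 0), 0) = v.1 ((bD g x, bC g x), bB g x) := by
  rw [O_mul_apply, rad1_inv_apply hv, O_mul_apply, apply_i1]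

theorem Mid.mul_rad {g v : O (MQ U R)} {a : W → W} (h : Mid g a)
    (hv : v ∈ rad (MQ U R) (L1 F U W)) : Mid (g * v⁻¹) a := fun w => by
  obtain ⟨x, φ, hx⟩ := h w
  have h1 := hv.2 ((x, 0), w) (mem_perp_L1.2 rfl)
  refine ⟨(v.1 ((x, 0), w)).1.1, φ, ?_⟩
  have h2 : (((v.1 ((x, 0), w)).1.1, 0), w) = v.1 ((x, 0), w) := by
    refine Prod.ext (Prod.ext rfl ?_) ?_
    · simpa using h1.1.symm
    · exact (sub_eq_zero.1 h1.2).symm
  rw [O_mul_apply, h2, O_inv_apply, hx]

/-- The short root Eichler transformation. -/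
def eS (R : QuadraticForm F W) (e : U) (y : W) : O (MQ U R) :=
  eich (MQ U R) (w := ((e, 0), 0)) (y := ((0, 0), y)) (by simp [MQ_apply]) (by simp [polar_MQ])

theorem eS_apply (e : U) (y : W) (v : MV F U W) : (eS R e y).1 v =
    ((v.1.1 + (polar R y v.2 - R y * v.1.2 e) • e, v.1.2), v.2 - v.1.2 e • y) := by
  rw [eS, eich_apply, polar_MQ, polar_MQ, MQ_apply]
  refine Prod.ext (Prod.ext ?_ ?_) ?_
  · simp [sub_smul, add_sub_assoc]
  · simp
  · simp

theorem eS_mem (e : U) (y : W) : eS R e y ∈ rad (MQ U R) (L1 F U W) := by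
  refine ⟨fun x hx => ?_, fun x hx => ?_⟩
  · rw [eS_apply]
    refine Prod.ext (Prod.ext ?_ ?_) ?_ <;> simp [hx.1, hx.2]
  · rw [eS_apply]
    constructor <;> simp [mem_perp_L1.1 hx]

/-- The long root Eichler transformation. -/
def eL (R : QuadraticForm F W) (e e' : U) : O (MQ U R) :=
  eich (MQ U R) (w := ((e, 0), 0)) (y := ((e', 0), 0)) (by simp [MQ_apply]) (by simp [polar_MQ])

theorem eL_apply (e e' : U) (v : MV F U W) : (eL R e e').1 v =
    ((v.1.1 + v.1.2 e' • e - v.1.2 e • e', v.1.2), v.2) := by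
  rw [eL, eich_apply, polar_MQ, polar_MQ, MQ_apply]
  refine Prod.ext (Prod.ext ?_ ?_) ?_ <;> simp

theorem eL_mem (e e' : U) : eL R e e' ∈ rad (MQ U R) (L1 F U W) := by
  refine ⟨fun x hx => ?_, fun x hx => ?_⟩
  · rw [eL_apply]
    refine Prod.ext (Prod.ext ?_ ?_) ?_ <;> simp [hx.1]
  · rw [eL_apply]
    constructor <;> simp [mem_perp_L1.1 hx]

section Blocks

variable (g : O (MQ U R))

theorem bD_eS (e : U) (y : W) (x : U) : bD (eS R e y * g * (eS R e y)⁻¹) x =
    bD g x + (polar R y (bB g x) - R y * bC g x e) • e := by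
  have := conj_i1 (eS_mem e y) g x
  rw [apply_i1, eS_apply] at this
  exact congrArg (fun v : MV F U W => v.1.1) this

theorem bC_eS (e : U) (y : W) : bC (eS R e y * g * (eS R e y)⁻¹) = bC g := by
  refine LinearMap.ext fun x => ?_
  have := conj_i1 (eS_mem e y) g x
  rw [apply_i1, eS_apply] at this
  exact congrArg (fun v : MV F U W => v.1.2) this

theorem bB_eS (e : U) (y : W) (x : U) : bB (eS R e y * g * (eS R e y)⁻¹) x =
    bB g x - bC g x e • y := by
  have := conj_i1 (eS_mem e y) g x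
  rw [apply_i1, eS_apply] at this
  exact (congrArg (fun v : MV F U W => v.2) this :)

theorem bD_eL (e e' : U) (x : U) : bD (eL R e e' * g * (eL R e e')⁻¹) x =
    bD g x + bC g x e' • e - bC g x e • e' := by
  have := conj_i1 (eL_mem e e') g x
  rw [apply_i1, eL_apply] at this
  exact congrArg (fun v : MV F U W => v.1.1) this

theorem bC_eL (e e' : U) : bC (eL R e e' * g * (eL R e e')⁻¹) = bC g := by
  refine LinearMap.ext fun x => ?_
  have := conj_i1 (eL_mem e e') g x
  rw [apply_i1, eL_apply] at this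
  exact congrArg (fun v : MV F U W => v.1.2) this

theorem bB_eL (e e' : U) : bB (eL R e e' * g * (eL R e e')⁻¹) = bB g := by
  refine LinearMap.ext fun x => ?_
  have := conj_i1 (eL_mem e e') g x
  rw [apply_i1, eL_apply] at this
  exact (congrArg (fun v : MV F U W => v.2) this :)

end Blocks

variable [FiniteDimensional F U]

theorem det_add_smul (D : U →ₗ[F] U) (l : Dual F U) (x₀ : U) {D' : U →ₗ[F] U}
    (h : ∀ x, D' x = D x + l x • D x₀) : LinearMap.det D' = (1 + l x₀) * LinearMap.det D := by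
  have : D' = D ∘ₗ LinearMap.transvection l x₀ := by
    ext x; simp [h, LinearMap.transvection.apply]
  rw [this, LinearMap.det_comp, LinearMap.transvection.det, mul_comm]

theorem det_eS (g : O (MQ U R)) (x₀ : U) (y : W) :
    LinearMap.det (bD (eS R (bD g x₀) y * g * (eS R (bD g x₀) y)⁻¹)) =
      (1 + polar R y (bB g x₀) + R y * R (bB g x₀)) * LinearMap.det (bD g) := by
  rw [det_add_smul (bD g) ((polarBilin R y).comp (bB g) - R y • (bC g).flip (bD g x₀)) x₀
    fun x => by rw [bD_eS]; simp]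
  simp only [LinearMap.sub_apply, LinearMap.comp_apply, polarBilin_apply_apply,
    LinearMap.smul_apply, LinearMap.flip_apply, C_D_self, smul_eq_mul]
  ring

theorem det_eL (g : O (MQ U R)) (x₁ : U) {x₂ : U} (h : bB g x₂ = 0) :
    LinearMap.det (bD (eL R (bD g x₁) (bD g x₂) * g * (eL R (bD g x₁) (bD g x₂))⁻¹)) =
      (1 + bC g x₁ (bD g x₂)) ^ 2 * LinearMap.det (bD g) := by
  have h1 : bC g x₂ (bD g x₂) = 0 := by rw [C_D_self, h]; simp
  have h2 : bC g x₂ (bD g x₁) = - bC g x₁ (bD g x₂) := by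
    have := C_D g x₁ x₂
    rw [h] at this
    simp only [polar_zero_right] at this
    linear_combination this
  have : bD (eL R (bD g x₁) (bD g x₂) * g * (eL R (bD g x₁) (bD g x₂))⁻¹) =
      bD g ∘ₗ LinearMap.transvection ((bC g).flip (bD g x₂)) x₁ ∘ₗ
        LinearMap.transvection (-(bC g).flip (bD g x₁)) x₂ := by
    ext x
    rw [bD_eL]
    simp [LinearMap.transvection.apply, h1, sub_eq_add_neg]
    abel
  rw [this, LinearMap.det_comp, LinearMap.det_comp, LinearMap.transvection.det,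
    LinearMap.transvection.det]
  simp only [LinearMap.flip_apply, LinearMap.neg_apply, h2]
  ring

theorem Mid.eS {g : O (MQ U R)} {a : W → W} (h : Mid g a) (x₀ : U) (y : W)
    (hm : R (bB g x₀) ≠ 0) (hΔ : 1 + polar R y (bB g x₀) + R y * R (bB g x₀) ≠ 0) :
    Mid (eS R (bD g x₀) y * g * (eS R (bD g x₀) y)⁻¹) fun w =>
      (refl R (bB g x₀ + R (bB g x₀) • y)).1 ((refl R (bB g x₀)).1 (a w)) := by
  refine Mid.mul_rad (fun w => ?_) (eS_mem _ _)
  obtain ⟨x, φ, hx⟩ := h w
  have h1 := Mid.rel hx x₀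
  have h2 := C_D_self g x₀
  set m := bB g x₀
  set e := bD g x₀
  set Δ := 1 + polar R y m + R y * R m with hΔ'
  set c := -(polar R y (a w) + R y * polar R (a w) m) / Δ with hc
  refine ⟨x + c • x₀, φ + c • bC g x₀, ?_⟩
  have h3 : g.1 ((x + c • x₀, 0), w) = ((c • e, φ + c • bC g x₀), a w + c • m) := by
    have : (((x + c • x₀, 0), w) : MV F U W) = ((x, 0), w) + c • ((x₀, 0), 0) := by simp
    rw [this, map_add, map_smul, hx, apply_i1]
    simp [e, m]
  have h4 : φ e = - polar R (a w) m := by linear_combination h1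
  rw [O_mul_apply, h3, eS_apply]
  refine Prod.ext (Prod.ext ?_ rfl) ?_
  · simp only [LinearMap.add_apply, LinearMap.smul_apply, h2, h4, smul_eq_mul, polar_add_right,
      polar_smul_right']
    rw [← add_smul]
    have : c + (polar R y (a w) + c * polar R y m - R y * (-polar R (a w) m + c * -R m)) = 0 := by
      rw [hc]; field_simp; rw [hΔ']; ring
    rw [this, zero_smul]
  · have h5 : R (m + R m • y) = R m * Δ := by
      rw [Q_add, Q_smul, polar_smul_right', polar_comm R m y, hΔ']; ring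
    simp only [LinearMap.add_apply, LinearMap.smul_apply, h2, h4, smul_eq_mul, refl_apply, h5,
      polar_add_left, polar_smul_left', polar_sub_right, polar_smul_right', polar_self',
      polar_comm R m (a w)]
    have h6 : ((R m * Δ)⁻¹ * (polar R (a w) m + R m * polar R y (a w) -
        (R m)⁻¹ * polar R (a w) m * (2 * R m + R m * polar R y m))) =
        -c - (R m)⁻¹ * polar R (a w) m := by
      rw [hc]; field_simp; rw [hΔ']; ring
    rw [h6]
    have h7 : (-c - (R m)⁻¹ * polar R (a w) m) * R m = -polar R (a w) m + c * -R m := by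
      field_simp; ring
    rw [smul_add, smul_smul, h7]
    module

theorem Mid.eL {g : O (MQ U R)} {a : W → W} (h : Mid g a) (x₁ : U) {x₂ : U} (h0 : bB g x₂ = 0)
    (hτ : 1 + bC g x₁ (bD g x₂) ≠ 0) :
    Mid (eL R (bD g x₁) (bD g x₂) * g * (eL R (bD g x₁) (bD g x₂))⁻¹) a := by
  refine Mid.mul_rad (fun w => ?_) (eL_mem _ _)
  obtain ⟨x, φ, hx⟩ := h w
  have h1 : bC g x₂ (bD g x₂) = 0 := by rw [C_D_self, h0]; simp
  have h2 : bC g x₂ (bD g x₁) = - bC g x₁ (bD g x₂) := by
    have := C_D g x₁ x₂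
    rw [h0] at this
    simp only [polar_zero_right] at this
    linear_combination this
  have h3 : φ (bD g x₂) = 0 := by simpa [h0] using Mid.rel hx x₂
  set c := φ (bD g x₁) / (1 + bC g x₁ (bD g x₂)) with hc
  refine ⟨x + c • x₂, φ + c • bC g x₂, ?_⟩
  have h4 : g.1 ((x + c • x₂, 0), w) = ((c • bD g x₂, φ + c • bC g x₂), a w) := by
    have : (((x + c • x₂, 0), w) : MV F U W) = ((x, 0), w) + c • ((x₂, 0), 0) := by simp
    rw [this, map_add, map_smul, hx, apply_i1]
    simp [h0]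
  rw [O_mul_apply, h4, eL_apply]
  refine Prod.ext (Prod.ext ?_ rfl) rfl
  simp only [LinearMap.add_apply, LinearMap.smul_apply, h1, h2, h3, smul_eq_mul, mul_zero,
    add_zero, zero_smul]
  rw [← sub_smul]
  have : c - (φ (bD g x₁) + c * -bC g x₁ (bD g x₂)) = 0 := by rw [hc]; field_simp; ring
  rw [this, zero_smul]

variable [FiniteDimensional F W]

theorem exists_O (hR : (polarBilin R).Nondegenerate) {A : W →ₗ[F] W} (hA : ∀ v, R (A v) = R v) :
    ∃ a : O R, ∀ w, a.1 w = A w :=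
  ⟨⟨LinearEquiv.ofInjectiveEndo A (injective_of_isom hR A hA), hA⟩, fun _ => rfl⟩

/-- The element of the opposite radical with given blocks. -/
theorem exists_um (hR : (polarBilin R).Nondegenerate) (β : U →ₗ[F] W) (T : U →ₗ[F] Dual F U)
    (h : ∀ x, T x x = - R (β x)) : ∃ n ∈ rad (MQ U R) (L2 F U W),
      ∀ x, n.1 ((x, 0), 0) = ((x, T x), β x) := by
  let p1 : MV F U W →ₗ[F] U := (LinearMap.fst F _ _).comp (LinearMap.fst F _ _)
  let p2 : MV F U W →ₗ[F] Dual F U := (LinearMap.snd F _ _).comp (LinearMap.fst F _ _)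
  let p3 : MV F U W →ₗ[F] W := LinearMap.snd F _ _
  let A : MV F U W →ₗ[F] MV F U W :=
    (p1.prod (p2 + T.comp p1 - ((polarBilin R).compl₂ β).comp p3)).prod (p3 + β.comp p1)
  have hA : ∀ v, A v = ((v.1.1, v.1.2 + T v.1.1 - (polarBilin R).compl₂ β v.2),
    v.2 + β v.1.1) := fun _ => rfl
  obtain ⟨n, hn⟩ := exists_O (MQ_nondeg (U := U) hR) (A := A) fun v => by
    rw [hA, MQ_apply, MQ_apply, Q_add]
    simp [h]
    ring
  refine ⟨n, ⟨fun x hx => ?_, fun x hx => ?_⟩, fun x => ?_⟩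
  · rw [hn, hA]
    refine Prod.ext (Prod.ext rfl ?_) ?_ <;> simp [hx.1, hx.2]
  · rw [hn, hA]
    constructor <;> simp [mem_perp_L2.1 hx]
  · rw [hn, hA]; simp

theorem exists_mid (hR : (polarBilin R).Nondegenerate) {g : O (MQ U R)}
    (hD : LinearMap.det (bD g) ≠ 0) : ∃ a : O R, Mid g a.1 := by
  let s := LinearMap.equivOfDetNeZero _ hD
  have hs : ∀ x, bD g (s.symm x) = x := fun x => s.apply_symm_apply x
  let i3 : W →ₗ[F] MV F U W := LinearMap.inr F _ _
  let p1 : MV F U W →ₗ[F] U := (LinearMap.fst F _ _).comp (LinearMap.fst F _ _)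
  let j : W →ₗ[F] MV F U W :=
    i3 - (i1 F W).comp ((s.symm : U →ₗ[F] U).comp (p1.comp ((en g).comp i3)))
  have hj : ∀ w, j w = ((-s.symm (g.1 ((0, 0), w)).1.1, 0), w) := fun w => by
    refine Prod.ext (Prod.ext ?_ ?_) ?_ <;> simp [j, i3, p1, i1_apply] <;> rfl
  have h1 : ∀ w, (g.1 (j w)).1.1 = 0 := fun w => by
    have : j w = ((0, 0), w) - ((s.symm (g.1 ((0, 0), w)).1.1, 0), 0) := by rw [hj]; simp
    rw [this, map_sub, apply_i1]
    simp [hs]
  obtain ⟨a, ha⟩ := exists_O hR (A := (LinearMap.snd F _ _).comp ((en g).comp j)) fun w => by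
    have := O_map g (j w)
    rw [MQ_apply, MQ_apply, h1, hj] at this
    simpa [hj] using this
  refine ⟨a, fun w => ⟨-s.symm (g.1 ((0, 0), w)).1.1, (g.1 (j w)).1.2, ?_⟩⟩
  rw [← hj]
  exact Prod.ext (Prod.ext (h1 w) rfl) (ha w).symm

/-- Gauss decomposition. -/
theorem gauss (hR : (polarBilin R).Nondegenerate) {g : O (MQ U R)} {s : U ≃ₗ[F] U}
    (hs : ∀ x, s x = bD g x) {a : O R} (ha : Mid g a.1) :
    ∃ n ∈ rad (MQ U R) (L2 F U W), ∃ u ∈ rad (MQ U R) (L1 F U W), g = n * lev R (s, a) * u := by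
  obtain ⟨n, hn, hn'⟩ := exists_um hR ((bB g).comp (s.symm : U →ₗ[F] U))
    ((bC g).comp (s.symm : U →ₗ[F] U)) fun x => by
      have := C_D_self g (s.symm x)
      rw [← hs, s.apply_symm_apply] at this
      simpa using this
  have h1 : ∀ x, ((lev R (s, a))⁻¹ * n⁻¹ * g).1 ((x, 0), 0) = ((x, 0), 0) := fun x => by
    have : g.1 ((x, 0), 0) = n.1 ((s x, 0), 0) := by
      rw [hn', apply_i1, hs]; simp [← hs]
    rw [O_mul_apply, O_mul_apply, this, O_inv_apply, lev_inv_apply]
    simp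
  refine ⟨n, hn, (lev R (s, a))⁻¹ * n⁻¹ * g, ⟨fun x hx => ?_, fun x hx => ?_⟩, by group⟩
  · obtain ⟨⟨x, φ⟩, w⟩ := x
    obtain ⟨rfl, rfl⟩ : φ = 0 ∧ w = 0 := hx
    exact h1 x
  · obtain ⟨⟨x, φ⟩, w⟩ := x
    obtain rfl : φ = 0 := mem_perp_L1.1 hx
    obtain ⟨y, ψ, hy⟩ := ha w
    have h2 := (inv_mem hn).2 ((0, ψ), a.1 w) (mem_perp_L2.2 rfl)
    have h3 : ((lev R (s, a))⁻¹ * n⁻¹ * g).1 ((y, 0), w) ∈ perp (MQ U R) (L1 F U W) :=
      mem_perp.2 fun z hz => by
        obtain ⟨⟨z, φ⟩, w'⟩ := z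
        obtain ⟨rfl, rfl⟩ : φ = 0 ∧ w' = 0 := hz
        rw [← h1 z, O_polar]
        simp [polar_MQ]
    have h4 : (((lev R (s, a))⁻¹ * n⁻¹ * g).1 ((y, 0), w)).2 = w := by
      rw [O_mul_apply, O_mul_apply, hy, lev_inv_apply]
      have : ((n⁻¹).1 ((0, ψ), a.1 w)).2 = a.1 w := by simpa [sub_eq_zero] using h2.2
      simp only [this, O_inv_apply]
    have h5 : (((x, 0), w) : MV F U W) = ((y, 0), w) + ((x - y, 0), 0) := by simp
    rw [h5, map_add, h1]
    constructor
    · simpa using mem_perp_L1.1 h3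
    · simpa [sub_eq_zero] using h4

end CL.OreO
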