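import Mathlib
import Cfsg.Agent.KSG.OreO2

/-!
Commutators in orthogonal groups, part 3: every non-scalar element of the commutator subgroup is
conjugate to `n * lev (s, 1) * u` with `s` non-scalar of determinant one.
-/

set_option autoImplicit false
set_option linter.unusedSectionVars false

namespace CL.OreO

open Module QuadraticMap Polynomial CL.Orth CL.GLn

variable {F U W : Type*} [Field F] [AddCommGroup U] [Module F U] [AddCommGroup W] [Module F W]
  {R : QuadraticForm F W} [FiniteDimensional F U] [FiniteDimensional F W]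

theorem exists_notMem_span {X : Type*} [AddCommGroup X] [Module F X] [FiniteDimensional F X]
    {N : Submodule F X} (s : Finset X) (h : s.card < finrank F N) :
    ∃ x ∈ N, x ∉ Submodule.span F (s : Set X) := by
  by_contra hc
  push Not at hc
  have := (Submodule.finrank_mono (show N ≤ _ from hc)).trans (finrank_span_finset_le_card s)
  omega

theorem exists_dual_one {x : U} (hx : x ≠ 0) : ∃ φ : Dual F U, φ x = 1 := by
  obtain ⟨φ, hφ⟩ := not_forall.1 (mt (Module.forall_dual_apply_eq_zero_iff F x).1 hx)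
  exact ⟨(φ x)⁻¹ • φ, by simp [hφ]⟩

theorem exists_apply_one {φ : Dual F U} (h : φ ≠ 0) : ∃ x, φ x = 1 :=
  LinearMap.surjective_iff_ne_zero.2 h 1

theorem exists_factor {s : U ≃ₗ[F] U} (hs : LinearMap.det (s : U →ₗ[F] U) = 1)
    (hns : ∀ c : F, (s : Module.End F U) ≠ algebraMap F _ c) {h : F[X]} (hm : h.Monic)
    (hd : h.natDegree + 1 = finrank F U) (h0 : h.coeff 0 ≠ 0) {δ : F} (hδ0 : δ ≠ 0)
    (hδ : h.eval δ ≠ 0) : ∃ Y γ : U ≃ₗ[F] U, Simil (Y : Module.End F U) (cyc (h * (X - C δ))) ∧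
      LinearMap.det (γ : U →ₗ[F] U) = 1 ∧ Y = γ * (s * Y) * γ⁻¹ := by
  have hf := hm.mul (monic_X_sub_C δ)
  have hfd : (h * (X - C δ)).natDegree = h.natDegree + 1 := by
    rw [hm.natDegree_mul (monic_X_sub_C δ), natDegree_X_sub_C]
  have hf0 : (h * (X - C δ)).coeff 0 = h.coeff 0 * -δ := by
    rw [mul_coeff_zero, coeff_sub, coeff_X_zero, coeff_C_zero, zero_sub]
  obtain ⟨Y, h1, h2⟩ := exists_mul_simil_cyc (g := (s : Module.End F U))
    ((Module.End.isUnit_iff _).2 s.bijective) hns hm hd h0 hf (hfd.trans hd) hδ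
    (by rw [hs, hfd, hf0]; ring)
  have hY := (Module.End.isUnit_iff _).1 (h1.isUnit_of_cyc hf (by rw [hf0]; simp [h0, hδ0]))
  obtain ⟨e, he⟩ := h2.trans h1.symm
  have he0 : LinearMap.det (e : U →ₗ[F] U) ≠ 0 := (LinearEquiv.isUnit_det' e).ne_zero
  obtain ⟨c, hc, hc1, hc2⟩ := h1.exists_commute_det_of_cyc_mul hm hδ (inv_ne_zero he0)
  let c' := LinearEquiv.ofBijective c ((Module.End.isUnit_iff _).1 hc)
  refine ⟨LinearEquiv.ofBijective Y hY, c' * e, h1, ?_, ?_⟩
  · have : ((c' * e : U ≃ₗ[F] U) : U →ₗ[F] U) = c ∘ₗ e := rfl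
    rw [this, LinearMap.det_comp, hc2, inv_mul_cancel₀ he0]
  · rw [eq_mul_inv_iff_mul_eq]
    ext v
    have h3 := LinearMap.congr_fun hc1.eq (e v)
    have h4 := he v
    simp only [Module.End.mul_apply] at h3 h4
    change Y (c (e v)) = c (e (s (Y v)))
    rw [← h3, ← h4]
    rfl

theorem map_eq_one_of_det {A : Type*} [CommGroup A] (ψ : (U ≃ₗ[F] U) →* A) (h2 : (2 : F) ≠ 0)
    (hk : 2 ≤ finrank F U) {s : U ≃ₗ[F] U} (hs : LinearMap.det (s : U →ₗ[F] U) = 1) :
    ψ s = 1 := by
  have key : ∀ s : U ≃ₗ[F] U, LinearMap.det (s : U →ₗ[F] U) = 1 →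
      (∀ c : F, (s : Module.End F U) ≠ algebraMap F _ c) → ψ s = 1 := fun s hs hns => by
    obtain ⟨Y, γ, -, -, h⟩ := exists_factor hs hns (h := (X - C 1) ^ (finrank F U - 1))
      ((monic_X_sub_C 1).pow _) (by rw [(monic_X_sub_C (1 : F)).natDegree_pow, natDegree_X_sub_C]; omega)
      (by rw [coeff_zero_eq_eval_zero]; simp) (δ := -1) (by simp)
      (by
        simp only [eval_pow, eval_sub, eval_X, eval_C]
        exact pow_ne_zero _ fun h => h2 (by linear_combination -h))
    have := congrArg ψ h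
    rw [map_mul, map_mul, map_mul, map_inv, mul_inv_cancel_comm] at this
    exact (by simpa using this)
  by_cases hns : ∀ c : F, (s : Module.End F U) ≠ algebraMap F _ c
  · exact key s hs hns
  push Not at hns
  obtain ⟨c, hc⟩ := hns
  obtain ⟨x, -, hx⟩ := exists_notMem_span (F := F) (N := (⊤ : Submodule F U)) ∅ (by simp; omega)
  obtain ⟨y, -, hy⟩ := exists_notMem_span (F := F) (N := (⊤ : Submodule F U)) {x} (by simp; omega)
  have hx0 : x ≠ 0 := by simpa using hx
  obtain ⟨φ, h1, h3⟩ := Submodule.exists_dual_map_eq_bot_of_notMem hy inferInstance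
  have h4 : φ x = 0 := by
    have : φ x ∈ (⊥ : Submodule F F) := h3 ▸ Submodule.mem_map_of_mem (Submodule.subset_span (by simp))
    simpa using this
  have hns : ∀ c : F, ((LinearEquiv.transvection h4 : U ≃ₗ[F] U) : Module.End F U) ≠
      algebraMap F _ c := fun d hd => by
    have k1 := LinearMap.congr_fun hd x
    have k2 := LinearMap.congr_fun hd y
    simp only [LinearEquiv.coe_coe, LinearEquiv.transvection.apply, h4, zero_smul, add_zero,
      Module.algebraMap_end_apply] at k1 k2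
    have : d = 1 := smul_left_injective F hx0 (by simpa using k1.symm)
    simp [this, h1, hx0] at k2
  have hc0 : c ≠ 0 := by
    rintro rfl
    have := LinearMap.congr_fun hc x
    simp [hx0] at this
  have hdet : LinearMap.det ((LinearEquiv.transvection h4 : U ≃ₗ[F] U) : U →ₗ[F] U) = 1 := by
    rw [LinearEquiv.transvection.coe_toLinearMap, LinearMap.transvection.det, h4, add_zero]
  have k1 := key _ hdet hns
  have k2 := key (s * LinearEquiv.transvection h4) (by
    rw [LinearEquiv.coe_toLinearMap_mul, map_mul, hs, hdet, one_mul]) fun d hd => by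
      refine hns (c⁻¹ * d) ?_
      rw [LinearEquiv.coe_toLinearMap_mul, hc] at hd
      rw [map_mul, ← hd, ← mul_assoc, ← map_mul, inv_mul_cancel₀ hc0, map_one, one_mul]
  rwa [map_mul, k1, mul_one] at k2

theorem finrank_hyp : finrank F (U × Dual F U) = 2 * finrank F U := by
  rw [finrank_prod, Subspace.dual_finrank_eq, two_mul]

theorem finrank_MV : finrank F (MV F U W) = 2 * finrank F U + finrank F W := by
  rw [finrank_prod, finrank_hyp]

/-- The hyperbolic embedding as a homomorphism. -/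
def hlHom : (U ≃ₗ[F] U) →* O (hypQ F U) where
  toFun := hl
  map_one' := O_ext fun _ => rfl
  map_mul' _ _ := O_ext fun _ => rfl

variable [Finite F]

theorem dsign_hl (hk : 3 ≤ finrank F U) (s : U ≃ₗ[F] U) : dsign (hl s) = 1 := by
  refine dsign_of_mem_stab_max hypQ_nondeg (Or.inr (by rw [finrank_hyp]; omega)) finrank_hyp
    (U := LinearMap.range (LinearMap.inl F U (Dual F U)))
    (LinearMap.finrank_range_of_inj LinearMap.inl_injective) ?_ (mem_stab_of_mem ?_)
  · rintro _ ⟨x, rfl⟩; simp [hypQ_apply]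
  · rintro _ ⟨x, rfl⟩; exact ⟨s x, by simp [hl]⟩

theorem spin_hl (hk : 3 ≤ finrank F U) (s : U ≃ₗ[F] U) :
    spin (hl s) = sqSign (LinearMap.det (s : U →ₗ[F] U)) := by
  by_cases h2 : (2 : F) = 0
  · rw [spin_of_two_eq_zero h2, sqSign_of_two_eq_zero h2]
  have hF : Nat.card F ≠ 2 ∨ finrank F (U × Dual F U) ≠ 4 := Or.inr (by rw [finrank_hyp]; omega)
  obtain ⟨e, -, he⟩ := exists_notMem_span (F := F) (N := (⊤ : Submodule F U)) ∅ (by simp; omega)
  obtain ⟨φ, hφ⟩ := exists_dual_one (F := F) (x := e) (by simpa using he)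
  set c := LinearMap.det (s : U →ₗ[F] U) with hc
  have hc0 : c ≠ 0 := (LinearEquiv.isUnit_det' s).ne_zero
  have hcomp : ∀ a b : F, a * b = 1 → LinearMap.transvection φ ((a - 1) • e) ∘ₗ
      LinearMap.transvection φ ((b - 1) • e) = LinearMap.id := fun a b hab => by
    ext x
    simp only [LinearMap.comp_apply, LinearMap.transvection.apply, map_add, map_smul, hφ,
      smul_eq_mul, smul_add, smul_smul, LinearMap.id_apply, add_assoc, ← add_smul]
    rw [add_eq_left]
    convert zero_smul F e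
    linear_combination φ x * hab
  let t : U ≃ₗ[F] U := LinearEquiv.ofLinearMap _ _ (hcomp c c⁻¹ (mul_inv_cancel₀ hc0))
    (hcomp c⁻¹ c (inv_mul_cancel₀ hc0))
  have ht : LinearMap.det (t : U →ₗ[F] U) = c := by
    change LinearMap.det (LinearMap.transvection φ ((c - 1) • e)) = c
    rw [LinearMap.transvection.det, map_smul, hφ]; simp
  have h1 : hl t = torus (hypQ F U) (e, 0) (0, φ) c := O_ext fun v => by
    rw [torus_apply (by simp [hypQ_apply]) (by simp [hypQ_apply]) (by simp [polar_hypQ, hφ]) hc0]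
    refine Prod.ext ?_ (LinearMap.ext fun x => ?_)
    · change LinearMap.transvection φ ((c - 1) • e) v.1 = _
      simp [LinearMap.transvection.apply, polar_hypQ, smul_smul, mul_comm]
    · change v.2 (LinearMap.transvection φ ((c⁻¹ - 1) • e) x) = _
      simp [LinearMap.transvection.apply, polar_hypQ]
      ring_nf
  have h3 := map_eq_one_of_det ((spinor hypQ_nondeg hF).comp hlHom) h2 (by omega) (s := s * t⁻¹)
    (by
      have : s = s * t⁻¹ * t := by group
      have h4 : LinearMap.det (s : U →ₗ[F] U) =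
          LinearMap.det ((s * t⁻¹ * t : U ≃ₗ[F] U) : U →ₗ[F] U) := by rw [← this]
      rw [LinearEquiv.coe_toLinearMap_mul, map_mul, ht, ← hc] at h4
      exact (mul_eq_right₀ hc0).1 h4.symm)
  rw [map_mul, map_inv, mul_inv_eq_one] at h3
  change spin (hl s) = spin (hl t) at h3
  rw [h3, h1, spin_torus hypQ_nondeg (by simp [hypQ_apply]) (by simp [hypQ_apply])
    (by simp [polar_hypQ, hφ]) hc0]

theorem dsign_lev (hk : 3 ≤ finrank F U) (s : U ≃ₗ[F] U) (a : O R) :
    dsign (lev R (s, a)) = dsign a := by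
  have := dsign_prodO (hl s) a
  rwa [dsign_hl hk, one_mul] at this

theorem spin_lev (hR : (polarBilin R).Nondegenerate) (hk : 3 ≤ finrank F U) (s : U ≃ₗ[F] U)
    (a : O R) : spin (lev R (s, a)) = sqSign (LinearMap.det (s : U →ₗ[F] U)) * spin a := by
  have := spin_prodO hypQ_nondeg hR (hl s) a
  rwa [spin_hl hk] at this

theorem good_MV (hk : 3 ≤ finrank F U) : Nat.card F ≠ 2 ∨ finrank F (MV F U W) ≠ 4 :=
  Or.inr (by rw [finrank_MV]; omega)

theorem lev_mem_iff (hR : (polarBilin R).Nondegenerate) (hk : 3 ≤ finrank F U) (s : U ≃ₗ[F] U)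
    (a : O R) : lev R (s, a) ∈ commutator (O (MQ U R)) ↔
      dsign a = 1 ∧ sqSign (LinearMap.det (s : U →ₗ[F] U)) * spin a = 1 := by
  rw [mem_commutator_iff (MQ_nondeg hR) (good_MV hk), dsign_lev hk, spin_lev hR hk]

theorem isConj_conj {G : Type*} [Group G] (g y : G) : IsConj g (y * g * y⁻¹) :=
  isConj_iff.2 ⟨y, rfl⟩

theorem eq_zero_of_blocks {g : O (MQ U R)} {x : U} (h1 : bD g x = 0) (h2 : bC g x = 0)
    (h3 : bB g x = 0) : x = 0 := by
  have := apply_i1 g x
  rw [h1, h2, h3] at this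
  exact congrArg (fun v : MV F U W => v.1.1) (g.1.map_eq_zero_iff.1 this)

theorem step_rank (hR : (polarBilin R).Nondegenerate) (han : ∀ w, R w = 0 → w = 0)
    (hk : 3 ≤ finrank F U) {g : O (MQ U R)} (hg : dsign g = 1)
    (hD : LinearMap.ker (bD g) ≠ ⊥) : ∃ g', IsConj g g' ∧ bC g' = bC g ∧
      LinearMap.ker (bD g') < LinearMap.ker (bD g) := by
  have k1 : ∀ x, bD g x = 0 → bB g x = 0 := fun x hx => han _ (by
    have := C_D_self g x
    rw [hx, map_zero] at this
    exact neg_eq_zero.1 this.symm)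
  have k2 : ∀ x, bD g x = 0 → ∀ y, bC g x (bD g y) = 0 := fun x hx y => by
    simpa [hx, k1 x hx] using C_D g x y
  have k3 : ∀ x, bD g x = 0 → x ≠ 0 → ∃ e, bC g x e = 1 := fun x hx h0 =>
    exists_apply_one fun h => h0 (eq_zero_of_blocks hx h (k1 x hx))
  obtain ⟨x₁, hx₁, h0⟩ := (Submodule.ne_bot_iff _).1 hD
  obtain ⟨e₁, he₁⟩ := k3 x₁ hx₁ h0
  rcases subsingleton_or_nontrivial W with hW | hW
  · have hV : finrank F (MV F U W) = 2 * finrank F U := by
      rw [finrank_MV, Module.finrank_zero_of_subsingleton (M := W), add_zero]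
    have hL1 : L1 F U W = LinearMap.range (i1 F W) := by
      ext ⟨⟨x, φ⟩, w⟩
      simp [mem_L1, i1_apply, eq_comm]
    have hi1 : Function.Injective (i1 F W : U →ₗ[F] MV F U W) := fun x y h =>
      congrArg (fun v : MV F U W => v.1.1) h
    have d1 : finrank F (L1 F U W) = finrank F U := by
      rw [hL1, LinearMap.finrank_range_of_inj hi1]
    have d2 : finrank F (L2 F U W) = finrank F U := by
      have := finrank_perp (MQ_nondeg (U := U) hR) (L2 F U W)
      have h1 : perp (MQ U R) (L2 F U W) = L2 F U W := by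
        ext v; rw [mem_perp_L2, mem_L2]; simp [Subsingleton.elim v.2 0]
      rw [h1, hV] at this
      omega
    have d3 : L1 F U W ⊓ L2 F U W = ⊥ := by
      rw [eq_bot_iff]
      rintro ⟨⟨x, φ⟩, w⟩ ⟨⟨h1, h2⟩, h3, -⟩
      exact Prod.ext (Prod.ext h3 h1) h2
    have d4 : (L1 F U W).map (en g) ⊓ L2 F U W =
        (LinearMap.ker (bD g)).map ((en g).comp (i1 F W)) := by
      rw [hL1, ← LinearMap.range_comp]
      apply le_antisymm
      · rintro _ ⟨⟨x, rfl⟩, h, -⟩
        exact ⟨x, h, rfl⟩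
      · rintro _ ⟨x, hx, rfl⟩
        exact ⟨⟨x, rfl⟩, hx, k1 x hx⟩
    have d5 : finrank F ((L1 F U W).map (en g) ⊓ L2 F U W : Submodule F _) =
        finrank F (LinearMap.ker (bD g)) := by
      rw [d4]
      exact (Submodule.equivMapOfInjective ((en g).comp (i1 F W))
        (fun x y h => hi1 (g.1.injective h)) _).finrank_eq.symm
    have e1 := even_three_max (MQ_nondeg (U := U) hR) hV d1 singular_L1
      ((finrank_map_O g _).trans d1) (singular_map g singular_L1) d2 singular_L2
    have e2 := (dsign_eq_one_iff_max (MQ_nondeg (U := U) hR) (good_MV hk) hV d1 singular_L1 g).1 hg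
    rw [d3, finrank_bot, d5] at e1
    have e3 := (LinearMap.ker (bD g)).finrank_le
    have e4 : finrank F (LinearMap.ker (bD g)) ≠ 0 := fun h => hD (Submodule.finrank_eq_zero.1 h)
    obtain ⟨x₂, hx₂, hx₂'⟩ := exists_notMem_span (F := F) (N := LinearMap.ker (bD g)) {x₁} (by
      obtain ⟨a, ha⟩ := e1
      obtain ⟨b, hb⟩ := e2
      simp only [Finset.card_singleton]
      omega)
    have hx₃ : bD g (x₂ - bC g x₂ e₁ • x₁) = 0 := by
      rw [map_sub, map_smul, show bD g x₁ = 0 from hx₁, show bD g x₂ = 0 from hx₂]; simp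
    obtain ⟨e, he⟩ := k3 _ hx₃ fun h => hx₂' (by
      rw [sub_eq_zero.1 h]
      exact Submodule.smul_mem _ _ (Submodule.subset_span (by simp)))
    have a1 : bC g (x₂ - bC g x₂ e₁ • x₁) e₁ = 0 := by simp [he₁]
    generalize x₂ - bC g x₂ e₁ • x₁ = x₃ at hx₃ he a1
    have a2 : bC g x₃ (e - bC g x₁ e • e₁) = 1 := by simp [he, a1]
    have a3 : bC g x₁ (e - bC g x₁ e • e₁) = 0 := by simp [he₁]
    generalize e - bC g x₁ e • e₁ = e₂ at a2 a3
    refine ⟨_, isConj_conj g (eL R e₁ e₂), bC_eL _ _ _, lt_of_le_of_ne (fun x hx => ?_) fun h => ?_⟩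
    · rw [LinearMap.mem_ker, bD_eL] at hx
      have b1 := congrArg (bC g x₁) hx
      have b2 := congrArg (bC g x₃) hx
      simp only [map_sub, map_add, map_smul, k2 x₁ hx₁, k2 x₃ hx₃, he₁, a1, a2, a3, smul_eq_mul,
        map_zero, mul_one, mul_zero, zero_add, sub_zero, add_zero, zero_sub, neg_eq_zero] at b1 b2
      simpa [b1, b2] using hx
    · have h1 : bD g x₁ = 0 := hx₁
      rw [← h, LinearMap.mem_ker, bD_eL, h1, a3, he₁] at hx₁
      have : e₂ = 0 := by simpa using hx₁
      simp [this] at a2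
  · obtain ⟨w, hw⟩ := exists_ne (0 : W)
    have hw' : R w ≠ 0 := fun h => hw (han w h)
    refine ⟨_, isConj_conj g (eS R e₁ w), bC_eS _ _ _, lt_of_le_of_ne (fun x hx => ?_) fun h => ?_⟩
    · rw [LinearMap.mem_ker, bD_eS] at hx
      have b1 := congrArg (bC g x₁) hx
      simp only [map_add, map_smul, k2 x₁ hx₁, he₁, smul_eq_mul, map_zero, mul_one,
        zero_add] at b1
      simpa [b1] using hx
    · have h1 : bD g x₁ = 0 := hx₁
      rw [← h, LinearMap.mem_ker, bD_eS, h1, k1 x₁ h1, he₁] at hx₁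
      have : e₁ = 0 := by simpa [hw'] using hx₁
      simp [this] at he₁

theorem dsign_of_isConj (hR : (polarBilin R).Nondegenerate) (hk : 3 ≤ finrank F U)
    {g g' : O (MQ U R)} (h : IsConj g g') : dsign g' = dsign g :=
  (isConj_iff_eq.1 ((dickson (MQ_nondeg hR) (good_MV hk)).map_isConj h)).symm

theorem step_det (hR : (polarBilin R).Nondegenerate) (han : ∀ w, R w = 0 → w = 0)
    (hk : 3 ≤ finrank F U) {g : O (MQ U R)} (hg : dsign g = 1) :
    ∃ g', IsConj g g' ∧ bC g' = bC g ∧ LinearMap.det (bD g') ≠ 0 := by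
  induction hn : finrank F (LinearMap.ker (bD g)) using Nat.strong_induction_on generalizing g with
  | _ n ih =>
    by_cases hD : LinearMap.ker (bD g) = ⊥
    · exact ⟨g, IsConj.refl g, rfl, ((LinearMap.isUnit_iff_isUnit_det _).1
        ((LinearMap.isUnit_iff_ker_eq_bot _).2 hD)).ne_zero⟩
    · obtain ⟨g', h1, h2, h3⟩ := step_rank hR han hk hg hD
      obtain ⟨g'', h4, h5, h6⟩ := ih _ (hn ▸ Submodule.finrank_lt_finrank_of_lt h3)
        ((dsign_of_isConj hR hk h1).trans hg) rfl
      exact ⟨g'', h1.trans h4, h5.trans h2, h6⟩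

end CL.OreO
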