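import Mathlib
import Cfsg.Agent.KSG.OreO3

/-!
Commutators in orthogonal groups, part 4: the normal form of a non-scalar element of the
commutator subgroup.
-/

set_option autoImplicit false
set_option linter.unusedSectionVars false

namespace CL.OreO

open Module QuadraticMap Polynomial CL.Orth CL.GLn

variable {F U W : Type*} [Field F] [AddCommGroup U] [Module F U] [AddCommGroup W] [Module F W]
  {R : QuadraticForm F W} [FiniteDimensional F U] [FiniteDimensional F W] [Finite F]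

theorem mem_of_isConj {G : Type*} [Group G] {g g' : G} (h : IsConj g g')
    (hg : g ∈ commutator G) : g' ∈ commutator G := by
  obtain ⟨c, rfl⟩ := isConj_iff.1 h
  exact (inferInstance : (commutator G).Normal).conj_mem g hg c

theorem IsCom.of_isConj {G : Type*} [Group G] {g g' : G} (h : IsConj g g') (hg : IsCom g') :
    IsCom g := by
  obtain ⟨c, rfl⟩ := isConj_iff.1 h
  exact hg.of_conj c

theorem signs (hR : (polarBilin R).Nondegenerate) (hk : 3 ≤ finrank F U)
    (h1 : rad (MQ U R) (L1 F U W) ≤ commutator (O (MQ U R)))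
    (h2 : rad (MQ U R) (L2 F U W) ≤ commutator (O (MQ U R))) {g : O (MQ U R)}
    (hg : g ∈ commutator (O (MQ U R))) (hD : LinearMap.det (bD g) ≠ 0) {a : O R}
    (ha : Mid g a.1) : dsign a = 1 ∧ sqSign (LinearMap.det (bD g)) * spin a = 1 := by
  obtain ⟨n, hn, u, hu, h⟩ := gauss hR (s := LinearMap.equivOfDetNeZero _ hD) (fun _ => rfl) ha
  rw [h, Subgroup.mul_mem_cancel_right _ (h1 hu), Subgroup.mul_mem_cancel_left _ (h2 hn),
    lev_mem_iff hR hk] at hg
  exact hg

theorem exists_C_D_ne {g : O (MQ U R)} (hC : bC g ≠ 0) (hD : LinearMap.det (bD g) ≠ 0) :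
    ∃ x y, bC g x (bD g y) ≠ 0 := by
  obtain ⟨x, hx⟩ : ∃ x, bC g x ≠ 0 := by
    by_contra h
    push Not at h
    exact hC (LinearMap.ext h)
  obtain ⟨e, he⟩ := exists_apply_one hx
  obtain ⟨y, rfl⟩ := (LinearMap.equivOfDetNeZero _ hD).surjective e
  exact ⟨x, y, fun h => one_ne_zero (he.symm.trans h)⟩

theorem step_B [Nontrivial W] {g : O (MQ U R)} (hC : bC g ≠ 0) (hD : LinearMap.det (bD g) ≠ 0) :
    ∃ g', IsConj g g' ∧ bC g' = bC g ∧ LinearMap.det (bD g') ≠ 0 ∧ ∃ x, bB g' x ≠ 0 := by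
  by_cases hB : ∃ x, bB g x ≠ 0
  · exact ⟨g, IsConj.refl g, rfl, hD, hB⟩
  push Not at hB
  obtain ⟨x, y, h⟩ := exists_C_D_ne hC hD
  obtain ⟨w, hw⟩ := exists_ne (0 : W)
  refine ⟨_, isConj_conj g (eS R (bD g y) w), bC_eS _ _ _, ?_, x, ?_⟩
  · rw [det_eS, hB]; simpa using hD
  · rw [bB_eS, hB]; simp [h, hw]

theorem step_norm (hR : (polarBilin R).Nondegenerate) (han : ∀ w, R w = 0 → w = 0)
    (hW : finrank F W ≤ 2) (hk : 3 ≤ finrank F U)
    (h1 : rad (MQ U R) (L1 F U W) ≤ commutator (O (MQ U R)))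
    (h2 : rad (MQ U R) (L2 F U W) ≤ commutator (O (MQ U R))) {g : O (MQ U R)}
    (hg : g ∈ commutator (O (MQ U R))) (hC : bC g ≠ 0) (hD : LinearMap.det (bD g) ≠ 0) :
    ∃ g', IsConj g g' ∧ bC g' = bC g ∧ LinearMap.det (bD g') = 1 ∧ Mid g' id := by
  rcases subsingleton_or_nontrivial W with hW' | hW'
  · obtain ⟨a, ha⟩ := exists_mid hR hD
    obtain rfl : a = 1 := O_ext fun _ => Subsingleton.elim _ _
    obtain ⟨-, h3⟩ := signs hR hk h1 h2 hg hD ha
    rw [spin_one, mul_one, sqSign_eq_one_iff] at h3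
    obtain ⟨ρ, hρ⟩ := h3
    have hρ0 : ρ ≠ 0 := by rintro rfl; simp [hρ] at hD
    obtain ⟨x, y, h⟩ := exists_C_D_ne hC hD
    have h4 : 1 + bC g x (bD g (((ρ⁻¹ - 1) / bC g x (bD g y)) • y)) = ρ⁻¹ := by
      rw [map_smul, map_smul, smul_eq_mul, div_mul_cancel₀ _ h]; ring
    refine ⟨_, isConj_conj g (eL R (bD g x) (bD g (((ρ⁻¹ - 1) / bC g x (bD g y)) • y))),
      bC_eL _ _ _, ?_, Mid.eL ha x (Subsingleton.elim _ _) (by rw [h4]; exact inv_ne_zero hρ0)⟩
    rw [det_eL _ _ (Subsingleton.elim _ _), h4, hρ]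
    field_simp
  · obtain ⟨g₁, c1, c2, c3, x, hx⟩ := step_B hC hD
    obtain ⟨a, ha⟩ := exists_mid hR c3
    obtain ⟨h3, h4⟩ := signs hR hk h1 h2 (mem_of_isConj c1 hg) c3 ha
    have hm : R (bB g₁ x) ≠ 0 := fun h => hx (han _ h)
    set m := bB g₁ x
    have h5 := dsign_refl_mul hR a hm
    have h6 : finrank F (moved (refl R m * a)) = 1 := by
      have := (moved (refl R m * a)).finrank_le
      have h7 : ¬ Even (finrank F (moved (refl R m * a))) := fun h => by
        rw [dsign_eq_one_iff.2 h, h3] at h5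
        exact absurd h5 (by decide)
      rw [Nat.not_even_iff_odd] at h7
      obtain ⟨j, hj⟩ := h7
      omega
    obtain ⟨z, -, hz, h7⟩ := eq_refl_of_finrank_moved hR h6
    have h8 := spin_refl_mul hR a hm
    rw [h7, spin_refl hR hz] at h8
    obtain ⟨t, ht, ht'⟩ := exists_mul_self_mul_eq (mul_ne_zero c3 hz) hm (by
      rw [sqSign_mul c3 hz, h8, mul_left_comm, h4, mul_one])
    have h9 : m + R m • ((R m)⁻¹ • (t • z - m)) = t • z := by
      rw [smul_smul, mul_inv_cancel₀ hm, one_smul]; abel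
    have h10 : (1 + polar R ((R m)⁻¹ • (t • z - m)) m + R ((R m)⁻¹ • (t • z - m)) * R m) *
        LinearMap.det (bD g₁) = 1 := by
      have := congrArg R h9
      rw [Q_add, Q_smul, polar_smul_right', Q_smul R t, polar_comm R m] at this
      apply mul_left_cancel₀ hm
      linear_combination LinearMap.det (bD g₁) * this + ht'
    refine ⟨_, c1.trans (isConj_conj g₁ (eS R (bD g₁ x) ((R m)⁻¹ • (t • z - m)))),
      (bC_eS _ _ _).trans c2, by rw [det_eS, h10], ?_⟩
    have h11 := Mid.eS ha x ((R m)⁻¹ • (t • z - m)) hm (left_ne_zero_of_mul_eq_one h10)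
    convert h11 using 1
    funext w
    rw [h9, refl_smul ht, ← O_mul_apply (refl R m), h7, refl_refl_apply]
    rfl

theorem step_ns (han : ∀ w, R w = 0 → w = 0) (hW : finrank F W ≤ 2) (hk : 3 ≤ finrank F U)
    {g : O (MQ U R)} (hC : bC g ≠ 0) (hD : LinearMap.det (bD g) = 1) (hM : Mid g id) :
    ∃ g', IsConj g g' ∧ LinearMap.det (bD g') = 1 ∧ Mid g' id ∧
      ∀ c : F, bD g' ≠ algebraMap F (Module.End F U) c := by
  by_cases hns : ∀ c : F, bD g ≠ algebraMap F (Module.End F U) c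
  · exact ⟨g, IsConj.refl g, hD, hM, hns⟩
  push Not at hns
  obtain ⟨z, hz⟩ := hns
  have hz' : ∀ x, bD g x = z • x := fun x => by rw [hz]; rfl
  have hD0 : LinearMap.det (bD g) ≠ 0 := hD ▸ one_ne_zero
  obtain ⟨x₂, hx₂, hx₂'⟩ := exists_notMem_span (F := F) (N := LinearMap.ker (bB g)) ∅ (by
    have := (bB g).finrank_range_add_finrank_ker
    have := (LinearMap.range (bB g)).finrank_le
    simp only [Finset.card_empty]; omega)
  have h0 : x₂ ≠ 0 := by simpa using hx₂'
  have hz0 : z ≠ 0 := by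
    rintro rfl
    exact h0 ((LinearMap.equivOfDetNeZero _ hD0).map_eq_zero_iff.1 (by
      simpa using hz' x₂))
  obtain ⟨x₁, h1, h2⟩ : ∃ x₁, bC g x₁ x₂ = 0 ∧ ∃ x, bC g x x₂ • x₁ ≠ bC g x x₁ • x₂ := by
    by_cases hψ : ∀ x, bC g x x₂ = 0
    · obtain ⟨x, y, h⟩ := exists_C_D_ne hC hD0
      exact ⟨bD g y, hψ _, x, by rw [hψ, zero_smul]; exact (smul_ne_zero h h0).symm⟩
    · push Not at hψ
      obtain ⟨x, hx⟩ := hψ
      obtain ⟨x₁, h1, h2⟩ := exists_notMem_span (F := F) (N := LinearMap.ker ((bC g).flip x₂))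
        {x₂} (by
          have := ((bC g).flip x₂).finrank_range_add_finrank_ker
          have := (LinearMap.range ((bC g).flip x₂)).finrank_le
          simp only [Finset.card_singleton, finrank_self] at this ⊢
          omega)
      refine ⟨x₁, h1, x, fun h => h2 ?_⟩
      have : x₁ = (bC g x x₂)⁻¹ • bC g x x₁ • x₂ := by rw [← h, smul_smul, inv_mul_cancel₀ hx, one_smul]
      rw [this]
      exact Submodule.smul_mem _ _ (Submodule.smul_mem _ _ (Submodule.subset_span (by simp)))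
  have h3 : bC g x₁ (bD g x₂) = 0 := by rw [hz', map_smul, h1, smul_zero]
  refine ⟨_, isConj_conj g (eL R (bD g x₁) (bD g x₂)), by rw [det_eL _ _ hx₂, h3, hD]; simp,
    Mid.eL hM x₁ hx₂ (by rw [h3]; simp), fun c hc => ?_⟩
  have h4 : ∀ x, (c - z) • x = (z * z) • (bC g x x₂ • x₁ - bC g x x₁ • x₂) := fun x => by
    have := bD_eL g (bD g x₁) (bD g x₂) x
    rw [hc, Module.algebraMap_end_apply] at this
    simp only [hz', map_smul, smul_eq_mul, smul_smul] at this
    rw [sub_smul, this]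
    module
  classical
  obtain ⟨y, -, hy⟩ := exists_notMem_span (F := F) (N := (⊤ : Submodule F U)) {x₁, x₂} (by
    have := Finset.card_le_two (a := x₁) (b := x₂)
    simp only [finrank_top]; omega)
  have h5 : c - z = 0 := by
    by_contra h
    apply hy
    rw [← one_smul F y, ← inv_mul_cancel₀ h, mul_smul, h4]
    refine Submodule.smul_mem _ _ (Submodule.smul_mem _ _ (Submodule.sub_mem _ ?_ ?_)) <;>
      exact Submodule.smul_mem _ _ (Submodule.subset_span (by simp))
  obtain ⟨x, hx⟩ := h2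
  have := h4 x
  rw [h5, zero_smul, eq_comm, smul_eq_zero, sub_eq_zero] at this
  exact this.elim (mul_ne_zero hz0 hz0) hx

theorem eq_smul_of_C (hR : (polarBilin R).Nondegenerate) (han : ∀ w, R w = 0 → w = 0)
    {g : O (MQ U R)} (h : ∀ g', IsConj g g' → bC g' = 0) {v : MV F U W} (hv0 : v ≠ 0)
    (hv : MQ U R v = 0) [Nontrivial U] : ∃ c : F, g.1 v = c • v := by
  have key : ∀ g', IsConj g g' → ∀ x, g'.1 ((x, 0), 0) = ((bD g' x, 0), 0) := fun g' hg' x => by
    have h1 := C_D_self g' x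
    rw [h g' hg'] at h1
    rw [apply_i1, h g' hg', han (bB g' x) (by simpa using h1.symm)]
    rfl
  obtain ⟨e, he⟩ := exists_ne (0 : U)
  obtain ⟨y, hy⟩ := witt_vector (MQ_nondeg (U := U) hR) (x := v) (y := ((e, 0), 0)) hv0
    (fun h => he (congrArg (fun v : MV F U W => v.1.1) h)) (by simp [hv, MQ_apply])
  have h1 := key _ (isConj_conj g y) e
  set x := bD (y * g * y⁻¹) e
  by_cases hx : x ∈ F ∙ e
  · obtain ⟨c, hc⟩ := Submodule.mem_span_singleton.1 hx
    refine ⟨c, y.1.injective ?_⟩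
    rw [← hy, O_mul_apply, O_inv_apply, O_mul_apply] at h1
    rw [h1, map_smul, hy, ← hc]
    simp
  · obtain ⟨φ, h2, h3⟩ := Submodule.exists_dual_map_eq_bot_of_notMem hx inferInstance
    have h4 : φ e = 0 := by
      have : φ e ∈ (⊥ : Submodule F F) :=
        h3 ▸ Submodule.mem_map_of_mem (Submodule.mem_span_singleton_self e)
      simpa using this
    let r := refl (MQ U R) ((x, φ), 0)
    have h5 : r.1 ((e, 0), 0) = ((e, 0), 0) := refl_of_polar_eq_zero (by simp [polar_MQ, h4])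
    have h6 := key _ ((isConj_conj g y).trans (isConj_conj _ r)) e
    rw [O_mul_apply, refl_inv, h5, O_mul_apply, h1, refl_apply] at h6
    have h7 := congrArg (fun v : MV F U W => v.1.2 x) h6
    simp [polar_MQ, MQ_apply, h2] at h7

theorem eigen_eq {X : Type*} [AddCommGroup X] [Module F X] {f : X →ₗ[F] X} {u v : X} {a b d : F}
    (h1 : f u = a • u) (h2 : f v = b • v) (h3 : f (u + v) = d • (u + v)) (h4 : u ∉ F ∙ v)
    (h5 : v ≠ 0) : b = a := by
  rw [map_add, h1, h2, smul_add] at h3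
  have h6 : (a - d) • u = (d - b) • v := by
    rw [sub_smul, sub_smul, sub_eq_sub_iff_add_eq_add, h3, add_comm]
  have h7 : a - d = 0 := by
    by_contra h7
    apply h4
    rw [← one_smul F u, ← inv_mul_cancel₀ h7, mul_smul, h6]
    exact Submodule.smul_mem _ _ (Submodule.smul_mem _ _ (Submodule.mem_span_singleton_self v))
  rw [h7, zero_smul, eq_comm, smul_eq_zero] at h6
  have := h6.resolve_right h5
  linear_combination -h7 - this

theorem eq_of_C (hR : (polarBilin R).Nondegenerate) (han : ∀ w, R w = 0 → w = 0)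
    (hk : 2 ≤ finrank F U) {g : O (MQ U R)} (h : ∀ g', IsConj g g' → bC g' = 0) :
    g = 1 ∨ g = negOne (MQ U R) := by
  have : Nontrivial U := Module.nontrivial_of_finrank_pos (R := F) (by omega)
  have key := fun v hv0 hv => eq_smul_of_C hR han h (v := v) hv0 hv
  obtain ⟨e, he⟩ := exists_ne (0 : U)
  obtain ⟨c, hc⟩ := key ((e, 0), 0) (fun h => he (congrArg (fun v : MV F U W => v.1.1) h))
    (by simp [MQ_apply])
  have two := fun {u v : MV F U W} {a b d : F} => eigen_eq (f := en g) (u := u) (v := v) (a := a)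
    (b := b) (d := d)
  have k1 : ∀ x, g.1 ((x, 0), 0) = c • ((x, 0), 0) := fun x => by
    by_cases hx : x ∈ F ∙ e
    · obtain ⟨a, rfl⟩ := Submodule.mem_span_singleton.1 hx
      have : (((a • e, 0), 0) : MV F U W) = a • ((e, 0), 0) := by simp
      rw [this, map_smul, hc, smul_comm]
    · have hx0 : x ≠ 0 := fun h => hx (h ▸ Submodule.zero_mem _)
      obtain ⟨a, ha⟩ := key ((x, 0), 0) (fun h => hx0 (congrArg (fun v : MV F U W => v.1.1) h))
        (by simp [MQ_apply])
      obtain ⟨d, hd⟩ := key (((x, 0), 0) + ((e, 0), 0)) (fun h => hx (by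
        have : x + e = 0 := congrArg (fun v : MV F U W => v.1.1) h
        rw [eq_neg_of_add_eq_zero_left this]
        exact Submodule.neg_mem _ (Submodule.mem_span_singleton_self e))) (by simp [MQ_apply])
      rw [two ha hc hd (fun h => hx ?_) (fun h => he (congrArg (fun v : MV F U W => v.1.1) h)), ha]
      obtain ⟨b, hb⟩ := Submodule.mem_span_singleton.1 h
      exact Submodule.mem_span_singleton.2 ⟨b, congrArg (fun v : MV F U W => v.1.1) hb⟩
  have k2 : ∀ φ : Dual F U, g.1 ((0, φ), 0) = c • ((0, φ), 0) := fun φ => by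
    by_cases hφ : φ = 0
    · subst hφ
      change g.1 0 = c • 0
      simp
    obtain ⟨x, hx, hx'⟩ := exists_notMem_span (F := F) (N := LinearMap.ker φ) ∅ (by
      have := finrank_ker_dual_add_one hφ
      simp only [Finset.card_empty]; omega)
    have hx0 : x ≠ 0 := by simpa using hx'
    have hφ' : (((0, φ), 0) : MV F U W) ≠ 0 := fun h => hφ (congrArg (fun v : MV F U W => v.1.2) h)
    obtain ⟨a, ha⟩ := key ((0, φ), 0) hφ' (by simp [MQ_apply])
    obtain ⟨d, hd⟩ := key (((x, 0), 0) + ((0, φ), 0))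
      (fun h => hx0 (by simpa using congrArg (fun v : MV F U W => v.1.1) h))
      (by simpa [MQ_apply] using hx)
    rw [← two (k1 x) ha hd (fun h => hx0 ?_) hφ', ha]
    obtain ⟨b, hb⟩ := Submodule.mem_span_singleton.1 h
    simpa using (congrArg (fun v : MV F U W => v.1.1) hb).symm
  obtain ⟨φ, hφ⟩ := exists_dual_one (F := F) he
  have k3 : c * c = 1 := by
    have := O_polar g ((e, 0), 0) ((0, φ), 0)
    rw [k1, k2, polar_smul_left', polar_smul_right', polar_MQ] at this
    simpa [hφ] using this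
  have k4 : ∀ w : W, g.1 ((0, 0), w) = c • ((0, 0), w) := fun w => by
    obtain ⟨d, hd⟩ := key ((e, -R w • φ), w)
      (fun h => he (congrArg (fun v : MV F U W => v.1.1) h)) (by simp [MQ_apply, hφ])
    have h1 : (((0, 0), w) : MV F U W) = ((e, -R w • φ), w) - ((e, 0), 0) - ((0, -R w • φ), 0) := by
      simp
    have h2 := O_polar g ((0, φ), 0) ((e, -R w • φ), w)
    rw [k2, hd, polar_smul_left', polar_smul_right', polar_MQ] at h2
    have h3 : d = c := by
      simp only [hφ, map_zero, polar_zero_left, add_zero, mul_one] at h2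
      linear_combination c * h2 - d * k3
    rw [h1, map_sub, map_sub, hd, k1, k2, h3, smul_sub, smul_sub]
  have k5 : ∀ v, g.1 v = c • v := fun ⟨⟨x, φ⟩, w⟩ => by
    have : (((x, φ), w) : MV F U W) = ((x, 0), 0) + ((0, φ), 0) + ((0, 0), w) := by simp
    rw [this, map_add, map_add, k1, k2, k4, smul_add, smul_add]
  rcases mul_self_eq_one_iff.1 k3 with rfl | rfl
  · exact Or.inl (O_ext fun v => by rw [k5, one_smul]; rfl)
  · exact Or.inr (O_ext fun v => by rw [k5, negOne_apply]; exact neg_one_smul F v)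

theorem normal_form (hR : (polarBilin R).Nondegenerate) (han : ∀ w, R w = 0 → w = 0)
    (hW : finrank F W ≤ 2) (hk : 3 ≤ finrank F U)
    (h1 : rad (MQ U R) (L1 F U W) ≤ commutator (O (MQ U R)))
    (h2 : rad (MQ U R) (L2 F U W) ≤ commutator (O (MQ U R))) {g : O (MQ U R)}
    (hg : g ∈ commutator (O (MQ U R))) (hg1 : g ≠ 1) (hg2 : g ≠ negOne (MQ U R)) :
    ∃ s : U ≃ₗ[F] U, LinearMap.det (s : U →ₗ[F] U) = 1 ∧
      (∀ c : F, (s : Module.End F U) ≠ algebraMap F _ c) ∧
      ∃ n ∈ rad (MQ U R) (L2 F U W), ∃ u ∈ rad (MQ U R) (L1 F U W),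
        IsConj g (n * lev R (s, 1) * u) := by
  obtain ⟨g₀, c0, hC⟩ : ∃ g₀, IsConj g g₀ ∧ bC g₀ ≠ 0 := by
    by_contra h
    push Not at h
    exact (eq_of_C hR han (by omega) h).elim hg1 hg2
  have hg₀ := mem_of_isConj c0 hg
  obtain ⟨g₁, c1, d1, e1⟩ := step_det hR han hk
    ((mem_commutator_iff (MQ_nondeg hR) (good_MV hk) _).1 hg₀).1
  obtain ⟨g₂, c2, d2, e2, f2⟩ := step_norm hR han hW hk h1 h2 (mem_of_isConj c1 hg₀) (d1 ▸ hC) e1
  obtain ⟨g₃, c3, e3, f3, h3⟩ := step_ns han hW hk (d2 ▸ d1 ▸ hC) e2 f2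
  have e4 : LinearMap.det (bD g₃) ≠ 0 := e3 ▸ one_ne_zero
  obtain ⟨n, hn, u, hu, h⟩ := gauss hR (s := LinearMap.equivOfDetNeZero _ e4) (fun _ => rfl)
    (a := 1) f3
  exact ⟨LinearMap.equivOfDetNeZero _ e4, e3, h3, n, hn, u, hu,
    h ▸ ((c0.trans c1).trans c2).trans c3⟩

end CL.OreO
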