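import Mathlib
import Cfsg.Agent.KSG.OreO4

/-!
Commutators in orthogonal groups, part 5: good Levi elements from primitive polynomials, the
exceptional case of `GL₃(2)`, and the non-scalar elements of the model.
-/

set_option autoImplicit false
set_option linter.unusedSectionVars false

namespace CL.OreO

open Module QuadraticMap Polynomial CL.Orth CL.GLn

variable {F U W : Type*} [Field F] [AddCommGroup U] [Module F U] [AddCommGroup W] [Module F W]
  {R : QuadraticForm F W} [FiniteDimensional F U] [FiniteDimensional F W]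

/-- A monic irreducible polynomial whose roots are not closed under inversion. -/
structure Prim (h : F[X]) (d : ℕ) : Prop where
  monic : h.Monic
  irred : Irreducible h
  deg : h.natDegree = d
  inv : ∀ r : F[X], h ∣ X * r - 1 → ¬ h ∣ h.comp r

theorem exists_prim_aux {K : Type*} [Field K] [Algebra F K] [Finite K] [Finite F] {d : ℕ}
    (hd : finrank F K = d) (hq : 5 ≤ Nat.card K) :
    ∃ h : F[X], Prim h d ∧ (Nat.card F ≠ 2 → (-1) ^ d * h.coeff 0 ≠ 1) := by
  classical
  have : FiniteDimensional F K := Module.Finite.of_finite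
  obtain ⟨ζ, hζ⟩ := IsCyclic.exists_monoid_generator (α := Kˣ)
  have hpow : ∀ c : K, c ≠ 0 → ∃ n : ℕ, (ζ : K) ^ n = c := fun c hc => by
    obtain ⟨n, hn⟩ := hζ (Units.mk0 c hc)
    exact ⟨n, by simpa using congrArg Units.val hn⟩
  have hi : IsIntegral F (ζ : K) := IsIntegral.of_finite F _
  have htop : Algebra.adjoin F {(ζ : K)} = ⊤ := by
    rw [eq_top_iff]
    intro c _
    by_cases hc : c = 0
    · rw [hc]; exact Subalgebra.zero_mem _
    · obtain ⟨n, rfl⟩ := hpow c hc
      exact Subalgebra.pow_mem _ (Algebra.self_mem_adjoin_singleton F _) n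
  let pb := PowerBasis.ofAdjoinEqTop hi htop
  have hdim : (minpoly F (ζ : K)).natDegree = d :=
    (pb.finrank.symm.trans hd :)
  refine ⟨minpoly F (ζ : K), ⟨minpoly.monic hi, minpoly.irreducible hi, hdim, fun r h1 h2 => ?_⟩,
    fun hF h => ?_⟩
  · have h3 : (ζ : K) * aeval (ζ : K) r = 1 := by
      have := aeval_eq_zero_of_dvd_aeval_eq_zero h1 (minpoly.aeval F (ζ : K))
      simpa [sub_eq_zero] using this
    have h4 := aeval_eq_zero_of_dvd_aeval_eq_zero h2 (minpoly.aeval F (ζ : K))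
    rw [aeval_comp] at h4
    obtain ⟨σ, hσ⟩ := minpoly.exists_algEquiv_of_root' hi.isAlgebraic h4
    have h5 : ∀ c : K, c ≠ 0 → c * σ c = 1 := fun c hc => by
      obtain ⟨n, rfl⟩ := hpow c hc
      rw [map_pow, hσ, ← mul_pow, h3, one_pow]
    have := Fintype.ofFinite K
    have h6 : (X * (X + 1) * (X ^ 2 + X + 1) : K[X]) = 0 := by
      refine eq_zero_of_natDegree_lt_card_of_eval_eq_zero _ Function.injective_id (fun c => ?_) ?_
      · simp only [id, eval_mul, eval_add, eval_X, eval_one, eval_pow, mul_eq_zero]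
        by_contra hc
        push Not at hc
        have a1 := h5 c hc.1.1
        have a2 := h5 _ hc.1.2
        rw [map_add, map_one] at a2
        exact hc.2 (by linear_combination c * a2 - (c + 1) * a1)
      · rw [Fintype.card_eq_nat_card]
        refine lt_of_le_of_lt ?_ (show 4 < _ from hq)
        compute_degree
    have h7 : (X * (X + 1) * (X ^ 2 + X + 1) : K[X]).Monic := by monicity!
    exact h7.ne_zero h6
  · have h1 : Algebra.norm F (ζ : K) = 1 := by
      rw [← h, ← hdim]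
      exact Algebra.PowerBasis.norm_gen_eq_coeff_zero_minpoly pb
    obtain ⟨a, ha0, ha1⟩ := exists_ne_zero_one_of_card hF
    obtain ⟨c, hc⟩ := FiniteField.norm_surjective F K a
    have hc0 : c ≠ 0 := by rintro rfl; exact ha0 (by simpa using hc.symm)
    obtain ⟨n, rfl⟩ := hpow c hc0
    rw [map_pow, h1, one_pow] at hc
    exact ha1 hc.symm

theorem exists_prim [Finite F] {d : ℕ} (hd : 1 ≤ d) (hq : 5 ≤ Nat.card F ^ d) :
    ∃ h : F[X], Prim h d ∧ (Nat.card F ≠ 2 → (-1) ^ d * h.coeff 0 ≠ 1) := by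
  obtain ⟨p, hp⟩ := CharP.exists F
  have := Fact.mk (CharP.char_is_prime F p)
  have : NeZero d := ⟨by omega⟩
  exact exists_prim_aux (FiniteField.finrank_extension F p d)
    (by rwa [FiniteField.natCard_extension])

theorem Prim.eval_ne {h : F[X]} {d : ℕ} (H : Prim h d) (hd : 2 ≤ d) (c : F) : h.eval c ≠ 0 :=
  fun hc => by
    have := degree_eq_one_of_irreducible_of_root H.irred hc
    rw [degree_eq_natDegree H.monic.ne_zero, H.deg] at this
    have : d = 1 := by exact_mod_cast this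
    omega

theorem isUnit_aeval {A : Module.End F U} {f g : F[X]} (hf : aeval A f = 0) (h : IsCoprime g f) :
    IsUnit (aeval A g) := by
  obtain ⟨u, v, huv⟩ := h
  have := congrArg (aeval A) huv
  rw [map_add, map_mul, map_mul, hf, mul_zero, add_zero, map_one] at this
  exact IsUnit.of_mul_eq_one_right _ this

theorem Prim.good {h : F[X]} {d : ℕ} (H : Prim h d) (hd : 2 ≤ d) {δ : F} (hδ : δ ≠ 0)
    {Y : U ≃ₗ[F] U} (hY : Simil (Y : Module.End F U) (cyc (h * (X - C δ)))) {a : O R}
    (ha : IsUnit (aeval (en a) (h * (X - C δ)))) (ha' : IsUnit (aeval (en a⁻¹) (h * (X - C δ)))) :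
    Good Y a (h * (X - C δ)) h := by
  have h0 := hY.aeval_cyc_self
  refine ⟨h0, ?_, ?_, ha, ha'⟩
  · obtain ⟨e, he⟩ := hY
    have h1 : ∀ x, ∃ c : F, aeval (Y : Module.End F U) h x = c • e.symm (AdjoinRoot.mk _ h) := by
      intro x
      obtain ⟨P, hP⟩ := AdjoinRoot.mk_surjective (e x)
      refine ⟨P.eval δ, e.injective ?_⟩
      have := intertwine_aeval (A := (Y : Module.End F U)) (B := cyc (h * (X - C δ)))
        (e : U →ₗ[F] AdjoinRoot (h * (X - C δ))) he h x
      simp only [LinearEquiv.coe_coe] at this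
      rw [this, aeval_cyc_apply, map_smul, e.apply_symm_apply, ← hP, ← map_mul, Algebra.smul_def,
        AdjoinRoot.algebraMap_eq, ← AdjoinRoot.mk_C, ← map_mul, AdjoinRoot.mk_eq_mk, mul_comm (C _),
        ← mul_sub]
      exact mul_dvd_mul_left h (X_sub_C_dvd_sub_C_eval)
    generalize e.symm (AdjoinRoot.mk _ h) = e₀ at h1
    by_cases he₀ : e₀ = 0
    · exact ⟨0, 0, fun x => by obtain ⟨c, hc⟩ := h1 x; simp [hc, he₀]⟩
    · obtain ⟨φ, hφ⟩ := exists_dual_one (F := F) he₀
      refine ⟨e₀, φ.comp (aeval (Y : Module.End F U) h), fun x => ?_⟩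
      obtain ⟨c, hc⟩ := h1 x
      simp [hc, hφ]
  · have h1 : IsCoprime X (h * (X - C δ)) := by
      rw [irreducible_X.coprime_iff_not_dvd, X_dvd_iff, coeff_zero_eq_eval_zero]
      simp [H.eval_ne hd, hδ]
    obtain ⟨r, v, hrv⟩ := h1
    have h2 : h * (X - C δ) ∣ X * r - 1 := ⟨-v, by linear_combination hrv⟩
    have h3 : (Y.symm : Module.End F U) = aeval (Y : Module.End F U) r := by
      have := congrArg (aeval (Y : Module.End F U)) hrv
      rw [map_add, map_mul, map_mul, h0, mul_zero, add_zero, map_one, aeval_X] at this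
      ext x
      have := LinearMap.congr_fun this (Y.symm x)
      simpa using this.symm
    rw [h3, ← aeval_comp]
    refine isUnit_aeval h0 (IsCoprime.mul_right ?_ ?_)
    · exact (H.irred.coprime_iff_not_dvd.2 (H.inv r ((dvd_mul_right _ _).trans h2))).symm
    · refine ((irreducible_X_sub_C δ).coprime_iff_not_dvd.2 ?_).symm
      rw [dvd_iff_isRoot, IsRoot, eval_comp]
      exact H.eval_ne hd _

theorem isUnit_aeval_one {p : F[X]} (h : p.eval 1 ≠ 0) : IsUnit (aeval (en (1 : O R)) p) := by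
  have : en (1 : O R) = algebraMap F (Module.End F W) 1 := by rw [map_one]; rfl
  rw [this, aeval_algebraMap_apply_eq_algebraMap_eval]
  exact h.isUnit.map _

variable [Finite F]

theorem simil_of_conj {s t γ : U ≃ₗ[F] U} (h : t = γ * s * γ⁻¹) :
    Simil (s : Module.End F U) (t : Module.End F U) :=
  ⟨γ, fun v => by rw [h]; simp⟩

/-- The generic case. -/
theorem isCom_model_of_prim (hR : (polarBilin R).Nondegenerate) (han : ∀ w, R w = 0 → w = 0)
    (hW : finrank F W ≤ 2) (hk : 3 ≤ finrank F U) {h : F[X]} (H : Prim h (finrank F U - 1))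
    {δ : F} (hδ : (-1) ^ h.natDegree * h.coeff 0 * δ = 1) {a : O R} (ha1 : dsign a = 1)
    (ha2 : spin a = 1) (ha : IsUnit (aeval (en a) (h * (X - C δ))))
    (ha' : IsUnit (aeval (en a⁻¹) (h * (X - C δ)))) {g : O (MQ U R)}
    (hg : g ∈ commutator (O (MQ U R))) (hg1 : g ≠ 1) (hg2 : g ≠ negOne (MQ U R)) : IsCom g := by
  have hd : 2 ≤ finrank F U - 1 := by omega
  have hδ0 : δ ≠ 0 := right_ne_zero_of_mul_eq_one hδ
  have h0 : h.coeff 0 ≠ 0 := by rw [coeff_zero_eq_eval_zero]; exact H.eval_ne hd 0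
  have hf := H.monic.mul (monic_X_sub_C δ)
  have hfd : (h * (X - C δ)).natDegree = h.natDegree + 1 := by
    rw [H.monic.natDegree_mul (monic_X_sub_C δ), natDegree_X_sub_C]
  have hf0 : (-1) ^ (h * (X - C δ)).natDegree * (h * (X - C δ)).coeff 0 = 1 := by
    rw [hfd, mul_coeff_zero, coeff_sub, coeff_X_zero, coeff_C_zero, zero_sub]
    linear_combination hδ
  obtain ⟨Y₀, hY₀⟩ : ∃ Y₀ : U ≃ₗ[F] U, Simil (Y₀ : Module.End F U) (cyc (h * (X - C δ))) := by
    have := finiteDimensional_adjoinRoot hf.ne_zero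
    let e : AdjoinRoot (h * (X - C δ)) ≃ₗ[F] U := LinearEquiv.ofFinrankEq _ _ (by
      rw [finrank_adjoinRoot, hfd, H.deg]; omega)
    have h1 := (simil_conj (cyc (h * (X - C δ))) e).symm
    exact ⟨LinearEquiv.ofBijective _ ((Module.End.isUnit_iff _).1 (h1.isUnit_of_cyc hf
      (right_ne_zero_of_mul_eq_one hf0))), h1⟩
  have G₀ := H.good hd hδ0 hY₀ ha ha'
  obtain ⟨s, hs, hns, n, hn, u, hu, hc⟩ := normal_form hR han hW hk (G₀.rad1_le hR)
    (G₀.rad2_le hR) hg hg1 hg2
  obtain ⟨Y, γ, h1, h2, h3⟩ := exists_factor hs hns H.monic (by rw [H.deg]; omega) h0 hδ0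
    (H.eval_ne hd δ)
  have h4 := (simil_of_conj h3).trans h1
  refine IsCom.of_isConj hc ?_
  have h5 : lev R (s, 1) = lev R (s * Y, a) * (lev R (Y, a))⁻¹ := by
    rw [← map_inv, ← map_mul]; simp
  rw [h5]
  refine isCom_of_gauss hR (H.good hd hδ0 h1 ha ha') (H.good hd hδ0 h4 ha ha') hn hu
    ((lev_mem_iff hR hk _ _).2 ⟨ha1, by rw [h4.det_of_cyc hf, hf0, sqSign_one, ha2, one_mul]⟩)
    ((lev_mem_iff hR hk γ 1).2 ⟨dsign_one, by rw [h2, sqSign_one, spin_one, one_mul]⟩)
    (Or.inr rfl) ?_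
  rw [inv_inv, ← map_inv, ← map_mul, ← map_mul]
  congr 1
  exact Prod.ext h3 (by simp)

theorem eq_zero_or_one (hF : Nat.card F = 2) (c : F) : c = 0 ∨ c = 1 := by
  by_contra h
  push Not at h
  have := Fintype.ofFinite F
  classical
  have h1 : ({0, 1, c} : Finset F).card = 3 := by
    rw [Finset.card_insert_of_notMem (by simp [h.1.symm]),
      Finset.card_insert_of_notMem (by simp [h.2.symm]), Finset.card_singleton]
  have h2 := Finset.card_le_univ ({0, 1, c} : Finset F)
  rw [Fintype.card_eq_nat_card] at h2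
  omega

theorem two_eq_zero (hF : Nat.card F = 2) : (2 : F) = 0 := by
  by_contra h
  exact card_ne_two_of_two_ne_zero h hF

theorem exists_rot (hF : Nat.card F = 2) (han : ∀ w, R w = 0 → w = 0) (hW : finrank F W = 2)
    (hR : (polarBilin R).Nondegenerate) :
    ∃ a : O R, dsign a = 1 ∧ aeval (en a) (X ^ 2 + X + 1 : F[X]) = 0 := by
  have h2 := two_eq_zero hF
  let b := finBasisOfFinrankEq F W hW
  have h1 : ∀ w, w ≠ 0 → R w = 1 := fun w hw =>
    (eq_zero_or_one hF _).resolve_left fun h => hw (han w h)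
  have hu := h1 _ (b.ne_zero 0)
  have hv := h1 _ (b.ne_zero 1)
  have huv : polar R (b 0) (b 1) = 1 := by
    have := h1 (b 0 + b 1) fun h => by
      have := congrArg (fun w => b.repr w 0) h
      simp at this
    rw [Q_add, hu, hv] at this
    linear_combination this - h2
  have hvu : polar R (b 1) (b 0) = 1 := by rw [polar_comm, huv]
  have k : ∀ w : W, w + w = 0 := fun w => by rw [← two_smul F w, h2, zero_smul]
  have n : ∀ w : W, -w = w := fun w => neg_eq_of_add_eq_zero_left (k w)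
  have a0 : (refl R (b 0) * refl R (b 1)).1 (b 0) = b 1 := by
    simp [O_mul_apply, refl_apply, hu, hv, huv, hvu, polar_self', h2, sub_eq_add_neg, n]
    linear_combination (norm := abel1) k (b 0)
  have a1 : (refl R (b 0) * refl R (b 1)).1 (b 1) = b 1 + b 0 := by
    simp [O_mul_apply, refl_apply, hu, hv, huv, polar_self', h2, sub_eq_add_neg, n]
  refine ⟨refl R (b 0) * refl R (b 1), by
    rw [dsign_refl_mul hR _ (hu ▸ one_ne_zero), dsign_refl hR (hv ▸ one_ne_zero), neg_neg], ?_⟩
  generalize refl R (b 0) * refl R (b 1) = a at a0 a1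
  refine b.ext fun i => ?_
  fin_cases i
  · simp [pow_two, a0, a1]
    linear_combination (norm := abel1) k (b 0) + k (b 1)
  · simp [pow_two, a0, a1]
    linear_combination (norm := abel1) k (b 0) + k (b 1) + k (b 1)

/-- Witnesses for the exceptional case. -/
def L7 : List (Matrix (Fin 3) (Fin 3) (ZMod 2)) :=
  [!![0,0,1;0,1,1;1,1,1], !![1,1,0;1,1,1;0,1,0], !![1,1,1;1,0,0;1,0,1], !![0,0,1;1,0,0;1,1,0],
    !![0,1,1;1,1,0;1,1,1], !![1,0,1;1,1,0;0,1,0], !![1,1,0;0,1,1;1,0,0], !![0,0,1;1,1,0;0,1,1],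
    !![0,1,0;1,1,1;0,1,1], !![0,1,1;0,0,1;1,0,0], !![0,0,1;1,0,1;0,1,0], !![0,1,0;0,0,1;1,1,0],
    !![0,1,0;1,0,1;1,0,0], !![0,1,1;1,0,0;0,1,0], !![1,0,1;0,0,1;1,1,1], !![1,0,1;1,0,0;0,1,1],
    !![1,1,0;0,0,1;1,0,1]]

/-- The equation `x ^ 3 + x + 1 = 0`. -/
def P7 {A : Type*} [Ring A] (x : A) : Prop := x * x * x + x + 1 = 0

instance (x : Matrix (Fin 3) (Fin 3) (ZMod 2)) : Decidable (P7 x) :=
  inferInstanceAs (Decidable (x * x * x + x + 1 = 0))

theorem L7_spec : ∀ a b c d e f g h i : ZMod 2,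
    a * e * i - a * f * h - b * d * i + b * f * g + c * d * h - c * e * g ≠ 0 →
    ∃ x ∈ L7, P7 x ∧ (P7 (!![a,b,c;d,e,f;g,h,i] * x) ∨ P7 (!![a,b,c;d,e,f;g,h,i] * (x * x + 1))) := by
  decide +kernel

theorem P7.map {A B : Type*} [Ring A] [Ring B] (φ : A ≃+* B) {x : A} (h : P7 x) : P7 (φ x) := by
  have := congrArg φ h
  simpa [P7] using this

theorem exists_P7 (hF : Nat.card F = 2) (hU : finrank F U = 3) {D : Module.End F U}
    (hD : IsUnit D) : ∃ x : Module.End F U, P7 x ∧ (P7 (D * x) ∨ P7 (D * (x * x + 1))) := by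
  have := Fintype.ofFinite F
  let φ : ZMod 2 ≃+* F := ZMod.ringEquivOfPrime F Nat.prime_two (Fintype.card_eq_nat_card.trans hF)
  let Ψ : Matrix (Fin 3) (Fin 3) (ZMod 2) ≃+* Module.End F U :=
    φ.mapMatrix.trans (Matrix.toLinAlgEquiv (finBasisOfFinrankEq F U hU)).toRingEquiv
  obtain ⟨M, rfl⟩ := Ψ.surjective D
  have h1 : IsUnit M := by simpa using hD.map Ψ.symm
  have h2 := ((Matrix.isUnit_iff_isUnit_det _).1 h1).ne_zero
  rw [Matrix.det_fin_three] at h2
  obtain ⟨x, -, h3, h4⟩ := L7_spec _ _ _ _ _ _ _ _ _ h2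
  rw [← Matrix.eta_fin_three M] at h4
  refine ⟨Ψ x, h3.map Ψ, h4.imp (fun h => ?_) fun h => ?_⟩
  · simpa using h.map Ψ
  · simpa using h.map Ψ

theorem aeval_of_P7 {x : Module.End F U} (h : P7 x) : aeval x (X ^ 3 + X + 1 : F[X]) = 0 := by
  simpa [pow_succ, P7] using h

theorem simil_of_P7 (hF : Nat.card F = 2) (hU : finrank F U = 3) {x : Module.End F U} (h : P7 x) :
    Simil x (cyc (X ^ 3 + X + 1 : F[X])) := by
  have h2 := two_eq_zero hF
  have hd : (X ^ 3 + X + 1 : F[X]).natDegree = 3 := by compute_degree!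
  have hi : Irreducible (X ^ 3 + X + 1 : F[X]) :=
    irreducible_of_degree_le_three_of_not_isRoot (by rw [hd]; simp) fun c hc => by
      rcases eq_zero_or_one hF c with rfl | rfl
      · simp at hc
      · simp only [IsRoot, eval_add, eval_pow, eval_X, eval_one, one_pow] at hc
        exact one_ne_zero (by linear_combination hc - h2)
  have : Nontrivial U := Module.nontrivial_of_finrank_pos (R := F) (by omega)
  obtain ⟨a, ha⟩ := exists_ne (0 : U)
  refine simil_cyc_of_vector (a := a) (by monicity!) (hd.trans hU.symm) fun P => ⟨fun hP => ?_, ?_⟩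
  · by_contra hc
    have := isUnit_aeval (aeval_of_P7 h) (hi.coprime_iff_not_dvd.2 hc).symm
    exact ha (((Module.End.isUnit_iff _).1 this).1 (hP.trans (map_zero _).symm))
  · rintro ⟨Q, rfl⟩
    rw [mul_comm, map_mul, aeval_of_P7 h, mul_zero, LinearMap.zero_apply]

theorem good_of_P7 (h2 : (2 : F) = 0) {s : U ≃ₗ[F] U} (h : P7 (s : Module.End F U)) :
    Good s (1 : O R) (X ^ 3 + X + 1) (X ^ 3 + X + 1) := by
  have h1 : IsUnit (aeval (en (1 : O R)) (X ^ 3 + X + 1 : F[X])) := isUnit_aeval_one (by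
    simp only [eval_add, eval_pow, eval_X, eval_one, one_pow]
    exact fun h => one_ne_zero (by linear_combination h - h2))
  refine ⟨aeval_of_P7 h, ⟨0, 0, fun x => by simp [aeval_of_P7 h]⟩, ?_, h1, by simpa using h1⟩
  have h3 : aeval (s.symm : Module.End F U) (X ^ 3 + X + 1 : F[X]) = s := by
    ext x
    have k : ∀ w : U, w + w = 0 := fun w => by rw [← two_smul F w, h2, zero_smul]
    have a1 := LinearMap.congr_fun h (s.symm (s.symm x))
    have a2 := LinearMap.congr_fun h (s.symm (s.symm (s.symm x)))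
    simp only [LinearMap.add_apply, Module.End.mul_apply, LinearEquiv.coe_coe,
      LinearEquiv.apply_symm_apply, Module.End.one_apply, LinearMap.zero_apply] at a1 a2
    simp only [map_add, pow_succ, pow_zero, one_mul, map_mul, aeval_X, map_one,
      LinearMap.add_apply, Module.End.mul_apply, LinearEquiv.coe_coe, Module.End.one_apply]
    have b1 := k (s.symm (s.symm x))
    have b2 := k (s x)
    linear_combination (norm := abel1) a1 + a2 - b1 - b2
  rw [h3]
  exact (Module.End.isUnit_iff _).2 s.bijective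

theorem exists_swap (hR : (polarBilin R).Nondegenerate) {s s' : U ≃ₗ[F] U}
    (h : Simil (s' : Module.End F U) (s : Module.End F U)) :
    ∃ y : O (MQ U R), (lev R (s, 1))⁻¹ = y * lev R (s', 1) * y⁻¹ := by
  obtain ⟨e, he⟩ := (CL.SpU.simil_dualMap (s' : Module.End F U)).trans h
  let p1 : MV F U W →ₗ[F] U := (LinearMap.fst F _ _).comp (LinearMap.fst F _ _)
  let p2 : MV F U W →ₗ[F] Dual F U := (LinearMap.snd F _ _).comp (LinearMap.fst F _ _)
  let p3 : MV F U W →ₗ[F] W := LinearMap.snd F _ _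
  let A : MV F U W →ₗ[F] MV F U W :=
    (((e : Dual F U →ₗ[F] U).comp p2).prod ((e.symm : U →ₗ[F] Dual F U).flip.comp p1)).prod p3
  have hA : ∀ v, A v = ((e v.1.2, (e.symm : U →ₗ[F] Dual F U).flip v.1.1), v.2) := fun _ => rfl
  obtain ⟨y, hy⟩ := exists_O (MQ_nondeg (U := U) hR) (A := A) fun v => by
    rw [hA, MQ_apply, MQ_apply]; simp
  refine ⟨y, ?_⟩
  rw [eq_mul_inv_iff_mul_eq]
  refine O_ext fun v => ?_
  rw [O_mul_apply, O_mul_apply, lev_inv_apply, hy, hy, hA, hA, lev_apply]
  refine Prod.ext (Prod.ext ?_ (LinearMap.ext fun z => ?_)) rfl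
  · rw [LinearEquiv.symm_apply_eq]
    refine Eq.trans ?_ (he (s'.symm.dualMap v.1.2))
    refine congrArg e (LinearMap.ext fun z => ?_)
    simp
  · have := he (e.symm z)
    rw [e.apply_symm_apply, ← LinearEquiv.eq_symm_apply] at this
    have h1 := LinearMap.congr_fun this v.1.1
    simpa using h1.symm

/-- The exceptional case `Ω₈⁻(2)`. -/
theorem isCom_model_exc (hR : (polarBilin R).Nondegenerate) (han : ∀ w, R w = 0 → w = 0)
    (hW : finrank F W = 2) (hF : Nat.card F = 2) (hU : finrank F U = 3) {g : O (MQ U R)}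
    (hg : g ∈ commutator (O (MQ U R))) (hg1 : g ≠ 1) (hg2 : g ≠ negOne (MQ U R)) : IsCom g := by
  have h2 := two_eq_zero hF
  have hk : 3 ≤ finrank F U := hU.ge
  have hu : ∀ x : Module.End F U, P7 x → ∃ s : U ≃ₗ[F] U, (s : Module.End F U) = x := fun x hx =>
    ⟨LinearEquiv.ofBijective x ((Module.End.isUnit_iff _).1 ((simil_of_P7 hF hU hx).isUnit_of_cyc
      (by monicity!) (by simp))), rfl⟩
  have hmem : ∀ s : U ≃ₗ[F] U, lev R (s, 1) ∈ commutator (O (MQ U R)) := fun s =>
    (lev_mem_iff hR hk _ _).2 ⟨dsign_one, by rw [sqSign_of_two_eq_zero h2, spin_one, one_mul]⟩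
  obtain ⟨x₀, hx₀, -⟩ := exists_P7 hF hU (D := 1) isUnit_one
  obtain ⟨s₀, rfl⟩ := hu x₀ hx₀
  have G₀ := good_of_P7 (R := R) h2 hx₀
  obtain ⟨s, -, -, n, hn, u, hu', hc⟩ := normal_form hR han hW.le hk (G₀.rad1_le hR)
    (G₀.rad2_le hR) hg hg1 hg2
  refine IsCom.of_isConj hc ?_
  obtain ⟨x, hx, h⟩ := exists_P7 hF hU (D := (s : Module.End F U))
    ((Module.End.isUnit_iff _).2 s.bijective)
  obtain ⟨t, rfl⟩ := hu x hx
  rcases h with h | h
  · have h' : P7 ((s * t : U ≃ₗ[F] U) : Module.End F U) := h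
    obtain ⟨γ, hγ⟩ := (simil_of_P7 hF hU h').trans (simil_of_P7 hF hU hx).symm
    have h5 : lev R (s, 1) = lev R (s * t, 1) * (lev R (t, 1))⁻¹ := by
      rw [← map_inv, ← map_mul]; simp
    rw [h5]
    refine isCom_of_gauss hR (good_of_P7 h2 hx) (good_of_P7 h2 h') hn hu' (hmem _) (hmem γ)
      (Or.inr rfl) ?_
    rw [inv_inv, ← map_inv, ← map_mul, ← map_mul]
    congr 1
    refine Prod.ext ?_ (by simp)
    change t = γ * (s * t) * γ⁻¹
    rw [eq_mul_inv_iff_mul_eq]
    ext v
    exact (hγ v).symm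
  · have h1 : ((t⁻¹ : U ≃ₗ[F] U) : Module.End F U) =
        (t : Module.End F U) * (t : Module.End F U) + 1 := by
      ext v
      have a1 := LinearMap.congr_fun hx (t.symm v)
      have k : t.symm v + t.symm v = 0 := by rw [← two_smul F, h2, zero_smul]
      simp only [LinearMap.add_apply, Module.End.mul_apply, LinearEquiv.coe_coe,
        LinearEquiv.apply_symm_apply, Module.End.one_apply, LinearMap.zero_apply] at a1 ⊢
      change t.symm v = _
      linear_combination (norm := abel1) k - a1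
    have h' : P7 ((s * t⁻¹ : U ≃ₗ[F] U) : Module.End F U) := by
      rw [LinearEquiv.coe_toLinearMap_mul, h1]; exact h
    obtain ⟨y, hy⟩ := exists_swap hR ((simil_of_P7 hF hU h').trans (simil_of_P7 hF hU hx).symm)
    have : Nontrivial W := Module.nontrivial_of_finrank_pos (R := F) (by omega)
    obtain ⟨w, hw⟩ := exists_ne (0 : W)
    have hw' : R w ≠ 0 := fun h => hw (han w h)
    obtain ⟨y', hy1, hy2⟩ : ∃ y' ∈ commutator (O (MQ U R)),
        (lev R (t, 1))⁻¹ = y' * lev R (s * t⁻¹, 1) * y'⁻¹ := by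
      have hm := mem_commutator_iff (MQ_nondeg (U := U) hR) (good_MV hk)
      rcases Int.units_eq_one_or (dsign y) with h3 | h3
      · exact ⟨y, (hm _).2 ⟨h3, spin_of_two_eq_zero h2 _⟩, hy⟩
      · refine ⟨y * lev R (1, refl R w), (hm _).2 ⟨?_, spin_of_two_eq_zero h2 _⟩, ?_⟩
        · rw [dsign_mul (MQ_nondeg hR) (good_MV hk), h3, dsign_lev hk, dsign_refl hR hw']; simp
        · have : lev R ((1 : U ≃ₗ[F] U), refl R w) * lev R (s * t⁻¹, 1) *
              (lev R ((1 : U ≃ₗ[F] U), refl R w))⁻¹ = lev R (s * t⁻¹, 1) := by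
            rw [← map_inv, ← map_mul, ← map_mul]; simp
          rw [hy]
          conv_lhs => rw [← this]
          group
    have h5 : lev R (s, 1) = lev R (s * t⁻¹, 1) * lev R (t, 1) := by
      rw [← map_mul]; simp
    rw [h5]
    exact isCom_of_gauss hR (good_of_P7 h2 hx) (good_of_P7 h2 h') hn hu' (hmem _) hy1
      (Or.inl rfl) hy2

theorem isCom_model (hR : (polarBilin R).Nondegenerate) (han : ∀ w, R w = 0 → w = 0)
    (hW : finrank F W ≤ 2) (hV : 7 ≤ 2 * finrank F U + finrank F W) {g : O (MQ U R)}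
    (hg : g ∈ commutator (O (MQ U R))) (hg1 : g ≠ 1) (hg2 : g ≠ negOne (MQ U R)) : IsCom g := by
  have hk : 3 ≤ finrank F U := by omega
  have hq : 2 ≤ Nat.card F := Finite.one_lt_card
  by_cases hF : Nat.card F = 2
  · have h2 := two_eq_zero hF
    have he := even_finrank_of_two_eq_zero hR h2
    by_cases hx : finrank F W = 2 ∧ finrank F U = 3
    · exact isCom_model_exc hR han hx.1 hF hx.2 hg hg1 hg2
    have hk4 : 4 ≤ finrank F U := by obtain ⟨j, hj⟩ := he; omega
    obtain ⟨h, H, -⟩ := exists_prim (F := F) (d := finrank F U - 1) (by omega) (by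
      rw [hF]
      exact le_trans (by norm_num) (Nat.pow_le_pow_right two_pos (show 3 ≤ _ by omega)))
    have h1 : (-1) ^ h.natDegree * h.coeff 0 * 1 = 1 := by
      rw [mul_one]
      refine (eq_zero_or_one hF _).resolve_left (mul_ne_zero (by simp) ?_)
      rw [coeff_zero_eq_eval_zero]
      exact H.eval_ne (by omega) 0
    by_cases hW2 : finrank F W = 2
    · obtain ⟨a, ha1, ha2⟩ := exists_rot hF han hW2 hR
      have hc : IsCoprime (h * (X - C 1)) (X ^ 2 + X + 1) := by
        refine IsCoprime.mul_left (H.irred.coprime_iff_not_dvd.2 fun hd => ?_)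
          ((irreducible_X_sub_C 1).coprime_iff_not_dvd.2 ?_)
        · have hm : (X ^ 2 + X + 1 : F[X]).Monic := by monicity!
          have := natDegree_le_of_dvd hd hm.ne_zero
          rw [H.deg, show (X ^ 2 + X + 1 : F[X]).natDegree = 2 by compute_degree!] at this
          omega
        · rw [dvd_iff_isRoot]
          simp only [IsRoot, eval_add, eval_pow, eval_X, eval_one, one_pow]
          exact fun h => one_ne_zero (by linear_combination h - h2)
      refine isCom_model_of_prim hR han hW hk H h1 ha1 (spin_of_two_eq_zero h2 _)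
        (isUnit_aeval ha2 hc) (isUnit_aeval ?_ hc) hg hg1 hg2
      ext w
      have := LinearMap.congr_fun ha2 ((a⁻¹).1 ((a⁻¹).1 w))
      simp only [map_add, pow_two, map_mul, aeval_X, map_one, LinearMap.add_apply,
        Module.End.mul_apply, LinearEquiv.coe_coe, O_apply_inv, Module.End.one_apply,
        LinearMap.zero_apply] at this ⊢
      rw [← this]; abel
    · have hW0 : finrank F W = 0 := by obtain ⟨j, hj⟩ := he; omega
      have : Subsingleton W := Module.finrank_zero_iff.1 hW0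
      exact isCom_model_of_prim hR han hW hk H h1 dsign_one spin_one
        (isUnit_of_subsingleton _) (isUnit_of_subsingleton _) hg hg1 hg2
  · obtain ⟨h, H, hν⟩ := exists_prim (F := F) (d := finrank F U - 1) (by omega) (by
      calc 5 ≤ 3 ^ 2 := by norm_num
        _ ≤ Nat.card F ^ 2 := Nat.pow_le_pow_left (by omega) 2
        _ ≤ _ := Nat.pow_le_pow_right (by omega) (by omega))
    have h0 : (-1) ^ h.natDegree * h.coeff 0 ≠ 0 := mul_ne_zero (by simp) (by
      rw [coeff_zero_eq_eval_zero]; exact H.eval_ne (by omega) 0)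
    have h1 : IsUnit (aeval (en (1 : O R)) (h * (X - C ((-1) ^ h.natDegree * h.coeff 0)⁻¹))) :=
      isUnit_aeval_one (by
        rw [eval_mul]
        refine mul_ne_zero (H.eval_ne (by omega) 1) ?_
        rw [eval_sub, eval_X, eval_C, sub_ne_zero, H.deg]
        exact fun h => hν hF (inv_eq_one.1 h.symm))
    exact isCom_model_of_prim hR han hW hk H (mul_inv_cancel₀ h0) dsign_one spin_one h1
      (by simpa using h1) hg hg1 hg2

end CL.OreO
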