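import Mathlib
import Cfsg.Agent.KSG.OreO5

/-!
Commutators in orthogonal groups, part 6: the element `-1`, and the theorem: in dimension at least
seven every element of the commutator subgroup of the isometry group of a non-degenerate quadratic
form over a finite field is a commutator in that subgroup.
-/

set_option autoImplicit false
set_option linter.unusedSectionVars false

namespace CL.OreO

open Module QuadraticMap Polynomial CL.Orth CL.GLn

variable {F V : Type*} [Field F] [Finite F] [AddCommGroup V] [Module F V] [FiniteDimensional F V]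
  {Q : QuadraticForm F V}

theorem sq_nondeg (h2 : (2 : F) ≠ 0) :
    (polarBilin (QuadraticMap.sq : QuadraticForm F F)).Nondegenerate := by
  rw [nondeg_iff]
  intro x hx
  have := hx 1
  simp only [polar, sq_apply] at this
  exact (mul_eq_zero.1 (show 2 * x = 0 by linear_combination this)).resolve_left h2

theorem exists_form_dsc (h2 : (2 : F) ≠ 0) (m : ℕ) (s : ℤˣ) :
    ∃ X : QuadraticForm F (F × (Fin m → F)), (polarBilin X).Nondegenerate ∧ dsc X = s := by
  let R : QuadraticForm F (Fin m → F) := weightedSumSquares F fun _ => (1 : F)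
  have hR : ∀ i j, polar R (Pi.single i 1) (Pi.single j 1) = if i = j then 2 else 0 := by
    intro i j
    simp only [R, polar, weightedSumSquares_apply, Pi.add_apply, smul_eq_mul, mul_add, add_mul,
      Finset.sum_add_distrib, Pi.single_apply]
    by_cases h : i = j
    · subst h; simp; ring
    · simp [h, Ne.symm h]
  have hg : gram R (Pi.basisFun F _) = Matrix.diagonal fun _ => 2 := by
    ext i j; simp [gram_apply, hR, Matrix.diagonal_apply]
  have hnd : (polarBilin R).Nondegenerate := nondeg_of_gram_det_ne_zero (Pi.basisFun F _) (by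
    rw [hg, Matrix.det_diagonal]; simp [h2])
  obtain ⟨c, hc, hcs⟩ : ∃ c : F, c ≠ 0 ∧
      sqSign c = s * dsc R * dsc (QuadraticMap.sq : QuadraticForm F F) := by
    rcases Int.units_eq_one_or (s * dsc R * dsc (QuadraticMap.sq : QuadraticForm F F)) with h | h
    · exact ⟨1, one_ne_zero, by rw [h, sqSign_one]⟩
    · rw [h]; exact exists_sqSign_eq_neg_one h2
  have h1 := smul_nondeg (sq_nondeg h2) hc
  refine ⟨(c • QuadraticMap.sq).prod R, prod_nondeg h1 hnd, ?_⟩
  rw [dsc_prod h1 hnd, dsc_smul (sq_nondeg h2) hc, finrank_self, pow_one, hcs, mul_assoc (s * dsc R),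
    Int.units_mul_self, mul_one, mul_assoc, Int.units_mul_self, mul_one]

theorem exists_plane (h2 : (2 : F) ≠ 0) (ε : ℤˣ) :
    ∃ J r : O ((QuadraticMap.sq : QuadraticForm F F).prod QuadraticMap.sq), dsign J = ε ∧
      ∀ v, r.1 (J.1 v) = - J.1 (r.1 v) := by
  set P := (QuadraticMap.sq : QuadraticForm F F).prod QuadraticMap.sq with hP
  have hn : (polarBilin P).Nondegenerate := prod_nondeg (sq_nondeg h2) (sq_nondeg h2)
  have h1 : P (0, 1) ≠ 0 := by simp [hP]
  have h3 : P (1, -1) = 2 := by simp [hP]; norm_num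
  have hp : ∀ u v : F × F, polar P u v = 2 * (u.1 * v.1 + u.2 * v.2) := fun u v => by
    simp [hP, polar]; ring
  have a1 : ∀ v : F × F, (refl P (0, 1)).1 v = (v.1, -v.2) := fun v => by
    rw [refl_apply, hp]
    ext <;> simp [hP]
    ring
  have a2 : ∀ v : F × F, (refl P (1, -1)).1 v = (v.2, v.1) := fun v => by
    rw [refl_apply, hp, h3]
    ext <;> simp <;> field_simp <;> ring
  rcases Int.units_eq_one_or ε with rfl | rfl
  · refine ⟨refl P (1, -1) * refl P (0, 1), refl P (0, 1), ?_, fun v => ?_⟩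
    · rw [dsign_refl_mul hn _ (h3 ▸ h2), dsign_refl hn h1, neg_neg]
    · simp [O_mul_apply, a1, a2]
  · refine ⟨refl P (0, 1), refl P (1, -1), dsign_refl hn h1, fun v => ?_⟩
    simp [a1, a2]

theorem isCom_negOne_aux {A B : Type*} [AddCommGroup A] [Module F A] [FiniteDimensional F A]
    [AddCommGroup B] [Module F B] [FiniteDimensional F B] {X : QuadraticForm F A}
    {P : QuadraticForm F B} (h2 : (2 : F) ≠ 0) (hX : (polarBilin X).Nondegenerate)
    (hn : (polarBilin P).Nondegenerate) (hA : 2 ≤ finrank F A) {J r : O P}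
    (hJ : dsign J = (-1) ^ finrank F A) (hr : ∀ v, r.1 (J.1 v) = - J.1 (r.1 v))
    (hX' : dsc X = sqSign (2 : F) ^ finrank F A * spin J) : IsCom (negOne ((X.prod X).prod P)) := by
  have hXX := prod_nondeg hX hX
  have hM := prod_nondeg hXX hn
  have hF : Nat.card F ≠ 2 ∨ finrank F ((A × A) × B) ≠ 4 := Or.inl (card_ne_two_of_two_ne_zero h2)
  have hc : prodO _ _ (prodO _ _ (1, negOne X), J) ∈ commutator (O ((X.prod X).prod P)) := by
    rw [mem_commutator_iff hM hF, dsign_prodO, dsign_prodO, spin_prodO hXX hn, spin_prodO hX hX,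
      dsign_one, spin_one, dsign_negOne h2, spin_negOne h2 hX, hJ, hX', one_mul, one_mul,
      Int.units_mul_self, ← mul_assoc (sqSign (2 : F) ^ finrank F A), Int.units_mul_self, one_mul,
      Int.units_mul_self]
    exact ⟨rfl, rfl⟩
  let σ : O (X.prod X) := ⟨LinearEquiv.prodComm F _ _, fun v => by simp [add_comm]⟩
  obtain ⟨h, hh1, hh2⟩ := exists_dsign_spin_eq hX h2 hA (dsign (prodO _ _ (σ, r)))
    (spin (prodO _ _ (σ, r)))
  have hz : prodO _ _ (σ, r) * prodO _ _ (prodO _ _ (h, 1), 1) ∈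
      commutator (O ((X.prod X).prod P)) := by
    rw [mem_commutator_iff hM hF, dsign_mul hM hF, spin_mul hM hF, ← hh1, ← hh2, dsign_prodO,
      dsign_prodO, spin_prodO hXX hn, spin_prodO hX hX]
    simp [dsign_one, spin_one]
  refine ⟨_, hz, _, hc, ?_⟩
  rw [eq_mul_inv_iff_mul_eq, eq_mul_inv_iff_mul_eq]
  refine O_ext fun v => ?_
  simp only [O_mul_apply, σ, prodO_apply, negOne_apply, O_one_apply,
    LinearEquiv.prodComm_apply, Prod.swap, hr]
  simp

theorem isCom_negOne (hQ : (polarBilin Q).Nondegenerate) (h2 : (2 : F) ≠ 0)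
    (hV : 6 ≤ finrank F V) (hg : negOne Q ∈ commutator (O Q)) : IsCom (negOne Q) := by
  obtain ⟨⟨j, hj⟩, hd⟩ := (negOne_mem_commutator_iff h2 hQ).1 hg
  obtain ⟨m, rfl⟩ : ∃ m, j = m + 3 := ⟨j - 3, by omega⟩
  obtain ⟨J, r, hJ, hr⟩ := exists_plane h2 ((-1) ^ (m + 2))
  have hn := prod_nondeg (sq_nondeg h2) (sq_nondeg h2)
  obtain ⟨X, hX, hX'⟩ := exists_form_dsc h2 (m + 1) (sqSign (2 : F) ^ (m + 2) * spin J)
  have hdX : finrank F (F × (Fin (m + 1) → F)) = m + 2 := by simp; omega
  have hXX := prod_nondeg hX hX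
  have hM := prod_nondeg hXX hn
  have hdM : finrank F (((F × (Fin (m + 1) → F)) × (F × (Fin (m + 1) → F))) × (F × F)) =
      finrank F V := by
    rw [finrank_prod, finrank_prod, hdX, hj]; simp; omega
  obtain ⟨φ, hφ⟩ := exists_isometry_of_dsc_eq h2 hM hQ hdM (by
    rw [dsc_prod hXX hn, dsc_prod hX hX, dsc_prod (sq_nondeg h2) (sq_nondeg h2),
      Int.units_mul_self, Int.units_mul_self, hd, mul_one])
  have h1 : negOne Q = congrO φ hφ (negOne _) := O_ext fun v => by
    simp [congrO_apply, negOne_apply]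
  rw [h1]
  exact IsCom.map (congrO φ hφ).toMonoidHom (isCom_negOne_aux h2 hX hn (by omega)
    (hdX.symm ▸ hJ) hr (hdX.symm ▸ hX'))

theorem exists_model (hQ : (polarBilin Q).Nondegenerate) {k : ℕ} {e f : Fin k → V}
    (h : IsHypFam Q e f) :
    ∃ φ : MV F (Fin k → F) (perp Q (Submodule.span F (Set.range (Sum.elim e f)))) ≃ₗ[F] V,
      ∀ v, Q (φ v) = MQ (Fin k → F) (Q.restrict _) v := by
  set W := perp Q (Submodule.span F (Set.range (Sum.elim e f)))
  let ψ : Dual F (Fin k → F) →ₗ[F] Fin k → F :=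
    LinearMap.pi fun i => Dual.eval F _ (Pi.single i 1)
  let A : MV F (Fin k → F) W →ₗ[F] V := ((Fintype.linearCombination F e).coprod
    ((Fintype.linearCombination F f).comp ψ)).coprod W.subtype
  have hA : ∀ v, A v = ∑ i, v.1.1 i • e i + ∑ i, v.1.2 (Pi.single i 1) • f i + v.2 := fun v => by
    simp [A, ψ, Fintype.linearCombination_apply]
  have hQA : ∀ v, Q (A v) = MQ (Fin k → F) (Q.restrict W) v := fun v => by
    have a1 : ∑ i, v.1.1 i • e i ∈ Submodule.span F (Set.range e) :=
      Submodule.sum_mem _ fun i _ => Submodule.smul_mem _ _ (Submodule.subset_span ⟨i, rfl⟩)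
    have a2 : ∑ i, v.1.2 (Pi.single i 1) • f i ∈ Submodule.span F (Set.range f) :=
      Submodule.sum_mem _ fun i _ => Submodule.smul_mem _ _ (Submodule.subset_span ⟨i, rfl⟩)
    have a3 : ∑ i, v.1.1 i • e i + ∑ i, v.1.2 (Pi.single i 1) • f i ∈
        Submodule.span F (Set.range (Sum.elim e f)) := Submodule.add_mem _
      (Submodule.sum_mem _ fun i _ => Submodule.smul_mem _ _ (Submodule.subset_span ⟨.inl i, rfl⟩))
      (Submodule.sum_mem _ fun i _ => Submodule.smul_mem _ _ (Submodule.subset_span ⟨.inr i, rfl⟩))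
    rw [hA, Q_add, Q_add, h.singular_span_left _ a1, h.symm.singular_span_left _ a2,
      mem_perp.1 v.2.2 _ a3, MQ_apply, ← polarBilin_apply_apply]
    have a4 : v.1.2 v.1.1 = ∑ i, v.1.1 i * v.1.2 (Pi.single i 1) := by
      conv_lhs => rw [pi_eq_sum_univ' v.1.1, map_sum]
      simp
    simp [map_sum, h.ef, a4, mul_comm]
  have hnd : (polarBilin (Q.restrict W)).Nondegenerate := restrict_perp_nondeg hQ h.inf_perp
  have hinj := injective_of_isom (MQ_nondeg hnd) A hQA
  have hdim : finrank F (MV F (Fin k → F) W) = finrank F V := by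
    have := finrank_perp hQ (Submodule.span F (Set.range (Sum.elim e f)))
    rw [h.finrank_span] at this
    rw [finrank_MV, ← this]; simp [W]; omega
  exact ⟨LinearMap.linearEquivOfInjective A hinj hdim, hQA⟩

/-- Ore's property for the commutator subgroup of an orthogonal group. -/
theorem ore (hQ : (polarBilin Q).Nondegenerate) (hV : 7 ≤ finrank F V) {g : O Q}
    (hg : g ∈ commutator (O Q)) : IsCom g := by
  by_cases hg1 : g = 1
  · rw [hg1]; exact isCom_one
  by_cases hg2 : g = negOne Q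
  · subst hg2
    refine isCom_negOne hQ (fun h2 => hg1 (O_ext fun v => ?_)) (by omega) hg
    rw [negOne_apply, O_one_apply, neg_eq_iff_add_eq_zero, ← two_smul F, h2, zero_smul]
  obtain ⟨k, e, f, h, han, hd, hW⟩ := exists_witt_decomposition' hQ
  obtain ⟨φ, hφ⟩ := exists_model hQ h
  obtain ⟨g', rfl⟩ := (congrO φ hφ).surjective g
  refine IsCom.map (congrO φ hφ).toMonoidHom (isCom_model (restrict_perp_nondeg hQ h.inf_perp)
    (fun w hw => Subtype.ext (han w w.2 hw)) hW (by simp; omega)
    ((mem_commutator_mulEquiv _ _).1 hg) (fun h => hg1 (by rw [h, map_one])) fun h => hg2 ?_)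
  rw [h]
  exact O_ext fun v => by simp [congrO_apply, negOne_apply]

theorem ore_Omega {ι : Type} [Fintype ι] [DecidableEq ι] {R : QuadraticForm F (ι → F)}
    (hR : (polarBilin R).Nondegenerate) (hι : 7 ≤ Fintype.card ι) (g : Cfsg.Omega F ⇑R) :
    ∃ a b : Cfsg.Omega F ⇑R, g = a * b * a⁻¹ * b⁻¹ := by
  obtain ⟨a, ha, b, hb, h⟩ := (ore hR (by simpa using hι) ((mem_Omega_iff g.1).1 g.2)).map
    (toO R).symm.toMonoidHom
  exact ⟨⟨a, ha⟩, ⟨b, hb⟩, Subtype.ext (by simpa using h)⟩

end CL.OreO
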