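import Mathlib
import Cfsg.Agent.CLAS.WittStd
import Cfsg.Agent.KSG.OreG

/-! Symplectic maps: Lagrangian subspaces invariant under `g + g⁻¹`, basic lemmas. -/

set_option autoImplicit false
set_option linter.unusedSectionVars false

namespace CL.Ore

open Module CL.Witt CL.Witt.Form Polynomial

variable {F : Type*} [Field F] {V : Type*} [AddCommGroup V] [Module F V]
  {A : Type*} [CommRing A] [Algebra F A] [Module A V] [IsScalarTower F A V]

/-- the cyclic module generated by `v` -/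
noncomputable def cy (F : Type*) [Field F] [Module F V] [Algebra F A] [IsScalarTower F A V] (t : A)
    (v : V) : Submodule F V :=
  LinearMap.range (((LinearMap.toSpanSingleton A V v).restrictScalars F) ∘ₗ (aeval t).toLinearMap)

theorem mem_cy {t : A} {v x : V} : x ∈ cy F t v ↔ ∃ p : F[X], aeval t p • v = x := Iff.rfl

theorem self_mem_cy (t : A) (v : V) : v ∈ cy F t v := ⟨1, by simp⟩

/-- invariance -/
def Iv (t : A) (W : Submodule F V) : Prop := ∀ x ∈ W, t • x ∈ W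

/-- the image under `t` -/
def im (t : A) (W : Submodule F V) : Submodule F V := W.map (Algebra.lsmul F F V t)

theorem mem_im {t : A} {W : Submodule F V} {x : V} : x ∈ im t W ↔ ∃ y ∈ W, t • y = x := Iff.rfl

theorem Iv.aeval {t : A} {W : Submodule F V} (h : Iv t W) (p : F[X]) : Iv (aeval t p) W := by
  induction p using Polynomial.induction_on with
  | C a => intro x hx; simpa using W.smul_mem a hx
  | add p q hp hq => intro x hx; rw [map_add, add_smul]; exact add_mem (hp x hx) (hq x hx)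
  | monomial n a hp =>
    intro x hx
    rw [pow_succ, ← mul_assoc, map_mul, aeval_X, mul_smul]
    exact hp _ (h x hx)

theorem Iv.pow {t : A} {W : Submodule F V} (h : Iv t W) (k : ℕ) : Iv (t ^ k) W := by
  simpa using h.aeval (X ^ k)

theorem Iv.cy_le {t : A} {W : Submodule F V} (h : Iv t W) {v : V} (hv : v ∈ W) : cy F t v ≤ W := by
  rintro _ ⟨p, rfl⟩; exact h.aeval p v hv

theorem iv_cy (t : A) (v : V) : Iv t (cy F t v) := by
  rintro _ ⟨p, rfl⟩
  exact mem_cy.2 ⟨X * p, by rw [map_mul, aeval_X, mul_smul]; rfl⟩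

theorem Iv.sup {t : A} {W W' : Submodule F V} (h : Iv t W) (h' : Iv t W') : Iv t (W ⊔ W') := by
  intro x hx
  obtain ⟨a, ha, b, hb, rfl⟩ := Submodule.mem_sup.1 hx
  rw [smul_add]
  exact Submodule.add_mem_sup (h a ha) (h' b hb)

theorem Iv.im {t : A} {W : Submodule F V} (h : Iv t W) (s : A) : Iv t (im s W) := by
  rintro _ ⟨y, hy, rfl⟩
  exact ⟨_, h y hy, smul_comm s t y⟩

theorem Iv.sub {t : A} {W : Submodule F V} (h : Iv t W) (c : F) : Iv (t - algebraMap F A c) W :=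
  fun x hx => by rw [sub_smul, algebraMap_smul]; exact sub_mem (h x hx) (W.smul_mem c hx)

theorem Iv.surj [FiniteDimensional F V] {t : A} {W : Submodule F V} (h : Iv t W)
    (hi : ∀ x ∈ W, t • x = 0 → x = 0) {y : V} (hy : y ∈ W) : ∃ x ∈ W, t • x = y :=
  surj_on (S := Algebra.lsmul F F V t) h hi hy

theorem exists_coprime {f₀ p : F[X]} (hf : Irreducible f₀) (hp : ¬ f₀ ∣ p) (k : ℕ) :
    ∃ a b : F[X], a * f₀ ^ k + b * p = 1 := (hf.coprime_iff_not_dvd.2 hp).pow_left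

theorem eq_zero_of_not_dvd {t : A} {f₀ p : F[X]} (hf : Irreducible f₀) (hp : ¬ f₀ ∣ p) {k : ℕ} {x : V}
    (h1 : aeval t f₀ ^ k • x = 0) (h2 : aeval t p • x = 0) : x = 0 := by
  obtain ⟨a, b, e⟩ := exists_coprime hf hp k
  have := congrArg (fun q => aeval t q • x) e
  simpa [add_smul, mul_smul, h1, h2] using this.symm

/-- descent to the socle -/
theorem descent {t : A} {f₀ : F[X]} {S : Submodule F V} (hS : Iv t S) {x y : V} {k : ℕ}
    (hx : aeval t f₀ ^ (k + 1) • x = 0) (hy : aeval t f₀ ^ (k + 1) • y = 0) {r : V} (hr : r ∈ S)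
    (hr' : r ∈ cy F t x ⊔ cy F t y) (h0 : r ≠ 0) : ∃ p q : F[X], ¬ (f₀ ∣ p ∧ f₀ ∣ q) ∧
      aeval t f₀ ^ k • (aeval t p • x + aeval t q • y) ∈ S := by
  by_contra hc
  push Not at hc
  have key : ∀ j ≤ k + 1, ∃ p q : F[X], r = aeval t f₀ ^ j • (aeval t p • x + aeval t q • y) := by
    intro j
    induction j with
    | zero =>
      obtain ⟨_, ⟨p, rfl⟩, _, ⟨q, rfl⟩, e⟩ := Submodule.mem_sup.1 hr'
      exact fun _ => ⟨p, q, by rw [pow_zero, one_smul]; exact e.symm⟩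
    | succ j ih =>
      intro hj
      obtain ⟨p, q, e⟩ := ih (by omega)
      by_cases h : f₀ ∣ p ∧ f₀ ∣ q
      · obtain ⟨⟨p, rfl⟩, q, rfl⟩ := h
        exact ⟨p, q, by rw [e, map_mul, map_mul, pow_succ, mul_smul, mul_smul, mul_smul, ← smul_add]⟩
      · refine absurd ?_ (hc p q (by tauto))
        have := ((hS.aeval f₀).pow (k - j)) r hr
        rwa [e, smul_smul, ← pow_add, show k - j + j = k by omega] at this
  obtain ⟨p, q, e⟩ := key _ le_rfl
  exact h0 (by rw [e, smul_add, smul_comm, hx, smul_comm, hy]; simp)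

/-- If `s ^ 2 t` is `u` times a unit then an element of order one in `s` cannot have the wrong
parity. -/
theorem parity {s u c d : A} (hc : c * d = 1) (h : u = c * s ^ 2) {v : V} {K e : ℕ}
    (hK : s ^ (K + 1) • v = 0) (h0 : s ^ K • v ≠ 0) (he : ¬ 2 ∣ K + e) (p : F[X]) (i : ℕ) :
    s ^ K • v ≠ d ^ i • s ^ e • aeval u p • v := by
  intro e1
  have hp : p ≠ 0 := by rintro rfl; simp [h0] at e1
  obtain ⟨p₁, e2, h1⟩ := exists_eq_pow_rootMultiplicity_mul_and_not_dvd p hp 0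
  generalize rootMultiplicity 0 p = j at e2
  rw [C_0, sub_zero] at e2 h1
  have e3 : ∀ n, s ^ n • d ^ i • s ^ e • aeval u p • v =
      (d ^ i * c ^ j) • aeval u p₁ • s ^ (n + e + 2 * j) • v := fun n => by
    simp only [smul_smul, e2, map_mul, map_pow, aeval_X, h]
    congr 1; ring
  have e4 : s ^ (1 + e + 2 * j) • v = 0 := by
    refine eq_zero_of_not_dvd (t := u) irreducible_X h1 (k := K + 1) ?_ ?_
    · rw [aeval_X, smul_comm, h, mul_pow, ← pow_mul, two_mul (K + 1), pow_add s (K + 1), mul_smul,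
        mul_smul, hK]; simp
    · have : (c ^ i * d ^ j) • s ^ 1 • _ = (c ^ i * d ^ j) • s ^ 1 • _ :=
        congrArg (fun x => (c ^ i * d ^ j) • s ^ 1 • x) e1
      rw [e3, smul_smul (s ^ 1), ← pow_add, add_comm 1 K, hK, smul_zero, smul_smul (c ^ i * d ^ j),
        show c ^ i * d ^ j * (d ^ i * c ^ j) = (c * d) ^ (i + j) by ring, hc, one_pow,
        one_smul] at this
      exact this.symm
  have h2 : K < 1 + e + 2 * j := by
    by_contra h2
    obtain ⟨n, rfl⟩ := Nat.exists_eq_add_of_le (not_lt.1 h2)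
    exact h0 (by rw [add_comm _ n, pow_add, mul_smul, e4, smul_zero])
  obtain ⟨n, h3⟩ : ∃ n, 0 + e + 2 * j = n + (K + 1) := ⟨e + 2 * j - (K + 1), by omega⟩
  have := e3 0
  rw [pow_zero, one_smul, ← e1, h3, pow_add, mul_smul _ _ v, hK] at this
  simp [h0] at this

variable {f : Form (FormType.alt F) V} {γ γ' : A}

/-- `γ` acts as an isometry with inverse `γ'` -/
structure Ctx (f : Form (FormType.alt F) V) (γ γ' : A) : Prop where
  nd : f.Nondeg
  inv : γ * γ' = 1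
  iso : ∀ x y, f.B (γ • x) (γ • y) = f.B x y

namespace Ctx

variable (h : Ctx f γ γ')
include h

theorem g_g' (x : V) : γ • γ' • x = x := by rw [smul_smul, h.inv, one_smul]

theorem g'_g (x : V) : γ' • γ • x = x := by rw [smul_comm, h.g_g']

theorem B_g (x y : V) : f.B (γ • x) y = f.B x (γ' • y) := by rw [← h.iso x, h.g_g']

theorem B_g' (x y : V) : f.B (γ' • x) y = f.B x (γ • y) := by rw [← h.iso _ y, h.g_g']

theorem B_t (x y : V) : f.B ((γ + γ') • x) y = f.B x ((γ + γ') • y) := by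
  rw [add_smul, add_smul, f.B_add_left, f.B_add_right, h.B_g, h.B_g', add_comm]

theorem B_p (p : F[X]) (x y : V) :
    f.B (aeval (γ + γ') p • x) y = f.B x (aeval (γ + γ') p • y) := by
  induction p using Polynomial.induction_on generalizing x with
  | C a => simp [FormType.alt_σ]
  | add p q hp hq => simp [add_smul, hp, hq]
  | monomial n a hp =>
    rw [pow_succ, ← mul_assoc, map_mul, aeval_X, mul_smul, hp, h.B_t, smul_comm, mul_smul]

theorem B_pow_self (j : ℕ) (x : V) : f.B ((γ + γ') ^ j • x) x = 0 := by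
  induction j using Nat.twoStepInduction generalizing x with
  | zero => simp [f.alt_B_self]
  | one => rw [pow_one, add_smul, f.B_add_left, h.B_g', f.alt_symm (γ • x), add_neg_cancel]
  | more j h1 _ => rw [pow_succ', pow_succ, mul_smul, h.B_t, mul_smul, h1]

theorem B_p_self (p : F[X]) (x : V) : f.B (aeval (γ + γ') p • x) x = 0 := by
  induction p using Polynomial.induction_on' with
  | add p q hp hq => simp [add_smul, hp, hq]
  | monomial n a => rw [aeval_monomial, mul_smul, algebraMap_smul, f.B_smul_left, h.B_pow_self, mul_zero]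

theorem B_cy (v : V) : ∀ x ∈ cy F (γ + γ') v, ∀ y ∈ cy F (γ + γ') v, f.B x y = 0 := by
  rintro _ ⟨p, rfl⟩ _ ⟨q, rfl⟩
  change f.B (aeval (γ + γ') p • v) (aeval (γ + γ') q • v) = 0
  rw [← h.B_p, smul_smul, ← map_mul, h.B_p_self]

theorem iv' [FiniteDimensional F V] {W : Submodule F V} (hW : Iv γ W) : Iv γ' W := fun x hx => by
  obtain ⟨y, hy, rfl⟩ := hW.surj (fun x _ e => by rw [← h.g'_g x, e, smul_zero]) hx
  rwa [h.g'_g]

theorem ivt [FiniteDimensional F V] {W : Submodule F V} (hW : Iv γ W) : Iv (γ + γ') W :=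
  fun x hx => by rw [add_smul]; exact add_mem (hW x hx) (h.iv' hW x hx)

theorem iv_perp [FiniteDimensional F V] {W : Submodule F V} (hW : Iv γ W) : Iv γ (f.perp W) :=
  fun x hx => f.mem_perp.2 fun w hw => by rw [← h.B_g', f.mem_perp.1 hx _ (h.iv' hW w hw)]

theorem iv_sup_im {L : Submodule F V} (hL : Iv (γ + γ') L) : Iv γ (L ⊔ im γ L) := by
  intro x hx
  obtain ⟨a, ha, _, ⟨b, hb, rfl⟩, rfl⟩ := Submodule.mem_sup.1 hx
  have : γ • (a + γ • b) = -b + γ • (a + (γ + γ') • b) := by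
    rw [add_smul, smul_add, smul_add, smul_add, h.g_g']; abel
  exact this ▸ Submodule.add_mem_sup (neg_mem hb) ⟨_, add_mem ha (hL b hb), rfl⟩

end Ctx

/-- non-degenerate subspaces -/
def Nd (f : Form (FormType.alt F) V) (U : Submodule F V) : Prop :=
  ∀ x ∈ U, (∀ y ∈ U, f.B x y = 0) → x = 0

theorem Nd.decomp [FiniteDimensional F V] {W : Submodule F V} (hW : Nd f W) (v : V) :
    ∃ a ∈ W, ∃ b ∈ f.perp W, a + b = v :=
  Submodule.mem_sup.1 ((f.isCompl_perp_of_restrict_nondeg ((f.restrict_nondeg_iff W).2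
    (Submodule.disjoint_def.2 fun x hx hx' => hW x hx (f.mem_perp'.1 hx')))).sup_eq_top ▸
      Submodule.mem_top)

theorem Nd.exists_perp [FiniteDimensional F V] (hf : f.Nondeg) {U D : Submodule F V} (hU : Nd f U)
    (hD : D ≤ U) {z : V} (hz : z ∈ U) (hz' : z ∉ D) :
    ∃ w ∈ U, (∀ x ∈ D, f.B x w = 0) ∧ f.B z w = 1 := by
  obtain ⟨t, h1, h2⟩ := hf.exists_perp_eq' hz' 1
  obtain ⟨a, ha, b, hb, rfl⟩ := hU.decomp t
  exact ⟨a, ha, fun x hx => by simpa [f.mem_perp.1 hb x (hD hx)] using h1 x hx,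
    by simpa [f.mem_perp.1 hb z hz] using h2⟩

/-- A good Lagrangian subspace `L` of `U`. -/
structure Good (f : Form (FormType.alt F) V) (γ γ' : A) (U L : Submodule F V) : Prop where
  le : L ≤ U
  iso : ∀ x ∈ L, ∀ y ∈ L, f.B x y = 0
  tinv : Iv (γ + γ') L
  lag : ∀ x ∈ U, (∀ y ∈ L, f.B x y = 0) → x ∈ L
  fix : ∀ x ∈ L, γ • x ∈ L → ∃ p ∈ L, ∃ n ∈ L, γ • p = -p ∧ γ • n = n ∧ p + n = x
  inv : Iv γ L → ∀ x ∈ U, γ • γ • x = x

theorem Good.sup {U W W' L L' : Submodule F V} (h : Good f γ γ' W L) (h' : Good f γ γ' W' L')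
    (hW : Nd f W) (i : Iv γ W) (i' : Iv γ W') (ho : W' ≤ f.perp W) (hU : W ⊔ W' = U) :
    Good f γ γ' U (L ⊔ L') := by
  have o := fun x (hx : x ∈ W) y (hy : y ∈ W') => f.mem_perp.1 (ho hy) x hx
  have o' := fun x (hx : x ∈ W) y (hy : y ∈ W') => f.mem_perp'.1 (ho hy) x hx
  have k : ∀ a ∈ W, ∀ b ∈ W', a + b ∈ L ⊔ L' → a ∈ L ∧ b ∈ L' := fun a ha b hb e => by
    obtain ⟨c, hc, d, hd, e⟩ := Submodule.mem_sup.1 e
    have e1 : a - c = d - b := by rw [sub_eq_sub_iff_add_eq_add, ← e, add_comm]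
    have := hW _ (sub_mem ha (h.le hc)) fun y hy => by
      rw [e1]; exact o' y hy _ (sub_mem (h'.le hd) hb)
    exact ⟨sub_eq_zero.1 this ▸ hc, sub_eq_zero.1 (e1.symm.trans this) ▸ hd⟩
  subst hU
  refine ⟨sup_le_sup h.le h'.le, fun x hx y hy => ?_, h.tinv.sup h'.tinv, fun x hx e => ?_,
    fun x hx e => ?_, fun e x hx => ?_⟩
  · obtain ⟨a, ha, b, hb, rfl⟩ := Submodule.mem_sup.1 hx
    obtain ⟨c, hc, d, hd, rfl⟩ := Submodule.mem_sup.1 hy
    simp [h.iso a ha c hc, h'.iso b hb d hd, o a (h.le ha) d (h'.le hd), o' c (h.le hc) b (h'.le hb)]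
  · obtain ⟨a, ha, b, hb, rfl⟩ := Submodule.mem_sup.1 hx
    refine Submodule.add_mem_sup (h.lag a ha fun y hy => ?_) (h'.lag b hb fun y hy => ?_)
    · simpa [o' y (h.le hy) b hb] using e y (Submodule.mem_sup_left hy)
    · simpa [o a ha y (h'.le hy)] using e y (Submodule.mem_sup_right hy)
  · obtain ⟨a, ha, b, hb, rfl⟩ := Submodule.mem_sup.1 hx
    rw [smul_add] at e
    obtain ⟨h1, h2⟩ := k _ (i a (h.le ha)) _ (i' b (h'.le hb)) e
    obtain ⟨p, hp, n, hn, e1, e2, rfl⟩ := h.fix a ha h1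
    obtain ⟨p', hp', n', hn', e1', e2', rfl⟩ := h'.fix b hb h2
    exact ⟨p + p', Submodule.add_mem_sup hp hp', n + n', Submodule.add_mem_sup hn hn',
      by rw [smul_add, e1, e1', neg_add], by rw [smul_add, e2, e2'], by abel⟩
  · obtain ⟨a, ha, b, hb, rfl⟩ := Submodule.mem_sup.1 hx
    rw [smul_add, smul_add, h.inv (fun x hx => (k _ (i x (h.le hx)) 0 (zero_mem _)
      (by simpa using e x (Submodule.mem_sup_left hx))).1) a ha,
      h'.inv (fun x hx => (k 0 (zero_mem _) _ (i' x (h'.le hx))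
      (by simpa using e x (Submodule.mem_sup_right hx))).2) b hb]

theorem Ctx.perp_sup_im (h : Ctx f γ γ') {L : Submodule F V}
    (iso : ∀ x ∈ L, ∀ y ∈ L, f.B x y = 0) {x : V} (hx : x ∈ L) (e : ∀ y ∈ L, f.B (γ • x) y = 0) :
    ∀ y ∈ L ⊔ im γ L, f.B (γ • x) y = 0 := by
  intro y hy
  obtain ⟨a, ha, _, ⟨b, hb, rfl⟩, rfl⟩ := Submodule.mem_sup.1 hy
  change f.B _ (a + γ • b) = 0
  rw [f.B_add_right, e a ha, h.iso, iso x hx b hb, add_zero]

theorem Ctx.good0 (h : Ctx f γ γ') {U L : Submodule F V} (hU : Nd f U) (le : L ≤ U) (i : Iv γ U)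
    (iso : ∀ x ∈ L, ∀ y ∈ L, f.B x y = 0) (tinv : Iv (γ + γ') L) (hL : U ≤ L ⊔ im γ L) :
    Good f γ γ' U L := by
  have k : ∀ x ∈ L, (∀ y ∈ L, f.B (γ • x) y = 0) → x = 0 := fun x hx e => by
    rw [← h.g'_g x, hU _ (i x (le hx)) fun y hy => h.perp_sup_im iso hx e y (hL hy), smul_zero]
  refine ⟨le, iso, tinv, fun x hx e => ?_, fun x hx e => ?_, fun e x hx => ?_⟩
  · obtain ⟨a, ha, _, ⟨b, hb, rfl⟩, rfl⟩ := Submodule.mem_sup.1 (hL hx)
    rw [k b hb fun y hy => by simpa [iso a ha y hy] using e y hy]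
    simpa using ha
  · exact ⟨0, zero_mem _, 0, zero_mem _, by simp, by simp, by simp [k x hx (iso _ e)]⟩
  · obtain ⟨a, ha, _, ⟨b, hb, rfl⟩, rfl⟩ := Submodule.mem_sup.1 (hL hx)
    simp [k a ha (iso _ (e a ha)), k b hb (iso _ (e b hb))]

theorem Ctx.good1 (h : Ctx f γ γ') {U L : Submodule F V} (hU : Nd f U) (le : L ≤ U) (i : Iv γ U)
    (iso : ∀ x ∈ L, ∀ y ∈ L, f.B x y = 0) (tinv : Iv (γ + γ') L) {z w : V} {ε : F}
    (hε : ε = 1 ∨ ε = -1) (hz : z ∈ L) (gz : γ • z = ε • z) (hw : f.B z w = 1)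
    (hL : U ≤ (L ⊔ im γ L) ⊔ F ∙ w)
    (hi : (∀ x ∈ L, γ • x = ε • x) → ∀ x ∈ U, γ • γ • x = x) : Good f γ γ' U L := by
  have hε2 : ε * ε = 1 := by rcases hε with rfl | rfl <;> simp
  have e0 : γ • ε • z = z := by rw [smul_comm, gz, smul_smul, hε2, one_smul]
  have zp : ∀ y ∈ L ⊔ im γ L, f.B z y = 0 := e0 ▸ h.perp_sup_im iso (L.smul_mem ε hz)
    (e0.symm ▸ iso z hz)
  have k : ∀ x ∈ L, (∀ y ∈ L, f.B (γ • x) y = 0) → ∃ c : F, γ • x = c • z := fun x hx e => by
    refine ⟨f.B (γ • x) w, sub_eq_zero.1 (hU _ (sub_mem (i x (le hx)) (U.smul_mem _ (le hz)))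
      fun y hy => ?_)⟩
    obtain ⟨a, ha, b, hb, rfl⟩ := Submodule.mem_sup.1 (hL hy)
    obtain ⟨c, rfl⟩ := Submodule.mem_span_singleton.1 hb
    simp [h.perp_sup_im iso hx e a ha, zp a ha, hw, FormType.alt_σ, mul_comm]
  have k2 : ∀ x ∈ L, γ • x ∈ L → γ • x = ε • x := fun x hx e => by
    obtain ⟨c, e1⟩ := k x hx (iso _ e)
    have : x = c • ε • z := by rw [← h.g'_g x, e1, ← h.g'_g (ε • z), e0, smul_comm]
    rw [e1, this, smul_comm ε, smul_smul ε, hε2, one_smul]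
  refine ⟨le, iso, tinv, fun x hx e => ?_, fun x hx e => ?_, fun e => hi fun x hx => k2 x hx (e x hx)⟩
  · obtain ⟨a, ha, b, hb, rfl⟩ := Submodule.mem_sup.1 (hL hx)
    obtain ⟨c, rfl⟩ := Submodule.mem_span_singleton.1 hb
    have := e z hz
    rw [f.alt_symm, f.B_add_right, zp a ha, f.B_smul_right, hw, zero_add, mul_one, neg_eq_zero] at this
    rw [this, zero_smul, add_zero] at e ⊢
    obtain ⟨a', ha', _, ⟨b, hb, rfl⟩, rfl⟩ := Submodule.mem_sup.1 ha
    obtain ⟨c, e1⟩ := k b hb fun y hy => by simpa [iso a' ha' y hy] using e y hy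
    exact add_mem ha' (show γ • b ∈ L from e1 ▸ L.smul_mem c hz)
  · rcases hε with rfl | rfl
    · exact ⟨0, zero_mem _, x, hx, by simp, by simpa using k2 x hx e, zero_add x⟩
    · exact ⟨x, hx, 0, zero_mem _, by simpa using k2 x hx e, by simp, add_zero x⟩

end CL.Ore
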