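import Mathlib
import Cfsg.Agent.KSG.OreSp1

/-! Existence of good Lagrangian subspaces. -/

set_option autoImplicit false
set_option linter.unusedSectionVars false

namespace CL.Ore

open Module CL.Witt CL.Witt.Form Polynomial

variable {F : Type*} [Field F] {V : Type*} [AddCommGroup V] [Module F V] [FiniteDimensional F V]
  {A : Type*} [CommRing A] [Algebra F A] [Module A V] [IsScalarTower F A V]
  {f : Form (FormType.alt F) V} {γ γ' : A} {U : Submodule F V}

theorem exists_index {s : A} (hU : U ≠ ⊥) (h : ∃ n, ∀ x ∈ U, s ^ n • x = 0) :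
    ∃ k, (∀ x ∈ U, s ^ (k + 1) • x = 0) ∧ ∃ v ∈ U, s ^ k • v ≠ 0 := by
  classical
  have h1 := Nat.find_spec h
  by_cases h2 : Nat.find h = 0
  · exact absurd ((Submodule.eq_bot_iff _).2 fun x hx => by simpa [h2] using h1 x hx) hU
  · obtain ⟨k, h2⟩ := Nat.exists_eq_succ_of_ne_zero h2
    have h3 := Nat.find_min h (m := k) (by omega)
    push Not at h3
    exact ⟨k, by rwa [h2] at h1, h3⟩

theorem aeval_divX (t : A) (p : F[X]) (x : V) :
    aeval t p • x = p.coeff 0 • x + aeval t p.divX • t • x := by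
  conv_lhs => rw [← divX_mul_X_add p]
  rw [map_add, map_mul, aeval_X, aeval_C, add_smul, mul_smul, algebraMap_smul, add_comm]

theorem exists_irr (t : A) (hU : U ≠ ⊥) (i : Iv t U) :
    ∃ f₀ : F[X], Irreducible f₀ ∧ ∃ x ∈ U, x ≠ 0 ∧ aeval t f₀ • x = 0 := by
  obtain ⟨x, hx, h0⟩ := U.ne_bot_iff.1 hU
  have k : ∀ p : F[X], p ≠ 0 → aeval t p • x = 0 →
      ∃ f₀ : F[X], Irreducible f₀ ∧ ∃ x ∈ U, x ≠ 0 ∧ aeval t f₀ • x = 0 := fun p => by
    induction p using WfDvdMonoid.induction_on_irreducible with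
    | zero => exact fun h => absurd rfl h
    | unit u hu =>
      intro _ e
      exact absurd ((hu.map (aeval t)).smul_eq_zero.1 e) h0
    | mul a j ha hj ih =>
      intro _ e
      by_cases h1 : aeval t a • x = 0
      · exact ih ha h1
      · exact ⟨j, hj, _, i.aeval a x hx, h1, by rw [← mul_smul, ← map_mul, e]⟩
  refine k _ (Algebra.lsmul F F V t : Module.End F V).charpoly_monic.ne_zero ?_
  have := LinearMap.congr_fun (LinearMap.aeval_self_charpoly (Algebra.lsmul F F V t)) x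
  rwa [aeval_algHom_apply] at this

/-- orthogonally indecomposable invariant subspaces -/
structure Indec (f : Form (FormType.alt F) V) (γ : A) (U : Submodule F V) : Prop where
  nd : Nd f U
  iv : Iv γ U
  ne : U ≠ ⊥
  min : ∀ W ≤ U, Iv γ W → Nd f W → W ≠ ⊥ → U ≤ W

namespace Ctx

variable (h : Ctx f γ γ')
include h

theorem fit (hU : Indec f γ U) (p : F[X]) {x : V} (hx : x ∈ U) (h0 : x ≠ 0)
    (e : aeval (γ + γ') p • x = 0) : ∃ n, ∀ y ∈ U, aeval (γ + γ') p ^ n • y = 0 := by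
  set S := aeval (γ + γ') p ^ (finrank F V + 1) with hS
  have i : Iv S U := ((h.ivt hU.iv).aeval p).pow _
  have k : ∀ y : V, S • S • y = 0 → S • y = 0 := fun y e => by
    have h1 := fun m hm => Module.End.ker_pow_eq_ker_pow_finrank_of_le
      (f := Algebra.lsmul F F V (aeval (γ + γ') p)) (m := m) hm
    have h2 : y ∈ LinearMap.ker (Algebra.lsmul F F V (aeval (γ + γ') p) ^
      (finrank F V + 1 + (finrank F V + 1))) := by
      rw [← map_pow, pow_add, LinearMap.mem_ker]; exact (mul_smul _ _ _).trans e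
    rwa [h1 _ (by omega), ← h1 (finrank F V + 1) (by omega), ← map_pow] at h2
  refine ⟨finrank F V + 1, fun y hy => (hU.min (U ⊓ LinearMap.ker (Algebra.lsmul F F V S))
    inf_le_left (fun y hy => ⟨hU.iv y hy.1, ?_⟩) (fun y hy e => hU.nd y hy.1 fun w hw => ?_)
    ((Submodule.ne_bot_iff _).2 ⟨x, ⟨hx, ?_⟩, h0⟩) hy).2⟩
  · change S • γ • y = 0
    rw [smul_comm, show S • y = 0 from hy.2, smul_zero]
  · obtain ⟨_, ⟨w', hw', rfl⟩, e1⟩ := (i.im S).surj (by
      rintro _ ⟨a, -, rfl⟩ e; exact k a e) ⟨w, hw, rfl⟩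
    have := e (w - S • w') ⟨sub_mem hw (i _ hw'), by
      change S • (w - S • w') = 0
      rw [smul_sub]; exact sub_eq_zero.2 e1.symm⟩
    rwa [f.B_sub_right, hS, ← map_pow, ← h.B_p, map_pow, ← hS, show S • y = 0 from hy.2, f.B_zero_left,
      sub_zero] at this
  · change S • x = 0
    rw [hS, pow_succ, mul_smul, e, smul_zero]

theorem case1 (hU : Indec f γ U) {f₀ p : F[X]} (hf : Irreducible f₀) {k : ℕ}
    (hk : ∀ x ∈ U, aeval (γ + γ') f₀ ^ (k + 1) • x = 0) {v : V} (hv : v ∈ U)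
    (h0 : f.B (aeval (γ + γ') f₀ ^ k • aeval (γ + γ') p • v) (γ • v) ≠ 0) :
    ∃ L, Good f γ γ' U L := by
  set t := γ + γ'
  have i := h.ivt hU.iv
  have iZ := h.iv_sup_im (iv_cy (F := F) t v)
  have e1 : im γ (cy F t v) = cy F t (γ • v) := Submodule.ext fun x =>
    ⟨by rintro ⟨_, ⟨q, rfl⟩, rfl⟩; exact ⟨q, smul_comm _ _ _⟩,
      by rintro ⟨q, rfl⟩; exact ⟨_, ⟨q, rfl⟩, smul_comm _ _ _⟩⟩
  have hd : ∀ q, ¬ f₀ ∣ q → ∃ b, aeval t f₀ ^ k • aeval t p • v =
      aeval t f₀ ^ k • aeval t q • aeval t b • v := fun q hq => by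
    obtain ⟨a, b, e⟩ := exists_coprime hf hq 1
    refine ⟨b * p, ?_⟩
    have e2 := congrArg (fun r => aeval t (f₀ ^ k * p * r) • v) e
    simp only [mul_one, mul_add, map_add, add_smul] at e2
    rw [show f₀ ^ k * p * (a * f₀ ^ 1) = p * a * f₀ ^ (k + 1) by ring, map_mul, mul_smul, map_pow,
      hk v hv, smul_zero, zero_add] at e2
    simp only [smul_smul, ← map_pow, ← map_mul, ← e2]
    congr 2; ring
  refine ⟨_, h.good0 hU.nd (i.cy_le hv) hU.iv (h.B_cy v) (iv_cy t v) (hU.min _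
    (sup_le (i.cy_le hv) (e1 ▸ i.cy_le (hU.iv v hv))) iZ (fun r hr e => ?_) fun e => ?_)⟩
  · by_contra hr0
    obtain ⟨a, b, h1, h2⟩ := descent (h.ivt (h.iv_perp iZ)) (hk v hv) (hk _ (hU.iv v hv))
      (f.mem_perp'.2 e) (e1 ▸ hr) hr0
    rw [smul_add] at h2
    have h3 : f₀ ∣ b := by
      by_contra hb
      obtain ⟨c, e2⟩ := hd b hb
      have := f.mem_perp'.1 h2 (aeval t c • v) (Submodule.mem_sup_left ⟨c, rfl⟩)
      rw [f.B_add_left, ← map_pow, h.B_cy v _ ((iv_cy _ v).aeval _ _ (mem_cy.2 ⟨a, rfl⟩)) _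
        (mem_cy.2 ⟨c, rfl⟩), zero_add, h.B_p, h.B_p, smul_comm, map_pow, ← e2, f.alt_symm, neg_eq_zero] at this
      exact h0 this
    obtain ⟨c, e2⟩ := hd a fun ha => h1 ⟨ha, h3⟩
    obtain ⟨b, rfl⟩ := h3
    rw [map_mul, mul_smul, smul_smul (_ ^ k) (aeval t f₀), ← pow_succ, smul_comm (_ ^ (k + 1)),
      hk _ (hU.iv v hv), smul_zero, add_zero] at h2
    have := f.mem_perp'.1 h2 (aeval t c • γ • v) (Submodule.mem_sup_right (e1 ▸ ⟨c, rfl⟩))
    rw [← h.B_p, smul_comm, smul_comm (aeval t c), ← e2] at this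
    exact h0 this
  · have : v = 0 := (Submodule.eq_bot_iff _).1 e v (Submodule.mem_sup_left (self_mem_cy t v))
    simp [this] at h0

theorem eig (hU : Indec f γ U) {p : F[X]} {v : V} (hv : v ∈ U) (h0 : aeval (γ + γ') p • v ≠ 0)
    (h1 : ∀ x ∈ U, f.B (aeval (γ + γ') p • x) (γ • x) = 0) :
    ∃ ε : F, (ε = 1 ∨ ε = -1) ∧ ∃ y ∈ U, y ≠ 0 ∧ γ • y = ε • y := by
  have hy := (h.ivt hU.iv).aeval p v hv
  have e : γ' • aeval (γ + γ') p • v - γ • aeval (γ + γ') p • v = 0 :=
    hU.nd _ (sub_mem (h.iv' hU.iv _ hy) (hU.iv _ hy)) fun w hw => by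
      have := h1 _ (add_mem hv hw)
      simp only [smul_add, f.B_add_left, f.B_add_right, h1 v hv, h1 w hw] at this
      rw [f.B_sub_left, h.B_g', smul_comm γ, h.B_p _ (γ • v), f.alt_symm (aeval _ p • w)]
      linear_combination this
  generalize aeval (γ + γ') p • v = y at hy h0 e
  by_cases h2 : γ • y + y = 0
  · exact ⟨-1, Or.inr rfl, y, hy, h0, by simpa using eq_neg_of_add_eq_zero_left h2⟩
  · refine ⟨1, Or.inl rfl, _, add_mem (hU.iv y hy) hy, h2, ?_⟩
    rw [one_smul, smul_add, ← sub_eq_zero.1 e, h.g_g', add_comm]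

theorem case2 (hU : Indec f γ U) {ε : F} (hε : ε = 1 ∨ ε = -1) {K : ℕ}
    (hK : ∀ x ∈ U, (γ - algebraMap F A ε) ^ (K + 1) • x = 0) {v : V} (hv : v ∈ U)
    (h0 : (γ - algebraMap F A ε) ^ K • v ≠ 0)
    (H : ∀ x ∈ U, f.B (aeval (γ + γ') (X - C (2 * ε)) ^ (K / 2) • x) (γ • x) = 0) :
    ∃ L, Good f γ γ' U L := by
  have hε2 : ε * ε = 1 := by rcases hε with rfl | rfl <;> simp
  have hε3 : algebraMap F A ε * algebraMap F A ε = 1 := by rw [← map_mul, hε2, map_one]
  set t := γ + γ' with ht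
  set n := γ - algebraMap F A ε with hn
  set n' := γ' - algebraMap F A ε with hn'
  set u := aeval t (X - C (2 * ε)) with hu
  have hu' : u = γ' * n ^ 2 := by
    rw [hu, map_sub, aeval_X, aeval_C, map_mul, map_ofNat]
    linear_combination (2 * algebraMap F A ε - γ) * h.inv - γ' * hε3
  have e1 : n = -(algebraMap F A ε * γ) * n' := by
    linear_combination algebraMap F A ε * h.inv - γ * hε3
  have i := h.ivt hU.iv
  have iN : ∀ {W : Submodule F V}, Iv γ W → Iv n W := fun hW => hW.sub ε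
  have g1 : ∀ y : V, n • y = 0 → γ • y = ε • y := fun y e => by
    rwa [hn, sub_smul, algebraMap_smul, sub_eq_zero] at e
  have g2 : ∀ y : V, n • y = 0 → γ' • y = ε • y := fun y e => by
    have := h.g'_g y
    rw [g1 y e, smul_comm] at this
    rw [← this, smul_smul, hε2, one_smul, this]
  have g3 : ∀ (j : ℕ) (y : V), n • y = 0 → γ ^ j • y = ε ^ j • y := fun j y e => by
    induction j with
    | zero => simp
    | succ j ih => rw [pow_succ, mul_smul, g1 y e, smul_comm, ih, smul_smul, pow_succ']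
  have a1 : ∀ x y, f.B (n • x) y = f.B x (n' • y) := fun x y => by
    simp [hn, hn', sub_smul, h.B_g, FormType.alt_σ]
  have a2 : ∀ (j : ℕ) x y, f.B (n ^ j • x) y = f.B x (n' ^ j • y) := fun j => by
    induction j with
    | zero => simp
    | succ j ih => intro x y; rw [pow_succ', mul_smul, a1, ih, pow_succ, mul_smul]
  have nz : ∀ x ∈ U, n • n ^ K • x = 0 := fun x hx => by rw [← mul_smul, ← pow_succ', hK x hx]
  have e2 : ∀ (e : ℕ) (x : V), x ∈ U → K = 2 * (K / 2) + e →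
      n ^ K • x = ε ^ (K / 2) • u ^ (K / 2) • n ^ e • x := fun e x hx he => by
    have : n ^ K = γ ^ (K / 2) * (u ^ (K / 2) * n ^ e) := by
      rw [hu', mul_pow, ← pow_mul, mul_assoc, ← pow_add, ← he, ← mul_assoc, ← mul_pow, h.inv,
        one_pow, one_mul]
    rw [this, mul_smul, mul_smul, g3]
    rw [hu', mul_pow, ← pow_mul, mul_smul, smul_smul (n ^ _), ← pow_add, ← he, smul_comm, nz x hx,
      smul_zero]
  have s1 : ∀ x ∈ U, f.B (n ^ K • x) x = 0 := fun x hx => by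
    have h1 : f.B (u ^ (K / 2) • x) x = 0 := by rw [hu, ← map_pow, h.B_p_self]
    rcases Nat.mod_two_eq_zero_or_one K with e | e
    · rw [e2 0 x hx (by omega), pow_zero, one_smul, f.B_smul_left, h1, mul_zero]
    · rw [e2 1 x hx (by omega), pow_one, hn, sub_smul, smul_sub, algebraMap_smul, smul_comm _ ε,
        f.B_smul_left, f.B_sub_left, f.B_smul_left, h1, hu, ← map_pow, h.B_p, f.alt_symm,
        map_pow (aeval _), H x hx]
      simp
  have top : ∀ w ∈ U, f.B (n ^ K • v) w = 1 → U ≤ cy F n v ⊔ cy F n w := fun w hw hB => by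
    have iW : Iv γ (cy F n v ⊔ cy F n w) := by
      simpa [hn] using ((iv_cy n v).sup (iv_cy n w)).sub (-ε)
    refine hU.min _ (sup_le ((iN hU.iv).cy_le hv) ((iN hU.iv).cy_le hw)) iW (fun r hr e => ?_)
      fun e => ?_
    · by_contra hr0
      obtain ⟨a, b, h1, h2⟩ := descent (f₀ := X) (k := K) (iN (h.iv_perp iW))
        (by simpa using hK v hv) (by simpa using hK w hw) (f.mem_perp'.2 e) hr hr0
      have h3 : ∀ (p : F[X]), ∀ x ∈ U, n ^ K • aeval n p • x = p.coeff 0 • n ^ K • x :=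
        fun p x hx => by
          rw [aeval_divX, smul_add, smul_comm, smul_comm (n ^ K), smul_comm (n ^ K), nz x hx]; simp
      rw [aeval_X, smul_add, h3 a v hv, h3 b w hw] at h2
      have h4 := f.mem_perp'.1 h2 w (Submodule.mem_sup_right (self_mem_cy n w))
      have h5 := f.mem_perp'.1 h2 v (Submodule.mem_sup_left (self_mem_cy n v))
      have h6 : f.B (n ^ K • w) v ≠ 0 := fun e => by
        rw [a2, f.B_eq_zero_comm] at e
        have h7 : ∀ j : ℕ, (-(algebraMap F A ε * γ)) ^ j • n' ^ K • v = (-1 : F) ^ j • n' ^ K • v :=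
          fun j => by
          induction j with
          | zero => simp
          | succ j ih =>
            rw [pow_succ', mul_smul, ih, smul_comm, neg_smul, mul_smul, algebraMap_smul, g1,
              smul_smul ε, hε2, one_smul, pow_succ, mul_smul, neg_one_smul]
            rw [← h.g'_g (n • _), show n' = -(algebraMap F A ε * γ') * n by
              linear_combination algebraMap F A ε * h.inv - γ' * hε3, mul_pow, mul_smul,
              smul_comm n, nz v hv]
            simp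
        rw [e1, mul_pow, mul_smul, h7, f.B_smul_left, e] at hB
        simp at hB
      simp only [f.B_add_left, f.B_smul_left, hB, s1 w hw, s1 v hv, FormType.alt_σ, mul_zero,
        mul_one, add_zero, zero_add, mul_eq_zero, h6, or_false] at h4 h5
      exact h1 ⟨X_dvd_iff.2 h4, X_dvd_iff.2 h5⟩
    · have : v = 0 := (Submodule.eq_bot_iff _).1 e v (Submodule.mem_sup_left (self_mem_cy n v))
      simp [this] at h0
  have par : ∀ e, ¬ 2 ∣ K + e → n ^ K • v ∉ im (n ^ e) (cy F t v) := by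
    rintro e he ⟨_, ⟨p, rfl⟩, e3⟩
    refine parity (h.inv ▸ mul_comm γ' γ) hu' (hK v hv) h0 he (p.comp (X + C (2 * ε))) 0 ?_
    rw [pow_zero, one_smul, aeval_comp, hu, ← e3, show aeval (aeval t (X - C (2 * ε)))
      (X + C (2 * ε)) = t by simp]
    rfl
  have iso : ∀ w, (∀ x ∈ cy F t v, f.B x w = 0) → ∀ x ∈ cy F t v ⊔ cy F t w,
      ∀ y ∈ cy F t v ⊔ cy F t w, f.B x y = 0 := fun w hw x hx y hy => by
    have k : ∀ a ∈ cy F t v, ∀ b ∈ cy F t w, f.B a b = 0 := by
      rintro a ha _ ⟨p, rfl⟩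
      exact (h.B_p p a w).symm.trans (hw _ ((iv_cy t v).aeval p a ha))
    obtain ⟨a, ha, b, hb, rfl⟩ := Submodule.mem_sup.1 hx
    obtain ⟨c, hc, d, hd, rfl⟩ := Submodule.mem_sup.1 hy
    simp [h.B_cy v a ha c hc, h.B_cy w b hb d hd, k a ha d hd, f.B_eq_zero_symm (k c hc b hb)]
  have hle : ∀ e, im (n ^ e) (cy F t v) ≤ U := by
    rintro e _ ⟨x, hx, rfl⟩; exact (iN hU.iv).pow e x (i.cy_le hv hx)
  have hz := (iN hU.iv).pow K v hv
  rcases Nat.mod_two_eq_zero_or_one K with e | e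
  · obtain ⟨w, hw, h1, h2⟩ := hU.nd.exists_perp h.nd (hle 1) hz (par 1 (by omega))
    have iL := (iv_cy (F := F) t v).sup (iv_cy t (n' • w))
    have iZ := h.iv_sup_im iL
    refine ⟨_, h.good1 hU.nd (sup_le (i.cy_le hv) (i.cy_le ((h.iv' hU.iv).sub ε w hw))) hU.iv
      (iso _ fun x hx => by rw [← a1]; exact h1 _ ⟨x, hx, by simp⟩) iL hε
      (Submodule.mem_sup_left ?_) (g1 _ (nz v hv)) h2 ((top w hw h2).trans (sup_le
        (((iN iZ).cy_le (Submodule.mem_sup_left (Submodule.mem_sup_left (self_mem_cy t v)))).trans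
          le_sup_left) ?_)) fun h3 x hx => ?_⟩
    · rw [e2 0 v hv (by omega), pow_zero, one_smul, hu]
      exact Submodule.smul_mem _ _ (((iv_cy t v).aeval _).pow _ _ (self_mem_cy t v))
    · rintro _ ⟨p, rfl⟩
      change aeval n p • w ∈ _
      rw [aeval_divX, add_comm (p.coeff 0 • w)]
      refine Submodule.add_mem_sup ((iN iZ).aeval _ _ ?_)
        (Submodule.smul_mem _ _ (Submodule.mem_span_singleton_self w))
      rw [e1, mul_smul, neg_smul, mul_smul, algebraMap_smul]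
      exact neg_mem (Submodule.smul_mem _ _ (Submodule.mem_sup_right
        ⟨_, Submodule.mem_sup_right (self_mem_cy t _), rfl⟩))
    · have h4 := h3 v (Submodule.mem_sup_left (self_mem_cy t v))
      obtain rfl : K = 0 := by
        by_contra h5
        obtain ⟨K, rfl⟩ := Nat.exists_eq_succ_of_ne_zero h5
        exact h0 (by rw [pow_succ, mul_smul, hn, sub_smul, h4, algebraMap_smul, sub_self, smul_zero])
      have := g1 x (by simpa using hK x hx)
      rw [this, smul_comm, this, smul_smul, hε2, one_smul]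
  · obtain ⟨w, hw, h1, h2⟩ := hU.nd.exists_perp h.nd (hle 0) hz (par 0 (by omega))
    have iL := (iv_cy (F := F) t v).sup (iv_cy t w)
    have iZ := iN (h.iv_sup_im iL)
    exact ⟨_, h.good0 hU.nd (sup_le (i.cy_le hv) (i.cy_le hw)) hU.iv
      (iso _ fun x hx => h1 _ ⟨x, hx, by simp⟩) iL ((top w hw h2).trans (sup_le
        (iZ.cy_le (Submodule.mem_sup_left (Submodule.mem_sup_left (self_mem_cy t v))))
        (iZ.cy_le (Submodule.mem_sup_left (Submodule.mem_sup_right (self_mem_cy t w))))))⟩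

theorem indec (hU : Indec f γ U) : ∃ L, Good f γ γ' U L := by
  obtain ⟨f₀, hf, x, hx, h0, e⟩ := exists_irr (γ + γ') hU.ne (h.ivt hU.iv)
  obtain ⟨k, h1, v, hv, h2⟩ := exists_index hU.ne (h.fit hU f₀ hx h0 e)
  by_cases h3 : ∀ x ∈ U, f.B (aeval (γ + γ') f₀ ^ k • x) (γ • x) = 0
  swap
  · push Not at h3
    obtain ⟨x, hx, h3⟩ := h3
    exact h.case1 hU (p := 1) hf h1 hx (by simpa using h3)
  rw [← map_pow] at h2 h3
  obtain ⟨ε, hε, y, hy, h4, h5⟩ := h.eig hU hv h2 h3
  have hε2 : ε * ε = 1 := by rcases hε with rfl | rfl <;> simp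
  have hu : aeval (γ + γ') (X - C (2 * ε)) = γ' * (γ - algebraMap F A ε) ^ 2 := by
    have hε3 : algebraMap F A ε * algebraMap F A ε = 1 := by rw [← map_mul, hε2, map_one]
    rw [map_sub, aeval_X, aeval_C, map_mul, map_ofNat]
    linear_combination (2 * algebraMap F A ε - γ) * h.inv - γ' * hε3
  obtain ⟨N, hN⟩ := h.fit hU (X - C (2 * ε)) hy h4 (by
    rw [hu, sq, mul_smul, mul_smul, sub_smul γ _ y, h5, algebraMap_smul, sub_self]; simp)
  obtain ⟨K, h6, w, hw, h7⟩ := exists_index (s := γ - algebraMap F A ε) hU.ne ⟨2 * N, fun x hx => by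
    have := congrArg (γ ^ N • ·) (hN x hx)
    simp only [hu, mul_pow, smul_smul, ← mul_assoc] at this
    rwa [← mul_pow, h.inv, one_pow, one_mul, ← pow_mul, smul_zero] at this⟩
  by_cases h8 : ∀ x ∈ U, f.B (aeval (γ + γ') (X - C (2 * ε)) ^ (K / 2) • x) (γ • x) = 0
  · exact h.case2 hU hε h6 hw h7 h8
  push Not at h8
  obtain ⟨x, hx, h8⟩ := h8
  refine h.case1 hU (p := 1) (k := K / 2) (irreducible_X_sub_C (2 * ε)) (fun x hx => ?_) hx
    (by simpa using h8)
  obtain ⟨j, hj⟩ : ∃ j, 2 * (K / 2 + 1) = j + (K + 1) := ⟨2 * (K / 2 + 1) - (K + 1), by omega⟩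
  rw [hu, mul_pow, ← pow_mul, hj, pow_add _ j, mul_smul, mul_smul, h6 x hx]; simp

theorem exists_good (n : ℕ) : ∀ U : Submodule F V, finrank F U = n → Nd f U → Iv γ U →
    ∃ L, Good f γ γ' U L := by
  induction n using Nat.strong_induction_on with
  | _ n ih =>
  intro U hn hU i
  by_cases h0 : U = ⊥
  · subst h0
    exact ⟨⊥, h.good0 hU le_rfl i (fun x hx => by simp [(Submodule.mem_bot F).1 hx])
      (fun x hx => by simp [(Submodule.mem_bot F).1 hx]) bot_le⟩
  by_cases h1 : ∀ W ≤ U, Iv γ W → Nd f W → W ≠ ⊥ → U ≤ W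
  · exact h.indec ⟨hU, i, h0, h1⟩
  push Not at h1
  obtain ⟨W, hW, iW, nW, h2, h3⟩ := h1
  have hs : W ⊔ U ⊓ f.perp W = U := le_antisymm (sup_le hW inf_le_left) fun x hx => by
    obtain ⟨a, ha, b, hb, rfl⟩ := nW.decomp x
    exact Submodule.add_mem_sup ha ⟨by simpa using sub_mem hx (hW ha), hb⟩
  have i' : Iv γ (U ⊓ f.perp W) := fun x hx => ⟨i x hx.1, h.iv_perp iW x hx.2⟩
  obtain ⟨L, hL⟩ := ih _ (hn ▸ Submodule.finrank_lt_finrank_of_lt (lt_of_le_not_ge hW h3)) W rfl nW iW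
  obtain ⟨L', hL'⟩ := ih _ (hn ▸ Submodule.finrank_lt_finrank_of_lt (lt_of_le_not_ge inf_le_left
    fun e => h2 ((Submodule.eq_bot_iff _).2 fun x hx => nW x hx (f.mem_perp'.1 (e (hW hx)).2))))
    (U ⊓ f.perp W) rfl (fun x hx e => hU x hx.1 fun y hy => by
      obtain ⟨a, ha, b, hb, rfl⟩ := Submodule.mem_sup.1 (hs.ge hy)
      rw [f.B_add_right, e b hb, f.mem_perp'.1 hx.2 a ha, add_zero]) i'
  exact ⟨_, hL.sup hL' nW iW i' inf_le_right hs⟩

end Ctx

end CL.Ore
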