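import Mathlib
import Cfsg.Agent.KSG.OreSp2
import Cfsg.Agent.KSG.OreG2

/-! Every element of a symplectic group is a commutator. -/

set_option autoImplicit false

namespace CL.Ore

open Module CL.Witt CL.Witt.Form Polynomial CL.GLn

variable {F : Type*} [Field F] {V : Type*} [AddCommGroup V] [Module F V] [FiniteDimensional F V]
  {f : Form (FormType.alt F) V} {g : V ≃ₗ[F] V} {L : Submodule F V}

/-- A good Lagrangian subspace. -/
structure GoodG (f : Form (FormType.alt F) V) (g : V ≃ₗ[F] V) (L : Submodule F V) : Prop where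
  iso : ∀ x ∈ L, ∀ y ∈ L, f.B x y = 0
  lag : f.perp L ≤ L
  sym : ∀ x ∈ L, ∀ y ∈ L, f.B (g x) y = f.B (g y) x
  fix : ∀ x ∈ L, g x ∈ L → ∃ p ∈ L, ∃ n ∈ L, g p = -p ∧ g n = n ∧ p + n = x
  inv : (∀ x ∈ L, g x ∈ L) → ∀ x, g (g x) = x

theorem exists_goodG (hf : f.Nondeg) (hg : g ∈ f.O) : ∃ L, GoodG f g L := by
  let ρ : LaurentPolynomial F →ₐ[F] Module.End F V := AddMonoidAlgebra.lift F _ ℤ
    ((LinearEquiv.automorphismGroup.toLinearMapMonoidHom).comp (zpowersHom _ g))
  let _ : Module (LaurentPolynomial F) V := Module.compHom V ρ.toRingHom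
  have hs : ∀ (a : LaurentPolynomial F) (x : V), a • x = ρ a x := fun _ _ => rfl
  have : IsScalarTower F (LaurentPolynomial F) V := ⟨fun c a x => by rw [hs, hs, map_smul]; rfl⟩
  have h1 : ∀ x : V, (LaurentPolynomial.T 1 : LaurentPolynomial F) • x = g x := fun x => by
    rw [hs, LaurentPolynomial.T, AddMonoidAlgebra.lift_single]; simp
  have h : Ctx f (LaurentPolynomial.T 1 : LaurentPolynomial F) (LaurentPolynomial.T (-1)) :=
    ⟨hf, by rw [← LaurentPolynomial.T_add]; simp, fun x y => by rw [h1, h1, mem_O_B hg]⟩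
  obtain ⟨L, hL⟩ := h.exists_good _ ⊤ rfl (fun x _ e => hf x fun y => e y trivial) fun _ _ => trivial
  refine ⟨L, hL.iso, fun x hx => hL.lag x trivial (f.mem_perp'.1 hx), fun x hx y hy => ?_,
    fun x hx e => by simpa [h1] using hL.fix x hx (by rwa [h1]), fun e x => by
      simpa [h1] using hL.inv (fun x hx => by rw [h1]; exact e x hx) x trivial⟩
  have := hL.iso _ (hL.tinv x hx) y hy
  rwa [add_smul, f.B_add_left, h.B_g', h1, h1, f.alt_symm (g y), ← sub_eq_add_neg, sub_eq_zero] at this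

theorem exists_fr (hf : f.Nondeg) (iso : ∀ x ∈ L, ∀ y ∈ L, f.B x y = 0) (lag : f.perp L ≤ L)
    {Y : Submodule F V} (h1 : ∀ x ∈ Y, ∀ y ∈ Y, f.B x y = 0) (h2 : Disjoint Y L) :
    ∃ L', Y ≤ L' ∧ Fr f L L' := by
  obtain ⟨M, ⟨h3, h4, h5⟩, h6⟩ := (wellFounded_gt (α := Submodule F V)).has_min
    {M | Y ≤ M ∧ f.TotSing M ∧ Disjoint M L} ⟨Y, le_rfl, (f.alt_totSing_iff Y).2 h1, h2⟩
  have h7 : f.perp M ≤ M ⊔ L := fun x hx => by
    by_contra hc
    refine h6 (M ⊔ F ∙ x) ⟨h3.trans le_sup_left, h4.sup_span (f.alt_q x) hx,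
      Submodule.disjoint_def.2 fun y hy hy' => ?_⟩ (lt_of_le_not_ge le_sup_left fun e =>
        hc (Submodule.mem_sup_left (e (Submodule.mem_sup_right (Submodule.mem_span_singleton_self x)))))
    obtain ⟨a, ha, _, hb, rfl⟩ := Submodule.mem_sup.1 hy
    obtain ⟨c, rfl⟩ := Submodule.mem_span_singleton.1 hb
    rcases eq_or_ne c 0 with rfl | hc0
    · exact Submodule.disjoint_def.1 h5 _ (by simpa using ha) hy'
    · refine absurd ((Submodule.smul_mem_iff _ hc0).1 ?_) hc
      simpa using sub_mem (Submodule.mem_sup_right hy') (Submodule.mem_sup_left ha)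
  have hL := (f.alt_totSing_iff L).2 iso
  have h8 : L ⊓ f.perp M = ⊥ := by
    have := f.perp_anti h7
    rw [hf.perp_perp, f.perp_sup] at this
    exact eq_bot_iff.2 fun x hx => h5.le_bot ⟨this ⟨hx.2, hL.le_perp hx.1⟩, hx.1⟩
  refine ⟨M, h3, Fr.of_isCompl hf hL h4 ⟨disjoint_iff.2 h8, codisjoint_iff.2 (eq_top_iff.2 ?_)⟩⟩
  rw [← f.perp_bot, ← h8, hf.perp_inf, hf.perp_perp]
  exact sup_le_sup lag h4.le_perp

theorem exists_gauss (hf : f.Nondeg) (hg : g ∈ f.O) (iso : ∀ x ∈ L, ∀ y ∈ L, f.B x y = 0)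
    (lag : f.perp L ≤ L) (a : L ≃ₗ[F] L) (h1 : ∀ x y : L, f.B (g x) (a y) = f.B (g y) (a x))
    (h2 : ∀ x : L, g x ∈ L → g x = a x) :
    ∃ L', ∃ h : Fr f L L', ∃ v ∈ Ur f L', ∃ u ∈ Ur f L, g = v * h.lev a * u := by
  obtain ⟨L', h3, h⟩ := exists_fr hf iso lag (Y := LinearMap.range
    ((g : V →ₗ[F] V) ∘ₗ L.subtype - L.subtype ∘ₗ a)) (by
      rintro _ ⟨x, rfl⟩ _ ⟨y, rfl⟩
      change f.B (g x - a x) (g y - a y) = 0
      rw [f.B_sub_left, f.B_sub_right, f.B_sub_right, mem_O_B hg, iso _ x.2 _ y.2,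
        iso _ (a x).2 _ (a y).2, f.alt_symm (g y), h1]
      ring) (Submodule.disjoint_def.2 (by
      rintro _ ⟨x, rfl⟩ e
      exact sub_eq_zero.2 (h2 x (by simpa using add_mem e (a x).2))))
  obtain ⟨v, hv, d, hd, u, hu, e1, e2⟩ := h.gauss hg a fun l => h.r.le_perp (h3 ⟨l, rfl⟩)
  refine ⟨L', h, v, hv, u, hu, e2.trans ?_⟩
  rw [h.ext_Lv hd (h.lev_mem a) (fun l hl => (e1 ⟨l, hl⟩).trans (h.lev_left a ⟨l, hl⟩).symm)
    fun x hx => by simp [h.eq_zero (lag hx.1) hx.2]]

theorem neg_comm [Finite F] (hf : f.Nondeg) :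
    ∃ a b : f.O, ∀ x, (a * b * a⁻¹ * b⁻¹).1 x = -x := by
  obtain ⟨α, β, h0⟩ : ∃ α β : F, α ^ 2 + β ^ 2 = -1 := by
    obtain ⟨p, hp⟩ := CharP.exists F
    have := Fact.mk (CharP.char_is_prime F p)
    obtain ⟨a, b, h⟩ := CharP.sq_add_sq F p (-1)
    exact ⟨a, b, by simpa using h⟩
  obtain ⟨m, e, he⟩ := hf.exists_symplectic_basis
  have h1 := he.B_left
  have h2 := he.B_right
  have h3 := he.B_pair
  have h4 := he.B_pair'
  simp only [Function.comp_apply] at h1 h2 h3 h4
  obtain ⟨a, ha, ea⟩ := IsIsom.exists_mem_O hf (f.isIsom_of_basis f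
    (e.constr F (Sum.elim (fun i => e (.inr i)) fun i => -e (.inl i))) e (by
      rintro (i | i) (j | j) <;> simp [h1, h2, h3, h4, FormType.alt_ε] <;> split_ifs <;> simp)
    fun _ => by rw [f.alt_q, f.alt_q])
  obtain ⟨b, hb, eb⟩ := IsIsom.exists_mem_O hf (f.isIsom_of_basis f
    (e.constr F (Sum.elim (fun i => α • e (.inl i) + β • e (.inr i))
      fun i => β • e (.inl i) - α • e (.inr i))) e (by
      rintro (i | i) (j | j) <;> simp [h1, h2, h3, h4, FormType.alt_ε, FormType.alt_σ] <;>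
        split_ifs <;> first | rfl | ring1 | linear_combination h0 | linear_combination -h0)
    fun _ => by rw [f.alt_q, f.alt_q])
  have a1 := fun i => (ea (e i)).trans (e.constr_basis F _ i)
  have b1 := fun i => (eb (e i)).trans (e.constr_basis F _ i)
  have k : (a : V →ₗ[F] V) ∘ₗ b = -((b : V →ₗ[F] V) ∘ₗ a) := e.ext (by
    rintro (i | i) <;> simp [a1, b1] <;> abel)
  refine ⟨⟨a, ha⟩, ⟨b, hb⟩, fun x => ?_⟩
  have := LinearMap.congr_fun k (a⁻¹ (b⁻¹ x))
  simpa using this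

theorem invol_comm [Finite F] (hf : f.Nondeg) (hg : g ∈ f.O) (h2 : (2 : F) ≠ 0)
    (h : ∀ x, g (g x) = x) : ∃ a ∈ f.O, ∃ b ∈ f.O, g = a * b * a⁻¹ * b⁻¹ := by
  set W := LinearMap.ker ((g : V →ₗ[F] V) - LinearMap.id)
  have hW : ∀ x, x ∈ W ↔ g x = x := fun x => by simp [W, sub_eq_zero]
  have h1 : Disjoint W (f.perp W) := Submodule.disjoint_def.2 fun y hy hy' => hf.right y fun v => by
    have := f.mem_perp.1 hy' (v + g v) ((hW _).2 (by rw [map_add, h, add_comm]))
    rw [f.B_add_left, ← mem_O_B hg (g v), h, (hW y).1 hy, ← two_mul] at this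
    exact (mul_eq_zero.1 this).resolve_left h2
  have hc := hf.isCompl_perp h1
  obtain ⟨a, b, e⟩ := neg_comm (hf.restrict_perp ((f.restrict_nondeg_iff W).2 h1))
  refine ⟨_, ((f.fixEquiv hc).symm a).2.1, _, ((f.fixEquiv hc).symm b).2.1, LinearEquiv.ext fun x => ?_⟩
  obtain ⟨w, u, rfl⟩ := exists_add_of_isCompl hc x
  have := f.fixEquiv_symm_apply hc (a * b * a⁻¹ * b⁻¹) w u
  rw [e, map_mul, map_mul, map_mul, map_inv, map_inv] at this
  refine Eq.trans ?_ this.symm
  rw [map_add, (hW w).1 w.2, add_right_inj, Submodule.coe_neg, eq_neg_iff_add_eq_zero]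
  refine Submodule.disjoint_def.1 h1 _ ((hW _).2 (by rw [map_add, h, add_comm]))
    (f.mem_perp.2 fun y hy => ?_)
  rw [f.B_add_right, ← (hW y).1 hy, mem_O_B hg, (hW y).1 hy, f.mem_perp.1 u.2 y hy, add_zero]

omit [FiniteDimensional F V] in
theorem fp_tri {m j : ℕ} (hm : 0 < m) (hj : 0 < j) {α β : F} (hβ : β ≠ 0)
    (h : ∀ y : AlgebraicClosure F, y ^ m = algebraMap F _ α * y ^ j + algebraMap F _ β →
      y ^ j ≠ (algebraMap F _ α * y ^ j + algebraMap F _ β) *
        (algebraMap F _ α + algebraMap F _ β * y ^ j)) :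
    Fp (RingHom.id F) (X ^ m - C α * X ^ j - C β) := fun y hy => by
  simp only [map_sub, map_mul, map_pow, aeval_X, aeval_C, map_id] at hy ⊢
  have h0 : y ≠ 0 := by
    rintro rfl
    simp [hm.ne', hj.ne', hβ] at hy
  refine ⟨h0, fun e => h y (by linear_combination hy) ?_⟩
  rw [inv_pow, inv_pow] at e
  have := pow_ne_zero m h0
  have := pow_ne_zero j h0
  field_simp at e
  linear_combination e + (algebraMap F _ α + algebraMap F _ β * y ^ j) * hy

theorem exists_poly [Fintype F] {m n : ℕ} (hm : 1 ≤ m) (h1 : m = 1 → 4 ≤ Fintype.card F)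
    (h2 : m = 2 → 3 ≤ Fintype.card F) (he : Even (m - n))
    (h3 : ¬ (Fintype.card F = 3 ∧ m = 2 ∧ n = 0)) : ∃ (j : ℕ) (α β : F), 0 < j ∧
      (j < m ∨ j = 1 ∧ m = 1) ∧ β ≠ 0 ∧ (j < m ∨ α = 0) ∧ α * (-1) ^ (j - n) = α ∧
        Fp (RingHom.id F) (X ^ m - C α * X ^ j - C β) := by
  have hc := FiniteField.cast_card_eq_zero F
  have hc' : (Fintype.card F : AlgebraicClosure F) = 0 := by
    rw [← map_natCast (algebraMap F _), hc, map_zero]
  have := Fintype.one_lt_card (α := F)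
  obtain h | h | h : Fintype.card F = 2 ∨ Fintype.card F = 3 ∨ 4 ≤ Fintype.card F := by omega
  · rw [h] at hc hc'
    have h4 : (-1 : F) = 1 := by linear_combination -hc
    push_cast at hc'
    refine ⟨if m % 3 = 2 then 2 else 1, 1, 1, by split_ifs <;> omega, by split_ifs <;> omega,
      one_ne_zero, by split_ifs <;> omega, by simp [h4], fp_tri hm (by split_ifs <;> omega)
        one_ne_zero fun y e1 e2 => ?_⟩
    rw [map_one] at e1 e2
    have h5 : ∀ y : AlgebraicClosure F, y ^ 2 + y + 1 = 0 → ∀ k, y ^ k = y ^ (k % 3) := fun y e k => by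
      have : y ^ 3 = 1 := by linear_combination (y - 1) * e
      conv_lhs => rw [← Nat.div_add_mod k 3, pow_add, pow_mul, this, one_pow, one_mul]
    split_ifs at e1 e2 with h6
    · have h7 : y ^ 2 + y + 1 = 0 := pow_eq_zero_iff two_ne_zero |>.1 (by
        linear_combination -e2 + (y ^ 3 + y ^ 2 + y) * hc')
      rw [h5 y h7, h6] at e1
      simp at e1
    · have h7 : y ^ 2 + y + 1 = 0 := by linear_combination -e2
      rw [h5 y h7] at e1
      obtain h8 | h8 : m % 3 = 0 ∨ m % 3 = 1 := by omega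
      · rw [h8] at e1
        have : y = 0 := by linear_combination -e1
        simp [this] at h7
      · simp [h8] at e1
  · rw [h] at hc hc'
    push_cast at hc'
    refine ⟨if n = 0 then 2 else 1, 1, 1, by split_ifs <;> omega, ?_, one_ne_zero, ?_,
      by split_ifs with h <;> [simp [h]; simp [show 1 - n = 0 by omega]],
        fp_tri hm (by split_ifs <;> omega) one_ne_zero fun y e1 e2 => ?_⟩
    · obtain ⟨k, hk⟩ := he
      split_ifs <;> omega
    · obtain ⟨k, hk⟩ := he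
      split_ifs <;> omega
    rw [map_one] at e1 e2
    generalize hz : y ^ (if n = 0 then 2 else 1) = z at e1 e2
    obtain rfl : z = 1 := sub_eq_zero.1 (pow_eq_zero_iff two_ne_zero |>.1 (by
      linear_combination -e2 - z * hc'))
    have : y ^ m = 1 := by
      split_ifs at hz with h6
      · obtain ⟨k, hk⟩ := he
        rw [show m = 2 * k by omega, pow_mul, hz, one_pow]
      · rw [pow_one] at hz; rw [hz, one_pow]
    rw [this] at e1
    simp at e1
  · classical
    obtain ⟨β, hβ⟩ : ∃ β : F, β ∉ ({0, 1, -1} : Finset F) := by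
      by_contra hc
      push Not at hc
      have := (Finset.card_le_card (show Finset.univ ⊆ _ from fun x _ => hc x)).trans
        Finset.card_le_three
      rw [Finset.card_univ] at this
      omega
    simp only [Finset.mem_insert, Finset.mem_singleton, not_or] at hβ
    refine ⟨1, 0, β, one_pos, by omega, hβ.1, Or.inr rfl, by simp,
      fp_tri hm one_pos hβ.1 fun y e1 e2 => ?_⟩
    simp only [map_zero, zero_mul, zero_add, pow_one] at e1 e2
    have h0 : y ≠ 0 := by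
      rintro rfl
      exact hβ.1 (by simpa [show m ≠ 0 by omega] using e1.symm)
    have : β * β = 1 := (algebraMap F (AlgebraicClosure F)).injective (mul_right_cancel₀ h0 (by
      rw [map_mul, map_one]; linear_combination -e2))
    exact (mul_self_eq_one_iff.1 this).elim hβ.2.1 hβ.2.2

theorem comm_sign [Fintype F] (hf : f.Nondeg) (hg : g ∈ f.O) (h : GoodG f g L)
    (hm : 1 ≤ finrank F L) (h1 : finrank F L = 1 → 4 ≤ Fintype.card F)
    (h2 : finrank F L = 2 → 3 ≤ Fintype.card F) {N P : Submodule F L} (hc : IsCompl N P)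
    (he : Even (finrank F P)) (h3 : ∀ n ∈ N, ∀ p ∈ P, f.B (g n) p = 0)
    (h4 : ∀ n ∈ N, ∀ p ∈ P, g (n + p) ∈ L → g (n + p) = n - p) :
    ∃ a ∈ f.O, ∃ b ∈ f.O, g = a * b * a⁻¹ * b⁻¹ := by
  have : Finite V := Module.finite_of_finite F
  let a : L ≃ₗ[F] L := dsum hc hc (LinearEquiv.refl F N) (LinearEquiv.neg F)
  have ha : ∀ (n : N) (p : P), a (n + p) = n - p := fun n p => by
    rw [dsum_add, sub_eq_add_neg]; rfl
  obtain ⟨L', hL, v, hv, u, hu, e⟩ := exists_gauss hf hg h.iso h.lag a (fun x y => by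
    obtain ⟨n, p, rfl⟩ := exists_add_of_isCompl hc x
    obtain ⟨n', p', rfl⟩ := exists_add_of_isCompl hc y
    simp [ha, h3 _ n.2 _ p'.2, h3 _ n'.2 _ p.2, h.sym _ (p : L).2 _ (n' : L).2,
      h.sym _ (p' : L).2 _ (n : L).2, h.sym _ (n : L).2 _ (n' : L).2,
      h.sym _ (p : L).2 _ (p' : L).2]) fun x hx => by
    obtain ⟨n, p, rfl⟩ := exists_add_of_isCompl hc x
    rw [ha]; exact h4 _ n.2 _ p.2 hx
  have hd := Submodule.finrank_add_eq_of_isCompl hc
  have hN : ∀ g ∈ f.O, ∀ x ∈ f.O, g * x * g⁻¹ ∈ f.O := fun g hg x hx =>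
    mul_mem (mul_mem hg hx) (inv_mem hg)
  let e₀ : Basis (Fin (finrank F N + finrank F P)) F L := (((finBasis F N).prod (finBasis F P)).map
    (N.prodEquivOfIsCompl P hc)).reindex finSumFinEquiv
  by_cases h5 : Fintype.card F = 3 ∧ finrank F N + finrank F P = 2 ∧ finrank F N = 0
  · obtain ⟨h5, h6, h7⟩ := h5
    have hc3 := FiniteField.cast_card_eq_zero F
    obtain ⟨j, α, β, k0, k1, k2, k3, -, k4⟩ := exists_poly (F := F) (m := 2) (n := 2) (by omega)
      (by omega) (by omega) (by simp) (by simp)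
    have h8 : ∀ x : F, x ≠ 0 → x * x = 1 := fun x hx => by
      have := FiniteField.pow_card_sub_one_eq_one x hx
      rwa [h5, sq] at this
    obtain rfl : j = 1 := by omega
    have k5 : Irreducible (X ^ 2 - C α * X ^ 1 - C β : F[X]) := by
      refine irreducible_of_degree_le_three_of_not_isRoot (by
        rw [show (X ^ 2 - C α * X ^ 1 - C β : F[X]).natDegree = 2 by compute_degree!]; simp)
        fun x hx => ?_
      have h9 : aeval (algebraMap F (AlgebraicClosure F) x) (X ^ 2 - C α * X ^ 1 - C β : F[X]) = 0 := by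
        rw [aeval_algebraMap_apply_eq_algebraMap_eval, hx.eq_zero, map_zero]
      obtain ⟨h10, h11⟩ := k4 _ h9
      rw [map_id, ← map_inv₀, ← eq_inv_of_mul_eq_one_left (h8 x (by simpa using h10))] at h11
      exact h11 h9
    have k6 : β = 1 := by
      by_contra k6
      have k7 : β = -1 := (mul_self_eq_one_iff.1 (h8 β k2)).resolve_left k6
      obtain ⟨y, hy⟩ := IsAlgClosed.exists_aeval_eq_zero (AlgebraicClosure F) _ k5.degree_pos.ne'
      obtain ⟨h10, h11⟩ := k4 y hy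
      simp only [map_id, map_sub, map_mul, map_pow, aeval_X, aeval_C, k7, map_neg, map_one] at hy h11
      refine h11 ?_
      field_simp
      linear_combination hy
    obtain ⟨b, -, hb, -⟩ := exists_companion (e₀.reindex (finCongr h6)) one_pos k1 α β k2 k3 1
      (fun _ => 1) (by simp) (by simp) rfl rfl
    have k7 : ∀ x, a x = -x := fun x => by
      obtain ⟨n, p, rfl⟩ := exists_add_of_isCompl hc x
      have := finrank_zero_iff.1 h7
      rw [ha, Subsingleton.elim n 0]; simp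
    have k8 : aeval (((a * b)⁻¹ : L ≃ₗ[F] L) : Module.End F L)
        (X ^ 2 - C α * X ^ 1 - C β : F[X]) = 0 := LinearMap.ext fun x => by
      obtain ⟨x, rfl⟩ := (a * b * (a * b)).surjective x
      have := LinearMap.congr_fun hb x
      have e2 : ∀ y, (a * b)⁻¹ ((a * b) y) = y := (a * b).symm_apply_apply
      simp only [map_sub, map_mul, aeval_X, aeval_C, sq, pow_one, k6, map_one, LinearMap.sub_apply,
        Module.End.mul_apply, LinearEquiv.coe_coe, LinearMap.zero_apply, Module.End.one_apply,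
        Module.algebraMap_end_apply, LinearEquiv.mul_apply (a * b), e2] at this ⊢
      simp only [LinearEquiv.mul_apply, k7, map_neg, neg_neg, smul_neg]
      rw [← neg_eq_zero, ← this]; abel
    obtain ⟨c, hc, e1⟩ := hL.swap_conj (x := a * b) k5 (by monicity!) (by rw [← hd, h6]; compute_degree!)
      hb (by rwa [show (FormType.alt F).σ = RingHom.id F from rfl, map_id])
    simpa [e] using hL.comm_lev hN hc (hL.lev_mem b).1.1 e1 k4 k4 (Or.inr k8) hb hv hu
  obtain ⟨j, α, β, k0, k1, k2, k3, k4, k5⟩ := exists_poly (F := F) (n := finrank F N) (hd ▸ hm)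
    (hd ▸ h1) (hd ▸ h2) (by simpa using he) h5
  obtain ⟨b, c, hb, e1⟩ := exists_companion e₀ k0 k1 α β k2 k3 a (fun i => (-1) ^ (i - finrank F N))
    (by simp) (fun i => by
      obtain ⟨i | i, rfl⟩ := finSumFinEquiv.surjective i
      · have := ha (finBasis F N i) 0
        simp only [e₀, Basis.reindex_apply, Equiv.symm_apply_apply]
        simp_all [show (i : ℕ) + 1 - finrank F N = 0 by omega, show (i : ℕ) - finrank F N = 0 by omega]
      · have := ha 0 (finBasis F P i)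
        simp only [e₀, Basis.reindex_apply, Equiv.symm_apply_apply]
        simp_all [show finrank F N + (i : ℕ) + 1 - finrank F N = i + 1 by omega, pow_succ])
    (by simp [he.neg_one_pow]) (by simpa using k4)
  have k6 : aeval ((a * b : L ≃ₗ[F] L) : Module.End F L) (X ^ (finrank F N + finrank F P) -
      C α * X ^ j - C β : F[X]) = 0 :=
    (Simil.aeval_eq_zero_iff ⟨c, fun v => by rw [e1]; simp⟩ _).1 hb
  simpa [e] using hL.comm_lev hN (hL.lev_mem c).1.1 (hL.lev_mem b).1.1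
    (by rw [e1, map_mul, map_mul, map_inv]) k5 k5 (Or.inl k6) hb hv hu

theorem sp_comm [Fintype F] (hf : f.Nondeg) (hg : g ∈ f.O) {m : ℕ} (hV : finrank F V = 2 * m)
    (hm : 1 ≤ m) (h1 : m = 1 → 4 ≤ Fintype.card F) (h2 : m = 2 → 3 ≤ Fintype.card F) :
    ∃ a ∈ f.O, ∃ b ∈ f.O, g = a * b * a⁻¹ * b⁻¹ := by
  obtain ⟨L, h⟩ := exists_goodG hf hg
  obtain rfl : m = finrank F L := by
    have := hf.finrank_add_finrank_perp L
    rw [le_antisymm h.lag ((f.alt_totSing_iff L).2 h.iso).le_perp] at this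
    omega
  by_cases h3 : (2 : F) = 0
  · refine comm_sign hf hg h hm h1 h2 isCompl_top_bot (by simp) (by simp) ?_
    rintro n - p rfl e
    simp only [ZeroMemClass.coe_zero, add_zero, sub_zero] at e ⊢
    obtain ⟨p, -, q, -, e1, e2, e3⟩ := h.fix n n.2 e
    rw [← e3, map_add, e1, e2, neg_eq_of_add_eq_zero_left (by rw [← two_smul F, h3, zero_smul])]
  by_cases h4 : ∀ x ∈ L, g x ∈ L
  · exact invol_comm hf hg h3 (h.inv h4)
  let P := LinearMap.ker ((g : V →ₗ[F] V) ∘ₗ L.subtype + L.subtype)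
  let M := LinearMap.ker ((g : V →ₗ[F] V) ∘ₗ L.subtype - L.subtype)
  have hP : ∀ x, x ∈ P ↔ g x = -x := fun x => by simp [P, add_eq_zero_iff_eq_neg]
  have hM : ∀ x, x ∈ M ↔ g x = x := fun x => by simp [M, sub_eq_zero]
  obtain ⟨N, hN, hc⟩ := Disjoint.exists_isCompl (a := M) (b := P) (Submodule.disjoint_def.2
    fun x e1 e2 => by
      have := ((hM x).1 e1).symm.trans ((hP x).1 e2)
      rwa [eq_neg_iff_add_eq_zero, ← two_smul F, smul_eq_zero, or_iff_right h3,
        Submodule.coe_eq_zero] at this)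
  have k : ∀ N P' : Submodule F L, IsCompl N P' → M ≤ N → P ≤ P' →
      ∀ n ∈ N, ∀ p ∈ P', g (n + p) ∈ L → g (n + p) = n - p := fun N P' hc h5 h6 n hn p hp e => by
    obtain ⟨p', hp', n', hn', e1, e2, e3⟩ := h.fix _ (n + p).2 e
    have e4 : n - ⟨n', hn'⟩ = ⟨p', hp'⟩ - p := Subtype.ext (by
      rw [Submodule.coe_sub, Submodule.coe_sub, sub_eq_sub_iff_add_eq_add]; exact e3.symm)
    have := Submodule.disjoint_def.1 hc.disjoint _ (sub_mem hn (h5 ((hM ⟨n', hn'⟩).2 e2)))
      (e4 ▸ sub_mem (h6 ((hP ⟨p', hp'⟩).2 e1)) hp)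
    rw [sub_eq_zero.1 this, ← sub_eq_zero.1 (e4.symm.trans this), map_add, e1, e2, sub_eq_add_neg]
  have k1 : ∀ p ∈ P, ∀ x ∈ L, f.B (g x) p = 0 := fun p hp x hx => by
    rw [h.sym x hx p p.2, (hP p).1 hp, h.iso _ (neg_mem p.2) x hx]
  rcases Nat.even_or_odd (finrank F P) with h5 | h5
  · exact comm_sign hf hg h hm h1 h2 hc h5 (fun n _ p hp => k1 p hp n n.2) (k N P hc hN le_rfl)
  obtain ⟨z, hz, h6⟩ : ∃ z ∈ N, f.B (g z) z ≠ 0 := by
    by_contra h6
    push Not at h6 h4
    obtain ⟨x, hx, h4⟩ := h4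
    have h7 : ∀ z : L, f.B (g z) z = 0 := fun z => by
      obtain ⟨n, p, rfl⟩ := exists_add_of_isCompl hc z
      simp [h6 _ n.2, k1 _ p.2, h.sym _ (p : L).2 _ (n : L).2]
    refine h4 (h.lag (f.mem_perp'.2 fun y hy => ?_))
    have := h7 ⟨x + y, add_mem hx hy⟩
    simp only [map_add, LinearMap.add_apply, h7 ⟨x, hx⟩, h7 ⟨y, hy⟩, h.sym y hy x hx] at this
    exact (mul_eq_zero.1 (by linear_combination this)).resolve_left h3
  let φ : L →ₗ[F] F := f.B (g z) ∘ₗ L.subtype
  have hφ : ∀ x, φ x = f.B (g z) x := fun _ => rfl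
  have hzP : z ∉ P := fun e => h6 (k1 z e z z.2)
  have hc' : IsCompl (N ⊓ LinearMap.ker φ) (P ⊔ F ∙ z) := by
    refine ⟨Submodule.disjoint_def.2 fun x hx hx' => ?_, codisjoint_iff.2 (eq_top_iff.2 fun x _ => ?_)⟩
    · obtain ⟨p, hp, _, hb, rfl⟩ := Submodule.mem_sup.1 hx'
      obtain ⟨c, rfl⟩ := Submodule.mem_span_singleton.1 hb
      obtain rfl : c = 0 := by simpa [φ, k1 p hp z z.2, h6] using LinearMap.mem_ker.1 hx.2
      exact Submodule.disjoint_def.1 hc.disjoint _ hx.1 (by simpa using hp)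
    · obtain ⟨n, p, rfl⟩ := exists_add_of_isCompl hc x
      rw [show (n : L) + p = (n - (φ n / φ z) • z) + (p + (φ n / φ z) • z) by abel]
      exact Submodule.add_mem_sup ⟨sub_mem n.2 (N.smul_mem _ hz), by
        simp [show φ z ≠ 0 from h6]⟩ (Submodule.add_mem_sup p.2
          (Submodule.smul_mem _ _ (Submodule.mem_span_singleton_self z)))
  refine comm_sign hf hg h hm h1 h2 hc' (by
    rw [Submodule.finrank_sup_span_singleton hzP]; exact h5.add_one) (fun n hn p hp => ?_)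
    (k _ _ hc' (le_inf hN fun x hx => ?_) le_sup_left)
  · obtain ⟨q, hq, _, hb, rfl⟩ := Submodule.mem_sup.1 hp
    obtain ⟨c, rfl⟩ := Submodule.mem_span_singleton.1 hb
    have e : f.B (g z) n = 0 := hn.2
    simp [k1 q hq n n.2, h.sym _ n.2 _ z.2, e]
  · rw [LinearMap.mem_ker, hφ, h.sym _ z.2 _ x.2, (hM x).1 hx, h.iso _ x.2 _ z.2]

end CL.Ore
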