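import Mathlib
import Cfsg.Agent.KSG.GLnPole
import Cfsg.Agent.KSG.GLnSemisimple

/-! Factorisation of an operator into two cyclic operators whose characteristic polynomial has a
quadratic factor. -/

set_option autoImplicit false
set_option linter.unusedSectionVars false

namespace CL.Ore

open Module Polynomial CL.GLn Submodule

variable {F : Type*} [Field F] {V : Type*} [AddCommGroup V] [Module F V] [FiniteDimensional F V]

/-- A plane which is not invariant but meets its image. -/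
def HD (S : Module.End F V) : Prop :=
  ∃ a l' : V, a ∈ span F {S a, l'} ∧ l' ∉ F ∙ S a ∧ S a ≠ 0 ∧
    ∃ c ∈ span F {S a, l'}, S c ∉ span F {S a, l'}

theorem exists_not_mem_pair (h : 3 ≤ finrank F V) (x y : V) : ∃ z, z ∉ span F {x, y} := by
  classical
  by_contra hc
  push Not at hc
  have h1 := finrank_span_finset_le_card (R := F) ({x, y} : Finset V)
  have h2 : span F ({x, y} : Set V) = ⊤ := eq_top_iff.2 fun z _ => hc z
  rw [Set.finrank, Finset.coe_pair, h2, finrank_top] at h1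
  have := h1.trans Finset.card_le_two
  omega

theorem hd_or {S : Module.End F V} (hS : Function.Injective S) (h3 : 3 ≤ finrank F V) :
    HD S ∨ (∃ c : F, S = c • LinearMap.id) ∨
      (∀ a, S a ∈ F ∙ a → a = 0) ∧ ∀ a, S (S a) ∈ span F {S a, a} := by
  have h0 : ∀ a, a ≠ 0 → S a ≠ 0 := fun a ha e => ha (hS (by rw [e, map_zero]))
  refine or_iff_not_imp_left.2 fun hd => or_iff_not_imp_left.2 fun hc => ?_
  have k : ∀ a, S a ∈ F ∙ a → a = 0 := fun a ha => by
    by_contra ha0
    have k1 : ∀ a, S a ∈ F ∙ a → a ≠ 0 → ∀ x, x ∉ F ∙ a → ∃ p r : F, S x = p • x + r • a := by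
      intro a ha ha0 x hx
      obtain ⟨s, hs⟩ := mem_span_singleton.1 ha
      have hs0 : s ≠ 0 := by rintro rfl; exact h0 a ha0 (by simpa using hs.symm)
      by_contra hc
      refine hd ⟨a, x, mem_span_pair.2 ⟨s⁻¹, 0, by simp [← hs, hs0]⟩, by
        rwa [← hs, span_singleton_smul_eq hs0.isUnit], h0 a ha0, x, subset_span (by simp), fun e => ?_⟩
      obtain ⟨p, r, e⟩ := mem_span_pair.1 e
      exact hc ⟨r, p * s, by rw [← e, ← hs, mul_smul, add_comm]⟩
    refine hc (LinearMap.exists_eq_smul_id_of_forall_notLinearIndependent fun x hx => ?_)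
    have hx' := LinearIndependent.pair_iff.1 hx
    have k2 : ∀ a, S a ∈ F ∙ a → a ∈ span F {x, S x} := fun a ha => by
      rcases eq_or_ne a 0 with rfl | ha0
      · exact zero_mem _
      by_cases hxa : x ∈ F ∙ a
      · obtain ⟨s, rfl⟩ := mem_span_singleton.1 hxa
        obtain ⟨t, ht⟩ := mem_span_singleton.1 ha
        simpa using (hx' (-t) 1 (by rw [map_smul, ← ht, smul_comm s t]; simp)).2
      obtain ⟨p, r, e⟩ := k1 a ha ha0 x hxa
      have hr : r ≠ 0 := by
        rintro rfl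
        simpa using (hx' (-p) 1 (by simp [e])).2
      exact mem_span_pair.2 ⟨-(r⁻¹ * p), r⁻¹, by rw [e]; match_scalars <;> (field_simp; try ring)⟩
    obtain ⟨z, hz⟩ := exists_not_mem_pair h3 x (S x)
    have hx0 : x ∈ span F {x, S x} := subset_span (by simp)
    have k3 : ∀ y, y ∉ span F {x, S x} → y ∉ F ∙ a := fun y hy e =>
      hy ((span_singleton_le_iff_mem _ _).2 (k2 a ha) e)
    have hxa : x ∉ F ∙ a := fun e => by
      obtain ⟨s, rfl⟩ := mem_span_singleton.1 e
      obtain ⟨t, ht⟩ := mem_span_singleton.1 ha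
      simpa using (hx' (-t) 1 (by rw [map_smul, ← ht, smul_comm s t]; simp)).2
    obtain ⟨p, r, e⟩ := k1 a ha ha0 x hxa
    obtain ⟨p', r', e'⟩ := k1 a ha ha0 z (k3 z hz)
    obtain ⟨p'', r'', e''⟩ := k1 a ha ha0 (x + z) (k3 _ fun h => hz (by simpa using sub_mem h hx0))
    rw [map_add, e, e'] at e''
    have h1 : p' = p'' := by
      by_contra h1
      refine hz ((smul_mem_iff _ (sub_ne_zero.2 h1)).1 ?_)
      rw [show (p' - p'') • z = (p'' - p) • x + (r'' - r - r') • a by
        linear_combination (norm := module) e'']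
      exact add_mem (smul_mem _ _ hx0) (smul_mem _ _ (k2 a ha))
    have h2 : p = p'' := by
      by_contra h2
      refine hxa ((smul_mem_iff _ (sub_ne_zero.2 h2)).1 (mem_span_singleton.2 ⟨r'' - r - r', ?_⟩))
      rw [h1] at e''
      linear_combination (norm := module) -e''
    have hr : r ≠ 0 := by
      rintro rfl
      simpa using (hx' (-p) 1 (by simp [e])).2
    have := k2 (r' • x - r • z) (mem_span_singleton.2 ⟨p, by
      rw [map_sub, map_smul, map_smul, e, e', h1, h2]; module⟩)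
    exact hz ((smul_mem_iff _ hr).1 (by simpa using sub_mem (smul_mem _ r' hx0) this))
  refine ⟨k, fun a => ?_⟩
  by_contra h1
  have ha : a ≠ 0 := by rintro rfl; simp at h1
  refine hd ⟨a, a, subset_span (by simp), fun e => ?_, h0 a ha, S a, subset_span (by simp), h1⟩
  obtain ⟨s, hs⟩ := mem_span_singleton.1 e
  have hs0 : s ≠ 0 := by rintro rfl; exact ha (by simpa using hs.symm)
  exact ha (k a (mem_span_singleton.2 ⟨s⁻¹, by rw [inv_smul_eq_iff₀ hs0, hs]⟩))

theorem hd_pert {S S' : Module.End F V} (hS : Function.Injective S) (hS' : Function.Injective S')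
    (h4 : 4 ≤ finrank F V) {φ : Dual F V} (hφ : φ ≠ 0) {b : V} (hb : b ≠ 0)
    (e : ∀ x, S' x = S x + φ x • b) : HD S ∨ HD S' := by
  have hk := finrank_ker_dual_add_one hφ
  obtain ⟨x₀, hx₀⟩ := LinearMap.surjective_iff_ne_zero.2 hφ 1
  rcases hd_or hS (by omega) with h | ⟨c, rfl⟩ | ⟨h1, h2⟩
  · exact Or.inl h
  · obtain ⟨a, ha, ha0⟩ := (LinearMap.ker φ).ne_bot_iff.1 fun h => by rw [h, finrank_bot] at hk; omega
    have e1 : S' a = c • a := by simp [e, LinearMap.mem_ker.1 ha]
    rcases hd_or hS' (by omega) with h | ⟨c', rfl⟩ | ⟨h1, -⟩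
    · exact Or.inr h
    · have := e x₀
      rw [smul_left_injective F ha0 e1] at this
      simp [hx₀, hb] at this
    · exact absurd (h1 a (mem_span_singleton.2 ⟨c, e1.symm⟩)) ha0
  have h3 : ∃ a, φ a = 0 ∧ φ (S a) ≠ 0 := by
    by_contra hc
    push Not at hc
    obtain ⟨p, r, e1⟩ := mem_span_pair.1 (h2 x₀)
    have h4 := hc (S x₀ - φ (S x₀) • x₀) (by simp [hx₀])
    have : S x₀ - φ (S x₀) • x₀ = 0 := h1 _ (mem_span_singleton.2 ⟨p - φ (S x₀), by
      rw [map_sub, map_smul, ← e1, map_sub, map_add, map_smul, map_smul, map_smul, hx₀] at h4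
      rw [map_sub, map_smul, ← e1]
      simp only [smul_eq_mul, mul_one] at h4
      rw [show r = φ (S x₀) * φ (S x₀) - p * φ (S x₀) by linear_combination h4]
      module⟩)
    simp [h1 x₀ (mem_span_singleton.2 ⟨_, (sub_eq_zero.1 this).symm⟩)] at hx₀
  obtain ⟨a, k1, k2, k3⟩ : ∃ a, φ a = 0 ∧ φ (S a) ≠ 0 ∧ a ∉ span F {S b, b} := by
    by_contra hc
    push Not at hc
    rcases (AddSubgroupClass.subset_union (K := LinearMap.ker (φ ∘ₗ S)) (L := span F {S b, b})
      (H := LinearMap.ker φ)).1 (fun a ha => (eq_or_ne (φ (S a)) 0).imp id (hc a ha)) with h | h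
    · obtain ⟨a, h5, h6⟩ := h3
      exact h6 (h h5)
    · classical
      have h5 := finrank_span_finset_le_card (R := F) ({S b, b} : Finset V)
      rw [Set.finrank, Finset.coe_pair] at h5
      have := (finrank_mono h).trans (h5.trans Finset.card_le_two)
      omega
  have e1 : S' a = S a := by simp [e, k1]
  have ha : a ≠ 0 := by rintro rfl; simp at k2
  refine Or.inr ⟨a, a, subset_span (by simp), fun h => k2 ?_, fun h => ha (hS' (by simp [h])), S' a,
    subset_span (by simp), fun h => k3 ?_⟩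
  · obtain ⟨s, hs⟩ := mem_span_singleton.1 h
    have := congrArg φ hs
    rw [e1] at this hs
    exact (mul_eq_zero.1 (by simpa [k1] using this)).resolve_left (by
      rintro rfl; exact ha (by simpa using hs.symm))
  rw [e1, e] at h
  obtain ⟨s, t, e2⟩ := mem_span_pair.1 ((smul_mem_iff _ k2).1 (by simpa using sub_mem h (h2 a)))
  obtain ⟨p, r, e3⟩ := mem_span_pair.1 (h2 a)
  have e4 : S b = (s * p + t) • S a + (s * r) • a := by
    rw [← e2, map_add, map_smul, map_smul, ← e3]; module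
  have hD : s * (s * r) - t * (s * p + t) ≠ 0 := fun h5 => by
    rcases eq_or_ne s 0 with rfl | hs
    · have : t = 0 := by simpa using h5
      exact hb (by simp [← e2, this])
    · refine hb (h1 b (mem_span_singleton.2 ⟨(s * p + t) / s, ?_⟩))
      rw [e4, ← e2]
      match_scalars
      · field_simp
      · field_simp; linear_combination -h5
  refine (smul_mem_iff _ hD).1 (mem_span_pair.2 ⟨s, -(s * p + t), ?_⟩)
  rw [e4, ← e2]; module

theorem trace_eq_neg_nextCoeff (A : Module.End F V) :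
    LinearMap.trace F V A = -A.charpoly.nextCoeff := by
  rw [LinearMap.trace_eq_matrix_trace F (finBasis F V), Matrix.trace_eq_neg_charpoly_nextCoeff,
    LinearMap.charpoly_toMatrix]

theorem dvd_of_irr {A : Module.End F V} {h p : F[X]} (hi : Irreducible h) {x : V} (hx : x ≠ 0)
    (h1 : aeval A h x = 0) (h2 : aeval A p x = 0) : h ∣ p := by
  by_contra hc
  obtain ⟨u, v, e⟩ := hi.coprime_iff_not_dvd.2 hc
  have := congrArg (fun q => aeval A q x) e
  simp [h1, h2, hx.symm] at this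

theorem eq_of_quad {φ ψ : F[X]} (h1 : φ.Monic) (h2 : ψ.Monic) (d1 : φ.natDegree = 2)
    (d2 : ψ.natDegree = 2) (e0 : φ.coeff 0 = ψ.coeff 0) (e1 : φ.nextCoeff = ψ.nextCoeff) : φ = ψ := by
  rw [nextCoeff_of_natDegree_pos (by omega), nextCoeff_of_natDegree_pos (by omega), d1, d2] at e1
  ext i
  match i with
  | 0 => exact e0
  | 1 => exact e1
  | 2 => rw [← d1, h1.coeff_natDegree, d1, ← d2, h2.coeff_natDegree]
  | i + 3 => rw [coeff_eq_zero_of_natDegree_lt (by omega), coeff_eq_zero_of_natDegree_lt (by omega)]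

theorem exists_quad {g : Module.End F V} (hg : LinearMap.det g = 1) (hd : HD g.dualMap)
    {h φ f₁ : F[X]} (hm : h.Monic) (hi : Irreducible h) (hdeg : h.natDegree + 2 = finrank F V)
    (h0 : h.coeff 0 ≠ 0) (hφ : φ.Monic) (dφ : φ.natDegree = 2) (m₁ : f₁.Monic) (i₁ : Irreducible f₁)
    (d₁ : f₁.natDegree + 1 = finrank F V) :
    ∃ Y : Module.End F V, Simil Y (cyc (h * φ)) ∧ (g * Y).charpoly = h * φ := by
  obtain ⟨a, l', a1, a2, a3, c, c1, c2⟩ := hd
  have hgu : IsUnit g := (LinearMap.isUnit_iff_isUnit_det g).2 (hg ▸ isUnit_one)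
  have hgi := ((Module.End.isUnit_iff g).1 hgu).1
  set l := g.dualMap a with hl
  have hla : ∀ x, l x = a (g x) := fun _ => rfl
  have hv : ∀ y ∈ span F {l, l'}, ∀ x, l x = 0 → l' x = 0 → y x = 0 := fun y hy x e1 e2 => by
    obtain ⟨s, t, rfl⟩ := mem_span_pair.1 hy
    simp [e1, e2]
  obtain ⟨x₀, x1, x2, x3⟩ : ∃ x, l x = 0 ∧ l' x = 0 ∧ ¬ (l (g x) = 0 ∧ l' (g x) = 0) := by
    by_contra hc
    push Not at hc
    have := mem_span_of_iInf_ker_le_ker (L := ![l, l']) (K := g.dualMap c) fun x hx => by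
      simp only [mem_iInf, Fin.forall_fin_two] at hx
      exact hv c c1 _ (hc x hx.1 hx.2).1 (hc x hx.1 hx.2).2
    exact c2 (by simpa [Set.pair_comm] using this)
  obtain ⟨b₁, b1, b2⟩ : ∃ b, l b = 0 ∧ l' b = 1 := by
    by_contra hc
    push Not at hc
    have := mem_span_of_iInf_ker_le_ker (L := ![l]) (K := l') fun x hx => by
      simp only [mem_iInf, Fin.forall_fin_one] at hx
      by_contra h1
      exact hc ((l' x)⁻¹ • x) (by simp [show l x = 0 from hx]) (by simp [show l' x ≠ 0 from h1])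
    exact a2 (by simpa using this)
  obtain ⟨b₂, b3⟩ := LinearMap.surjective_iff_ne_zero.2 a3 1
  have hk := finrank_ker_dual_add_one a3
  obtain ⟨g', rfl⟩ := hgu
  let H₁ := LinearMap.ker l
  replace hk : finrank F H₁ + 1 = finrank F V := hk
  let μ : Dual F H₁ := l' ∘ₗ H₁.subtype
  -- the modified operator on the hyperplane
  have hg' : ∀ x, (g' : Module.End F V) ((g'⁻¹).val x) = x := fun x => by
    rw [← Module.End.mul_apply, Units.mul_inv]; rfl
  have m1 : ∀ x, l x = 0 → l' x = 0 → l ((g'⁻¹).val x) = 0 := fun x e1 e2 => by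
    rw [hla, hg']; exact hv a a1 x e1 e2
  obtain ⟨k, hk1, hk2⟩ : ∃ k : Module.End F H₁, IsUnit k ∧ ∀ x : H₁, μ x = 0 →
      (g' : Module.End F V) (k x) = x := by
    let κ : LinearMap.ker μ →ₗ[F] H₁ := LinearMap.codRestrict _
      (((g'⁻¹ : (Module.End F V)ˣ) : Module.End F V) ∘ₗ H₁.subtype ∘ₗ (LinearMap.ker μ).subtype)
      fun x => m1 _ x.1.2 x.2
    have hκ : ∀ x, (g' : Module.End F V) (κ x) = x := fun x => hg' _
    obtain ⟨k, e⟩ := exists_linearEquiv_restrict_eq (LinearEquiv.ofInjective κ fun x y e =>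
      Subtype.ext (Subtype.ext (by rw [← hκ, e, hκ])))
    exact ⟨k, (Module.End.isUnit_iff _).2 k.bijective, fun x hx => by
      rw [LinearEquiv.coe_coe, ← e ⟨x, hx⟩]; exact hκ _⟩
  obtain ⟨k, rfl⟩ := hk1
  have hk3 : ∀ x, (k : Module.End F H₁) ((k⁻¹).val x) = x := fun x => by
    rw [← Module.End.mul_apply, Units.mul_inv]; rfl
  have hk4 : ∀ y : H₁, μ ((k⁻¹).val y) = 0 →
      (g' : Module.End F V) y = (k⁻¹).val y := fun y hy => by
    rw [← hk2 _ hy, hk3]
  obtain ⟨Y₁, y1, y2, y3⟩ := exists_factor_cyc (k⁻¹).isUnit (l := μ) ⟨⟨x₀, x1⟩, x2, fun e => by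
    have := hk4 _ e
    exact x3 ⟨by rw [this]; exact LinearMap.mem_ker.1 (Subtype.prop _), by rw [this]; exact e⟩⟩ hm (by omega) h0 m₁ (by omega)
  obtain ⟨π, hπ⟩ := H₁.subtype.exists_leftInverse_of_injective (ker_subtype _)
  have hπ' : ∀ a : H₁, π a = a := fun a => LinearMap.congr_fun hπ a
  let T : Module.End F V := H₁.subtype ∘ₗ Y₁ ∘ₗ π + l'.smulRight (b₂ - Y₁ ⟨b₁, b1⟩)
  have hT : ∀ x : H₁, T x = Y₁ x + l' x • (b₂ - Y₁ ⟨b₁, b1⟩) := fun x => by simp [T, hπ']
  have hT' : ∀ x : H₁, l (T x) = l' x := fun x => by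
    simp [hT, b3, LinearMap.mem_ker.1 (Y₁ _).2]
  have : Nontrivial V := Module.nontrivial_of_finrank_pos (R := F) (by omega)
  obtain ⟨Y, z1, z2⟩ := pole_placement T l (fun U hU hU' => eq_bot_iff.2 fun u hu => by
    have k1 : ∀ u (hu : u ∈ U), l' u = 0 := fun u hu => (hT' ⟨u, hU hu⟩).symm.trans (hU (hU' hu))
    have k2 : ∀ P : F[X], (aeval Y₁ P ⟨u, hU hu⟩ : V) ∈ U := fun P => by
      induction P using Polynomial.induction_on with
      | C a => simpa using U.smul_mem a hu
      | add p q hp hq => simpa using add_mem hp hq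
      | monomial n a h =>
        rw [pow_succ, ← mul_assoc, mul_comm, map_mul, aeval_X, Module.End.mul_apply]
        have := hU' h
        rwa [mem_comap, hT, k1 _ h, zero_smul, add_zero] at this
    by_contra h1
    obtain ⟨e, he⟩ := y1
    have := Fact.mk i₁
    obtain ⟨P, hP⟩ := AdjoinRoot.mk_surjective (e ⟨b₁, b1⟩ / e ⟨u, hU hu⟩)
    have k3 := intertwine_aeval (e : H₁ →ₗ[F] AdjoinRoot f₁) he P ⟨u, hU hu⟩
    rw [aeval_cyc_apply, hP, LinearEquiv.coe_coe, div_mul_cancel₀ _ (by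
      simpa using h1), e.injective.eq_iff] at k3
    simpa [k3, b2] using k1 _ (k2 P)) (hm.mul hφ) (by rw [hm.natDegree_mul hφ]; omega)
  have w1 : ∀ x (e : l x = 0), l' x = 0 → Y x = Y₁ ⟨x, e⟩ := fun x e e' => by
    rw [z1 x e, hT ⟨x, e⟩, e', zero_smul, add_zero]
  have w2 : ∀ x, l x = 0 → l (Y x) = l' x := fun x e => by rw [z1 x e, hT' ⟨x, e⟩]
  have w3 : ∀ x : LinearMap.ker μ, (g' : Module.End F V) (Y x) =
      (((k⁻¹ : (Module.End F H₁)ˣ) * Y₁).restrict y2 x : H₁) := fun x => by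
    rw [w1 _ x.1.2 x.2]; exact hk4 _ (y2 _ x.2)
  have w4 : ∀ x, l x = 0 → l' x = 0 → l ((g' : Module.End F V) (Y x)) = 0 := fun x e e' => by
    rw [w3 ⟨⟨x, e⟩, e'⟩]; exact LinearMap.mem_ker.1 (Subtype.prop _)
  obtain ⟨s, s1, s2⟩ : ∃ s, l s = 0 ∧ l (Y ((g' : Module.End F V) s)) -
      l ((g' : Module.End F V) (Y s)) - l (Y s) * l ((g' : Module.End F V) s) =
      LinearMap.trace F V Y - LinearMap.trace F V (g' * Y) := by
    generalize LinearMap.trace F V Y - LinearMap.trace F V (g' * Y) = τ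
    by_cases h1 : ∃ x, l x = 0 ∧ l' x = 0 ∧ l (Y ((g' : Module.End F V) x)) ≠ 0
    · obtain ⟨x, e1, e2, e3⟩ := h1
      exact ⟨(τ / l (Y ((g' : Module.End F V) x))) • x, by simp [e1], by
        simp [w4 x e1 e2, w2 x e1, e2, e3]⟩
    push Not at h1
    have h2 : l ((g' : Module.End F V) x₀) ≠ 0 := fun e => x3 ⟨e, by rw [← w2 _ e, h1 x₀ x1 x2]⟩
    refine ⟨b₁ + ((l (Y ((g' : Module.End F V) b₁)) - l ((g' : Module.End F V) (Y b₁)) -
      l ((g' : Module.End F V) b₁) - τ) / l ((g' : Module.End F V) x₀)) • x₀, by simp [b1, x1], ?_⟩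
    simp [w4 x₀ x1 x2, w2 x₀ x1, w2 b₁ b1, x2, b2, h1 x₀ x1 x2, h2]
    ring
  let u := LinearEquiv.transvection s1
  have hu : ∀ x, u x = x + l x • s := fun _ => rfl
  have hu' : ∀ x, u.symm x = x - l x • s := fun x => by
    rw [u.symm_apply_eq, hu]; simp [s1]
  have z3 : Simil (u.conj Y) (cyc (h * φ)) := (simil_conj Y u).symm.trans z2
  have := finiteDimensional_adjoinRoot (hm.mul hφ).ne_zero
  have z4 : (u.conj Y).charpoly = h * φ := z3.charpoly.trans (charpoly_cyc (hm.mul hφ))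
  refine ⟨u.conj Y, z3, ?_⟩
  have t1 : LinearMap.trace F V (g' * u.conj Y) = LinearMap.trace F V (u.conj Y) := by
    have : (g' * u.conj Y : Module.End F V) = g' * Y + (l ∘ₗ Y).smulRight ((g' : Module.End F V) s) -
        l.smulRight ((g' : Module.End F V) (Y s)) -
        l (Y s) • l.smulRight ((g' : Module.End F V) s) := LinearMap.ext fun x => by
      simp [LinearEquiv.conj_apply_apply, hu, hu']; module
    rw [this, LinearMap.trace_conj']
    simp only [map_sub, map_add, map_smul, LinearMap.trace_smulRight, LinearMap.comp_apply, smul_eq_mul]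
    linear_combination s2
  have hμ : μ ≠ 0 := fun e => by simpa [μ, b2] using LinearMap.congr_fun e ⟨b₁, b1⟩
  have := finrank_ker_dual_add_one hμ
  have hpos := hi.natDegree_pos
  have : Nontrivial (LinearMap.ker μ) := Module.nontrivial_of_finrank_pos (R := F) (by omega)
  obtain ⟨x, hx⟩ := exists_ne (0 : LinearMap.ker μ)
  obtain ⟨ψ, e⟩ : h ∣ (g' * u.conj Y : Module.End F V).charpoly := by
    refine dvd_of_irr (A := g'.1 * u.conj Y) hi (x := x) (by simpa using hx) ?_ (by rw [LinearMap.aeval_self_charpoly]; rfl)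
    have := intertwine_aeval (A := ((k⁻¹ : (Module.End F H₁)ˣ) * Y₁).restrict y2)
      (B := g'.1 * u.conj Y) (H₁.subtype ∘ₗ (LinearMap.ker μ).subtype)
      (fun v => (w3 v).symm.trans (by
        simp [LinearEquiv.conj_apply_apply, hu, hu', LinearMap.mem_ker.1 v.1.2, w2 _ v.1.2,
          show l' v = 0 from v.2])) h x
    rw [y3.aeval_cyc_self] at this
    simpa using this.symm
  have hψ : ψ.Monic := hm.of_mul_monic_left (e ▸ LinearMap.charpoly_monic _)
  have dψ : ψ.natDegree = 2 := by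
    have := LinearMap.charpoly_natDegree (g' * u.conj Y : Module.End F V)
    rw [e, hm.natDegree_mul hψ] at this
    omega
  rw [e, eq_of_quad hψ hφ dψ dφ]
  · have := LinearMap.det_eq_sign_charpoly_coeff (g' * u.conj Y : Module.End F V)
    rw [map_mul, hg, one_mul, LinearMap.det_eq_sign_charpoly_coeff, z4, e, mul_coeff_zero,
      mul_coeff_zero] at this
    exact (mul_left_cancel₀ h0 (mul_left_cancel₀ (by simp) this)).symm
  · rw [trace_eq_neg_nextCoeff, trace_eq_neg_nextCoeff, z4, e, hm.nextCoeff_mul hψ,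
      hm.nextCoeff_mul hφ] at t1
    simpa using t1

end CL.Ore
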