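import Mathlib
import Cfsg.Agent.KSG.OreG2
import Cfsg.Agent.CLAS.UniBasic
import Cfsg.Agent.CLAS.Eichler3

/-! Commutators in special unitary groups: determinants and the finishing lemmas. -/

set_option autoImplicit false
set_option linter.unusedSectionVars false

namespace CL.Ore

open Module CL.Witt CL.Witt.Form Polynomial CL.GLn

variable {F : Type*} [Field F] {V : Type*} [AddCommGroup V] [Module F V] [FiniteDimensional F V]
  {L L' : Submodule F V}

section Gen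
variable {T : FormType F} {f : Form T V}

theorem Ur_le_SO (_hL : f.TotSing L) : Ur f L ≤ f.SO := fun u hu => by
  refine f.mem_SO.2 ⟨hu.1.1, ?_⟩
  have hn : IsNilpotent ((LinearMap.id : V →ₗ[F] V) - u) := ⟨3, LinearMap.ext fun x => by
    have h1 := neg_mem (Ur_sub hu x)
    have h2 := neg_mem (hu.2 _ h1)
    have h3 := hu.1.2 _ h2
    rw [neg_sub] at h1 h2 h3
    rw [neg_sub] at h3
    simpa [pow_succ, sub_eq_zero] using h3.symm⟩
  have h3 := LinearMap.eval_charpoly ((LinearMap.id : V →ₗ[F] V) - u.toLinearMap) 1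
  rw [hn.charpoly_eq_X_pow_finrank] at h3
  simp only [eval_pow, eval_X, one_pow, map_one] at h3
  rw [h3]
  congr 1
  ext v; simp

theorem Fr.det_dual (h : Fr f L L') {a : L →ₗ[F] L} {a' : L' →ₗ[F] L'}
    (e : ∀ l y, f.B (a l) (a' y) = f.B l y) : T.σ (LinearMap.det a) * LinearMap.det a' = 1 := by
  classical
  let b := finBasis F L
  let b' := finBasisOfFinrankEq F L' h.finrank_eq.symm
  let G : Matrix (Fin (finrank F L)) (Fin (finrank F L)) F := Matrix.of fun i j => f.B (b i) (b' j)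
  let M := LinearMap.toMatrix b b a
  let M' := LinearMap.toMatrix b' b' a'
  have hM : ∀ j, a (b j) = ∑ i, M i j • b i := fun j => by
    simp only [M, LinearMap.toMatrix_apply]; exact (b.sum_repr _).symm
  have hM' : ∀ j, a' (b' j) = ∑ i, M' i j • b' i := fun j => by
    simp only [M', LinearMap.toMatrix_apply]; exact (b'.sum_repr _).symm
  have h1 : (M.map T.σ).transpose * G * M' = G := by
    ext i j
    simp only [G, Matrix.mul_apply, Matrix.transpose_apply, Matrix.map_apply, Matrix.of_apply]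
    rw [← e (b i) (b' j), hM, hM']
    simp only [map_sum, LinearMap.sum_apply, Finset.sum_mul, Submodule.coe_sum, Submodule.coe_smul,
      LinearMap.map_smulₛₗ, LinearMap.smul_apply, smul_eq_mul, Finset.mul_sum, RingHom.id_apply]
    refine Finset.sum_congr rfl fun k _ => Finset.sum_congr rfl fun l _ => ?_
    ring
  have hG : G.det ≠ 0 := fun h0 => by
    obtain ⟨c, hc0, hc⟩ := Matrix.exists_mulVec_eq_zero_iff.2 h0
    refine hc0 (funext (Fintype.linearIndependent_iff.1 b'.linearIndependent c (Subtype.ext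
      (h.symm.eq_zero (Subtype.prop _) (f.mem_perp.2 fun y hy => ?_)))))
    rw [show y = (∑ i, b.repr ⟨y, hy⟩ i • b i : L) by rw [b.sum_repr]]
    simp only [map_sum, LinearMap.sum_apply, Submodule.coe_sum, Submodule.coe_smul, B_smul_left]
    rw [Finset.sum_comm]
    refine Finset.sum_eq_zero fun i _ => ?_
    have := congrFun hc i
    simp only [Matrix.mulVec, dotProduct, G, Matrix.of_apply, Pi.zero_apply] at this
    rw [← Finset.mul_sum]
    simp only [B_smul_right, mul_comm (c _)]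
    rw [this, mul_zero]
  have h3 := congrArg Matrix.det h1
  rw [Matrix.det_mul, Matrix.det_mul, Matrix.det_transpose, ← RingHom.mapMatrix_apply,
    ← RingHom.map_det, LinearMap.det_toMatrix, LinearMap.det_toMatrix] at h3
  apply mul_left_cancel₀ hG
  linear_combination h3

theorem Fr.det_lev (h : Fr f L L') (a : L ≃ₗ[F] L) : LinearMap.det (h.lev a : V →ₗ[F] V) =
    LinearMap.det (a : L →ₗ[F] L) * (T.σ (LinearMap.det (a : L →ₗ[F] L)))⁻¹ := by
  let a' := (h.lev a).ofSubmodules L' L' (f.mem_stab_iff_map.1 (h.lev_mem a).2).2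
  have e : h.lev a = dsum h.cl h.cl a 1 * dsum h.cr h.cr a' 1 := by
    refine LinearEquiv.toLinearMap_injective (h.ext (fun l hl => ?_) (fun x hx => ?_) fun y hy => ?_)
    · exact (h.lev_left a ⟨l, hl⟩).trans ((congrArg _ (dsum_right h.cr h.cr a' 1
        ⟨l, h.l.le_perp hl⟩)).trans (dsum_left h.cl h.cl a 1 ⟨l, hl⟩)).symm
    · exact (h.lev_mid a hx).trans ((congrArg _ (dsum_right h.cr h.cr a' 1
        ⟨x, hx.1⟩)).trans (dsum_right h.cl h.cl a 1 ⟨x, hx.2⟩)).symm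
    · exact ((congrArg _ (dsum_left h.cr h.cr a' 1 ⟨y, hy⟩)).trans (dsum_right h.cl h.cl a 1
        ⟨_, h.r.le_perp (a' _).2⟩)).symm
  have := h.det_dual (a := a) (a' := a') fun l y => by
    rw [← mem_O_B (h.lev_mem a).1.1 l y, h.lev_left]; rfl
  rw [e, det_mul_equiv, det_dsum, det_dsum, eq_inv_of_mul_eq_one_right this]
  simp [LinearEquiv.one_eq_refl]

theorem Fr.lev_mem_SO (h : Fr f L L') {a : L ≃ₗ[F] L} (ha : LinearMap.det (a : L →ₗ[F] L) = 1) :
    h.lev a ∈ f.SO := f.mem_SO.2 ⟨(h.lev_mem a).1.1, by simp [h.det_lev, ha]⟩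

theorem Fp.eval_ne {σ : F →+* F} {p : F[X]} (h : Fp σ p) {ν : F} (hν : σ ν * ν = 1) :
    p.eval ν ≠ 0 := fun e => by
  refine (h (algebraMap F _ ν) (by rw [aeval_algebraMap_apply_eq_algebraMap_eval, e, map_zero])).2 ?_
  rw [← map_inv₀, ← eq_inv_of_mul_eq_one_left hν, aeval_algebraMap_apply_eq_algebraMap_eval,
    eval_map_apply, e, map_zero, map_zero]

theorem Fr.cent_lev' (h : Fr f L L') {d : V ≃ₗ[F] V} (hd : d ∈ Lv f L L') {b : L ≃ₗ[F] L}
    (hb : ∀ l : L, d l = b l) {ν : F} (hν : T.σ ν * ν = 1) (hm : ∀ x ∈ mid f L L', d x = ν • x)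
    {p : F[X]} (hp : Fp T.σ p) (h0 : aeval (b : Module.End F L) p = 0) :
    (∀ u ∈ Ur f L, u * d = d * u → u = 1) ∧ ∀ u ∈ Ur f L', u * d = d * u → u = 1 := by
  refine h.cent hd p (fun l hl => ?_) (fun l hl e => ?_) fun x hx e => ?_
  · have := intertwine_aeval (A := b.toLinearMap) (B := d.toLinearMap) L.subtype
      (fun v => (hb v).symm) p ⟨l, hl⟩
    rw [h0] at this
    exact this.symm
  · have := intertwine_aeval (A := b⁻¹.toLinearMap) (B := d⁻¹.toLinearMap) L.subtype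
      (fun v => d.eq_symm_apply.2 ((hb _).trans (congrArg _ (b.apply_symm_apply v)))) (p.map T.σ) ⟨l, hl⟩
    exact congrArg Subtype.val (hp.inj (LinearMap.ext b.apply_symm_apply) h0
      (Subtype.ext (this.trans e)))
  · have := intertwine_aeval (A := algebraMap F (Module.End F F) ν) (B := d)
      (LinearMap.toSpanSingleton F V x) (fun v => by simp [hm x hx, mul_smul, smul_comm v]) p 1
    rw [aeval_algebraMap_apply_eq_algebraMap_eval] at this
    simpa [e, hp.eval_ne hν] using this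

/-- All elements of the big cell with Levi part `A` are commutators. -/
def Fr.Com (h : Fr f L L') (A : L ≃ₗ[F] L) : Prop := ∀ v ∈ Ur f L', ∀ u ∈ Ur f L,
  ∃ a ∈ f.SO, ∃ b ∈ f.SO, v * h.lev A * u = a * b * a⁻¹ * b⁻¹

end Gen

variable {σ : F →+* F} {hσ2 : ∀ a, σ (σ a) = a} {f : Form (FormType.herm σ hσ2) V}

attribute [local simp] FormType.herm_σ FormType.herm_ε FormType.herm_π

theorem h90 (hσ : σ ≠ RingHom.id F) (hσ2 : ∀ a, σ (σ a) = a) {d : F} (hd : σ d * d = 1) :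
    ∃ t, t ≠ 0 ∧ t * (σ t)⁻¹ = d := by
  by_cases h : d = -1
  · obtain ⟨z, hz0, hz⟩ := FormType.exists_add_σ_eq_zero hσ hσ2
    exact ⟨z, hz0, by rw [h, eq_neg_of_add_eq_zero_right hz]; field_simp⟩
  · have h1 : 1 + d ≠ 0 := fun h0 => h (by linear_combination h0)
    refine ⟨1 + d, h1, ?_⟩
    rw [mul_inv_eq_iff_eq_mul₀ (by rwa [Ne, map_eq_zero]), map_add, map_one]
    linear_combination -hd

theorem Fr.exists_r {p : V} (hp : f.B p p = 1) (hm : mid f L L' = F ∙ p) {ν : F}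
    (hν : σ ν * ν = 1) : ∃ r ∈ Lv f L L', (∀ l ∈ L, r l = l) ∧ (∀ x ∈ mid f L L', r x = ν • x) ∧
      LinearMap.det (r : V →ₗ[F] V) = ν := by
  obtain ⟨r, hr, h1, h2, h3⟩ := Uni.exists_quasiRefl hp hν
  have h4 : p ∈ mid f L L' := hm ▸ Submodule.mem_span_singleton_self p
  have h5 := fun l hl => h2 l (f.mem_perp'.1 h4.1 l hl)
  refine ⟨r, Fr.mem_Lv hr (fun l hl => by rwa [h5 l hl]) fun y hy => by
    rwa [h2 y (f.mem_perp'.1 h4.2 y hy)], h5, fun x hx => ?_, h3⟩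
  obtain ⟨c, rfl⟩ := Submodule.mem_span_singleton.1 (hm ▸ hx)
  rw [map_smul, h1, smul_comm]

variable [Finite F]

theorem mid_cases (hσ : σ ≠ RingHom.id F) (an : ∀ x ∈ mid f L L', f.q x = 0 → x = 0) :
    mid f L L' = ⊥ ∨ ∃ p, f.B p p = 1 ∧ mid f L L' = F ∙ p := by
  refine or_iff_not_imp_left.2 fun h => ?_
  obtain ⟨x, hx, h0⟩ := (Submodule.ne_bot_iff _).1 h
  have h1 : f.B x x ≠ 0 := fun e => h0 (an x hx (by rwa [herm_q]))
  obtain ⟨c, hc⟩ := Tv.exists_norm_eq_of_involution hσ hσ2 (b := (f.B x x)⁻¹)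
    (by rw [map_inv₀, ← herm_symm])
  have h2 : c ≠ 0 := by rintro rfl; exact h1 (by simpa using hc.symm)
  refine ⟨c • x, by simp [← mul_assoc, mul_comm c (σ c), hc, h1], (Submodule.eq_of_le_of_finrank_le
    ((Submodule.span_singleton_le_iff_mem _ _).2 (Submodule.smul_mem _ c hx)) ?_).symm⟩
  rw [finrank_span_singleton (smul_ne_zero h2 h0)]
  by_contra h3
  obtain ⟨w, h4, h5, h6⟩ := herm_iso2 hσ f (mid f L L') (by omega)
  exact h5 (an w h4 h6)

theorem Fr.eq_lev (h : Fr f L L') (hσ : σ ≠ RingHom.id F)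
    (an : ∀ x ∈ mid f L L', f.q x = 0 → x = 0) {d : V ≃ₗ[F] V} (hd : d ∈ Lv f L L') {b : L ≃ₗ[F] L}
    (hb : ∀ l : L, d l = b l) (e : mid f L L' = ⊥ ∨ LinearMap.det (d : V →ₗ[F] V) =
      LinearMap.det (h.lev b : V →ₗ[F] V)) : d = h.lev b := by
  have k : mid f L L' = ⊥ → d = h.lev b := fun e => h.ext_Lv hd (h.lev_mem b)
    (fun l hl => (hb ⟨l, hl⟩).trans (h.lev_left b ⟨l, hl⟩).symm) fun x hx => by
      rw [e, Submodule.mem_bot] at hx; simp [hx]
  rcases e with e | e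
  · exact k e
  rcases mid_cases hσ an with h1 | ⟨p, hp, hm⟩
  · exact k h1
  obtain ⟨ν, hν⟩ := Submodule.mem_span_singleton.1
    (hm ▸ Lv_mid hd (hm ▸ Submodule.mem_span_singleton_self p))
  have h1 : σ ν * ν = 1 := by simpa [← hν, hp, mul_comm] using mem_O_B hd.1.1 p p
  obtain ⟨r, hr, r1, r2, r3⟩ := Fr.exists_r hp hm h1
  have h2 : d = h.lev b * r := h.ext_Lv hd (mul_mem (h.lev_mem b) hr) (fun l hl => by
    rw [LinearEquiv.mul_apply, r1 l hl, hb ⟨l, hl⟩, h.lev_left b ⟨l, hl⟩]) fun x hx => by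
      rw [LinearEquiv.mul_apply, h.lev_mid b (Lv_mid hr hx), r2 x hx]
      obtain ⟨c, rfl⟩ := Submodule.mem_span_singleton.1 (hm ▸ hx)
      rw [map_smul, ← hν, smul_comm]
  rw [h2, det_mul_equiv, r3, mul_eq_left₀ (det_equiv_ne_zero _)] at e
  exact h.ext_Lv hd (h.lev_mem b) (fun l hl => (hb ⟨l, hl⟩).trans (h.lev_left b ⟨l, hl⟩).symm)
    fun x hx => by rw [h2, LinearEquiv.mul_apply, r2 x hx, e, one_smul]

/-- Reduction to the big cell. -/
theorem Fr.comm_of_com (h : Fr f L L') (hσ : σ ≠ RingHom.id F)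
    (an : ∀ x ∈ mid f L L', f.q x = 0 → x = 0) {g u : V ≃ₗ[F] V} (hg : g ∈ f.SO) (hu : u ∈ Ur f L)
    {A : L ≃ₗ[F] L} (hA : ∀ l : L, h.pl (u (g l)) = A l) (hd : LinearMap.det (A : L →ₗ[F] L) = 1)
    (hc : h.Com A) : ∃ a ∈ f.SO, ∃ b ∈ f.SO, g = a * b * a⁻¹ * b⁻¹ := by
  have hu' := Ur_le_SO h.l hu
  obtain ⟨v, hv, d, h1, w, hw, h2, e⟩ := h.gauss (mul_mem hu' hg).1 A fun l => by
    rw [← hA]; exact h.sub_pl _
  have h3 : d ∈ f.SO := by
    rw [show d = v⁻¹ * (u * g) * w⁻¹ by rw [e]; group]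
    exact mul_mem (mul_mem (inv_mem (Ur_le_SO h.r hv)) (mul_mem hu' hg)) (inv_mem (Ur_le_SO h.l hw))
  obtain rfl := h.eq_lev hσ an h1 h2
    (Or.inr ((f.mem_SO.1 h3).2.trans (f.mem_SO.1 (h.lev_mem_SO hd)).2.symm))
  obtain ⟨a, ha, b, hb, e1⟩ := hc v hv _ (mul_mem hw (inv_mem hu))
  refine ⟨u⁻¹ * a * u, mul_mem (mul_mem (inv_mem hu') ha) hu', u⁻¹ * b * u,
    mul_mem (mul_mem (inv_mem hu') hb) hu', ?_⟩
  calc g = u⁻¹ * (u * g * u⁻¹) * u := by group
    _ = u⁻¹ * (a * b * a⁻¹ * b⁻¹) * u := by rw [← e1, e]; group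
    _ = _ := by group

/-- The finishing lemma when the centraliser has all determinants. -/
theorem Fr.com_of (h : Fr f L L') (hσ : σ ≠ RingHom.id F) {A Y : L ≃ₗ[F] L} {c : V ≃ₗ[F] V}
    (hc : c ∈ f.O) (e : h.lev (A * Y) = c * h.lev Y * c⁻¹) (hY : LinearMap.det (Y : L →ₗ[F] L) = 1)
    (hz : ∀ t : F, t ≠ 0 → ∃ z : Module.End F L, IsUnit z ∧ Commute z Y ∧ LinearMap.det z = t)
    {p : F[X]} (hp : Fp σ p) (h1 : aeval ((A * Y : L ≃ₗ[F] L) : Module.End F L) p = 0 ∨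
      aeval (((A * Y)⁻¹ : L ≃ₗ[F] L) : Module.End F L) (p.map σ) = 0)
    (h2 : aeval (Y : Module.End F L) p = 0) : h.Com A := fun v hv u hu => by
  have : Finite V := Module.finite_of_finite F
  obtain ⟨t, t0, t1⟩ := h90 hσ hσ2 (h.nd.σ_det_mul_det (inv_mem hc))
  obtain ⟨z, z1, z2, rfl⟩ := hz t t0
  let z' := LinearEquiv.ofBijective z ((Module.End.isUnit_iff _).1 z1)
  have e1 : Y = z' * Y * z'⁻¹ := eq_mul_inv_of_mul_eq (LinearEquiv.toLinearMap_injective z2.symm.eq)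
  have h3 : c * h.lev z' ∈ f.SO := f.mem_SO.2 ⟨mul_mem hc (h.lev_mem _).1.1, by
    rw [det_mul_equiv, h.det_lev]
    exact (congrArg _ t1).trans (by rw [det_inv_equiv, mul_inv_cancel₀ (det_equiv_ne_zero _)])⟩
  have e2 : h.lev (A * Y) = c * h.lev z' * h.lev Y * (c * h.lev z')⁻¹ := by
    rw [e]; nth_rw 1 [e1]; rw [map_mul, map_mul, map_inv]; group
  rcases h1 with h1 | h1
  · simpa using h.comm_lev (fun _ hg _ => conj_mem_SO hg) h3 (h.lev_mem_SO hY) e2 hp hp (Or.inl h1) h2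
      hv hu
  · simpa using h.comm_lev (fun _ hg _ => conj_mem_SO hg) h3 (h.lev_mem_SO hY) e2 (hp.map hσ2) hp
      (Or.inr h1) h2 hv hu

/-- The finishing lemma in odd dimension. -/
theorem Fr.com_odd (h : Fr f L L') {p₀ : V} (h0 : f.B p₀ p₀ = 1) (hm : mid f L L' = F ∙ p₀)
    {A Y c : L ≃ₗ[F] L} (e : A * Y = c * Y * c⁻¹) {p : F[X]} (hp : Fp σ p)
    (h2 : aeval (Y : Module.End F L) p = 0) : h.Com A := fun v hv u hu => by
  have : Finite V := Module.finite_of_finite F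
  have := finite_sub (Ur f L)
  have := finite_sub (Ur f L')
  have k : ∀ b : L ≃ₗ[F] L, ∃ r ∈ Lv f L L', ∃ ν, σ ν * ν = 1 ∧ (∀ l ∈ L, r l = l) ∧
      (∀ x ∈ mid f L L', r x = ν • x) ∧ h.lev b * r ∈ f.SO := fun b => by
    have h3 := h.nd.σ_det_mul_det (inv_mem (h.lev_mem b).1.1)
    obtain ⟨r, r0, r1, r2, r3⟩ := Fr.exists_r h0 hm h3
    exact ⟨r, r0, _, h3, r1, r2, f.mem_SO.2 ⟨mul_mem (h.lev_mem b).1.1 r0.1.1, by
      rw [det_mul_equiv, r3, det_inv_equiv, mul_inv_cancel₀ (det_equiv_ne_zero _)]⟩⟩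
  obtain ⟨r, r0, ν, hν, r1, r2, r3⟩ := k Y
  obtain ⟨s, s0, μ, -, s1, s2, s3⟩ := k c
  have k1 : ∀ (b : L ≃ₗ[F] L) (l : L), (h.lev b * r) l = b l := fun b l => by
    rw [LinearEquiv.mul_apply, r1 l l.2, h.lev_left]
  have k2 : ∀ (b : L ≃ₗ[F] L), ∀ x ∈ mid f L L', (h.lev b * r) x = ν • x := fun b x hx => by
    rw [LinearEquiv.mul_apply, r2 x hx, map_smul, h.lev_mid b hx]
  have e1 : h.lev (A * Y) * r * (h.lev c * s) = h.lev c * s * (h.lev Y * r) := by
    refine h.ext_Lv (mul_mem (mul_mem (h.lev_mem _) r0) (mul_mem (h.lev_mem _) s0))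
      (mul_mem (mul_mem (h.lev_mem _) s0) (mul_mem (h.lev_mem _) r0)) (fun l hl => ?_) fun x hx => ?_
    · rw [LinearEquiv.mul_apply, LinearEquiv.mul_apply (h.lev c), s1 l hl, h.lev_left c ⟨l, hl⟩, k1,
        LinearEquiv.mul_apply (h.lev c * s), k1 Y ⟨l, hl⟩, LinearEquiv.mul_apply (h.lev c),
        s1 _ (Subtype.prop _), h.lev_left, e]
      simp
    · rw [LinearEquiv.mul_apply, LinearEquiv.mul_apply (h.lev c), s2 x hx, map_smul, h.lev_mid c hx,
        map_smul, k2 _ x hx, LinearEquiv.mul_apply (h.lev c * s), k2 _ x hx, map_smul,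
        LinearEquiv.mul_apply, s2 x hx, map_smul, h.lev_mid c hx, smul_comm]
  have e2 := eq_mul_inv_of_mul_eq e1
  have h3 : aeval ((A * Y : L ≃ₗ[F] L) : Module.End F L) p = 0 :=
    (Simil.aeval_eq_zero_iff ⟨c, fun v => by rw [e]; simp⟩ _).1 h2
  have m1 := mul_mem (h.lev_mem (A * Y)) r0
  have m2 := mul_mem (h.lev_mem Y) r0
  have := comm_of_cent (fun _ hg _ => conj_mem_SO hg) Ur_le_O Ur_le_O
    (e2 ▸ mul_mem (mul_mem s3 r3) (inv_mem s3)) (inv_mem r3) s3 (by rw [inv_inv, ← e2])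
    (fun w hw => conj_mem_Ur m1.2 hw) (h.cent_lev' m1 (k1 _) hν (k2 _) hp h3).2
    (fun w hw => conj_mem_Ur (inv_mem m2.1) hw) (fun w hw e => (h.cent_lev' m2 (k1 _) hν (k2 _) hp h2).1
      w hw (Commute.inv_right_iff.1 e).eq) hv hu
  simpa [mul_assoc] using this

end CL.Ore
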