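import Mathlib
import Cfsg.Agent.KSG.OreU1

/-! Commutators in special unitary groups: the normal form of a non-scalar element. -/

set_option autoImplicit false
set_option linter.unusedSectionVars false

namespace CL.Ore

open Module CL.Witt CL.Witt.Form Polynomial CL.GLn

variable {F : Type*} [Field F] {V : Type*} [AddCommGroup V] [Module F V] [FiniteDimensional F V]
  {L L' : Submodule F V} {σ : F →+* F} {hσ2 : ∀ a, σ (σ a) = a} {f : Form (FormType.herm σ hσ2) V}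
  {g : V ≃ₗ[F] V}

attribute [local simp] FormType.herm_σ FormType.herm_ε FormType.herm_π

theorem det_add_smul' {D D' : L →ₗ[F] L} (l : Dual F L) (x₀ : L)
    (h : ∀ x, D' x = D x + l x • D x₀) : LinearMap.det D' = (1 + l x₀) * LinearMap.det D := by
  have : D' = D ∘ₗ LinearMap.transvection l x₀ := by
    ext x; simp [h, LinearMap.transvection.apply]
  rw [this, LinearMap.det_comp, LinearMap.transvection.det, mul_comm]

theorem ei_mem_Ur {a w : V} {c : F} (ha : a ∈ L) (hL : f.TotSing L) (hw : w ∈ f.perp L)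
    (h : f.EichOK a w c) : f.ei a w c ∈ Ur f L :=
  ⟨⟨ei_mem_O _ _ _, fun l hl => h.ei_apply_fix (hL.2 a ha l hl) (f.mem_perp'.1 hw l hl)⟩,
    fun x hx => by
      rw [h.ei_apply_of_perp (f.mem_perp.1 hx a ha), sub_sub_cancel_left]
      exact neg_mem (L.smul_mem _ ha)⟩

namespace Fr

variable (h : Fr f L L')

/-- The `L`-block of `g`. -/
noncomputable def ga (g : V ≃ₗ[F] V) : L →ₗ[F] L :=
  LinearMap.codRestrict L (h.pl ∘ₗ g.toLinearMap ∘ₗ L.subtype) fun _ => h.pl_mem _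

theorem ga_coe (l : L) : (h.ga g l : V) = h.pl (g l) := rfl

/-- The functional `l ↦ B w (g l)`. -/
def fn (f : Form (FormType.herm σ hσ2) V) (L : Submodule F V) (g : V ≃ₗ[F] V) (w : V) : Dual F L :=
  f.B w ∘ₗ g.toLinearMap ∘ₗ L.subtype

theorem fn_apply (w : V) (l : L) : fn f L g w l = f.B w (g l) := rfl

theorem ga_mid {a : L} {w : V} {c : F} (hw : w ∈ mid f L L') (e : f.EichOK a w c) (l : L) :
    h.ga (f.ei a w c * g) l = h.ga g l + (-(fn f L g w + c • fn f L g a)) l • a := Subtype.ext (by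
  simp [ga_coe, e.ei_apply, h.pl_right hw.2, h.pl_left a.2, fn_apply, sub_eq_add_neg, add_smul, add_comm])

theorem ga_left {a b : L} (e : f.EichOK a b 0) (l : L) (h0 : f.B b (g l) = 0) :
    h.ga (f.ei a b 0 * g) l = h.ga g l + fn f L g a l • b := Subtype.ext (by
  simp [ga_coe, e.ei_apply, h.pl_left b.2, fn_apply, h0])

variable (an : ∀ x ∈ mid f L L', f.q x = 0 → x = 0)
include h an

theorem mem_of_sing {v : V} (hv : v ∈ f.perp L) (hq : f.q v = 0) : v ∈ L := by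
  obtain ⟨l, hl, x, hx, rfl⟩ := h.decomp_perp hv
  rw [f.q_add, h.l.1 l hl, f.mem_perp.1 hx.1 l hl, map_zero, zero_add, add_zero] at hq
  simpa [an x hx hq] using hl

theorem exists_B_ne (hg : g ∈ f.O) {l : V} (hl : l ∈ L) (h1 : g l ∉ L) : ∃ b : L, f.B b (g l) ≠ 0 := by
  by_contra hc
  push Not at hc
  exact h1 (h.mem_of_sing an (f.mem_perp.2 fun b hb => hc ⟨b, hb⟩) (by rw [mem_O_q hg, h.l.1 l hl]))

theorem step_rank (hσ : σ ≠ RingHom.id F) (hg : g ∈ f.O) :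
    ∃ u ∈ Ur f L, LinearMap.ker (h.ga (u * g)) = ⊥ := by
  obtain ⟨_, ⟨u, hu, rfl⟩, hm⟩ := (wellFounded_lt (α := Submodule F L)).has_min
    ((fun u => LinearMap.ker (h.ga (u * g))) '' Ur f L) ⟨_, 1, one_mem _, rfl⟩
  refine ⟨u, hu, by_contra fun h0 => ?_⟩
  have hg' := mul_mem hu.1.1 hg
  obtain ⟨l, l1, l2⟩ := (Submodule.ne_bot_iff _).1 h0
  obtain ⟨b, hb⟩ := h.exists_B_ne an hg' l.2 fun e => l2 (by
    have := congrArg Subtype.val (LinearMap.mem_ker.1 l1)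
    rwa [ga_coe, h.pl_left e, Submodule.coe_zero, EmbeddingLike.map_eq_zero_iff,
      Submodule.coe_eq_zero] at this)
  obtain ⟨a, a1, a2⟩ : ∃ a : L, a ∉ LinearMap.range (h.ga (u * g)) ∧ f.B ((u * g) l) a ≠ 0 := by
    by_contra hc
    push Not at hc
    rcases (AddSubgroupClass.subset_union (H := ⊤) (K := LinearMap.range (h.ga (u * g)))
      (L := LinearMap.ker (f.B ((u * g) l) ∘ₗ L.subtype))).1
      (fun a _ => or_iff_not_imp_left.2 (hc a)) with h1 | h1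
    · exact h0 (LinearMap.ker_eq_bot_iff_range_eq_top.2 (top_le_iff.1 h1))
    · exact hb (f.B_eq_zero_symm (h1 (Submodule.mem_top (x := b))))
  obtain ⟨c, c0, c1⟩ := FormType.exists_add_σ_eq_zero hσ hσ2
  have e : f.EichOK a 0 c := ⟨h.l.1 a a.2, by simp, by simp [c1, f.q_zero]⟩
  have k := fun x => h.ga_mid (g := u * g) (zero_mem _) e x
  refine hm _ ⟨_, mul_mem (ei_mem_Ur a.2 h.l (zero_mem _) e) hu, rfl⟩
    (SetLike.lt_iff_le_and_exists.2 ⟨fun x hx => ?_, l, l1, fun hx => ?_⟩)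
  · rw [LinearMap.mem_ker, mul_assoc, k] at hx
    by_contra h1
    refine a1 ((Submodule.smul_mem_iff _ fun h2 => h1 ?_).1 (eq_neg_of_add_eq_zero_right hx ▸
      neg_mem (LinearMap.mem_range_self _ x)))
    rwa [h2, zero_smul, add_zero] at hx
  · rw [LinearMap.mem_ker, mul_assoc, k, l1, zero_add, smul_eq_zero] at hx
    rcases hx with hx | rfl
    · exact a2 (f.B_eq_zero_symm (by simpa [fn_apply, c0] using hx))
    · simp at a2

variable [Finite F]

theorem step_det (hσ : σ ≠ RingHom.id F) (hg : g ∈ f.SO) (h0 : LinearMap.ker (h.ga g) = ⊥)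
    {l₀ : V} (hl : l₀ ∈ L) (h1 : g l₀ ∉ L) : ∃ u ∈ Ur f L, LinearMap.det (h.ga (u * g)) = 1 := by
  have hs := LinearMap.range_eq_top.1 (LinearMap.ker_eq_bot_iff_range_eq_top.1 h0)
  have hD : LinearMap.det (h.ga g) ≠ 0 := (LinearMap.det_eq_zero_iff_ker_ne_bot.not_left.2 h0)
  obtain ⟨l, hs0⟩ : ∃ l : L, f.B (h.ga g l) (g l) ≠ 0 := by
    by_contra hc
    push Not at hc
    obtain ⟨b, hb⟩ := h.exists_B_ne an hg.1 hl h1
    obtain ⟨b, rfl⟩ := hs b
    obtain ⟨c, hc0⟩ : ∃ c, σ c ≠ c := by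
      by_contra! hc; exact hσ (RingHom.ext hc)
    have e1 := hc (b + ⟨l₀, hl⟩)
    have e2 := hc (c • b + ⟨l₀, hl⟩)
    have e3 := hc ⟨l₀, hl⟩
    simp [hc b, e3] at e1 e2
    exact hb ((mul_eq_zero.1 (by linear_combination e2 - c * e1)).resolve_left (sub_ne_zero.2 hc0))
  obtain ⟨z, hl', x, hx, y, hy, e⟩ := h.decomp (g l)
  obtain rfl : z = (h.ga g l : V) := by
    rw [ga_coe, e, map_add, map_add, h.pl_left hl', h.pl_right hx.2, h.pl_right (h.r.le_perp hy)]; simp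
  set s := f.B (h.ga g l) (g l) with hs'
  have e1 : f.q x + (s + σ s) = 0 := by
    rw [← h.l.1 l l.2, ← mem_O_q hg.1 l, e, h.q_three hl' hx hy, hs', e, f.B_add_right, f.B_add_right,
      h.l.2 _ hl' _ hl', f.mem_perp.1 hx.1 _ hl']
    simp
  have hσs : σ s ≠ 0 := by rwa [Ne, map_eq_zero]
  have hq : ∀ w, σ (f.q w) = f.q w := fun w => by rw [herm_q, ← herm_symm]
  generalize hτ : 1 - (LinearMap.det (h.ga g))⁻¹ = τ
  obtain ⟨w, hw, e2⟩ : ∃ w ∈ mid f L L', f.q w = τ / s + σ (τ / s) + f.q x / (σ s * s) := by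
    rcases mid_cases hσ an with hm | ⟨p, hp, hm⟩
    · refine ⟨0, zero_mem _, ?_⟩
      let A := LinearEquiv.ofBijective (h.ga g) ⟨LinearMap.ker_eq_bot.1 h0, hs⟩
      obtain ⟨v, hv, d, d1, u, hu, d2, e3⟩ := h.gauss hg.1 A fun l => h.sub_pl _
      have h3 := (f.mem_SO.1 hg).2
      rw [e3, det_mul_equiv, det_mul_equiv, (f.mem_SO.1 (Ur_le_SO h.r hv)).2,
        (f.mem_SO.1 (Ur_le_SO h.l hu)).2, h.eq_lev hσ an d1 d2 (Or.inl hm), h.det_lev, one_mul, mul_one,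
        mul_inv_eq_one₀ (by simpa using det_equiv_ne_zero A)] at h3
      have h4 : σ τ = τ := by
        rw [← hτ, map_sub, map_one, map_inv₀]; exact congrArg (1 - ·⁻¹) h3.symm
      rw [hm, Submodule.mem_bot] at hx
      rw [hx, f.q_zero, zero_add] at e1
      rw [hx, f.q_zero, map_div₀, h4, eq_neg_of_add_eq_zero_right e1]
      ring
    · obtain ⟨c, hc⟩ := Tv.exists_norm_eq_of_involution hσ hσ2
        (b := τ / s + σ (τ / s) + f.q x / (σ s * s)) (by simp [hσ2, hq, mul_comm, add_comm])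
      exact ⟨c • p, hm ▸ Submodule.smul_mem _ _ (Submodule.mem_span_singleton_self p), by
        rw [f.q_smul, herm_q, hp, mul_one, ← hc]; rfl⟩
  have hw' : w - s⁻¹ • x ∈ mid f L L' := sub_mem hw (Submodule.smul_mem _ _ hx)
  have e3 : f.EichOK (h.ga g l) (w - s⁻¹ • x) ((τ - f.B (w - s⁻¹ • x) x) / s) :=
    ⟨h.l.1 _ hl', f.mem_perp.1 hw'.1 _ hl', by
      rw [f.q_sub, e2, f.q_smul]
      simp [← herm_q, hq, hσ2]
      field_simp
      ring⟩
  refine ⟨_, ei_mem_Ur hl' h.l hw'.1 e3, ?_⟩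
  have e4 : f.B (w - s⁻¹ • x) (g l) = f.B (w - s⁻¹ • x) x := by
    rw [e, f.B_add_right, f.B_add_right, f.mem_perp'.1 hw'.1 _ hl', f.mem_perp'.1 hw'.2 _ hy]; simp
  rw [det_add_smul' _ l (h.ga_mid hw' e3), LinearMap.neg_apply, LinearMap.add_apply,
    LinearMap.smul_apply, fn_apply, fn_apply, e4, ← hs', smul_eq_mul, div_mul_cancel₀ _ hs0, ← hτ]
  field_simp
  ring

theorem step_pert (hσ : σ ≠ RingHom.id F) (hg : g ∈ f.O) (h0 : LinearMap.ker (h.ga g) = ⊥)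
    {l₀ : V} (hl : l₀ ∈ L) (h1 : g l₀ ∉ L) (hd : finrank F (mid f L L') + 2 ≤ finrank F L) :
    ∃ u ∈ Ur f L, LinearMap.det (h.ga (u * g)) = LinearMap.det (h.ga g) ∧
      ∃ (a : L) (φ : Dual F L), a ≠ 0 ∧ φ ≠ 0 ∧ ∀ l, h.ga (u * g) l = h.ga g l + φ l • a := by
  have hs := LinearMap.range_eq_top.1 (LinearMap.ker_eq_bot_iff_range_eq_top.1 h0)
  let x : L →ₗ[F] mid f L L' := LinearMap.codRestrict _ ((LinearMap.id - h.pl - h.symm.pl) ∘ₗ
    g.toLinearMap ∘ₗ L.subtype) fun l => h.sub_mem_mid _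
  have e : ∀ l : L, g l = h.ga g l + x l + h.symm.pl (g l) := fun l => by
    simp [x, ga_coe]; abel
  have e1 : ∀ l l' : L, f.B (h.ga g l) (g l') = f.B (h.ga g l) (h.symm.pl (g l')) := fun l l' =>
    (h.symm.B_pl (Subtype.prop _) _).symm
  have e2 : ∀ l l' : L, x l' = 0 → f.B (h.ga g l) (g l') + σ (f.B (h.ga g l') (g l)) = 0 :=
    fun l l' hx => by
      have := h.B_three (h.ga g l).2 (x l).2 (h.symm.pl_mem (g l)) (h.ga g l').2 (x l').2
        (h.symm.pl_mem (g l'))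
      rw [← e, ← e, mem_O_B hg, h.l.2 _ l.2 _ l'.2, hx, f.herm_symm (h.ga g l' : V), ← e1, ← e1] at this
      simpa using this.symm
  obtain ⟨θ, hθ⟩ : ∃ c, σ c ≠ c := by
    by_contra! hc; exact hσ (RingHom.ext hc)
  let κ : L →ₗ[F] V := L.subtype ∘ₗ h.ga g + θ • h.symm.pl ∘ₗ g.toLinearMap ∘ₗ L.subtype
  have hκ : Function.Injective κ := (injective_iff_map_eq_zero _).2 fun l e => by
    have := congrArg h.pl e
    simp only [κ, LinearMap.add_apply, LinearMap.comp_apply, LinearMap.smul_apply, map_add, map_smul,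
      h.pl_right (h.r.le_perp (h.symm.pl_mem _)), Submodule.subtype_apply, h.pl_left (Subtype.prop _),
      smul_zero, add_zero, map_zero, Submodule.coe_eq_zero] at this
    exact LinearMap.ker_eq_bot'.1 h0 l this
  obtain ⟨_, ⟨l, hx, rfl⟩, l0, l1⟩ := herm_iso2 hσ f ((LinearMap.ker x).map κ) (by
    rw [← (Submodule.equivMapOfInjective κ hκ _).finrank_eq]
    have := x.finrank_range_add_finrank_ker
    have := (LinearMap.range x).finrank_le
    omega)
  have l2 : h.ga g l ≠ 0 := fun e => l0 (by rw [LinearMap.ker_eq_bot'.1 h0 l e, map_zero])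
  have l3 : f.B (h.ga g l) (g l) = 0 := by
    have := e2 l l hx
    change f.q (h.ga g l + θ • h.symm.pl (g l)) = 0 at l1
    rw [q_add_smul, h.l.1 _ (Subtype.prop _), h.r.1 _ (h.symm.pl_mem _), ← e1] at l1
    simp only [FormType.herm_π, map_mul] at l1
    exact (mul_eq_zero.1 (by linear_combination σ θ * this - l1)).resolve_left (sub_ne_zero.2 hθ)
  by_cases h2 : fn f L g (h.ga g l) = 0
  · have h3 : ∀ l' : L, f.B (h.ga g l) (g l') = 0 := fun l' => LinearMap.congr_fun h2 l'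
    obtain ⟨b, hb⟩ := h.exists_B_ne an hg hl h1
    have e3 : f.EichOK b (h.ga g l) 0 :=
      ⟨h.l.1 _ b.2, h.l.2 _ b.2 _ (Subtype.prop _), by simp [h.l.1 _ (Subtype.prop _)]⟩
    have k := fun l' => h.ga_left e3 l' (h3 l')
    refine ⟨_, ei_mem_Ur b.2 h.l (h.l.le_perp (Subtype.prop _)) e3, ?_, _, _, l2,
      fun e => hb (LinearMap.congr_fun e ⟨l₀, hl⟩), k⟩
    obtain ⟨b, rfl⟩ := hs b
    have := e2 b l hx
    rw [h3, map_zero, add_zero] at this
    rw [det_add_smul' _ l k, fn_apply, this, add_zero, one_mul]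
  · obtain ⟨c, c0, c1⟩ := FormType.exists_add_σ_eq_zero hσ hσ2
    have e3 : f.EichOK (h.ga g l) 0 c := ⟨h.l.1 _ (Subtype.prop _), by simp, by simp [c1, f.q_zero]⟩
    have k := h.ga_mid (g := g) (zero_mem _) e3
    refine ⟨_, ei_mem_Ur (Subtype.prop _) h.l (zero_mem _) e3, ?_, _, _, l2, fun e => h2 ?_, k⟩
    · simp [det_add_smul' _ l k, fn_apply, l3]
    · exact LinearMap.ext fun y => by simpa [fn_apply, c0] using LinearMap.congr_fun e y

/-- The reduction to the general linear group of `L`. -/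
theorem comm_of_nf (hσ : σ ≠ RingHom.id F) (hg : g ∈ f.SO) {l₀ : V} (hl : l₀ ∈ L) (h1 : g l₀ ∉ L)
    (H : ∀ A : L ≃ₗ[F] L, LinearMap.det (A : L →ₗ[F] L) = 1 → h.Com A ∨
      finrank F (mid f L L') + 2 ≤ finrank F L ∧ ∀ A' : L ≃ₗ[F] L, LinearMap.det (A' : L →ₗ[F] L) = 1 →
        ∀ (a : L) (φ : Dual F L), a ≠ 0 → φ ≠ 0 → (∀ l, A' l = A l + φ l • a) → h.Com A') :
    ∃ a ∈ f.SO, ∃ b ∈ f.SO, g = a * b * a⁻¹ * b⁻¹ := by
  have k : ∀ {u g : V ≃ₗ[F] V}, u ∈ Ur f L → g l₀ ∉ L → (u * g) l₀ ∉ L := fun hu h1 e =>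
    h1 (((f.fix_le_stab L hu.1).2 _).2 e)
  have k1 : ∀ {g : V ≃ₗ[F] V}, LinearMap.det (h.ga g) = 1 → ∃ A : L ≃ₗ[F] L, A = h.ga g := fun e =>
    ⟨LinearEquiv.ofBijective _ ((Module.End.isUnit_iff _).1
      ((LinearMap.isUnit_iff_isUnit_det _).2 (e ▸ isUnit_one))), rfl⟩
  obtain ⟨u, hu, h2⟩ := h.step_rank an hσ hg.1
  have hg' := mul_mem (Ur_le_SO h.l hu) hg
  obtain ⟨v, hv, h3⟩ := h.step_det an hσ hg' h2 hl (k hu h1)
  obtain ⟨A, hA⟩ := k1 h3
  rcases H A (hA ▸ h3) with h4 | ⟨h4, h5⟩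
  · exact h.comm_of_com hσ an hg (mul_mem hv hu) (fun l => congrArg Subtype.val
      (LinearMap.congr_fun hA l).symm) (hA ▸ h3) h4
  obtain ⟨w, hw, h6, a, φ, a0, φ0, h7⟩ := h.step_pert an hσ (mul_mem hv.1.1 hg'.1)
    (by rw [← hA]; exact A.ker) hl (k hv (k hu h1)) h4
  rw [h3] at h6
  obtain ⟨A', hA'⟩ := k1 h6
  exact h.comm_of_com hσ an hg (mul_mem hw (mul_mem hv hu)) (fun l => congrArg Subtype.val
    (LinearMap.congr_fun hA' l).symm) (hA' ▸ h6)
    (h5 A' (hA' ▸ h6) a φ a0 φ0 fun l => by rw [← hA, ← hA'] at h7; exact h7 l)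

end Fr

end CL.Ore
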