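import Mathlib
import Cfsg.Agent.KSG.OreU2
import Cfsg.Agent.KSG.OreT

/-! Commutators in special unitary groups: polynomials and the generic cases. -/

set_option autoImplicit false
set_option linter.unusedSectionVars false

namespace CL.Ore

open Module CL.Witt CL.Witt.Form Polynomial CL.GLn

variable {F : Type*} [Field F] {σ : F →+* F}

theorem exists_ext (hσ2 : ∀ a, σ (σ a) = a) : ∃ Φ : AlgebraicClosure F →+* AlgebraicClosure F,
    (∀ (p : F[X]) y, aeval (Φ y) (p.map σ) = Φ (aeval y p)) ∧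
      ∀ (p : F[X]) y, aeval (Φ y) p = Φ (aeval y (p.map σ)) := by
  let e := RingEquiv.ofBijective σ ⟨σ.injective, fun a => ⟨σ a, hσ2 a⟩⟩
  have k := fun (p : F[X]) y => (map_aeval_eq_aeval_map (φ := σ)
    (ψ := (IsAlgClosure.equivOfEquiv (AlgebraicClosure F) (AlgebraicClosure F) e).toRingHom)
    (RingHom.ext fun c => (IsAlgClosure.equivOfEquiv_algebraMap _ _ e c).symm) p y).symm
  refine ⟨_, k, fun p y => ?_⟩
  rw [← k, map_map, show σ.comp σ = RingHom.id F from RingHom.ext hσ2, map_id]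

theorem Fp.mul (hσ2 : ∀ a, σ (σ a) = a) {p r : F[X]} (hp : Fp σ p) (hr : Fp σ r)
    (h : ∀ y : AlgebraicClosure F, aeval y p = 0 → aeval y⁻¹ (r.map σ) ≠ 0) : Fp σ (p * r) :=
  fun y hy => by
  obtain ⟨Φ, k1, k2⟩ := exists_ext hσ2
  rw [map_mul, mul_eq_zero] at hy
  rw [Polynomial.map_mul, map_mul, mul_ne_zero_iff]
  rcases hy with hy | hy
  · exact ⟨(hp y hy).1, (hp y hy).2, h y hy⟩
  · exact ⟨(hr y hy).1, fun e => h (Φ y⁻¹) (by rw [k2, e, map_zero])
      (by rw [← map_inv₀, inv_inv, k1, hy, map_zero]), (hr y hy).2⟩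

theorem fp_pow {m : ℕ} (hm : 0 < m) {β : F} (h0 : β ≠ 0) (h : σ β * β ≠ 1) :
    Fp σ (X ^ m - C β) := fun y hy => by
  simp only [map_sub, map_pow, aeval_X, aeval_C, Polynomial.map_sub, Polynomial.map_pow, map_X, map_C,
    sub_eq_zero] at hy ⊢
  have h1 : y ≠ 0 := by rintro rfl; exact h0 (by simpa [hm.ne'] using hy.symm)
  refine ⟨h1, fun e => h ((algebraMap F (AlgebraicClosure F)).injective ?_)⟩
  rw [map_mul, ← hy, ← sub_eq_zero.1 e, ← mul_pow, inv_mul_cancel₀ h1, one_pow, map_one]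

theorem card_le_four {K Ω : Type*} [Field K] [Finite K] [Field Ω] (a b : K →+* Ω)
    (h : ∀ c, c ≠ 0 → a c * b c = 1) : Nat.card K ≤ 4 := by
  have := Fintype.ofFinite K
  by_contra hc
  have h7 : (X * (X + 1) * (X ^ 2 + X + 1) : K[X]).Monic := by monicity!
  refine h7.ne_zero (eq_zero_of_natDegree_lt_card_of_eval_eq_zero _ Function.injective_id (fun c => ?_) ?_)
  · simp only [id, eval_mul, eval_add, eval_X, eval_one, eval_pow, mul_eq_zero]
    by_contra hc
    push Not at hc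
    have a1 := h c hc.1.1
    have a2 := h _ hc.1.2
    rw [map_add, map_one, map_add, map_one] at a2
    refine hc.2 (b.injective ?_)
    simp only [map_add, map_pow, map_one, map_zero]
    linear_combination b c * a2 - (b c + 1) * a1
  · rw [Fintype.card_eq_nat_card]
    refine lt_of_le_of_lt ?_ (not_le.1 hc)
    compute_degree

/-- The minimal polynomial of a generator of the multiplicative group of an extension. -/
structure Prim (σ : F →+* F) (h : F[X]) (d : ℕ) : Prop where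
  monic : h.Monic
  irr : Irreducible h
  deg : h.natDegree = d
  fp : Fp σ h
  gen : ∀ c, c ≠ 0 → ∃ k, ((-1) ^ d * h.coeff 0) ^ k = c

theorem exists_prim_aux (hσ2 : ∀ a, σ (σ a) = a) {K : Type*} [Field K] [Algebra F K] [Finite K]
    [Finite F] (hq : 5 ≤ Nat.card K) : ∃ h : F[X], Prim σ h (finrank F K) := by
  classical
  have : FiniteDimensional F K := Module.Finite.of_finite
  obtain ⟨ζ, hζ⟩ := IsCyclic.exists_monoid_generator (α := Kˣ)
  have hpow : ∀ c : K, c ≠ 0 → ∃ n : ℕ, (ζ : K) ^ n = c := fun c hc => by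
    obtain ⟨n, hn⟩ := hζ (Units.mk0 c hc)
    exact ⟨n, by simpa using congrArg Units.val hn⟩
  have hi : IsIntegral F (ζ : K) := IsIntegral.of_finite F _
  let pb := PowerBasis.ofAdjoinEqTop hi (eq_top_iff.2 fun c _ => by
    by_cases hc : c = 0
    · rw [hc]; exact Subalgebra.zero_mem _
    · obtain ⟨n, rfl⟩ := hpow c hc
      exact Subalgebra.pow_mem _ (Algebra.self_mem_adjoin_singleton F _) n)
  have hdim : (minpoly F (ζ : K)).natDegree = finrank F K := (pb.finrank.symm :)
  refine ⟨minpoly F (ζ : K), minpoly.monic hi, minpoly.irreducible hi, hdim, fun y hy => ?_,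
    fun a ha => ?_⟩
  · have k : ∀ y (hy : aeval y (minpoly F (ζ : K)) = (0 : AlgebraicClosure F)), pb.lift y hy ζ = y :=
      fun y hy => pb.lift_gen y hy
    have h0 : y ≠ 0 := by rw [← k y hy]; simp
    obtain ⟨Φ, -, k2⟩ := exists_ext hσ2
    refine ⟨h0, fun e => ?_⟩
    have hy' : aeval (Φ y⁻¹) (minpoly F (ζ : K)) = 0 := by rw [k2, e, map_zero]
    have := card_le_four (pb.lift _ hy').toRingHom (Φ.comp (pb.lift y hy).toRingHom) fun c hc => by
      obtain ⟨n, rfl⟩ := hpow c hc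
      rw [map_pow, map_pow, ← mul_pow]
      change (pb.lift _ hy' ζ * Φ (pb.lift y hy ζ)) ^ n = 1
      rw [k, k, ← map_mul, inv_mul_cancel₀ h0, map_one, one_pow]
    omega
  · obtain ⟨c, hc⟩ := FiniteField.norm_surjective F K a
    obtain ⟨n, rfl⟩ := hpow c (by rintro rfl; exact ha (by simpa using hc.symm))
    refine ⟨n, ?_⟩
    rw [← hc, map_pow, ← hdim]
    exact congrArg (· ^ n) (Algebra.PowerBasis.norm_gen_eq_coeff_zero_minpoly pb).symm

theorem exists_prim (hσ2 : ∀ a, σ (σ a) = a) [Finite F] {d : ℕ} (hd : 1 ≤ d) (hq : 5 ≤ Nat.card F ^ d) :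
    ∃ h : F[X], Prim σ h d := by
  obtain ⟨p, hp⟩ := CharP.exists F
  have := Fact.mk (CharP.char_is_prime F p)
  have : NeZero d := ⟨by omega⟩
  have := exists_prim_aux hσ2 (K := FiniteField.Extension F p d) (by rwa [FiniteField.natCard_extension])
  rwa [FiniteField.finrank_extension] at this

theorem Prim.ne_zero {h : F[X]} {d : ℕ} (H : Prim σ h d) : h.coeff 0 ≠ 0 := fun e =>
  (H.fp 0 (by rw [← coeff_zero_eq_aeval_zero', e, map_zero])).1 rfl

theorem Prim.eq_of_root {h : F[X]} {d : ℕ} (H : Prim σ h d) {c : F} (hc : h.eval c = 0) :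
    (-1) ^ d * h.coeff 0 = c := by
  rw [← H.deg, eq_of_monic_of_associated H.monic (monic_X_sub_C c)
    ((irreducible_X_sub_C c).associated_of_dvd H.irr (dvd_iff_isRoot.2 hc)).symm]
  simp

theorem Prim.quad_ne {h : F[X]} {d : ℕ} (H : Prim σ h d) (hd : 2 ≤ d) {a b : F} (hb : h.coeff 0 ≠ b)
    {y : AlgebraicClosure F} (hy : aeval y h = 0) : aeval y (X ^ 2 + C a * X + C b) ≠ 0 := fun e => by
  have h1 := minpoly.dvd F y e
  rw [← minpoly.eq_of_irreducible_of_monic H.irr hy H.monic] at h1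
  refine hb ?_
  rw [eq_of_monic_of_dvd_of_natDegree_le H.monic (by monicity!) h1 (by
    rw [H.deg]; refine le_trans ?_ hd; compute_degree) |>.symm]
  simp

variable {V : Type*} [AddCommGroup V] [Module F V] [FiniteDimensional F V] {L L' : Submodule F V}
  {hσ2 : ∀ a, σ (σ a) = a} {f : Form (FormType.herm σ hσ2) V} [Finite F]

namespace Fr

variable (h : Fr f L L') (hσ : σ ≠ RingHom.id F) {A : L ≃ₗ[F] L}
include h hσ

theorem com_simil {Y : Module.End F L} {p : F[X]} (hm : p.Monic) (hp : Fp σ p)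
    (h0 : (-1) ^ p.natDegree * p.coeff 0 = 1) (h1 : Simil Y (cyc p)) (h2 : Simil Y (A.toLinearMap * Y))
    (hz : ∀ t : F, t ≠ 0 → ∃ z : Module.End F L, IsUnit z ∧ Commute z Y ∧ LinearMap.det z = t) :
    h.Com A := by
  let Y' := LinearEquiv.ofBijective Y ((Module.End.isUnit_iff _).1 (h1.isUnit_of_cyc hm fun e => by
    simp [e] at h0))
  obtain ⟨c, hc⟩ := conj_of_simil (a := Y') (b := A * Y') h2
  exact h.com_of hσ (Y := Y') (h.lev_mem c).1.1 (by rw [hc, map_mul, map_mul, map_inv])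
    ((h1.det_of_cyc hm).trans h0) hz hp (Or.inl (h2.symm.trans h1).aeval_cyc_self) h1.aeval_cyc_self

theorem com_gen (hq : 5 ≤ Nat.card F) (hA : LinearMap.det (A : L →ₗ[F] L) = 1)
    (hns : ∀ c : F, (A : Module.End F L) ≠ algebraMap F _ c) : h.Com A := by
  have hm : 2 ≤ finrank F L := by
    by_contra hc
    obtain ⟨v, hv⟩ := finrank_le_one_iff.1 (show finrank F L ≤ 1 by omega)
    obtain ⟨c, e⟩ := hv (A v)
    refine hns c (LinearMap.ext fun x => ?_)
    obtain ⟨s, rfl⟩ := hv x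
    simp [← e, smul_comm s]
  obtain ⟨p, H⟩ := exists_prim hσ2 (d := finrank F L - 1) (by omega)
    (hq.trans (Nat.le_self_pow (by omega) _))
  have hg := H.gen
  have hr := @H.eq_of_root
  have hN : (-1) ^ p.natDegree * p.coeff 0 ≠ 0 := by simp [H.ne_zero]
  rw [← H.deg] at hg hr
  set N := (-1) ^ p.natDegree * p.coeff 0 with hN'
  have k : ∀ a b : F →+* F, a N * b N ≠ 1 := fun a b e => by
    have := card_le_four a b fun c hc => by
      obtain ⟨n, rfl⟩ := hg c hc
      rw [map_pow, map_pow, ← mul_pow, e, one_pow]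
    omega
  have hδ : p.eval N⁻¹ ≠ 0 := fun e => k (RingHom.id F) (RingHom.id F) (by
    nth_rw 1 [hr e]; exact inv_mul_cancel₀ hN)
  have hf := H.monic.mul (monic_X_sub_C N⁻¹)
  have hd := H.monic.natDegree_mul (monic_X_sub_C N⁻¹)
  rw [natDegree_X_sub_C] at hd
  have e : (-1) ^ (p * (X - C N⁻¹)).natDegree * (p * (X - C N⁻¹)).coeff 0 = N * N⁻¹ := by
    rw [hd, mul_coeff_zero, hN']; simp [pow_succ, mul_assoc]
  obtain ⟨Y, h1, h2⟩ := exists_mul_simil_cyc (g := (A : Module.End F L))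
    ((Module.End.isUnit_iff _).2 A.bijective) hns H.monic (by rw [H.deg]; omega) H.ne_zero hf
    (by rw [hd, H.deg]; omega) hδ (by rw [hA, one_mul, e])
  refine h.com_simil hσ hf (H.fp.mul hσ2 (by
    simpa using fp_pow one_pos (inv_ne_zero hN) fun e => k σ (RingHom.id F) (by
      rwa [map_inv₀, ← mul_inv, inv_eq_one] at e)) fun y hy e => ?_)
    (e.trans (mul_inv_cancel₀ hN)) h1 (h1.trans h2.symm)
    fun t ht => h1.exists_commute_det_of_cyc_mul H.monic hδ ht
  obtain rfl : y = algebraMap F _ (σ N) := by simpa [sub_eq_zero] using e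
  rw [aeval_algebraMap_apply_eq_algebraMap_eval, map_eq_zero] at hy
  refine hσ (RingHom.ext fun c => ?_)
  rcases eq_or_ne c 0 with rfl | hc
  · simp
  obtain ⟨n, rfl⟩ := hg c hc
  rw [map_pow, ← hr hy, RingHom.id_apply]

omit hσ in
theorem com_scalar (hq : 5 ≤ Nat.card F) (hm : 0 < finrank F L) {p₀ : V} (h0 : f.B p₀ p₀ = 1)
    (h1 : mid f L L' = F ∙ p₀) (hA : LinearMap.det (A : L →ₗ[F] L) = 1) {α : F}
    (h2 : (A : Module.End F L) = algebraMap F _ α) : h.Com A := by
  obtain ⟨β, b0, b1⟩ : ∃ β, β ≠ 0 ∧ σ β * β ≠ 1 := by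
    by_contra hc
    push Not at hc
    have := card_le_four σ (RingHom.id F) hc
    omega
  rw [h2, Algebra.algebraMap_eq_smul_one, LinearMap.det_smul, map_one, mul_one] at hA
  obtain ⟨Y, c, e1, e2⟩ := exists_companion (finBasis F L) one_pos (by omega) 0 β b0 (Or.inr rfl) A
    (α ^ ·) (fun i => pow_ne_zero _ (by rintro rfl; simp [hm.ne'] at hA)) (fun i => by
      rw [pow_succ, mul_smul]; exact congrArg _ (LinearMap.congr_fun h2 _)) (by simpa using hA) (by simp)
  exact h.com_odd h0 h1 e2 (fp_pow hm b0 b1) (by simpa using e1)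

theorem com_irr {Y : Module.End F L} {p : F[X]} (hm : p.Monic) (hi : Irreducible p) (hp : Fp σ p)
    (hd : p.natDegree = finrank F L) (h0 : (-1) ^ p.natDegree * p.coeff 0 = 1) (h1 : aeval Y p = 0)
    (h2 : aeval (A * Y : Module.End F L) p = 0 ∨
      aeval (A * Y : Module.End F L) (reflect p.natDegree (p.map σ)) = 0) : h.Com A := by
  have : Nontrivial L := Module.nontrivial_of_finrank_pos (R := F) (hd ▸ hi.natDegree_pos)
  have h3 := simil_of_irr hi hm hd h1
  have hz := fun t ht => exists_commute_det_of_isSemisimple (c := t)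
    (Module.End.isSemisimple_of_squarefree_aeval_eq_zero hi.squarefree h1) ht
  rcases h2 with h2 | h2
  · exact h.com_simil hσ hm hp h0 h3 (h3.trans (simil_of_irr hi hm hd h2).symm) hz
  let Y' := LinearEquiv.ofBijective Y ((Module.End.isUnit_iff _).1 (h3.isUnit_of_cyc hm fun e => by
    simp [e] at h0))
  have h4 : aeval (((A * Y')⁻¹ : L ≃ₗ[F] L) : Module.End F L) (p.map σ) = 0 := by
    rw [aeval_reflect (A' := (A * Y')⁻¹.toLinearMap) (LinearMap.ext (A * Y').apply_symm_apply) _ _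
      natDegree_map_le] at h2
    exact (((Module.End.isUnit_iff _).2 (A * Y').bijective).pow _).mul_right_eq_zero.1 h2
  obtain ⟨c, hc, e⟩ := h.swap_conj (y := Y') hi hm hd h1 h4
  exact h.com_of hσ hc e ((h3.det_of_cyc hm).trans h0) hz hp (Or.inr h4) h1

end Fr

end CL.Ore
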