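import Mathlib
import Cfsg.Agent.KSG.OreU3
import Cfsg.Agent.KSG.OreK4

/-! Commutators in special unitary groups: the field with four elements and the main theorem. -/

set_option autoImplicit false
set_option linter.unusedSectionVars false

namespace CL.Ore

open Module CL.Witt CL.Witt.Form Polynomial CL.GLn

variable {F : Type*} [Field F] {σ : F →+* F}

variable {V : Type*} [AddCommGroup V] [Module F V] [FiniteDimensional F V] {L L' : Submodule F V}
  {hσ2 : ∀ a, σ (σ a) = a} {f : Form (FormType.herm σ hσ2) V} [Finite F]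

namespace Fr

variable (h : Fr f L L') (hσ : σ ≠ RingHom.id F) {A : L ≃ₗ[F] L} (φ : K4 ≃+* F)
  (hs : ∀ x, σ x = x ^ 2) (hA : LinearMap.det (A : L →ₗ[F] L) = 1)

omit [Finite F] in
theorem _root_.CL.Ore.K4.facts (φ : K4 ≃+* F) : (2 : F) = 0 ∧ φ K4.w ^ 2 = φ K4.w + 1 ∧
    ∀ x : F, x = 0 ∨ x ^ 3 = 1 := by
  refine ⟨by rw [← map_ofNat φ, show (ofNat(2) : K4) = 0 by decide, map_zero], by
    rw [← map_pow, show K4.w ^ 2 = K4.w + 1 by decide, map_add, map_one], fun x => ?_⟩
  obtain ⟨x, rfl⟩ := φ.surjective x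
  exact ((by decide : ∀ k : K4, k = 0 ∨ k ^ 3 = 1) x).imp (fun e => by simp [e]) fun e => by
    rw [← map_pow, e, map_one]

omit [Finite F] in
theorem _root_.CL.Ore.fp_quad (φ : K4 ≃+* F) (hs : ∀ x, σ x = x ^ 2) {a b : F} (e : a * b = φ K4.w) :
    Fp σ (X ^ 2 + C a * X + C b) := fun y hy => by
  obtain ⟨h2, h3, h4⟩ := K4.facts φ
  have h0 : a * b ≠ 0 := fun h => by simp [← e, h] at h3
  have a3 := congrArg (algebraMap F (AlgebraicClosure F)) ((h4 a).resolve_left (left_ne_zero_of_mul h0))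
  have b3 := congrArg (algebraMap F (AlgebraicClosure F)) ((h4 b).resolve_left (right_ne_zero_of_mul h0))
  replace h3 := congrArg (algebraMap F (AlgebraicClosure F)) (e ▸ h3)
  replace h2 := congrArg (algebraMap F (AlgebraicClosure F)) h2
  simp only [map_add, map_mul, map_pow, map_one, aeval_X, aeval_C, Polynomial.map_add, map_ofNat,
    Polynomial.map_mul, Polynomial.map_pow, map_X, map_C, hs, map_zero] at *
  generalize algebraMap F (AlgebraicClosure F) a = a at *
  generalize algebraMap F (AlgebraicClosure F) b = b at *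
  have h5 : y ≠ 0 := by
    rintro rfl
    simp at hy
    simp [hy] at b3
  refine ⟨h5, fun e1 => h5 ?_⟩
  field_simp at e1
  have e2 : a * (a * b - 1) * y = 0 := by linear_combination b * e1 - hy - (y ^ 2) * b3
  linear_combination a ^ 2 * (a * b) * e2 - y * a ^ 3 * h3 - y * a3

include h hσ φ hs hA

theorem com_two (hm : finrank F L = 2) : h.Com A := by
  obtain ⟨h2, h3, h4⟩ := K4.facts φ
  let e := finBasisOfFinrankEq F L hm
  let Ψ : Matrix (Fin 2) (Fin 2) K4 ≃+* Module.End F L :=
    φ.mapMatrix.trans (Matrix.toLinAlgEquiv e).toRingEquiv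
  have hΨ : ∀ (c : K4) M, Ψ (c • M) = φ c • Ψ M := fun c M => by
    simp only [Ψ, RingEquiv.coe_trans, Function.comp_apply, AlgEquiv.coe_ringEquiv]
    rw [← map_smul]; congr 1; ext; simp
  obtain ⟨M, hM⟩ := Ψ.surjective A
  have h5 : M.det = 1 := φ.injective (by
    rw [RingEquiv.map_det, map_one, ← hA, ← hM]; exact (LinearMap.det_toLin e _).symm)
  obtain ⟨y, -, y1, y2⟩ := K4.l2_spec _ _ _ _ ((Matrix.det_fin_two M).symm.trans h5)
  rw [← Matrix.eta_fin_two M] at y2
  have hp := fp_quad φ hs (mul_one _)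
  have hd : (X ^ 2 + C (φ K4.w) * X + C 1 : F[X]).natDegree = 2 := by compute_degree!
  refine h.com_irr hσ (Y := Ψ y) (by monicity!) (irreducible_of_degree_le_three_of_not_isRoot
    (by rw [hd]; simp) fun x hx => ?_) hp (hd.trans hm.symm) (by rw [hd]; simp) ?_ (y2.imp ?_ ?_)
  · rcases h4 x with rfl | h5
    · simp at hx
    · exact hp.eval_ne (by rw [hs, ← pow_succ, h5]) hx
  · simpa [hΨ, sq, ← Algebra.smul_def] using congrArg Ψ y1
  · exact fun e => by simpa [hΨ, sq, ← Algebra.smul_def, hM] using congrArg Ψ e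
  · intro e
    have : reflect 2 (Polynomial.map σ (X ^ 2 + C (φ K4.w) * X + C 1 : F[X])) =
        X ^ 2 + C (φ K4.w + 1) * X + C 1 := by
      simp only [Polynomial.map_add, Polynomial.map_mul, Polynomial.map_pow, map_X, map_C, hs, h3,
        reflect_add, reflect_C_mul, reflect_monomial, reflect_C]
      rw [← pow_one (X : F[X]), reflect_monomial]
      simp [revAt_le]; ring
    rw [hd, this]
    simpa [hΨ, sq, ← Algebra.smul_def, hM, add_smul, add_mul] using congrArg Ψ e

theorem com_three (hm : finrank F L = 3) (hns : ∀ c : F, (A : Module.End F L) ≠ algebraMap F _ c) :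
    h.Com A := by
  obtain ⟨h2, h3, h4⟩ := K4.facts φ
  obtain ⟨v, hv⟩ : ∃ v, LinearIndependent F ![v, A v] := by
    by_contra hc
    push Not at hc
    obtain ⟨c, e⟩ := LinearMap.exists_eq_smul_id_of_forall_notLinearIndependent (f := A.toLinearMap) hc
    exact hns c e
  obtain ⟨z, z1, z2⟩ : ∃ z, z ∉ Submodule.span F {v, A v} ∧
      (A (A v) = z ∨ A (A v) ∈ Submodule.span F {v, A v}) := by
    by_cases h5 : A (A v) ∈ Submodule.span F {v, A v}
    · exact (exists_not_mem_pair hm.ge v (A v)).imp fun z hz => ⟨hz, Or.inr h5⟩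
    · exact ⟨_, h5, Or.inl rfl⟩
  have hz : LinearIndependent F (Fin.snoc ![v, A v] z : Fin 3 → L) :=
    linearIndependent_finSnoc.2 ⟨hv, by simpa [Set.pair_comm] using z1⟩
  let e := basisOfLinearIndependentOfCardEqFinrank hz (by simp [hm])
  have e0 : e 0 = v := congrFun (coe_basisOfLinearIndependentOfCardEqFinrank hz _) 0
  have e1 : e 1 = A v := congrFun (coe_basisOfLinearIndependentOfCardEqFinrank hz _) 1
  have e2 : e 2 = z := congrFun (coe_basisOfLinearIndependentOfCardEqFinrank hz _) 2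
  let Ψ : Matrix (Fin 3) (Fin 3) K4 ≃+* Module.End F L :=
    φ.mapMatrix.trans (Matrix.toLinAlgEquiv e).toRingEquiv
  obtain ⟨M, hM⟩ := Ψ.surjective A
  have h5 : M.det = 1 := φ.injective (by
    rw [RingEquiv.map_det, map_one, ← hA, ← hM]; exact (LinearMap.det_toLin e _).symm)
  have h6 : ∀ i j, φ (M i j) = e.repr (A (e j)) i := fun i j => by
    refine Eq.trans ?_ (LinearMap.toMatrix_apply e e A.toLinearMap i j)
    rw [← hM]
    exact congrFun (congrFun (LinearMap.toMatrix_toLin e e (φ.mapMatrix M)).symm i) j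
  have h7 : ∀ i j (c : K4), M i j = c ↔ e.repr (A (e j)) i = φ c := fun i j c => by
    rw [← h6, φ.injective.eq_iff]
  have m0 : M 0 0 = 0 ∧ M 1 0 = 1 ∧ M 2 0 = 0 := by simp [h7, e0, ← e1]
  rw [Matrix.det_fin_three, m0.1, m0.2.1, m0.2.2] at h5
  obtain ⟨y, y1, y2⟩ := K4.l3_spec (M 0 1) (M 1 1) (M 2 1) (z2.imp (fun e => by
    simp [h7, e1, e, ← e2]) fun e => by
      obtain ⟨s, t, e⟩ := Submodule.mem_span_pair.1 e
      rw [h7, e1, ← e, ← e1, ← e0]; simp) (M 2 2) (M 0 2) (by linear_combination h5) (M 1 2)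
  have h8 := Matrix.eta_fin_three M
  rw [m0.1, m0.2.1, m0.2.2] at h8
  rw [← h8] at y2
  have hd : (X ^ 3 + X + 1 : F[X]).natDegree = 3 := by compute_degree!
  have hp : Fp σ (X ^ 3 + X + 1) := fun y hy => by
    replace h2 := congrArg (algebraMap F (AlgebraicClosure F)) h2
    simp only [map_add, map_pow, map_one, aeval_X, Polynomial.map_add, map_ofNat,
      Polynomial.map_pow, map_X, Polynomial.map_one, map_zero] at *
    have h5 : y ≠ 0 := by rintro rfl; simp at hy
    refine ⟨h5, fun e1 => one_ne_zero (α := AlgebraicClosure F) ?_⟩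
    field_simp at e1
    linear_combination y * hy + (1 + y) * e1 - (y + y ^ 2 + y ^ 3 + y ^ 4) * h2
  refine h.com_irr hσ (Y := Ψ y) (by monicity!) (irreducible_of_degree_le_three_of_not_isRoot
    (by rw [hd]; simp) fun x hx => ?_) hp (hd.trans hm.symm) (by
      rw [hd]; simp only [coeff_zero_eq_eval_zero]; simp; linear_combination -h2) ?_ (y2.imp ?_ ?_)
  · rcases h4 x with rfl | h5
    · simp at hx
    · exact hp.eval_ne (by rw [hs, ← pow_succ, h5]) hx
  · simpa [pow_succ] using congrArg Ψ (K4.l3_mem y y1)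
  · exact fun e => by simpa [pow_succ, hM] using congrArg Ψ e
  · intro e
    have : reflect 3 (Polynomial.map σ (X ^ 3 + X + 1 : F[X])) = X ^ 3 + X ^ 2 + 1 := by
      simp only [Polynomial.map_add, Polynomial.map_pow, map_X, Polynomial.map_one,
        reflect_add, reflect_monomial, reflect_one]
      rw [← pow_one (X : F[X]), reflect_monomial]
      simp [revAt_le]; ring
    rw [hd, this]
    simpa [pow_succ, hM] using congrArg Ψ e

theorem com_quad (hm : 4 ≤ finrank F L) (hd : HD A.toLinearMap.dualMap) : h.Com A := by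
  obtain ⟨h2, h3, h4⟩ := K4.facts φ
  have hc : Nat.card F = 4 := by rw [← Nat.card_congr φ.toEquiv, Nat.card_eq_fintype_card]; rfl
  have k : ∀ d, 2 ≤ d → ∃ p, Prim σ p d := fun d hd => exists_prim hσ2 (by omega) (by
    rw [hc]; exact le_trans (by norm_num) (Nat.pow_le_pow_right (by norm_num) hd))
  obtain ⟨p, H⟩ := k (finrank F L - 2) (by omega)
  obtain ⟨p₁, H₁⟩ := k (finrank F L - 1) (by omega)
  have := CharTwo.of_one_ne_zero_of_two_eq_zero one_ne_zero h2
  have hw : φ K4.w ≠ 0 := fun e => by simp [e] at h3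
  have h5 := H.ne_zero
  have h6 : p.coeff 0 ≠ (p.coeff 0)⁻¹ := fun e => by
    obtain ⟨n, hn⟩ := H.gen _ hw
    have h7 : p.coeff 0 = 1 := by
      field_simp at e
      linear_combination (h4 _).resolve_left h5 - p.coeff 0 * e
    simp [h7, ← hn, CharTwo.neg_eq] at h3
  have e : φ K4.w * p.coeff 0 * (p.coeff 0)⁻¹ = φ K4.w := mul_inv_cancel_right₀ h5 _
  have hp := fp_quad φ hs e
  have ha := left_ne_zero_of_mul (e ▸ hw)
  generalize φ K4.w * p.coeff 0 = a at *
  have hr : (X ^ 2 + C a * X + C (p.coeff 0)⁻¹ : F[X]).Monic := by monicity!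
  have hr' : (X ^ 2 + C a * X + C (p.coeff 0)⁻¹ : F[X]).natDegree = 2 := by compute_degree!
  obtain ⟨Y, h7, h8⟩ := exists_quad hA hd H.monic H.irr (by rw [H.deg]; omega) h5 hr hr' H₁.monic H₁.irr
    (by rw [H₁.deg]; omega)
  have hq : Squarefree (p * (X ^ 2 + C a * X + C (p.coeff 0)⁻¹)) := squarefree_mul_iff.2
    ⟨IsCoprime.isRelPrime ((isCoprime_iff_aeval_ne_zero_of_isAlgClosed F (AlgebraicClosure F) _ _).2
      fun y => or_iff_not_imp_left.2 fun e => H.quad_ne (by omega) h6 (not_not.1 e)), H.irr.squarefree,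
      Separable.squarefree ⟨0, C a⁻¹, by simp [← C_mul, ha, one_add_one_eq_two, h2]⟩⟩
  have h9 := Module.End.isSemisimple_of_squarefree_aeval_eq_zero hq h7.aeval_cyc_self
  have : Nontrivial L := Module.nontrivial_of_finrank_pos (R := F) (by omega)
  have := finiteDimensional_adjoinRoot (H.monic.mul hr).ne_zero
  refine h.com_simil hσ (H.monic.mul hr) (H.fp.mul hσ2 hp fun y hy e => ?_) (by simp [h5, CharTwo.neg_eq]) h7
    (simil_of_isSemisimple_of_charpoly_eq h9 (Module.End.isSemisimple_of_squarefree_aeval_eq_zero hq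
      (h8 ▸ LinearMap.aeval_self_charpoly _))
      (by rw [h8, h7.charpoly, charpoly_cyc (H.monic.mul hr)]))
    fun t ht => exists_commute_det_of_isSemisimple h9 ht
  refine H.quad_ne (a := a ^ 2 * (p.coeff 0)⁻¹) (by omega) h6 hy ?_
  have b3 := congrArg (algebraMap F (AlgebraicClosure F)) ((h4 _).resolve_left (inv_ne_zero h5))
  have := (H.fp y hy).1
  simp only [map_add, map_mul, map_pow, map_one, aeval_X, aeval_C, Polynomial.map_add,
    Polynomial.map_mul, Polynomial.map_pow, map_X, map_C, hs] at e b3 ⊢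
  generalize algebraMap F (AlgebraicClosure F) (p.coeff 0)⁻¹ = b at *
  field_simp at e
  linear_combination b * e - y ^ 2 * b3

end Fr

end CL.Ore
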