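import Mathlib
import Cfsg.Agent.KSG.OreU4
import Cfsg.Agent.KSG.SpUUnitary

/-! Every element of a special unitary group is a commutator. -/

set_option autoImplicit false
set_option linter.unusedSectionVars false

namespace CL.Ore

open Module CL.Witt CL.Witt.Form Polynomial CL.GLn

variable {F : Type*} [Field F] {σ : F →+* F} {V : Type*} [AddCommGroup V] [Module F V]
  [FiniteDimensional F V] {L L' : Submodule F V} {hσ2 : ∀ a, σ (σ a) = a}
  {f : Form (FormType.herm σ hσ2) V} [Finite F]

theorem Fr.finrank_mid (h : Fr f L L') : finrank F (mid f L L') + 2 * finrank F L = finrank F V := by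
  have h1 := h.nd.finrank_add_finrank_perp (L ⊔ L')
  have h2 := Submodule.finrank_sup_add_finrank_inf_eq L L'
  rw [show L ⊓ L' = ⊥ from eq_bot_iff.2 fun x hx => h.eq_zero hx.1 (h.r.le_perp hx.2), finrank_bot,
    ← h.finrank_eq] at h2
  rw [f.perp_sup] at h1
  change _ + finrank F (mid f L L') = _ at h1
  omega

theorem not_scalar {A A' : L →ₗ[F] L} (hm : 2 ≤ finrank F L) {α : F} (h : A = algebraMap F _ α) {a : L}
    {φ : Dual F L} (a0 : a ≠ 0) (φ0 : φ ≠ 0) (e : ∀ l, A' l = A l + φ l • a) (c : F) :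
    A' ≠ algebraMap F (Module.End F L) c := by
  rintro rfl
  have := finrank_ker_dual_add_one φ0
  obtain ⟨x, hx, x0⟩ := (LinearMap.ker φ).ne_bot_iff.1 fun h => by rw [h, finrank_bot] at this; omega
  have h1 := e x
  rw [h, LinearMap.mem_ker.1 hx, zero_smul, add_zero] at h1
  obtain rfl := smul_left_injective F x0 h1
  exact φ0 (LinearMap.ext fun l => by simpa [h, a0] using e l)

theorem su_comm (hσ : σ ≠ RingHom.id F) (hf : f.Nondeg) (hn : 3 ≤ finrank F V)
    (hq : 5 ≤ Nat.card F ∨ Nat.card F = 4 ∧ (∀ x, σ x = x ^ 2) ∧ 4 ≤ finrank F V) {g : V ≃ₗ[F] V}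
    (hg : g ∈ f.SO) (hns : ¬ ∃ c : F, ∀ v, g v = c • v) :
    ∃ a ∈ f.SO, ∃ b ∈ f.SO, g = a * b * a⁻¹ * b⁻¹ := by
  classical
  obtain ⟨L, hL, hM, l₀, hl, h1⟩ : ∃ L, f.TotSing L ∧ (∀ U, L ≤ U → f.TotSing U → U = L) ∧
      ∃ l ∈ L, g l ∉ L := by
    by_contra hc
    push Not at hc
    obtain ⟨c, c0, c1⟩ := FormType.exists_add_σ_eq_zero hσ hσ2
    obtain ⟨u, u0, u1⟩ := Uni.exists_isotropic hσ hf (by omega)
    refine hns (hf.exists_eq_smul_of_singular c0 c1 u1 u0 (g := g) fun x hx => ?_)
    by_contra h2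
    have h3 : f.q (g x) = 0 := (mem_O_q hg.1 x).trans hx
    obtain ⟨w, w1, w2, w3⟩ : ∃ w, f.q w = 0 ∧ f.B x w = 0 ∧ f.B (g x) w ≠ 0 := by
      by_cases h4 : f.B (g x) x = 0
      · obtain ⟨t, t1, t2⟩ := hf.exists_perp_eq' (H := F ∙ x) (x := g x)
          (fun e => h2 ((Submodule.mem_span_singleton.1 e).imp fun _ e => e.symm)) 1
        obtain ⟨c, hc⟩ := f.exists_q_add_smul_eq_zero h3 (y := t) (by simp [t2])
        exact ⟨_, hc, by simp [t1 x (Submodule.mem_span_singleton_self x), f.B_eq_zero_symm h4],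
          by simp [t2, f.B_self_eq_zero h3]⟩
      · exact ⟨x, hx, f.B_self_eq_zero hx, h4⟩
    obtain ⟨M, m1, m2, m3⟩ := exists_maximal_totSing ((f.totSing_span_singleton hx).sup_span w1
      (f.mem_perp_span.2 (by simpa using w2)))
    exact w3 (m2.2 _ (hc M m2 m3 x (m1 (Submodule.mem_sup_left (Submodule.mem_span_singleton_self x))))
      _ (m1 (Submodule.mem_sup_right (Submodule.mem_span_singleton_self w))))
  obtain ⟨e, e', h2, h3⟩ := hf.exists_isHyp_of_totSing hL rfl
  have h : Fr f L (Submodule.span F (Set.range e')) := by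
    refine Fr.of_isCompl hf hL h2.totSing_right ((Submodule.isCompl_iff_disjoint _ _ ?_).2
      (Submodule.disjoint_def.2 fun x x1 x2 => Submodule.disjoint_def.1 h2.isCompl.disjoint x ?_ ?_))
    · rw [← hf.finrank_add_finrank_perp (Submodule.span F (Set.range e')),
        finrank_span_eq_card h2.linearIndependent_right, Fintype.card_fin]
    · rw [Set.Sum.elim_range, Submodule.span_union, h3]; exact Submodule.mem_sup_left x1
    · rw [Set.Sum.elim_range, Submodule.span_union, h3, f.perp_sup]; exact ⟨hL.le_perp x1, x2⟩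
  generalize Submodule.span F (Set.range e') = L' at h
  have an : ∀ x ∈ mid f L L', f.q x = 0 → x = 0 := fun x hx h0 => h.eq_zero (hM _ le_sup_left
    (hL.sup_span h0 hx.1) ▸ Submodule.mem_sup_right (Submodule.mem_span_singleton_self x)) hx.2
  have h4 := h.finrank_mid
  have h5 : finrank F (mid f L L') ≤ 1 := by
    by_contra h5
    obtain ⟨w, h6, h7, h8⟩ := herm_iso2 hσ f (mid f L L') (by omega)
    exact h7 (an w h6 h8)
  refine h.comm_of_nf an hσ hg hl h1 fun A hA => ?_
  rcases hq with hq | ⟨hq, hs, hV⟩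
  · by_cases h6 : ∃ c : F, (A : Module.End F L) = algebraMap F _ c
    · obtain ⟨c, h6⟩ := h6
      rcases mid_cases hσ an with h7 | ⟨p, p1, p2⟩
      · rw [h7, finrank_bot] at h4 ⊢
        exact Or.inr ⟨by omega, fun A' hA' a φ a0 φ0 e =>
          h.com_gen hσ hq hA' (not_scalar (by omega) h6 a0 φ0 e)⟩
      · exact Or.inl (h.com_scalar hq (by omega) p1 p2 hA h6)
    · exact Or.inl (h.com_gen hσ hq hA (not_exists.1 h6))
  obtain ⟨ψ⟩ := exists_K4 hq
  obtain h6 | h6 | h6 : finrank F L = 2 ∨ finrank F L = 3 ∨ 4 ≤ finrank F L := by omega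
  · exact Or.inl (h.com_two hσ ψ hs hA h6)
  · by_cases h7 : ∃ c : F, (A : Module.End F L) = algebraMap F _ c
    · obtain ⟨c, h7⟩ := h7
      exact Or.inr ⟨by omega, fun A' hA' a φ a0 φ0 e =>
        h.com_three hσ ψ hs hA' h6 (not_scalar (by omega) h7 a0 φ0 e)⟩
    · exact Or.inl (h.com_three hσ ψ hs hA h6 (not_exists.1 h7))
  refine or_iff_not_imp_left.2 fun h7 => ⟨by omega, fun A' hA' a φ a0 φ0 e => h.com_quad hσ ψ hs hA' h6
    ((hd_pert A.dualMap.injective A'.dualMap.injective (h6.trans Subspace.dual_finrank_eq.ge)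
      (φ := Dual.eval F L a) (mt (eval_apply_eq_zero_iff F a).1 a0) φ0 fun x => LinearMap.ext fun l => ?_).resolve_left
        fun h8 => h7 (h.com_quad hσ ψ hs hA h6 h8))⟩
  simp [e, mul_comm]

open Matrix CL.SpU in
theorem su_scalar {F : Type*} [Field F] [Fintype F] {n q : ℕ} (hF : Fintype.card F = q ^ 2)
    (g : Cfsg.SU (n + 1) F q) {ζ : F} (hg : suToMat _ F q g = ζ • 1) :
    ∃ a b, g = a * b * a⁻¹ * b⁻¹ := by
  obtain ⟨p, hp⟩ := CharP.exists F
  have := Fact.mk (CharP.char_is_prime F p)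
  let s : F := ((Equiv.Perm.sign (finRotate (n + 1)) : ℤ) : F)
  have hs : s * s = 1 := by rw [← Int.cast_mul, ← Units.val_mul, Int.units_mul_self]; simp
  have hs' : s ^ q = s := map_intCast (SqField.conj hF) _
  let P : Matrix (Fin (n + 1)) (Fin (n + 1)) F := (finRotate (n + 1)).permMatrix F
  let b := mkSU hF (P * diagonal (Function.update 1 0 s)) (by
      have e1 : ct hF P = Pᵀ := by
        ext i j; simp only [ct_eq, P, transpose_apply, map_apply, PEquiv.toMatrix_apply]
        split_ifs <;> simp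
      have e2 : ct hF (diagonal (Function.update 1 0 s)) =
          diagonal (Function.update (1 : Fin (n + 1) → F) 0 s) := by
        rw [ct_eq, diagonal_map (map_zero _), diagonal_transpose]
        congr 1; ext i
        rcases eq_or_ne i 0 with rfl | h
        · simp only [Function.update_self]; exact hs'
        · simp [h]
      rw [ct_mul, e1, e2, mul_assoc, ← mul_assoc Pᵀ, transpose_permMatrix, ← permMatrix_mul,
        mul_inv_cancel, permMatrix_one, one_mul, diagonal_mul_diagonal, ← diagonal_one]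
      congr 1; ext i
      rcases eq_or_ne i 0 with rfl | h
      · simpa using hs
      · simp [h])
    (by rw [det_mul, det_permutation, det_diagonal, Finset.prod_update_of_mem (Finset.mem_univ _)]
        simpa [-sign_finRotate] using hs)
  obtain ⟨k, N, hN, e⟩ := Nat.exists_eq_pow_mul_and_not_dvd (orderOf_pos b).ne' p this.out.ne_one
  obtain ⟨η, rfl⟩ := (iterateFrobeniusEquiv F p k).surjective ζ
  rw [iterateFrobeniusEquiv_def] at hg
  have h1 : η ^ (n + 1) = 1 := by
    have := g.1.2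
    rw [← suToMat_apply, hg, det_smul, det_one, mul_one, Fintype.card_fin, ← pow_mul, mul_comm,
      pow_mul] at this
    exact (iterateFrobeniusEquiv F p k).injective (by rwa [map_one])
  have h2 : η ≠ 0 := by rintro rfl; simp at h1
  let t : Matrix (Fin (n + 1)) (Fin (n + 1)) F := diagonal fun j => η ^ (j : ℕ)
  have h3 : suToMat _ F q b * t = η • (t * suToMat _ F q b) := by
    change P * _ * t = η • (t * (P * _))
    rw [mul_assoc, diagonal_mul_diagonal]
    ext i j
    simp only [t, P, mul_diagonal, diagonal_mul, Matrix.smul_apply, PEquiv.toMatrix_apply, smul_eq_mul]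
    split_ifs with h
    · obtain rfl : i + 1 = j := by simpa using h
      rw [Fin.val_add, ← pow_eq_pow_mod _ h1, Fin.val_one', pow_add, ← pow_eq_pow_mod _ h1]
      ring
    · simp
  have h4 : ∀ m, suToMat _ F q (b ^ m) * t = η ^ m • (t * suToMat _ F q (b ^ m)) := fun m => by
    induction m with
    | zero => simp
    | succ m ih => rw [pow_succ b, map_mul, mul_assoc, h3, mul_smul_comm, ← mul_assoc, ih,
        smul_mul_assoc, smul_smul, mul_assoc, pow_succ']
  have h5 : IsUnit t := (isUnit_iff_isUnit_det _).2 (by simp [t, Finset.prod_ne_zero_iff, h2])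
  obtain ⟨c, hc⟩ := isConj_iff.1 (isConj_SU_of_isConj hF (b ^ p ^ k) (g * b ^ p ^ k) (IsConj.symm
    ⟨h5.unit, by rw [SemiconjBy, map_mul, hg, IsUnit.unit_spec, h4]; simp⟩)
    (exists_gl_commute_det_of_isSemisimple (isSemisimple_toLin'_of_pow_eq_one (k := N)
      ((CharP.cast_eq_zero_iff F p N).not.2 hN) (by
        rw [← map_pow, ← pow_mul, ← e, pow_orderOf_eq_one, map_one]))))
  exact ⟨c, _, eq_mul_inv_of_mul_eq hc.symm⟩

end CL.Ore
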