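import Cfsg.Agent.KSG.PQ1
import Cfsg.Agent.SOLV.Frobenius

/-! A prime adjacent to all others in the prime graph: the abstract part. -/

set_option autoImplicit false

namespace CL.PAdj

open Cfsg Subgroup CL.PQ

/-- `r` divides the order of every normal subgroup with cyclic quotient -/
def Gd (r : ℕ) (O : Type*) [Group O] : Prop := ∀ N : Subgroup O, ∀ _ : N.Normal, IsCyclic (O ⧸ N) → r ∣ Nat.card N

/-- the Sylow `s`-subgroups are not cyclic -/
def NC (s : ℕ) (G : Type*) [Group G] : Prop := ∃ Q : Subgroup G, IsPGroup s Q ∧ ¬ IsCyclic Q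

variable {O X S C : Type*} [Group O] [Group X] [Group S] [Group C] {r s : ℕ}

theorem comm_le_ker [IsCyclic C] (f : X →* C) : commutator X ≤ f.ker :=
  commutator_le.2 fun a _ b _ => by
    rw [MonoidHom.mem_ker, map_commutatorElement, commutatorElement_eq_one_iff_mul_comm, mul_comm']

theorem Gd.ker (h : Gd r O) [IsCyclic C] (f : O →* C) : r ∣ Nat.card f.ker :=
  h _ inferInstance (isCyclic_of_injective _ (QuotientGroup.kerLift_injective f))

theorem Gd.surj (h : Gd r O) {f : X →* O} (hf : Function.Surjective f) [IsCyclic C] (g : X →* C) :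
    r ∣ Nat.card g.ker := by
  have := g.normal_ker.map f hf
  have := isCyclic_of_injective _ (QuotientGroup.kerLift_injective g)
  exact (h (g.ker.map f) inferInstance (isCyclic_of_surjective _ (QuotientGroup.map_surjective_of_surjective _ _ _
    (QuotientGroup.mk_surjective.comp hf) (le_comap_map f g.ker)))).trans (card_map_dvd _ _)

theorem Gd.dvd (h : Gd r O) : r ∣ Nat.card O := by
  simpa using h.ker (1 : O →* Unit)

theorem Gd.of_equiv (h : Gd r O) (e : O ≃* X) : Gd r X := fun N _ _ => by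
  simpa using h.surj e.symm.surjective (f := e.symm.toMonoidHom) (QuotientGroup.mk' N)

theorem Gd.not_isCyclic (h : Gd r O) (hr : r.Prime) : ¬ IsCyclic O := fun _ => hr.one_lt.ne' (by
  simpa using h.ker (MonoidHom.id O))

theorem exists_gd [Finite O] (h : ¬ IsCyclic O) : ∃ r, r.Prime ∧ Gd r O := by
  by_contra! h1
  have h2 : ∀ r, r.Prime → ∃ N : Subgroup O, ∃ _ : N.Normal, IsCyclic (O ⧸ N) ∧ ¬ r ∣ Nat.card N := fun r hr => by
    simpa [Gd] using h1 r hr
  have h3 : commutator O = ⊥ := card_eq_one.1 (Nat.eq_one_iff_not_exists_prime_dvd.2 fun r hr hd => by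
    obtain ⟨N, _, _, h4⟩ := h2 r hr
    exact h4 (hd.trans (card_dvd_of_le (Subgroup.Normal.quotient_commutative_iff_commutator_le.1 inferInstance))))
  have : IsZGroup O := ⟨fun r hr P => by
    obtain ⟨N, _, _, h4⟩ := h2 r hr
    have := Fact.mk hr
    refine isCyclic_of_injective ((QuotientGroup.mk' N).comp (P : Subgroup O).subtype)
      ((injective_iff_map_eq_one _).2 fun x hx => by_contra fun e => h4 ?_)
    obtain ⟨k, hk⟩ := P.2 x
    exact (dvd_orderOf_of_pow hr hk e).trans (orderOf_coe x ▸ N.orderOf_dvd_natCard ((QuotientGroup.eq_one_iff _).1 hx))⟩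
  have := (commutator_eq_bot_iff O).1 h3
  have : Group.IsNilpotent O := ⟨1, Subgroup.upperCentralSeries_one O ▸ center_eq_top_iff.2 this⟩
  exact h inferInstance

theorem Gd.not_two [Finite O] (h : Gd 2 O) (P : Sylow 2 O) : ¬ IsCyclic P := fun _ =>
  MonoidHom.not_dvd_card_ker_transferSylow P (IsCyclic.normalizer_le_centralizer (Nat.minFac_eq_two_iff _ |>.2 h.dvd) ‹_›)
    (h.ker _)

theorem NC.of_injective (h : NC s S) (f : S →* X) (hf : Function.Injective f) : NC s X :=
  let ⟨Q, h1, h2⟩ := h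
  ⟨Q.map f, h1.map f, fun _ => h2 (isCyclic_of_surjective _ (Q.equivMapOfInjective f hf).symm.surjective)⟩

theorem nc_two [Finite S] (h : commutator S = ⊤) (h2 : 2 ∣ Nat.card S) : NC 2 S := by
  obtain ⟨P⟩ := (inferInstance : Nonempty (Sylow 2 S))
  refine ⟨P, P.2, fun _ => MonoidHom.not_dvd_card_ker_transferSylow P
    (IsCyclic.normalizer_le_centralizer (Nat.minFac_eq_two_iff _ |>.2 h2) ‹_›) (h2.trans
    (card_top.symm.dvd.trans (card_dvd_of_le (h.ge.trans (comm_le_ker _)))))⟩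

theorem NC.exists_pair [Finite S] (h : NC s S) (hs : s.Prime) (h2 : s ≠ 2) :
    ∃ x y : S, orderOf x = s ∧ orderOf y = s ∧ Commute x y ∧ y ∉ zpowers x := by
  obtain ⟨Q, h1, h3⟩ := h
  have := Fact.mk hs
  by_contra! h4
  refine h3 ((CL.PCyc.isCyclic_or_quaternion h1 fun x y hx hy e => ?_).resolve_right fun e => h2 e.1)
  obtain ⟨k, hk⟩ := h4 x y (by rwa [orderOf_coe]) (by rwa [orderOf_coe]) (congrArg Subtype.val e)
  exact ⟨k, Subtype.ext hk⟩

theorem el_of_cent [Finite X] (hr : r.Prime) (hs : s.Prime) (hrs : r ≠ s) {y : X} (hy : s ∣ orderOf y)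
    (h : r ∣ Nat.card (centralizer {y})) : El (r * s) X := by
  have := Fact.mk hr
  obtain ⟨a, ha⟩ := exists_prime_orderOf_dvd_card' r h
  exact .of_commute (x := a) (mem_centralizer_singleton_iff.1 a.2) (by rw [orderOf_coe, ha]) hy
    ((Nat.coprime_primes hr hs).2 hrs)

theorem fpf (hr : r.Prime) (hs : s.Prime) (hrs : r ≠ s) (h : ¬ El (r * s) X) {A B : Subgroup X} (hA : IsPGroup r A)
    (hB : IsPGroup s B) : ∀ a ∈ A, a ≠ 1 → B ⊓ centralizer {a} = ⊥ := fun a ha h5 =>
  (eq_bot_iff_forall _).2 fun y hy => by_contra fun h6 => by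
    obtain ⟨k, hk⟩ := hA ⟨a, ha⟩
    obtain ⟨l, hl⟩ := hB ⟨y, hy.1⟩
    exact h (.of_commute (mem_centralizer_singleton_iff.1 hy.2).symm (dvd_orderOf_of_pow hr (congrArg Subtype.val hk) h5)
      (dvd_orderOf_of_pow hs (congrArg Subtype.val hl) h6) ((Nat.coprime_primes hr hs).2 hrs))

theorem isP {a : X} (h : orderOf a = r) : IsPGroup r (zpowers a) := .of_card (n := 1) (by rw [Nat.card_zpowers, h, pow_one])

theorem commute_of_card_le [Finite X] {N : Subgroup X} [N.Normal] {a b : X} (ha : a ∈ N) (hb : (orderOf b).Prime)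
    (h : Nat.card N ≤ orderOf b) : Commute a b := by
  classical
  have := Fintype.ofFinite N
  let σ : Equiv.Perm N := (MulAut.conjNormal b : MulAut N).toEquiv
  have h1 : orderOf σ ∣ orderOf b := orderOf_map_dvd ((MulAut.toPerm N).comp MulAut.conjNormal) b
  rcases (Nat.dvd_prime hb).1 h1 with h2 | h2
  · exact (mul_inv_eq_iff_eq_mul.1 (congrArg Subtype.val (Equiv.congr_fun (orderOf_eq_one_iff.1 h2) ⟨a, ha⟩))).symm
  obtain ⟨n, hn⟩ := σ.cycleType_prime_order (h2 ▸ hb)
  have h3 := σ.sum_cycleType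
  have h4 : σ.support.card < Fintype.card N := Finset.card_lt_univ_of_notMem (x := 1) (by simp [σ])
  rw [hn, h2, Multiset.sum_replicate, smul_eq_mul] at h3
  rw [Nat.card_eq_fintype_card] at h
  nlinarith

theorem quat {n : ℕ} [NeZero n] (e : S ≃* QuaternionGroup n) (f : S →* O) : IsCyclic f.ker ∨ IsCyclic f.range := by
  have h1 : ∀ i, e.symm (.a i) ∈ zpowers (e.symm (.a 1)) := fun i =>
    ⟨i.val, by simp only [zpow_natCast, ← map_pow, QuaternionGroup.a_one_pow, ZMod.natCast_zmod_val]⟩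
  by_cases h : f.ker ≤ zpowers (e.symm (.a 1))
  · exact .inl (isCyclic_of_injective _ (inclusion_injective h))
  obtain ⟨y, h2, h3⟩ := SetLike.not_le_iff_exists.1 h
  obtain ⟨i | i, rfl⟩ := e.symm.surjective y
  · exact (h3 (h1 i)).elim
  refine .inr (isCyclic_of_injective _ (inclusion_injective (K := zpowers (f (e.symm (.a 1)))) ?_))
  rintro _ ⟨x, rfl⟩
  rw [← MonoidHom.map_zpowers]
  obtain ⟨j | j, rfl⟩ := e.symm.surjective x
  · exact ⟨_, h1 j, rfl⟩
  · exact ⟨_, h1 (j - i), by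
      rw [← one_mul (f _), ← show f _ = 1 from h2, ← map_mul, ← map_mul, QuaternionGroup.xa_mul_a, add_sub_cancel]⟩

section ext

variable [Finite X] {χ : X →* O} (hχ : Function.Surjective χ)
include hχ

omit [Finite X] in
theorem surj_restrict {N : Subgroup X} (h : N ⊔ χ.ker = ⊤) : Function.Surjective (χ.comp N.subtype) := fun a => by
  obtain ⟨x, rfl⟩ := hχ a
  obtain ⟨n, hn, k, hk, rfl⟩ := mem_sup_of_normal_right.1 (h ▸ mem_top x)
  exact ⟨⟨n, hn⟩, by simp [show χ k = 1 from hk]⟩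

/-- the Frattini argument for a cyclic Sylow subgroup -/
theorem Gd.frat (h : Gd r O) (hr : r.Prime) (hs : s.Prime) (hrs : r ≠ s) (h1 : s ∣ Nat.card χ.ker) (h2 : ¬ NC s χ.ker) :
    El (r * s) X := by
  have := Fact.mk hs
  obtain ⟨Q⟩ := (inferInstance : Nonempty (Sylow s χ.ker))
  have h3 := Q.normalizer_sup_eq_top
  have : IsCyclic (Q : Subgroup χ.ker) := by_contra fun e => h2 ⟨Q, Q.2, e⟩
  have h4 : IsCyclic ((Q : Subgroup χ.ker).map χ.ker.subtype) := isCyclic_of_surjective _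
    ((Q : Subgroup χ.ker).equivMapOfInjective _ χ.ker.subtype_injective).surjective
  have h5 : s ∣ Nat.card ((Q : Subgroup χ.ker).map χ.ker.subtype) := by
    rw [card_map_of_injective χ.ker.subtype_injective]; exact Q.dvd_card_of_dvd_card h1
  generalize (Q : Subgroup χ.ker).map χ.ker.subtype = P at h3 h4 h5
  obtain ⟨y, hy⟩ := exists_prime_orderOf_dvd_card' s h5
  have h6 : normalizer (P : Set X) ≤ normalizer (zpowers (y : X) : Set X) := fun n hn => by
    refine mem_normalizer_fintype ?_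
    rintro _ ⟨k, rfl⟩
    obtain ⟨l, hl⟩ := mem_zpowers_of_prime (a := ⟨n * y * n⁻¹, (hn _).1 y.2⟩) hs (by
      rw [← orderOf_coe]; exact (MulAut.conj n).orderOf_eq (y : X) |>.trans (by rwa [orderOf_coe])) hy
    exact ⟨l * k, by rw [← conj_zpow, ← show (y : X) ^ l = n * y * n⁻¹ from congrArg Subtype.val hl]; simp [zpow_mul]⟩
  have h7 : Nat.card (zpowers (y : X)) = s := by rw [Nat.card_zpowers, orderOf_coe, hy]
  have : IsCyclic (ZMod (Nat.card (zpowers (y : X))))ˣ := by rw [h7]; infer_instance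
  have : IsCyclic (MulAut (zpowers (y : X))) :=
    isCyclic_of_injective (IsCyclic.mulAutMulEquiv _).toMonoidHom (MulEquiv.injective _)
  have h8 := h.surj (surj_restrict hχ (top_le_iff.1 (h3.ge.trans (sup_le_sup_right h6 _)))) (normalizerMonoidHom _)
  refine el_of_cent hr hs hrs (y := y) (by rw [orderOf_coe, hy]) (h8.trans ?_)
  rw [normalizerMonoidHom_ker, Nat.card_congr (subgroupOfEquivOfLe (centralizer_le_normalizer _)).toEquiv]
  exact card_dvd_of_le (centralizer_le (by simp))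

theorem el_of_count (hr : r.Prime) [hs : Fact s.Prime] (hrs : r ≠ s) (h : r ∣ Nat.card O) (Q : Sylow s χ.ker)
    (h1 : ¬ r ∣ Nat.card Q - 1) : El (r * s) X := by
  have := Fact.mk hr
  obtain ⟨a, ha⟩ := exists_prime_orderOf_dvd_card' r
    (h.trans (card_dvd_of_surjective _ (surj_restrict hχ Q.normalizer_sup_eq_top)))
  by_contra h2
  have := CL.BG.regular_norm_dvd_pred (zpowers_le.2 a.2) (fpf hr hs.out hrs h2 (isP ((orderOf_coe a).trans ha)) (Q.2.map _))
  rw [Nat.card_zpowers, orderOf_coe, ha, card_map_of_injective χ.ker.subtype_injective] at this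
  exact h1 this

theorem not_isCyclic [hr : Fact r.Prime] (hp : ⁅χ.ker, χ.ker⁆ = χ.ker) (h1 : r ∣ Nat.card χ.ker) (h2 : r ∣ Nat.card O)
    (P : Sylow r X) : ¬ IsCyclic P := fun _ => by
  let Z := χ.ker ⊔ P
  have : IsCyclic (P.subtype (le_sup_right : _ ≤ Z)) :=
    isCyclic_of_surjective _ (subgroupOfEquivOfLe (le_sup_right : _ ≤ Z)).symm.surjective
  have h3 : (χ.comp Z.subtype).range = (P : Subgroup X).map χ := by
    rw [MonoidHom.range_comp, range_subtype, Subgroup.map_sup, (Subgroup.map_eq_bot_iff _).2 le_rfl, bot_sup_eq]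
  have : Finite O := .of_surjective _ hχ
  have : IsCyclic (χ.comp Z.subtype).range := h3 ▸ isCyclic_of_surjective _ (χ.subgroupMap_surjective P)
  refine (P.subtype (le_sup_right : _ ≤ Z)).not_dvd_card_commutator_or_not_dvd_index_commutator.elim
    (fun h => h (h1.trans ?_)) fun h => h (Dvd.dvd.trans ?_ (index_dvd_of_le (comm_le_ker (χ.comp Z.subtype).rangeRestrict)))
  · rw [← card_map_of_injective Z.subtype_injective, map_subtype_commutator, ← hp]
    exact card_dvd_of_le (commutator_mono le_sup_left le_sup_left)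
  · rw [index_ker, MonoidHom.range_eq_top.2 (MonoidHom.rangeRestrict_surjective _), card_top, h3]
    exact (P.mapSurjective hχ).dvd_card_of_dvd_card h2

/-- the primes dividing the order of a nilpotent normal subgroup -/
theorem Gd.nilp {G : Type*} [Group G] [Finite G] {ψ : G →* X} (hψ : Function.Surjective ψ) [Group.IsNilpotent ψ.ker]
    (h : Gd r O) (hr : r.Prime) (hs : s.Prime) (hrs : r ≠ s) (hp : ⁅χ.ker, χ.ker⁆ = χ.ker) (h1 : r ∣ Nat.card χ.ker)
    (h2 : s ∣ Nat.card ψ.ker) : El (r * s) G := by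
  have := Fact.mk hr
  have := Fact.mk hs
  have : Finite O := .of_surjective _ hχ
  obtain ⟨V⟩ := (inferInstance : Nonempty (Sylow s ψ.ker))
  have := V.characteristic_of_normal inferInstance
  have h3 : (V : Subgroup ψ.ker).map ψ.ker.subtype ≠ ⊥ := fun e => hs.one_lt.ne' (by
    have := V.dvd_card_of_dvd_card h2
    rwa [← card_map_of_injective ψ.ker.subtype_injective, e, card_bot, Nat.dvd_one] at this)
  by_contra h4
  have h5 := fun P : Sylow r G =>
    CL.Frob.isCyclic_or_quaternion P.2 h3 le_normalizer_of_normal (fpf hr hs hrs h4 P.2 (V.2.map _))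
  have h6 : ∀ P : Sylow r G, ¬ IsCyclic P := fun P _ => PAdj.not_isCyclic hχ hp h1 h.dvd (P.mapSurjective hψ)
    (isCyclic_of_surjective _ (ψ.subgroupMap_surjective P))
  obtain ⟨rfl, -⟩ := (h5 default).resolve_left (h6 _)
  obtain ⟨Q, h7, h8⟩ := nc_two (map_injective χ.ker.subtype_injective (by
    rw [map_subtype_commutator, hp, ← MonoidHom.range_eq_map, range_subtype])) h1
  obtain ⟨Q', h9⟩ := Sylow.mapSurjective_surjective (ψ.subgroupComap_surjective_of_surjective (Q.map χ.ker.subtype) hψ) 2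
    ((h7.map _).to_subgroup ⊤ |>.toSylow (by simp))
  obtain ⟨P, hP⟩ := (Q'.2.map (Subgroup.subtype _)).exists_le_sylow
  obtain ⟨-, n, ⟨e⟩⟩ := (h5 P).resolve_left (h6 _)
  obtain h10 | h10 := quat e ((χ.comp ψ).comp (P : Subgroup G).subtype)
  · let i := ((Q.map χ.ker.subtype).comap ψ).subtype.comp (Q' : Subgroup _).subtype
    have := isCyclic_of_injective ((i.codRestrict _ fun y => hP ⟨y, y.2, rfl⟩).codRestrict
      ((χ.comp ψ).comp (P : Subgroup G).subtype).ker fun y => map_subtype_le Q y.1.2)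
      fun a b e => Subtype.ext (Subtype.ext (congrArg (fun x => x.1.1) e))
    have h12 := isCyclic_of_surjective _ (MonoidHom.subgroupMap_surjective (ψ.subgroupComap (Q.map χ.ker.subtype)) Q')
    rw [show Subgroup.map _ _ = ⊤ from congrArg Sylow.toSubgroup h9] at h12
    exact h8 (isCyclic_of_surjective _ (topEquiv.trans (Q.equivMapOfInjective _ χ.ker.subtype_injective).symm).surjective)
  · rw [MonoidHom.range_comp, range_subtype] at h10
    exact h.not_two (P.mapSurjective (f := χ.comp ψ) (hχ.comp hψ)) h10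

end ext

/-- the image in the outer automorphism group -/
abbrev OO (Y : Subgroup (MulAut S)) : Subgroup (Out S) := Y.map (QuotientGroup.mk' (Inn S))

/-- the map to the outer automorphism group -/
abbrev chi (Y : Subgroup (MulAut S)) : Y →* OO Y := (QuotientGroup.mk' (Inn S)).subgroupMap Y

/-- `r` and `s` are adjacent in the almost simple groups for which `r` is good -/
def Adj (r s : ℕ) (S : Type*) [Group S] : Prop := ∀ Y : Subgroup (MulAut S), Inn S ≤ Y → Gd r (OO Y) → El (r * s) Y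

/-- a good prime is adjacent to all others -/
def Goal (S : Type*) [Group S] : Prop := ∀ Y : Subgroup (MulAut S), Inn S ≤ Y → ∀ r, r.Prime → Gd r (OO Y) →
  r ∣ Nat.card S ∧ ∀ s, s.Prime → r ≠ s → s ∣ Nat.card Y → El (r * s) Y

theorem Goal.of_isCyclic (h : IsCyclic (Out S)) : Goal S := fun _ _ _ hr h1 => (h1.not_isCyclic hr inferInstance).elim

variable (hZ : center S = ⊥)
include hZ

theorem adj_of_el (h : El (r * s) S) : Adj r s S := fun _ hY _ => h.of_inn hZ hY

theorem ker_chi {Y : Subgroup (MulAut S)} (hY : Inn S ≤ Y) : Nonempty (S ≃* (chi Y).ker) :=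
  ⟨(MonoidHom.ofInjective (conj_inj hZ)).trans ((subgroupOfEquivOfLe hY).symm.trans (MulEquiv.subgroupCongr
    (Subgroup.ext fun x => (Subtype.ext_iff.trans (QuotientGroup.eq_one_iff (x : MulAut S))).symm)))⟩

variable [Finite S]

theorem adj_of_count (hr : r.Prime) [hs : Fact s.Prime] (hrs : r ≠ s) (h : ∀ Q : Sylow s S, ¬ r ∣ Nat.card Q - 1) :
    Adj r s S := fun Y hY h1 => by
  obtain ⟨e⟩ := ker_chi hZ hY
  obtain ⟨Q⟩ := (inferInstance : Nonempty (Sylow s S))
  refine el_of_count (MonoidHom.subgroupMap_surjective _ Y) hr hrs h1.dvd (Q.mapSurjective (f := e.toMonoidHom) e.surjective) ?_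
  have := h Q
  rwa [← card_map_of_injective (f := e.toMonoidHom) e.injective] at this

theorem goal_of {Q : Type*} [Group Q] [IsCyclic C] (φ : Out S →* Q) (f : Q →* C) [IsCyclic φ.ker] {R : ℕ → Prop}
    (h1 : ∀ a, f (φ a) = 1 → (orderOf a).Prime → R (orderOf a)) (h2 : ∀ r, r.Prime → R r → r ∣ Nat.card S)
    (h3 : ∀ r s, r.Prime → s.Prime → r ∣ Nat.card φ.ker → s ∣ r * (r - 1) → s ∣ Nat.card S)
    (h4 : ∀ a b, f a = 1 → (orderOf b).Prime → ¬ orderOf b ∣ Nat.card S → Commute a b)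
    (h5 : ∀ r s, r.Prime → s.Prime → r ≠ s → R r → NC s S → Adj r s S) : Goal S := fun Y hY r hr h => by
  have := Fact.mk hr
  obtain ⟨⟨c, h6⟩, hc⟩ := exists_prime_orderOf_dvd_card' r (h.ker ((f.comp φ).comp (OO Y).subtype))
  rw [← orderOf_coe] at hc
  have hc' : orderOf (c : Out S) = r := (orderOf_coe c).trans hc
  have hR : R r := hc' ▸ h1 c h6 (hc' ▸ hr)
  refine ⟨h2 r hr hR, fun s hs hrs h7 => ?_⟩
  obtain ⟨e⟩ := ker_chi hZ hY
  have hχ := MonoidHom.subgroupMap_surjective (QuotientGroup.mk' (Inn S)) Y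
  by_cases h8 : s ∣ Nat.card S
  · by_cases h9 : NC s S
    · exact h5 r s hr hs hrs hR h9 Y hY h
    · exact h.frat hχ hr hs hrs (Nat.card_congr e.toEquiv ▸ h8) fun h => h9 (h.of_injective e.symm.toMonoidHom e.symm.injective)
  have := Fact.mk hs
  rw [← (chi Y).ker.card_mul_index, ← Nat.card_congr e.toEquiv, index_ker, MonoidHom.range_eq_top.2 hχ, card_top] at h7
  obtain ⟨σ, hσ⟩ := exists_prime_orderOf_dvd_card' s ((hs.dvd_mul.1 h7).resolve_left h8)
  refine .of_surjective ?_ _ hχ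
  by_cases h9 : φ c = 1
  · by_contra h10
    refine h8 (h3 r s hr hs (hc' ▸ φ.ker.orderOf_dvd_natCard h9) (Dvd.dvd.mul_left ?_ _))
    have := CL.BG.regular_norm_dvd_pred (K := zpowers c) (zpowers_le.2 (mem_normalizer_fintype ?_))
      (fpf hs hr hrs.symm (mt El.symm h10) (isP hσ) (isP hc))
    · rwa [Nat.card_zpowers, Nat.card_zpowers, hσ, hc] at this
    rintro _ ⟨k, rfl⟩
    obtain ⟨l, hl⟩ := mem_zpowers_of_prime (C := φ.ker) (a := ⟨σ * c * σ⁻¹, φ.normal_ker.conj_mem _ h9 _⟩) (b := ⟨c, h9⟩) hr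
      (by rw [← orderOf_coe]; exact ((MulAut.conj (σ : Out S)).orderOf_eq c).trans hc') (by rwa [← orderOf_coe])
    exact ⟨l * k, by rw [← conj_zpow, ← show c ^ l = σ * c * σ⁻¹ from Subtype.ext (congrArg (fun x : φ.ker => (x : Out S)) hl)]; simp [zpow_mul]⟩
  let g := φ.comp (OO Y).subtype
  have h10 : orderOf (φ σ) = s := ((Nat.dvd_prime hs).1 (hσ ▸ orderOf_map_dvd g σ)).resolve_left fun e => h8 (h3 s s hs hs
    (hσ ▸ orderOf_coe σ ▸ φ.ker.orderOf_dvd_natCard (orderOf_eq_one_iff.1 e)) (dvd_mul_right _ _))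
  refine .of_surjective (.of_commute (x := g.rangeRestrict c) (y := g.rangeRestrict σ)
    (Subtype.ext (h4 _ _ h6 (h10 ▸ hs) (h10 ▸ h8))) ?_ ?_ ((Nat.coprime_primes hr hs).2 hrs)) _ g.rangeRestrict_surjective
  · exact dvd_orderOf_of_pow hr (k := 1) (by rw [pow_one, ← map_pow, ← hc, pow_orderOf_eq_one, map_one])
      fun e => h9 (congrArg Subtype.val e)
  · rw [← orderOf_coe]; exact h10.symm.dvd

theorem goal_prod {B : Type*} [Group B] [IsCyclic C] (e : Out S ≃* B × C) {R : ℕ → Prop}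
    (h1 : ∀ r, r.Prime → r ∣ Nat.card B → R r) (h2 : ∀ r, r.Prime → R r → r ∣ Nat.card S)
    (h5 : ∀ r s, r.Prime → s.Prime → r ≠ s → R r → NC s S → Adj r s S) : Goal S := by
  have h3 : e.toMonoidHom.ker = ⊥ := (MonoidHom.ker_eq_bot_iff _).2 e.injective
  have : IsCyclic e.toMonoidHom.ker := by rw [h3]; infer_instance
  refine goal_of hZ e.toMonoidHom (MonoidHom.snd B C) (fun a ha h => h1 _ h ?_) h2
    (fun r _ hr _ h => absurd (by simpa [h3] using h) hr.one_lt.ne') (fun a b ha hb h => ?_) h5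
  · rw [← e.orderOf_eq, Prod.orderOf, show (e a).2 = 1 from ha]
    simpa using _root_.orderOf_dvd_natCard _
  · have h6 := ((Nat.dvd_prime hb).1 (orderOf_map_dvd (MonoidHom.fst B C) b)).resolve_right fun h6 =>
      h (h2 _ hb (h1 _ hb (h6 ▸ orderOf_dvd_natCard _)))
    exact Prod.ext (by simp [show b.1 = 1 from orderOf_eq_one_iff.1 h6]) (by simp [show a.2 = 1 from ha])

theorem goal_add {A B : Type*} [AddCommGroup A] [AddGroup B] [IsAddCyclic B] (φ : Out S →* Multiplicative A)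
    (hφ : IsCyclic φ.ker) (g : A →+ B) {e d : ℕ} (hg : ∀ a, g a = 0 → e • a = 0) (hd : Nat.card φ.ker = d)
    (h2 : ∀ r, r.Prime → r ∣ e * d → r ∣ Nat.card S) (h3 : ∀ r s, r.Prime → s.Prime → r ∣ d → s ∣ r - 1 → s ∣ Nat.card S)
    (h5 : ∀ r s, r.Prime → s.Prime → r ≠ s → r ∣ e * d → NC s S → Adj r s S) : Goal S :=
  goal_of hZ φ g.toMultiplicative (R := (· ∣ e * d)) (fun a ha _ => orderOf_dvd_of_pow_eq_one (by
      rw [pow_mul, ← hd]
      exact congrArg Subtype.val (pow_card_eq_one' (x := (⟨a ^ e, (map_pow φ a e).trans (hg _ ha)⟩ : φ.ker))))) h2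
    (fun r s hr hs h h' => (hs.dvd_mul.1 h').elim (fun k => k.trans (h2 r hr ((hd ▸ h).mul_left _))) (h3 r s hr hs (hd ▸ h)))
    (fun _ _ _ _ _ => .all _ _) h5

omit hZ [Finite S] in
theorem main {G : Type*} [Group G] [Finite G] {K H : Subgroup G} [K.Normal] [H.Normal] (hKH : K ≤ H)
    [Group.IsNilpotent K] [IsSimpleGroup (H ⧸ K.subgroupOf H)] (hC : centralizer (H.map (QuotientGroup.mk' K) : Set (G ⧸ K)) = ⊥)
    (hnc : ¬ IsCyclic (G ⧸ H)) (e : H ⧸ K.subgroupOf H ≃* S) (h : Goal S) :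
    ∃ r : ℕ, r.Prime ∧ r ∣ Nat.card (G ⧸ H) ∧ ∀ s : ℕ, s.Prime → s ∣ Nat.card G → s ≠ r → ∃ g : G, orderOf g = r * s := by
  have : Finite S := .of_equiv _ e.toEquiv
  have := e.symm.isSimpleGroup
  have := ‹H.Normal›.map _ (QuotientGroup.mk'_surjective K)
  let e' : H.map (QuotientGroup.mk' K) ≃* S := ((MulEquiv.subgroupCongr (by rw [MonoidHom.range_comp, range_subtype])).trans
    (QuotientGroup.quotientKerEquivRange ((QuotientGroup.mk' K).comp H.subtype)).symm).trans
      ((QuotientGroup.quotientMulEquivOfEq (by rw [← MonoidHom.comap_ker, QuotientGroup.ker_mk']; rfl)).trans e)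
  let ψ : G →* MulAut S := (MulAut.congr e').toMonoidHom.comp (MulAut.conjNormal.comp (QuotientGroup.mk' K))
  have h1 : ψ.ker = K := Subgroup.ext fun g => by
    rw [← QuotientGroup.eq_one_iff (N := K), ← mem_bot (x := (g : G ⧸ K)), ← hC, mem_centralizer_iff]
    refine (MulAut.congr e').map_eq_one_iff.trans ⟨fun h x hx => ?_, fun h => MulEquiv.ext fun x => Subtype.ext ?_⟩
    · exact (mul_inv_eq_iff_eq_mul.1 (congrArg Subtype.val (DFunLike.congr_fun h ⟨x, hx⟩))).symm
    · exact mul_inv_eq_iff_eq_mul.2 (h x x.2).symm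
  have h2 : ∀ x : S, ∃ g ∈ H, ψ g = MulAut.conj x ∧ (g ∈ K → x = 1) := fun x => by
    obtain ⟨⟨_, g, hg, rfl⟩, rfl⟩ := e'.surjective x
    refine ⟨g, hg, MulEquiv.ext fun y => ?_, fun h => (MulEquiv.map_eq_one_iff _).2 (Subtype.ext
      ((QuotientGroup.eq_one_iff _).2 h))⟩
    obtain ⟨y, rfl⟩ := e'.surjective y
    simp only [MulAut.conj_apply, ← map_inv, ← map_mul]
    exact (congrArg (fun z => e' (MulAut.conjNormal _ z)) (e'.symm_apply_apply y)).trans rfl
  have hZ : center S = ⊥ := (eq_bot_iff_forall _).2 fun x hx => by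
    obtain ⟨g, -, h3, h4⟩ := h2 x
    exact h4 (h1.le (h3.trans (MulEquiv.ext fun y => mul_inv_eq_iff_eq_mul.2 (mem_center_iff.1 hx y).symm)))
  have hY : Inn S ≤ ψ.range := by rintro _ ⟨x, rfl⟩; exact let ⟨g, _, h, _⟩ := h2 x; ⟨g, h⟩
  have hχ := MonoidHom.subgroupMap_surjective (QuotientGroup.mk' (Inn S)) ψ.range
  have h3 : ((chi ψ.range).comp ψ.rangeRestrict).ker = H := Subgroup.ext fun g => by
    refine (Subtype.ext_iff.trans (QuotientGroup.eq_one_iff _)).trans ⟨fun ⟨x, hx⟩ => ?_, fun hg => ⟨e' ⟨_, g, hg, rfl⟩, ?_⟩⟩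
    · obtain ⟨g', h3, h4, -⟩ := h2 x
      simpa using mul_mem h3 (hKH (h1.le ((MonoidHom.eq_iff ψ).1 (hx.symm.trans h4.symm))))
    · refine MulEquiv.ext fun y => ?_
      obtain ⟨y, rfl⟩ := e'.surjective y
      simp only [MulAut.conj_apply, ← map_inv, ← map_mul]
      exact ((congrArg (fun z => e' (MulAut.conjNormal _ z)) (e'.symm_apply_apply y)).trans rfl).symm
  let e₂ := (QuotientGroup.quotientMulEquivOfEq h3.symm).trans
    (QuotientGroup.quotientKerEquivOfSurjective _ (hχ.comp ψ.rangeRestrict_surjective))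
  obtain ⟨r, hr, h4⟩ := exists_gd hnc
  obtain ⟨h5, h6⟩ := h _ hY r hr (h4.of_equiv e₂)
  refine ⟨r, hr, h4.dvd, fun s hs h7 hrs => El.exists_eq ?_⟩
  rw [← ψ.ker.card_mul_index, index_ker] at h7
  refine (hs.dvd_mul.1 h7).elim (fun h7 => ?_) fun h7 => (h6 s hs hrs.symm h7).of_surjective _ ψ.rangeRestrict_surjective
  obtain ⟨e₃⟩ := ker_chi hZ hY
  have : Group.IsNilpotent ψ.rangeRestrict.ker := by rwa [MonoidHom.ker_rangeRestrict, h1]
  refine (h4.of_equiv e₂).nilp hχ ψ.rangeRestrict_surjective hr hs hrs.symm ?_ (Nat.card_congr e₃.toEquiv ▸ h5)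
    (by rwa [MonoidHom.ker_rangeRestrict])
  have := e₃.symm.isSimpleGroup
  rw [← map_subtype_commutator, (IsSimpleGroup.eq_bot_or_eq_top_of_normal (commutator _) inferInstance).resolve_left fun h => ?_,
    ← MonoidHom.range_eq_map, range_subtype]
  have := (commutator_eq_bot_iff _).1 h
  exact bot_ne_top (hZ.symm.trans ((eq_top_iff' _).2 fun x => mem_center_iff.2 fun y => e₃.injective (by
    rw [map_mul, map_mul, mul_comm'])))

end CL.PAdj
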