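import Cfsg.Agent.KSG.PQ1
import Cfsg.Agent.CHEV.SubSt10

/-! A prime adjacent to all others in the prime graph: centralisers of non-regular semisimple elements. -/

set_option autoImplicit false

namespace CL.PAdj

open CL.Chev CL.Chev.StData CL.GBal CL.HB CL.PQ

variable {ι κ : Type*} [Fintype κ] [DecidableEq κ] {R : RootSys ι κ} {K Γ : Type*} [Field K] [Group Γ]
  {S : StData R K Γ} {s : MulAut Γ} {ν w : Equiv.Perm ι} {e : ι → ℕ} {x y : Γ} {χ : ι → K} {Ψ : Set ι} {l r q : ℕ}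
  {π : Equiv.Perm κ} {θ : ι}

/-- the subgroup generated by the fixed unipotent elements of `D` -/
def UU (r : ℕ) (s : MulAut Γ) (D : Subgroup Γ) : Subgroup Γ := Subgroup.closure {u | u ∈ D ∧ s u = u ∧ ∃ k, u ^ r ^ k = 1}

theorem UU_le (D : Subgroup Γ) : UU r s D ≤ D := (Subgroup.closure_le _).2 fun _ h => h.1

theorem UU_top (D : Subgroup Γ) : UU r s D ≤ UU r s ⊤ := Subgroup.closure_mono fun _ h => ⟨trivial, h.2⟩

theorem UU_conj (α : MulAut Γ) : UU r (α⁻¹ * s * α) ⊤ ≤ (UU r s ⊤).comap α.toMonoidHom :=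
  (Subgroup.closure_le _).2 fun _ ⟨_, h, k, hk⟩ => Subgroup.subset_closure
    ⟨trivial, by simpa [MulAut.inv_def, MulEquiv.symm_apply_eq] using h, k, by rw [← map_pow, hk, map_one]⟩

/-- the primes that divide the order of every group generated by fixed unipotent elements -/
def Ok (R : RootSys ι κ) (ν : Equiv.Perm ι) (e : ι → ℕ) (r l : ℕ) : Prop := l = r ∨ l = 2 ∨ Uni R ν e l

/-- `x` is conjugate to an element of the torus in the kernel of a root -/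
def NRx (S : StData R K Γ) (x : Γ) : Prop := ∃ y χ α, Chr S (y⁻¹ * x * y) χ ∧ χ α = 1

theorem NRx.conj (h : NRx S (y⁻¹ * x * y)) : NRx S x :=
  let ⟨z, _, α, C, h⟩ := h; ⟨y * z, _, α, by simpa [mul_assoc] using C, h⟩

section high

variable (h1 : ∀ i, 0 < R.rt θ i) (h2 : ∀ r, R.ht r ≤ R.ht θ)
include h1

theorem card_le_ht : (Fintype.card κ : ℤ) ≤ R.ht θ := by
  simpa [RootSys.ht] using Finset.sum_le_sum (s := Finset.univ) fun i _ => show 1 ≤ R.rt θ i from h1 i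

include h2

theorem pair_high (h : 2 ≤ Fintype.card κ) (i : κ) : R.pair θ (R.simple i) = 0 ∨ R.pair θ (R.simple i) = 1 := by
  have h3 := h2 (R.neg (R.refl θ (R.simple i)))
  have h4 := h2 (R.σ i θ)
  have h5 := card_le_ht h1
  have h6 := R.pair_neg_comm θ (R.simple i)
  rw [R.ht_neg, RootSys.ht_refl, R.ht_simple] at h3
  rw [R.ht_σ, ← R.pair_simple] at h4
  by_contra! h7
  have : 2 ≤ R.pair θ (R.simple i) := by omega
  nlinarith

theorem exists_pair_one (h : 2 ≤ Fintype.card κ) : ∃ i, R.pair θ (R.simple i) = 1 := by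
  obtain ⟨i, h3, -⟩ := R.exists_wt_pos ((R.isPos_iff θ).2 fun i => (h1 i).le)
  rw [← R.pair_simple, R.pair_pos_comm] at h3
  exact ⟨i, (pair_high h1 h2 h i).resolve_left h3.ne'⟩

theorem exists_pair_zero (h : 3 ≤ Fintype.card κ) : ∃ i, R.pair θ (R.simple i) = 0 := by
  by_contra! h3
  have h4 := (R.lin_of_linear (R.coL θ)).eq_sum θ
  simp only [R.coL_rt, R.pair_self, fun i => (pair_high h1 h2 (by omega) i).resolve_left (h3 i), mul_one] at h4
  have := card_le_ht h1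
  rw [RootSys.ht, ← h4] at this
  omega

end high

theorem cl_pair (θ : ι) : Cl R {θ, R.neg θ} {θ, R.neg θ} := by
  refine ⟨?_, ?_, le_rfl, fun _ _ _ h _ => h⟩
  · rintro _ (rfl | rfl) _ (rfl | rfl) <;> simp [RootSys.refl_neg_right, R.refl_self, R.neg_neg, R.refl_neg]
  · rintro a ha b hb k ⟨i, j, -, -, hk⟩
    obtain ⟨m, hm⟩ : ∃ m : ℤ, (1 : ℤ) • R.rt k = m • R.rt θ := by
      rcases ha with rfl | rfl <;> rcases hb with rfl | rfl <;> simp only [hk, R.rt_neg, smul_neg, ← neg_smul, ← add_smul, one_smul] <;>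
        exact ⟨_, rfl⟩
    exact R.eq_or_eq_neg_of_smul one_ne_zero hm

variable [Finite ι] [IsAlgClosed K] [hr : Fact r.Prime] [CharP K r]

omit [Finite ι] [IsAlgClosed K] hr in
theorem x_pow (a : ι) (t : K) : S.x a t ^ r ^ 1 = 1 := by
  rw [pow_one, ← S.x_nsmul, nsmul_eq_mul, CharP.cast_eq_zero, zero_mul, S.x_zero]

omit [IsAlgClosed K] hr in
theorem LL_le : LL S s ≤ UU r s ⊤ :=
  sup_le (fun u h => Subgroup.subset_closure ⟨trivial, h.2, (isPGroup_U r ⟨u, h.1⟩).imp fun _ h => congrArg Subtype.val h⟩)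
    fun u h => Subgroup.subset_closure ⟨trivial, h.2,
      (isPGroup_U (S := S.opp) r ⟨u, S.opp_U ▸ h.1⟩).imp fun _ h => congrArg Subtype.val h⟩

theorem UU_le_LL (H : PT S s ν e π) (D : Subgroup Γ) : UU r s D ≤ LL S s :=
  (Subgroup.closure_le _).2 fun _ ⟨_, h, _, hk⟩ => H.mem_LL h hk

theorem has_top (H : SE S s ν e) [Nonempty ι] (hl : l.Prime) (h : Ok R ν e r l) : Has l (UU r s ⊤) := by
  obtain ⟨y, w, -, π, P⟩ := H.exists_pt 1
  rw [map_one, one_mul] at P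
  generalize MulAut.conj y = α at P
  suffices h : Has l (LL S (α⁻¹ * s * α)) from
    let ⟨x, h1, h2⟩ := h; ⟨α x, UU_conj α (LL_le h1), by rwa [MulEquiv.orderOf_eq]⟩
  obtain ⟨-, -, i, -⟩ := R.exists_W_simple (Classical.arbitrary ι)
  by_cases h1 : l = r
  · obtain ⟨u, h2, h3⟩ := P.h4 i
    obtain ⟨k, hk⟩ := isPGroup_U r ⟨u, h2.1⟩
    exact ⟨u, Subgroup.mem_sup_left h2, h1 ▸ dvd_orderOf_of_pow hr.out (congrArg Subtype.val hk) fun e => h3 (e ▸ one_mem _)⟩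
  by_cases h2 : l = 2
  · obtain ⟨n, h3, h4⟩ := P.isTw_LL.exists_acts H.good P.tw.w0_univ_mem_W1
    refine ⟨n, h3.2, h2 ▸ even_iff_two_dvd.1 (Nat.not_odd_iff_even.1 fun ⟨k, hk⟩ => ?_)⟩
    have h5 := acts_pow h4 (orderOf n)
    rw [pow_orderOf_eq_one, hk, pow_succ, pow_mul, sq, R.w0_mul_self, one_pow, one_mul] at h5
    have h6 := ht_w0 (R := R) (R.simple i)
    rw [H.good.eq_one_of_acts_of_mem_B h5 (one_mem _), Equiv.Perm.one_apply, R.ht_simple] at h6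
    omega
  obtain ⟨x, h3, h4⟩ := H.exists_order ((h.resolve_left h1).resolve_left h2) hl
    (have := Fact.mk hl; CL.LBal.natCast_ne_zero h1)
  obtain ⟨y, h5, h6⟩ := P.exists_order hl h2 (g := α⁻¹ x) (by simpa [mem_Fx] using h3) (by rwa [MulEquiv.orderOf_eq])
  exact ⟨y, h5, h6.symm.dvd⟩

theorem has_sub (H : SE S s ν e) (C : Cl R Ψ Ψ) (hν : ∀ r, ν r ∈ Ψ ↔ r ∈ Ψ) (hΨ : Ψ.Nonempty) (hl : l.Prime)
    (h : Ok R ν e r l) : Has l (UU r s (S.XS Ψ)) := by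
  classical
  obtain ⟨A, hB⟩ := RootSys.exists_isBase C.refl
  have := Fintype.ofFinite A
  have hi : Function.Injective (Subtype.val : A → ι) := Subtype.val_injective
  have hc := C.closed
  obtain ⟨s', h3, H'⟩ := H.sub hB hi hc hν
  have := hΨ.to_subtype
  obtain ⟨y, h1, h2⟩ := has_top (r := r) H' hl (h.imp_right (.imp_right fun ⟨h8, q, h9, h10⟩ =>
    ⟨fun a b => by simp only [hB.sys_pair]; exact h8 _ _, q, fun _ => h9 _, h10⟩))
  have h4 : ∀ z ∈ Subgroup.center (S.XS Ψ), ∃ m, r.Coprime m ∧ z ^ m = 1 := fun z hz =>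
    (H.exists_pow_eq_one r (sD_H hB hi hc ((sD_good hB hi hc H.good).center_le_H (sD_top hB hi hc) hz))).imp
      fun _ h => ⟨h.1, Subtype.ext h.2⟩
  have h5 : ∀ (x y : S.XS Ψ) k, x ^ r ^ k = 1 → y ^ r ^ k = 1 → th S Ψ x = th S Ψ y → x = y := fun x y k hx hy e => by
    have h6 := subQ.center_eq_iff.1 e
    obtain ⟨m, h7, h8⟩ := h4 _ h6
    have h9 : Commute x (x⁻¹ * y) := Subgroup.mem_center_iff.1 h6 x
    rw [← mul_inv_cancel_left x y, h9.mul_pow, hx, one_mul] at hy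
    exact inv_mul_eq_one.1 (eq_one_of_pow_coprime hy h8 (h7.pow_left k).symm)
  have h6 : UU r s' ⊤ ≤ ((UU r s (S.XS Ψ)).subgroupOf _).map (th S Ψ) := (Subgroup.closure_le _).2 (by
    rintro u ⟨-, hu, k, hk⟩
    obtain ⟨u, rfl⟩ := subQ.surj u
    obtain ⟨m, h11, h12⟩ := h4 (u ^ r ^ k) (by rwa [← subQ.ker, MonoidHom.mem_ker, map_pow])
    obtain ⟨n, h13, h14⟩ := Nat.chineseRemainder (h11.pow_left k) 1 0
    have h15 : th S Ψ (u ^ n) = th S Ψ u := by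
      rw [map_pow, pow_eq_pow_mod _ hk, h13, ← pow_eq_pow_mod _ hk, pow_one]
    have h16 : (u ^ n) ^ r ^ k = 1 := by rw [pow_right_comm, pow_eq_pow_mod _ h12, h14, Nat.zero_mod, pow_zero]
    rw [← h15] at hu ⊢
    generalize u ^ n = v at hu h16
    obtain ⟨v', e1, e2⟩ := h3 v
    rw [h5 v' v k (Subtype.ext (by
      rw [Subgroup.coe_pow, show (v' : Γ) = _ from e1, ← map_pow, ← map_pow, h16]; simp)) h16 (e2.trans hu)] at e1
    exact ⟨v, Subgroup.subset_closure ⟨v.2, e1.symm, k, congrArg Subtype.val h16⟩, rfl⟩)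
  obtain ⟨z, h7, rfl⟩ := h6 h1
  exact ⟨z, h7, h2.trans ((orderOf_map_dvd _ z).trans (Subgroup.orderOf_coe z).symm.dvd)⟩

omit hr [CharP K r] in
/-- move fixed elements into the torus -/
theorem twist (H : SE S s ν e) {I : Type*} {a : I → Γ} (ha : ∀ i, s (a i) = a i) (h : ∀ i, y⁻¹ * a i * y ∈ S.H) :
    ∃ z, ∃ w ∈ R.W, SE S ((MulAut.conj z)⁻¹ * s * MulAut.conj z) (w * ν) e ∧ ∀ i, z⁻¹ * a i * z = y⁻¹ * a i * y := by
  obtain ⟨c, m, w, h5, h6, h7⟩ := H.exists_twist h (b := y⁻¹ * s y) fun i => by simp [ha, mul_assoc]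
  rw [← conj_eq, ← mul_assoc, ← mul_assoc, mul_assoc _ _ (MulAut.conj c), ← _root_.mul_inv_rev, ← map_mul] at h7
  exact ⟨y * c, w, h5.mem_W, h7 ▸ H.conj h5, fun i => by simpa [mul_assoc] using h6 i⟩

theorem has_cent (H : SE S s ν e) (hx : s x = x) (h : NRx S x) (hl : l.Prime) (h1 : Ok R ν e r l) :
    Has l (UU r s ⊤ ⊓ Subgroup.centralizer {x}) := by
  obtain ⟨y, χ, α, C, h⟩ := h
  obtain ⟨z, w, hw, H', h2⟩ := twist H (I := Unit) (fun _ => hx) fun _ => C.1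
  rw [← h2 ()] at C
  have h3 := H'.chr_map C (by simp [hx, mul_assoc])
  obtain ⟨u, h4, h5⟩ := has_sub (r := r) H' (C.mlin H.good).cl (fun a => by
    rw [Set.mem_ofPred_eq, h3]
    exact ⟨fun h => H.gm.pow_inj a (h.trans (one_pow _).symm), fun h => by rw [show χ a = 1 from h, one_pow]⟩) ⟨α, h⟩ hl
    (h1.imp_right (.imp_right fun h => ⟨h.1.mul hw, h.2⟩))
  refine ⟨_, ⟨UU_conj _ (UU_top _ h4), Subgroup.mem_centralizer_singleton_iff.2 ?_⟩, h5.trans ((MulAut.conj z).orderOf_eq u).symm.dvd⟩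
  have := C.comm (fun _ h => h) (UU_le _ h4)
  simp only [MulEquiv.coe_toMonoidHom, MulAut.conj_apply]
  rw [show z * u * z⁻¹ * x = z * (u * (z⁻¹ * x * z)) * z⁻¹ by group, ← this]; group

omit hr [CharP K r] [IsAlgClosed K] in
theorem exists_high [Nonempty ι] (H : PT S s ν e π) (hR : R.Irred) (hP : PP R ν) :
    ∃ θ, (∀ i, 0 < R.rt θ i) ∧ (∀ r, R.ht r ≤ R.ht θ) ∧ ν θ = θ := by
  obtain ⟨θ, h1, h2, h3⟩ := exists_highest hR
  refine ⟨θ, h1, h2, h3 _ ?_⟩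
  rw [(hP.lin H.se.rc R.lin_ht).eq_sum, RootSys.ht]
  simp [H.simp, R.ht_simple]

theorem nr_two [Nonempty ι] (H : PT S s ν e π) (hR : R.Irred) (hP : PP R ν) (hq : ∀ a, e a = q) (hq' : 2 ≤ q) (h2 : r ≠ 2)
    (hκ : 2 ≤ Fintype.card κ) : ∃ x ∈ LL S s, 2 ∣ orderOf x ∧ NRx S x := by
  obtain ⟨θ, h1, h3, h4⟩ := exists_high H hR hP
  obtain ⟨i, hi⟩ := exists_pair_one h1 h3 hκ
  obtain ⟨c, h5, h6⟩ := H.se.gm.x
  have h7 := left_ne_zero_of_mul_eq_one (h5 θ)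
  obtain ⟨t, ht⟩ := IsAlgClosed.exists_pow_nat_eq (c θ)⁻¹ (show 0 < q - 1 by omega)
  have h8 : t ≠ 0 := by rintro rfl; exact inv_ne_zero h7 (ht.symm.trans (zero_pow (by omega)))
  have h9 : c θ * t ^ q = t := by rw [← Nat.sub_add_cancel (show 1 ≤ q by omega), pow_succ, ht]; field_simp
  have h10 : ∀ a t, s (S.x a t) = S.x a t → S.x a t ∈ LL S s := fun a t h => H.mem_LL h (x_pow (r := r) a t)
  have h11 := h10 θ t (by rw [h6, h4, hq, h9])
  have h12 := h10 (R.neg θ) (-t⁻¹) (by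
    rw [h6, H.se.gm.neg, h4, H.se.gm.neg_pow, hq, inv_pow, eq_inv_of_mul_eq_one_right (h5 θ), mul_neg, ← mul_inv, h9])
  have h13 : S.n θ t ∈ LL S s := mul_mem (mul_mem h11 h12) h11
  have h14 : (2 : K) ≠ 0 := by exact_mod_cast CL.LBal.natCast_ne_zero (F := K) (p := 2) h2.symm
  have C : Chr S (S.h θ t * (S.h θ (-t))⁻¹) _ := Chr.mul ⟨S.h_mem_H θ h8, fun a => S.h_conj θ a h8⟩
    (Chr.inv ⟨S.h_mem_H θ (neg_ne_zero.2 h8), fun a => S.h_conj θ a (neg_ne_zero.2 h8)⟩ H.se.good)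
  have h15 : ∀ a, t ^ R.pair θ a * ((-t) ^ R.pair θ a)⁻¹ = (-1) ^ R.pair θ a := fun a => by
    rw [← inv_zpow, ← mul_zpow, inv_neg, mul_neg, mul_inv_cancel₀ h8]
  refine ⟨_, by rw [h_eq, h_eq, n_neg]; simpa [mul_assoc] using mul_mem h13 h13, dvd_orderOf_of_pow Nat.prime_two (k := 1)
    ((C.pow_eq_one_iff H.se.good H.se.adj).2 fun a => ?_) fun h => h14 ?_, 1, _, θ, by simpa using C, ?_⟩
  · simp only [Pi.mul_apply, Pi.inv_apply, h15]
    rw [pow_one, ← zpow_natCast, ← zpow_mul, mul_comm, zpow_mul]; simp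
  · have := (h15 _).symm.trans (congrFun (C.unique H.se.good (h.symm ▸ HB.chr_one)) (R.simple i))
    rw [hi, Pi.one_apply, zpow_one] at this
    linear_combination -this
  · exact (h15 θ).trans (by rw [R.pair_self]; norm_num)

theorem nr_odd [Nonempty ι] (H : PT S s ν e π) (hR : R.Irred) (hl : l.Prime) (hlr : l ≠ r) (U : Uni R ν e l)
    (hκ : 3 ≤ Fintype.card κ) : ∃ x ∈ LL S s, l ∣ orderOf x ∧ NRx S x := by
  obtain ⟨θ, h1, h3, h4⟩ := exists_high H hR U.1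
  obtain ⟨i, hi⟩ := exists_pair_zero h1 h3 hκ
  obtain ⟨u, h5, h6⟩ := has_sub (r := r) H.se (cl_pair θ) (fun a => by
    simp only [Set.mem_insert_iff, Set.mem_singleton_iff]
    rw [← ν.injective.eq_iff (a := a), ← ν.injective.eq_iff (a := a), H.se.gm.neg, h4]) ⟨θ, by simp⟩ hl (.inr (.inr U))
  have h7 := orderOf_pow_orderOf_div (H.se.isOfFinOrder u).orderOf_pos.ne' h6
  have h8 := pow_mem h5 (orderOf u / l)
  generalize u ^ (orderOf u / l) = x at h7 h8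
  obtain ⟨y, h9, h10⟩ := H.se.exists_conj_H (cl_pair θ) hl hlr (Subgroup.mem_sup_left (UU_le _ h8))
    (h7 ▸ pow_orderOf_eq_one x)
  obtain ⟨χ, C⟩ := exists_chr h10
  refine ⟨x, UU_le_LL H _ h8, h7.symm.dvd, y, χ, R.simple i, C, ?_⟩
  have h11 : ∀ k, ¬ R.IsComb θ (R.simple i) k := fun k hk => by
    obtain ⟨a, b, h11, h12, h13⟩ := hk.map_eq RootSys.htL
    have := h3 k
    have := card_le_ht h1
    simp only [RootSys.htL_rt, R.ht_simple] at h13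
    nlinarith
  have h12 : S.XS {θ, R.neg θ} ≤ Subgroup.centralizer {S.x (R.simple i) 1} := S.XS_le_iff.2 (by
    rintro _ (rfl | rfl) t <;> refine Subgroup.mem_centralizer_singleton_iff.2 (S.commute_of_not_isComb (fun e => ?_) ?_ _ _)
    · rw [e, R.pair_neg_right, R.pair_self] at hi; omega
    · exact h11
    · rw [e, R.neg_neg, R.pair_self] at hi; omega
    · rintro k ⟨a, b, h12, h13, h14⟩
      refine h11 (R.refl θ k) ⟨a, b, h12, h13, ?_⟩
      rw [R.rt_refl, ← R.coL_rt, h14]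
      simp only [map_add, map_zsmul, map_neg, R.coL_rt, R.pair_self, hi, R.rt_neg, smul_eq_mul]
      module)
  have h13 := h12 (mul_mem (mul_mem (inv_mem h9) (UU_le _ h8)) h9) _ rfl
  simpa using H.se.good.x_injective _ ((C.2 _ 1).symm.trans (mul_inv_eq_iff_eq_mul.2 h13.symm))

omit hr [CharP K r] in
theorem nontoral {a b : Γ} (H : SE S s ν e) (h6 : PP R ν) (h7 : ∀ a, e a = q) (h8 : ν * ν ∈ R.W) (hp : l.Prime)
    (hK : (l : K) ≠ 0) (C : Chr S a χ) (ha : s a = a) (hap : a ^ l = 1) (hb : s b = b) (hab : a * b = b * a)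
    (hb' : b ∉ S.XS {r | χ r = 1} ⊔ S.H) :
    (l : ℤ) ∣ (q : ℤ) ^ 2 - 1 ∧ ∀ N : ℕ, (∀ f, R.Lin f → R.InQ fun r => N * f r) → l ∣ N := by
  have hS := H.good
  have hp0 : (0 : ℤ) < l := by exact_mod_cast hp.pos
  obtain ⟨d, h1, m, h3, w, h4, h5, rfl⟩ := C.nf hS H.top H.adj hab
  obtain ⟨z, f, k1, k2, k0, k3, k4⟩ := C.exists_lin hS H.adj hp hK hap
  have hw := h4.mem_W
  obtain ⟨k, k5, k6⟩ := exists_lin_div (lin_sub (k1.comp hw) k1) hp0.ne' fun r => (k3 _ _).1 (by rw [← k2, ← k2, h5])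
  have hc := (C.mlin hS).cl
  have k7 : ¬ R.InQ k := fun h => hb' (mul_mem (Subgroup.mem_sup_left h1) (mem_sup_of_acts hS
    (fun r hr => R.refl_self r ▸ hc.refl r hr r hr) h3 h4 (k4 ▸ k1.mem_WS hp0 hw h fun r => by linarith [k6 r])))
  have k8 : R.InQ fun r => l * k r := inQ_congr (inQ_sub k1 hw) fun r => (k6 r).symm
  refine ⟨dvd_of_inQ hp k7 k8 ?_, fun N h => by exact_mod_cast dvd_of_inQ hp k7 k8 (h k k5)⟩
  obtain ⟨l, l1, l2⟩ := exists_lin_div (lin_sub (h6.lin H.rc k1) (k1.mul q)) hp0.ne' fun r => (k3 _ _).1 (by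
    rw [← k2, H.chr_map C ha, k2, h7, ← zpow_natCast, ← zpow_mul, mul_comm])
  have h9 := mem_WS_of_acts hS hc (m := s m * m⁻¹) (by
    rw [show s m * m⁻¹ = (s d)⁻¹ * d by rw [map_mul] at hb; rw [← inv_mul_cancel_left (s d) (s m), hb]; group]
    exact mul_mem (inv_mem (H.gm.mem_XS (fun r hr => by
      rw [Set.mem_ofPred_eq, H.chr_map C ha, hr, one_pow]) h1)) h1) ((H.gm.acts hS h3 h4).mul h4.inv)
  obtain ⟨g', l3, l4⟩ := k1.exists_inQ_of_mem_WS (k4 ▸ h9)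
  have l5 : R.InQ fun r => q * k r - k (ν r) :=
    inQ_congr (((inQ_sub l1 hw).mul (-1)).add (h6.inQ (l3.comp hw))) fun r => mul_left_cancel₀ hp0.ne' (by
      have := l4 (w (ν r))
      simp only [Equiv.Perm.mul_apply, RootSys.perm_inv_apply] at this
      linear_combination this + l2 (w r) * (-1) + l2 r + k6 (ν r) - q * k6 r)
  exact inQ_congr (((l5.mul q).add (h6.inQ l5)).add (inQ_sub k5 h8)) fun r => by
    simp only [Equiv.Perm.mul_apply]; ring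

theorem nr_tor [Nonempty ι] (H : SE S s ν e) (h6 : PP R ν) (h7 : ∀ a, e a = q) (h8 : ν * ν ∈ R.W) (hl : l.Prime)
    (hlr : l ≠ r) {M : Subgroup Γ} (hM : M ≤ Fx s) {a b : Γ} (ha : a ∈ M) (hb : b ∈ M) (h1 : orderOf a = l) (h2 : orderOf b = l)
    (h3 : Commute a b) (h4 : b ∉ Subgroup.zpowers a) : (∃ x ∈ M, l ∣ orderOf x ∧ NRx S x) ∨
      (l : ℤ) ∣ (q : ℤ) ^ 2 - 1 ∧ ∀ N : ℕ, (∀ f, R.Lin f → R.InQ fun r => N * f r) → l ∣ N := by
  have := Fact.mk hl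
  have h5 : ∀ z x : Γ, orderOf x = l → (z⁻¹ * x * z) ^ l = 1 := fun z x h => by
    rw [← h, ← inv_inv z, inv_inv z⁻¹, conj_pow, pow_orderOf_eq_one, mul_one, mul_inv_cancel]
  obtain ⟨y, -, hy⟩ := H.exists_conj_H (Φ := Set.univ) ⟨fun _ _ _ h => h, fun _ _ _ _ _ _ => trivial, le_rfl,
    fun _ _ _ h _ => h⟩ hl hlr (Subgroup.mem_sup_left (H.mem a)) (h1 ▸ pow_orderOf_eq_one a)
  obtain ⟨z, w, hw, H', h9⟩ := twist H (I := Unit) (fun _ => hM ha) fun _ => hy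
  obtain ⟨χ, C⟩ := exists_chr (h9 () ▸ hy)
  by_cases h10 : z⁻¹ * b * z ∈ S.XS {r | χ r = 1} ⊔ S.H
  swap
  · exact .inr (nontoral H' (h6.mul hw) h7 (by convert mul_mem (mul_mem hw (H.rc.conj_mem_W hw)) h8 using 1; group) hl
      (CL.LBal.natCast_ne_zero hlr) C (by simp [show s a = a from hM ha, mul_assoc]) (h5 z a h1)
      (by simp [show s b = b from hM hb, mul_assoc]) (by simpa [mul_assoc] using congrArg (· * z) h3.eq) h10)
  obtain ⟨u, h11, h12⟩ := H.exists_conj_H (C.mlin H.good).cl hl hlr h10 (h5 z b h2)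
  obtain ⟨χ', C'⟩ := exists_chr h12
  obtain ⟨α⟩ := ‹Nonempty ι›
  by_cases h13 : χ α = 1
  · exact .inl ⟨a, ha, h1.symm.dvd, z, χ, α, C, h13⟩
  have := NeZero.mk hl.ne_zero
  obtain ⟨k, -, hk⟩ := (IsPrimitiveRoot.iff_orderOf.2 (orderOf_eq_prime ((C.pow_eq_one_iff H.good H.adj).1 (h5 z a h1) α)
    h13)).eq_pow_of_pow_eq_one ((C'.pow_eq_one_iff H.good H.adj).1 (h5 u _ (by
      rw [← h2]; simpa using (MulAut.conj z⁻¹).orderOf_eq b)) α)
  refine .inl ⟨(a ^ k)⁻¹ * b, mul_mem (inv_mem (pow_mem ha k)) hb, dvd_orderOf_of_pow hl (k := 1) ?_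
    fun h => h4 ⟨k, by simpa using inv_mul_eq_one.1 h⟩, z * u, (χ ^ k)⁻¹ * χ', α, ?_, by
      simp [← hk, (C.mlin H.good).ne α]⟩
  · rw [pow_one, (h3.pow_left k).inv_left.mul_pow, inv_pow, pow_right_comm, ← h1, pow_orderOf_eq_one, h1, ← h2,
      pow_orderOf_eq_one]
    simp
  · convert ((C.pow k).inv H.good).mul C' using 1
    have h14 : u⁻¹ * ((z⁻¹ * a * z) ^ k)⁻¹ * u = ((z⁻¹ * a * z) ^ k)⁻¹ := by
      rw [mul_assoc, (Commute.inv_left ((C.pow k).comm (fun r (h : χ r = 1) => by simp [h]) h11)).eq, inv_mul_cancel_left]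
    rw [← h14, ← inv_inv z, inv_inv z⁻¹, conj_pow]
    group

end CL.PAdj
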