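import Cfsg.Agent.KSG.IrrGen
import Cfsg.Agent.KSG.PronTri

/-!
# Regular unipotent elements generating the special linear group
-/

set_option autoImplicit false
set_option linter.unusedSectionVars false

namespace CL.KSG.Irr

open Matrix Module Cfsg Cfsg.Geo CL.Tv

variable {F : Type*} [Field F]

section general

variable {ι : Type} [Fintype ι] [DecidableEq ι]

/-- the map `v ↦ v + φ v • t` -/
noncomputable def dil (t : ι → F) (φ : Dual F (ι → F)) (h : 1 + φ t ≠ 0) : GL ι F :=
  GeneralLinearGroup.mkOfDetNeZero (LinearMap.toMatrix' (LinearMap.transvection φ t))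
    (by rwa [LinearMap.det_toMatrix', LinearMap.transvection.det])

theorem act_dil (t : ι → F) (φ : Dual F (ι → F)) (h : 1 + φ t ≠ 0) (v : ι → F) :
    act (dil t φ h) v = v + φ v • t := by
  rw [act_apply]
  change LinearMap.toMatrix' (LinearMap.transvection φ t) *ᵥ v = _
  rw [LinearMap.toMatrix'_mulVec, LinearMap.transvection.apply]

theorem det_dil (t : ι → F) (φ : Dual F (ι → F)) (h : 1 + φ t ≠ 0) :
    ((dil t φ h : GL ι F) : Matrix ι ι F).det = 1 + φ t := by
  change (LinearMap.toMatrix' (LinearMap.transvection φ t)).det = _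
  rw [LinearMap.det_toMatrix', LinearMap.transvection.det]

/-- a permutation matrix -/
noncomputable def prm (σ : Equiv.Perm ι) : GL ι F :=
  GeneralLinearGroup.mkOfDetNeZero (σ.permMatrix F) (by
    rw [Matrix.det_permutation]
    rcases Int.units_eq_one_or (Equiv.Perm.sign σ) with h | h <;> simp [h])

theorem act_prm (σ : Equiv.Perm ι) (v : ι → F) : act (prm σ) v = v ∘ σ :=
  Matrix.permMatrix_mulVec σ

theorem det_prm (σ : Equiv.Perm ι) :
    ((prm σ : GL ι F) : Matrix ι ι F).det = ((Equiv.Perm.sign σ : ℤ) : F) :=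
  Matrix.det_permutation σ

/-- a scalar matrix -/
noncomputable def scl (c : F) (hc : c ≠ 0) : GL ι F :=
  GeneralLinearGroup.mkOfDetNeZero (c • (1 : Matrix ι ι F)) (by simp [hc])

theorem act_scl (c : F) (hc : c ≠ 0) (v : ι → F) : act (scl c hc) v = c • v := by
  rw [act_apply]
  change (c • (1 : Matrix ι ι F)) *ᵥ v = _
  simp [Matrix.smul_mulVec]

theorem det_scl (c : F) (hc : c ≠ 0) :
    ((scl c hc : GL ι F) : Matrix ι ι F).det = c ^ Fintype.card ι := by
  change (c • (1 : Matrix ι ι F)).det = _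
  simp

theorem scl_conj (c : F) (hc : c ≠ 0) (h x : GL ι F) :
    (scl c hc * h) * x * (scl c hc * h)⁻¹ = h * x * h⁻¹ := by
  have : ∀ y : GL ι F, scl c hc * y = y * scl c hc := fun y => ext_act fun v => by
    rw [act_mul, act_mul, act_scl, act_scl, map_smul]
  rw [_root_.mul_inv_rev, mul_assoc (scl c hc), mul_assoc (scl c hc), this]
  group

theorem act_inv_eq {g : GL ι F} {v w : ι → F} (h : act g w = v) : act g⁻¹ v = w := by
  rw [← h, act_inv_act]

theorem closure_eq_top_of_le {T : Set (SpecialLinearGroup ι F)}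
    (h : specialLinear ι F ≤ Subgroup.closure (SpecialLinearGroup.toGL '' T)) :
    Subgroup.closure T = ⊤ := by
  rw [eq_top_iff]
  intro g _
  have : SpecialLinearGroup.toGL g ∈ specialLinear ι F := mem_SL_iff.2 g.2
  have := h this
  rw [← MonoidHom.map_closure] at this
  obtain ⟨g', hg', e⟩ := this
  rwa [← SpecialLinearGroup.toGL_injective e]

theorem exists_toGL {g : GL ι F} (h : (g : Matrix ι ι F).det = 1) :
    ∃ u : SpecialLinearGroup ι F, SpecialLinearGroup.toGL u = g ∧ (u : Matrix ι ι F) = g :=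
  ⟨⟨g, h⟩, Units.ext rfl, rfl⟩

end general

variable {n : ℕ}

/-- the coordinate functionals -/
def co (k : ℕ) : Dual F (Fin n → F) := if h : k < n then LinearMap.proj ⟨k, h⟩ else 0

/-- the basis vectors -/
def bs (j : ℕ) : Fin n → F := fun i => if i.val = j then 1 else 0

theorem co_of_lt {k : ℕ} (h : k < n) (v : Fin n → F) : co k v = v ⟨k, h⟩ := by simp [co, h]

theorem co_of_le {k : ℕ} (h : n ≤ k) (v : Fin n → F) : co k v = 0 := by simp [co, h.not_gt]

theorem co_val (i : Fin n) (v : Fin n → F) : co i.val v = v i := co_of_lt i.2 v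

theorem co_bs (k j : ℕ) : co k (bs j : Fin n → F) = if k = j ∧ k < n then 1 else 0 := by
  by_cases h : k < n
  · simp [co_of_lt h, bs, h]
  · simp [co_of_le (not_lt.1 h), h]

theorem co_bs_self {k : ℕ} (h : k < n) : co k (bs k : Fin n → F) = 1 := by simp [co_bs, h]

theorem co_bs_ne {k j : ℕ} (h : k ≠ j) : co k (bs j : Fin n → F) = 0 := by simp [co_bs, h]

theorem ext_co {v w : Fin n → F} (h : ∀ k, k < n → co k v = co k w) : v = w :=
  funext fun i => by rw [← co_val i v, ← co_val i w, h i i.2]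

variable (n F) in
/-- the standard regular unipotent element -/
noncomputable def xU : GL (Fin n) F :=
  GeneralLinearGroup.mkOfDetNeZero (1 + shiftM n F) (by
    rw [det_ne_zero_of_lv lv_shiftM]; exact one_ne_zero)

theorem coe_xU : ((xU F n : GL (Fin n) F) : Matrix (Fin n) (Fin n) F) = 1 + shiftM n F := rfl

theorem det_xU : ((xU F n : GL (Fin n) F) : Matrix (Fin n) (Fin n) F).det = 1 :=
  det_ne_zero_of_lv lv_shiftM

theorem co_xU (k : ℕ) (v : Fin n → F) : co k (act (xU F n) v) = co k v + co (k + 1) v := by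
  by_cases h : k < n
  · rw [act_apply, coe_xU, Matrix.add_mulVec, Matrix.one_mulVec, map_add, co_of_lt h (_ *ᵥ v)]
    congr 1
    simp only [Matrix.mulVec, dotProduct, shiftM, Matrix.of_apply, ite_mul, one_mul, zero_mul]
    by_cases h1 : k + 1 < n
    · rw [Finset.sum_eq_single ⟨k + 1, h1⟩, if_pos rfl, co_of_lt h1]
      · intro j _ hj
        exact if_neg fun e => hj (Fin.ext e)
      · simp
    · rw [co_of_le (not_lt.1 h1)]
      exact Finset.sum_eq_zero fun j _ => if_neg fun e : j.val = k + 1 => h1 (e ▸ j.2)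
  · rw [co_of_le (not_lt.1 h), co_of_le (not_lt.1 h), co_of_le (by omega), add_zero]

theorem nilp_xU : IsNilpotent (((xU F n : GL (Fin n) F) : Matrix (Fin n) (Fin n) F) - 1) :=
  ⟨n, by rw [coe_xU, add_sub_cancel_left]; exact lv_shiftM.pow_eq_zero le_rfl⟩

theorem fix_xU (v : Fin n → F) (h : act (xU F n) v = v) : ∃ c : F, v = c • bs 0 := by
  refine ⟨co 0 v, ext_co fun k hk => ?_⟩
  cases k with
  | zero => simp [co_bs_self hk]
  | succ k =>
    have := congrArg (co k) h
    rw [co_xU, add_eq_left] at this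
    simp [this, co_bs_ne]

theorem xU_bs_zero : act (xU F n) (bs 0) = bs 0 :=
  ext_co fun k _ => by rw [co_xU, co_bs_ne (k.succ_ne_zero), add_zero]

theorem xU_bs_succ {j : ℕ} (h : j + 1 < n) : act (xU F n) (bs (j + 1)) = bs (j + 1) + bs j :=
  ext_co fun k hk => by
    rw [co_xU, map_add]
    congr 1
    by_cases e : k = j
    · subst e; rw [co_bs_self h, co_bs_self hk]
    · rw [co_bs_ne e, co_bs_ne (by omega)]

theorem co_xU_inv (k : ℕ) (v : Fin n → F) :
    co (k + 1) (act (xU F n)⁻¹ v) = co k v - co k (act (xU F n)⁻¹ v) := by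
  have := co_xU k (act (xU F n)⁻¹ v)
  rw [act_act_inv] at this
  rw [this]; ring

theorem co_xU_inv_bs {j : ℕ} (h : j < n) : co 0 (act (xU F n)⁻¹ (bs j)) = (-1) ^ j := by
  induction j with
  | zero => rw [act_inv_eq xU_bs_zero, co_bs_self h, pow_zero]
  | succ j ih =>
    have := congrArg (fun v => co 0 (act (xU F n)⁻¹ v)) (xU_bs_succ (F := F) h)
    simp only [act_inv_act, map_add] at this
    rw [co_bs_ne (by omega), ih (by omega)] at this
    rw [pow_succ]; linear_combination -this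

theorem reg_xU (hn : 0 < n) :
    (((xU F n : GL (Fin n) F) : Matrix (Fin n) (Fin n) F) - 1) ^ (n - 1) ≠ 0 :=
  pow_ne_zero_of_fix fix_xU (by simp; omega)

theorem co_last_xU {m : ℕ} (v : Fin (m + 1) → F) : co m (act (xU F (m + 1)) v) = co m v := by
  rw [co_xU, co_of_le le_rfl, add_zero]

theorem irred_xU {m : ℕ} {K : Subgroup (GL (Fin (m + 1)) F)} (hx : xU F (m + 1) ∈ K)
    {z : GL (Fin (m + 1)) F} (hz : z ∈ K) (h : co m (act z (bs 0)) ≠ 0) : Irred K :=
  irred_of_reg hx hz nilp_xU fix_xU co_last_xU h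

theorem co_rev {m k : ℕ} (h : k ≤ m) (v : Fin (m + 1) → F) :
    co k (act (prm Fin.revPerm) v) = co (m - k) v := by
  rw [act_prm, co_of_lt (by omega), co_of_lt (by omega)]
  simp only [Function.comp_apply, Fin.revPerm_apply]
  congr 1
  ext; simp

theorem co_rot_zero {m : ℕ} (v : Fin (m + 1) → F) :
    co 0 (act (prm (finRotate (m + 1)).symm) v) = co m v := by
  rw [act_prm, co_of_lt (by omega), co_of_lt (by omega)]
  simp only [Function.comp_apply]
  congr 1

theorem co_rot_succ {m k : ℕ} (h : k < m) (v : Fin (m + 1) → F) :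
    co (k + 1) (act (prm (finRotate (m + 1)).symm) v) = co k v := by
  rw [act_prm, co_of_lt (by omega), co_of_lt (by omega)]
  simp only [Function.comp_apply]
  congr 1
  rw [Equiv.symm_apply_eq, finRotate_of_lt h]

/-- A second regular unipotent element, differing from the first by a map of rank two. -/
theorem exists_rot {m : ℕ} (hm : 1 ≤ m) (ρ : Fin (m + 1) → F) (h0 : co 0 ρ + co 1 ρ = 0)
    (hr : co m ρ ≠ 0) : ∃ h : GL (Fin (m + 1)) F,
      (h : Matrix (Fin (m + 1)) (Fin (m + 1)) F).det = (-1) ^ m * (co m ρ)⁻¹ ∧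
      ∀ v, act ((xU F (m + 1))⁻¹ * (h * xU F (m + 1) * h⁻¹)) v =
        v + co 0 v • ρ - co 1 v • bs 0 := by
  set r := co m ρ with hrdef
  set s := act (xU F (m + 1)) ρ with hs
  have s0 : co 0 s = 0 := by rw [hs, co_xU, h0]
  have sm : co m s = r := co_last_xU ρ
  have hd : 1 + co m (r⁻¹ • (bs m - s)) = r⁻¹ := by
    rw [map_smul, map_sub, co_bs_self (by omega), sm, smul_eq_mul]
    field_simp
    ring
  have hd' : 1 + co m (r⁻¹ • (bs m - s)) ≠ 0 := by rw [hd]; exact inv_ne_zero hr
  refine ⟨prm (finRotate (m + 1)).symm * dil _ _ hd', ?_, fun v => ?_⟩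
  · rw [Units.val_mul, Matrix.det_mul, det_prm, det_dil, hd, Equiv.Perm.sign_symm, sign_finRotate]
    simp
  set h := prm (finRotate (m + 1)).symm * dil _ _ hd' with hh
  have e0 : ∀ u, co 0 (act h u) = r⁻¹ * co m u := fun u => by
    rw [hh, act_mul, co_rot_zero, act_dil, map_add, map_smul, smul_eq_mul]
    linear_combination co m u * hd
  have e1 : ∀ u k, k < m → co (k + 1) (act h u) = co k u - r⁻¹ * co m u * co k s := fun u k hk => by
    rw [hh, act_mul, co_rot_succ hk, act_dil]
    simp only [map_add, map_smul, map_sub, smul_eq_mul, co_bs_ne hk.ne]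
    ring
  obtain ⟨u, rfl⟩ := (act h).surjective v
  rw [act_mul, act_mul, act_mul, act_inv_act]
  apply act_inv_eq
  rw [map_sub, map_add, map_smul, map_smul, xU_bs_zero, ← hs]
  refine ext_co fun k hk => ?_
  simp only [map_sub, map_add, map_smul, smul_eq_mul, co_xU k (act h u)]
  cases k with
  | zero => rw [e0 (act _ u), co_last_xU, s0, co_bs_self hk, e0]; ring
  | succ k =>
    rw [e1 u k (by omega), e1 (act _ u) k (by omega), co_xU k u, co_last_xU u, co_bs_ne (by omega),
      e0]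
    by_cases h1 : k + 1 < m
    · rw [e1 _ _ h1]; ring
    · obtain rfl : m = k + 1 := by omega
      rw [co_of_le le_rfl (act h u), sm]
      field_simp
      ring

section rot

variable {m : ℕ} {K : Subgroup (GL (Fin (m + 1)) F)} {g : GL (Fin (m + 1)) F}
  {ρ : Fin (m + 1) → F}

/-- the centre of the transvection `g ^ 2` -/
def wv (ρ : Fin (m + 1) → F) : Fin (m + 1) → F := ρ + (2 : F) • bs 0

/-- the axis of the transvection `g ^ 2` -/
def th (F : Type*) [Field F] (m : ℕ) : Dual F (Fin (m + 1) → F) := (2 : F) • co 0 + co 1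

theorem th_apply (v : Fin (m + 1) → F) : th F m v = 2 * co 0 v + co 1 v := rfl

/-- the standing hypotheses -/
structure Rot (K : Subgroup (GL (Fin (m + 1)) F)) (g : GL (Fin (m + 1)) F)
    (ρ : Fin (m + 1) → F) : Prop where
  hm : 2 ≤ m
  hK : K = Subgroup.closure {xU F (m + 1), g}
  hg : ∀ v, act g v = v + co 0 v • ρ - co 1 v • bs 0
  r0 : co 0 ρ = -4
  r1 : co 1 ρ = 4
  rm : co m ρ ≠ 0

namespace Rot

variable (H : Rot K g ρ)
include H

theorem x_mem : xU F (m + 1) ∈ K := H.hK ▸ Subgroup.subset_closure (by simp)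

theorem g_mem : g ∈ K := H.hK ▸ Subgroup.subset_closure (by simp)

theorem co0 (v : Fin (m + 1) → F) : co 0 (act g v) = -3 * co 0 v - co 1 v := by
  rw [H.hg]
  simp only [map_sub, map_add, map_smul, smul_eq_mul, H.r0, co_bs_self (Nat.succ_pos m)]
  ring

theorem cok {k : ℕ} (hk : k ≠ 0) (v : Fin (m + 1) → F) :
    co k (act g v) = co k v + co 0 v * co k ρ := by
  rw [H.hg]
  simp only [map_sub, map_add, map_smul, smul_eq_mul, co_bs_ne hk]
  ring

theorem w0 : co 0 (wv ρ) = -2 := by
  simp only [wv, map_add, map_smul, smul_eq_mul, H.r0, co_bs_self (Nat.succ_pos m)]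
  ring

theorem wk {k : ℕ} (hk : k ≠ 0) : co k (wv ρ) = co k ρ := by
  simp only [wv, map_add, map_smul, smul_eq_mul, co_bs_ne hk]
  ring

theorem th_w : th F m (wv ρ) = 0 := by rw [th_apply, H.w0, H.wk one_ne_zero, H.r1]; ring

theorem th_g (v : Fin (m + 1) → F) : th F m (act g v) = - th F m v := by
  rw [th_apply, th_apply, H.co0, H.cok one_ne_zero, H.r1]; ring

theorem g_w : act g (wv ρ) = - wv ρ := by
  rw [H.hg, H.w0, H.wk one_ne_zero, H.r1, wv]
  module

theorem hasTv : HasTv K (wv ρ) (th F m) := by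
  have : HasTv K (wv ρ) (-th F m) := by
    refine ⟨g * g, K.mul_mem H.g_mem H.g_mem, fun v => ?_⟩
    rw [act_mul, H.hg, H.co0, H.cok one_ne_zero, H.r1, H.hg, LinearMap.neg_apply, th_apply, wv]
    module
  simpa using this.neg_right (by simp [H.th_w])

theorem irred : Irred K := by
  refine irred_xU H.x_mem H.g_mem ?_
  have := H.hm
  rw [H.cok (by omega), co_bs_ne (by omega), co_bs_self (by omega), zero_add, one_mul]
  exact H.rm

theorem w_ne : wv ρ ≠ 0 := fun h => H.rm (by
  have := H.hm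
  rw [← H.wk (by omega), h, map_zero])

theorem th_ne : th F m ≠ 0 := fun h => by
  have := H.hm
  have h1 := LinearMap.congr_fun h (bs 1)
  rw [th_apply, co_bs_ne (by omega), co_bs_self (by omega)] at h1
  simp at h1

theorem root (h : ∀ a : F, HasTv K (wv ρ) (a • th F m)) : Root K (wv ρ) (th F m) :=
  ⟨H.w_ne, H.th_ne, H.th_w, h⟩

theorem conn [Finite F] (h : Root K (wv ρ) (th F m))
    (h1 : th F m (act (xU F (m + 1)) (wv ρ)) ≠ 0 ∨ th F m (act (xU F (m + 1))⁻¹ (wv ρ)) ≠ 0) :
    Conn K (wv ρ) (th F m) := by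
  refine conn_of_closure H.hK h ?_
  rintro _ (rfl | rfl)
  · exact comp_of_gen H.irred h H.x_mem (Or.inr h1)
  · exact comp_of_gen H.irred h H.g_mem (Or.inl ⟨-1, by rw [H.g_w, neg_one_smul]⟩)

theorem f_one : th F m (act (xU F (m + 1)) (wv ρ)) = 8 + co 2 ρ := by
  rw [th_apply, co_xU, co_xU, H.w0, H.wk (by omega), H.wk (by omega), H.r1]; ring

theorem f_neg : th F m (act (xU F (m + 1))⁻¹ (wv ρ)) = co 0 (act (xU F (m + 1))⁻¹ ρ) := by
  rw [th_apply, co_xU_inv, H.w0, wv, map_add, map_smul, act_inv_eq xU_bs_zero, map_add, map_smul,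
    co_bs_self (Nat.succ_pos m), smul_eq_mul]
  ring

/-- the multiplier in odd characteristic -/
theorem mul_odd (h2 : co 2 ρ = -8) {a : F} (ha : HasTv K (wv ρ) (a • th F m)) :
    HasTv K (wv ρ) ((2 * co 0 (act (xU F (m + 1))⁻¹ ρ) * a) • th F m) := by
  set x := xU F (m + 1)
  set δ := co 0 (act x⁻¹ ρ) with hδ
  let η : Dual F (Fin (m + 1) → F) := (2 : F) • co 1 + co 2
  have hη : ∀ v, η v = 2 * co 1 v + co 2 v := fun v => rfl
  have h1 : HasTv K (act x⁻¹ (wv ρ)) (th F m + η) :=
    H.hasTv.conj' (K.inv_mem H.x_mem) rfl fun v => by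
      obtain ⟨u, rfl⟩ := (act x).surjective v
      rw [act_inv_act, LinearMap.add_apply, hη, th_apply, th_apply, co_xU, co_xU]; ring
  have hw : η (wv ρ) = 0 := by rw [hη, H.wk (by omega), H.wk (by omega), H.r1, h2]; ring
  have h3 := ha.comm_right h1 (by simp [H.th_w]) (by
    have := H.th_w
    rw [← act_act_inv x (wv ρ), th_apply, co_xU, co_xU] at this
    rw [LinearMap.add_apply, hη, th_apply]
    linear_combination this) (by simp [H.th_w, hw])
  rw [LinearMap.smul_apply, H.f_neg, ← hδ] at h3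
  have h4 := h3.conj' H.g_mem H.g_w (φ' := (a • δ) • (η - th F m)) fun v => by
    simp only [LinearMap.smul_apply, LinearMap.sub_apply, LinearMap.add_apply, H.th_g, hη,
      H.cok (k := 1) (by omega), H.cok (k := 2) (by omega), H.r1, h2, smul_eq_mul]
    ring
  rw [← neg_one_smul F (wv ρ), HasTv.smul_left_iff] at h4
  have h5 := h3.add_right h4 (by simp [H.th_w, hw])
  convert h5 using 1
  refine LinearMap.ext fun v => ?_
  simp only [LinearMap.smul_apply, LinearMap.sub_apply, LinearMap.add_apply, smul_eq_mul]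
  ring

/-- the multiplier in characteristic two -/
theorem mul_two (h : (2 : F) = 0) (h2 : co 2 ρ = -8) {a : F} (ha : HasTv K (wv ρ) (a • th F m)) :
    HasTv K (wv ρ) ((co 0 (act (xU F (m + 1))⁻¹ ρ) * a) • th F m) := by
  set x := xU F (m + 1)
  set δ := co 0 (act x⁻¹ ρ) with hδ
  have hw : wv ρ = ρ := by rw [wv, h, zero_smul, add_zero]
  have ht : th F m = co 1 := by rw [th, h, zero_smul, zero_add]
  have r0 : co 0 ρ = 0 := by rw [H.r0]; linear_combination (-2) * h
  have r1 : co 1 ρ = 0 := by rw [H.r1]; linear_combination 2 * h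
  have r2 : co 2 ρ = 0 := by rw [h2]; linear_combination (-4) * h
  have hδ1 : co 1 (act x⁻¹ ρ) = δ := by rw [co_xU_inv, r0, ← hδ]; linear_combination (-δ) * h
  rw [hw, ht] at ha ⊢
  have h1 : HasTv K (act x ρ) (dact x (a • co 1)) := ha.conj H.x_mem
  have x0 : co 0 (act x ρ) = 0 := by rw [co_xU, r0, r1, add_zero]
  have x1 : co 1 (act x ρ) = 0 := by rw [co_xU, r1, r2, add_zero]
  have gx : act g (act x ρ) = act x ρ := by rw [H.hg, x0, x1]; simp
  have gr : act g ρ = ρ := by rw [H.hg, r0, r1]; simp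
  have h3 := h1.conj' (K.inv_mem H.g_mem) (act_inv_eq gx)
    (φ' := dact x (a • co 1) + (a * δ) • co 0) fun v => by
      obtain ⟨u, rfl⟩ := (act g).surjective v
      have hb : act x⁻¹ (bs 0) = bs 0 := act_inv_eq xU_bs_zero
      rw [act_inv_act, H.hg]
      simp only [LinearMap.add_apply, dact_apply, LinearMap.smul_apply, smul_eq_mul,
        map_sub, map_add, map_smul, hδ1, hb, co_bs_ne (show 1 ≠ 0 by omega)]
      ring
  have h4 := h3.sub_right h1 (by simp [dact_act, r1, x0]) (by simp [dact_act, r1])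
  rw [add_sub_cancel_left] at h4
  have h5 := h4.conj' (K.inv_mem H.x_mem) (act_inv_act x ρ) (φ' := (a * δ) • (co 0 + co 1))
    fun v => by
      obtain ⟨u, rfl⟩ := (act x).surjective v
      rw [act_inv_act]
      rw [LinearMap.smul_apply, LinearMap.smul_apply, LinearMap.add_apply, co_xU]
  have h6 := h5.conj' (K.inv_mem H.g_mem) (act_inv_eq gr) (φ' := (a * δ) • co 0) fun v => by
    obtain ⟨u, rfl⟩ := (act g).surjective v
    rw [act_inv_act]
    simp only [LinearMap.add_apply, LinearMap.smul_apply, H.co0, H.cok one_ne_zero, r1, smul_eq_mul]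
    linear_combination (2 * a * δ * co 0 u) * h
  have h7 := h5.sub_right h6 (by simp [r0, r1]) (by simp [r0])
  convert h7 using 1
  rw [smul_add, add_sub_cancel_left, mul_comm]

/-- generation, first form -/
theorem SL_le [Finite F] (h2 : co 2 ρ = -8) (hδ : co 0 (act (xU F (m + 1))⁻¹ ρ) ≠ 0)
    (hgen : Subfield.closure ({2 * co 0 (act (xU F (m + 1))⁻¹ ρ)} : Set F) = ⊤ ∨
      ((2 : F) = 0 ∧ Subfield.closure ({co 0 (act (xU F (m + 1))⁻¹ ρ)} : Set F) = ⊤)) :
    specialLinear (Fin (m + 1)) F ≤ K := by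
  have hR : Root K (wv ρ) (th F m) := by
    refine H.root ?_
    rcases hgen with h | ⟨h, h'⟩
    · exact all_of_mul (RingHom.id F) H.th_w H.hasTv h fun a ha => H.mul_odd h2 ha
    · exact all_of_mul (RingHom.id F) H.th_w H.hasTv h' fun a ha => H.mul_two h h2 ha
  have h1 : th F m (act (xU F (m + 1))⁻¹ (wv ρ)) ≠ 0 := by rwa [H.f_neg]
  exact SL_le_of_conj H.irred hR (H.conn hR (Or.inr h1)) H.x_mem (by rw [H.f_one, h2]; ring) h1

end Rot

theorem exists_Rot (hm : 2 ≤ m) (ρ : Fin (m + 1) → F) (r0 : co 0 ρ = -4) (r1 : co 1 ρ = 4)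
    (rm : co m ρ ≠ 0) : ∃ h : GL (Fin (m + 1)) F,
      (h : Matrix (Fin (m + 1)) (Fin (m + 1)) F).det = (-1) ^ m * (co m ρ)⁻¹ ∧
      ∃ g, Rot (Subgroup.closure {xU F (m + 1), h * xU F (m + 1) * h⁻¹}) g ρ := by
  obtain ⟨h, h1, h2⟩ := exists_rot (by omega) ρ (by rw [r0, r1]; ring) rm
  refine ⟨h, h1, _, hm, ?_, h2, r0, r1, rm⟩
  apply le_antisymm
  · rw [Subgroup.closure_le]
    rintro _ (rfl | rfl)
    · exact Subgroup.subset_closure (by simp)
    · have := (Subgroup.closure {xU F (m + 1), (xU F (m + 1))⁻¹ * (h * xU F (m + 1) * h⁻¹)}).mul_mem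
        (Subgroup.subset_closure (Set.mem_insert _ _))
        (Subgroup.subset_closure (Set.mem_insert_of_mem _ (Set.mem_singleton _)))
      rwa [mul_inv_cancel_left] at this
  · rw [Subgroup.closure_le]
    rintro _ (rfl | rfl)
    · exact Subgroup.subset_closure (by simp)
    · exact Subgroup.mul_mem _ (Subgroup.inv_mem _ (Subgroup.subset_closure (by simp)))
        (Subgroup.subset_closure (by simp))

end rot

/-- the conclusion for two conjugate generators -/
theorem exists_SL_two {h : GL (Fin n) F} (hn : 0 < n) (hd : (h : Matrix (Fin n) (Fin n) F).det = 1)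
    (H : specialLinear (Fin n) F ≤ Subgroup.closure {xU F n, h * xU F n * h⁻¹}) :
    ∃ u g : SpecialLinearGroup (Fin n) F, (IsNilpotent ((u : Matrix (Fin n) (Fin n) F) - 1) ∧
      ((u : Matrix (Fin n) (Fin n) F) - 1) ^ (n - 1) ≠ 0) ∧
      Subgroup.closure ({u, g * u * g⁻¹} : Set (SpecialLinearGroup (Fin n) F)) = ⊤ := by
  obtain ⟨u, hu, hu'⟩ := exists_toGL (det_xU (F := F) (n := n))
  obtain ⟨g, hg, -⟩ := exists_toGL hd
  refine ⟨u, g, by rw [hu']; exact ⟨nilp_xU, reg_xU hn⟩, closure_eq_top_of_le ?_⟩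
  rwa [Set.image_pair, map_mul, map_mul, map_inv, hu, hg]

end CL.KSG.Irr
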