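import Cfsg.Agent.KSG.IrrTwo
import Cfsg.Agent.CLAS.SpForm

/-!
# Regular unipotent elements generating the symplectic group
-/

set_option autoImplicit false
set_option linter.unusedSectionVars false

namespace CL.KSG.Irr

open Matrix Module Cfsg Cfsg.Geo CL.Tv

variable {F : Type*} [Field F] {m : ℕ}

/-- the antidiagonal symmetric form -/
def ip : (Fin (m + 1) → F) →ₗ[F] (Fin (m + 1) → F) →ₗ[F] F :=
  LinearMap.mk₂ F (fun a b => ∑ i, a i * b i.rev)
    (fun _ _ _ => by simp [add_mul, Finset.sum_add_distrib])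
    (fun _ _ _ => by simp [Finset.mul_sum, mul_assoc])
    (fun _ _ _ => by simp [mul_add, Finset.sum_add_distrib])
    (fun _ _ _ => by simp [Finset.mul_sum, mul_left_comm])

theorem ip_apply (a b : Fin (m + 1) → F) : ip a b = ∑ i, a i * b i.rev := rfl

theorem ip_comm (a b : Fin (m + 1) → F) : ip a b = ip b a := by
  rw [ip_apply, ip_apply, ← Equiv.sum_comp Fin.revPerm]
  simp [mul_comm]

theorem ip_bs {j : ℕ} (h : j ≤ m) (b : Fin (m + 1) → F) : ip (bs j) b = co (m - j) b := by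
  rw [ip_apply, Finset.sum_eq_single ⟨j, by omega⟩, co_of_lt (by omega)]
  · simp only [bs, if_true, one_mul]
    congr 1
    ext; simp
  · intro i _ hi
    rw [bs, if_neg fun e => hi (Fin.ext e), zero_mul]
  · simp

theorem ip_bs' {j : ℕ} (h : j ≤ m) (b : Fin (m + 1) → F) : ip b (bs j) = co (m - j) b := by
  rw [ip_comm, ip_bs h]

theorem ext_bs {W : Type*} [AddCommGroup W] [Module F W] {f g : (Fin (m + 1) → F) →ₗ[F] W}
    (h : ∀ j, j ≤ m → f (bs j) = g (bs j)) : f = g := by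
  refine (Pi.basisFun F (Fin (m + 1))).ext fun i => ?_
  have : Pi.basisFun F (Fin (m + 1)) i = bs i.val := by
    ext k; simp [bs, Pi.single_apply, Fin.ext_iff]
  rw [this, h i (by omega)]

theorem ip_xU (a b : Fin (m + 1) → F) :
    ip (act (xU F (m + 1)) a) b = ip a (act (xU F (m + 1)) b) := by
  have : (ip.flip b) ∘ₗ (act (xU F (m + 1)) : _ →ₗ[F] _) = ip.flip (act (xU F (m + 1)) b) :=
    ext_bs fun j hj => by
      simp only [LinearMap.comp_apply, LinearEquiv.coe_coe, LinearMap.flip_apply]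
      rw [ip_bs hj, co_xU]
      cases j with
      | zero => rw [xU_bs_zero, ip_bs hj, co_of_le (show m + 1 ≤ m - 0 + 1 by omega), add_zero]
      | succ j => rw [xU_bs_succ (by omega), map_add, LinearMap.add_apply, ip_bs hj, ip_bs (by omega),
          show m - (j + 1) + 1 = m - j by omega]
  exact LinearMap.congr_fun this a

/-- the symplectic space -/
abbrev Vs (m : ℕ) (F : Type*) := Fin (m + 1) ⊕ Fin (m + 1) → F

/-- first half of the coordinates -/
def Lp : Vs m F →ₗ[F] (Fin (m + 1) → F) := LinearMap.funLeft F F Sum.inl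

/-- second half of the coordinates, reversed -/
def Rp : Vs m F →ₗ[F] (Fin (m + 1) → F) := LinearMap.funLeft F F fun i => Sum.inr i.rev

/-- inclusion of the first Lagrangian -/
def jL : (Fin (m + 1) → F) →ₗ[F] Vs m F where
  toFun a := Sum.elim a 0
  map_add' a b := by ext (i | i) <;> simp
  map_smul' c a := by ext (i | i) <;> simp

/-- inclusion of the second Lagrangian -/
def jR : (Fin (m + 1) → F) →ₗ[F] Vs m F where
  toFun b := Sum.elim 0 fun i => b i.rev
  map_add' a b := by ext (i | i) <;> simp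
  map_smul' c a := by ext (i | i) <;> simp

@[simp] theorem Lp_jL (a : Fin (m + 1) → F) : Lp (jL a) = a := rfl
@[simp] theorem Lp_jR (a : Fin (m + 1) → F) : Lp (jR a) = 0 := rfl
@[simp] theorem Rp_jL (a : Fin (m + 1) → F) : Rp (jL a) = 0 := rfl
@[simp] theorem Rp_jR (a : Fin (m + 1) → F) : Rp (jR a) = a := by
  ext i; simp [Rp, jR, LinearMap.funLeft_apply]

theorem ext_LR {v w : Vs m F} (h1 : Lp v = Lp w) (h2 : Rp v = Rp w) : v = w := by
  ext (i | i)
  · exact congrFun h1 i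
  · simpa [Rp, LinearMap.funLeft_apply] using congrFun h2 i.rev

/-- the symplectic form -/
def Bf : Vs m F →ₗ[F] Dual F (Vs m F) :=
  (ip.compl₁₂ Lp Rp) - (ip.compl₁₂ Rp Lp)

theorem Bf_apply (v u : Vs m F) : Bf v u = ip (Lp v) (Rp u) - ip (Rp v) (Lp u) := rfl

theorem Bf_eq (v u : Vs m F) : Bf v u = sympForm (m + 1) F u v := by
  rw [CL.Sp.sympForm_eq, Bf_apply, ip_comm (Rp v), ip_apply, ip_apply, Finset.sum_sub_distrib]
  simp [Lp, Rp, LinearMap.funLeft_apply, mul_comm]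

theorem Bf_alt (v : Vs m F) : Bf v v = 0 := by rw [Bf_apply, ip_comm, sub_self]

theorem Bf_jL {j : ℕ} (h : j ≤ m) (u : Vs m F) : Bf (jL (bs j)) u = co (m - j) (Rp u) := by
  simp [Bf_apply, ip_bs h]

theorem Bf_jR {j : ℕ} (h : j ≤ m) (u : Vs m F) : Bf (jR (bs j)) u = - co (m - j) (Lp u) := by
  simp [Bf_apply, ip_bs h]

theorem Bf_nondeg (v : Vs m F) (h : Bf v = 0) : v = 0 := by
  refine ext_LR (ext_co fun k hk => ?_) (ext_co fun k hk => ?_)
  · have := LinearMap.congr_fun h (jR (bs (m - k)))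
    rw [skew_of_alt Bf_alt, Bf_jR (by omega), show m - (m - k) = k by omega] at this
    simpa using this
  · have := LinearMap.congr_fun h (jL (bs (m - k)))
    rw [skew_of_alt Bf_alt, Bf_jL (by omega), show m - (m - k) = k by omega] at this
    simpa using this

/-- the symplectic group inside `GL` -/
abbrev SpG (m : ℕ) (F : Type*) [Field F] : Subgroup (GL (Fin (m + 1) ⊕ Fin (m + 1)) F) :=
  spGL (m + 1) F

theorem mem_SpG {g : GL (Fin (m + 1) ⊕ Fin (m + 1)) F} :
    g ∈ SpG m F ↔ ∀ u v, Bf (act g u) (act g v) = Bf u v := by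
  simp only [Bf_eq]
  exact ⟨fun h u v => h v u, fun h u v => h v u⟩

theorem exists_sp (f : Vs m F →ₗ[F] Vs m F) (hf : ∀ u v, Bf (f u) (f v) = Bf u v) :
    ∃ g ∈ SpG m F, ∀ v, act g v = f v := by
  have hi : Function.Injective f := by
    rw [injective_iff_map_eq_zero]
    exact fun v hv => Bf_nondeg v (LinearMap.ext fun u => by rw [← hf, hv]; simp)
  refine ⟨ofLin (LinearEquiv.ofInjectiveEndo f hi), mem_SpG.2 fun u v => ?_, fun v => ?_⟩
  · rw [act_ofLin]; exact hf u v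
  · rw [act_ofLin]; rfl

theorem exists_lev (A A' : (Fin (m + 1) → F) →ₗ[F] (Fin (m + 1) → F))
    (h : ∀ a b, ip (A a) (A' b) = ip a b) :
    ∃ g ∈ SpG m F, ∀ v, Lp (act g v) = A (Lp v) ∧ Rp (act g v) = A' (Rp v) := by
  obtain ⟨g, hg, e⟩ := exists_sp (jL ∘ₗ A ∘ₗ Lp + jR ∘ₗ A' ∘ₗ Rp) fun u v => by
    simp [Bf_apply, h, ip_comm (A' _), ip_comm (Rp u), sub_eq_add_neg]
  exact ⟨g, hg, fun v => by simp [e]⟩

theorem exists_rad (S : (Fin (m + 1) → F) →ₗ[F] (Fin (m + 1) → F))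
    (h : ∀ a b, ip (S a) b = ip a (S b)) :
    ∃ g ∈ SpG m F, ∀ v, Lp (act g v) = Lp v + S (Rp v) ∧ Rp (act g v) = Rp v := by
  obtain ⟨g, hg, e⟩ := exists_sp (LinearMap.id + jL ∘ₗ S ∘ₗ Rp) fun u v => by
    simp [Bf_apply, h]; ring
  exact ⟨g, hg, fun v => by simp [e]⟩

theorem exists_sw : ∃ g ∈ SpG m F, ∀ v, Lp (act g v) = - Rp v ∧ Rp (act g v) = Lp v := by
  obtain ⟨g, hg, e⟩ := exists_sp (m := m) (F := F) (jR ∘ₗ Lp - jL ∘ₗ Rp) fun u v => by
    simp [Bf_apply]
  exact ⟨g, hg, fun v => by simp [e]⟩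

/-- the standing hypotheses: `l` in the Levi subgroup, `x` regular unipotent -/
structure SpS (l x : GL (Fin (m + 1) ⊕ Fin (m + 1)) F) : Prop where
  hl : l ∈ SpG m F
  hx : x ∈ SpG m F
  lL : ∀ v, Lp (act l v) = act (xU F (m + 1)) (Lp v)
  lR : ∀ v, Rp (act l v) = act (xU F (m + 1))⁻¹ (Rp v)
  xL : ∀ v, Lp (act x v) = act (xU F (m + 1)) (Lp v + co 0 (Rp v) • bs m)
  xR : ∀ v, Rp (act x v) = act (xU F (m + 1))⁻¹ (Rp v)

theorem exists_SpS : ∃ l x, SpS (m := m) (F := F) l x := by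
  obtain ⟨l, hl, e⟩ := exists_lev (m := m) (F := F) (act (xU F (m + 1))).toLinearMap
    (act (xU F (m + 1))⁻¹).toLinearMap fun a b => by
      simp only [LinearEquiv.coe_coe]; rw [ip_xU, act_act_inv]
  obtain ⟨s, hs, e'⟩ := exists_rad (m := m) (F := F) ((co 0).smulRight (bs m)) fun a b => by
    simp [ip_bs le_rfl, ip_bs' le_rfl, mul_comm]
  exact ⟨l, l * s, hl, mul_mem hl hs, fun v => (e v).1, fun v => (e v).2,
    fun v => by rw [act_mul, (e _).1, (e' _).1]; rfl, fun v => by rw [act_mul, (e _).2, (e' _).2]; rfl⟩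

namespace SpS

variable {l x : GL (Fin (m + 1) ⊕ Fin (m + 1)) F} (H : SpS l x)
include H

theorem fix (v : Vs m F) (h : act x v = v) : ∃ c : F, v = c • jL (bs 0) := by
  have h1 := H.xR v
  have h2 := H.xL v
  rw [h] at h1 h2
  have h3 : act (xU F (m + 1)) (Rp v) = Rp v := by
    conv_lhs => rw [h1]
    rw [act_act_inv]
  obtain ⟨c, hc⟩ := fix_xU _ h3
  have h4 := congrArg (co m) h2
  rw [co_last_xU, map_add, map_smul, co_bs_self (by omega), smul_eq_mul, mul_one, left_eq_add] at h4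
  rw [h4, zero_smul, add_zero] at h2
  obtain ⟨d, hd⟩ := fix_xU _ h2.symm
  rw [hc, map_smul, co_bs_self (by omega), smul_eq_mul, mul_one] at h4
  exact ⟨d, ext_LR (by simpa using hd) (by simp [hc, h4])⟩

theorem nilp : IsNilpotent ((x : Matrix (Fin (m + 1) ⊕ Fin (m + 1)) (Fin (m + 1) ⊕ Fin (m + 1)) F) - 1) := by
  rw [← isNilpotent_nil_iff]
  obtain ⟨k, hk⟩ := (isNilpotent_nil_iff _).2 (nilp_xU (F := F) (n := m + 1))
  obtain ⟨k', hk'⟩ : IsNilpotent (nil (xU F (m + 1))⁻¹) := by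
    have e : nil (xU F (m + 1))⁻¹ = - (act (xU F (m + 1))⁻¹).toLinearMap * nil (xU F (m + 1)) :=
      LinearMap.ext fun v => by simp [nil_apply, act_inv_act]
    rw [e]
    refine Commute.isNilpotent_mul_left (LinearMap.ext fun v => ?_) ⟨k, hk⟩
    simp [nil_apply, act_inv_act, act_act_inv]
    abel
  have h1 : ∀ j : ℕ, ∀ v, Rp ((nil x ^ j) v) = (nil (xU F (m + 1))⁻¹ ^ j) (Rp v) := by
    intro j
    induction j with
    | zero => simp
    | succ j ih => intro v; rw [pow_succ', pow_succ', Module.End.mul_apply, Module.End.mul_apply,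
        nil_apply, nil_apply, map_sub, H.xR, ih]
  have h2 : ∀ j : ℕ, ∀ a, (nil x ^ j) (jL a) = jL ((nil (xU F (m + 1)) ^ j) a) := by
    intro j
    induction j with
    | zero => simp
    | succ j ih =>
      intro a
      rw [pow_succ', pow_succ', Module.End.mul_apply, Module.End.mul_apply, ih, nil_apply, nil_apply]
      exact ext_LR (by simp [H.xL]) (by simp [H.xR])
  refine ⟨k + k', LinearMap.ext fun v => ?_⟩
  have h3 : (nil x ^ k') v = jL (Lp ((nil x ^ k') v)) := ext_LR rfl (by simp [h1, hk'])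
  rw [pow_add, Module.End.mul_apply, h3, h2, hk]
  simp

theorem x_e0 : act x (jL (bs 0)) = jL (bs 0) :=
  ext_LR (by simp [H.xL, xU_bs_zero]) (by simp [H.xR])

theorem l_jL (a : Fin (m + 1) → F) : act l (jL a) = jL (act (xU F (m + 1)) a) :=
  ext_LR (by simp [H.lL]) (by simp [H.lR])

theorem l_jR (a : Fin (m + 1) → F) : act l⁻¹ (jR a) = jR (act (xU F (m + 1)) a) :=
  act_inv_eq (ext_LR (by simp [H.lL]) (by simp [H.lR, act_inv_act]))

theorem irred {K : Subgroup (GL (Fin (m + 1) ⊕ Fin (m + 1)) F)} (hx : x ∈ K)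
    {z : GL (Fin (m + 1) ⊕ Fin (m + 1)) F} (hz : z ∈ K) (h : Bf (jL (bs 0)) (act z (jL (bs 0))) ≠ 0) :
    Irred K :=
  irred_of_reg hx hz H.nilp H.fix (fun v => by rw [← mem_SpG.1 H.hx _ v, H.x_e0]) h

/-- the opposite regular unipotent element -/
theorem exists_opp (β : F) (hβ : β ≠ 0) : ∃ h ∈ SpG m F, ∀ v, act (h * x * h⁻¹ * x) v =
    (v + co 0 (Rp v) • jL (bs m)) +
      (β ^ 2 * Bf (jR (bs m)) (v + co 0 (Rp v) • jL (bs m))) • jR (bs m) := by
  obtain ⟨w, hw, ew⟩ := exists_sw (m := m) (F := F)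
  obtain ⟨d, hd, ed⟩ := exists_lev (m := m) (F := F) (β⁻¹ • LinearMap.id) (β • LinearMap.id)
    fun a b => by simp [hβ]
  refine ⟨d * l * w, mul_mem (mul_mem hd H.hl) hw, fun v => ?_⟩
  set u := v + co 0 (Rp v) • jL (bs m) with hu
  have e0 : act x v = act l u := ext_LR (by simp [H.xL, H.lL, hu]) (by simp [H.xR, H.lR, hu])
  have e1 : act (d * l * w)⁻¹ (act l u) = jL (β⁻¹ • Rp u) - jR (β • Lp u) := by
    refine act_inv_eq (ext_LR ?_ ?_)
    · simp [act_mul, ed, ew, H.lL, smul_smul, hβ]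
    · simp [act_mul, ed, ew, H.lR, smul_smul, hβ]
  rw [act_mul, act_mul, act_mul, e0, e1]
  refine ext_LR ?_ ?_
  · simp [act_mul, ed, ew, H.lL, H.xR, smul_smul, hβ, act_act_inv]
  · simp only [act_mul, ed, ew, H.lR, H.xL, act_inv_act, Bf_jR le_rfl]
    simp [smul_smul, hβ, pow_two, mul_assoc]

/-- conjugation by an element of the unipotent radical -/
theorem rad_conj (S : (Fin (m + 1) → F) →ₗ[F] (Fin (m + 1) → F))
    (h : ∀ a b, ip (S a) b = ip a (S b)) {c : F}
    (hc : ∀ b, S b - act (xU F (m + 1)) (S (act (xU F (m + 1)) b)) = (c * co m b) • bs 0) :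
    ∃ h ∈ SpG m F, ∀ v, act (h * x * h⁻¹ * x⁻¹) v = v + (c • Bf (jL (bs 0))) v • jL (bs 0) := by
  obtain ⟨g, hg, e⟩ := exists_rad S h
  refine ⟨g, hg, fun v => ?_⟩
  obtain ⟨u, rfl⟩ := (act x).surjective v
  have e1 : act g⁻¹ u = u - jL (S (Rp u)) := act_inv_eq (ext_LR (by simp [e]) (by simp [e]))
  rw [act_mul, act_mul, act_mul, act_inv_act, e1]
  refine ext_LR ?_ (by simp [e, H.xR])
  have := hc (Rp (act x u))
  rw [H.xR, act_act_inv] at this
  simp only [e, H.xL, H.xR, LinearMap.smul_apply, Bf_jL (Nat.zero_le m), map_sub, map_add, map_smul,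
    Lp_jL, Rp_jL, map_zero, zero_smul, Nat.sub_zero, smul_eq_mul]
  rw [← this]
  abel

end SpS

/-- passing to Mathlib's symplectic group -/
theorem exists_Sp_three {x g h : GL (Fin (m + 1) ⊕ Fin (m + 1)) F} (hx : x ∈ SpG m F)
    (hg : g ∈ SpG m F) (hh : h ∈ SpG m F)
    (H : ∀ v (c : F), HasTv (Subgroup.closure {x, g * x * g⁻¹, h * x * h⁻¹}) v (c • Bf v)) :
    ∃ u g h : symplecticGroup (Fin (m + 1)) F,
      (u : Matrix (Fin (m + 1) ⊕ Fin (m + 1)) (Fin (m + 1) ⊕ Fin (m + 1)) F) = x ∧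
      Subgroup.closure ({u, g * u * g⁻¹, h * u * h⁻¹} : Set (symplecticGroup (Fin (m + 1)) F)) = ⊤ := by
  let e := CL.Sp.spGLEquivSp (m + 1) F
  let ψ : symplecticGroup (Fin (m + 1)) F →* GL (Fin (m + 1) ⊕ Fin (m + 1)) F :=
    (SpG m F).subtype.comp e.symm.toMonoidHom
  have hψ : Function.Injective ψ := (SpG m F).subtype_injective.comp e.symm.injective
  have hψe : ∀ y : SpG m F, ψ (e y) = y := fun y => congrArg Subtype.val (e.symm_apply_apply y)
  refine ⟨e ⟨x, hx⟩, e ⟨g, hg⟩, e ⟨h, hh⟩, rfl, CL.Sp.eq_top_of_sympTransvection_mem fun v c => ?_⟩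
  obtain ⟨t, ht, et⟩ := H v c
  have : t = ψ ⟨_, CL.Sp.sympTransvection_mem v c⟩ := ext_act fun u => by
    rw [et, act_apply]
    change _ = sympTransvection (m + 1) v c *ᵥ u
    rw [sympTransvection, add_mulVec, one_mulVec, smul_mulVec, vecMulVec_mulVec, LinearMap.smul_apply,
      Bf_eq, sympForm, dotProduct_comm]
    simp [smul_smul]
  rw [← Subgroup.mem_map_iff_mem hψ, MonoidHom.map_closure, ← this, Set.image_insert_eq,
    Set.image_pair, map_mul, map_mul, map_inv, map_mul, map_mul, map_inv, hψe, hψe, hψe]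
  exact ht

end CL.KSG.Irr
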