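import Cfsg.Agent.KSG.SL2Solv
import Cfsg.Agent.CHAR.Burnside

/-!
# Common eigenlines, solvable pairs in SL₂, and the Bruhat count
-/

set_option autoImplicit false
set_option linter.unusedSectionVars false
set_option linter.unusedSimpArgs false

namespace CL.GL2

open Matrix Finset Cfsg
open scoped MatrixGroups commutatorElement

variable {F : Type*} [Field F] [Fintype F] [DecidableEq F]

/-- The quadratic form vanishing on the eigenvectors of `m`. -/
def eigf (m : Matrix (Fin 2) (Fin 2) F) (p r : F) : F :=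
  m 1 0 * p ^ 2 + (m 1 1 - m 0 0) * p * r - m 0 1 * r ^ 2

theorem eigf_conj (g y : SL(2, F)) : ((g⁻¹ * y * g : SL(2, F)) : Matrix (Fin 2) (Fin 2) F) 1 0 =
    eigf (y : Matrix (Fin 2) (Fin 2) F) ((g : Matrix (Fin 2) (Fin 2) F) 0 0)
      ((g : Matrix (Fin 2) (Fin 2) F) 1 0) := by
  simp only [Matrix.SpecialLinearGroup.coe_mul, Matrix.SpecialLinearGroup.coe_inv, adjugate_fin_two,
    mul_10, mul_11, eigf, of_apply, cons_val', cons_val_zero, cons_val_one, cons_val_fin_one]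
  ring

theorem col_ne_zero (g : SL(2, F)) :
    (g : Matrix (Fin 2) (Fin 2) F) 0 0 ≠ 0 ∨ (g : Matrix (Fin 2) (Fin 2) F) 1 0 ≠ 0 := by
  by_contra! h
  have := g.2
  rw [det_fin_two, h.1, h.2] at this
  simp at this

theorem exists_col {p r : F} (h : p ≠ 0 ∨ r ≠ 0) : ∃ g : SL(2, F),
    (g : Matrix (Fin 2) (Fin 2) F) 0 0 = p ∧ (g : Matrix (Fin 2) (Fin 2) F) 1 0 = r := by
  rcases h with h | h
  · exact ⟨mkSL !![p, 0; r, p⁻¹] (by simp [h]), rfl, rfl⟩
  · exact ⟨mkSL !![p, -r⁻¹; r, 0] (by simp [h]), rfl, rfl⟩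

theorem exists_conj_upSL {d : SL(2, F)} {a : F} (h : cp (d : Matrix (Fin 2) (Fin 2) F) a = 0) :
    ∃ (g : SL(2, F)) (u : Fˣ) (b : F), (u : F) = a ∧ g * upSL u b * g⁻¹ = d := by
  obtain ⟨x, b, hx, e⟩ := exists_semiconj_upper h
  have h1 := det_eq_of_cp h
  rw [d.2] at h1
  refine ⟨mkSL x hx, ⟨a, _, h1.symm, (mul_comm _ _).trans h1.symm⟩, b, rfl, ?_⟩
  rw [mul_inv_eq_iff_eq_mul]
  exact SL_ext_iff.2 e

theorem exists_conj_upSL_of_not_reg {d : SL(2, F)} (h : ¬ Reg d)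
    (hs : ¬ IsScal (d : Matrix (Fin 2) (Fin 2) F)) :
    ∃ (g : SL(2, F)) (u : Fˣ) (b : F), u⁻¹ = u ∧ b ≠ 0 ∧ g * upSL u b * g⁻¹ = d := by
  obtain ⟨a, h1, h2⟩ := exists_double_of_not_reg h
  obtain ⟨g, u, b, rfl, rfl⟩ := exists_conj_upSL h1
  rw [trace_conj_SL, coe_upSL, trace_fin_two_of, add_sub_cancel_left] at h2
  refine ⟨g, u, b, Units.ext h2, fun e => hs ?_, rfl⟩
  exact (isScal_iff_of_isConj_SL (isConj_iff.2 ⟨g, rfl⟩)).2 ⟨e, rfl, h2.symm⟩

theorem normalizer_centSL_upSL {u : Fˣ} {b : F} (hu : u⁻¹ = u) (hb : b ≠ 0) :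
    Subgroup.normalizer (centSL ((upSL u b : SL(2, F)) : Matrix (Fin 2) (Fin 2) F) : Set SL(2, F)) =
      borelSL F := by
  have hs : ¬ IsScal ((upSL u b : SL(2, F)) : Matrix (Fin 2) (Fin 2) F) := fun e => hb e.1
  ext g
  rw [← Subgroup.inv_mem_iff, mem_normalizer_centSL hs, mem_borelSL, inv_inv]
  constructor
  · intro h
    obtain ⟨s, t, e⟩ := (commute_iff hs _).1 (mem_centSL.1 h)
    have := congrFun (congrFun e 1) 0
    rw [eigf_conj] at this
    simpa [eigf, coe_upSL, hu, hb] using this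
  · intro h
    obtain ⟨a, c, rfl⟩ := exists_eq_upSL h
    rw [mem_centSL]
    simp only [Matrix.SpecialLinearGroup.coe_mul, Matrix.SpecialLinearGroup.coe_inv, coe_upSL, hu,
      adjugate_fin_two_of, Matrix.mul_fin_two]
    have h1 : (a : F) * (a⁻¹ : Fˣ) = 1 := a.mul_inv
    refine mat_ext ?_ ?_ ?_ ?_ <;> simp only [of_apply, cons_val', cons_val_zero, cons_val_one, cons_val_fin_one] <;> ring

theorem conj_mem_normalizer_conj {d x : SL(2, F)} (hd : ¬ IsScal (d : Matrix (Fin 2) (Fin 2) F))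
    (g : SL(2, F)) : g * x * g⁻¹ ∈ Subgroup.normalizer
      (centSL ((g * d * g⁻¹ : SL(2, F)) : Matrix (Fin 2) (Fin 2) F) : Set SL(2, F)) ↔
    x ∈ Subgroup.normalizer (centSL (d : Matrix (Fin 2) (Fin 2) F) : Set SL(2, F)) := by
  rw [mem_normalizer_centSL hd, mem_normalizer_centSL (not_isScal_conj hd g), ← conj_mem_centSL_conj (d := d) g]
  exact iff_of_eq (congrArg (· ∈ _) (by group))

theorem card_normalizer_of_not_reg {d : SL(2, F)} (h : ¬ Reg d)
    (hs : ¬ IsScal (d : Matrix (Fin 2) (Fin 2) F)) :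
    Nat.card (Subgroup.normalizer (centSL (d : Matrix (Fin 2) (Fin 2) F) : Set SL(2, F))) =
      (Fintype.card F - 1) * Fintype.card F := by
  obtain ⟨g, u, b, hu, hb, rfl⟩ := exists_conj_upSL_of_not_reg h hs
  rw [← card_borelSL, ← normalizer_centSL_upSL hu hb]
  exact (Nat.card_congr ((MulAut.conj g).toEquiv.subtypeEquiv fun x =>
    (conj_mem_normalizer_conj (fun e => hb e.1) g).symm)).symm

theorem isSolvable_borelSL : Group.IsSolvable (borelSL F) := by
  rw [← normalizer_centSL_upSL (u := 1) (b := 1) inv_one one_ne_zero]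
  exact isSolvable_normalizer_centSL (not_isScal_upSL_one one_ne_zero)

theorem isSolvable_closure_congr {G H : Type*} [Group G] [Group H] (e : G ≃* H) (x y : G) :
    Group.IsSolvable (Subgroup.closure ({e x, e y} : Set H)) ↔
      Group.IsSolvable (Subgroup.closure ({x, y} : Set G)) := by
  have h : Subgroup.closure ({e x, e y} : Set H) = (Subgroup.closure ({x, y} : Set G)).map e.toMonoidHom := by
    rw [MonoidHom.map_closure, Set.image_pair]; rfl
  rw [h]
  have e' := Subgroup.equivMapOfInjective (Subgroup.closure ({x, y} : Set G)) e.toMonoidHom e.injective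
  exact ⟨fun _ => Group.isSolvable_of_isSolvable_injective (f := e'.toMonoidHom) e'.injective,
    fun _ => Group.isSolvable_of_surjective (e.toMonoidHom.subgroupMap_surjective _)⟩

/-- `x` and `y` have a common eigenline. -/
def CE (x y : SL(2, F)) : Prop := ∃ p r : F, (p ≠ 0 ∨ r ≠ 0) ∧
  eigf (x : Matrix (Fin 2) (Fin 2) F) p r = 0 ∧ eigf (y : Matrix (Fin 2) (Fin 2) F) p r = 0

theorem CE.isSolvable {x y : SL(2, F)} (h : CE x y) :
    Group.IsSolvable (Subgroup.closure ({x, y} : Set SL(2, F))) := by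
  obtain ⟨p, r, h, hx, hy⟩ := h
  obtain ⟨g, rfl, rfl⟩ := exists_col h
  rw [← isSolvable_closure_congr (MulAut.conj g⁻¹)]
  rw [MulAut.conj_apply, MulAut.conj_apply, inv_inv]
  exact isSolvable_closure_of_mem isSolvable_borelSL (mem_borelSL.2 ((eigf_conj g x).trans hx))
    (mem_borelSL.2 ((eigf_conj g y).trans hy))

theorem CE.not_noEig {x y : SL(2, F)} (h : CE x y) : ¬ NoEig (x : Matrix (Fin 2) (Fin 2) F) := by
  obtain ⟨p, r, h, hx, -⟩ := h
  obtain ⟨g, rfl, rfl⟩ := exists_col h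
  intro hn
  have : NoEig ((g⁻¹ * x * g⁻¹⁻¹ : SL(2, F)) : Matrix (Fin 2) (Fin 2) F) :=
    (noEig_congr (trace_conj_SL _ _) ((g⁻¹ * x * g⁻¹⁻¹).2.trans x.2.symm)).2 hn
  rw [inv_inv] at this
  exact this.c_ne_zero ((eigf_conj g x).trans hx)

theorem ce_diag_iff {u : Fˣ} (hu : u⁻¹ ≠ u) {y : SL(2, F)} : CE (upSL u 0) y ↔
    (y : Matrix (Fin 2) (Fin 2) F) 1 0 = 0 ∨ (y : Matrix (Fin 2) (Fin 2) F) 0 1 = 0 := by
  have hu' : ((u⁻¹ : Fˣ) : F) - u ≠ 0 := sub_ne_zero.2 fun e => hu (Units.ext e)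
  constructor
  · rintro ⟨p, r, h, hx, hy⟩
    have : p = 0 ∨ r = 0 := by
      have : (((u⁻¹ : Fˣ) : F) - u) * (p * r) = 0 := by
        rw [← hx]; simp only [eigf, coe_upSL, of_apply, cons_val', cons_val_zero, cons_val_one, cons_val_fin_one]; ring
      exact mul_eq_zero.1 ((mul_eq_zero.1 this).resolve_left hu')
    rcases this with rfl | rfl
    · right; simpa [eigf, h.resolve_left (fun e => e rfl)] using hy
    · left; simpa [eigf, h.resolve_right (fun e => e rfl)] using hy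
  · rintro (h | h)
    · exact ⟨1, 0, Or.inl one_ne_zero, by simp [eigf, coe_upSL], by simp [eigf, h]⟩
    · exact ⟨0, 1, Or.inr one_ne_zero, by simp [eigf, coe_upSL], by simp [eigf, h]⟩

theorem ce_upSL_iff {u : Fˣ} {b : F} (hu : u⁻¹ = u) (hb : b ≠ 0) {y : SL(2, F)} : CE (upSL u b) y ↔
    (y : Matrix (Fin 2) (Fin 2) F) 1 0 = 0 := by
  constructor
  · rintro ⟨p, r, h, hx, hy⟩
    obtain rfl : r = 0 := by simpa [eigf, coe_upSL, hu, hb] using hx
    simpa [eigf, h.resolve_right (fun e => e rfl)] using hy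
  · intro h
    exact ⟨1, 0, Or.inl one_ne_zero, by simp [eigf, coe_upSL], by simp [eigf, h]⟩

theorem isSolvable_of_mem_normalizer {x y : SL(2, F)} (hs : ¬ IsScal (x : Matrix (Fin 2) (Fin 2) F))
    (h : y ∈ Subgroup.normalizer (centSL (x : Matrix (Fin 2) (Fin 2) F) : Set SL(2, F))) :
    Group.IsSolvable (Subgroup.closure ({x, y} : Set SL(2, F))) :=
  isSolvable_closure_of_mem (isSolvable_normalizer_centSL hs) (Subgroup.le_normalizer (self_mem_centSL x)) h

theorem isSolvable_of_isScal (x : SL(2, F)) {y : SL(2, F)} (hy : IsScal (y : Matrix (Fin 2) (Fin 2) F)) :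
    Group.IsSolvable (Subgroup.closure ({x, y} : Set SL(2, F))) := by
  by_cases hs : IsScal (x : Matrix (Fin 2) (Fin 2) F)
  · exact isSolvable_closure_of_mem (K := Subgroup.center _)
      (Group.isSolvable_of_comm fun x y => Subtype.ext (Subgroup.mem_center_iff.1 y.2 x.1))
      (mem_center_SL_iff.2 hs) (mem_center_SL_iff.2 hy)
  · exact isSolvable_of_mem_normalizer hs (Subgroup.le_normalizer (center_le_centSL _ (mem_center_SL_iff.2 hy)))

theorem closure_pair_mul {G : Type*} [Group G] (x y : G) :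
    Subgroup.closure ({x, x * y} : Set G) = Subgroup.closure ({x, y} : Set G) := by
  have h : ∀ a b : G, a ∈ Subgroup.closure ({a, b} : Set G) ∧ b ∈ Subgroup.closure ({a, b} : Set G) :=
    fun a b => ⟨Subgroup.subset_closure (by simp), Subgroup.subset_closure (by simp)⟩
  refine le_antisymm ((Subgroup.closure_le _).2 (Set.pair_subset (h x y).1 (mul_mem (h x y).1 (h x y).2)))
    ((Subgroup.closure_le _).2 (Set.pair_subset (h _ _).1 ?_))
  exact (Subgroup.mul_mem_cancel_left _ (h x (x * y)).1).1 (h _ _).2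

theorem isSolvable_of_trace_zero {x y : SL(2, F)} (hx : (x : Matrix (Fin 2) (Fin 2) F).trace = 0)
    (hy : (y : Matrix (Fin 2) (Fin 2) F).trace = 0) :
    Group.IsSolvable (Subgroup.closure ({x, y} : Set SL(2, F))) := by
  rw [← closure_pair_mul]
  by_cases hs : IsScal ((x * y : SL(2, F)) : Matrix (Fin 2) (Fin 2) F)
  · exact isSolvable_of_isScal x hs
  · rw [Set.pair_comm]
    refine isSolvable_of_mem_normalizer hs ((mem_normalizer_centSL hs).2 ?_)
    have : x * (x * y) * x⁻¹ = (x * y)⁻¹ := by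
      rw [← mul_assoc, sq_eq_neg_one_of_trace hx, _root_.mul_inv_rev,
        inv_eq_neg_of_mul_self (sq_eq_neg_one_of_trace hy), neg_one_mul]
    rw [this]
    exact inv_mem (self_mem_centSL _)

theorem isSolvable_of_trace_mul_zero {x y : SL(2, F)} (hx : (x : Matrix (Fin 2) (Fin 2) F).trace = 0)
    (hy : ((x * y : SL(2, F)) : Matrix (Fin 2) (Fin 2) F).trace = 0) :
    Group.IsSolvable (Subgroup.closure ({x, y} : Set SL(2, F))) :=
  closure_pair_mul x y ▸ isSolvable_of_trace_zero hx hy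

theorem QP.isSolvable_normalizer {a w : SL(2, F)} (h : QP a w) (h2 : (2 : F) ≠ 0) :
    Group.IsSolvable (Subgroup.normalizer (Subgroup.closure ({a, w} : Set SL(2, F)) : Set SL(2, F))) :=
  CL.Char.isSolvable_of_card_dvd_pow_mul_pow (a := 4) (b := 1) Nat.prime_two Nat.prime_three
    (h.card_normalizer_dvd h2)

/-- The pairs generating a solvable subgroup. -/
theorem solvable_pair_cases {x y : SL(2, F)} (hs : ¬ IsScal (x : Matrix (Fin 2) (Fin 2) F))
    (h : Group.IsSolvable (Subgroup.closure ({x, y} : Set SL(2, F)))) :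
    y ∈ Subgroup.normalizer (centSL (x : Matrix (Fin 2) (Fin 2) F) : Set SL(2, F)) ∨ CE x y ∨
      ((x : Matrix (Fin 2) (Fin 2) F).trace = 0 ∧ ((y : Matrix (Fin 2) (Fin 2) F).trace = 0 ∨
        ((x * y : SL(2, F)) : Matrix (Fin 2) (Fin 2) F).trace = 0)) ∨
      ((2 : F) ≠ 0 ∧ ∃ K : Subgroup SL(2, F), Nat.card K ∣ 48 ∧ x ∈ K ∧ y ∈ K) := by
  have hx : x ∈ Subgroup.closure ({x, y} : Set SL(2, F)) := Subgroup.subset_closure (by simp)
  have hy : y ∈ Subgroup.closure ({x, y} : Set SL(2, F)) := Subgroup.subset_closure (by simp)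
  rcases solvable_cases h with h | ⟨d, -, hd, h⟩ | ⟨h2, a, -, w, -, hq, h⟩
  · exact (hs (mem_center_SL_iff.1 (h hx))).elim
  · by_cases hr : Reg d
    · by_cases h1 : x ∈ centSL (d : Matrix (Fin 2) (Fin 2) F)
      · exact Or.inl (hr.centSL_eq h1 hs ▸ h hy)
      · refine Or.inr (Or.inr (Or.inl ⟨hr.trace_eq_zero (h hx) h1, ?_⟩))
        by_cases h3 : y ∈ centSL (d : Matrix (Fin 2) (Fin 2) F)
        · exact Or.inr (hr.trace_eq_zero (h (mul_mem hx hy)) fun e => h1 ((Subgroup.mul_mem_cancel_right _ h3).1 e))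
        · exact Or.inl (hr.trace_eq_zero (h hy) h3)
    · obtain ⟨g, u, b, hu, hb, rfl⟩ := exists_conj_upSL_of_not_reg hr hd
      have k : ∀ z ∈ Subgroup.closure ({x, y} : Set SL(2, F)), eigf (z : Matrix (Fin 2) (Fin 2) F)
          ((g : Matrix (Fin 2) (Fin 2) F) 0 0) ((g : Matrix (Fin 2) (Fin 2) F) 1 0) = 0 := fun z hz => by
        rw [← eigf_conj]
        refine mem_borelSL.1 ((normalizer_centSL_upSL hu hb).le
          ((conj_mem_normalizer_conj (fun e => hb e.1) g).1 ?_))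
        have := h hz
        rwa [show g * (g⁻¹ * z * g) * g⁻¹ = z by group]
      exact Or.inr (Or.inl ⟨_, _, col_ne_zero g, k x hx, k y hy⟩)
  · exact Or.inr (Or.inr (Or.inr ⟨h2, _, hq.card_normalizer_dvd h2, h hx, h hy⟩))

/-- Counting by the Bruhat decomposition. -/
theorem card_SL_bruhat (P : F → F → F → F → Prop) :
    Nat.card {g : SL(2, F) // P ((g : Matrix (Fin 2) (Fin 2) F) 0 0) ((g : Matrix (Fin 2) (Fin 2) F) 0 1)
      ((g : Matrix (Fin 2) (Fin 2) F) 1 0) ((g : Matrix (Fin 2) (Fin 2) F) 1 1)} =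
      Nat.card {x : Fˣ × F // P x.1 x.2 0 (x.1⁻¹ : Fˣ)} +
        Nat.card {x : Fˣ × F × F // P x.2.1 ((x.2.1 * x.2.2 - 1) / x.1) x.1 x.2.2} := by
  rw [← Nat.card_sum]
  refine (Nat.card_congr (Equiv.ofBijective (Sum.elim (fun x => ⟨upSL x.1.1 x.1.2, x.2⟩)
    fun x => ⟨mkSL !![x.1.2.1, (x.1.2.1 * x.1.2.2 - 1) / x.1.1; x.1.1, x.1.2.2] (by
      rw [det_fin_two_of, div_mul_cancel₀ _ x.1.1.ne_zero, sub_sub_cancel]), x.2⟩) ⟨?_, ?_⟩)).symm
  · rintro (x | x) (y | y) e <;> have e := congrArg Subtype.val e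
    · exact congrArg _ (Subtype.ext (Prod.ext_iff.2 (upSL_inj.1 e)))
    · exact (y.1.1.ne_zero (mat_ext_iff.1 (SL_ext_iff.1 e)).2.2.1.symm).elim
    · exact (x.1.1.ne_zero (mat_ext_iff.1 (SL_ext_iff.1 e)).2.2.1).elim
    · obtain ⟨h1, -, h2, h3⟩ := mat_ext_iff.1 (SL_ext_iff.1 e)
      exact congrArg _ (Subtype.ext (Prod.ext (Units.ext h2) (Prod.ext h1 h3)))
  · rintro ⟨g, hg⟩
    by_cases h : (g : Matrix (Fin 2) (Fin 2) F) 1 0 = 0
    · obtain ⟨a, b, rfl⟩ := exists_eq_upSL h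
      exact ⟨Sum.inl ⟨(a, b), hg⟩, rfl⟩
    · have e : ((g : Matrix (Fin 2) (Fin 2) F) 0 0 * (g : Matrix (Fin 2) (Fin 2) F) 1 1 - 1) /
          (g : Matrix (Fin 2) (Fin 2) F) 1 0 = (g : Matrix (Fin 2) (Fin 2) F) 0 1 := by
        have := g.2
        rw [det_fin_two] at this
        rw [div_eq_iff h]
        linear_combination this
      exact ⟨Sum.inr ⟨(Units.mk0 _ h, _, _), e.symm ▸ hg⟩, Subtype.ext (SL_ext_iff.2 (mat_ext rfl e rfl rfl))⟩

end CL.GL2
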