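import Cfsg.Agent.KSG.SL2Eig

/-!
# Solubilizers in SL₂
-/

set_option autoImplicit false
set_option linter.unusedSectionVars false
set_option linter.unusedSimpArgs false

namespace CL.GL2

open Matrix Finset Cfsg
open scoped MatrixGroups commutatorElement

variable {F : Type*} [Field F] [Fintype F] [DecidableEq F]

theorem card_subtype_prod {α β : Type*} [Fintype α] [Finite β] (R : α → β → Prop) :
    Nat.card {x : α × β // R x.1 x.2} = ∑ a, Nat.card {b // R a b} := by
  rw [Nat.card_congr (Equiv.subtypeProdEquivSigmaSubtype R), Nat.card_sigma]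

theorem card_subtype_eq_card {β : Type*} {R : β → Prop} (s : Finset β) (h : ∀ b, R b ↔ b ∈ s) :
    Nat.card {b // R b} = s.card := by
  rw [Nat.card_congr (Equiv.subtypeEquivRight h)]
  simp

/-- The size of the solubilizer. -/
noncomputable def sol {G : Type*} [Group G] (x : G) : ℕ :=
  Nat.card {y // Group.IsSolvable (Subgroup.closure ({x, y} : Set G))}

theorem sol_pslMk (x : SL(2, F)) : Nat.gcd 2 (Fintype.card F - 1) * sol (pslMk F x) = sol x := by
  rw [sol, ← card_subtype_pslMk]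
  exact Nat.card_congr (Equiv.subtypeEquivRight fun y => isSolvable_closure_pslMk_iff)

theorem sol_conj {G : Type*} [Group G] (g x : G) : sol (g * x * g⁻¹) = sol x :=
  card_solubilizer_congr (MulAut.conj g) x

theorem sol_neg (x : SL(2, F)) : sol (-x) = sol x := by
  rw [← sol_pslMk, ← sol_pslMk, pslMk_neg]

theorem sol_noEig {x : SL(2, F)} (h : NoEig (x : Matrix (Fin 2) (Fin 2) F))
    (h0 : (x : Matrix (Fin 2) (Fin 2) F).trace ≠ 0) (h48 : (2 : F) ≠ 0 → ¬ orderOf x ∣ 48) :
    sol x = 2 * (Fintype.card F + 1) := by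
  rw [← card_centSL_noEig h, ← (reg_of_noEig h).card_normalizer]
  refine Nat.card_congr (Equiv.subtypeEquivRight fun y => ⟨fun hy => ?_, isSolvable_of_mem_normalizer h.not_isScal⟩)
  rcases solvable_pair_cases h.not_isScal hy with e | e | e | ⟨h2, K, h1, h3, -⟩
  · exact e
  · exact (e.not_noEig h).elim
  · exact (h0 e.1).elim
  · exact (h48 h2 ((Subgroup.orderOf_dvd_natCard _ h3).trans h1)).elim

theorem exists_conj_diag {x : SL(2, F)} (hr : Reg x) (h : ¬ NoEig (x : Matrix (Fin 2) (Fin 2) F)) :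
    ∃ (g : SL(2, F)) (u : Fˣ), u⁻¹ ≠ u ∧ g * upSL u 0 * g⁻¹ = x := by
  rw [noEig_iff] at h
  push Not at h
  obtain ⟨a, ha⟩ := h
  have h1 := hr.sep a ha
  obtain ⟨g, u, b, rfl, rfl⟩ := exists_conj_upSL ha
  obtain ⟨k, hk⟩ := isConj_iff.1 (isConj_SL_of_trace (h := upSL u 0) hr.sep (by
    rw [trace_conj_SL, coe_upSL, coe_upSL, trace_fin_two_of, trace_fin_two_of])).symm
  rw [trace_conj_SL, coe_upSL, trace_fin_two_of, add_sub_cancel_left] at h1
  exact ⟨k, u, fun e => h1 (congrArg Units.val e), hk⟩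

theorem sol_split {x : SL(2, F)} (hr : Reg x) (h : ¬ NoEig (x : Matrix (Fin 2) (Fin 2) F))
    (h0 : (x : Matrix (Fin 2) (Fin 2) F).trace ≠ 0) (h48 : (2 : F) ≠ 0 → ¬ orderOf x ∣ 48) :
    sol x = 2 * Fintype.card F * (Fintype.card F - 1) := by
  obtain ⟨g, u, hu, rfl⟩ := exists_conj_diag hr h
  rw [sol_conj]
  rw [trace_conj_SL] at h0
  rw [← MulAut.conj_apply, MulEquiv.orderOf_eq] at h48
  have hr' : Reg (upSL u 0) := by rwa [Reg, trace_conj_SL] at hr
  have hu' : ((u⁻¹ : Fˣ) : F) - u ≠ 0 := sub_ne_zero.2 fun e => hu (Units.ext e)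
  have hinv : (upSL u (0 : F))⁻¹ = upSL u⁻¹ 0 := SL_ext_iff.2 (by
    simp [Matrix.SpecialLinearGroup.coe_inv, coe_upSL, adjugate_fin_two_of])
  have key : ∀ y : SL(2, F), Group.IsSolvable (Subgroup.closure ({upSL u 0, y} : Set SL(2, F))) ↔
      (y : Matrix (Fin 2) (Fin 2) F) 1 0 = 0 ∨ (y : Matrix (Fin 2) (Fin 2) F) 0 1 = 0 ∨
        ((y : Matrix (Fin 2) (Fin 2) F) 0 0 = 0 ∧ (y : Matrix (Fin 2) (Fin 2) F) 1 1 = 0) := fun y => by
    constructor
    · intro hy
      rcases solvable_pair_cases hr'.not_isScal hy with e | e | e | ⟨h2, K, h1, h3, -⟩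
      · right
        rcases hr'.mem_normalizer_iff.1 e with e | e
        · have := (mat_ext_iff.1 (SL_ext_iff.1 (mul_inv_eq_iff_eq_mul.1 e))).2.1
          simp only [Matrix.SpecialLinearGroup.coe_mul, mul_01, coe_upSL, of_apply, cons_val', cons_val_zero,
            cons_val_one, cons_val_fin_one] at this
          exact Or.inl ((mul_eq_zero.1 (by linear_combination this)).resolve_left hu')
        · rw [hinv] at e
          obtain ⟨e1, -, -, e2⟩ := mat_ext_iff.1 (SL_ext_iff.1 (mul_inv_eq_iff_eq_mul.1 e))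
          simp only [Matrix.SpecialLinearGroup.coe_mul, mul_00, mul_11, coe_upSL, of_apply, cons_val', cons_val_zero,
            cons_val_one, cons_val_fin_one, inv_inv] at e1 e2
          exact Or.inr ⟨(mul_eq_zero.1 (by linear_combination -e1)).resolve_left hu',
            (mul_eq_zero.1 (by linear_combination e2)).resolve_left hu'⟩
      · exact ((ce_diag_iff hu).1 e).imp_right Or.inl
      · exact (h0 e.1).elim
      · exact (h48 h2 ((Subgroup.orderOf_dvd_natCard _ h3).trans h1)).elim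
    · rintro (e | e | ⟨e1, e2⟩)
      · exact ((ce_diag_iff hu).2 (Or.inl e)).isSolvable
      · exact ((ce_diag_iff hu).2 (Or.inr e)).isSolvable
      · refine isSolvable_of_mem_normalizer hr'.not_isScal (hr'.mem_normalizer_iff.2 (Or.inr ?_))
        rw [hinv, mul_inv_eq_iff_eq_mul]
        refine SL_ext_iff.2 (mat_ext ?_ ?_ ?_ ?_) <;>
          simp [Matrix.SpecialLinearGroup.coe_mul, mul_00, mul_01, mul_10, mul_11, coe_upSL, e1, e2, mul_comm]
  rw [sol, Nat.card_congr (Equiv.subtypeEquivRight key),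
    card_SL_bruhat fun a b c d => c = 0 ∨ b = 0 ∨ (a = 0 ∧ d = 0)]
  rw [card_subtype_prod fun (c : Fˣ) (x : F × F) => (c : F) = 0 ∨ (x.1 * x.2 - 1) / c = 0 ∨ (x.1 = 0 ∧ x.2 = 0)]
  have : ∀ c : Fˣ, Nat.card {x : F × F // (c : F) = 0 ∨ (x.1 * x.2 - 1) / c = 0 ∨ (x.1 = 0 ∧ x.2 = 0)} =
      Fintype.card F := fun c => by
    rw [card_subtype_prod fun a d : F => (c : F) = 0 ∨ (a * d - 1) / c = 0 ∨ (a = 0 ∧ d = 0),
      Finset.sum_congr rfl fun a _ => card_subtype_eq_card {a⁻¹} fun d => ?_]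
    · simp
    · by_cases ha : a = 0
      · simp [ha]
      · simp only [c.ne_zero, ha, false_or, false_and, or_false, div_eq_zero_iff, sub_eq_zero, mem_singleton]
        exact ⟨fun e => eq_inv_of_mul_eq_one_right e, fun e => by rw [e, mul_inv_cancel₀ ha]⟩
  simp only [this, true_or, Nat.card_eq_fintype_card, Fintype.card_subtype_true, Fintype.card_prod,
    Fintype.card_units, sum_const, card_univ, smul_eq_mul]
  ring

theorem trace_upSL_mul (b : F) (y : SL(2, F)) :
    ((upSL 1 b * y : SL(2, F)) : Matrix (Fin 2) (Fin 2) F).trace = (y : Matrix (Fin 2) (Fin 2) F) 0 0 +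
      (y : Matrix (Fin 2) (Fin 2) F) 1 1 + b * (y : Matrix (Fin 2) (Fin 2) F) 1 0 := by
  simp only [Matrix.SpecialLinearGroup.coe_mul, trace_fin_two, mul_00, mul_11, coe_upSL_one, of_apply, cons_val',
    cons_val_zero, cons_val_one, cons_val_fin_one]
  ring

theorem sol_upSL_even (h2 : (2 : F) = 0) {b : F} (hb : b ≠ 0) :
    sol (upSL 1 b) = 3 * Fintype.card F * (Fintype.card F - 1) := by
  have h0 : ((upSL 1 b : SL(2, F)) : Matrix (Fin 2) (Fin 2) F).trace = 0 := by
    rw [coe_upSL_one, trace_fin_two_of, one_add_one_eq_two, h2]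
  have key : ∀ y : SL(2, F), Group.IsSolvable (Subgroup.closure ({upSL 1 b, y} : Set SL(2, F))) ↔
      (y : Matrix (Fin 2) (Fin 2) F) 1 0 = 0 ∨
        (y : Matrix (Fin 2) (Fin 2) F) 0 0 + (y : Matrix (Fin 2) (Fin 2) F) 1 1 = 0 ∨
        (y : Matrix (Fin 2) (Fin 2) F) 0 0 + (y : Matrix (Fin 2) (Fin 2) F) 1 1 +
          b * (y : Matrix (Fin 2) (Fin 2) F) 1 0 = 0 := fun y => by
    rw [← trace_upSL_mul, ← trace_fin_two]
    constructor
    · intro hy
      rcases solvable_pair_cases (not_isScal_upSL_one hb) hy with e | e | e | ⟨h, -⟩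
      · rw [normalizer_centSL_upSL inv_one hb] at e
        exact Or.inl (mem_borelSL.1 e)
      · exact Or.inl ((ce_upSL_iff inv_one hb).1 e)
      · exact Or.inr e.2
      · exact (h h2).elim
    · rintro (e | e | e)
      exacts [((ce_upSL_iff inv_one hb).2 e).isSolvable, isSolvable_of_trace_zero h0 e,
        isSolvable_of_trace_mul_zero h0 e]
  rw [sol, Nat.card_congr (Equiv.subtypeEquivRight key),
    card_SL_bruhat fun a _ c d => c = 0 ∨ a + d = 0 ∨ a + d + b * c = 0]
  rw [card_subtype_prod fun (c : Fˣ) (x : F × F) => (c : F) = 0 ∨ x.1 + x.2 = 0 ∨ x.1 + x.2 + b * c = 0]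
  have : ∀ c : Fˣ, Nat.card {x : F × F // (c : F) = 0 ∨ x.1 + x.2 = 0 ∨ x.1 + x.2 + b * c = 0} =
      Fintype.card F * 2 := fun c => by
    rw [card_subtype_prod fun a d : F => (c : F) = 0 ∨ a + d = 0 ∨ a + d + b * c = 0,
      Finset.sum_congr rfl fun a _ => (card_subtype_eq_card {-a, -a - b * c} fun d => ?_).trans
        (card_pair fun e => mul_ne_zero hb c.ne_zero (by linear_combination e))]
    · simp
    · simp only [c.ne_zero, false_or, mem_insert, mem_singleton]
      exact or_congr ⟨fun e => by linear_combination e, fun e => by linear_combination e⟩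
        ⟨fun e => by linear_combination e, fun e => by linear_combination e⟩
  simp only [this, true_or, Nat.card_eq_fintype_card, Fintype.card_subtype_true, Fintype.card_prod,
    Fintype.card_units, sum_const, card_univ, smul_eq_mul]
  ring

end CL.GL2
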