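import Cfsg.Agent.KSG.ShortU4
import Cfsg.Agent.CLAS.MaxSub
import Cfsg.Agent.CLAS.UniGen

/-!
Steinberg's pair of generators for the special unitary groups.
-/

set_option autoImplicit false
set_option linter.unusedSectionVars false

namespace CL.KSG

open Function CL.U3 CL.SqField CL.Uni CL.Witt Cfsg Module Polynomial Matrix
open CL.Chev.Phan (inc off B_inc B_single inc_apply)

section Eich

variable {F : Type*} [Field F] {T : FormType F} {V : Type*} [AddCommGroup V] [Module F V] {f : Form T V}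
  {u v : V} {a c c' : F} {h w : V ≃ₗ[F] V} {M : Subgroup (V ≃ₗ[F] V)}

theorem conj_ei_smul (ok : f.EichOK u v a) (hO : h ∈ f.O) (c0 : c ≠ 0) (hc : h u = c • u) :
    f.EichOK u (T.σ c • h v) (T.σ c * c * a) ∧ h * f.ei u v a * h⁻¹ = f.ei u (T.σ c • h v) (T.σ c * c * a) := by
  have h5 : f.EichOK u (h v) a := by
    have := (ok.map hO).smul_left c⁻¹
    rwa [hc, smul_smul, inv_mul_cancel₀ c0, one_smul] at this
  have h6 := h5.smul_right (T.σ c)
  rw [T.σσ, mul_comm c] at h6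
  exact ⟨h6, by rw [ok.conj_ei hO, hc, h5.ei_smul_left]⟩

/-- Steinberg's commutator trick -/
theorem mem_eiSub_of_pair (ok : f.EichOK u v a) (hO : h ∈ f.O) (wO : w ∈ f.O) (hM : h ∈ M) (hb : f.ei u v a * w ∈ M)
    (c0 : c ≠ 0) (c0' : c' ≠ 0) (hc : h u = c • u) (hc' : (w * h * w⁻¹) u = c' • u) (hh : Commute h (w * h * w⁻¹)) :
    T.σ c • h (v + -(T.σ c' • (w * h * w⁻¹) v)) + -(v + -(T.σ c' • (w * h * w⁻¹) v)) ∈ f.eiSub M ok.hu := by
  have m : f.ei u v a * (w * h * w⁻¹) * (f.ei u v a)⁻¹ ∈ M := by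
    simpa [mul_assoc] using mul_mem (mul_mem hb hM) (inv_mem hb)
  have hO' := mul_mem (mul_mem wO hO) (inv_mem wO)
  generalize w * h * w⁻¹ = h' at *
  obtain ⟨ok1, e1⟩ := conj_ei_smul ok hO' c0' hc'
  obtain ⟨ok3, e3⟩ := conj_ei_smul (ok.add ok1.neg) hO c0 hc
  refine ⟨_, ok3.add (ok.add ok1.neg).neg, ?_⟩
  rw [← ok3.ei_mul (ok.add ok1.neg).neg, ← (ok.add ok1.neg).ei_inv, ← e3, ← ok.ei_mul ok1.neg, ← ok1.ei_inv, ← e1]
  convert mul_mem (mul_mem (mul_mem hM m) (inv_mem hM)) (inv_mem m) using 1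
  simp only [mul_assoc, _root_.mul_inv_rev, inv_inv, mul_right_inj]
  rw [← mul_assoc h'⁻¹, ← hh.inv_inv.eq, mul_assoc, inv_mul_cancel_left]

end Eich

variable {F : Type*} [Field F] [Fintype F] {q m : ℕ} {hF : Fintype.card F = q ^ 2}

/-- duality of a hyperbolic basis -/
def hypτ (m : ℕ) : Equiv.Perm (Fin 2 ⊕ Fin (m + 1)) := Equiv.sumCongr (Equiv.swap 0 1) (Equiv.refl _)

@[simp] theorem hypτ_inl (i : Fin 2) : hypτ m (.inl i) = .inl (Equiv.swap 0 1 i) := rfl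
@[simp] theorem hypτ_inr (i : Fin (m + 1)) : hypτ m (.inr i) = .inr i := rfl

variable (hF m) in
theorem exists_hyp_basis : ∃ b : Basis (Fin 2 ⊕ Fin (m + 1)) F (Fin (m + 3) → F),
    ∀ i j, (std hF _).B (b i) (b j) = if j = hypτ m i then 1 else 0 := by
  obtain ⟨u, u0, hu⟩ := exists_isotropic (sig_ne_id hF) (std_nondeg hF (Fin 2)) (by simp)
  obtain ⟨w, hw, huw⟩ := (std_nondeg hF (Fin 2)).exists_partner' hu u0
  let b : Fin 2 ⊕ Fin (m + 1) → Fin (m + 3) → F :=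
    Sum.elim (fun a => inc F (off 0 (by omega)) *ᵥ ![u, w] a) fun i => Pi.single i.succ.succ 1
  have e : ∀ (i : Fin (m + 1)) j, (std hF _).B (b (.inr i)) (b (.inl j)) = 0 := fun i j =>
    (B_single ..).trans (show ∑ k, inc F _ _ k * _ = 0 from Finset.sum_eq_zero fun k _ => by
      rw [inc_apply, if_neg (by simp [Fin.ext_iff]; omega), zero_mul])
  have hB : ∀ i j, (std hF _).B (b i) (b j) = if j = hypτ m i then 1 else 0 := by
    rintro (i | i) (j | j)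
    · simp only [b, Sum.elim_inl, B_inc]
      fin_cases i <;> fin_cases j <;>
        simp [Form.B_self_eq_zero _ hu, Form.B_self_eq_zero _ hw, huw, Form.hyp_B_swap huw, HT_ε]
    · simpa using Form.B_eq_zero_symm _ (e j i)
    · simpa using e i j
    · simp [b, B_single, Pi.single_apply, eq_comm]
  refine ⟨basisOfLinearIndependentOfCardEqFinrank (b := b) (Fintype.linearIndependent_iff.2 fun c hc i => ?_)
    (by simp; omega), by simpa using hB⟩
  simpa [hB, -Fintype.sum_sum_type] using congrArg ((std hF _).B (b ((hypτ m).symm i))) hc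

variable {V : Type*} [AddCommGroup V] [Module F V] [FiniteDimensional F V] {f : Form (HT hF) V}
  {b : Basis (Fin 2 ⊕ Fin (m + 1)) F V} (hB : ∀ i j, f.B (b i) (b j) = if j = hypτ m i then 1 else 0)
include hB

theorem mono_mem_O {g : V ≃ₗ[F] V} {π : Equiv.Perm (Fin 2 ⊕ Fin (m + 1))} {e : Fin 2 ⊕ Fin (m + 1) → Fˣ}
    (hg : ∀ i, g (b i) = (e i : F) • b (π i)) (h1 : ∀ i, hypτ m (π i) = π (hypτ m i))
    (h2 : ∀ i, (e i : F) ^ q * e (hypτ m i) = 1) : g ∈ f.O := by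
  have key : ∀ i j, f.B (g (b i)) (g (b j)) = f.B (b i) (b j) := fun i j => by
    rw [hg, hg, f.B_smul_left, f.B_smul_right, hB, hB, h1, HT_σ]
    by_cases h : j = hypτ m i <;> simp [h, h2]
  exact f.isIsom_of_basis f (g : V →ₗ[F] V) b key fun i => by rw [f.herm_q, f.herm_q]; exact key i i

theorem exists_pair_SO (hf : f.Nondeg) {ζ : Fˣ} {d : Fin (m + 1) → Fˣ} (hd : ∀ i, (d i : F) ^ q * d i = 1)
    (hβ : ∀ t : F, ∃ p : ℤ[X], aeval ((ζ : F) ^ q * d 0) p = t) (hβ' : (ζ : F) ^ q * d 0 ≠ 1)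
    (hγ : (ζ : F)⁻¹ * d (-1) ≠ 1) (hdet : (ζ : F) * ((ζ : F) ^ q)⁻¹ * ∏ i, (d i : F) = 1) :
    ∃ g₁ ∈ f.SO, ∃ g₂ ∈ f.SO, f.SO ≤ Subgroup.closure {g₁, g₂} := by
  have z0 := ζ.ne_zero
  have hq : ∀ i, f.q (b (.inl i)) = 0 := fun i => by rw [f.herm_q, hB]; fin_cases i <;> simp
  have hz : ∀ i t, ∃ a, f.EichOK (b (.inl 0)) (t • b (.inr i)) a := fun i t =>
    Form.exists_eichOK (hq 0) (by rw [f.B_smul_right, hB]; simp)
  let π : Equiv.Perm (Fin 2 ⊕ Fin (m + 1)) := Equiv.sumCongr (Equiv.swap 0 1) (Equiv.addRight 1)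
  have π1 : ∀ i, hypτ m (π i) = π (hypτ m i) := by rintro (i | i) <;> rfl
  obtain ⟨w, wS, e, e1, hw⟩ : ∃ w ∈ f.SO, ∃ e : _ → Fˣ, (∀ i, e (.inl i) = 1) ∧ ∀ i, w (b i) = (e i : F) • b (π i) := by
    have h0 := hf.σ_det_mul_det (mono_mem_O hB (g := b.equiv b π) (e := 1) (by simp) π1 (by simp))
    let e : _ → Fˣ := Pi.mulSingle (Sum.inr 0 : Fin 2 ⊕ Fin (m + 1)) (LinearEquiv.det (b.equiv b π))⁻¹
    have hw : ∀ i, (b.equiv b π * diag b e) (b i) = (e i : F) • b (π i) := fun i => by simp [U3.diag_apply]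
    refine ⟨_, f.mem_SO.2 ⟨mono_mem_O hB hw π1 ?_, ?_⟩, e, by simp [e], hw⟩
    · rintro (i | i)
      · simp [e]
      · by_cases h : i = 0
        · simp [e, h, ← mul_inv, ← HT_σ hF, h0]
        · simp [e, h]
    · rw [Form.det_mul_equiv, det_diag, ← Units.coe_prod]
      simp [e, Form.det_equiv_ne_zero, -Fintype.prod_sum_type]
  let D : _ → Fˣ := Sum.elim ![ζ, (ζ ^ q)⁻¹] d
  have hS : diag b D ∈ f.SO := f.mem_SO.2 ⟨mono_mem_O hB (π := 1) (U3.diag_apply b D) (fun _ => rfl) (by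
    rintro (i | i)
    · fin_cases i <;> simp [D, pow_q_pow_q hF]
    · exact hd i), by simpa [det_diag, D] using hdet⟩
  have hc : w * diag b D * w⁻¹ = diag b (D ∘ π.symm) := mul_inv_eq_iff_eq_mul.2 (b.ext' fun i => by
    simp [U3.diag_apply, hw, smul_smul, mul_comm])
  obtain ⟨a, ok⟩ := hz 0 1
  refine ⟨_, hS, _, mul_mem (f.ei_mem_SO (b (.inl 0)) ((1 : F) • b (.inr 0)) a) wS, ?_⟩
  set M := Subgroup.closure {diag b D, f.ei (b (.inl 0)) ((1 : F) • b (.inr 0)) a * w}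
  have m1 : diag b D ∈ M := Subgroup.subset_closure (by simp)
  have m2 : f.ei (b (.inl 0)) ((1 : F) • b (.inr 0)) a * w ∈ M := Subgroup.subset_closure (by simp)
  have h1 : ∀ t : F, t • b (.inr 0) ∈ f.eiSub M (hq 0) := by
    refine addSubgroup_of_gen hβ ((f.eiSub M (hq 0)).comap (LinearMap.toSpanSingleton F V (b (.inr 0))).toAddMonoidHom)
      (fun t ht => ?_) (s := ((ζ : F) ^ q * d 0 - 1) * (1 - (ζ : F)⁻¹ * d (-1))) ?_
      (mul_ne_zero (sub_ne_zero.2 hβ') (sub_ne_zero.2 hγ.symm))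
    · simpa [U3.diag_apply, smul_smul, HT_σ, D, mul_assoc, mul_comm t] using
        Form.smul_map_mem_eiSub (hq 0) m1 (f.SO_le_O hS) (U3.diag_apply b D _) ht
    · have := mem_eiSub_of_pair ok (f.SO_le_O hS) (f.SO_le_O wS) m1 m2 z0 (Units.ne_zero _) (U3.diag_apply b D _)
        (by rw [hc]; exact U3.diag_apply ..) (hc ▸ (Commute.all _ _).map _)
      refine Eq.subst (motive := (· ∈ f.eiSub M (hq 0))) ?_ this
      simp [hc, U3.diag_apply, HT_σ, D, π, pow_q_pow_q hF]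
      module
  have h2 : ∀ a, (HT hF).π a = 0 → f.ei (b (.inl 0)) 0 a ∈ M := fun a ha => by
    obtain ⟨c, rfl⟩ := exists_sub_σ_eq (sig_ne_id hF) (sig_sig hF) ha
    obtain ⟨_, o1, k1⟩ := h1 1
    obtain ⟨_, o2, k2⟩ := h1 c
    have := mul_mem (mul_mem (mul_mem k1 k2) (inv_mem k1)) (inv_mem k2)
    rw [← commutatorElement_def, (o1.ei_commutator o2).2] at this
    simpa [hB, HT_σ, sig_apply] using this
  have m3 : w ∈ M := (mul_mem_cancel_left (Form.ei_mem_of_mem_eiSub (hq 0) h2 (h1 1) ok)).1 m2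
  have w0 : w (b (.inl 0)) = b (.inl 1) := by simp [hw, e1, π]
  obtain ⟨c, c0, hc⟩ := exists_trace_zero hF
  have hc' : (HT hF).π (-c⁻¹) = 0 := by
    rw [HT_π, neg_pow_q hF, inv_pow, show c ^ q = -c by linear_combination hc]; simp
  let g := f.ei (b (.inl 1)) 0 (-c⁻¹) * f.ei (b (.inl 0)) 0 c * w
  have gM : g ∈ M := mul_mem (mul_mem (by
    have := mul_mem (mul_mem m3 (h2 _ hc')) (inv_mem m3)
    rwa [(Form.eichOK_zero (hq 0) hc').conj_ei (f.SO_le_O wS), w0, map_zero] at this) (h2 c hc)) m3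
  have gO : g ∈ f.O := mul_mem (mul_mem (Form.ei_mem_O ..) (Form.ei_mem_O ..)) (f.SO_le_O wS)
  have g0 : g (b (.inl 0)) = -c • b (.inl 0) := by
    simp [g, w0, Form.ei_zero_apply (hq 0) hc, Form.ei_zero_apply (hq 1) hc', hB, HT_ε]
    match_scalars <;> field_simp <;> ring
  have h3 : ∀ i, ∀ t : F, t • b (.inr i) ∈ f.eiSub M (hq 0) := fun i => by
    induction i using Fin.induction with
    | zero => exact h1
    | succ i ih =>
      intro t
      have := Form.smul_map_mem_eiSub (hq 0) gM gO g0 (ih (t / ((-c) ^ q * e (.inr i.castSucc))))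
      refine Eq.subst (motive := (· ∈ f.eiSub M (hq 0))) ?_ this
      simp [g, hw, π, Form.ei_zero_apply (hq 0) hc, Form.ei_zero_apply (hq 1) hc', hB, smul_smul, HT_σ]
      rw [← mul_assoc, mul_right_comm, mul_div_cancel₀ _ (by simp [c0])]
  have h4 : f.U (b (.inl 0)) ≤ M := Form.U_le_of_eiSub (hq 0) h2 fun v hv => by
    rw [← b.sum_repr v] at hv ⊢
    simp only [Fintype.sum_sum_type, Fin.sum_univ_two] at hv ⊢
    refine add_mem (add_mem ?_ ?_) (sum_mem fun i _ => h3 i _)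
    · have o := Form.EichOK.zero (hq 0)
      rw [← zero_add (_ • _)]
      refine ⟨_, o.add_smul_u _, o.ei_add_smul_u _ ▸ h2 _ ?_⟩
      simp [HT_π, HT_σ, HT_ε, sub_pow_q hF, pow_q_pow_q hF]
    · simp [hB] at hv
      simp [hv]
  rw [← E_eq_SO (sig_ne_id hF) hf]
  exact hf.E_le_of_B_ne (hq 0) (hq 1) (by simp [hB]) h4 (w0 ▸ Form.U_apply_le h4 (f.SO_le_O wS) m3)

omit hB

theorem exists_pair_SU (hF : Fintype.card F = q ^ 2) {n : ℕ} (hn : 3 ≤ n) (h : 3 ≤ q ∨ 4 ≤ n) : ∃ a b : SU n F q, Subgroup.closure {a, b} = ⊤ := by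
  obtain ⟨m, rfl⟩ := Nat.exists_eq_add_of_le' hn
  obtain ⟨b, hB⟩ := exists_hyp_basis (hF := hF) m
  obtain ⟨ζ, hζ⟩ := IsCyclic.exists_generator (α := Fˣ)
  have z0 := ζ.ne_zero
  have h2 := two_le hF
  have ho : ∀ k, 0 < k → k + 1 < q ^ 2 → (ζ : F) ^ k ≠ 1 := fun k h1 h2 e => by
    have := Nat.le_of_dvd h1 ((card_sub_one_dvd_of_gen hζ).1 e)
    omega
  obtain ⟨g₁, h1, g₂, h2, h⟩ : ∃ g₁ ∈ (std hF (Fin (m + 3))).SO, ∃ g₂ ∈ (std hF (Fin (m + 3))).SO,
      (std hF (Fin (m + 3))).SO ≤ Subgroup.closure {g₁, g₂} := by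
    by_cases h3 : 3 ≤ q
    · refine exists_pair_SO hB (std_nondeg hF _) (ζ := ζ) (d := Pi.mulSingle 0 (ζ ^ q * ζ⁻¹)) (fun i => ?_)
        (by simpa [uch_val] using uch_gen hF hζ h3) (fun e => uch_ne hF hζ h3 ?_) (fun e => ?_) (by simp [← Units.coe_prod]; field_simp)
      · by_cases h : i = 0
        · simp [h, mul_pow, pow_q_pow_q hF]; field_simp
        · simp [h]
      · rw [show (uch q ζ : F) = 1 by simpa [uch_val] using e, one_pow]
      · by_cases h : (-1 : Fin (m + 1)) = 0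
        · refine ho (q - 2) (by omega) (by nlinarith [Nat.sub_le q 2]) ?_
          rw [pow_sub₀ _ z0 h2, ← e]; simp [h]; ring
        · exact ho 1 one_pos (by nlinarith) (by simpa [h] using e)
    obtain rfl : q = 2 := by omega
    obtain ⟨m, rfl⟩ : ∃ k, m = k + 1 := ⟨m - 1, by omega⟩
    have h3 : (ζ : F) ^ 2 * ζ = 1 := CL.Chev.Phan.norm_of_ne hF z0
    have h4 : (ζ : F) ^ 2 * ζ ^ 2 = ζ := by linear_combination ζ * h3
    refine exists_pair_SO hB (std_nondeg hF _) (ζ := ζ) (d := Pi.mulSingle 0 (ζ ^ 2) * Pi.mulSingle 1 (ζ ^ 2))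
      (fun i => CL.Chev.Phan.norm_of_ne hF (Units.ne_zero _)) (by simpa [h4] using gen_poly_pow hζ one_pos (by simp))
      (by simpa [h4] using ho 1 one_pos (by simp)) (fun e => ho 1 one_pos (by simp) ?_)
      (by simp [Finset.prod_mul_distrib, ← Units.coe_prod]; field_simp; linear_combination h3)
    by_cases h : (-1 : Fin (m + 1 + 1)) = 1
    · rw [← e]; simp [h]; field_simp
    · simpa [h] using e
  obtain ⟨g₁, rfl⟩ := CL.Chev.Phan.exists_act hF h1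
  obtain ⟨g₂, rfl⟩ := CL.Chev.Phan.exists_act hF h2
  exact ⟨g₁, g₂, eq_top_iff.2 fun g _ => CL.Chev.Phan.le_of_map hF (by
    rwa [MonoidHom.map_closure, Set.image_pair]) g⟩

end CL.KSG
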