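import Cfsg.Agent.KSG.ShortOmA
import Cfsg.Agent.KSG.GenCl
import Cfsg.Agent.CLAS.OrthPOrder
import Cfsg.Agent.CHEV.ClSpin

/-!
Bounded presentations of the finite orthogonal groups of plus type.
-/

set_option autoImplicit false
set_option linter.unusedSectionVars false
set_option maxHeartbeats 800000

namespace CL.KSG

open Matrix hiding transvection
open Monoid Matrix.SpecialLinearGroup CL.SL2Hom CL.Chev CL.Chev.Cl
open scoped MatrixGroups commutatorElement

universe u

variable {F : Type*} [Field F]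

theorem commute_conj_swap {ι P : Type*} [Fintype ι] [DecidableEq ι] [Group P] (A : SpecialLinearGroup ι F →* P)
    {w : SpecialLinearGroup ι F} {σ : Equiv.Perm ι} {e : ι → F} (hw : IsMono w σ e) {g : P} {i j k l : ι}
    (h : i ≠ j) (h' : k ≠ l) (h1 : σ i = k) (h2 : σ j = l) (hc : ∀ t, Commute (A (transvection h t)) g) (t : F) :
    Commute (A (transvection h' t)) (A w * g * (A w)⁻¹) := by
  have := (hc ((e i)⁻¹ * t * e j)).conj (A w)
  rwa [← map_inv, ← map_mul, ← map_mul, hw.conj_tv' h h' h1 h2, ← mul_assoc, mul_inv_cancel_left₀ (hw.ne_zero _),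
    mul_inv_cancel_right₀ (hw.ne_zero _), map_inv] at this

theorem hasPres_typeD [Fintype F] {n d r : ℕ} {ι : Type*} [Finite ι] {R : RootSys ι (Fin (n + 4))}
    (a0 : R.A 0 (Fin.last _) = 0) (a1 : R.A (Fin.last _).castSucc (Fin.last _) = 0)
    {G : Type u} [Group G] [Finite G] {S : StData R F G} (hS : S.Good) (htop : S.grp = ⊤)
    (hker : ∀ t, S.R3_of_finite.torHom t = 1 → ∃ s : Fˣ, (s = 1 ∨ s = -1) ∧
      t = Pi.mulSingle (Fin.last _).castSucc s * Pi.mulSingle (Fin.last _) s)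
    {f : SpecialLinearGroup (Fin (n + 4)) F →* G} (hf : Function.Injective f)
    (f2 : ∀ (k : Fin (n + 3)) t, f (transvection k.castSucc_lt_succ.ne t) = S.x (R.simple k.castSucc) t ∧
      f (transvection k.castSucc_lt_succ.ne' t) = S.x (R.neg (R.simple k.castSucc)) t)
    (c1 : ∀ i j (h : i ≠ j), (i = (Fin.last _).castSucc ∨ i = Fin.last _ ↔ j = (Fin.last _).castSucc ∨ j = Fin.last _) →
      ∀ t u, Commute (f (transvection h t)) (S.x (R.simple (Fin.last _)) u) ∧
        Commute (f (transvection h t)) (S.x (R.neg (R.simple (Fin.last _))) u))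
    (hac : (0 : Fin (n + 4)) ≠ (Fin.last _).castSucc) {w : SpecialLinearGroup (Fin (n + 4)) F} {e : Fin (n + 4) → F}
    (hw : IsMono w (Equiv.swap 0 (Fin.last _).castSucc) e) {l : F} (hl : l ≠ 0) {τ : G}
    (hτ : τ = f w * S.n (R.simple (Fin.last _)) 1 * (f w)⁻¹)
    (g2 : ∀ t, τ * f (transvection hac.symm (l * t)) * τ⁻¹ = S.x (R.simple (Fin.last _)) t ∧
      τ * f (transvection hac (l⁻¹ * t)) * τ⁻¹ = S.x (R.neg (R.simple (Fin.last _))) t)
    (g3 : S.h (R.simple (Fin.last _)) (-1) = S.h (R.simple (Fin.last _).castSucc) (-1))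
    (h : HasPres (SpecialLinearGroup (Fin (n + 4)) F) d r) :
    HasPres G (d + 1) (r + if Fintype.card F ≤ 3 then 8 else 6) := by
  classical
  obtain ⟨ζ, hζ⟩ := IsCyclic.exists_generator (α := Fˣ)
  have z0 := ζ.ne_zero
  have o0 : (-1 : F) ≠ 0 := neg_ne_zero.2 one_ne_zero
  have hab : (0 : Fin (n + 4)) ≠ 1 := Fin.zero_ne_one
  have had : (0 : Fin (n + 4)) ≠ Fin.last _ := by simp [Fin.ext_iff]
  have hbc : (1 : Fin (n + 4)) ≠ (Fin.last _).castSucc := by simp [Fin.ext_iff]
  have hbd : (1 : Fin (n + 4)) ≠ Fin.last _ := by simp [Fin.ext_iff]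
  have hcd : ((Fin.last _).castSucc : Fin (n + 4)) ≠ Fin.last _ := by simp [Fin.ext_iff]
  obtain ⟨μ₀, m0⟩ := exists_isEmb (F := F) hac.symm
  obtain ⟨μ₃, m3⟩ := exists_isEmb (F := F) had
  obtain ⟨μ₄, m4⟩ := exists_isEmb (F := F) hbc
  choose μ m using fun k : Fin (n + 3) => exists_isEmb (F := F) k.castSucc_lt_succ.ne
  have m1 : IsEmb (μ 0) hab := m 0
  have m2 : IsEmb (μ (Fin.last _)) hcd := m _
  obtain ⟨ω, -, w1, w2, -⟩ := exists_hom_of_finite (rel_scale (sl2_rel (F := F)) hl)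
  have w3 : ω (hh upper lower (-1)) = hh upper lower (-1) := by
    simp only [hh, nn, map_mul, w1, w2]
    ext i j; fin_cases i <;> fin_cases j <;> simp [coe_upper, coe_lower, hl]
  obtain ⟨β, hβ⟩ := exists_emb_SL' (F := F) ((Fin.succEmb (n + 2)).trans Fin.castSuccEmb)
  obtain ⟨y, k, y1, y2, y3⟩ := exists_sl2_gen (F := F)
  let π : Coprod _ (FreeGroup (Fin 1)) →* G := Coprod.lift f (FreeGroup.lift fun _ => τ)
  let A : SpecialLinearGroup (Fin (n + 4)) F →* Coprod _ (FreeGroup (Fin 1)) := Coprod.inl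
  let T : Coprod (SpecialLinearGroup (Fin (n + 4)) F) (FreeGroup (Fin 1)) := Coprod.inr (.of 0)
  let D := (MulAut.conj T).toMonoidHom.comp (A.comp μ₀)
  have πA : ∀ g, π (A g) = f g := fun _ => rfl
  have πT : π T = τ := by simp [π, T]
  have hD : ∀ z, D z = T * A (μ₀ z) * T⁻¹ := fun _ => rfl
  have n1 : ∀ t, π (D (ω (upper t))) = S.x (R.simple (Fin.last _)) t := fun t => by
    simp only [hD, map_mul, map_inv, πA, πT, w1, m0.1, g2]
  have n2 : ∀ t, π (D (ω (lower t))) = S.x (R.neg (R.simple (Fin.last _))) t := fun t => by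
    simp only [hD, map_mul, map_inv, πA, πT, w2, m0.2, g2]
  have hh1 : ∀ {P : Type u} [Group P] (Q : StData R F P) {k} (ν : SL(2, F) →* P),
      (∀ t, ν (upper t) = Q.x k t) → (∀ t, ν (lower t) = Q.x (R.neg k) t) → ∀ s, ν (hh upper lower s) = Q.h k s :=
    fun Q k ν h1 h2 s => by simp only [hh, nn, StData.h, StData.n, map_mul, h1, h2]
  have cτ : ∀ i j (h : i ≠ j), (i = 0 ∨ i = Fin.last _ ↔ j = 0 ∨ j = Fin.last _) → ∀ t,
      Commute (f (transvection h t)) τ := fun i j h hij => by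
    rw [hτ]
    refine commute_conj_swap f hw ((Equiv.swap 0 (Fin.last _).castSucc).injective.ne h) h (by simp) (by simp)
      fun t => ?_
    have := c1 _ _ ((Equiv.swap 0 (Fin.last _).castSucc).injective.ne h) (by
      simp only [Equiv.swap_apply_def]; grind) t
    exact ((this _).1.mul_right (this _).2).mul_right (this _).1
  have cD : ∀ {μ i j} {h : i ≠ j}, IsEmb μ h →
      (i = (Fin.last _).castSucc ∨ i = Fin.last _ ↔ j = (Fin.last _).castSucc ∨ j = Fin.last _) →
      ∀ x z, Commute (f (μ x)) (π (D z)) := fun {μ i j h} m hij x z => by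
    have key : ∀ g, (∀ u, Commute g (S.x (R.simple (Fin.last _)) u) ∧ Commute g (S.x (R.neg (R.simple (Fin.last _))) u)) →
        Commute g (π (D z)) := fun g hg => (commute_of_top (f := π.comp D) (sl2_top _ (fun t => ?_) fun t => ?_) z).symm
    · exact m.commute_of (fun t => key _ (c1 _ _ h hij t)) (fun t => key _ (c1 _ _ h.symm hij.symm t)) x
    · rw [← mul_inv_cancel_left₀ hl t, ← w1]
      exact Subgroup.mem_centralizer_singleton_iff.2 (n1 _ ▸ (hg _).1.symm)
    · rw [← inv_mul_cancel_left₀ hl t, ← w2]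
      exact Subgroup.mem_centralizer_singleton_iff.2 (n2 _ ▸ (hg _).2.symm)
  have r1 := rels_commute_hom.{_, _, u} (π := π) (exists_pair_SL' (n + 1)) (f := A.comp β) (g := T) fun x => by
    refine (commute_of_top (f := f.comp β) (CL.SL.eq_top_of_transvection_mem _ fun i j h t => ?_) x).symm
    rw [Subgroup.mem_comap, MonoidHom.comp_apply, hβ, πT]
    exact Subgroup.mem_centralizer_singleton_iff.2 (cτ _ _ _ (by simp [Fin.castSucc_ne_last]) t)
  have r2 := rels_eq.{_, _, u} (π := π) (a := T * A (diag2n had (ζ : F) z0 * diag2n hac.symm (-1) o0) * T⁻¹)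
    (b := A (diag2n had (ζ : F) z0 * diag2n hcd (-1) o0)) (by
      have e1 := (m3.commute_of (cτ _ _ had (by simp)) (cτ _ _ had.symm (by simp)) (hh upper lower (ζ : F))).eq
      have e2 := hh1 S (π.comp (D.comp ω)) n1 n2 (-1)
      rw [g3, ← hh1 S (f.comp (μ (Fin.last _))) (fun t => (congrArg f (m2.1 t)).trans (f2 (Fin.last _) t).1)
        (fun t => (congrArg f (m2.2 t)).trans (f2 (Fin.last _) t).2)] at e2
      simp only [MonoidHom.comp_apply, w3, hD, map_mul, map_inv, πA, πT, m0.hh o0, m2.hh o0, m3.hh z0] at e1 e2 ⊢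
      rw [← e2, ← mul_assoc, ← e1]; group)
  have r3 := rels_eq.{_, _, u} (π := π) (a := T) (b := A w * D (ω (nn upper lower 1)) * (A w)⁻¹) (by
    simp only [map_mul, map_inv, πA, πT, nn, n1, n2, hτ, StData.n])
  have hζ' : ∀ u, u ∈ Subgroup.zpowers ζ⁻¹ := by simpa using hζ
  have r4 := rels_comm_sl2.{u} (π := π) (ν := D) (g := A (μ 0 (upper 1) * μ (Fin.last _) y)) (fun z => by
    rw [πA, map_mul]; exact (cD m1 (by simp [hac, had, hbc, hbd]) _ _).mul_left (cD m2 (by simp) _ _)) hζ'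
  have r5 := rels_comm_sl2.{u} (π := π) (ν := D) (g := A (μ (Fin.last _) (upper 1) * μ 0 y)) (fun z => by
    rw [πA, map_mul]; exact (cD m2 (by simp) _ _).mul_left (cD m1 (by simp [hac, had, hbc, hbd]) _ _)) hζ'
  refine ((h.coprod (hasPres_free 1)).quot_rels ?_ ((r1.and (r2.and r3)).and (r4.and r5)) ?_).mono
    (by split_ifs <;> omega)
  · rw [← MonoidHom.range_eq_top]
    refine S.eq_top_of_simple htop fun k => ?_
    induction k using Fin.lastCases with
    | last => exact ⟨fun t => ⟨_, n1 t⟩, fun t => ⟨_, n2 t⟩⟩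
    | cast k => exact ⟨fun t => ⟨A _, (f2 k t).1⟩, fun t => ⟨A _, (f2 k t).2⟩⟩
  rintro J _ φ hφ ⟨⟨q1, q2, q3⟩, q4, q5⟩
  set Φ := π.prod φ
  have p1 : ∀ i j (h : i ≠ j), i ≠ 0 → i ≠ Fin.last _ → j ≠ 0 → j ≠ Fin.last _ → ∀ t,
      Commute (Φ (A (transvection h t))) (Φ T) := fun i j h h1 h2 h3 h4 t => by
    have key : ∀ i : Fin (n + 4), i ≠ 0 → i ≠ Fin.last _ → ∃ k : Fin (n + 2), i = k.succ.castSucc := fun i h1 h2 =>
      ⟨⟨i - 1, by grind⟩, by grind⟩
    obtain ⟨i, rfl⟩ := key i h1 h2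
    obtain ⟨j, rfl⟩ := key j h3 h4
    have := q1 (transvection (by simpa using h : i ≠ j) t)
    rw [MonoidHom.comp_apply, hβ] at this
    exact this.symm
  have p2 : ∀ s hs, Commute (Φ T) ((Φ.comp A) (diag2n hbc s hs)) := fun s hs => m4.hh hs ▸
    (m4.commute_of (p1 _ _ hbc hab.symm hbd hac.symm hcd) (p1 _ _ hbc.symm hac.symm hcd hab.symm hbd) _).symm
  have p3 : ∀ x z, Commute (Φ (A (μ 0 x))) (Φ (D z)) ∧ Commute (Φ (A (μ (Fin.last _) x))) (Φ (D z)) := by
    have hm := ((isMono_diag2n had z0).mul (isMono_diag2n hac.symm o0)).mul (isMono_diag2n hbc z0)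
    have hm' := ((isMono_diag2n had z0).mul (isMono_diag2n hcd o0)).mul (isMono_diag2n hbc z0)
    have e1 := m1.commute_diag hm' (by simp [hab.symm, hac, hbc, had, hbd])
    have e2 := m2.commute_diag hm' (by simp [hbc.symm, hac.symm, hcd, hcd.symm, had.symm, hbd.symm])
    have e3 := fun z => congrArg (fun g => Φ (T * A g * T⁻¹)) (m0.conj_hh hm (s := (ζ⁻¹ : Fˣ)) (Units.ne_zero _)
      (by simp [hab, hac, hac.symm, hbc.symm, hcd]; field_simp) z)
    have e4 : ∀ z, Φ (A (diag2n had (ζ : F) z0 * diag2n hcd (-1) o0 * diag2n hbc (ζ : F) z0)) * Φ (D z) *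
        (Φ (A (diag2n had (ζ : F) z0 * diag2n hcd (-1) o0 * diag2n hbc (ζ : F) z0)))⁻¹ = _ := fun z => by
      refine Eq.trans ?_ (e3 z)
      have := (p2 (ζ : F) z0).eq
      rw [map_mul A, map_mul Φ, ← q2]
      simp only [hD, map_mul, map_inv, MonoidHom.comp_apply] at this ⊢
      rw [← mul_inv_eq_iff_eq_mul] at this
      nth_rw 1 2 [← this]
      group
    have := commute_of_spread hab hac had hbc hbd hcd (Φ.comp A) m0 m1 m2 p2 y1 y2 y3
      (by simpa only [hD, map_mul, map_inv] using! q4 _ (((e1 _).mul_right (e2 _)).map (Φ.comp A)) e4)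
      (by simpa only [hD, map_mul, map_inv] using! q5 _ (((e2 _).mul_right (e1 _)).map (Φ.comp A)) e4)
    simpa only [hD, map_mul, map_inv] using! this
  have p4 : Φ (D (ω (hh upper lower (-1)))) = Φ (A (μ (Fin.last _) (hh upper lower (-1)))) := by
    have e0 : ∀ i j (h : i ≠ j) (h' : Equiv.swap 0 (Fin.last _).castSucc i ≠ Equiv.swap 0 (Fin.last _).castSucc j),
        (∀ t z, Commute (Φ (A (transvection h' t))) (Φ (D z))) → ∀ t, Commute (Φ (A (transvection h t))) (Φ T) :=
      fun i j h h' hc => by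
        rw [q3, map_mul, map_mul, map_inv]
        exact commute_conj_swap (Φ.comp A) hw h' h (by simp) (by simp) fun t => hc t _
    have e1 := (m3.commute_of (f := Φ.comp A) (e0 _ _ had (by simp [Equiv.swap_apply_def, had.symm, hcd.symm, hcd])
      (by simpa [Equiv.swap_apply_def, had.symm, hcd.symm, ← m2.1] using fun t z => (p3 (upper t) z).2))
      (e0 _ _ had.symm (by simp [Equiv.swap_apply_def, had.symm, hcd.symm])
      (by simpa [Equiv.swap_apply_def, had.symm, hcd.symm, ← m2.2] using fun t z => (p3 (lower t) z).2))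
      (hh upper lower (ζ : F))).eq
    simp only [MonoidHom.comp_apply, w3, hD, map_mul, map_inv, m0.hh o0, m2.hh o0, m3.hh z0] at e1 q2 ⊢
    rwa [← mul_assoc, ← e1, mul_assoc, mul_assoc, mul_right_inj, ← mul_assoc] at q2
  obtain ⟨a, al, ac⟩ : ∃ a : Fin (n + 4) → F → G × J, (a (Fin.last _) = fun t => Φ (D (ω (upper t)))) ∧
      ∀ k : Fin (n + 3), a k.castSucc = fun t => Φ (A (μ k (upper t))) :=
    ⟨Fin.lastCases _ _, Fin.lastCases_last, fun _ => Fin.lastCases_castSucc _⟩
  obtain ⟨b, bl, bc⟩ : ∃ a : Fin (n + 4) → F → G × J, (a (Fin.last _) = fun t => Φ (D (ω (lower t)))) ∧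
      ∀ k : Fin (n + 3), a k.castSucc = fun t => Φ (A (μ k (lower t))) :=
    ⟨Fin.lastCases _ _, Fin.lastCases_last, fun _ => Fin.lastCases_castSucc _⟩
  have f3 : ∀ (k : Fin (n + 3)) t, f (μ k (upper t)) = S.x (R.simple k.castSucc) t ∧
      f (μ k (lower t)) = S.x (R.neg (R.simple k.castSucc)) t := fun k t => by
    rw [(m k).1, (m k).2]; exact f2 k t
  have po : ∀ k : Fin (n + 3), R.A k.castSucc (Fin.last _) = 0 → (∀ x z, Commute (Φ (A (μ k x))) (Φ (D z))) →
      Part S (MonoidHom.fst G J) a b {k.castSucc, Fin.last _} := fun k h1 h2 => by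
    refine Part.of_orth hS h1 (fun k t => ?_) (fun k => ?_) fun t u => ?_
    · induction k using Fin.lastCases with
      | last => rw [al, bl]; exact ⟨n1 t, n2 t⟩
      | cast k => rw [ac, bc]; exact f3 k t
    · induction k using Fin.lastCases with
      | last => rw [al, bl]; exact rel_map sl2_rel (Φ.comp (D.comp ω))
      | cast k => rw [ac, bc]; exact rel_map sl2_rel (Φ.comp (A.comp (μ k)))
    · simp only [al, bl, ac, bc]
      exact ⟨⟨h2 _ _, h2 _ _⟩, h2 _ _, h2 _ _⟩
  have p5 : ∀ k : Fin (n + 3), Part S (MonoidHom.fst G J) a b {k.castSucc, Fin.last _} := fun k => by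
    by_cases h0 : k = 0
    · exact h0 ▸ po 0 a0 fun x z => (p3 x z).1
    by_cases h1 : k = Fin.last _
    · exact h1 ▸ po _ a1 fun x z => (p3 x z).2
    have e : ∀ x, Commute (Φ (A (μ k x))) (Φ T) := (m k).commute_of (f := Φ.comp A)
      (p1 _ _ _ (by simpa) (Fin.castSucc_ne_last _) (Fin.succ_ne_zero _) (by simpa))
      (p1 _ _ _ (Fin.succ_ne_zero _) (by simpa) (by simpa) (Fin.castSucc_ne_last _))
    have e' : ∀ x, τ * f (μ k x) * τ⁻¹ = f (μ k x) := fun x => by
      rw [← πT]; exact congrArg Prod.fst (mul_inv_eq_iff_eq_mul.2 (e x).symm.eq)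
    refine Part.of_hom ((MulAut.conj τ).toMonoidHom.comp f) ((MulAut.conj τ).injective.comp hf)
      ((MulAut.conj (Φ T)).toMonoidHom.comp (Φ.comp A)) (fun _ => by simp [Φ, πT, πA]) ?_
    rintro _ (rfl | rfl) t
    · rw [ac, bc]
      exact ⟨⟨_, (e' _).trans (f3 k t).1, mul_inv_eq_iff_eq_mul.2 (e _).symm.eq⟩,
        _, (e' _).trans (f3 k t).2, mul_inv_eq_iff_eq_mul.2 (e _).symm.eq⟩
    · rw [al, bl, ← n1, ← n2]
      exact ⟨⟨μ₀ (ω (upper t)), by simp [hD, πT, πA], by simp [hD]⟩, μ₀ (ω (lower t)), by simp [hD, πT, πA],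
        by simp [hD]⟩
  obtain ⟨P, hP, hP'⟩ := exists_stData_of_part (θ := MonoidHom.fst G J) (a := a) (b := b) hS fun i j => by
    induction i using Fin.lastCases with
    | last =>
      induction j using Fin.lastCases with
      | last => exact (p5 0).mono (by simp)
      | cast j => exact (p5 j).mono (by rw [Set.pair_comm])
    | cast i =>
      induction j using Fin.lastCases with
      | last => exact p5 i
      | cast j =>
        refine Part.of_hom f hf (Φ.comp A) (fun _ => rfl) ?_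
        rintro _ (rfl | rfl) t <;> rw [ac, bc] <;> exact ⟨⟨_, (f3 _ t).1, rfl⟩, _, (f3 _ t).2, rfl⟩
  obtain ⟨ψ, hψ⟩ := P.exists_hom_of_tor hP hS htop fun t ht => by
    obtain ⟨s, hs, rfl⟩ := hker t (by rw [← ht]; subst hP; exact (P.R3_of_finite.map_torHom _ t).symm)
    rcases hs with rfl | rfl
    · simp
    have e1 := hh1 P (Φ.comp (D.comp ω)) (fun t => by rw [(hP' _).1, al]; rfl) (fun t => by rw [(hP' _).2, bl]; rfl) (-1)
    have e2 := hh1 P (Φ.comp (A.comp (μ (Fin.last _)))) (fun t => by rw [(hP' _).1, ac]; rfl)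
      (fun t => by rw [(hP' _).2, bc]; rfl) (-1)
    rw [map_mul, StData.R3.torHom_mulSingle, StData.R3.torHom_mulSingle, Units.coe_neg_one, ← e2,
      MonoidHom.comp_apply, MonoidHom.comp_apply, ← p4]
    change (Φ.comp (D.comp ω) _ * _).2 = _
    rw [e1, P.R3_of_finite _ _ _ o0 o0, neg_mul_neg, one_mul, P.h_one]; rfl
  have e1 : ∀ k t, (a k t).2 ∈ ψ.range ∧ (b k t).2 ∈ ψ.range := fun k t =>
    ⟨⟨_, by rw [hψ, (hP' k).1]⟩, _, by rw [hψ, (hP' k).2]⟩
  have e2 : ∀ g, φ (A g) ∈ ψ.range := fun g => (SL_top_of_adj (ψ.range.comap (φ.comp A)) (fun k t => by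
    simpa only [ac, bc, (m k).1, (m k).2] using! e1 k.castSucc t) ▸ Subgroup.mem_top g : g ∈ ψ.range.comap (φ.comp A))
  refine ⟨ψ, MonoidHom.range_eq_top.1 (surj_of_coprod hφ _ e2 fun g => ?_)⟩
  have e3 : φ T ∈ ψ.range := by
    have e := fun t => e1 (Fin.last _) t
    rw [al, bl] at e
    rw [show φ T = _ from congrArg Prod.snd q3]
    simp only [nn, map_mul, map_inv, Prod.snd_mul, Prod.snd_inv]
    exact mul_mem (mul_mem (e2 _) (mul_mem (mul_mem (e _).1 (e _).2) (e _).1)) (inv_mem (e2 _))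
  induction g using FreeGroup.induction_on with
  | C1 => simp
  | of i => exact Subsingleton.elim 0 i ▸ e3
  | inv_of i ih => rw [map_inv, map_inv]; exact inv_mem ih
  | mul x y hx hy => rw [map_mul, map_mul]; exact mul_mem hx hy

theorem exists_hom_SL_Om {n : ℕ} (hn : 1 ≤ n) :
    ∃ f : SpecialLinearGroup (Fin (n + 2)) F →* Cfsg.Omega F (Cfsg.quadFormPlus (n + 2) F),
    Function.Injective f ∧ ∀ i j (h : i ≠ j) t, f (transvection h t) = (omPlusSt F hn).x (.mk _ _ (adm_lr .D h)) t := by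
  have h0 : ∀ i j (h : i ≠ j) t, omAct F _ ((omPlusSt F hn).x (.mk _ _ (adm_lr .D h)) t) =
      slAct F _ (transvection h t) := fun i j h t => by
    rw [omPlusSt, StData.pull_x, slAct_transvection F (baseA _) h, Frame.st_x _ _ _ (by simp), Frame.st_x _ _ _ (by simp)]
    rfl
  have h1 : ∀ g, slAct F (n + 2) g ∈ (omAct F (Cfsg.quadFormPlus (n + 2) F)).range := fun g =>
    (CL.SL.eq_top_of_transvection_mem ((omAct F _).range.comap (slAct F _)) (fun i j h t =>
      ⟨_, h0 i j h t⟩) ▸ Subgroup.mem_top g : g ∈ (omAct F _).range.comap (slAct F _))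
  let e := MonoidHom.ofInjective (omAct_injective F (Cfsg.quadFormPlus (n + 2) F))
  have h2 : ∀ g, omAct F _ (e.symm ((slAct F _).codRestrict _ h1 g)) = slAct F _ g := fun g =>
    MonoidHom.apply_ofInjective_symm _ _
  exact ⟨e.symm.toMonoidHom.comp ((slAct F _).codRestrict _ h1), fun a b h => slAct_injective F _ (by
    rw [← h2, ← h2]; exact congrArg _ h), fun i j h t => omAct_injective F _ ((h2 _).trans (h0 i j h t).symm)⟩

theorem hasPres_Omega [Fintype F] {n d r : ℕ} (h : HasPres (SpecialLinearGroup (Fin (n + 4)) F) d r) :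
    HasPres (Cfsg.Omega F (Cfsg.quadFormPlus (n + 4) F)) (d + 1) (r + if Fintype.card F ≤ 3 then 8 else 6) := by
  have hn : 1 ≤ n + 2 := by omega
  have : Finite (Cfsg.Omega F (Cfsg.quadFormPlus (n + 4) F)) := inferInstance
  obtain ⟨f, hf, f1⟩ := exists_hom_SL_Om (F := F) hn
  set S := omPlusSt F hn with hS
  have hac : (0 : Fin (n + 4)) ≠ (Fin.last _).castSucc := by simp [Fin.ext_iff]
  have had : (0 : Fin (n + 4)) ≠ Fin.last _ := by simp [Fin.ext_iff]
  have hcd : ((Fin.last _).castSucc : Fin (n + 4)) ≠ Fin.last _ := by simp [Fin.ext_iff]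
  have e0 : (baseD (n + 2)).R.simple (Fin.last _) = .mk _ _ (adm_D _ (by decide) hcd) := by
    simp [Base.R_simple, baseD, baseSnoc]
  have e1 : ∀ k : Fin (n + 3), (baseD (n + 2)).R.simple k.castSucc = .mk _ _ (adm_lr .D k.castSucc_lt_succ.ne) :=
    fun k => by simp [Base.R_simple, baseD, baseSnoc]
  have lg : ∀ r, (baseD (n + 2)).R.Long r := fun r k => by
    induction r using Root.ind with | H c d h' _ =>
    induction k using Root.ind with | H a b h _ =>
    simp only [Base.R_len, Root.len_mk, lenP]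
    grind [adm]
  have a1 := S.acts_n (.mk _ _ (adm_lr .D hac)) (one_ne_zero (α := F))
  obtain ⟨hW, c, hc, e⟩ := (a1.mul (S.acts_n ((baseD (n + 2)).R.simple (Fin.last _)) one_ne_zero)).mul a1.inv
  have e2 : ((baseD (n + 2)).R.refl (.mk _ _ (adm_lr .D hac)) * (baseD (n + 2)).R.refl ((baseD (n + 2)).R.simple
      (Fin.last _)) * ((baseD (n + 2)).R.refl (.mk _ _ (adm_lr .D hac)))⁻¹) (.mk _ _ (adm_lr .D hac.symm)) =
      (baseD (n + 2)).R.simple (Fin.last _) := by
    rw [Equiv.Perm.mul_apply, Equiv.Perm.mul_apply, RootSys.refl_inv, e0]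
    simp [Base.refl_mk, Root.refl_mk, piP, hac, had, hcd, had.symm, hcd.symm]
  have e3 : (baseD (n + 2)).R.neg (.mk _ _ (adm_lr .D hac.symm)) = .mk _ _ (adm_lr .D hac) := by
    simp [Base.R_neg, Root.neg_mk, Root.mk_eq_iff]
  have hc' := hc (.mk _ _ (adm_lr .D hac.symm))
  refine hasPres_typeD (by simp [baseD_A]) (by simp [baseD_A]) (omPlusSt_good F hn) (omPlusSt_top F hn)
    (fun t ht => ?_) hf (fun k t => ?_) (fun i j h hij t u => ?_) hac (isMono_w hac one_ne_zero)
    (l := c (.mk _ _ (adm_lr .D hac))) (by rw [← e3]; exact right_ne_zero_of_mul_eq_one hc') rfl (fun t => ?_) ?_ h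
  · obtain ⟨h1, h2⟩ := eq_of_wchr_D (Frame.wchr_eq_one_of_torHom _ ((plusFrame_spans F ..).st_R3 _)
      ((StData.R3.pull_torHom _ (omPlusSt_R3 F hn) t).symm.trans ((congrArg _ ht).trans (map_one _))))
    exact ⟨_, (units_eq_one_or h2).imp_right And.left, h1⟩
  · rw [f1, f1, e1]
    exact ⟨rfl, by simp [hS, Base.R_neg, Root.neg_mk, Root.mk_swap (adm_lr .D k.castSucc_lt_succ.ne')]⟩
  · have : (baseD (n + 2)).R.pair (.mk _ _ (adm_lr .D h)) ((baseD (n + 2)).R.simple (Fin.last _)) = 0 := by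
      rw [e0]; simp [Base.R_pair, Root.w_mk, Root.v_mk, Cl.cw, Pi.single_apply]; grind
    rw [f1]
    exact ⟨S.commute_of_noComb ((lg _).noComb this.ge) _ _,
      S.commute_of_noComb ((lg _).noComb (by rw [RootSys.pair_neg_right, this, neg_zero])) _ _⟩
  · have e4 : f (transvection hac 1 * transvection hac.symm (-1⁻¹) * transvection hac 1) =
        S.n (.mk _ _ (adm_lr .D hac)) 1 := by
      rw [map_mul, map_mul, f1, f1, StData.n, ← e3, RootSys.neg_neg]
    have e5 := RootSys.W_neg hW (.mk _ _ (adm_lr .D hac.symm))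
    rw [e2, e3] at e5
    rw [e3] at hc'
    rw [e4, f1, f1, e, e, e2, e5, ← mul_assoc, hc', one_mul, mul_inv_cancel_left₀ (right_ne_zero_of_mul_eq_one hc')]
    exact ⟨rfl, rfl⟩
  · refine omAct_injective F _ ((plusFrame_spans F .D (by decide) (by decide) _).ext fun a => ?_)
    rw [StData.map_h, StData.map_h, omPlusSt_map, Frame.st_h _ _ _ (by simp), Frame.st_h _ _ _ (by simp), e0, e1]
    congr 1
    rcases a with _ | a | a <;> simp [Root.w_mk, Cl.cw, hcd, Pi.single_apply] <;> split_ifs <;> simp_all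

theorem hasPres_POmega [Fintype F] {n d r : ℕ} (h : HasPres (Cfsg.Omega F (Cfsg.quadFormPlus (n + 3) F)) d r) :
    HasPres (Cfsg.POmega F (Cfsg.quadFormPlus (n + 3) F)) d (r + 1) := by
  have : IsCyclic (Subgroup.center (Cfsg.Omega F (Cfsg.quadFormPlus (n + 3) F))) := by
    have h5 : 5 ≤ Module.finrank F (Fin (n + 3) ⊕ Fin (n + 3) → F) := by simp; omega
    have := Fact.mk Nat.prime_two
    refine isCyclic_of_card_dvd_prime (p := 2) ?_
    refine (Nat.card_congr (Subgroup.centerCongr (CL.OrthE.commutatorCongr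
      (CL.Orth.toO (CL.Orth.QPlus (n + 3) F)))).toEquiv).dvd.trans ?_
    by_cases h : (2 : F) = 0 ∨ CL.Orth.negOne _ ∉ commutator (CL.Orth.O (CL.Orth.QPlus (n + 3) F))
    · rw [CL.OrthE.card_center_commutator_eq_one (CL.Orth.QPlus_nondeg _ _) h5 h]; simp
    · rw [not_or, not_not] at h
      rw [CL.OrthE.card_center_commutator_eq_two (CL.Orth.QPlus_nondeg _ _) h5 h.1 h.2]
  exact h.quot_cyclic _

end CL.KSG
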