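import Cfsg.Agent.KSG.ShortSp

/-!
Few commutation relations between a special linear group and a conjugate of a fundamental `SL₂`.
-/

set_option autoImplicit false
set_option linter.unusedSectionVars false
set_option maxHeartbeats 400000

namespace CL.KSG

open Matrix hiding transvection
open Monoid Matrix.SpecialLinearGroup CL.SL2Hom CL.Chev CL.Chev.Cl
open scoped MatrixGroups commutatorElement

universe w

variable {F P : Type*} [Field F] [Group P]

theorem sl2_top' (K : Subgroup SL(2, F)) (h1 : ∀ t, upper t ∈ K) (h2 : nn upper lower 1 ∈ K) : K = ⊤ :=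
  sl2_top K h1 fun t => by
    have := mul_mem (mul_mem h2 (h1 (-t))) (inv_mem h2)
    rw [sl2_rel.n_x one_ne_zero, mul_inv_cancel_right] at this
    simpa using this

theorem commute_sl2_of_pair [Fintype F] (hF : 3 < Fintype.card F) {k : Fˣ} (hk : ∀ u, u ∈ Subgroup.zpowers k)
    (ν : SL(2, F) →* P) {g h : P} (h1 : Commute h g)
    (h2 : ∀ y, h * ν y * h⁻¹ = ν (hh upper lower (k : F) * y * (hh upper lower (k : F))⁻¹))
    (h3 : Commute (ν (upper 1 * nn upper lower 1)) g) (y : SL(2, F)) : Commute (ν y) g := by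
  have R := sl2_rel (F := F)
  have k0 := k.ne_zero
  have k2 : (k : F) ^ 2 ≠ 1 := fun h => by
    have := Nat.le_of_dvd two_pos ((card_sub_one_dvd_of_gen hk).1 h)
    omega
  set δ : SL(2, F) := hh upper lower (k : F) with hδ
  have e1 : ∀ t, δ * upper t * δ⁻¹ = upper ((k : F) ^ 2 * t) := fun t => by
    rw [hδ, R.h_x k0, mul_inv_cancel_right]
  have e2 : nn upper lower (1 : F) * δ * (nn upper lower (1 : F))⁻¹ = δ⁻¹ := by
    rw [hδ, R.w_h k0, mul_inv_cancel_right, eq_inv_iff_mul_eq_one, R.h_mul_of_finite _ _ (inv_ne_zero k0) k0,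
      inv_mul_cancel₀ k0, R.h_one]
  have e3 : ν (nn upper lower 1) * h * (ν (nn upper lower 1))⁻¹ = ν (δ⁻¹ * δ⁻¹) * h := by
    rw [mul_assoc, ← map_inv, mul_inv_eq_iff_eq_mul.1 (h2 _), ← mul_assoc, ← map_mul, ← e2]
    simp only [mul_assoc]
  obtain ⟨p1, p2⟩ := addx_mem_of_pair (x := fun t => ν (upper t)) (fun s t => by rw [R.x_add, map_mul])
    (K := Subgroup.centralizer {g}) (γ := ((k : F) ^ 2)⁻¹) (Subgroup.mem_centralizer_singleton_iff.2 h1)
    (Subgroup.mem_centralizer_singleton_iff.2 (by rwa [← map_mul]))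
    (gen_poly_pow hk two_pos (Or.inl le_rfl)) k2 (by simpa using k2) (fun t => by rw [h2, e1]) (fun t => by
      rw [e3, _root_.mul_inv_rev, ← mul_assoc, mul_assoc _ h, mul_assoc _ _ h⁻¹, h2, ← map_inv, ← map_mul, ← map_mul]
      nth_rw 1 [← mul_inv_cancel_left₀ (pow_ne_zero 2 k0) t, ← e1]
      congr 1; group)
    (by rw [e3]; exact Commute.mul_right (mul_inv_eq_iff_eq_mul.1 (by rw [h2]; congr 1; group)) (Commute.refl h))
  exact commute_of_top (sl2_top' _ p1 p2) y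

theorem rels_comm_sl2 [Fintype F] {G H : Type*} [Group G] [Group H] {π : H →* G} {ν : SL(2, F) →* H} {g : H}
    (h : ∀ y, Commute (π g) (π (ν y))) {k : Fˣ} (hk : ∀ u, u ∈ Subgroup.zpowers k) :
    Rels π (if Fintype.card F ≤ 3 then 2 else 1) fun (P : Type w) _ Φ => ∀ h : P, Commute h (Φ g) →
      (∀ y, h * Φ (ν y) * h⁻¹ = Φ (ν (hh upper lower (k : F) * y * (hh upper lower (k : F))⁻¹))) →
      ∀ y, Commute (Φ g) (Φ (ν y)) := by
  split_ifs with hF
  · exact (rels_commute_hom.{_, _, w} (exists_pair_SL' 1) h).imp le_rfl fun _ _ _ h _ _ _ => h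
  · exact (rels_commute.{_, _, w} (h (upper 1 * nn upper lower 1))).imp le_rfl fun _ _ Φ h3 h h1 h2 y =>
      (commute_sl2_of_pair (by omega) hk (Φ.comp ν) h1 h2 h3.symm y).symm

theorem exists_sl2_gen : ∃ (y : SL(2, F)) (k : ℕ), y ^ k = 1 ∧ (k : F) ≠ 0 ∧
    ∀ K : Subgroup SL(2, F), (∀ t, upper t ∈ K) → y ∈ K → K = ⊤ := by
  by_cases h : (2 : F) = 0
  · refine ⟨nn upper lower 1 * upper 1, 3, ?_, fun e => ?_, fun K h1 h2 =>
      sl2_top' K h1 ((mul_mem_cancel_right (h1 1)).1 h2)⟩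
    · ext i j; fin_cases i <;> fin_cases j <;> simp [nn, coe_upper, coe_lower, pow_succ]
    · exact one_ne_zero (α := F) (by push_cast at e; linear_combination e - h)
  · refine ⟨nn upper lower 1, 4, ?_, fun e => h (pow_eq_zero_iff two_ne_zero |>.1 ?_), sl2_top'⟩
    · ext i j; fin_cases i <;> fin_cases j <;> simp [nn, coe_upper, coe_lower, pow_succ]
    · push_cast at e; linear_combination e

theorem mem_of_prod_gen {μ ν : SL(2, F) →* P} (hc : ∀ x y, Commute (μ x) (ν y)) {K : Subgroup P}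
    (s1 : ∀ s u, u ≠ 0 → μ (upper s) ∈ K → μ (upper (u * s)) ∈ K)
    (s2 : ∀ s u, u ≠ 0 → ν (upper s) ∈ K → ν (upper (u * s)) ∈ K) {y : SL(2, F)} {k : ℕ} (h1 : y ^ k = 1)
    (h2 : (k : F) ≠ 0) (h3 : ∀ K : Subgroup SL(2, F), (∀ t, upper t ∈ K) → y ∈ K → K = ⊤)
    (g1 : μ (upper 1) * ν y ∈ K) (g2 : ν (upper 1) * μ y ∈ K) (x : SL(2, F)) : μ x ∈ K ∧ ν x ∈ K := by
  have key : ∀ {μ ν : SL(2, F) →* P}, (∀ x y, Commute (μ x) (ν y)) →
      (∀ s u, u ≠ 0 → μ (upper s) ∈ K → μ (upper (u * s)) ∈ K) → μ (upper 1) * ν y ∈ K →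
      (∀ t, μ (upper t) ∈ K) ∧ ν y ∈ K := fun {μ ν} hc s1 g1 => by
    have e : ∀ k : ℕ, (upper 1 : SL(2, F)) ^ k = upper (k : F) := fun k => by
      induction k with
      | zero => simp [sl2_rel.x_zero]
      | succ k ih => rw [pow_succ, ih, Nat.cast_succ, sl2_rel.x_add]
    have := pow_mem g1 k
    rw [(hc _ _).mul_pow, ← map_pow, ← map_pow, h1, map_one, mul_one, e] at this
    have h4 : ∀ t, μ (upper t) ∈ K := fun t => by
      by_cases ht : t = 0
      · simp [ht, sl2_rel.x_zero]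
      · simpa [h2] using s1 _ (t / k) (div_ne_zero ht h2) this
    exact ⟨h4, (mul_mem_cancel_left (h4 1)).1 g1⟩
  obtain ⟨a1, a2⟩ := key hc s1 g1
  obtain ⟨a3, a4⟩ := key (fun x y => (hc y x).symm) s2 g2
  exact ⟨(h3 (K.comap μ) a1 a4 ▸ Subgroup.mem_top x : x ∈ K.comap μ),
    (h3 (K.comap ν) a3 a2 ▸ Subgroup.mem_top x : x ∈ K.comap ν)⟩

variable {ι : Type*} [Fintype ι] [DecidableEq ι]

/-- `μ` is the standard embedding of `SL₂` on the coordinates `i`, `j` -/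
def IsEmb (μ : SL(2, F) →* SpecialLinearGroup ι F) {i j : ι} (h : i ≠ j) : Prop :=
  (∀ t, μ (upper t) = transvection h t) ∧ ∀ t, μ (lower t) = transvection h.symm t

theorem exists_isEmb {i j : ι} (h : i ≠ j) : ∃ μ : SL(2, F) →* SpecialLinearGroup ι F, IsEmb μ h := by
  obtain ⟨μ, hμ⟩ := exists_emb_SL' (F := F) (ι := ι) ⟨![i, j], by
    intro a b; fin_cases a <;> fin_cases b <;> simp [h, h.symm]⟩
  exact ⟨μ, fun t => by rw [upper_eq_tv, hμ]; rfl, fun t => by rw [lower_eq_tv, hμ]; rfl⟩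

variable {μ ν : SL(2, F) →* SpecialLinearGroup ι F} {i j k l : ι} {h : i ≠ j} {h' : k ≠ l}

theorem IsEmb.hh (m : IsEmb μ h) {s : F} (hs : s ≠ 0) : μ (hh upper lower s) = diag2n h s hs := by
  simp [SL2Hom.hh, nn, m.1, m.2, CL.SL.diag2n_decompose, mul_assoc]

theorem IsEmb.commute_of {f : SpecialLinearGroup ι F →* P} (m : IsEmb μ h) {g : P}
    (h1 : ∀ t, Commute (f (transvection h t)) g) (h2 : ∀ t, Commute (f (transvection h.symm t)) g) (x : SL(2, F)) :
    Commute (f (μ x)) g :=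
  commute_of_top (f := f.comp μ) (sl2_top _ (fun t => Subgroup.mem_centralizer_singleton_iff.2 (by simpa [m.1] using (h1 t).eq))
    fun t => Subgroup.mem_centralizer_singleton_iff.2 (by simpa [m.2] using (h2 t).eq)) x

theorem IsEmb.commute (m : IsEmb μ h) (m' : IsEmb ν h') (h1 : i ≠ k) (h2 : i ≠ l) (h3 : j ≠ k) (h4 : j ≠ l)
    (x y : SL(2, F)) : Commute (μ x) (ν y) :=
  m.commute_of (f := MonoidHom.id _)
    (fun _ => (m'.commute_of (f := MonoidHom.id _) (fun _ => tv_commute h' h h3.symm h2.symm _ _)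
      (fun _ => tv_commute h'.symm h h4.symm h1.symm _ _) y).symm)
    (fun _ => (m'.commute_of (f := MonoidHom.id _) (fun _ => tv_commute h' h.symm h1.symm h4.symm _ _)
      (fun _ => tv_commute h'.symm h.symm h2.symm h3.symm _ _) y).symm) x

theorem IsEmb.commute_diag (m : IsEmb μ h) {g : SpecialLinearGroup ι F} {d : ι → F} (hg : IsMono g 1 d)
    (e : d i = d j) (x : SL(2, F)) : Commute g (μ x) := by
  have := hg.ne_zero j
  refine (m.commute_of (f := MonoidHom.id _) (fun t => ?_) (fun t => ?_) x).symm <;>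
    refine (mul_inv_eq_iff_eq_mul.1 ?_).symm
  · rw [MonoidHom.id_apply, hg.conj_tv' h h rfl rfl, e, mul_comm _ t, mul_inv_cancel_right₀ this]
  · rw [MonoidHom.id_apply, hg.conj_tv' h.symm h.symm rfl rfl, e, mul_comm _ t, mul_inv_cancel_right₀ this]

theorem IsEmb.conj_hh (m : IsEmb μ h) {g : SpecialLinearGroup ι F} {d : ι → F} (hg : IsMono g 1 d) {s : F}
    (hs : s ≠ 0) (e : d i = s ^ 2 * d j) (x : SL(2, F)) :
    g * μ x * g⁻¹ = μ (SL2Hom.hh upper lower s * x * (SL2Hom.hh upper lower s)⁻¹) := by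
  have := (m.commute_diag ((isMono_diag2n h hs).inv.mul hg) (by simp [h.symm, e]; field_simp) x).eq
  rw [map_mul, map_mul, map_inv, m.hh hs, mul_inv_eq_iff_eq_mul, mul_assoc, mul_assoc, ← this]
  group

theorem IsEmb.exists_conj [Finite F] (m : IsEmb μ h) {g : SpecialLinearGroup ι F} {d : ι → F} (hg : IsMono g 1 d)
    (x : SL(2, F)) : ∃ y, g * μ x * g⁻¹ = μ y := by
  obtain ⟨ω, -, h1, h2, -⟩ := exists_hom_of_finite (rel_scale (sl2_rel (F := F))
    (mul_ne_zero (hg.ne_zero i) (inv_ne_zero (hg.ne_zero j))))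
  refine ⟨ω x, DFunLike.congr_fun (sl2_hom_ext (f := (MulAut.conj g).toMonoidHom.comp μ) (g := μ.comp ω)
    (fun t => ?_) fun t => ?_) x⟩
  · simp [h1, m.1, hg.conj_tv' h h rfl rfl, mul_right_comm]
  · simp [h2, m.2, hg.conj_tv' h.symm h.symm rfl rfl, mul_right_comm]

theorem commute_of_spread [Finite F] {a b c d : ι} (hab : a ≠ b) (hac : a ≠ c) (had : a ≠ d) (hbc : b ≠ c)
    (hbd : b ≠ d) (hcd : c ≠ d) (A : SpecialLinearGroup ι F →* P) {τ : P}
    {μ₀ μ₁ μ₂ : SL(2, F) →* SpecialLinearGroup ι F} (m0 : IsEmb μ₀ hac.symm) (m1 : IsEmb μ₁ hab) (m2 : IsEmb μ₂ hcd)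
    (r1 : ∀ s hs, Commute τ (A (diag2n hbc s hs))) {y : SL(2, F)} {k : ℕ} (h1 : y ^ k = 1)
    (h2 : (k : F) ≠ 0) (h3 : ∀ K : Subgroup SL(2, F), (∀ t, upper t ∈ K) → y ∈ K → K = ⊤)
    (g1 : ∀ z, Commute (A (μ₁ (upper 1) * μ₂ y)) (τ * A (μ₀ z) * τ⁻¹))
    (g2 : ∀ z, Commute (A (μ₂ (upper 1) * μ₁ y)) (τ * A (μ₀ z) * τ⁻¹)) (x z : SL(2, F)) :
    Commute (A (μ₁ x)) (τ * A (μ₀ z) * τ⁻¹) ∧ Commute (A (μ₂ x)) (τ * A (μ₀ z) * τ⁻¹) := by
  let K := (Subgroup.centralizer (Set.range fun z => τ * A (μ₀ z) * τ⁻¹)).comap A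
  have hK : ∀ {g}, g ∈ K ↔ ∀ z, Commute (A g) (τ * A (μ₀ z) * τ⁻¹) := by
    simp [K, Subgroup.mem_centralizer_iff, commute_iff_eq, eq_comm]
  have key : ∀ g ∈ K, ∀ u (hu : u ≠ 0), (diag2n hbc u hu)⁻¹ * g * diag2n hbc u hu ∈ K := fun g hg u hu =>
    hK.2 fun z => by
      obtain ⟨z', e⟩ := m0.exists_conj (isMono_diag2n hbc hu) z
      have := (hK.1 hg z').conj (A (diag2n hbc u hu))⁻¹
      rw [← e, map_mul, map_mul, map_inv, ← mul_assoc, ← mul_assoc, ← mul_assoc, ← mul_assoc,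
        mul_assoc _⁻¹ τ, (r1 u hu).eq, mul_assoc _ _⁻¹ τ⁻¹, ← (r1 u hu).inv_inv.eq] at this
      simpa [mul_assoc] using this
  have := mem_of_prod_gen (m1.commute m2 hac had hbc hbd) (K := K) (fun s u hu hs => ?_) (fun s u hu hs => ?_)
    h1 h2 h3 (hK.2 g1) (hK.2 g2) x
  · exact ⟨hK.1 this.1 z, hK.1 this.2 z⟩
  · have := key _ hs u hu
    nth_rw 2 [← inv_inv (diag2n hbc u hu)] at this
    rw [m1.1, (isMono_diag2n hbc hu).inv.conj_tv' hab hab rfl rfl] at this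
    simpa [m1.1, hab, hac, mul_comm] using this
  · have := key _ hs u hu
    nth_rw 2 [← inv_inv (diag2n hbc u hu)] at this
    rw [m2.1, (isMono_diag2n hbc hu).inv.conj_tv' hcd hcd rfl rfl] at this
    simpa [m2.1, hbc.symm, hbd.symm, hcd.symm] using this

end CL.KSG
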