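import Cfsg.Agent.KSG.ShortPres
import Cfsg.Agent.KSG.AltShort
import Cfsg.Agent.PERM.SmallPres

/-!
Transitivity and generation facts for alternating groups used in bounded presentations.
-/

set_option autoImplicit false
set_option linter.unusedSectionVars false

namespace CL.KSG

open Equiv Equiv.Perm

variable {ι : Type*} [Fintype ι] [DecidableEq ι]

theorem exists_alt_map {κ : Type*} [Finite κ] {f g : κ → ι} (hf : Function.Injective f)
    (hg : Function.Injective g) {a b : ι} (hab : a ≠ b) : ∃ γ : alternatingGroup ι,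
      (∀ x, (γ : Perm ι) (f x) = g x) ∨ ∀ x, (γ : Perm ι) (swap a b (f x)) = g x := by
  obtain ⟨σ, hσ⟩ := Perm.exists_extending_pair f g hf hg
  rcases Int.units_eq_one_or (sign σ) with h | h
  · exact ⟨⟨σ, mem_alternatingGroup.2 h⟩, Or.inl hσ⟩
  · exact ⟨⟨σ * swap a b, mem_alternatingGroup.2 (by simp [h, hab])⟩, Or.inr fun x => by simp [hσ]⟩

theorem exists_gens_perm (h : 2 ≤ Fintype.card ι) : ∃ G : List (Perm ι),
    G.length = (if Fintype.card ι = 2 then 1 else 2) ∧
      ∀ K : Subgroup (Perm ι), (∀ g ∈ G, g ∈ K) → K = ⊤ := by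
  split_ifs with h2
  · have : IsCyclic (Perm ι) := isCyclic_of_prime_card (p := 2) (by simp [Fintype.card_perm, h2])
    obtain ⟨g, hg⟩ := IsCyclic.exists_generator (α := Perm ι)
    exact ⟨[g], rfl, fun K hK => eq_top_iff.2 fun x _ =>
      Subgroup.zpowers_le.2 (hK g (by simp)) (hg x)⟩
  · obtain ⟨σ, hσ⟩ := (exists_with_cycleType_iff ι (m := {Fintype.card ι})).2 (by simpa using h)
    have h1 : σ.IsCycle := card_cycleType_eq_one.1 (by simp [hσ])
    have h3 : σ.support = Finset.univ := Finset.eq_univ_of_card _ (by simp [← sum_cycleType, hσ])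
    obtain ⟨x⟩ : Nonempty ι := Fintype.card_pos_iff.1 (by omega)
    refine ⟨[σ, swap x (σ x)], rfl, fun K hK => ?_⟩
    rw [eq_top_iff, ← closure_cycle_adjacent_swap h1 h3 x, Subgroup.closure_le]
    exact fun g hg => hK g (by simpa using hg)

theorem exists_gens_stab (h : 4 ≤ Fintype.card ι) {a b : ι} (hab : a ≠ b) :
    ∃ G : List (alternatingGroup ι), G.length = (if Fintype.card ι = 4 then 1 else 2) ∧
      (∀ g ∈ G, ((g : Perm ι) a = a ∧ (g : Perm ι) b = b) ∨ ((g : Perm ι) a = b ∧ (g : Perm ι) b = a)) ∧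
      ∀ K : Subgroup (alternatingGroup ι), (∀ g ∈ G, g ∈ K) → ∀ g : alternatingGroup ι,
        ((g : Perm ι) a = a ∧ (g : Perm ι) b = b) ∨ ((g : Perm ι) a = b ∧ (g : Perm ι) b = a) →
          g ∈ K := by
  let p : ι → Prop := fun x => x ≠ a ∧ x ≠ b
  have hc : Fintype.card (Subtype p) + 2 = Fintype.card ι := by
    rw [Fintype.card_subtype, show Finset.univ.filter p = Finset.univ \ {a, b} by ext; simp [p],
      Finset.card_univ_sdiff, Finset.card_pair hab]
    omega
  have pa : ∀ σ : Perm (Subtype p), ofSubtype σ a = a := fun σ =>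
    ofSubtype_apply_of_not_mem σ (by simp [p])
  have pb : ∀ σ : Perm (Subtype p), ofSubtype σ b = b := fun σ =>
    ofSubtype_apply_of_not_mem σ (by simp [p])
  have cm : ∀ σ : Perm (Subtype p), Commute (swap a b) (ofSubtype σ) := fun σ => by
    rw [Commute, SemiconjBy, mul_swap_eq_swap_mul, pa, pb]
  let θ : Perm (Subtype p) →* alternatingGroup ι := MonoidHom.mk'
    (fun σ => ⟨ofSubtype σ * if sign σ = 1 then 1 else swap a b, mem_alternatingGroup.2 (by
      rcases Int.units_eq_one_or (sign σ) with h | h <;> simp [h, hab])⟩) fun σ τ => Subtype.ext (by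
      rcases Int.units_eq_one_or (sign σ) with h | h <;> rcases Int.units_eq_one_or (sign τ) with h' | h' <;>
        simp [h, h', mul_assoc, (cm τ).eq, (cm τ).left_comm])
  obtain ⟨G, h1, h2⟩ := exists_gens_perm (ι := Subtype p) (by omega)
  refine ⟨G.map θ, by simp [h1, ← hc], ?_, fun K hK g hg => ?_⟩
  · simp only [List.forall_mem_map]
    intro σ _
    by_cases h : sign σ = 1 <;> simp [θ, h, pa, pb]
  have h3 : ∀ σ, θ σ ∈ K := fun σ => (h2 (K.comap θ) (fun g hg => hK _ (List.mem_map_of_mem hg)) ▸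
    Subgroup.mem_top σ : σ ∈ K.comap θ)
  have h4 : ∀ f : Perm ι, f a = a → f b = b → ∃ σ : Perm (Subtype p), ofSubtype σ = f := fun f h1 h2 =>
    ⟨_, ofSubtype_subtypePerm (fun x => by
      have := f.injective; grind) fun x hx => ⟨by grind, by grind⟩⟩
  have h5 := mem_alternatingGroup.1 g.2
  rcases hg with ⟨e1, e2⟩ | ⟨e1, e2⟩
  · obtain ⟨σ, hσ⟩ := h4 g e1 e2
    have : sign σ = 1 := by rw [← sign_ofSubtype, hσ, h5]
    convert h3 σ using 1
    exact Subtype.ext (by simp [θ, this, hσ])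
  · obtain ⟨σ, hσ⟩ := h4 (g * swap a b) (by simpa) (by simpa)
    have : sign σ = -1 := by rw [← sign_ofSubtype, hσ]; simp [h5, hab]
    convert h3 σ using 1
    exact Subtype.ext (by simp [θ, this, hσ])

theorem alt_top_of_conj {a b c : ι} (hab : a ≠ b) (hac : a ≠ c) (hbc : b ≠ c)
    {K : Subgroup (alternatingGroup ι)} {g : alternatingGroup ι} (hg : (g : Perm ι) = swap a b * swap a c)
    (hK : ∀ γ, γ * g * γ⁻¹ ∈ K) : K = ⊤ := by
  have : alternatingGroup ι ≤ K.map (alternatingGroup ι).subtype := by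
    refine closure_three_cycles_eq_alternating.ge.trans ((Subgroup.closure_le _).2 fun σ hσ => ?_)
    obtain ⟨x, hx⟩ := hσ.isCycle.nonempty_support
    have h1 := hσ.nodup_iff_mem_support.2 hx
    have h2 := hσ.eq_swap_mul_swap_iff_mem_support.2 hx
    rw [swap_comm x] at h2
    obtain ⟨γ, h | h⟩ := exists_alt_map (f := ![a, b, c]) (g := ![σ x, x, σ (σ x)])
      (by intro i j; fin_cases i <;> fin_cases j <;> simp <;> grind)
      (by intro i j; fin_cases i <;> fin_cases j <;> simp <;> grind) hbc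
    · refine ⟨_, hK γ, ?_⟩
      have e0 := h 0; have e1 := h 1; have e2 := h 2
      simp only [Matrix.cons_val] at e0 e1 e2
      rw [h2, ← e2, ← e0]
      nth_rw 1 [← e1]
      simp [hg, swap_apply_apply, mul_assoc]
    · refine ⟨_, inv_mem (hK γ), ?_⟩
      have e0 := h 0; have e1 := h 1; have e2 := h 2
      simp only [Matrix.cons_val, swap_apply_of_ne_of_ne hab hac, swap_apply_left,
        swap_apply_right] at e0 e1 e2
      rw [h2, ← e2, ← e0]
      nth_rw 1 [← e1]
      simp [hg, swap_apply_apply, mul_assoc]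
  refine eq_top_iff.2 fun x _ => ?_
  obtain ⟨y, hy, e⟩ := this x.2
  rwa [← Subtype.ext e]

theorem hasPres_A4 : HasPres (alternatingGroup (Fin 4)) 2 4 := by
  obtain ⟨R, h1, h2⟩ := exists_pres_carmichael 2
  exact ⟨_, R, h1, h2⟩

theorem hasPres_A5 : HasPres (alternatingGroup (Fin 5)) 2 3 := by
  refine (hasPres_free 2).quot (FreeGroup.lift ![CL.TC.a5x, CL.TC.a5y]) ?_
    [.of 0 ^ 3, .of 1 ^ 5, (.of 0 * .of 1) ^ 2] ?_ fun J _ φ hR => ?_
  · rw [← MonoidHom.range_eq_top, FreeGroup.range_lift_eq_closure, ← CL.TC.a5_gen]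
    congr 1; ext; simp [or_comm]
  · simp [CL.TC.a5x_pow, CL.TC.a5y_pow, CL.TC.a5xy_pow]
  simp only [List.mem_cons, List.not_mem_nil, or_false, forall_eq_or_imp, forall_eq, map_mul,
    map_pow] at hR
  obtain ⟨ψ, h1, h2⟩ := CL.TC.exists_hom_A5 hR.1 hR.2.1 hR.2.2
  refine ⟨ψ, fun x => DFunLike.congr_fun (?_ : ψ.comp _ = φ) x⟩
  ext i; fin_cases i <;> simp [h1, h2]

theorem hasPres_alt {n : ℕ} (hn : 5 ≤ n) : HasPres (alternatingGroup (Fin n)) 3 7 :=
  (hasShortPres hn).2.1

end CL.KSG
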