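import Cfsg.Agent.KSG.ShortSL3
import Cfsg.Agent.KSG.ShortPerm
import Cfsg.Agent.KSG.ShortGenSL
import Cfsg.Agent.CHEV.CTMat

/-!
Bounded presentations of `SL_n(F)` for finite fields `F`.
-/

set_option autoImplicit false
set_option linter.unusedSectionVars false

namespace CL.KSG

open Matrix hiding transvection
open Monoid Matrix.SpecialLinearGroup Equiv CL.SL2Hom
open scoped MatrixGroups commutatorElement

variable {F J : Type*} [Field F] [Group J]

theorem isMono_tri {ι : Type*} [Fintype ι] [DecidableEq ι] {a b c : ι} (hab : a ≠ b) (hac : a ≠ c)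
    (hbc : b ≠ c) : IsMono (F := F) (transvection hab 1 * transvection hab.symm (-1⁻¹) * transvection hab 1 *
      (transvection hac (-1) * transvection hac.symm (-(-1)⁻¹) * transvection hac (-1)))
        (swap a b * swap a c) 1 :=
  ((isMono_w hab one_ne_zero).mul (isMono_w hac (neg_ne_zero.2 one_ne_zero))).congr rfl fun k => by
    simp only [swap_apply_def, Pi.one_apply]; grind

theorem commute_of_local [Fintype F] {ι : Type*} {X : ι → ι → F → J}
    (loc : ∀ i j k, i ≠ j → i ≠ k → j ≠ k → ∃ ψ : SL(3, F) →* J,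
      ∀ a b (h : a ≠ b) t, ψ (transvection h t) = X (![i, j, k] a) (![i, j, k] b) t)
    {i j k l : ι} (hij : i ≠ j) (hik : i ≠ k) (hil : i ≠ l) (hjk : j ≠ k) (hjl : j ≠ l) (hkl : k ≠ l)
    {s : F} (h : Commute (X k l s) (X i j 1)) (t : F) : Commute (X k l s) (X i j t) := by
  obtain ⟨ζ, hζ⟩ := IsCyclic.exists_generator (α := Fˣ)
  have h0 := ζ.ne_zero
  let H : ι → ι → J := fun i j => X i j ζ * X j i (-(ζ : F)⁻¹) * X i j ζ * X i j (-1) * X j i 1 * X i j (-1)
  have loc' : ∀ i j k, i ≠ j → i ≠ k → j ≠ k → ∃ ψ : SL(3, F) →* J,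
      (∀ a b (h : a ≠ b) t, ψ (transvection h t) = X (![i, j, k] a) (![i, j, k] b) t) ∧
      ∀ a b (h : a ≠ b), ψ (diag2n h ζ h0) = H (![i, j, k] a) (![i, j, k] b) := fun i j k h1 h2 h3 => by
    obtain ⟨ψ, hψ⟩ := loc i j k h1 h2 h3
    exact ⟨ψ, hψ, fun a b h => by simp only [CL.SL.diag2n_decompose, map_mul, hψ, H]⟩
  have n01 : (0 : Fin 3) ≠ 1 := by decide
  have n02 : (0 : Fin 3) ≠ 2 := by decide
  have n12 : (1 : Fin 3) ≠ 2 := by decide
  obtain ⟨ψ, p1, p2⟩ := loc' i j k hij hik hjk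
  obtain ⟨ψ', q1, q2⟩ := loc' i k l hik hil hkl
  obtain ⟨ψ'', r1, r2⟩ := loc' k j l hjk.symm hkl hjl
  have e1 : H i j = H i k * H k j := by
    have := congrArg ψ ((isMono_diag2n n01 h0).ext ((isMono_diag2n n02 h0).mul
      (isMono_diag2n n12.symm h0)) rfl fun b => by fin_cases b <;> simp)
    rwa [map_mul, p2, p2, p2] at this
  have e2 := congrArg ψ' ((isMono_diag2n n01 h0).conj_tv' n12 n12 rfl rfl (ζ * s))
  have e3 := congrArg ψ'' ((isMono_diag2n n01 h0).conj_tv' n02 n02 rfl rfl s)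
  simp only [map_mul, map_inv, q1, q2, r1, r2] at e2 e3
  refine commute_spread (y := X i j) (fun s t => ?_) (gen_poly_pow hζ two_pos (Or.inl le_rfl))
    (g := H i j) ?_ (fun t => ?_) one_ne_zero h t
  · simpa [p1] using congrArg ψ (transvection_add n01 s t)
  · simp at e2 e3
    nth_rw 2 [← e2]
    rw [e1, ← e3]; group
  · have := congrArg ψ ((isMono_diag2n n01 h0).conj_tv' n01 n01 rfl rfl t)
    simp only [map_mul, map_inv, p1, p2] at this
    simpa [sq, mul_assoc, mul_comm t] using this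

theorem sln_core [Fintype F] {n : ℕ} (e : Fin 4 ↪ Fin n) (α : SL(3, F) →* J)
    (μ : alternatingGroup (Fin n) →* J) {c : alternatingGroup (Fin n)}
    (hc : (c : Perm (Fin n)) = swap (e 0) (e 1) * swap (e 0) (e 2)) {w : SL(3, F)}
    (hw : IsMono w (swap 0 1 * swap 0 2) 1) (r1 : μ c = α w)
    (r2 : ∀ γ : alternatingGroup (Fin n), (γ : Perm (Fin n)) (e 0) = e 0 → (γ : Perm (Fin n)) (e 1) = e 1 →
      ∀ t, μ γ * α (transvection Fin.zero_ne_one t) * (μ γ)⁻¹ = α (transvection Fin.zero_ne_one t))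
    (r2' : ∀ γ : alternatingGroup (Fin n), (γ : Perm (Fin n)) (e 0) = e 1 → (γ : Perm (Fin n)) (e 1) = e 0 →
      ∀ t, μ γ * α (transvection Fin.zero_ne_one t) * (μ γ)⁻¹ = α (transvection Fin.zero_ne_one.symm t))
    (r3 : ∀ f : Fin 4 → Fin n, Function.Injective f → ∃ γ π : alternatingGroup (Fin n),
      (γ : Perm (Fin n)) (e 0) = f 0 ∧ (γ : Perm (Fin n)) (e 1) = f 1 ∧
      (γ * π : Perm (Fin n)) (e 0) = f 2 ∧ (γ * π : Perm (Fin n)) (e 1) = f 3 ∧
      Commute (α (transvection Fin.zero_ne_one 1)) (μ π * α (transvection Fin.zero_ne_one 1) * (μ π)⁻¹)) :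
    ∃ ψ : SpecialLinearGroup (Fin n) F →* J, (∀ g, α g ∈ ψ.range) ∧ ∀ γ, μ γ ∈ ψ.range := by
  have ne : ∀ {a b : Fin 4}, a ≠ b → e a ≠ e b := fun h => e.injective.ne h
  have htr : ∀ i j, i ≠ j → ∃ γ : alternatingGroup (Fin n), (γ : Perm (Fin n)) (e 0) = i ∧
      (γ : Perm (Fin n)) (e 1) = j := fun i j h => by
    obtain ⟨γ, h | h⟩ := exists_alt_map (f := ![e 0, e 1]) (g := ![i, j])
      (by intro i j; fin_cases i <;> fin_cases j <;> simp)
      (by intro i j; fin_cases i <;> fin_cases j <;> simp [h, h.symm]) (ne (a := 2) (b := 3) (by decide))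
    · exact ⟨γ, h 0, h 1⟩
    · exact ⟨γ, by simpa [swap_apply_def] using h 0, by simpa [swap_apply_def] using h 1⟩
  obtain ⟨X, X0, hX⟩ := exists_equivariant (alternatingGroup (Fin n)).subtype μ
    (fun t => α (transvection Fin.zero_ne_one t)) htr (ne (by decide)) r2
  simp only [Subgroup.coe_subtype] at X0 hX
  have hα : ∀ (a b : Fin 3) (h : a ≠ b) t, α (transvection h t) = X (e a.castSucc) (e b.castSucc) t := by
    have step : ∀ (a b : Fin 3) (h : a ≠ b), (∀ t, α (transvection h t) = X (e a.castSucc) (e b.castSucc) t) →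
        ∀ t, α (transvection ((swap 0 1 * swap 0 2 : Perm (Fin 3)).injective.ne h) t) =
          X (e ((swap 0 1 * swap 0 2 : Perm (Fin 3)) a).castSucc)
            (e ((swap 0 1 * swap 0 2 : Perm (Fin 3)) b).castSucc) t := fun a b h ih t => by
      have e1 : ∀ a : Fin 3, e ((swap 0 1 * swap 0 2 : Perm (Fin 3)) a).castSucc =
          (c : Perm (Fin n)) (e a.castSucc) := fun a => by
        rw [hc, Perm.mul_apply, Perm.mul_apply, e.swap_apply, e.swap_apply]
        congr 1; revert a; decide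
      have := hw.conj_tv h t
      simp only [Pi.one_apply, inv_one, mul_one, one_mul] at this
      rw [e1, e1, hX _ _ _ (ne (by simpa using h)), ← ih, r1, ← this, map_mul, map_mul, map_inv]
    have s01 : ∀ t, α (transvection Fin.zero_ne_one t) = X (e 0) (e 1) t := fun t => by
      simpa using (X0 1 t).symm
    have s10 : ∀ t, α (transvection Fin.zero_ne_one.symm t) = X (e 1) (e 0) t := fun t => by
      obtain ⟨γ, h1, h2⟩ := htr (e 1) (e 0) (ne (by decide))
      rw [← r2' γ h1 h2, ← X0, h1, h2]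
    have s20 := step 0 1 _ s01
    have s02 := step 1 0 _ s10
    intro a b h
    fin_cases a <;> fin_cases b <;> first | exact (h rfl).elim | skip
    exacts [s01, s02, s10, step 2 0 _ s20, s20, step 0 2 _ s02]
  have loc : ∀ i j k, i ≠ j → i ≠ k → j ≠ k → ∃ ψ : SL(3, F) →* J,
      ∀ a b (h : a ≠ b) t, ψ (transvection h t) = X (![i, j, k] a) (![i, j, k] b) t := by
    intro i j k h1 h2 h3
    obtain ⟨γ, σ, h⟩ : ∃ (γ : alternatingGroup (Fin n)) (σ : Perm (Fin 3)),
        ∀ a, (γ : Perm (Fin n)) (e (σ a).castSucc) = ![i, j, k] a := by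
      obtain ⟨γ, h | h⟩ := exists_alt_map (f := fun a : Fin 3 => e a.castSucc) (g := ![i, j, k])
        (e.injective.comp (Fin.castSucc_injective _))
        (by intro i j; fin_cases i <;> fin_cases j <;> simp <;> grind) (ne (a := 0) (b := 1) (by decide))
      · exact ⟨γ, 1, h⟩
      · refine ⟨γ, swap 0 1, fun a => ?_⟩
        rw [← h, e.swap_apply]; congr 2; revert a; decide
    refine ⟨(MulAut.conj (μ γ)).toMonoidHom.comp (α.comp (MulAut.conj (sgnSL F σ)).toMonoidHom),
      fun a b hab t => ?_⟩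
    have := (isMono_sgnSL F σ).conj_tv hab t
    rw [mul_comm _ t, mul_inv_cancel_right₀ ((isMono_sgnSL F σ).ne_zero 0)] at this
    simp only [MonoidHom.comp_apply, MulEquiv.coe_toMonoidHom, MulAut.conj_apply, this, hα, ← h]
    rw [hX _ _ _ (ne (by simpa using hab))]
  have hadd : ∀ i j, i ≠ j → ∀ s t, X i j (s + t) = X i j s * X i j t := fun i j h s t => by
    obtain ⟨γ, rfl, rfl⟩ := htr i j h
    simp only [X0, transvection_add, map_mul]; group
  have n01 : (0 : Fin 3) ≠ 1 := by decide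
  have n02 : (0 : Fin 3) ≠ 2 := by decide
  have n12 : (1 : Fin 3) ≠ 2 := by decide
  obtain ⟨ψ, hψ⟩ := CL.Chev.Cl.exists_hom_SL (m := n)
    (by simpa using (Fintype.card_le_of_embedding e).trans' (by simp : 3 ≤ _)) X hadd
    (fun i j k l h1 h2 h3 h4 s t => by
      by_cases h5 : i = k
      · subst h5
        by_cases h6 : j = l
        · exact h6 ▸ addx_comm (hadd i j h1) _ _
        obtain ⟨χ, hχ⟩ := loc i j l h1 h3 h6
        simpa [hχ] using (CL.Chev.Cl.tv_commute n01 n02 n02 n01.symm s t).map χ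
      by_cases h6 : j = l
      · subst h6
        obtain ⟨χ, hχ⟩ := loc i k j h5 h1 h2
        simpa [hχ] using (CL.Chev.Cl.tv_commute n02 n12 n02 n12.symm s t).map χ
      obtain ⟨γ, π, e1, e2, e3, e4, e5⟩ := r3 ![i, j, k, l]
        (by intro i j; fin_cases i <;> fin_cases j <;> simp <;> grind)
      refine commute_of_local loc h2 (Ne.symm h5) h4.symm h3.symm (Ne.symm h6) h1
        (commute_of_local loc h1 h5 h3 h4 h6 h2 (Commute.symm ?_) s).symm t
      have e6 := X0 γ 1
      have e7 := X0 (γ * π) 1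
      rw [e1, e2] at e6
      rw [Subgroup.coe_mul, e3, e4, map_mul] at e7
      simp only [Matrix.cons_val] at e6 e7
      rw [e6, e7]
      convert e5.conj (μ γ) using 1
      group)
    (fun i j l h1 h2 h3 s t => by
      obtain ⟨χ, hχ⟩ := loc i j l h1 h3 h2
      simpa [hχ] using congrArg χ (CL.SL.commutator_transvection n02 n01 n12 s t))
  have m1 : ∀ g, α g ∈ ψ.range := fun g => (CL.SL.eq_top_of_transvection_mem (ψ.range.comap α)
    (fun a b h t => ⟨_, (hψ _ _ (ne (by simpa using h)) t).trans (hα a b h t).symm⟩) ▸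
      Subgroup.mem_top g : g ∈ ψ.range.comap α)
  refine ⟨ψ, m1, fun γ => ?_⟩
  refine (alt_top_of_conj (ne (by decide)) (ne (by decide)) (ne (by decide)) (K := ψ.range.comap μ) hc
    (fun γ => ?_) ▸ Subgroup.mem_top γ : γ ∈ ψ.range.comap μ)
  rw [Subgroup.mem_comap, map_mul, map_mul, map_inv, r1]
  exact conj_range_SL ψ (fun i j h s => by
    rw [hψ, ← hX _ _ _ h]; exact ⟨_, hψ _ _ ((γ : Perm (Fin n)).injective.ne h) s⟩) (m1 w)

theorem i1_upper (t : F) : CL.Chev.CTM.i1 (upper t) = transvection Fin.zero_ne_one t := by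
  ext i j
  fin_cases i <;> fin_cases j <;> simp [CL.Chev.CTM.coe_i1_upper, transvection_coe]

theorem i1_lower (t : F) : CL.Chev.CTM.i1 (lower t) = transvection Fin.zero_ne_one.symm t := by
  ext i j
  fin_cases i <;> fin_cases j <;> simp [CL.Chev.CTM.coe_i1_lower, transvection_coe]

theorem exists_emb_SL [Finite F] {m : ℕ} (hm : 3 ≤ m) {ι : Type*} [Fintype ι] [DecidableEq ι]
    (e : Fin m ↪ ι) : ∃ α : SpecialLinearGroup (Fin m) F →* SpecialLinearGroup ι F,
      ∀ i j (h : i ≠ j) t, α (transvection h t) = transvection (e.injective.ne h) t := by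
  obtain ⟨α, h⟩ := CL.Chev.Cl.exists_hom_SL hm (J := SpecialLinearGroup ι F)
    (fun i j t => if h : i ≠ j then transvection (e.injective.ne h) t else 1)
    (fun i j h s t => by simp only [dif_pos h, transvection_add])
    (fun i j k l h1 h2 h3 h4 s t => by
      simp only [dif_pos h1, dif_pos h2]
      exact CL.Chev.Cl.tv_commute _ _ (e.injective.ne h3) (e.injective.ne h4) _ _)
    (fun i j l h1 h2 h3 s t => by
      simp only [dif_pos h1, dif_pos h2, dif_pos h3, CL.SL.commutator_transvection (e.injective.ne h3)])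
  exact ⟨α, fun i j hij t => by rw [h, dif_pos hij]⟩

theorem hasPres_SL_of [Fintype F] {n r d s : ℕ} (e : Fin 4 ↪ Fin n) (h3 : HasPres SL(3, F) 4 r)
    (hA : HasPres (alternatingGroup (Fin n)) d s) (P : List (alternatingGroup (Fin n)))
    (hP : ∀ π ∈ P, e 0 ≠ (π : Perm (Fin n)) (e 1) ∧ e 1 ≠ (π : Perm (Fin n)) (e 0))
    (hP' : ∀ f : Fin 4 → Fin n, Function.Injective f → ∃ γ : alternatingGroup (Fin n), ∃ π ∈ P,
      (γ : Perm (Fin n)) (e 0) = f 0 ∧ (γ : Perm (Fin n)) (e 1) = f 1 ∧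
      (γ * π : Perm (Fin n)) (e 0) = f 2 ∧ (γ * π : Perm (Fin n)) (e 1) = f 3) :
    HasPres (SpecialLinearGroup (Fin n) F) (4 + d) (r + s + ((if n = 4 then 3 else 5) + P.length)) := by
  have ne : ∀ {a b : Fin 4}, a ≠ b → e a ≠ e b := fun h => e.injective.ne h
  obtain ⟨α, hα⟩ := exists_emb_SL (F := F) le_rfl (Fin.castSuccEmb.trans e)
  obtain ⟨G, g1, g2, g3⟩ := exists_gens_stab (Fintype.card_le_of_embedding e) (ne Fin.zero_ne_one)
  obtain ⟨u, v, huv⟩ := exists_pair_SL (F := F) (n := 0)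
  have n01 : (0 : Fin 3) ≠ 1 := by decide
  have n02 : (0 : Fin 3) ≠ 2 := by decide
  have n12 : (1 : Fin 3) ≠ 2 := by decide
  let c : alternatingGroup (Fin n) := ⟨swap (e 0) (e 1) * swap (e 0) (e 2),
    Perm.mem_alternatingGroup.2 (by simp)⟩
  let w : SL(3, F) := transvection n01 1 * transvection n01.symm (-1⁻¹) * transvection n01 1 *
      (transvection n02 (-1) * transvection n02.symm (-(-1)⁻¹) * transvection n02 (-1))
  let σ : alternatingGroup (Fin n) → SL(3, F) := fun g =>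
    sgnSL F (if (g : Perm (Fin n)) (e 0) = e 0 then 1 else swap 0 1)
  have σ1 : ∀ g : alternatingGroup (Fin n), (g : Perm (Fin n)) (e 0) = e 0 → σ g = 1 := fun g h => by
    simp [σ, h]
  have σ2 : ∀ g : alternatingGroup (Fin n), (g : Perm (Fin n)) (e 0) = e 1 → ∀ t,
      σ g * transvection n01 t * (σ g)⁻¹ = transvection n01.symm t ∧
      σ g * transvection n01.symm t * (σ g)⁻¹ = transvection n01 t := fun g h t => by
    simp only [σ, h, if_neg (ne Fin.zero_ne_one).symm]
    rw [(isMono_sgnSL F _).conj_tv' n01 n01.symm rfl rfl, (isMono_sgnSL F _).conj_tv' n01.symm n01 rfl rfl]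
    simp
  have h01 : ∀ t, α (transvection n01 t) = transvection (ne Fin.zero_ne_one) t := hα _ _ _
  have h10 : ∀ t, α (transvection n01.symm t) = transvection (ne Fin.zero_ne_one).symm t := hα _ _ _
  let A : SL(3, F) →* Coprod SL(3, F) (alternatingGroup (Fin n)) := Coprod.inl
  let M : alternatingGroup (Fin n) →* Coprod SL(3, F) (alternatingGroup (Fin n)) := Coprod.inr
  have := (h3.coprod hA).quot_fin (Coprod.lift α (altSL F)) ?_
    (M c * (A w)⁻¹ :: (G.flatMap fun g => [u, v].map fun a => M g * A (CL.Chev.CTM.i1 a) * (M g)⁻¹ *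
      (A (σ g * CL.Chev.CTM.i1 a * (σ g)⁻¹))⁻¹) ++
      P.map fun π => ⁅A (transvection n01 1), M π * A (transvection n01 1) * (M π)⁻¹⁆) ?_
    fun J _ φ hφ hR => ?_
  · refine this.mono (by simp [List.length_flatMap, g1]; split_ifs <;> omega)
  · rw [← MonoidHom.range_eq_top]
    refine CL.SL.eq_top_of_transvection_mem _ fun i j h t => ?_
    obtain ⟨γ, h1, h2⟩ : ∃ γ : alternatingGroup (Fin n), (γ : Perm (Fin n)) (e 0) = i ∧
        (γ : Perm (Fin n)) (e 1) = j := by
      obtain ⟨γ, h | h⟩ := exists_alt_map (f := ![e 0, e 1]) (g := ![i, j])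
        (by intro i j; fin_cases i <;> fin_cases j <;> simp)
        (by intro i j; fin_cases i <;> fin_cases j <;> simp [h, h.symm]) (ne (a := 2) (b := 3) (by decide))
      · exact ⟨γ, h 0, h 1⟩
      · exact ⟨γ, by simpa [swap_apply_def] using h 0, by simpa [swap_apply_def] using h 1⟩
    refine ⟨M γ * A (transvection n01 t) * (M γ)⁻¹, ?_⟩
    simp only [map_mul, map_inv, A, M, Coprod.lift_apply_inl, Coprod.lift_apply_inr, h01]
    rw [(isMono_altSL F γ).conj_tv' _ h h1 h2]; simp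
  · rw [List.cons_append, List.forall_mem_cons]
    simp only [List.forall_mem_append, List.forall_mem_flatMap,
      List.forall_mem_map, map_mul (Coprod.lift α (altSL F)), map_inv (Coprod.lift α (altSL F)), map_commutatorElement,
      mul_inv_eq_one, commutatorElement_eq_one_iff_commute, A, M, Coprod.lift_apply_inl,
      Coprod.lift_apply_inr]
    refine ⟨?_, fun g hg a _ => ?_, fun π hπ => ?_⟩
    · simp only [w, map_mul, hα]
      exact (isMono_altSL F c).ext (isMono_tri _ _ (ne (by decide))) rfl fun _ => rfl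
    · refine DFunLike.congr_fun (sl2_hom_ext (f := (MulAut.conj (altSL F g)).toMonoidHom.comp
        (α.comp CL.Chev.CTM.i1)) (g := α.comp ((MulAut.conj (σ g)).toMonoidHom.comp CL.Chev.CTM.i1))
        (fun t => ?_) fun t => ?_) a <;>
      simp only [MonoidHom.comp_apply, MulEquiv.coe_toMonoidHom, MulAut.conj_apply, i1_upper, i1_lower] <;>
      rcases g2 g hg with ⟨h1, h2⟩ | ⟨h1, h2⟩
      · rw [h01, (isMono_altSL F g).conj_tv' _ (ne Fin.zero_ne_one) h1 h2]; simp [σ1 g h1, h01]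
      · rw [h01, (isMono_altSL F g).conj_tv' _ (ne Fin.zero_ne_one).symm h1 h2, (σ2 g h1 t).1, h10]; simp
      · rw [h10, (isMono_altSL F g).conj_tv' _ (ne Fin.zero_ne_one).symm h2 h1]; simp [σ1 g h1, h10]
      · rw [h10, (isMono_altSL F g).conj_tv' _ (ne Fin.zero_ne_one) h2 h1, (σ2 g h1 t).2, h01]; simp
    · rw [h01, (isMono_altSL F π).conj_tv]
      exact CL.Chev.Cl.tv_commute _ _ (hP π hπ).1 (hP π hπ).2 _ _
  simp only [List.cons_append, List.forall_mem_cons, List.forall_mem_append, List.forall_mem_flatMap,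
    List.forall_mem_map, map_mul φ, map_inv φ, map_commutatorElement, mul_inv_eq_one,
    commutatorElement_eq_one_iff_commute, List.not_mem_nil, false_imp_iff, implies_true, and_true] at hR
  obtain ⟨r1, r2, r3⟩ := hR
  let Y : Fin 2 → F → J := ![fun t => φ (A (transvection n01 t)), fun t => φ (A (transvection n01.symm t))]
  let C : Subgroup (alternatingGroup (Fin n)) :=
    { carrier := {γ | ∃ τ : Perm (Fin 2), ∀ a, (γ : Perm (Fin n)) (![e 0, e 1] a) = ![e 0, e 1] (τ a) ∧
        ∀ t, φ (M γ) * Y a t * (φ (M γ))⁻¹ = Y (τ a) t}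
      one_mem' := ⟨1, by simp⟩
      mul_mem' := by
        rintro a b ⟨τ, h⟩ ⟨τ', h'⟩
        refine ⟨τ * τ', fun i => ⟨by simp [(h' i).1, (h _).1], fun t => ?_⟩⟩
        rw [Perm.mul_apply, ← (h _).2, ← (h' i).2, map_mul, map_mul]; group
      inv_mem' := by
        rintro a ⟨τ, h⟩
        refine ⟨τ⁻¹, fun i => ⟨?_, fun t => ?_⟩⟩
        · rw [Subgroup.coe_inv, Perm.inv_eq_iff_eq, (h _).1]; simp
        · have := (h (τ⁻¹ i)).2 t
          rw [show τ (τ⁻¹ i) = i by simp] at this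
          rw [← this, map_inv, map_inv]; group }
  have hC := g3 C fun g hg => by
    have key : ∀ a, φ (M g) * φ (A (CL.Chev.CTM.i1 a)) * (φ (M g))⁻¹ =
        φ (A (σ g * CL.Chev.CTM.i1 a * (σ g)⁻¹)) := DFunLike.congr_fun
      (MonoidHom.eq_of_eqOn_dense huv (f := (MulAut.conj (φ (M g))).toMonoidHom.comp
        (φ.comp (A.comp CL.Chev.CTM.i1)))
        (g := φ.comp (A.comp ((MulAut.conj (σ g)).toMonoidHom.comp CL.Chev.CTM.i1)))
        (by rintro _ (rfl | rfl); exacts [(r2 g hg).1, (r2 g hg).2]))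
    have k1 := fun t => key (upper t)
    have k2 := fun t => key (lower t)
    simp only [i1_upper, i1_lower] at k1 k2
    rcases g2 g hg with ⟨h1, h2⟩ | ⟨h1, h2⟩
    · simp only [σ1 g h1, one_mul, inv_one, mul_one] at k1 k2
      exact ⟨1, Fin.forall_fin_two.2 ⟨⟨h1, k1⟩, h2, k2⟩⟩
    · simp only [(σ2 g h1 _).1, (σ2 g h1 _).2] at k1 k2
      exact ⟨swap 0 1, Fin.forall_fin_two.2 ⟨⟨h1, k1⟩, h2, k2⟩⟩
  have inj : Function.Injective ![e 0, e 1] := by intro i j; fin_cases i <;> fin_cases j <;> simp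
  obtain ⟨ψ, q1, q2⟩ := sln_core e (φ.comp A) (φ.comp M) (c := c) rfl (isMono_tri n01 n02 n12) r1
    (fun γ h1 h2 t => by
      obtain ⟨τ, h⟩ := hC γ (Or.inl ⟨h1, h2⟩)
      have := (h 0).2 t
      rwa [← inj (a₁ := 0) (h1.symm.trans (h 0).1)] at this)
    (fun γ h1 h2 t => by
      obtain ⟨τ, h⟩ := hC γ (Or.inr ⟨h1, h2⟩)
      have := (h 0).2 t
      rwa [← inj (a₁ := 1) (h1.symm.trans (h 0).1)] at this)
    fun f hf => by
      obtain ⟨γ, π, hπ, h1, h2, h3, h4⟩ := hP' f hf
      exact ⟨γ, π, h1, h2, h3, h4, r3 π hπ⟩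
  exact ⟨ψ, MonoidHom.range_eq_top.1 (surj_of_coprod hφ _ q1 q2)⟩

theorem hasPres_SL_le [Fintype F] {n r d s : ℕ} (hn : 4 ≤ n) (h3 : HasPres SL(3, F) 4 r)
    (hA : HasPres (alternatingGroup (Fin n)) d s) :
    HasPres (SpecialLinearGroup (Fin n) F) (4 + d) (r + s + if n = 4 then 5 else 7) := by
  let e := Fin.castLEEmb hn
  have ne : ∀ {a b : Fin 4}, a ≠ b → e a ≠ e b := fun h => e.injective.ne h
  refine (hasPres_SL_of e h3 hA [⟨swap (e 0) (e 2) * swap (e 1) (e 3), Perm.mem_alternatingGroup.2 (by simp)⟩,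
    ⟨swap (e 0) (e 3) * swap (e 1) (e 2), Perm.mem_alternatingGroup.2 (by simp)⟩]
    (by simp [swap_apply_def]) fun f hf => ?_).mono (by split_ifs <;> simp)
  obtain ⟨γ, h | h⟩ := exists_alt_map e.injective hf (ne (a := 2) (b := 3) (by decide))
  · exact ⟨γ, _, List.mem_cons_self, by simp [← h, swap_apply_def]⟩
  · exact ⟨γ, _, List.mem_cons_of_mem _ List.mem_cons_self, by simp [← h, swap_apply_def]⟩

theorem hasPres_SL_ge [Fintype F] {n r d s : ℕ} (hn : 6 ≤ n) (h3 : HasPres SL(3, F) 4 r)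
    (hA : HasPres (alternatingGroup (Fin n)) d s) :
    HasPres (SpecialLinearGroup (Fin n) F) (4 + d) (r + s + 6) := by
  let e' := Fin.castLEEmb hn
  let e : Fin 4 ↪ Fin n := (Fin.castLEEmb (by norm_num : 4 ≤ 6)).trans e'
  refine (hasPres_SL_of e h3 hA [⟨swap (e 0) (e 2) * swap (e 1) (e 3), Perm.mem_alternatingGroup.2 (by simp)⟩]
    (by simp [swap_apply_def]) fun f hf => ?_).mono (by rw [if_neg (by omega)]; simp)
  obtain ⟨γ, h⟩ := exists_alt_map e.injective hf (e'.injective.ne (by decide : (4 : Fin 6) ≠ 5))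
  have : ∀ x, swap (e' 4) (e' 5) (e x) = e x := fun x => by
    rw [Function.Embedding.trans_apply, e'.swap_apply]; congr 1; revert x; decide
  simp only [this, or_self] at h
  exact ⟨γ, _, List.mem_cons_self, by simp [← h, swap_apply_def]⟩

theorem hasPres_SL4 [Fintype F] {r : ℕ} (h3 : HasPres SL(3, F) 4 r) : HasPres SL(4, F) 6 (r + 9) :=
  hasPres_SL_le le_rfl h3 hasPres_A4

theorem hasPres_SL5 [Fintype F] {r : ℕ} (h3 : HasPres SL(3, F) 4 r) : HasPres SL(5, F) 6 (r + 10) :=
  hasPres_SL_le (by norm_num) h3 hasPres_A5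

theorem hasPres_SLn [Fintype F] {n r : ℕ} (hn : 4 ≤ n) (h3 : HasPres SL(3, F) 4 r) :
    HasPres (SpecialLinearGroup (Fin n) F) 7 (r + 13) := by
  rcases lt_or_ge n 6 with h | h
  · interval_cases n
    · exact (hasPres_SL4 h3).succ.mono (by omega)
    · exact (hasPres_SL5 h3).succ.mono (by omega)
  · exact hasPres_SL_ge h h3 (hasPres_alt (by omega))

end CL.KSG
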