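import Cfsg.Agent.KSG.ShortB2
import Cfsg.Agent.KSG.ShortSLn
import Cfsg.Agent.CHEV.CTProd
import Cfsg.Agent.CHEV.TwOrb
import Cfsg.Agent.CHEV.LiftOne

/-!
Bounded presentations of the finite symplectic groups.
-/

set_option autoImplicit false
set_option linter.unusedSectionVars false
set_option maxHeartbeats 400000

namespace CL.KSG

open Matrix hiding transvection
open Monoid Matrix.SpecialLinearGroup CL.SL2Hom CL.Chev CL.Chev.Cl
open scoped MatrixGroups commutatorElement

universe u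

variable {F : Type*} [Field F]

theorem exists_emb_SL' {κ ι : Type*} [Fintype κ] [DecidableEq κ] [Fintype ι] [DecidableEq ι] (e : κ ↪ ι) :
    ∃ α : SpecialLinearGroup κ F →* SpecialLinearGroup ι F,
      ∀ i j (h : i ≠ j) t, α (transvection h t) = transvection (e.injective.ne h) t := by
  classical
  obtain ⟨E, hE⟩ : ∃ E : κ ⊕ {x // x ∉ Set.range e} ≃ ι, ∀ i, e i = E (.inl i) :=
    ⟨(Equiv.sumCongr (Equiv.ofInjective e e.injective) (Equiv.refl _)).trans (Equiv.sumCompl _), fun _ => rfl⟩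
  refine ⟨⟨⟨fun A => ⟨reindex E E (fromBlocks A.1 0 0 1), by simp⟩,
    Subtype.ext (by simp)⟩, fun A B => Subtype.ext ?_⟩, fun i j h t => ?_⟩
  · change reindex E E (fromBlocks (A.1 * B.1) 0 0 1) = reindex E E _ * reindex E E _
    simp [submatrix_mul_equiv, fromBlocks_multiply]
  · ext a b
    change reindex E E (fromBlocks (transvection h t).1 0 0 1) a b = _
    obtain ⟨a, rfl⟩ := E.surjective a
    obtain ⟨b, rfl⟩ := E.surjective b
    rcases a with a | a <;> rcases b with b | b <;> simp [transvection_coe, hE, one_apply, single_apply]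

theorem exists_pair_SL' [Fintype F] (m : ℕ) :
    ∃ a b : SpecialLinearGroup (Fin (m + 1)) F, Subgroup.closure {a, b} = ⊤ := by
  cases m with
  | zero => exact ⟨1, 1, (Subgroup.eq_top_iff' _).2 fun x => Subsingleton.elim (α := SL(1, F)) 1 x ▸ one_mem _⟩
  | succ m => exact exists_pair_SL

theorem SL_top_of_adj {n : ℕ} (K : Subgroup (SpecialLinearGroup (Fin (n + 1)) F))
    (h : ∀ (k : Fin n) t, transvection k.castSucc_lt_succ.ne t ∈ K ∧ transvection k.castSucc_lt_succ.ne' t ∈ K) :
    K = ⊤ := by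
  rw [eq_top_iff, ← slSt_top, StData.grp, ← (baseA n).R.sub_univ]
  refine StData.XS_sub_le _ fun k _ t => ⟨(slSt_x F k.castSucc_lt_succ.ne t).symm ▸ (h k t).1, ?_⟩
  have := (h k t).2
  rwa [← slSt_x, Root.mk_swap] at this

theorem commute_of_top {M G : Type*} [Group M] [Group G] {f : M →* G} {g : G}
    (h : (Subgroup.centralizer {g}).comap f = ⊤) (x : M) : Commute (f x) g :=
  Subgroup.mem_centralizer_singleton_iff.1 (h ▸ Subgroup.mem_top x : x ∈ (Subgroup.centralizer {g}).comap f)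

theorem adm_lr (T : Ty) {m : ℕ} {i j : Fin m} (h : i ≠ j) : adm T (some (.inl i)) (some (.inr j)) :=
  ⟨by simpa using h.symm, by simp, by simp, by simp, by simp⟩

theorem spAct_x {n : ℕ} {i j : Fin (n + 1)} (h : i ≠ j) (t : F) :
    spAct F _ ((spSt F n).x (.mk _ _ (adm_lr .C h)) t) = slAct F _ (transvection h t) := by
  refine LinearEquiv.ext fun w => ?_
  rw [spSt, StData.pull_x, Frame.st_x _ _ _ (by simp), Frame.eb_ne _ (adm_lr .C h) (by simp) (by simp), slAct,
    MonoidHom.comp_apply, glAct_apply, ← map_inv, transvection_inv]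
  funext a
  rcases a with a | a <;>
    simp [transvection_coe, add_mulVec, single_mulVec_eq, Frame.al, Ty.e, κ, spFrame, Sp.spForm_B_single_inl,
      Sp.spForm_B_single_inr, Pi.single_apply, neg_ite, sub_eq_add_neg]

theorem exists_hom_SL_Sp (n : ℕ) : ∃ f : SpecialLinearGroup (Fin (n + 1)) F →* symplecticGroup (Fin (n + 1)) F,
    Function.Injective f ∧ ∀ i j (h : i ≠ j) t, f (transvection h t) = (spSt F n).x (.mk _ _ (adm_lr .C h)) t := by
  have h1 : ∀ g, slAct F (n + 1) g ∈ (spAct F (n + 1)).range := fun g =>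
    (CL.SL.eq_top_of_transvection_mem ((spAct F (n + 1)).range.comap (slAct F _)) (fun i j h t =>
      ⟨_, spAct_x h t⟩) ▸ Subgroup.mem_top g : g ∈ (spAct F (n + 1)).range.comap (slAct F _))
  let e := MonoidHom.ofInjective (spAct_injective F (n + 1))
  have h2 : ∀ g, spAct F _ (e.symm ((slAct F _).codRestrict _ h1 g)) = slAct F _ g := fun g =>
    MonoidHom.apply_ofInjective_symm _ _
  exact ⟨e.symm.toMonoidHom.comp ((slAct F _).codRestrict _ h1), fun a b h => slAct_injective F _ (by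
    rw [← h2, ← h2]; exact congrArg _ h), fun i j h t => spAct_injective F _ ((h2 _).trans (spAct_x h t).symm)⟩

theorem _root_.CL.Chev.Part.of_orth {ι κ G G' : Type*} [Fintype κ] [DecidableEq κ] [Finite ι] {R : RootSys ι κ}
    [Group G] [Group G'] {S : StData R F G'} (hS : S.Good) {a b : κ → F → G' × G} {i j : κ} (h : R.A i j = 0)
    (h1 : ∀ k t, (a k t).1 = S.x (R.simple k) t ∧ (b k t).1 = S.x (R.neg (R.simple k)) t)
    (hr : ∀ k, Rel (a k) (b k)) (hc : ∀ t u, (Commute (a i t) (a j u) ∧ Commute (a i t) (b j u)) ∧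
      Commute (b i t) (a j u) ∧ Commute (b i t) (b j u)) : Part S (MonoidHom.fst G' G) a b {i, j} := by
  classical
  obtain ⟨T, h2, h3⟩ := exists_stData_orth (hS.restrict {i, j}) (by
      rintro ⟨k, rfl | rfl⟩ ⟨l, rfl | rfl⟩ hkl <;>
        first | exact (hkl rfl).elim | exact h | exact (R.A_eq_zero_comm _ _).1 h)
    (fun k t => (a k t).2) (fun k t => (b k t).2) (fun k => rel_map (hr k) (MonoidHom.snd G' G)) (by
      rintro ⟨k, rfl | rfl⟩ ⟨l, rfl | rfl⟩ hkl t u
      · exact (hkl rfl).elim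
      · exact ⟨(hc t u).1.1.map (MonoidHom.snd G' G), (hc t u).1.2.map (MonoidHom.snd G' G),
          (hc t u).2.2.map (MonoidHom.snd G' G)⟩
      · exact ⟨(hc u t).1.1.symm.map (MonoidHom.snd G' G), (hc u t).2.1.symm.map (MonoidHom.snd G' G),
          (hc u t).2.2.symm.map (MonoidHom.snd G' G)⟩
      · exact (hkl rfl).elim)
  exact Part.of_st T h2 fun k => ⟨funext fun t => Prod.ext ((h2 _ t).trans (h1 k t).1.symm) (h3 k t).1,
    funext fun t => Prod.ext ((h2 _ t).trans (h1 k t).2.symm) (h3 k t).2⟩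

theorem hasPres_typeC [Fintype F] {n d r : ℕ} {ι : Type*} [Finite ι] {R : RootSys ι (Fin (n + 2))}
    (hA : ∀ i j, R.A i j = if (j : ℕ) = n + 1 ∧ (i : ℕ) + 1 = n + 1 then -2 else chainA i j)
    {G : Type u} [Group G] [Finite G] {S : StData R F G} (hS : S.Good) (htop : S.grp = ⊤) {h3 : S.R3}
    (hi : Function.Injective h3.torHom) {f : SpecialLinearGroup (Fin (n + 2)) F →* G} (hf : Function.Injective f)
    (f2 : ∀ (k : Fin (n + 1)) t, f (transvection k.castSucc_lt_succ.ne t) = S.x (R.simple k.castSucc) t ∧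
      f (transvection k.castSucc_lt_succ.ne' t) = S.x (R.neg (R.simple k.castSucc)) t)
    (h : HasPres (SpecialLinearGroup (Fin (n + 2)) F) d r) : HasPres G (d + 3) (r + 26) := by
  classical
  obtain ⟨ν, -, n1, n2, -⟩ := exists_hom_of_finite (S.sl2Rel (R.simple (Fin.last _)))
  have hμ : ∀ k : Fin (n + 1), ∃ μ : SL(2, F) →* SpecialLinearGroup (Fin (n + 2)) F,
      (∀ t, μ (upper t) = transvection k.castSucc_lt_succ.ne t) ∧
      ∀ t, μ (lower t) = transvection k.castSucc_lt_succ.ne' t := fun k => by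
    obtain ⟨μ, hμ⟩ := exists_emb_SL' (F := F) (ι := Fin (n + 2)) ⟨![k.castSucc, k.succ], by
      intro a b; fin_cases a <;> fin_cases b <;> simp [Fin.ext_iff]⟩
    exact ⟨μ, fun t => by rw [upper_eq_tv, hμ]; rfl, fun t => by rw [lower_eq_tv, hμ]; rfl⟩
  choose μ m1 m2 using hμ
  obtain ⟨β, hβ⟩ := exists_emb_SL' (F := F) (Fin.castSuccEmb (n := n + 1))
  have b1 : ∀ (k : Fin n) t, β (transvection k.castSucc_lt_succ.ne t) = transvection k.castSucc.castSucc_lt_succ.ne t ∧
      β (transvection k.castSucc_lt_succ.ne' t) = transvection k.castSucc.castSucc_lt_succ.ne' t :=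
    fun k t => ⟨hβ .., hβ ..⟩
  have a0 : ∀ k : Fin n, R.A k.castSucc.castSucc (Fin.last _) = 0 := fun k => by
    have := k.2
    simp only [hA, chainA, Fin.val_castSucc, Fin.val_last]; split_ifs <;> omega
  let π := Coprod.lift f ν
  let A : SpecialLinearGroup (Fin (n + 2)) F →* Coprod (SpecialLinearGroup (Fin (n + 2)) F) SL(2, F) := Coprod.inl
  let B : SL(2, F) →* Coprod (SpecialLinearGroup (Fin (n + 2)) F) SL(2, F) := Coprod.inr
  let I : Set (Fin (n + 2)) := {(Fin.last n).castSucc, Fin.last _}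
  have r1 := rels_B2.{u} (R := R.restrict I) (i := ⟨(Fin.last n).castSucc, by simp [I]⟩)
    (j := ⟨Fin.last _, by simp [I]⟩) (by rintro ⟨k, rfl | rfl⟩ <;> simp) (by simp [RootSys.restrict_A, hA])
    (by simp [RootSys.restrict_A, hA, chainA]) (hS.restrict I) (π := π) (μ := A.comp (μ (Fin.last n))) (ν := B)
    (fun t => (congrArg f (m1 _ t)).trans (f2 _ t).1) (fun t => (congrArg f (m2 _ t)).trans (f2 _ t).2) n1 n2
  have r2 := rels_commute_hom₂.{_, _, u} (π := π) (exists_pair_SL' n) (exists_pair_SL' 1) (f := A.comp β) (g := B)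
    fun x y => by
      refine commute_of_top (f := f.comp β) (SL_top_of_adj _ fun k t => ?_) x
      have hk : k.castSucc.castSucc ≠ Fin.last _ := Fin.castSucc_ne_last _
      have : ν y ∈ S.XS (R.sub {Fin.last _}) := (sl2_top ((S.XS (R.sub {Fin.last _})).comap ν)
        (fun t => Subgroup.mem_comap.2 (n1 t ▸ S.x_mem_XS (R.simple_mem_sub_self _) t))
        (fun t => Subgroup.mem_comap.2 (n2 t ▸ S.x_mem_XS (R.neg_mem_sub_self _) t)) ▸ Subgroup.mem_top y :
          y ∈ (S.XS (R.sub {Fin.last _})).comap ν)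
      simp only [Subgroup.mem_comap, MonoidHom.comp_apply, b1, f2, Subgroup.mem_centralizer_singleton_iff]
      exact ⟨StData.commute_orth hk (a0 k) (S.x_mem_XS (R.simple_mem_sub_self _) t) this,
        StData.commute_orth hk (a0 k) (S.x_mem_XS (R.neg_mem_sub_self _) t) this⟩
  refine ((h.coprod hasPres_SL2).quot_rels ?_ (r1.and r2) ?_).mono (by omega)
  · rw [← MonoidHom.range_eq_top, eq_top_iff, ← htop, StData.grp, ← R.sub_univ]
    refine S.XS_sub_le fun k _ t => ?_
    induction k using Fin.lastCases with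
    | last => exact ⟨⟨B _, n1 t⟩, B _, n2 t⟩
    | cast k => exact ⟨⟨A _, (f2 k t).1⟩, A _, (f2 k t).2⟩
  rintro J _ φ hφ ⟨q1, q2⟩
  obtain ⟨T, t1, t2, t3, t4, t5⟩ := q1 (MonoidHom.fst G J) fun _ => rfl
  set Φ := π.prod φ
  obtain ⟨a, al, ac⟩ : ∃ a : Fin (n + 2) → F → G × J, (a (Fin.last _) = fun t => Φ (B (upper t))) ∧
      ∀ k : Fin (n + 1), a k.castSucc = fun t => Φ (A (transvection k.castSucc_lt_succ.ne t)) :=
    ⟨Fin.lastCases _ _, Fin.lastCases_last, fun _ => Fin.lastCases_castSucc _⟩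
  obtain ⟨b, bl, bc⟩ : ∃ a : Fin (n + 2) → F → G × J, (a (Fin.last _) = fun t => Φ (B (lower t))) ∧
      ∀ k : Fin (n + 1), a k.castSucc = fun t => Φ (A (transvection k.castSucc_lt_succ.ne' t)) :=
    ⟨Fin.lastCases _ _, Fin.lastCases_last, fun _ => Fin.lastCases_castSucc _⟩
  have p1 : Part S (MonoidHom.fst G J) a b I := Part.of_st T t1 (by
    rintro ⟨k, rfl | rfl⟩
    · simp only [ac, bc, ← m1, ← m2]; exact ⟨t2, t3⟩
    · simp only [al, bl]; exact ⟨t4, t5⟩)
  have p2 : ∀ k : Fin (n + 1), Part S (MonoidHom.fst G J) a b {k.castSucc, Fin.last _} := fun k => by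
    induction k using Fin.lastCases with
    | last => exact p1
    | cast k =>
      refine Part.of_orth hS (a0 k) (fun k t => ?_) (fun k => ?_) fun t u => ?_
      · induction k using Fin.lastCases with
        | last => rw [al, bl]; exact ⟨n1 t, n2 t⟩
        | cast k => rw [ac, bc]; exact f2 k t
      · induction k using Fin.lastCases with
        | last => rw [al, bl]; exact rel_map sl2_rel (Φ.comp B)
        | cast k => simp only [ac, bc, ← m1, ← m2]; exact rel_map sl2_rel (Φ.comp (A.comp (μ k)))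
      · simp only [al, bl, ac, bc, ← (b1 k t).1, ← (b1 k t).2]
        exact ⟨⟨q2 _ _, q2 _ _⟩, q2 _ _, q2 _ _⟩
  obtain ⟨P, hP, hP'⟩ := exists_stData_of_part (θ := MonoidHom.fst G J) (a := a) (b := b) hS fun i j => by
    induction i using Fin.lastCases with
    | last =>
      induction j using Fin.lastCases with
      | last => exact p1.mono (by simp [I])
      | cast j => exact (p2 j).mono (by rw [Set.pair_comm])
    | cast i =>
      induction j using Fin.lastCases with
      | last => exact p2 i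
      | cast j =>
        refine Part.of_hom f hf (Φ.comp A) (fun _ => rfl) ?_
        rintro _ (rfl | rfl) t <;> rw [ac, bc] <;> exact ⟨⟨_, (f2 _ t).1, rfl⟩, _, (f2 _ t).2, rfl⟩
  obtain ⟨ψ, hψ⟩ := P.exists_hom_of_sc hP hS htop hi
  have e1 : ∀ k t, (a k t).2 ∈ ψ.range ∧ (b k t).2 ∈ ψ.range := fun k t =>
    ⟨⟨_, by rw [hψ, (hP' k).1]⟩, _, by rw [hψ, (hP' k).2]⟩
  refine ⟨ψ, MonoidHom.range_eq_top.1 (surj_of_coprod hφ _ (fun g => ?_) fun g => ?_)⟩
  · exact (SL_top_of_adj (ψ.range.comap (φ.comp A)) (fun k t => by simpa only [ac, bc] using! e1 k.castSucc t) ▸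
      Subgroup.mem_top g : g ∈ ψ.range.comap (φ.comp A))
  · exact (sl2_top (ψ.range.comap (φ.comp B)) (fun t => by simpa only [al] using! (e1 (Fin.last _) t).1)
      (fun t => by simpa only [bl] using! (e1 (Fin.last _) t).2) ▸ Subgroup.mem_top g : g ∈ ψ.range.comap (φ.comp B))

theorem hasPres_Sp [Fintype F] {n d r : ℕ} (h : HasPres (SpecialLinearGroup (Fin (n + 2)) F) d r) :
    HasPres (symplecticGroup (Fin (n + 2)) F) (d + 3) (r + 26) := by
  obtain ⟨f, hf, f1⟩ := exists_hom_SL_Sp (F := F) (n + 1)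
  refine hasPres_typeC baseC_A (spSt_good F _) (spSt_top F _) (spSt_sc F _) hf (fun k t => ?_) h
  rw [f1, f1]
  constructor <;> congr 1 <;> simp [Base.R_simple, Base.R_neg, Root.neg_mk, baseC, baseSnoc, Root.mk_eq_iff]

theorem hasPres_PSp {n d r : ℕ} [Fintype F] (h : HasPres (symplecticGroup (Fin (n + 1)) F) d r) :
    HasPres (Cfsg.PSp (n + 1) F) d (r + 1) :=
  have := isCyclic_center_Sp (F := F) (n := n)
  h.quot_cyclic _

end CL.KSG
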