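import Cfsg.Agent.KSG.ShortU3
import Cfsg.Agent.KSG.ShortU32CE
import Cfsg.Agent.KSG.ShortU42CE
import Cfsg.Agent.KSG.ShortU43CE
import Cfsg.Agent.KSG.SchurCl
import Cfsg.Agent.CHEV.Phan7
import Cfsg.Agent.SPOR.CEPres
import Cfsg.Agent.PERM.TC
import Cfsg.Agent.CLAS.UniEig

/-!
The groups `SU₃(2)`, `SU₄(2)` and `SU₄(3)`: the extra relations beyond Phan's amalgam.
-/

set_option autoImplicit false
set_option linter.unusedSectionVars false

namespace CL.KSG

open Function Monoid Cfsg CL.CE CL.K CL.SchurC CL.Chev.Phan CL.Uni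

universe u

section Words

variable {G M : Type*} [Group G] [Group M]

/-- renaming of letters -/
def mvl (ms : List ℕ) (N l : ℕ) : ℕ := 2 * ms.getD (l / 2) N + l % 2

theorem tc_mvl {gs : List G} {hs : List M} (φ : M →* G) {ms : List ℕ}
    (h : ms.map (gs.getD · 1) = hs.map φ) (l : ℕ) : TC.ev gs (mvl ms gs.length l) = φ (TC.ev hs l) := by
  have : gs.getD (ms.getD (l / 2) gs.length) 1 = φ (hs.getD (l / 2) 1) := by
    rw [← List.getD_map _ _ φ, ← h, map_one, ← List.getD_map _ _ (gs.getD · 1),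
      List.getD_eq_default gs 1 le_rfl]
  rw [TC.ev, TC.ev, mvl, show (2 * ms.getD (l / 2) gs.length + l % 2) / 2 = ms.getD (l / 2) gs.length by omega,
    show (2 * ms.getD (l / 2) gs.length + l % 2) % 2 = l % 2 by omega, this]
  split_ifs <;> simp

theorem ev_mvl {gs : List G} {hs : List M} (φ : M →* G) {ms : List ℕ}
    (h : ms.map (gs.getD · 1) = hs.map φ) {R : List (List ℕ)} (hR : ∀ r ∈ R, ev (TC.ev hs) r = 1) :
    ∀ r ∈ R.map (List.map (mvl ms gs.length)), ev (TC.ev gs) r = 1 := by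
  rw [List.forall_mem_map]
  intro r hr
  rw [← map_one φ, ← hR r hr, map_ev, ev, ev, List.map_map]
  exact congrArg _ (List.map_congr_left fun l _ => tc_mvl φ h l)

theorem map_tc (φ : M →* G) (hs : List M) (r : List ℕ) : φ (ev (TC.ev hs) r) = ev (TC.ev (hs.map φ)) r := by
  rw [map_ev]; congr 1; funext l
  rw [TC.ev, TC.ev, ← map_one φ, List.getD_map]
  split_ifs <;> simp

theorem ev_comm {gs : List G} (a b : ℕ) (h : Commute (gs.getD a 1) (gs.getD b 1)) :
    ev (TC.ev gs) [2 * a, 2 * b, 2 * a + 1, 2 * b + 1] = 1 := by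
  have e : ∀ a, (2 * a + 1) / 2 = a := fun a => by omega
  simp [ev, TC.ev, e, ← mul_assoc, -List.getD_eq_getElem?_getD, h.eq]

theorem ev_of_mdl {ι F : Type*} [Fintype ι] [DecidableEq ι] [Field F] {ex : ℕ → ℕ} {mat : ℕ → Matrix ι ι F}
    {D : ℕ → ι → F} {V : ℕ → Prop} {act : ℕ → ℕ → ℕ} {bas : List ℕ} (T : MatMdl ex mat D V act bas)
    {ρ : G →* Matrix ι ι F} (hρ : Injective ρ) (gs : List G) (L : List ℕ) (R : List (List ℕ))
    (hL : ∀ i < gs.length, ρ (gs.getD i 1) = mat (lget L (2 * i))) (hl : L.length ≤ 2 * gs.length)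
    (h : ((List.range gs.length).map (fun i => [2 * i, 2 * i + 1]) ++ R).all
      (fun r => weq act (lmap ex L) (llen L) bas r []) = true) : ∀ r ∈ R, ev (TC.ev gs) r = 1 := by
  rw [List.all_eq_true, List.forall_mem_append, List.forall_mem_map] at h
  have key : ∀ l < L.length, ρ (TC.ev gs l) = mat (lget L l) := fun l hl' => by
    have h1 := hL (l / 2) (by omega)
    rw [TC.ev]
    split_ifs with e
    · rw [h1, show 2 * (l / 2) = l by omega]
    · have h2 := T.wd_eq L (h.1 (l / 2) (List.mem_range.2 (by omega)))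
      rw [wd_cons, wd_cons, wd_nil, mul_one, ← h1, show 2 * (l / 2) + 1 = l by omega] at h2
      exact left_inv_eq_right_inv (by rw [← map_mul, inv_mul_cancel, map_one]) h2
  intro r hr
  have h1 := h.2 r hr
  have h2 := T.wd_eq L h1
  simp only [weq, Bool.and_eq_true, lall_iff, Nat.ble_eq, llen_eq] at h1
  refine hρ ?_
  rw [map_one, ← wd_nil (fun i => mat (lget L i)), ← h2, ev, map_list_prod, List.map_map, wd]
  exact congrArg _ (List.map_congr_left fun l hl => key l (h1.1.1 l hl))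

theorem rels_words {H : Type*} [Group H] {π : H →* G} (hs : List H) (X : List (List ℕ))
    (h : ∀ r ∈ X, ev (TC.ev (hs.map π)) r = 1) :
    Rels π X.length fun (_ : Type u) _ Φ => ∀ r ∈ X, ev (TC.ev (hs.map Φ)) r = 1 :=
  ⟨X.map (ev (TC.ev hs)), by simp, by simpa [map_tc] using h, fun _ _ Φ h => by simpa [map_tc] using h⟩

theorem cardLe_range [Finite M] (φ : M →* G) {K : Subgroup G} (h : K ≤ φ.range) : CardLe K (Nat.card M) :=
  have := Finite.of_surjective _ φ.rangeRestrict_surjective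
  ⟨Finite.of_injective _ (Subgroup.inclusion_injective h), (Subgroup.card_le_of_le h).trans
    (Nat.card_le_card_of_surjective _ φ.rangeRestrict_surjective)⟩

theorem mem_gen_range (g : ℕ → G) (n a : ℕ) (h : a < n) :
    g a ∈ gen g ((List.range n).map fun a => [a]) :=
  ev_singleton g a ▸ ev_mem_gen (List.mem_map_of_mem (List.mem_range.2 h))

end Words

section Four

variable {F : Type u} [Field F] [Fintype F] {q : ℕ} (hF : Fintype.card F = q ^ 2)

/-- two compatible maps from `SU₃` extend to `SU₄` -/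
def FourQ {P : Type*} [Group P] (v v' : SU 3 F q →* P) : Prop :=
  (∀ A, v (E1 hF A) = v' (E0 hF A)) → (∀ A B, Commute (v (E0 hF A)) (v' (E1 hF B))) →
    ∃ w : SU 4 F q →* P, (∀ A, w (F0 hF A) = v A) ∧ ∀ A, w (F1 hF A) = v' A

theorem rels_four (hs : List (Coprod (SU 3 F q) (SU 3 F q))) (X : List (List ℕ))
    (hX : ∀ r ∈ X, ev (TC.ev (hs.map (Coprod.lift (F0 hF) (F1 hF)))) r = 1)
    (h : ∀ (P : Type u) [Group P] (Φ : Coprod (SU 3 F q) (SU 3 F q) →* P),
      (∀ A, Φ (.inl (E1 hF A)) = Φ (.inr (E0 hF A))) → (∀ A B, Commute (Φ (.inl (E0 hF A))) (Φ (.inr (E1 hF B)))) →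
      (∀ r ∈ X, ev (TC.ev (hs.map Φ)) r = 1) → ∃ K : Subgroup P, CardLe K (Nat.card (SU 4 F q)) ∧
        (∀ A, Φ (.inl A) ∈ K) ∧ ∀ A, Φ (.inr A) ∈ K) :
    Rels (Coprod.lift (F0 hF) (F1 hF)) X.length
      fun (_ : Type u) _ Φ => FourQ hF (Φ.comp Coprod.inl) (Φ.comp Coprod.inr) := by
  refine (rels_words hs X hX).imp le_rfl fun P _ Φ hΦ h1 h2 => ?_
  obtain ⟨K, ⟨_, hK⟩, k0, k1⟩ := h _ ((Coprod.lift (F0 hF) (F1 hF)).prod Φ)
    (fun A => Prod.ext (by simp [emb_off]) (h1 A))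
    (fun A B => Commute.prod (by simpa [emb_off] using emb_comm hF _ _ le_rfl A B) (h2 A B))
    fun r hr => by
      rw [← map_tc]
      exact Prod.ext ((map_tc ..).trans (hX r hr)) ((map_tc ..).trans (hΦ r hr))
  have hs : ∀ g, ∃ γ ∈ K, γ.1 = g := gen_step hF le_rfl (K := K.map (MonoidHom.fst _ P))
    (fun A => ⟨_, k0 A, by simp⟩) fun A => ⟨_, k1 A, by simp⟩
  have hb := (Surjective.bijective_of_nat_card_le (f := (MonoidHom.fst _ P).comp K.subtype)
    (fun g => let ⟨γ, h, e⟩ := hs g; ⟨⟨γ, h⟩, e⟩) hK).1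
  obtain ⟨w, hw⟩ := CL.Chev.SpAm.exists_hom_of_bij
    (fun g hg e => congrArg Subtype.val ((injective_iff_map_eq_one _).1 hb ⟨g, hg⟩ e)) hs
  exact ⟨w, fun A => by simpa using hw _ (k0 A), fun A => by simpa using hw _ (k1 A)⟩

include hF in
theorem mem_su2 {a b : SU 2 F q} (W : List (List ℕ)) (h : ∀ α β : F, α ^ q * α + β ^ q * β = 1 →
    ∃ w ∈ W, ♭(ev (fun i => if i = 0 then a else b) w) = !![α, -β ^ q; β, α ^ q]) {P : Type*} [Group P]
    (φ : SU 2 F q →* P) {K : Subgroup P} (ha : φ a ∈ K) (hb : φ b ∈ K) (A : SU 2 F q) : φ A ∈ K := by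
  obtain ⟨α, β, h1, rfl⟩ := exists_su2 hF A
  obtain ⟨w, -, e⟩ := h α β h1
  rw [← mat_ext (e.trans (mat_su2 hF α β h1).symm)]
  exact ev_mem (K := K.comap φ) fun i _ => by split_ifs <;> assumption

end Four

namespace U43

open F24

/-- first generator of `SU₂(3)` -/
def ga : SU 2 F9 3 := su2 card_F9 ⟨1, 1⟩ ⟨1, 1⟩ (by decide)
/-- second generator of `SU₂(3)` -/
def gb : SU 2 F9 3 := su2 card_F9 ⟨1, 1⟩ ⟨2, 2⟩ (by decide)

/-- generators in `SU₃(3)` -/
def g3 : List (SU 3 F9 3) := [E0 card_F9 ga, E0 card_F9 gb, E1 card_F9 ga, E1 card_F9 gb]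

/-- relators in `SU₃(3)` -/
def R3 : List (List ℕ) := [[0,0,0],[2,2,2],[4,4,4],[6,6,6],[0,2,0,3,1,3],[0,4,1,4,0,5],[0,6,1,6,0,7],[2,4,3,4,2,5],
  [2,6,3,6,2,7],[4,6,4,7,5,7],[0,2,1,5,0,7,5,2,7],[0,2,1,7,0,5,7,2,5]]

/-- the extra relators -/
def X : List (List ℕ) := [[0,8,4,0,11,5,3,11,5,8,3,4],[0,4,3,0,8,7,0,10,7,3,9,10,6,8]]

/-- codes of matrices -/
def L : List ℕ := [0x1000010000950065,0x10000100005a0099,0x10000100009a0095,0x1000010000550069,0x1000095006500001,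
  0x100005a009900001,0x100009a009500001,0x1000055006900001,0x9500650000100001,0x5a00990000100001,
  0x9a00950000100001,0x5500690000100001]

/-- generators in the free product -/
def hs : List (Coprod (SU 3 F9 3) (SU 3 F9 3)) := g3.map Coprod.inl ++ (g3.drop 2).map Coprod.inr

theorem mem2 {P : Type*} [Group P] (φ : SU 2 F9 3 →* P) {K : Subgroup P} (ha : φ ga ∈ K) (hb : φ gb ∈ K)
    (A : SU 2 F9 3) : φ A ∈ K :=
  mem_su2 card_F9 [[],[0],[1],[0,0],[0,1],[1,0],[1,1],[0,0,1],[0,1,0],[0,1,1],[1,0,0],[1,1,0],[0,0,1,0],[0,0,1,1],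
    [0,1,0,0],[0,1,1,0],[1,0,0,1],[1,1,0,0],[0,0,1,0,0],[0,0,1,1,0],[0,1,0,0,1],[0,1,1,0,0],[0,0,1,0,0,1],
    [0,0,1,1,0,0]] (by decide +kernel) φ ha hb A

theorem mem3 {P : Type*} [Group P] (φ : SU 3 F9 3 →* P) {K : Subgroup P} (h : ∀ x ∈ g3, φ x ∈ K) (A : SU 3 F9 3) :
    φ A ∈ K :=
  gen_three card_F9 le_rfl (K := K.comap φ) (mem2 (E0 card_F9) (h _ (by simp [g3])) (h _ (by simp [g3])))
    (mem2 (E1 card_F9) (h _ (by simp [g3])) (h _ (by simp [g3]))) A

theorem rel3 : ∀ r ∈ R3, ev (TC.ev g3) r = 1 :=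
  ev_of_mdl (matMdl_F9 (Equiv.refl (Fin 4)) 8 13 43 7 96 (by decide +kernel) rfl)
    ((suMat_injective 4 F9 3).comp (emb_inj card_F9 (off 0 (by omega)))) (ρ := (suMat 4 F9 3).comp (F0 card_F9))
    g3 (L.take 8) R3 (by decide +kernel) (by decide) (by decide +kernel)

theorem rel4 : ∀ r ∈ X, ev (TC.ev (hs.map (Coprod.lift (F0 card_F9) (F1 card_F9)))) r = 1 :=
  ev_of_mdl (matMdl_F9 (Equiv.refl (Fin 4)) 8 13 43 7 96 (by decide +kernel) rfl)
    (suMat_injective 4 F9 3) _ L X (by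
      simp only [hs, List.map_append, List.map_map, Coprod.lift_comp_inl, Coprod.lift_comp_inr, ← MonoidHom.coe_comp]
      decide +kernel) (by decide) (by decide +kernel)

theorem four : Rels (Coprod.lift (F0 card_F9) (F1 card_F9)) 2
    fun (_ : Type) _ Φ => FourQ card_F9 (Φ.comp Coprod.inl) (Φ.comp Coprod.inr) :=
  rels_four card_F9 hs X rel4 fun P _ Φ h1 h2 h3 => by
    have p : Pres (TC.ev (hs.map Φ)) TC.inv (R3.map (List.map (mvl [0, 1, 2, 3] 6)) ++
        R3.map (List.map (mvl [2, 3, 4, 5] 6)) ++ [[0,8,1,9],[0,10,1,11],[2,8,3,9],[2,10,3,11]] ++ X) :=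
      ((Pres.append ⟨TC.ev_inv _, ev_mvl (Φ.comp Coprod.inl) rfl rel3⟩
        (ev_mvl (Φ.comp Coprod.inr) (by simp [hs, g3, h1]) rel3)).append (by
          simp only [List.forall_mem_cons]
          exact ⟨ev_comm 0 4 (h2 _ _), ev_comm 0 5 (h2 _ _), ev_comm 1 4 (h2 _ _), ev_comm 1 5 (h2 _ _), by simp⟩)).append h3
    have i := p.idxLe ((List.range 12).map fun a => [a]) [[0], [2], [4], [6]] CE43.covers (by decide +kernel)
    have m := mem_gen_range (TC.ev (hs.map Φ)) 12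
    refine ⟨_, i.cardLe (cardLe_range (Φ.comp Coprod.inl) (gen_le_iff.2 ?_))
      (by rw [card_SU_succ card_F9 2, card_SU_succ card_F9 3]; decide +kernel),
      mem3 (Φ.comp Coprod.inl) ?_, mem3 (Φ.comp Coprod.inr) ?_⟩ <;>
    simp only [g3, List.forall_mem_cons, MonoidHom.comp_apply, ← h1, ev_singleton]
    · exact ⟨⟨_, rfl⟩, ⟨_, rfl⟩, ⟨_, rfl⟩, ⟨_, rfl⟩, by simp⟩
    · exact ⟨m 0 (by omega), m 2 (by omega), m 4 (by omega), m 6 (by omega), by simp⟩
    · exact ⟨m 4 (by omega), m 6 (by omega), m 8 (by omega), m 10 (by omega), by simp⟩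

end U43

namespace U42

theorem cF : Fintype.card F4 = 2 ^ 2 := rfl
theorem hw : F4.w ^ 2 * F4.w = 1 := by decide
theorem hw' : F4.w * F4.w ≠ 1 := by decide

/-- twisted Fourier matrices -/
def fo (t : F4) (ht : t ^ 2 * t = 1) : SU 3 F4 2 :=
  dg cF ![1, 1, t] (by simp [Fin.forall_fin_succ, ht]) (RingEquiv.refl F4) (fou cF hw hw')

/-- generators of `SU₃(2)` -/
def g3 : List (SU 3 F4 2) := [E0 cF (tor cF hw), E0 cF (wey cF), E1 cF (tor cF hw), E1 cF (wey cF),
  fo 1 (by decide), fo F4.w hw, fo F4.v (by decide)]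

/-- relators in `SU₃(2)` -/
def R3 : List (List ℕ) := [[2,2],[0,0,0],[6,8,8],[0,2,0,2],[2,8,5,8],[2,10,5,10],[2,11,6,10],[0,8,10,8,11]]

/-- the generators as words in two of them -/
def D3 : List (List ℕ) := [[1,10,9,11,9],[3,8,10,10,9],[5,8,8,10,10],[7,8,8],[13,8,10,8,10,8,10]]

/-- a presentation of `SU₃(2)` -/
def R2 : List (List ℕ) := [[0,0,2,0,2,2,1,3],[0,0,2,0,0,3,0,2,1,2]]

/-- the extra relators -/
def X : List (List ℕ) := [[8,16,9,17,11,16,10],[8,18,9,19,11,18,10],[8,8,10,8,16,11,17,10],[8,11,8,18,16,10,8,19]]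

/-- codes of matrices -/
def L : List ℕ := [0x40100c02,0x40100803,0x40100104,0x40100104,0x40300801,0x40200c01,0x40041001,0x40041001,
  0x402d3915,0x40392d15,0x40262935,0x403e1d35,0xc0200401,0x80300401,0x10400401,0x10400401,0xb4e45401,0xe4b45401,
  0x98a4d401,0xf874d401]

/-- generators in the free product -/
def hs : List (Coprod (SU 3 F4 2) (SU 3 F4 2)) := (g3.take 6).map Coprod.inl ++ ((g3.take 6).drop 2).map Coprod.inr

theorem rel3 : ∀ r ∈ R3 ++ D3 ++ R2.map (List.map (· + 8)), ev (TC.ev g3) r = 1 :=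
  ev_of_mdl (matMdl_F4 (Equiv.refl (Fin 4)) 8 5 1 1 16 (by decide +kernel) rfl)
    ((suMat_injective 4 F4 2).comp (emb_inj cF (off 0 (by omega)))) (ρ := (suMat 4 F4 2).comp (F0 cF))
    g3 (L.take 12 ++ [0x402b1925, 0x40373d25]) _ (by decide +kernel) (by decide) (by decide +kernel)

theorem rel4 : ∀ r ∈ X, ev (TC.ev (hs.map (Coprod.lift (F0 cF) (F1 cF)))) r = 1 :=
  ev_of_mdl (matMdl_F4 (Equiv.refl (Fin 4)) 8 5 1 1 16 (by decide +kernel) rfl)
    (suMat_injective 4 F4 2) _ L X (by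
      simp only [hs, List.map_append, List.map_map, Coprod.lift_comp_inl, Coprod.lift_comp_inr, ← MonoidHom.coe_comp]
      decide +kernel) (by decide) (by decide +kernel)

theorem mem2 {P : Type*} [Group P] (φ : SU 2 F4 2 →* P) {K : Subgroup P} (ha : φ (tor cF hw) ∈ K)
    (hb : φ (wey cF) ∈ K) (A : SU 2 F4 2) : φ A ∈ K :=
  mem_su2 cF [[], [0], [1], [0, 0], [0, 1], [1, 0]] (by decide +kernel) φ ha hb A

theorem mem3 {P : Type*} [Group P] (φ : SU 3 F4 2 →* P) {K : Subgroup P} (h0 : φ (fo 1 (by decide)) ∈ K)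
    (h1 : φ (fo F4.w hw) ∈ K) (A : SU 3 F4 2) : φ A ∈ K := by
  have key : ∀ i, ∀ w, (2 * i + 1) :: w ∈ D3 → (∀ a ∈ w, 8 ≤ a ∧ a < 12) → g3.getD i 1 ∈ K.comap φ := fun i w h h' => by
    have := rel3 _ (List.mem_append_left _ (List.mem_append_right _ h))
    rw [ev_cons, TC.ev, if_neg (by omega), inv_mul_eq_one, show (2 * i + 1) / 2 = i by omega] at this
    refine this ▸ ev_mem fun a ha => ?_
    obtain ⟨_, _⟩ := h' a ha
    interval_cases a
    exacts [h0, inv_mem (x := fo _ _) h0, h1, inv_mem (x := fo _ _) h1]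
  refine gen_two cF hw hw' (K := K.comap φ)
    (mem2 (E0 cF) (key 0 [10,9,11,9] (by decide) (by decide)) (key 1 [8,10,10,9] (by decide) (by decide)))
    (mem2 (E1 cF) (key 2 [8,8,10,10] (by decide) (by decide)) (key 3 [8,8] (by decide) (by decide)))
    (fun t ht => ?_) A
  cases t
  exacts [absurd ht (by decide), h0, h1, key 6 [8,10,8,10,8,10] (by decide) (by decide)]

theorem pair : Subgroup.closure {fo 1 (by decide), fo F4.w hw} = ⊤ :=
  eq_top_iff.2 fun A _ => mem3 (MonoidHom.id _) (Subgroup.subset_closure (by simp)) (Subgroup.subset_closure (by simp)) A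

theorem four : Rels (Coprod.lift (F0 cF) (F1 cF)) 4
    fun (_ : Type) _ Φ => FourQ cF (Φ.comp Coprod.inl) (Φ.comp Coprod.inr) :=
  rels_four cF hs X rel4 fun P _ Φ h1 h2 h3 => by
    have r : ∀ r ∈ R3, ev (TC.ev (g3.take 6)) r = 1 := fun r hr =>
      (ev_congr fun a ha => by
        have : a < 12 := (by decide : ∀ r ∈ R3, ∀ a ∈ r, a < 12) r hr a ha
        interval_cases a <;> rfl).trans (rel3 _ (List.mem_append_left _ (List.mem_append_left _ hr)))
    have p : Pres (TC.ev (hs.map Φ)) TC.inv (R3.map (List.map (mvl [0, 1, 2, 3, 4, 5] 10)) ++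
        R3.map (List.map (mvl [2, 3, 6, 7, 8, 9] 10)) ++ [[0,12,1,13],[0,14,1,15],[2,12,3,13],[2,14,3,15]] ++ X) :=
      ((Pres.append ⟨TC.ev_inv _, ev_mvl (Φ.comp Coprod.inl) rfl r⟩
        (ev_mvl (Φ.comp Coprod.inr) (by simp [hs, g3, h1]) r)).append (by
          simp only [List.forall_mem_cons]
          exact ⟨ev_comm 0 6 (h2 _ _), ev_comm 0 7 (h2 _ _), ev_comm 1 6 (h2 _ _), ev_comm 1 7 (h2 _ _), by simp⟩)).append h3
    have i := p.idxLe ((List.range 20).map fun a => [a]) [[0], [2], [4], [6], [8], [10]] CE42.covers (by decide +kernel)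
    have m := mem_gen_range (TC.ev (hs.map Φ)) 20
    refine ⟨_, i.cardLe (cardLe_range (Φ.comp Coprod.inl) (gen_le_iff.2 ?_))
      (by rw [card_SU_succ cF 2, card_SU_succ cF 3]; decide +kernel),
      mem3 (Φ.comp Coprod.inl) (m 8 (by omega)) (m 10 (by omega)),
      mem3 (Φ.comp Coprod.inr) (m 16 (by omega)) (m 18 (by omega))⟩
    simp only [List.forall_mem_cons, ev_singleton]
    exact ⟨⟨_, rfl⟩, ⟨_, rfl⟩, ⟨_, rfl⟩, ⟨_, rfl⟩, ⟨_, rfl⟩, ⟨_, rfl⟩, by simp⟩

theorem hasPres : HasPres (SU 3 F4 2) 2 2 := by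
  have hπ : Surjective (FreeGroup.lift ![fo 1 (by decide), fo F4.w hw]) := by
    rw [← MonoidHom.range_eq_top, FreeGroup.range_lift_eq_closure, ← pair]
    congr 1; ext; simp [or_comm]
  refine (hasPres_free 2).of_rels hπ (rels_words [.of 0, .of 1] R2 fun r hr => ?_) fun P _ Φ θ hΦ hθ h => ?_
  · rw [← rel3 _ (List.mem_append_right _ (List.mem_map_of_mem hr)), ev, ev, List.map_map]
    refine congrArg _ (List.map_congr_left fun a ha => ?_)
    have : a < 4 := (by decide : ∀ r ∈ R2, ∀ a ∈ r, a < 4) r hr a ha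
    interval_cases a <;> simp [TC.ev, g3]
  have i := (Pres.mk (TC.ev_inv _) h).idxLe ((List.range 4).map fun a => [a]) [] CE32.covers (by decide +kernel)
  have m := mem_gen_range (TC.ev ([.of 0, .of 1].map Φ)) 4
  have c := i.cardLe (cardLe_nil _) le_rfl
  have t : gen (TC.ev ([.of 0, .of 1].map Φ)) ((List.range 4).map fun a => [a]) = ⊤ := by
    rw [eq_top_iff, ← MonoidHom.range_eq_top.2 hΦ, MonoidHom.range_eq_map, ← FreeGroup.closure_range_of,
      MonoidHom.map_closure, Subgroup.closure_le]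
    rintro _ ⟨_, ⟨i, rfl⟩, rfl⟩
    fin_cases i
    exacts [m 0 (by omega), m 2 (by omega)]
  rw [t] at c
  have := c.1
  have := Finite.of_equiv _ (Subgroup.topEquiv (G := P)).toEquiv
  refine (Surjective.bijective_of_nat_card_le (fun g => let ⟨x, hx⟩ := hπ g; ⟨Φ x, (hθ x).trans hx⟩) ?_).1
  rw [card_SU_succ cF 2]
  exact Subgroup.card_top.ge.trans (c.2.trans (by decide +kernel))

end U42

end CL.KSG
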