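import Cfsg.Agent.KSG.ShortGenU
import Cfsg.Agent.KSG.ShortPerm
import Cfsg.Agent.KSG.ShortMono

/-!
Bounded presentations of the special unitary groups.
-/

set_option autoImplicit false
set_option linter.unusedSectionVars false

namespace CL.KSG

open Function Monoid Cfsg CL.Chev.Phan CL.Uni CL.SpU Equiv Matrix

universe u

section Gen

variable {G H : Type*} [Group G] [Group H]

theorem pair_of_surj (φ : G →* H) (hφ : Surjective φ) (h : ∃ a b : G, Subgroup.closure {a, b} = ⊤) :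
    ∃ a b : H, Subgroup.closure {a, b} = ⊤ :=
  let ⟨a, b, h⟩ := h
  ⟨φ a, φ b, by rw [← Set.image_pair, ← MonoidHom.map_closure, h, Subgroup.map_top_of_surjective _ hφ]⟩

theorem HasPres.pair {r : ℕ} (h : HasPres G 2 r) : ∃ a b : G, Subgroup.closure {a, b} = ⊤ :=
  let ⟨g, _, _, h⟩ := h
  ⟨g 0, g 1, by rw [← h.closure_eq]; congr 1; ext; simp [eq_comm]⟩

theorem inj_of_surj [Finite G] {ψ : G →* H} (hψ : ψ.range = ⊤) {θ : H →* G} (hθ : Surjective θ) : Injective θ :=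
  have := Finite.of_surjective _ (MonoidHom.range_eq_top.1 hψ)
  (hθ.bijective_of_nat_card_le (Nat.card_le_card_of_surjective _ (MonoidHom.range_eq_top.1 hψ))).1

variable {ι : Type*} [Fintype ι] [DecidableEq ι]

theorem pair_perm (h : 2 ≤ Fintype.card ι) : ∃ a b : Perm ι, Subgroup.closure {a, b} = ⊤ := by
  obtain ⟨σ, hσ⟩ := (Perm.exists_with_cycleType_iff ι (m := {Fintype.card ι})).2 (by simpa using h)
  obtain ⟨x⟩ : Nonempty ι := Fintype.card_pos_iff.1 (by omega)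
  exact ⟨σ, _, Perm.closure_cycle_adjacent_swap (σ := σ) (Perm.card_cycleType_eq_one.1 (by simp [hσ]))
    (Finset.eq_univ_of_card _ (by simp [← Perm.sum_cycleType, hσ])) x⟩

theorem pair_alt (h : 4 ≤ Fintype.card ι) : ∃ a b : alternatingGroup ι, Subgroup.closure {a, b} = ⊤ := by
  refine pair_of_surj (MulEquiv.toMonoidHom _) (Fintype.equivFin ι).symm.altCongrHom.surjective ?_
  generalize Fintype.card ι = n at h
  obtain rfl | h := h.eq_or_lt
  exacts [hasPres_A4.pair, HasPres.pair (hasShortPres h).2.2]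

theorem perm_mem_or {m : ℕ} {K : Subgroup (Perm (Fin (m + 2)))} (h : ∀ i : Fin m,
    swap i.castSucc.castSucc i.castSucc.succ * swap i.succ.castSucc i.succ.succ ∈ K) (x : Perm (Fin (m + 2))) :
    x ∈ K ∨ swap 0 1 * x ∈ K := by
  have h1 : ∀ i : Fin (m + 1), swap 0 1 * swap i.castSucc i.succ ∈ K := fun i => by
    induction i using Fin.induction with
    | zero => simp
    | succ i ih => simpa [mul_assoc] using mul_mem ih (h i)
  induction (Perm.mclosure_swap_castSucc_succ (m + 1) ▸ Submonoid.mem_top x : x ∈ Submonoid.closure _)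
    using Submonoid.closure_induction_left with
  | one => exact Or.inl (one_mem _)
  | mul_left _ hy x _ ih =>
    obtain ⟨i, rfl⟩ := hy
    exact ih.symm.imp (fun h => by simpa [mul_assoc] using mul_mem (inv_mem (h1 i)) h)
      fun h => by simpa [mul_assoc] using mul_mem (h1 i) h

end Gen

section Shift

variable {n k l b b' i j : ℕ} {γ δ : Perm (Fin n)}

/-- `γ` moves the interval of length `k` at `b` to that at `i` -/
def Sh (γ : Perm (Fin n)) (b k i : ℕ) : Prop := ∀ a : Fin n, b ≤ a → a < b + k → (γ a : ℕ) + b = a + i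

theorem Sh.mono (h : Sh γ b k i) (hl : l ≤ k) : Sh γ b l i := fun a h1 h2 => h a h1 (by omega)

theorem Sh.mul (h : Sh γ b k i) (h' : Sh δ 0 l b') (h1 : b ≤ b') (h2 : b' + l ≤ b + k) (e : j + b = i + b') :
    Sh (γ * δ) 0 l j := fun a h3 h4 => by
  have := h' a h3 h4
  have := h (δ a) (by omega) (by omega)
  rw [Perm.mul_apply]; omega

theorem Sh.off (h : Sh γ 0 k i) (h0 : 0 + k ≤ n) (h1 : i + k ≤ n) (a : Fin k) : γ (off 0 h0 a) = off i h1 a :=
  Fin.ext (by have := h (Chev.Phan.off 0 h0 a) (by simp) (by simp); simp at this ⊢; omega)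

variable {Γ : Subgroup (Perm (Fin n))} {P M N : Type*} [Group P] [Group M] [Group N] {c : Γ →* P}

theorem exists_sh (hΓ : alternatingGroup _ ≤ Γ) (h1 : k ≤ b) (h3 : i + k ≤ j) (h4 : j + l ≤ n)
    (h : Γ = ⊤ ∨ ∃ x y, x < y ∧ y < n ∧ k ≤ x ∧ (x < b ∨ b + l ≤ x) ∧ (y < b ∨ b + l ≤ y)) :
    ∃ γ : Γ, Sh γ.1 0 k i ∧ Sh γ.1 b l j := by
  let g : {a : Fin n // a < k ∨ b ≤ a ∧ a < b + l} → Fin n := fun a =>
    ⟨if a < k then a + i else a - b + j, by have := a.2; split_ifs <;> omega⟩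
  have hg : Injective g := fun a a' e => Subtype.ext (Fin.ext (by
    have := a.2; have := a'.2; simp only [g, Fin.mk.injEq] at e; split_ifs at e <;> omega))
  obtain ⟨γ, hγ⟩ : ∃ γ : Γ, ∀ a, γ.1 a.1 = g a := by
    obtain rfl | ⟨x, y, h5, h6, h7⟩ := h
    · exact let ⟨σ, h⟩ := Perm.exists_extending_pair _ g Subtype.val_injective hg; ⟨⟨σ, trivial⟩, h⟩
    obtain ⟨σ, h⟩ := exists_alt_map Subtype.val_injective hg (a := ⟨x, by omega⟩) (b := ⟨y, h6⟩) (by simp; omega)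
    refine ⟨⟨σ, hΓ σ.2⟩, h.elim id fun h a => ?_⟩
    have := a.2
    rw [← h, swap_apply_of_ne_of_ne] <;> simp [Fin.ext_iff] <;> omega
  exact ⟨γ, fun a h5 h6 => by rw [hγ ⟨a, by omega⟩]; simp only [g]; split_ifs <;> omega,
    fun a h5 h6 => by rw [hγ ⟨a, by omega⟩]; simp only [g]; split_ifs <;> omega⟩

theorem rels_stab {G H : Type*} [Group G] [Group H] {π : H →* G} (hΓ : Γ = alternatingGroup _ ∧ k + 4 ≤ n ∨ Γ = ⊤ ∧ k + 2 ≤ n)
    (hN : ∃ a b : N, Subgroup.closure {a, b} = ⊤) (c : Γ →* H) (g : N →* H)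
    (h : ∀ γ : Γ, Sh γ.1 0 k 0 → ∀ A, Commute (π (c γ)) (π (g A))) :
    Rels π 4 fun (_ : Type u) _ Φ => ∀ γ : Γ, Sh γ.1 0 k 0 → ∀ A, Commute (Φ (c γ)) (Φ (g A)) := by
  have hc : Fintype.card {a : Fin n // k ≤ a} = n - k := by
    rw [Fintype.card_subtype]
    by_cases h : k < n
    · rw [← Fin.card_Ici ⟨k, h⟩]; congr 1; ext; simp [Fin.le_def]
    · omega
  refine (rels_commute_hom₂ (M := Γ.comap (Perm.ofSubtype (p := fun a : Fin n => k ≤ a))) ?_ hN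
    (f := c.comp (MonoidHom.subgroupComap _ _)) (g := g) fun x => h _ fun a _ h =>
      congrArg (·.val + 0) (Perm.ofSubtype_apply_of_not_mem x.1 (by omega))).imp le_rfl fun P _ Φ h γ hγ => ?_
  · obtain ⟨rfl, _⟩ | ⟨rfl, _⟩ := hΓ
    · rw [show Subgroup.comap _ _ = alternatingGroup _ by ext; simp]; exact pair_alt (by omega)
    · exact pair_of_surj (MulEquiv.toMonoidHom _) Subgroup.topEquiv.symm.surjective (pair_perm (by omega))
  have e : ∀ a, γ.1 a ≠ a → k ≤ a := fun a h => by_contra fun h' => h (Fin.ext (hγ a (by omega) (by omega)))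
  obtain ⟨σ, e'⟩ : ∃ σ : Perm {a : Fin n // k ≤ a}, Perm.ofSubtype σ = γ.1 := ⟨_, Perm.ofSubtype_subtypePerm (fun a =>
    ⟨fun h => by_contra fun h' => h' (by
    rwa [show γ.1 a = a from by_contra fun e' => h' (e a e')] at h), fun h => by_contra fun h' => h' (by
      rwa [γ.1.injective (show γ.1 (γ.1 a) = _ from by_contra fun e' => h' (e _ e'))])⟩) e⟩
  exact (Subtype.ext e' : MonoidHom.subgroupComap _ Γ ⟨σ, show _ ∈ Γ by rw [e']; exact γ.2⟩ = γ) ▸ h _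

theorem exists_fam {x : M →* P} (h : ∀ γ : Γ, Sh γ.1 0 k 0 → ∀ A, Commute (c γ) (x A)) :
    ∃ X : ℕ → M →* P, ∀ (γ : Γ) i, Sh γ.1 0 k i → ∀ A, X i A = c γ * x A * (c γ)⁻¹ := by
  classical
  refine ⟨fun i => if h : ∃ γ : Γ, Sh γ.1 0 k i then (MulAut.conj (c h.choose)).toMonoidHom.comp x else 1,
    fun γ i hγ A => ?_⟩
  beta_reduce
  rw [dif_pos ⟨γ, hγ⟩]
  have h1 := (⟨γ, hγ⟩ : ∃ γ : Γ, Sh γ.1 0 k i).choose_spec
  generalize Exists.choose _ = δ at h1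
  have := (h (δ⁻¹ * γ) (fun a h2 h3 => congrArg (·.val + 0) (Perm.inv_eq_iff_eq.2
    (Fin.ext ((hγ a h2 h3).trans (h1 a h2 h3).symm)))) A).eq
  rw [map_mul, map_inv, mul_assoc, inv_mul_eq_iff_eq_mul] at this
  simp [this, mul_assoc]

theorem comm_fam {x : M →* P} {y : N →* P} {X : ℕ → M →* P} {Y : ℕ → N →* P}
    (hX : ∀ (γ : Γ) i, Sh γ.1 0 k i → ∀ A, X i A = c γ * x A * (c γ)⁻¹)
    (hY : ∀ (γ : Γ) i, Sh γ.1 0 l i → ∀ A, Y i A = c γ * y A * (c γ)⁻¹) {δ : Γ} (hδ : Sh δ.1 0 l 3)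
    (h : ∀ A B, Commute (x A) (c δ * y B * (c δ)⁻¹)) (hγ : ∃ γ : Γ, Sh γ.1 0 k i ∧ Sh γ.1 3 l j) (A : M) (B : N) :
    Commute (X i A) (Y j B) := by
  obtain ⟨γ, h1, h2⟩ := hγ
  rw [hX γ i h1, hY (γ * δ) j (h2.mul hδ le_rfl le_rfl rfl)]
  simpa [mul_assoc] using (h A B).conj (c γ)

end Shift

variable {F : Type u} [Field F] [Fintype F] {q : ℕ} (hF : Fintype.card F = q ^ 2) {k n d r e s : ℕ}
  {P : Type*} [Group P]

theorem conj_emb_of {M : SU n F q} {g g' : Fin k ↪ Fin n} (h : ∀ i, ♭M *ᵥ Pi.single (g i) 1 = Pi.single (g' i) 1)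
    (A : SU k F q) : M * emb hF g A * M⁻¹ = emb hF g' A := by
  have h1 : ♭M * inc F g = inc F g' := Matrix.ext_of_mulVec_single fun i => by
    rw [← mulVec_mulVec, inc_single, inc_single, h]
  have h2 : (inc F g')ᵀ * ♭M = (inc F g)ᵀ := by
    ext i c
    have := B_mat hF M (Pi.single (g i) 1) (Pi.single c 1)
    rw [h, B_single, B_single] at this
    simpa [Matrix.mul_apply, inc_apply, Pi.single_apply, eq_comm] using this
  refine mul_inv_eq_iff_eq_mul.2 (mat_ext ?_)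
  rw [map_mul, map_mul, mat_emb, mat_emb, embM, embM, Matrix.mul_add, Matrix.add_mul, ← h2, ← Matrix.mul_assoc,
    ← Matrix.mul_assoc, ← Matrix.mul_assoc, h1, mul_one, one_mul]

include hF in
theorem pair_SU2 : ∃ a b : SU 2 F q, Subgroup.closure {a, b} = ⊤ :=
  let ⟨e, _⟩ := exists_coord hF
  have := Fintype.ofFinite (SqField.fixedSubfield hF)
  pair_of_surj e.toMonoidHom e.surjective (exists_pair_SL (n := 0))

theorem comm_three (hq : 3 ≤ q) {x : P} {v : SU 3 F q →* P} (h0 : ∀ A, Commute x (v (E0 hF A)))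
    (h1 : ∀ A, Commute x (v (E1 hF A))) (A : SU 3 F q) : Commute x (v A) :=
  (Subgroup.mem_centralizer_singleton_iff.1 (gen_three hF hq (K := (Subgroup.centralizer {x}).comap v)
    (fun s => Subgroup.mem_centralizer_singleton_iff.2 (h0 s).symm)
    (fun s => Subgroup.mem_centralizer_singleton_iff.2 (h1 s).symm) A)).symm

theorem rels_four' {H : Type u} [Group H] {π : H →* SU n F q} (hn : 4 ≤ n) {v : SU 3 F q →* H} {t : H}
    (h0 : ∀ A, π (v A) = emb hF (off 0 (by omega)) A) (h1 : ∀ A, π (t * v A * t⁻¹) = emb hF (off 1 (by omega)) A)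
    (h4 : Rels (Coprod.lift (F0 hF) (F1 hF)) k fun (_ : Type u) _ Φ =>
      4 ≤ q ∨ FourQ hF (Φ.comp Coprod.inl) (Φ.comp Coprod.inr)) :
    Rels π k fun (P : Type u) _ Φ => (∀ A, Φ t * Φ (v (E0 hF A)) * (Φ t)⁻¹ = Φ (v (E1 hF A))) →
      (∀ A B, Commute (Φ (v (E0 hF A))) (Φ t * Φ (v (E1 hF B)) * (Φ t)⁻¹)) → 4 ≤ q ∨
        ∃ w : SU 4 F q →* P, (∀ A, w (F0 hF A) = Φ (v A)) ∧ ∀ A, w (F1 hF A) = Φ t * Φ (v A) * (Φ t)⁻¹ :=
  (h4.comap (Coprod.lift v ((MulAut.conj t).toMonoidHom.comp v)) (emb hF (off 0 (by omega)))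
    (DFunLike.congr_fun (f := (emb hF _).comp _) (g := π.comp _) (Coprod.hom_ext
      (MonoidHom.ext fun A => by simp [emb_off, h0]) (MonoidHom.ext fun A => by simpa [emb_off] using (h1 A).symm)))).imp
    le_rfl fun _ _ Φ h a b => h.imp_right fun h => by
      simpa using h (fun A => by simp [a]) fun A B => by simpa using b A B

theorem hasPres_SU_small (hn : n = 4 ∨ n = 5) (h3 : HasPres (SU 3 F q) d r)
    (h2 : ∃ a b : SU 3 F q, Subgroup.closure {a, b} = ⊤)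
    (h4 : Rels (Coprod.lift (F0 hF) (F1 hF)) k fun (_ : Type u) _ Φ =>
      4 ≤ q ∨ FourQ hF (Φ.comp Coprod.inl) (Φ.comp Coprod.inr)) : HasPres (SU n F q) (d + 1) (r + (11 + k)) := by
  obtain ⟨m, rfl⟩ : ∃ m, n = m + 1 := ⟨n - 1, by omega⟩
  obtain ⟨t, ht⟩ := exists_SU hF (on_single hF (off (k := m) (N := m + 1) 0 (by omega)))
    (on_single hF (off 1 (by omega))) (by omega)
  have c1 : ∀ {l} i (h : i + 1 + l ≤ m + 1) A, t * emb hF (off i (by omega)) A * t⁻¹ = emb hF (off (i + 1) h) A :=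
    fun i h => conj_emb_of hF fun a => by
      rw [show off i _ a = off 0 (by omega) (⟨i + a, by omega⟩ : Fin m) by ext; simp, ht]; congr 1; ext; simp; omega
  have c2 : ∀ {l} i (h : i + l ≤ m + 1) A, t ^ i * emb hF (off 0 (by omega)) A * (t ^ i)⁻¹ = emb hF (off i h) A :=
    fun i => by
    induction i with
    | zero => simp
    | succ i ih => exact fun h A => by rw [← c1, ← ih (by omega)]; group
  let π : Coprod (SU 3 F q) (FreeGroup (Fin 1)) →* SU (m + 1) F q :=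
    Coprod.lift (emb hF (off 0 (by omega))) (FreeGroup.lift fun _ => t)
  let v : SU 3 F q →* Coprod (SU 3 F q) (FreeGroup (Fin 1)) := Coprod.inl
  let T : Coprod (SU 3 F q) (FreeGroup (Fin 1)) := Coprod.inr (.of 0)
  obtain ⟨V, V0⟩ : ∃ V : ℕ → SU 3 F q →* _, ∀ i A, V i A = T ^ i * v A * (T ^ i)⁻¹ :=
    ⟨fun i => (MulAut.conj (T ^ i)).toMonoidHom.comp v, fun _ _ => rfl⟩
  have πv : ∀ A, π (v A) = emb hF (off 0 (by omega)) A := fun _ => rfl
  have πT : π T = t := by simp [π, T]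
  have πV : ∀ i (h : i + 3 ≤ m + 1) A, π (V i A) = emb hF (off i h) A := fun i h A => by simp [V0, πv, πT, c2 i h]
  have πU : ∀ i (h : i + 2 ≤ m + 1) A, π (V i (E0 hF A)) = emb hF (off i h) A := fun i h A => by
    simp [V0, πv, πT, emb_off, c2 i h]
  have hs : ∀ g, g ∈ (⨆ i, ⨆ (_ : i + 3 ≤ m + 1), (V i).range).map π := gen_ind hF (by omega) (fun i h A => by
      rcases i with _ | i
      · exact ⟨_, Subgroup.mem_iSup_of_mem 0 (Subgroup.mem_iSup_of_mem (by omega) ⟨_, rfl⟩), πU 0 h A⟩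
      · exact ⟨_, Subgroup.mem_iSup_of_mem i (Subgroup.mem_iSup_of_mem h ⟨E1 hF A, rfl⟩), by rw [πV i h, emb_off]⟩)
    fun i h A => ⟨_, Subgroup.mem_iSup_of_mem i (Subgroup.mem_iSup_of_mem h ⟨_, rfl⟩), πV i h A⟩
  obtain ⟨y, hy, ey⟩ := hs t
  have r1 : Rels π 8 fun (_ : Type u) _ Φ => (∀ j, 2 ≤ j → j + 2 ≤ m + 1 → ∀ A B, Commute (Φ (v (E0 hF A))) (Φ (V j (E0 hF B)))) ∧
      (∀ j, 2 ≤ j → j + 3 ≤ m + 1 → ∀ A B, Commute (Φ (v (E0 hF A))) (Φ (V j B))) ∧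
      ∀ j, 3 ≤ j → j + 2 ≤ m + 1 → ∀ A B, Commute (Φ (v A)) (Φ (V j (E0 hF B))) := by
    obtain h | h := hn
    · refine (rels_commute_hom₂ (pair_SU2 hF) (pair_SU2 hF) (f := v.comp (E0 hF)) (g := (V 2).comp (E0 hF))
        fun A B => ?_).imp (by omega) fun _ _ Φ h => ⟨fun j _ _ => ?_, by omega, by omega⟩
      · simpa only [MonoidHom.comp_apply, πv, emb_off, πU 2 (by omega)] using emb_comm hF _ _ le_rfl A B
      · exact (by omega : 2 = j) ▸ h
    refine ((rels_commute_hom₂ (pair_SU2 hF) h2 (f := v.comp (E0 hF)) (g := V 2) fun A B => ?_).and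
      (rels_commute_hom₂ h2 (pair_SU2 hF) (f := v) (g := (V 3).comp (E0 hF)) fun A B => ?_)).imp le_rfl
      fun _ _ Φ h => ⟨fun j _ _ A B => ?_, fun j _ _ => (by omega : 2 = j) ▸ h.1, fun j _ _ => (by omega : 3 = j) ▸ h.2⟩
    · simpa only [MonoidHom.comp_apply, πv, emb_off, πV 2 (by omega)] using emb_comm hF _ _ le_rfl A B
    · simpa only [MonoidHom.comp_apply, πv, πU 3 (by omega)] using emb_comm hF _ _ le_rfl A B
    · obtain rfl | rfl : j = 2 ∨ j = 3 := by omega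
      exacts [h.1 _ _, h.2 _ _]
  have hπ : Surjective π := fun g => let ⟨x, _, h⟩ := hs g; ⟨x, h⟩
  refine ((h3.coprod (hasPres_free 1)).of_rels hπ (((r1.and (rels_hom (pair_SU2 hF) (f := (V 1).comp (E0 hF))
    (g := v.comp (E1 hF)) fun A => by simp only [MonoidHom.comp_apply, πU 1 (by omega), πv, emb_off])).and
    (rels_eq (πT.trans ey.symm))).and (rels_four' hF (n := m + 1) (by omega) πv (t := T) (by simpa [V0] using πV 1 (by omega)) h4))
    fun P _ Φ θ hΦ hθ ⟨⟨⟨⟨q1, q2, q3⟩, q4⟩, q5⟩, q6⟩ => ?_).mono (by omega)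
  have hV : ∀ i j A, Φ (V (i + j) A) = Φ T ^ i * Φ (V j A) * (Φ T ^ i)⁻¹ := fun i j A => by
    simp [V0, pow_add, mul_assoc]
  have hc : ∀ i j, i ≤ j → ∀ {A B}, Commute (Φ (v A)) (Φ (V (j - i) B)) → Commute (Φ (V i A)) (Φ (V j B)) :=
    fun i j h A B h' => by
    rw [← Nat.add_sub_cancel' h, hV]; simpa [V0] using h'.conj (Φ T ^ i)
  have c3 : ∀ i A, Φ (V i (E1 hF A)) = Φ (V (i + 1) (E0 hF A)) := fun i A => by
    rw [hV, show Φ (V 1 _) = _ from q4 A]; simp [V0]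
  obtain ⟨ψ, -, hψ⟩ := Sys.glue (hF := hF) (u := fun i => (Φ.comp (V i)).comp (E0 hF)) (v := fun i => Φ.comp (V i))
    (n := m + 1) ⟨fun _ _ _ => rfl, fun i _ => c3 i, fun i j _ _ A B => hc i j (by omega) (q1 _ (by omega) (by omega) A B),
      fun i j _ _ A B => hc i j (by omega) (q2 _ (by omega) (by omega) A B),
      fun i j _ _ A B => hc i j (by omega) (q3 _ (by omega) (by omega) A B), by omega,
      (q6 (by simpa [V0] using q4) fun A B => by
        simpa [V0] using (c3 1 B ▸ q1 (1 + 1) le_rfl (by omega) A B : Commute _ (Φ (V 1 _)))).imp_right fun ⟨w, w0, w1⟩ i _ =>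
        ⟨(MulAut.conj (Φ T ^ i)).toMonoidHom.comp w, fun A => by simp [w0, V0, -map_pow, Φ.map_pow],
          fun A => by simp [w1, V0, -map_pow, Φ.map_pow, pow_succ, mul_assoc]⟩⟩
    (k := m + 1) (by omega) (a := 0) (by omega)
  have e : ∀ i, i + 3 ≤ m + 1 → ∀ A, Φ (V i A) ∈ ψ.range := fun i h A => ⟨_, (hψ i h A).trans (by simp)⟩
  refine inj_of_surj (surj_of_coprod hΦ ψ.range (by simpa [V0] using e 0 (by omega))
    (free_mem (Φ.comp Coprod.inr) _ fun i => ?_)) fun g => let ⟨x, h⟩ := hπ g; ⟨_, (hθ x).trans h⟩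
  obtain rfl : i = 0 := Subsingleton.elim _ _
  exact q5 ▸ (iSup₂_le fun i h => by rintro _ ⟨A, rfl⟩; exact e i h A : _ ≤ ψ.range.comap Φ) hy

/-- permutation matrices -/
def permSU (Γ : Subgroup (Perm (Fin n))) (h : ∀ σ ∈ Γ, ((Perm.sign σ : ℤ) : F) = 1) : Γ →* SU n F q where
  toFun σ := mkSU hF (permMatrixHom σ.1) (by
      rw [show ct hF (permMatrixHom σ.1) = permMatrixHom σ.1⁻¹ by
        ext a b; simp [ct_apply, permMatrixHom, PEquiv.toMatrix_apply, SqField.q_ne_zero hF, Equiv.eq_symm_apply,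
          Perm.inv_def, eq_comm], ← map_mul, inv_mul_cancel, map_one])
    (by rw [permMatrixHom_apply, det_permutation]; simpa using h _ σ.2)
  map_one' := mat_ext (map_one permMatrixHom)
  map_mul' _ _ := mat_ext (map_mul permMatrixHom _ _)

theorem permSU_single {Γ : Subgroup (Perm (Fin n))} (h : ∀ σ ∈ Γ, ((Perm.sign σ : ℤ) : F) = 1) (σ : Γ) (a : Fin n) :
    ♭(permSU hF Γ h σ) *ᵥ Pi.single a 1 = Pi.single (σ.1 a) 1 := by
  change (permMatrixHom σ.1 : Matrix _ _ F) *ᵥ _ = _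
  ext b; simp [permMatrixHom, PEquiv.toMatrix_apply, Pi.single_apply, Equiv.symm_apply_eq, Perm.inv_def]

theorem hasPres_SU_big {m : ℕ} {Γ : Subgroup (Perm (Fin (m + 6)))} (hΓ : 3 ≤ q ∧ Γ = alternatingGroup _ ∨ q = 2 ∧ Γ = ⊤)
    (hA : HasPres Γ e s) (h3 : HasPres (SU 3 F q) d r) (h2 : ∃ a b : SU 3 F q, Subgroup.closure {a, b} = ⊤)
    (h4 : Rels (Coprod.lift (F0 hF) (F1 hF)) k fun (_ : Type u) _ Φ =>
      4 ≤ q ∨ FourQ hF (Φ.comp Coprod.inl) (Φ.comp Coprod.inr)) :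
    HasPres (SU (m + 6) F q) (d + e) (r + s + (9 + k + if q = 2 then 9 else 0)) := by
  have hle : alternatingGroup _ ≤ Γ := by rcases hΓ with ⟨-, rfl⟩ | ⟨-, rfl⟩ <;> simp
  have hsg : ∀ σ ∈ Γ, ((Perm.sign σ : ℤ) : F) = 1 := fun σ h => by
    obtain ⟨-, rfl⟩ | ⟨rfl, -⟩ := hΓ
    · simp [Perm.mem_alternatingGroup.1 h]
    · rcases Int.units_eq_one_or (Perm.sign σ) with h | h <;> simp [h]
      linear_combination -two_zero hF
  have t1 : ∀ k ≤ 4, ∀ i, i + k ≤ m + 6 → ∃ γ : Γ, Sh γ.1 0 k i := fun k _ i _ =>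
    (exists_sh (b := k) (l := 0) hle le_rfl le_rfl (by omega) (Or.inr ⟨4, 5, by omega⟩)).imp fun _ h => h.1
  let μ := permSU hF Γ hsg
  let π : Coprod (SU 3 F q) Γ →* SU (m + 6) F q := Coprod.lift (emb hF (off 0 (by omega))) μ
  let v : SU 3 F q →* Coprod (SU 3 F q) Γ := Coprod.inl
  let c : Γ →* Coprod (SU 3 F q) Γ := Coprod.inr
  have πv : ∀ A, π (v A) = emb hF (off 0 (by omega)) A := fun _ => rfl
  have πc : ∀ γ, π (c γ) = μ γ := fun _ => rfl
  have cj : ∀ {k i} {γ : Γ} (_ : Sh γ.1 0 k i) (h : i + k ≤ m + 6) A,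
      μ γ * emb hF (off 0 (by omega)) A * (μ γ)⁻¹ = emb hF (off i h) A := fun h h' =>
    conj_emb_of hF fun a => by rw [permSU_single, h.off _ h']
  have ex : ∀ γ : Γ, (∀ a : Fin (m + 6), 3 ≤ (a : ℕ) → γ.1 a = a) → ∃ B, π (c γ) = π (v B) := fun γ h =>
    (exists_emb hF (k := 3) (i := 0) (A := μ γ) (by omega) fun a ha => by
      rw [permSU_single, h a (by omega)]).imp fun _ h => h.symm
  have v2 : ((2 : Fin (m + 6)) : ℕ) = 2 := rfl
  have n02 : (0 : Fin (m + 6)) ≠ 2 := Fin.ne_of_val_ne (show 0 ≠ 2 by decide)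
  have n12 : (1 : Fin (m + 6)) ≠ 2 := Fin.ne_of_val_ne (show 1 ≠ 2 by decide)
  have n3 : ∀ a : Fin (m + 6), 3 ≤ (a : ℕ) → a ≠ 0 ∧ a ≠ 1 ∧ a ≠ 2 := fun a h => by
    simp only [Ne, Fin.ext_iff, Fin.val_zero, Fin.val_one, v2]; omega
  let σ : Γ := ⟨swap 0 1 * swap 1 2, hle (by simp [n12])⟩
  have σ0 : ∀ a : Fin (m + 6), 3 ≤ (a : ℕ) → σ.1 a = a := fun a h => by simp [σ, swap_apply_def, n3 a h]
  have σ1 : Sh σ.1 0 2 1 := fun a _ h => by
    obtain rfl | rfl : a = 0 ∨ a = 1 := by simp only [Fin.ext_iff, Fin.val_zero, Fin.val_one]; omega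
    all_goals simp [σ, swap_apply_def, n02, n02.symm, n12.symm]
  obtain ⟨B, hB⟩ := ex σ σ0
  have eB : ∀ A, B * E0 hF A * B⁻¹ = E1 hF A := fun A => emb_inj hF (off (N := m + 6) 0 (by omega)) (by
    rw [map_mul, map_mul, map_inv, ← πv B, ← hB, emb_off, emb_off, πc, cj σ1])
  obtain ⟨δ, hδ⟩ := t1 3 (by omega) 3 (by omega)
  obtain ⟨ε, hε⟩ := t1 3 (by omega) 1 (by omega)
  have hπ : Surjective π := gen_ind hF (by omega) (K := π.range)
    (fun i h A => let ⟨γ, hγ⟩ := t1 2 (by omega) i h; ⟨c γ * v (E0 hF A) * (c γ)⁻¹, by simp [πv, πc, emb_off, cj hγ h]⟩)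
    fun i h A => let ⟨γ, hγ⟩ := t1 3 (by omega) i h; ⟨c γ * v A * (c γ)⁻¹, by simp [πv, πc, cj hγ h]⟩
  have r1 : Rels π (if q = 2 then 9 else 0) fun (_ : Type u) _ Φ => q = 2 →
      ((∃ B, ∀ h, Φ (c ⟨swap 0 1, h⟩) = Φ (v B)) ∧ ∀ γ : Γ, Sh γ.1 0 3 0 → ∀ A, Commute (Φ (c γ)) (Φ (v A))) ∧
        ∀ A B, Commute (Φ (v A)) (Φ (c δ) * Φ (v B) * (Φ (c δ))⁻¹) := by
    split_ifs with h
    · obtain rfl := (hΓ.resolve_left (by omega)).2
      obtain ⟨B, hB⟩ := ex ⟨swap 0 1, trivial⟩ fun a h => by simp [swap_apply_def, n3 a h]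
      exact (((rels_eq hB).and (rels_stab (Or.inr ⟨rfl, by omega⟩) h2 c v fun γ h A =>
        mul_inv_eq_iff_eq_mul.1 (cj h (by omega) A))).and (rels_commute_hom₂ h2 h2 (f := v)
        (g := (MulAut.conj (c δ)).toMonoidHom.comp v) fun A B => by
          simpa [πv, πc, cj hδ (by omega)] using emb_comm hF _ _ le_rfl A B)).imp le_rfl
        fun _ _ _ h _ => ⟨⟨⟨B, fun _ => h.1.1⟩, h.1.2⟩, by simpa using h.2⟩
    · exact ⟨[], le_rfl, by simp, fun _ _ _ _ => (h · |>.elim)⟩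
  refine ((h3.coprod hA).of_rels hπ (((((rels_eq hB).and (rels_stab (k := 2) (hΓ.imp (⟨·.2, by omega⟩) (⟨·.2, by omega⟩))
    (pair_SU2 hF) c (v.comp (E0 hF)) fun γ h A => mul_inv_eq_iff_eq_mul.1 (by
      simpa [πv, πc, emb_off] using cj h (by omega) A))).and (rels_commute_hom₂ (pair_SU2 hF) (pair_SU2 hF)
    (f := v.comp (E0 hF)) (g := (MulAut.conj (c δ)).toMonoidHom.comp (v.comp (E0 hF))) fun A B => by
      simpa [πv, πc, emb_off, cj (hδ.mono (l := 2) (by omega)) (by omega)] using emb_comm hF _ _ (by omega) A B)).and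
    (rels_four' hF (n := m + 6) (by omega) πv (t := c ε) (fun A => by simp [πv, πc, cj hε (by omega)]) h4)).and r1)
    fun P _ Φ θ hΦ hθ ⟨⟨⟨⟨q1, q2⟩, q3⟩, q4⟩, q5⟩ => ?_).mono (by omega)
  have e1 : ∀ A, Φ (c σ) * Φ (v (E0 hF A)) * (Φ (c σ))⁻¹ = Φ (v (E1 hF A)) := fun A => by simp [q1, ← eB]
  have e2 : ∀ γ : Γ, Sh γ.1 0 3 0 → ∀ A, Commute (Φ (c γ)) (Φ (v A)) := fun γ h => by
    refine hΓ.elim (fun h' => comm_three hF h'.1 (v := Φ.comp v) (q2 γ (h.mono (by omega))) fun A => ?_)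
      fun h' => (q5 h'.1).1.2 γ h
    have : Commute γ σ := Subtype.ext (Perm.Disjoint.commute fun a =>
      (lt_or_ge (a : ℕ) 3).imp (fun h' => Fin.ext (h a (by omega) (by omega))) (σ0 a))
    exact e1 A ▸ ((this.map (Φ.comp c)).mul_right (q2 γ (h.mono (by omega)) A)).mul_right (this.map (Φ.comp c)).inv_right
  obtain ⟨U, hU⟩ := exists_fam (c := Φ.comp c) (x := Φ.comp (v.comp (E0 hF))) q2
  obtain ⟨V, hV⟩ := exists_fam (c := Φ.comp c) (x := Φ.comp v) e2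
  have c0 : ∀ i, i + 3 ≤ m + 6 → ∀ A, V i (E0 hF A) = U i A := fun i h A =>
    let ⟨γ, hγ⟩ := t1 3 (by omega) i h; (hV γ i hγ _).trans (hU γ i (hγ.mono (by omega)) _).symm
  have c1 : ∀ i, i + 3 ≤ m + 6 → ∀ A, V i (E1 hF A) = U (i + 1) A := fun i h A => by
    obtain ⟨γ, hγ⟩ := t1 3 (by omega) i h
    rw [hV γ i hγ, hU (γ * σ) _ (hγ.mul σ1 (by omega) le_rfl rfl)]
    simp [← e1, mul_assoc]
  have uu : ∀ i j, i + 2 ≤ j → j + 2 ≤ m + 6 → ∀ A B, Commute (U i A) (U j B) := fun i j h h' =>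
    comm_fam hU hU (hδ.mono (by omega)) (by simpa using q3) (exists_sh hle (by omega) h h' (Or.inr ⟨2, 5, by omega⟩))
  obtain ⟨uv, vu, vv⟩ : (∀ i j, i + 2 ≤ j → j + 3 ≤ m + 6 → ∀ A B, Commute (U i A) (V j B)) ∧
      (∀ i j, i + 3 ≤ j → j + 2 ≤ m + 6 → ∀ A B, Commute (V i A) (U j B)) ∧
      ∀ i j, i + 3 ≤ j → j + 3 ≤ m + 6 → ∀ A B, Commute (V i A) (V j B) := by
    obtain ⟨hq, -⟩ | ⟨hq, h⟩ := hΓ
    · have uv : ∀ i j, i + 2 ≤ j → j + 3 ≤ m + 6 → ∀ A B, Commute (U i A) (V j B) := fun i j h h' A =>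
        comm_three hF hq (fun B => c0 j h' B ▸ uu _ _ h (by omega) A B) fun B => c1 j h' B ▸ uu _ _ (by omega) h' A B
      exact ⟨uv, fun i j h h' A B => (comm_three hF hq (fun A => c0 i (by omega) A ▸ (uu _ _ (by omega) h' A B).symm)
        (fun A => c1 i (by omega) A ▸ (uu _ _ h h' A B).symm) A).symm, fun i j h h' A B =>
        (comm_three hF hq (fun A => c0 i (by omega) A ▸ (uv _ _ (by omega) h' A B).symm)
          (fun A => c1 i (by omega) A ▸ (uv _ _ h h' A B).symm) A).symm⟩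
    exact ⟨fun i j h1 h2 => comm_fam hU hV hδ (fun _ _ => (q5 hq).2 _ _) (exists_sh hle (by omega) h1 h2 (Or.inl h)),
      fun i j h1 h2 => comm_fam hV hU (hδ.mono (by omega)) (fun _ _ => (q5 hq).2 _ _)
        (exists_sh hle le_rfl h1 h2 (Or.inl h)),
      fun i j h1 h2 => comm_fam hV hV hδ (q5 hq).2 (exists_sh hle le_rfl h1 h2 (Or.inl h))⟩
  have V0 : ∀ A, V 0 A = Φ (v A) := fun A => by simp [hV 1 0 fun _ _ _ => rfl]
  have V1 : ∀ A, Φ (c ε) * Φ (v A) * (Φ (c ε))⁻¹ = V 1 A := fun A => (hV ε 1 hε A).symm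
  obtain ⟨ψ, -, hψ⟩ := Sys.glue (hF := hF) ⟨c0, c1, uu, uv, vu, vv, (q4 (fun A => by rw [V1, ← V0, c0, c1] <;> omega)
    fun A B => by rw [V1, ← V0, c0, c1]; apply uu; all_goals omega).imp_right fun ⟨w, w0, w1⟩ i h =>
      let ⟨γ, hγ⟩ := t1 4 le_rfl i h
      ⟨(MulAut.conj (Φ (c γ))).toMonoidHom.comp w, fun A => by simp [w0, hV γ i (hγ.mono (by omega))],
        fun A => by simp [w1, hV (γ * ε) _ (hγ.mul hε (by omega) le_rfl rfl), mul_assoc]⟩⟩
    (k := m + 6) (by omega) (a := 0) (by omega)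
  have e : ∀ i, i + 3 ≤ m + 6 → ∀ A, V i A ∈ ψ.range := fun i h A => ⟨_, (hψ i h A).trans (by simp)⟩
  refine inj_of_surj (surj_of_coprod hΦ ψ.range (fun A => V0 A ▸ e 0 (by omega) A) fun γ => ?_)
    fun g => let ⟨x, h⟩ := hπ g; ⟨_, (hθ x).trans h⟩
  have key : ∀ x : Γ, x.1 ∈ (ψ.range.comap (Φ.comp c)).map Γ.subtype → Φ (c x) ∈ ψ.range := by
    rintro x ⟨y, h, e⟩; exact Subtype.ext e ▸ h
  refine (perm_mem_or (K := (ψ.range.comap (Φ.comp c)).map Γ.subtype) (fun i => ?_) γ.1).elim (key γ) fun h => ?_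
  · obtain ⟨γ, hγ⟩ := t1 3 (by omega) i (by omega)
    refine ⟨γ * σ * γ⁻¹, by simpa [q1, hV γ i hγ] using e i (by omega) B, ?_⟩
    have a0 := hγ 0 le_rfl (by simp)
    have a1 := hγ 1 (by simp) (by simp)
    have a2 := hγ 2 (by omega) (by omega)
    change γ.1 * (swap 0 1 * swap 1 2) * γ.1⁻¹ = _
    rw [← conj_mul, ← swap_apply_apply, ← swap_apply_apply]
    congr 2 <;> ext <;> simp only [Fin.val_zero, Fin.val_one, Fin.val_castSucc, Fin.val_succ] at a0 a1 ⊢ <;> omega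
  obtain ⟨-, rfl⟩ | ⟨hq, rfl⟩ := hΓ
  · obtain ⟨y, -, e⟩ := h
    have := Perm.mem_alternatingGroup.1 (e ▸ y.2 : swap 0 1 * γ.1 ∈ alternatingGroup _)
    simp [Perm.mem_alternatingGroup.1 γ.2] at this
  · obtain ⟨B, hB⟩ := (q5 hq).1.1
    have := key (⟨swap 0 1, Subgroup.mem_top _⟩ * γ) h
    rwa [map_mul, map_mul, hB, ← V0, mul_mem_cancel_left (e 0 (by omega) B)] at this

theorem hasPres_SU_of (hn : 4 ≤ n) (h3 : HasPres (SU 3 F q) d r) (hd : d ≤ 3)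
    (h2 : ∃ a b : SU 3 F q, Subgroup.closure {a, b} = ⊤)
    (h4 : Rels (Coprod.lift (F0 hF) (F1 hF)) k fun (_ : Type u) _ Φ =>
      4 ≤ q ∨ FourQ hF (Φ.comp Coprod.inl) (Φ.comp Coprod.inr))
    (h : r + k ≤ d + 19 ∧ (q = 2 → r + k + 8 ≤ d + 19)) : HasPres (SU n F q) 6 (if n ≤ 5 then 35 else 39) := by
  have key : ∀ {r d} j, HasPres (SU n F q) d r → HasPres (SU n F q) (d + j) (r + j) := fun j h => by
    induction j with
    | zero => exact h
    | succ j ih => exact ih.succ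
  split_ifs with h5
  · convert (key (5 - d) (hasPres_SU_small hF (by omega) h3 h2 h4)).mono (s := 35) (by omega) using 1
    omega
  obtain ⟨m, rfl⟩ : ∃ m, n = m + 6 := ⟨n - 6, by omega⟩
  obtain rfl | hq := (SqField.two_le hF).eq_or_lt
  · convert (key (3 - d) (hasPres_SU_big hF (Or.inr ⟨rfl, rfl⟩) (HasPres.map (hasShortPres (by omega)).1.1
      Subgroup.topEquiv.symm) h3 h2 h4)).mono (s := 39) (by simp at h ⊢; omega) using 1
    omega
  · convert (key (3 - d) (hasPres_SU_big hF (Or.inl ⟨hq, rfl⟩) (hasPres_alt (by omega)) h3 h2 h4)).mono (s := 39)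
      (by rw [if_neg hq.ne']; omega) using 1
    omega

include hF in
theorem hasPres_SU (hn : 4 ≤ n) : HasPres (SU n F q) 6 (if n ≤ 5 then 35 else 39) := by
  obtain rfl | hq := (SqField.two_le hF).eq_or_lt
  · obtain ⟨e⟩ := nonempty_suCongr (hF.trans U42.cF.symm) n 2
    exact (hasPres_SU_of U42.cF hn U42.hasPres (by omega) ⟨_, _, U42.pair⟩ (U42.four.imp le_rfl fun _ _ _ => Or.inr)
      (by omega)).map e.symm
  obtain rfl | hq := (Nat.succ_le_of_lt hq).eq_or_lt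
  · obtain ⟨e⟩ := nonempty_suCongr (hF.trans F24.card_F9.symm) n 3
    exact (hasPres_SU_of F24.card_F9 hn (hasPres_SU3 F24.card_F9 le_rfl) le_rfl
      (exists_pair_SU F24.card_F9 le_rfl (Or.inl le_rfl)) (U43.four.imp le_rfl fun _ _ _ => Or.inr) (by omega)).map e.symm
  exact hasPres_SU_of hF hn (hasPres_SU3 hF hq.le) le_rfl (exists_pair_SU hF le_rfl (Or.inl hq.le))
    (k := 0) ⟨[], le_rfl, by simp, fun _ _ _ _ => Or.inl hq⟩ (by omega)

end CL.KSG
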