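import Mathlib

/-! Lang's theorem for `GL_n`: an injective `q`-semilinear map over an algebraically closed field
has a basis of fixed vectors. -/

set_option autoImplicit false

namespace CL.SpU

open Module Polynomial

variable {K : Type*} [Field K] [IsAlgClosed K] {σ : K →+* K} {q : ℕ} (hq : 2 ≤ q)
  (hσ : ∀ x, σ x = x ^ q) {V : Type*} [AddCommGroup V] [Module K V]

include hq hσ

theorem exists_fixed_of_semilinear [FiniteDimensional K V] [Nontrivial V] (φ : V →ₛₗ[σ] V)
    (hφ : Function.Injective φ) : ∃ w, w ≠ 0 ∧ φ w = w := by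
  classical
  obtain ⟨v, hv⟩ := exists_ne (0 : V)
  let s : ℕ → V := fun i => φ^[i] v
  have hs : ∀ i, s (i + 1) = φ (s i) := fun i => Function.iterate_succ_apply' _ _ _
  have hex : ∃ k, ∃ a : ℕ → K, a k ≠ 0 ∧ ∑ i ∈ Finset.range (k + 1), a i • s i = 0 := by
    have h1 : ¬ LinearIndependent K s := fun h => by
      have := h.finite
      exact not_finite ℕ
    rw [linearIndependent_iff] at h1
    push Not at h1
    obtain ⟨l, hl, hl0⟩ := h1
    have hne : l.support.Nonempty := Finsupp.support_nonempty_iff.mpr hl0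
    refine ⟨l.support.max' hne, l, Finsupp.mem_support_iff.mp (l.support.max'_mem hne), ?_⟩
    rw [← hl, Finsupp.linearCombination_apply, Finsupp.sum_of_support_subset]
    · intro i hi
      exact Finset.mem_range.mpr (Nat.lt_succ_of_le (l.support.le_max' i hi))
    · simp
  obtain ⟨a, hak, ha⟩ := Nat.find_spec hex
  have hmin := fun k (hk : k < Nat.find hex) => Nat.find_min hex hk
  generalize Nat.find hex = k at hak ha hmin
  rcases k with _ | k
  · simp [s, hak, hv] at ha
  have ha0 : a 0 ≠ 0 := by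
    intro h0
    choose b hb using fun i => IsAlgClosed.exists_pow_nat_eq (a (i + 1)) (by omega : 0 < q)
    refine hmin k (by omega) ⟨b, fun h => hak (by rw [← hb, h, zero_pow (by omega)]), hφ ?_⟩
    rw [Finset.sum_range_succ', h0, zero_smul, add_zero] at ha
    rw [map_zero, ← ha, map_sum]
    exact Finset.sum_congr rfl fun i _ => by rw [map_smulₛₗ, hσ, hb, hs]
  let R : ℕ → K[X] := fun i =>
    Nat.rec (-C (a 0)) (fun i r => X ^ (q - 1) * r ^ q - C (a (i + 1))) i
  have hR : ∀ i, R (i + 1) = X ^ (q - 1) * R i ^ q - C (a (i + 1)) := fun _ => rfl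
  have hdeg : ∀ i, R i ≠ 0 → 0 < (R (i + 1)).natDegree := by
    intro i hi
    rw [hR, natDegree_sub_C, natDegree_mul (by simp) (pow_ne_zero _ hi), natDegree_X_pow]
    omega
  have hR0 : ∀ i, R i ≠ 0 := by
    intro i
    induction i with
    | zero => simpa [R] using ha0
    | succ i ih => intro h; simpa [h] using hdeg i ih
  obtain ⟨c, hc⟩ := IsAlgClosed.exists_root (R (k + 1))
    (natDegree_pos_iff_degree_pos.mp (hdeg k (hR0 k))).ne'
  have hc0 : c ≠ 0 := by
    rintro rfl
    have hq1 : q - 1 ≠ 0 := by omega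
    simp [hR, hq1, hak] at hc
  let x : ℕ → K := fun i => c * (R i).eval c
  have hx0 : x 0 = -(c * a 0) := by simp [x, R]
  have hx : ∀ i, x (i + 1) = x i ^ q - c * a (i + 1) := by
    intro i
    simp only [x, hR, eval_sub, eval_mul, eval_pow, eval_X, eval_C, mul_pow, mul_sub, ← mul_assoc]
    rw [← pow_succ', Nat.sub_add_cancel (by omega)]
  have hxk : x (k + 1) = 0 := by simp [x, hc.eq_zero]
  refine ⟨∑ i ∈ Finset.range (k + 1), x i • s i, fun h => hmin k (by omega) ⟨x, fun h0 => ?_, h⟩,
    ?_⟩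
  · rw [hx, h0, zero_pow (by omega), zero_sub, neg_eq_zero] at hxk
    exact mul_ne_zero hc0 hak hxk
  · have h1 : ∑ i ∈ Finset.range (k + 1), x i • s i = ∑ i ∈ Finset.range (k + 2), x i • s i := by
      rw [Finset.sum_range_succ _ (k + 1), hxk, zero_smul, add_zero]
    conv_rhs => rw [h1, Finset.sum_range_succ', hx0]
    rw [Finset.sum_range_succ', add_eq_zero_iff_eq_neg] at ha
    simp only [map_sum, map_smulₛₗ, hσ, ← hs, hx, sub_smul, Finset.sum_sub_distrib, mul_smul,
      ← Finset.smul_sum, ha, neg_smul, smul_neg]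
    abel

theorem span_fixed_eq_top [FiniteDimensional K V] (φ : V →ₛₗ[σ] V)
    (hφ : Function.Injective φ) : Submodule.span K {v | φ v = v} = ⊤ := by
  set W := Submodule.span K {v | φ v = v}
  have h1 : ∀ w ∈ W, φ w ∈ W := by
    intro w hw
    induction hw using Submodule.span_induction with
    | mem x hx => rw [show φ x = x from hx]; exact Submodule.subset_span hx
    | zero => simp
    | add x y _ _ hx hy => rw [map_add]; exact W.add_mem hx hy
    | smul c x _ hx => rw [map_smulₛₗ]; exact W.smul_mem _ hx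
  have h2 : ∀ w ∈ W, ∀ c : K, (∃ u ∈ W, φ u = c • w) ∧ ∃ u ∈ W, φ u - u = c • w := by
    intro w hw
    induction hw using Submodule.span_induction with
    | mem x hx =>
      intro c
      have hx' : φ x = x := hx
      constructor
      · obtain ⟨b, hb⟩ := IsAlgClosed.exists_pow_nat_eq c (by omega : 0 < q)
        exact ⟨b • x, W.smul_mem _ (Submodule.subset_span hx), by rw [map_smulₛₗ, hσ, hb, hx']⟩
      · obtain ⟨b, hb⟩ := IsAlgClosed.exists_root (X ^ q - (X + C c) : K[X]) (by
          rw [degree_sub_eq_left_of_degree_lt] <;> simp only [degree_X_pow, degree_X_add_C]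
          · simp; omega
          · exact_mod_cast hq)
        refine ⟨b • x, W.smul_mem _ (Submodule.subset_span hx), ?_⟩
        rw [map_smulₛₗ, hσ, hx', ← sub_smul]
        congr 1
        simp only [IsRoot.def, eval_sub, eval_pow, eval_X, eval_add, eval_C] at hb
        linear_combination hb
    | zero => exact fun c => ⟨⟨0, W.zero_mem, by simp⟩, 0, W.zero_mem, by simp⟩
    | add x y _ _ hx hy =>
      intro c
      obtain ⟨⟨u, hu, hu'⟩, v, hv, hv'⟩ := hx c
      obtain ⟨⟨u₁, hu₁, hu₁'⟩, v₁, hv₁, hv₁'⟩ := hy c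
      refine ⟨⟨u + u₁, W.add_mem hu hu₁, by rw [map_add, hu', hu₁', smul_add]⟩,
        v + v₁, W.add_mem hv hv₁, ?_⟩
      rw [smul_add, ← hv', ← hv₁', map_add]; abel
    | smul a x _ hx => intro c; rw [smul_smul]; exact hx _
  by_contra hW
  have : Nontrivial (V ⧸ W) := Submodule.Quotient.nontrivial_iff.mpr hW
  obtain ⟨w, hw0, hw⟩ := exists_fixed_of_semilinear hq hσ (W.mapQ W φ h1) (by
    rw [← LinearMap.ker_eq_bot, LinearMap.ker_eq_bot']
    intro x hx
    obtain ⟨x, rfl⟩ := W.mkQ_surjective x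
    rw [Submodule.mkQ_apply, Submodule.mapQ_apply, Submodule.Quotient.mk_eq_zero] at hx
    obtain ⟨u, hu, hu'⟩ := (h2 _ hx 1).1
    rw [one_smul] at hu'
    rw [← hφ hu']
    exact (Submodule.Quotient.mk_eq_zero W).mpr hu)
  obtain ⟨w, rfl⟩ := W.mkQ_surjective w
  rw [Submodule.mkQ_apply, Submodule.mapQ_apply, Submodule.Quotient.eq] at hw
  obtain ⟨u, hu, hu'⟩ := (h2 _ hw 1).2
  rw [one_smul] at hu'
  have h3 : w - u ∈ W := Submodule.subset_span (by
    change φ (w - u) = w - u
    rw [map_sub]
    linear_combination (norm := module) -hu')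
  exact hw0 ((Submodule.Quotient.mk_eq_zero W).mpr (by simpa using W.add_mem h3 hu))

theorem exists_basis_fixed [FiniteDimensional K V] (φ : V →ₛₗ[σ] V)
    (hφ : Function.Injective φ) {ι : Type*} [Fintype ι] (hι : Fintype.card ι = finrank K V) :
    ∃ b : Basis ι K V, ∀ i, φ (b i) = b i := by
  obtain ⟨s, hs, h1, h2⟩ := exists_linearIndependent K {v | φ v = v}
  rw [span_fixed_eq_top hq hσ φ hφ] at h1
  let b : Basis s K V := Basis.mk h2 (by simp [h1])
  have := h2.finite
  have := Fintype.ofFinite s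
  refine ⟨b.reindex (Fintype.equivOfCardEq (by rw [hι, finrank_eq_card_basis b])), fun i => ?_⟩
  rw [Basis.reindex_apply, Basis.mk_apply]
  exact hs (Subtype.prop _)

/-- Lang's theorem for matrices. -/
theorem exists_lang_matrix {ι : Type*} [Fintype ι] [DecidableEq ι] {g : Matrix ι ι K}
    (hg : IsUnit g) : ∃ x : Matrix ι ι K, IsUnit x ∧ g * x.map σ = x := by
  let φ : (ι → K) →ₛₗ[σ] (ι → K) :=
    { toFun := fun v => g.mulVec (σ ∘ v)
      map_add' := fun u v => by rw [← Matrix.mulVec_add]; congr 1; ext; simp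
      map_smul' := fun c v => by rw [← Matrix.mulVec_smul]; congr 1; ext; simp }
  obtain ⟨b, hb⟩ := exists_basis_fixed hq hσ φ (ι := ι) (fun u v h => by
    have := Matrix.mulVec_injective_iff_isUnit.mpr hg h
    exact funext fun i => σ.injective (congrFun this i)) (by simp)
  refine ⟨(Pi.basisFun K ι).toMatrix b, ?_, ?_⟩
  · have := (Pi.basisFun K ι).invertibleToMatrix b
    exact isUnit_of_invertible _
  · ext i j
    exact congrFun (hb j) i

end CL.SpU
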