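import Mathlib
import Cfsg.Agent.KSG.SpecSp
import Cfsg.Agent.KSG.ClsNum

/-! Element orders in orthogonal groups of odd characteristic. -/

set_option autoImplicit false

namespace CL.SpecK

open Module CL.Witt CL.Witt.Form CL.GLn CL.SpU CL.Orth CL.Nil Polynomial QuadraticMap

universe u

variable {F : Type u} [Field F] [Fintype F]

section Lin

variable {V : Type*} [AddCommGroup V] [Module F V] [FiniteDimensional F V]

omit [Fintype F] in
theorem ne_X_sub_C {A : Module.End F V} {s : Multiset (F[X] × ℕ)} (hA : HasED A s) {c : F}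
    (hc : IsUnit (A - algebraMap F _ c)) {x : F[X] × ℕ} (hx : x ∈ s) : x.1 ≠ X - C c := fun h5 => by
  classical
  have h6 := hA.kd_pow (monic_X_sub_C c) (irreducible_X_sub_C c) 1
  rw [(kd_eq_zero_iff _ _).2 (by simpa using hc), natDegree_X_sub_C, mul_one, eq_comm,
    Multiset.sum_eq_zero_iff] at h6
  have h7 := h6 _ (Multiset.mem_map_of_mem _ hx)
  have := (hA.1 x hx).2.2
  rw [if_pos h5] at h7
  omega

theorem dvd_half (hq : Odd (Fintype.card F)) {A A' : Module.End F V} (h : A' * A = 1)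
    (hs : Simil A A') {s : Multiset (F[X] × ℕ)} (hA : HasED A s) (hP : ∀ x ∈ s, ¬ PM x.1)
    (hd : sqSign (A.charpoly.eval (-1)) = 1) {x : F[X] × ℕ} (hx : x ∈ s)
    (hN : 2 * (ty x.1).1 = finrank F V) :
    x.2 = 1 ∧ x.1 ∣ X ^ (tq (Fintype.card F) (ty x.1) / 2) - 1 := by
  classical
  have hu : IsUnit A := IsUnit.of_mul_eq_one_right _ h
  have h0 := coeff_ne_zero hA hu hx
  obtain ⟨hm, hi, h1⟩ := hA.1 x hx
  obtain ⟨h2, h3, h4⟩ := ty_spec hm hi h0 (hP x hx)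
  have h5 := ineq_mem h hs hA hx (hP x hx)
  have h6 := Finset.single_le_sum (f := fun t : ℕ × Bool => t.1) (fun _ _ => Nat.zero_le _)
    (mem_TT.2 ⟨x, hx, hP x hx, rfl⟩)
  have h7 : x.2 = 1 := by
    by_contra e
    have := Nat.mul_le_mul_left (2 * (ty x.1).1) (show 1 ≤ x.2 - 1 by omega)
    omega
  have key : ∀ u ≤ s, (u.map fun y => y.2 * y.1.natDegree).sum = finrank F V →
      A.charpoly = (u.map fun y => y.1 ^ y.2).prod := fun u hu e => by
    obtain ⟨v, rfl⟩ := Multiset.le_iff_exists_add.1 hu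
    rw [hA.finrank_eq, Multiset.map_add, Multiset.sum_add, left_eq_add,
      Multiset.sum_eq_zero_iff] at e
    obtain rfl : v = 0 := Multiset.eq_zero_of_forall_notMem fun y hy => by
      have h8 := hA.1 y (Multiset.mem_add.2 (.inr hy))
      exact (mul_pos h8.2.2 h8.2.1.natDegree_pos).ne' (e _ (Multiset.mem_map_of_mem _ hy))
    rw [hA.charpoly_eq, add_zero]
  have := Fact.mk hi
  have := finiteDimensional_adjoinRoot hi.ne_zero
  have h8 : x.1.eval (-1) ≠ 0 := fun e =>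
    hP x hx (.inr (eq_of_monic_of_associated hm (monic_X_sub_C _)
      ((irreducible_X_sub_C _).associated_of_dvd hi (dvd_iff_isRoot.2 e)).symm))
  have h9 : ∀ k, x.1 ∣ X ^ k - 1 ↔ AdjoinRoot.root x.1 ^ k = 1 := fun k => by
    rw [← AdjoinRoot.mk_eq_zero, map_sub, map_pow, AdjoinRoot.mk_X, map_one, sub_eq_zero]
  refine ⟨h7, (h9 _).2 ?_⟩
  by_cases h10 : rcp x.1 = x.1
  · have h11 : ty x.1 = ((ty x.1).1, true) := by simp [ty, h10]
    rw [h11, if_pos rfl] at h4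
    rw [h11, tq_true] at h3 ⊢
    rw [key {x} (Multiset.singleton_le.2 hx) (by simp [h7, h4, hN]), Multiset.map_singleton,
      Multiset.prod_singleton, h7, pow_one] at hd
    have h12 : Algebra.norm F (1 + AdjoinRoot.root x.1) = x.1.eval (-1) := by
      have h13 : algebraMap F _ (-1) - cyc x.1 =
          (-1 : F) • LinearMap.mul F _ (1 + AdjoinRoot.root x.1) := by
        ext v
        simp [cyc_apply]
        ring
      conv_rhs => rw [← charpoly_cyc hm, LinearMap.eval_charpoly, h13, LinearMap.det_smul,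
        finrank_adjoinRoot, h4, (even_two_mul _).neg_one_pow, one_mul]
      rfl
    refine (sqSign_norm_plus hq ((finrank_adjoinRoot _).trans h4) ((h9 _).1 h3) fun e => h8 ?_).1
      (h12 ▸ hd)
    rw [← h12, e, Algebra.norm_zero]
  · have h11 : ty x.1 = (x.1.natDegree, false) := by simp [ty, h10]
    rw [h11] at hN ⊢
    have h12 : (rcp x.1, x.2) ∈ s := by
      rw [← map_rcp_eq h hs hA]
      exact Multiset.mem_map_of_mem _ hx
    rw [key {x, (rcp x.1, x.2)} ((Multiset.le_iff_subset (by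
      simpa using fun e => h10 (congrArg Prod.fst e).symm)).2 (by simp [Multiset.subset_iff, hx, h12]))
      (by simp [h7, natDegree_rcp h0, ← hN, two_mul])] at hd
    rw [tq_false, ← finrank_adjoinRoot, ← sqSign_norm hq (root_ne_zero hi h0), norm_root hm, ← hd,
      sqSign_eq_iff (mul_ne_zero (pow_ne_zero _ (neg_ne_zero.2 one_ne_zero)) h0)]
    all_goals
      let _ := invertibleOfNonzero (neg_ne_zero.2 (one_ne_zero (α := F)))
      have h13 := eval₂_reverse_mul_pow (RingHom.id F) (-1) x.1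
      rw [invOf_eq_inv, inv_neg_one, eval₂_id, eval₂_id] at h13
      simp only [Multiset.insert_eq_cons, Multiset.map_cons, Multiset.map_singleton,
        Multiset.prod_cons, Multiset.prod_singleton, h7, pow_one, CL.Nil.rcp, eval_mul, eval_C]
    · refine ⟨x.1.eval (-1), ?_⟩
      field_simp
      rw [mul_comm, h13]
    · exact mul_ne_zero h8 (mul_ne_zero (inv_ne_zero h0) (left_ne_zero_of_mul (h13 ▸ h8)))

theorem struct_W (p : ℕ) [Fact p.Prime] [CharP F p] (hq : Odd (Fintype.card F))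
    {A A' : Module.End F V} (h : A' * A = 1) (hs : Simil A A') (h1 : IsUnit (A ^ 2 - 1)) :
    ∃ (T : Finset (ℕ × Bool)) (j : ℕ), (∀ t ∈ T, 0 < t.1) ∧ 2 * ∑ t ∈ T, t.1 ≤ finrank F V ∧
      (j ≠ 0 → ∃ t ∈ T, 2 * ∑ t ∈ T, t.1 + 2 * t.1 * p ^ (j - 1) ≤ finrank F V) ∧
      A ^ (p ^ j * T.lcm (tq (Fintype.card F))) = 1 ∧ ∀ t ∈ T, 2 * t.1 = finrank F V →
        sqSign (LinearMap.det (1 + A)) = 1 → A ^ (tq (Fintype.card F) t / 2) = 1 := by
  classical
  have hp : p.Prime := Fact.out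
  have hu : IsUnit A := IsUnit.of_mul_eq_one_right _ h
  obtain ⟨s, hA⟩ := exists_hasED A
  have hP : ∀ x ∈ s, ¬ PM x.1 := fun x hx e => by
    have h2 : (A ^ 2 - 1 : Module.End F V) =
        (A - algebraMap F _ 1) * (A - algebraMap F _ (-1)) := by
      rw [map_neg, map_one]; noncomm_ring
    have h3 : (A ^ 2 - 1 : Module.End F V) =
        (A - algebraMap F _ (-1)) * (A - algebraMap F _ 1) := by
      rw [map_neg, map_one]; noncomm_ring
    rcases e with e | e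
    · exact ne_X_sub_C hA (isUnit_of_mul_isUnit_left (h2 ▸ h1)) hx e
    · exact ne_X_sub_C hA (isUnit_of_mul_isUnit_left (h3 ▸ h1)) hx e
  have h2 := ineq_one h hs hA
  obtain ⟨k, hk, hk'⟩ : ∃ k, (∀ x ∈ s, p ^ Nat.clog p x.2 ∣ p ^ k) ∧
      (k = 0 ∨ ∃ x ∈ s, k = Nat.clog p x.2) := by
    rcases s.toFinset.eq_empty_or_nonempty with e | e
    · exact ⟨0, fun x hx => by simp [Multiset.toFinset_eq_empty.1 e] at hx, .inl rfl⟩
    · obtain ⟨x, hx, h2⟩ := s.toFinset.exists_max_image (fun x => Nat.clog p x.2) e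
      exact ⟨_, fun y hy => pow_dvd_pow p (h2 y (by simpa)), .inr ⟨x, by simpa using hx, rfl⟩⟩
  have hty := fun x hx => ty_spec (hA.1 x hx).1 (hA.1 x hx).2.1 (coeff_ne_zero hA hu hx) (hP x hx)
  refine ⟨TT s, k, fun t ht => ?_, by omega, fun h0 => ?_, ?_, fun t ht h3 h4 => ?_⟩
  · obtain ⟨x, h1, -, rfl⟩ := mem_TT.1 ht
    exact (hty x h1).1
  · obtain ⟨x, hx, rfl⟩ := hk'.resolve_left h0
    have h3 := room_clog_le hp.one_lt x.2
    rw [room, if_neg h0] at h3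
    have h4 := ineq_mem h hs hA hx (hP x hx)
    have := Nat.mul_le_mul_left (2 * (ty x.1).1) (Nat.le_sub_one_of_lt h3)
    exact ⟨_, mem_TT.2 ⟨x, hx, hP x hx, rfl⟩, by omega⟩
  · rw [← map_one (algebraMap F _), pow_eq_iff p hA hu]
    refine fun x hx => ⟨?_, (hk x hx).mul_right _⟩
    obtain ⟨c, hc⟩ := (Finset.dvd_lcm (f := tq (Fintype.card F))
      (mem_TT.2 ⟨x, hx, hP x hx, rfl⟩)).mul_left (p ^ k)
    refine (hty x hx).2.1.trans ?_
    simpa [hc, pow_mul] using sub_dvd_pow_sub_pow (X ^ tq (Fintype.card F) (ty x.1) : F[X]) 1 c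
  · rw [← map_one (algebraMap F _), pow_eq_iff p hA hu]
    intro x hx
    obtain rfl : t = ty x.1 := by_contra fun e => by
      have h8 := Finset.sum_le_sum_of_subset (f := fun t : ℕ × Bool => t.1) (show {t, ty x.1} ⊆ TT s
        by simp [Finset.insert_subset_iff, ht, mem_TT.2 ⟨x, hx, hP x hx, rfl⟩])
      rw [Finset.sum_pair e] at h8
      have := (hty x hx).1
      omega
    obtain ⟨h5, h6⟩ := dvd_half hq h hs hA hP (by
      rw [LinearMap.eval_charpoly, map_neg, map_one, ← neg_add', ← neg_one_smul F,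
        LinearMap.det_smul, ← h3, (even_two_mul _).neg_one_pow, one_mul, h4]) hx h3
    exact ⟨h6, by simp [h5]⟩

omit [Fintype F] in
theorem sum_pow_eq_zero_iff (p : ℕ) [Fact p.Prime] [CharP F p] {A : Module.End F V} {N : ℕ}
    (hA : (A - 1) ^ N = 0) {k m : ℕ} (hm : ¬ p ∣ m) :
    ∑ i ∈ Finset.range (p ^ k * m), A ^ i = 0 ↔ (A - 1) ^ (p ^ k - 1) = 0 := by
  have h0 : 0 < p ^ k := pow_pos (Fact.out : p.Prime).pos k
  have h1 : ∑ i ∈ Finset.range (p ^ k * m), (X : F[X]) ^ i =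
      (∑ i ∈ Finset.range m, X ^ i) ^ p ^ k * (X - 1) ^ (p ^ k - 1) := by
    refine mul_right_cancel₀ (X_sub_C_ne_zero 1) ?_
    rw [C_1, geom_sum_mul, mul_assoc, ← pow_succ, Nat.sub_add_cancel h0, ← mul_pow, geom_sum_mul,
      sub_pow_char_pow, one_pow, ← pow_mul, mul_comm m]
  have h2 : IsCoprime (∑ i ∈ Finset.range m, (X : F[X]) ^ i) ((X - C 1) ^ N) :=
    ((irreducible_X_sub_C 1).coprime_iff_not_dvd.2 fun h => hm
      ((CharP.cast_eq_zero_iff F p m).1 (by simpa [eval_finsetSum] using dvd_iff_isRoot.1 h))).symm.pow_right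
  obtain ⟨a, b, h2⟩ := h2
  have h3 := congrArg (aeval A) h2
  rw [map_add, map_mul, map_mul, aeval_X_sub_C_pow, map_one, map_one, hA, mul_zero, add_zero] at h3
  have h4 := congrArg (aeval A) h1
  rw [map_mul, map_pow, map_pow, map_sub, aeval_X, map_one, map_sum] at h4
  simp only [map_pow, aeval_X] at h4
  rw [h4, ((IsUnit.of_mul_eq_one_right _ h3).pow _).mul_right_eq_zero]

end Lin

section El

/-- The operator is an isometry with given Dickson invariant and spinor norm. -/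
def Sg (S : FS (FormType.quad F)) (d t : ℤˣ) : Prop :=
  ∃ g : Orth.O (qfOf S.f), toEnd _ g = S.A ∧ dsign g = d ∧ spin g = t

variable {S S' : FS (FormType.quad F)} {d t d' t' : ℤˣ}

theorem exists_sg (h : IsIsom S.f S.f S.A) : ∃ d t, Sg S d t := by
  obtain ⟨g, hg⟩ := exists_O_of_isom (qfOf_nondeg S.nd) (A := S.A) h.q_eq
  exact ⟨_, _, g, hg, rfl, rfl⟩

omit [Fintype F] in
theorem Sg.isIsom (h : Sg S d t) : IsIsom S.f S.f S.A := by
  obtain ⟨g, hg, -⟩ := h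
  exact ⟨fun x y => by rw [← polar_qfOf, ← polar_qfOf, ← hg]; exact O_polar g x y,
    fun x => hg ▸ g.2 x⟩

theorem Sg.unique (h : Sg S d t) (h' : Sg S d' t') : d = d' ∧ t = t' := by
  obtain ⟨g, hg, rfl, rfl⟩ := h
  obtain ⟨g', hg', rfl, rfl⟩ := h'
  rw [toEnd_injective (hg.trans hg'.symm)]
  exact ⟨rfl, rfl⟩

theorem Sg.of_iso (h : Sg S d t) (h' : S.Iso S') : Sg S' d t := by
  obtain ⟨c, h1, h2, h3⟩ := h
  obtain ⟨a, ha, ha'⟩ := h'
  have hq : ∀ v, qfOf S'.f (a v) = qfOf S.f v := ha.q_eq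
  refine ⟨congrO a hq c, LinearMap.ext fun v => ?_, by rw [dsign_congrO, h2],
    by rw [spin_congrO (qfOf_nondeg S.nd), h3]⟩
  obtain ⟨w, rfl⟩ := a.surjective v
  change a (c.1 (a.symm (a w))) = S'.A (a w)
  rw [← ha', a.symm_apply_apply, ← h1]
  rfl

theorem Sg.prod (h : Sg S d t) (h' : Sg S' d' t') : Sg (S.prod S') (d * d') (t * t') := by
  obtain ⟨c, h1, h2, h3⟩ := h
  obtain ⟨c', h1', h2', h3'⟩ := h'
  exact ⟨prodO _ _ (c, c'), LinearMap.ext fun v => Prod.ext (LinearMap.congr_fun h1 v.1)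
    (LinearMap.congr_fun h1' v.2), (dsign_prodO c c').trans (by rw [h2, h2']),
    (spin_prodO (qfOf_nondeg S.nd) (qfOf_nondeg S'.nd) c c').trans (by rw [h3, h3'])⟩

omit [Fintype F] in
theorem Sg.even_dim (h : Sg S 1 t) (hu : IsUnit (S.A - 1)) : Even S.dim := by
  obtain ⟨g, hg, h1, -⟩ := h
  have h2 : moved g = ⊤ := (LinearMap.isUnit_iff_range_eq_top (toEnd _ g - 1)).1 (hg ▸ hu)
  rwa [dsign_eq_one_iff, h2, finrank_top] at h1

theorem Sg.orderOf_ne_zero (h : Sg S d t) : orderOf S.A ≠ 0 := by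
  obtain ⟨g, hg, -⟩ := h
  rw [← hg, orderOf_injective _ toEnd_injective]
  exact (isOfFinOrder_O g).orderOf_pos.ne'

variable (h2 : (2 : F) ≠ 0)

include h2

theorem Sg.pow (h : Sg S d t) (k : ℕ) : Sg (S.setA (S.A ^ k)) (d ^ k) (t ^ k) := by
  obtain ⟨g, hg, rfl, rfl⟩ := h
  have hF : Nat.card F ≠ 2 ∨ finrank F S.V ≠ 4 := .inl (card_ne_two_of_two_ne_zero h2)
  exact ⟨g ^ k, by rw [map_pow, hg], (dickson (qfOf_nondeg S.nd) hF).map_pow g k,
    (spinor (qfOf_nondeg S.nd) hF).map_pow g k⟩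

theorem sg_of_odd (h : IsIsom S.f S.f S.A) (ho : Odd (orderOf S.A)) : Sg S 1 1 := by
  obtain ⟨_, _, g, hg, -⟩ := exists_sg h
  exact ⟨g, hg, mem_omega_of_odd h2 (qfOf_nondeg S.nd)
    (by rwa [← hg, orderOf_injective _ toEnd_injective] at ho)⟩

theorem sg_neg_one (h : S.A = -1) : Sg S ((-1) ^ S.dim) (sqSign (2 : F) ^ S.dim * S.dsc) :=
  ⟨negOne _, h ▸ rfl, dsign_negOne h2, spin_negOne h2 (qfOf_nondeg S.nd)⟩

theorem sg_of_isUnit (h : IsIsom S.f S.f S.A) (hu : IsUnit (S.A ^ 2 - 1)) :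
    Sg S 1 (sqSign (LinearMap.det (1 + S.A))) := by
  obtain ⟨_, _, g, hg, -⟩ := exists_sg h
  have hQ := qfOf_nondeg S.nd
  have h1 := dsign_of_commute h2 hQ (t := g) (hg ▸ hu) (Commute.refl g)
  have h3 : S.A * (adj S.nd S.A - S.A) = (1 - S.A) * (1 + S.A) := by
    rw [mul_sub, mul_adj_self S.nd h]; noncomm_ring
  have h4 : IsUnit ((1 - S.A) * (1 + S.A)) := by
    rw [show (1 - S.A) * (1 + S.A) = -(S.A ^ 2 - 1) by noncomm_ring]
    exact hu.neg
  have h5 := sqSign_det_skew hQ (c := adj S.nd S.A - S.A)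
    (isUnit_of_mul_isUnit_right (h3 ▸ h4)) fun x => by
      rw [polar_qfOf, LinearMap.sub_apply, S.f.B_sub_left, B_adj, S.f.symm x, sub_eq_zero]
      exact (one_mul _).symm
  have h6 := congrArg LinearMap.det h3
  rw [map_mul, map_mul, ← hg, show LinearMap.det (toEnd _ g) = 1 from
    (det_eq_one_iff_dsign hQ h2 g).2 h1, one_mul, hg] at h6
  have h7 := fun {a} h => ((LinearMap.isUnit_iff_isUnit_det (R := F) (M := S.V) a).1 h).ne_zero
  rw [h6, sqSign_mul (h7 (isUnit_of_mul_isUnit_left h4)) (h7 (isUnit_of_mul_isUnit_right h4)),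
    mul_right_comm, mul_eq_one_iff_eq_inv, Int.units_inv_eq_self] at h5
  exact ⟨g, hg, h1, by rw [spin_of_isUnit hQ (hg ▸ isUnit_of_mul_isUnit_left h4), hg, h5]⟩

omit h2

variable (F) in
/-- There is an element of order `M` and spinor norm `t` in the special orthogonal group of
dimension `N` and discriminant `δ`. -/
def El (N : ℕ) (δ t : ℤˣ) (M : ℕ) : Prop :=
  ∃ S : FS (FormType.quad F), S.dim = N ∧ S.dsc = δ ∧ Sg S 1 t ∧ orderOf S.A = M

variable {N N' M M' : ℕ} {δ δ' : ℤˣ}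

theorem El.mul (h : El F N δ t M) (h' : El F N' δ' t' M') :
    El F (N + N') (δ * δ') (t * t') (M.lcm M') := by
  obtain ⟨S, rfl, rfl, h1, rfl⟩ := h
  obtain ⟨S', rfl, rfl, h1', rfl⟩ := h'
  exact ⟨S.prod S', S.dim_prod S', S.dsc_prod S', h1.prod h1', orderOf_prodMap _ _⟩

include h2

theorem El.div (h : El F N δ t M) {k : ℕ} (hk : k ∣ M) : El F N δ (t ^ (M / k)) k := by
  obtain ⟨S, rfl, rfl, h1, rfl⟩ := h
  exact ⟨S.setA (S.A ^ (orderOf S.A / k)), rfl, rfl, by simpa using h1.pow h2 (orderOf S.A / k),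
    orderOf_pow_orderOf_div h1.orderOf_ne_zero hk⟩

theorem El.of_dvd (h : El F N δ 1 M) {k : ℕ} (hk : k ∣ M) : El F N δ 1 k := by
  simpa using h.div h2 hk

theorem el_one (hN : 0 < N) (δ : ℤˣ) : El F N δ 1 1 := by
  obtain ⟨k, rfl⟩ := Nat.exists_eq_succ_of_ne_zero hN.ne'
  obtain ⟨S, -, h1, -, h3⟩ := rl_scalar h2 (.inl rfl) k δ
  exact ⟨S.setA 1, h1, h3, sg_of_odd h2 (IsIsom.id _) (by simp), orderOf_one⟩

theorem el_zero : El F 0 1 1 1 := by
  obtain ⟨S, h1, h3, -, h4⟩ := rl_of_isW (F := F) (n := 0) isW_one natDegree_one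
  exact ⟨S.setA 1, h3, h4.trans (by simp [sqSign_one]), sg_of_odd h2 (IsIsom.id _) (by simp),
    orderOf_one⟩

theorem el_neg (hN : 0 < N) (he : Even N) (δ : ℤˣ) : El F N δ δ 2 := by
  obtain ⟨S, rfl, rfl, -⟩ := el_one h2 hN δ
  have : Nontrivial S.V := Module.nontrivial_of_finrank_pos (R := F) hN
  have h1 := sg_neg_one h2 (S := S.setA (-1)) rfl
  rw [show (S.setA (-1)).dim = S.dim from rfl, he.neg_one_pow, Int.units_pow_eq_pow_mod_two,
    Nat.even_iff.1 he, pow_zero, one_mul] at h1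
  exact ⟨S.setA (-1), rfl, rfl, h1, orderOf_neg_one_end h2⟩

theorem exists_reg {e : ℕ} (he : Odd e) (δ : ℤˣ) : ∃ S : FS (FormType.quad F), S.dim = e ∧
    S.dsc = δ ∧ IsIsom S.f S.f S.A ∧ HasJT S.A 1 {e} := by
  obtain ⟨A, h1, h3⟩ := exists_isReal_quad_single h2 he
  obtain ⟨Q, hQ, h4⟩ := isReal_quad_iff.1 h3
  obtain ⟨c, hc, h5⟩ : ∃ c : F, c ≠ 0 ∧ sqSign c = δ * dsc Q := by
    rcases Int.units_eq_one_or (δ * dsc Q) with e | e <;> rw [e]
    · exact ⟨1, one_ne_zero, sqSign_one⟩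
    · exact exists_sqSign_eq_neg_one h2
  obtain ⟨g, hg⟩ := exists_O_of_isom (smul_nondeg hQ hc) (A := A) fun v => by simp [h4]
  refine ⟨oFS (smul_nondeg hQ hc) g, finrank_fin_fun F, (dsc_smul hQ hc).trans ?_, isIsom_toEnd g,
    by rw [← hg] at h1; exact h1⟩
  rw [finrank_fin_fun, Int.units_pow_eq_pow_mod_two, Nat.odd_iff.1 he, pow_one, h5, mul_assoc,
    Int.units_mul_self, mul_one]

theorem el_reg (p : ℕ) [Fact p.Prime] [CharP F p] {e : ℕ} (he : Odd e) (δ : ℤˣ) :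
    El F e δ 1 (p ^ Nat.clog p e) := by
  obtain ⟨S, h1, h3, h4, h5⟩ := exists_reg h2 he δ
  have h6 := orderOf_of_hasJT p h5
  exact ⟨S, h1, h3, sg_of_odd h2 h4 (h6 ▸ (odd_char h2).pow), h6⟩

omit h2

theorem el_tor (hq : Odd (Fintype.card F)) {t : ℕ × Bool} (ht : 0 < t.1) :
    El F (2 * t.1) ((-1) ^ (tq (Fintype.card F) t / 2)) (-1) (tq (Fintype.card F) t) := by
  have h2 := Orth.two_ne_zero_of_odd_card hq
  by_cases h : tq (Fintype.card F) t = 2
  · rw [h]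
    exact el_neg h2 (by omega) (even_two_mul _) _
  obtain ⟨A, hA⟩ := exists_torus (F := F) t ht
  have h1 := hA.unit (fun e => Nat.not_even_one (e ▸ even_tq hq t)) h
  obtain ⟨f, hf, h3⟩ := isReal_quad_of_alt' hA.real h1
  have h4 := sg_of_isUnit h2 (S := ⟨_, f, hf, A⟩) h3 h1
  rw [hA.sgn hq h] at h4
  refine ⟨⟨_, f, hf, A⟩, finrank_fin_fun F, ?_, h4, hA.ord⟩
  have h5 := ((h4.pow h2 _).unique (sg_neg_one h2 (hA.half hq))).2
  rw [FS.dim, finrank_fin_fun, pow_mul, Int.units_sq, one_pow, one_mul] at h5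
  exact h5.symm

theorem el_lcm_tq (hq : Odd (Fintype.card F)) (T : Finset (ℕ × Bool)) (hT : ∀ t ∈ T, 0 < t.1) :
    ∃ δ, El F (2 * ∑ t ∈ T, t.1) δ ((-1) ^ T.card) (T.lcm (tq (Fintype.card F))) := by
  induction T using Finset.induction_on with
  | empty => exact ⟨1, el_zero (Orth.two_ne_zero_of_odd_card hq)⟩
  | insert t T ht ih =>
    obtain ⟨δ, h⟩ := ih fun u hu => hT u (Finset.mem_insert_of_mem hu)
    rw [Finset.lcm_insert, Finset.sum_insert ht, Finset.card_insert_of_notMem ht, mul_add, pow_succ']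
    exact ⟨_, (el_tor hq (hT t (Finset.mem_insert_self _ _))).mul h⟩

theorem el_lcm_two (hq : Odd (Fintype.card F)) (T : Finset (ℕ × Bool)) (hT : ∀ t ∈ T, 0 < t.1) :
    ∃ δ, El F (2 * ∑ t ∈ T, t.1 + 2) δ 1 ((T.lcm (tq (Fintype.card F))).lcm 2) := by
  obtain ⟨δ, h⟩ := el_lcm_tq hq T hT
  have := h.mul (el_neg (Orth.two_ne_zero_of_odd_card hq) two_pos even_two ((-1) ^ T.card))
  rw [Int.units_mul_self] at this
  exact ⟨_, this⟩

end El

section Nine

variable (p : ℕ) [Fact p.Prime] [CharP F p] (hq : Odd (Fintype.card F))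

include hq

theorem exists_split {S : FS (FormType.quad F)} {t : ℤˣ} (h : Sg S 1 t) :
    ∃ (S₁ S₂ : FS (FormType.quad F)) (a : ℕ), S.Iso (S₁.prod S₂) ∧ (S₁.A - 1) ^ S₁.dim = 0 ∧
      orderOf S₁.A = p ^ a ∧ Sg S₂ 1 t ∧ IsUnit (S₂.A - 1) ∧ Even S₂.dim := by
  have h2 := Orth.two_ne_zero_of_odd_card hq
  obtain ⟨S₁, S₂, h1, h3, h4, h5, h6⟩ := exists_split_one S h.isIsom le_rfl
  obtain ⟨a, -, ha⟩ := (Nat.dvd_prime_pow (Fact.out : p.Prime)).1 (orderOf_dvd_of_pow_eq_one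
    ((pow_char_pow_eq_one_iff F p S₁.A S.dim).2
      (pow_eq_zero_of_le (Nat.lt_pow_self (Fact.out : p.Prime).one_lt).le h4)))
  obtain ⟨d, t', h7⟩ := exists_sg h5
  obtain ⟨h8, h9⟩ := ((sg_of_odd h2 h3 (ha ▸ (odd_char h2).pow)).prod h7).unique (h.of_iso h1)
  rw [one_mul] at h8 h9
  subst h8 h9
  have h10 : IsUnit (S₂.A - 1) := by
    rw [LinearMap.isUnit_iff_ker_eq_bot, LinearMap.ker_eq_bot']
    exact fun x hx => h6 x (sub_eq_zero.1 hx)
  exact ⟨S₁, S₂, a, h1, pow_finrank_eq_zero_of_isNilpotent ⟨_, h4⟩, ha, h7, h10, h7.even_dim h10⟩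

theorem el_succ_of_sum_ne_zero {S : FS (FormType.quad F)} (h : Sg S 1 1) (he : Even S.dim)
    (h0 : ∑ i ∈ Finset.range (orderOf S.A), S.A ^ i ≠ 0) (δ : ℤˣ) :
    El F (S.dim + 1) δ 1 (p * orderOf S.A) := by
  have hp : p.Prime := Fact.out
  have h2 := Orth.two_ne_zero_of_odd_card hq
  obtain ⟨S₁, S₂, a, h1, h3, h4, h5, h6, h7⟩ := exists_split p hq h
  have h8 := h1.dim_eq
  have h9 := h1.simil.orderOf_eq
  rw [FS.dim_prod] at h8
  rw [orderOf_prodMap, h4] at h9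
  obtain ⟨k, m, hm, hk⟩ := Nat.exists_eq_pow_mul_and_not_dvd h.orderOf_ne_zero p hp.ne_one
  have h10 : (S₁.A - 1) ^ (p ^ k - 1) ≠ 0 := by
    rw [Ne, ← sum_pow_eq_zero_iff p h3 hm, ← hk]
    intro e
    have h11 := h1.simil.aeval_eq_zero_iff (∑ i ∈ Finset.range (orderOf S.A), X ^ i)
    rw [aeval_prodMap] at h11
    simp only [map_sum, map_pow, aeval_X] at h11
    refine h0 (h11.2 ?_)
    rw [e, h6.mul_left_eq_zero.1 ((geom_sum_mul _ _).trans (sub_eq_zero.2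
      (orderOf_dvd_iff_pow_eq_one.1 (h9 ▸ Nat.dvd_lcm_right _ _)))), LinearMap.prodMap_zero]
  have h11 : p ^ k ≤ S₁.dim := by_contra fun e => h10 (pow_eq_zero_of_le (by omega) h3)
  have h12 : Even S₁.dim := (Nat.even_add.1 (h8 ▸ he)).2 h7
  have h13 := (el_reg h2 p h12.add_one (δ * S₂.dsc)).mul ⟨S₂, rfl, rfl, h5, rfl⟩
  rw [mul_assoc, Int.units_mul_self, mul_one, mul_one, add_right_comm, ← h8] at h13
  refine h13.of_dvd h2 ?_
  rw [hk, ← mul_assoc, ← pow_succ']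
  have h14 := (hp.coprime_iff_not_dvd.2 hm).symm
  refine (h14.symm.pow_left _).mul_dvd_of_dvd_of_dvd ((pow_dvd_pow p ?_).trans
    (Nat.dvd_lcm_left _ _)) (((h14.pow_right a).dvd_of_dvd_mul_left
      (((Dvd.intro_left _ hk.symm).trans h9.dvd).trans (Nat.lcm_dvd_mul _ _))).trans
        (Nat.dvd_lcm_right _ _))
  exact (Nat.lt_clog_iff_pow_lt hp.one_lt).2 (by omega)

theorem exists_block {N N' M k : ℕ} {δ : ℤˣ} (h : El F N δ 1 M) (hN : N + p ^ k < N')
    (hM : ¬ p ^ (k + 1) ∣ M) (δ' : ℤˣ) : ∃ S : FS (FormType.quad F), S.dim = N' ∧ S.dsc = δ' ∧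
      Sg S 1 1 ∧ ∑ i ∈ Finset.range (orderOf S.A), S.A ^ i ≠ 0 ∧ orderOf S.A = (p ^ k).lcm M := by
  have hp : p.Prime := Fact.out
  have h2 := Orth.two_ne_zero_of_odd_card hq
  obtain ⟨J, h1, h3, h4, h5⟩ := exists_reg h2 ((odd_char h2 (p := p)).pow (n := k)) 1
  obtain ⟨S, h6, h7, h8, h9⟩ := (el_one h2 (N := N' - N - p ^ k) (by omega) (δ' * δ)).mul h
  have h10 := orderOf_of_hasJT p h5
  rw [Nat.clog_pow _ _ hp.one_lt] at h10
  rw [Nat.lcm_one_left] at h9
  have h11 : orderOf (J.prod S).A = (p ^ k).lcm M := by rw [orderOf_prodMap, h10, h9]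
  refine ⟨J.prod S, by rw [FS.dim_prod]; omega, by
    rw [FS.dsc_prod, h3, h7, one_mul, mul_assoc, Int.units_mul_self, mul_one],
    (sg_of_odd h2 h4 (h10 ▸ (odd_char h2).pow)).prod h8, fun e => ?_, h11⟩
  obtain ⟨m, hm⟩ := Nat.dvd_lcm_left (p ^ k) M
  have h12 : ¬ p ∣ m := fun e => by
    have h13 : p ^ (k + 1) ∣ (p ^ k).lcm M := hm ▸ pow_succ p k ▸ Nat.mul_dvd_mul_left _ e
    have h14 : M ≠ 0 := h9 ▸ h8.orderOf_ne_zero
    rw [hp.pow_dvd_iff_le_factorization (Nat.lcm_ne_zero (pow_ne_zero _ hp.ne_zero) h14),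
      Nat.factorization_lcm (pow_ne_zero _ hp.ne_zero) h14, Finsupp.sup_apply,
      Nat.factorization_pow_self hp] at h13
    rw [hp.pow_dvd_iff_le_factorization h14] at hM
    omega
  have h13 := aeval_prodMap J.A S.A (∑ i ∈ Finset.range (p ^ k * m), X ^ i)
  simp only [map_sum, map_pow, aeval_X] at h13
  rw [h11, hm, h13] at e
  have h14 : ∑ i ∈ Finset.range (p ^ k * m), J.A ^ i = 0 :=
    LinearMap.ext fun v => congrArg Prod.fst (LinearMap.congr_fun e (v, 0))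
  have h15 := fun j => h5.pow_eq_zero_iff j
  simp only [map_one, Multiset.mem_singleton, forall_eq] at h15
  rw [sum_pow_eq_zero_iff p ((h15 _).2 le_rfl) h12, h15] at h14
  have := pow_pos hp.pos k
  omega

theorem struct_fpf {S : FS (FormType.quad F)} (h : Sg S 1 1) (hu : IsUnit (S.A - 1)) :
    ∃ (T : Finset (ℕ × Bool)) (k : ℕ), (∀ t ∈ T, 0 < t.1) ∧ 2 * ∑ t ∈ T, t.1 ≤ S.dim ∧
      (k ≠ 0 → 2 * ∑ t ∈ T, t.1 + p ^ (k - 1) + 3 ≤ S.dim ∨
        ∃ t ∈ T, 2 * ∑ t ∈ T, t.1 + 2 * t.1 * p ^ (k - 1) ≤ S.dim) ∧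
      orderOf S.A ∣ p ^ k * (T.lcm (tq (Fintype.card F))).lcm 2 ∧
      ∀ t ∈ T, 2 * t.1 = S.dim → orderOf S.A ∣ tq (Fintype.card F) t / 2 := by
  have hp : p.Prime := Fact.out
  have h2 := Orth.two_ne_zero_of_odd_card hq
  obtain ⟨U, W, h1, h3, h4, h5, h6⟩ := exists_split_one (S.setA (-S.A)) (isIsom_neg h.isIsom) le_rfl
  have h7 : S.Iso ((U.setA (-U.A)).prod (W.setA (-W.A))) := by
    obtain ⟨e, he, he'⟩ := h1
    refine ⟨e, he, fun v => ?_⟩
    have := congrArg Neg.neg (he' v)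
    rw [← map_neg, LinearMap.neg_apply, neg_neg] at this
    exact this
  have h8 : IsUnit ((-W.A) ^ 2 - 1) := by
    obtain ⟨ι, hι, hι'⟩ := (FS.emb_inr _ _).trans h7.symm.emb
    rw [show (-W.A) ^ 2 - 1 = (W.A - 1) * (W.A + 1) by noncomm_ring]
    refine IsUnit.mul ?_ ?_ <;>
      rw [LinearMap.isUnit_iff_ker_eq_bot, LinearMap.ker_eq_bot'] <;> intro x hx
    · exact h6 x (sub_eq_zero.1 hx)
    · refine hι.injective W.nd (((Module.End.isUnit_iff _).1 hu).1 ?_)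
      rw [map_zero, map_zero, LinearMap.sub_apply, ← hι', LinearMap.neg_apply,
        neg_eq_iff_add_eq_zero.2 hx]
      exact sub_self _
  have h9 := sg_of_isUnit h2 (S := W.setA (-W.A)) (isIsom_neg h5) h8
  obtain ⟨T, j, h10, h11, h12, h13, h14⟩ := struct_W p hq (adj_mul_self W.nd (isIsom_neg h5))
    ((good_quad h2).simil_adj W.nd _).symm h8
  have h15 : S.dim = U.dim + W.dim := h7.dim_eq.trans (FS.dim_prod _ _)
  have h16 := h7.simil.orderOf_eq
  rw [orderOf_prodMap] at h16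
  obtain ⟨μ, hμ⟩ := exists_hasJT (A := U.A) (a := 1) ⟨_, by rw [map_one]; exact h4⟩
  obtain ⟨a, -, ha⟩ := (Nat.dvd_prime_pow hp).1 (orderOf_dvd_of_pow_eq_one
    ((pow_char_pow_eq_one_iff F p U.A S.dim).2
      (pow_eq_zero_of_le (Nat.lt_pow_self hp.one_lt).le h4)))
  have h17 : a ≠ 0 → p ^ (a - 1) + 3 ≤ U.dim := fun h0 => by
    have h18 : ¬ ∀ e ∈ μ, e ≤ p ^ (a - 1) := fun e => by
      rw [← hμ.pow_eq_zero_iff, map_one, ← pow_char_pow_eq_one_iff F p,
        ← orderOf_dvd_iff_pow_eq_one, ha, Nat.pow_dvd_pow_iff_le_right hp.one_lt] at e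
      omega
    push Not at h18
    obtain ⟨e, he, h18⟩ := h18
    obtain ⟨r, hr⟩ := (odd_char h2 (p := p)).pow (n := a - 1)
    obtain ⟨c, hc⟩ := h.even_dim hu
    obtain ⟨c', hc'⟩ := h9.even_dim (isUnit_of_mul_isUnit_left (y := -W.A + 1)
      (by rwa [show (-W.A - 1) * (-W.A + 1) = (-W.A) ^ 2 - 1 by noncomm_ring]))
    have h19 := Multiset.single_le_sum (fun _ _ => Nat.zero_le _) _ he
    have h20 : μ.sum = U.dim := hμ.sum_eq
    change W.dim = _ at hc'
    by_cases h21 : e = 2 * (r + 1)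
    · obtain ⟨k, hk⟩ := even_count_quad h2 ⟨_, U.nd, h3⟩ hμ (h21 ▸ even_two_mul _) (by omega : 0 < e)
      have := Multiset.count_pos.2 he
      obtain ⟨ν, rfl⟩ := Multiset.le_iff_exists_add.1
        (Multiset.le_count_iff_replicate_le.1 (show 2 ≤ μ.count e by omega))
      rw [Multiset.sum_add, Multiset.sum_replicate, smul_eq_mul] at h20
      omega
    · omega
  refine ⟨T, max a j, h10, by change _ ≤ W.dim at h11; omega, fun h0 => ?_, ?_, fun t ht e => ?_⟩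
  · change _ ≤ W.dim at h11
    rcases le_total a j with e | e
    · rw [max_eq_right e] at h0 ⊢
      obtain ⟨t, ht, h18⟩ := h12 h0
      exact .inr ⟨t, ht, h18.trans (by change W.dim ≤ _; omega)⟩
    · rw [max_eq_left e] at h0 ⊢
      have := h17 h0
      omega
  · rw [h16]
    refine Nat.lcm_dvd (orderOf_dvd_of_pow_eq_one ?_) ((orderOf_dvd_of_pow_eq_one h13).trans
      (mul_dvd_mul (pow_dvd_pow p (le_max_right _ _)) (Nat.dvd_lcm_left _ _)))
    rw [Even.neg_pow ((even_two.trans_dvd (Nat.dvd_lcm_right _ _)).mul_left _),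
      ← orderOf_dvd_iff_pow_eq_one, ha]
    exact (pow_dvd_pow p (le_max_left _ _)).mul_right _
  · have h18 := Finset.single_le_sum (f := fun t : ℕ × Bool => t.1) (fun _ _ => Nat.zero_le _) ht
    change _ ≤ W.dim at h11
    have : Subsingleton U.V := Module.finrank_zero_iff.1 (show U.dim = 0 by omega)
    have h19 : orderOf (-U.A) = 1 := orderOf_eq_one_iff.2 (Subsingleton.elim _ _)
    have h20 := (((sg_of_odd h2 (S := U.setA (-U.A)) (isIsom_neg h3) (h19 ▸ odd_one)).prod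
      h9).unique (h.of_iso h7)).2
    rw [h16, h19, Nat.lcm_one_left]
    exact orderOf_dvd_of_pow_eq_one (h14 t ht (by change _ = W.dim; omega) (by simpa using h20))

theorem el_eight {t t' : ℕ × Bool} (ht : 0 < t.1) (ht' : 0 < t'.1) (h : t.1 + t'.1 = 4)
    (ho : Odd (tq (Fintype.card F) t / 2 + tq (Fintype.card F) t' / 2)) :
    El F 8 (-1) 1 ((tq (Fintype.card F) t).lcm (tq (Fintype.card F) t')) := by
  have := (el_tor hq ht).mul (el_tor hq ht')
  rwa [← mul_add, h, ← pow_add, ho.neg_one_pow, Int.units_mul_self] at this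

theorem mem_of_el_nine {W : Set ℕ} (hd : ∀ a b, a ∣ b → b ∈ W → a ∈ W)
    (h1 : ∀ M, El F 8 (-1) 1 M → M ∈ W)
    (h3 : ∀ S : FS (FormType.quad F), S.dim = 8 → S.dsc = -1 → Sg S 1 1 →
      ∑ i ∈ Finset.range (orderOf S.A), S.A ^ i ≠ 0 → p * orderOf S.A ∈ W)
    {M : ℕ} {δ : ℤˣ} (h : El F 9 δ 1 M) : M ∈ W := by
  have hp : p.Prime := Fact.out
  have h2 := Orth.two_ne_zero_of_odd_card hq
  have hb : ∀ {N M k δ}, El F N δ 1 M → N + p ^ k < 8 → ¬ p ^ (k + 1) ∣ M →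
      p * (p ^ k).lcm M ∈ W := fun h h4 h5 => by
    obtain ⟨S, e1, e2, e3, e4, e5⟩ := exists_block p hq h h4 h5 (-1)
    exact e5 ▸ h3 S e1 e2 e3 e4
  obtain ⟨S, h4, -, h5, rfl⟩ := h
  obtain ⟨S₁, S₂, a, h6, h7, h8, h9, h10, ⟨c, hc⟩⟩ := exists_split p hq h5
  have h11 := h6.dim_eq
  rw [FS.dim_prod] at h11
  rw [h6.simil.orderOf_eq, orderOf_prodMap, h8]
  have h12 : a ≠ 0 → p ^ (a - 1) < S₁.dim := fun h0 => by_contra fun e => by
    have := (pow_char_pow_eq_one_iff F p S₁.A (a - 1)).2 (pow_eq_zero_of_le (by omega) h7)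
    rw [← orderOf_dvd_iff_pow_eq_one, h8, Nat.pow_dvd_pow_iff_le_right hp.one_lt] at this
    omega
  have h13 : El F S₂.dim S₂.dsc 1 (orderOf S₂.A) := ⟨S₂, rfl, rfl, h9, rfl⟩
  by_cases h14 : S₂.dim < 8
  · by_cases h15 : p ^ a ∣ orderOf S₂.A
    · have := (el_one h2 (N := 8 - S₂.dim) (by omega) (-S₂.dsc)).mul h13
      rw [Nat.sub_add_cancel h14.le, neg_mul, Int.units_mul_self, Nat.lcm_one_left] at this
      rw [Nat.lcm_eq_right h15]
      exact h1 _ this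
    · obtain ⟨a, rfl⟩ := Nat.exists_eq_succ_of_ne_zero (show a ≠ 0 by rintro rfl; simp at h15)
      obtain ⟨r, hr⟩ := (odd_char h2 (p := p)).pow (n := a)
      have h16 : p ^ a < S₁.dim := h12 a.succ_ne_zero
      refine hd _ _ (Nat.lcm_dvd ?_ ((Nat.dvd_lcm_right _ _).mul_left _)) (hb h13 (by omega) h15)
      rw [pow_succ']
      exact Nat.mul_dvd_mul_left _ (Nat.dvd_lcm_left _ _)
  obtain rfl : a = 0 := by_contra fun e => by
    have := h12 e
    have := pow_pos hp.pos (a - 1)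
    omega
  rw [pow_zero, Nat.lcm_one_left]
  obtain ⟨T, k, h15, h16, h17, h18, h19⟩ := struct_fpf p hq h9 h10
  rw [show S₂.dim = 8 by omega] at h16 h17 h19
  have hs := fun t ht =>
    Finset.single_le_sum (f := fun t : ℕ × Bool => t.1) (fun _ _ => Nat.zero_le _) (s := T) (a := t) ht
  have hs' : ∀ t ∈ T, ∀ u ∈ T, t ≠ u → t.1 + u.1 ≤ ∑ t ∈ T, t.1 := fun t ht u hu e => by
    rw [← Finset.sum_pair (f := fun t : ℕ × Bool => t.1) e]
    exact Finset.sum_le_sum_of_subset (by simp [Finset.insert_subset_iff, ht, hu])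
  have hL : ¬ p ∣ T.lcm (tq (Fintype.card F)) := fun e => by
    obtain ⟨u, hu, h9⟩ := (hp.prime.dvd_finsetProd_iff _).1 (e.trans
      (Finset.lcm_dvd fun _ ht => Finset.dvd_prod_of_mem _ ht))
    exact not_dvd_tq hp (char_dvd_card p) Fintype.card_pos (h15 u hu) h9
  rcases k with _ | k
  swap
  · have hL' : ¬ p ∣ (T.lcm (tq (Fintype.card F))).lcm 2 := fun e =>
      ((hp.dvd_mul.1 (e.trans (Nat.lcm_dvd_mul _ _))).resolve_left hL |> fun h =>
        (Nat.not_even_iff_odd.2 (odd_char h2 (p := p)))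
          ((Nat.prime_dvd_prime_iff_eq hp Nat.prime_two).1 h ▸ even_two))
    rw [pow_succ', mul_assoc, ← ((hp.coprime_iff_not_dvd.2 hL').pow_left k).lcm_eq_mul] at h18
    refine hd _ _ h18 ?_
    have h20 := fun e => hL' ((dvd_pow_self p k.succ_ne_zero).trans e)
    by_cases h21 : 2 * ∑ t ∈ T, t.1 + p ^ k + 3 ≤ 8
    · obtain ⟨δ, h22⟩ := el_lcm_two hq T h15
      exact hb h22 (by omega) h20
    obtain ⟨t, ht, h22⟩ := (h17 k.succ_ne_zero).resolve_left h21
    rw [Nat.add_sub_cancel] at h22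
    obtain ⟨r, hr⟩ := (odd_char h2 (p := p)).pow (n := k)
    have h23 := h15 t ht
    have h24 : r = 0 ∧ t.1 = 1 := by
      rw [hr] at h21 h22
      constructor <;> nlinarith
    have h25 : T.card = 2 := by
      have h26 : ∀ T ∈ (Finset.Icc 1 2 ×ˢ (Finset.univ : Finset Bool)).powerset,
          ∑ t ∈ T, t.1 = 3 → T.card = 2 := by decide
      have h27 : ∑ t ∈ T, t.1 = 3 := by
        rw [hr, h24.1, h24.2] at h22
        omega
      refine h26 T (Finset.mem_powerset.2 fun u hu => ?_) h27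
      have := h15 u hu
      by_cases e : u = t
      · simp [e, h24.2]
      · have := hs' u hu t ht e
        simp only [Finset.mem_product, Finset.mem_Icc, Finset.mem_univ, and_true]
        omega
    obtain ⟨δ, h26⟩ := el_lcm_tq hq T h15
    rw [h25, Int.units_sq] at h26
    rw [Nat.lcm_eq_left ((even_tq hq t).two_dvd.trans (Finset.dvd_lcm ht))] at h20 ⊢
    refine hb h26 ?_ h20
    rw [hr, h24.1, h24.2] at h22
    omega
  rw [pow_zero, one_mul] at h18
  obtain ⟨r, hr⟩ := hq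
  have hq : Odd (Fintype.card F) := ⟨r, hr⟩
  have e1 : Fintype.card F ^ 1 = 2 * r + 1 := by rw [hr]; ring
  have e2 : Fintype.card F ^ 2 = 4 * (r ^ 2 + r) + 1 := by rw [hr]; ring
  have e3 : Fintype.card F ^ 3 = 4 * (2 * r ^ 3 + 3 * r ^ 2 + r) + 2 * r + 1 := by rw [hr]; ring
  have e4 : Fintype.card F ^ 4 = 4 * (4 * (r ^ 2 + r) ^ 2 + 2 * (r ^ 2 + r)) + 1 := by
    rw [hr]; ring
  have R1 := h1 _ (el_eight hq (t := (2, true)) (t' := (2, false)) two_pos two_pos rfl (by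
    rw [tq_true, tq_false, Nat.odd_iff]; omega))
  have d1 : ∀ ε, tq (Fintype.card F) (1, ε) ∣ tq (Fintype.card F) (2, false) := fun ε => by
    rw [tq_false, ← one_pow 2, Nat.sq_sub_sq]
    cases ε
    · simp [tq_false]
    · simp [tq_true]
  have d3 : ∀ ε, tq (Fintype.card F) (1, ε) ∣ tq (Fintype.card F) (3, ε) := fun ε => by
    cases ε
    · simpa [tq_false] using Nat.sub_one_dvd_pow_sub_one _ 3
    · simpa [tq_true] using (show Odd 3 by decide).nat_add_dvd_pow_add_pow (Fintype.card F) 1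
  by_cases h20 : ∃ ε, (4, ε) ∈ T
  · obtain ⟨ε, h20⟩ := h20
    refine hd _ _ (h19 _ h20 rfl) ?_
    cases ε
    · refine hd _ _ ?_ R1
      rw [tq_false, tq_true, tq_false, e2, e4, Nat.add_sub_cancel, Nat.add_sub_cancel,
        show 4 * (r ^ 2 + r) + 1 + 1 = 2 * (2 * (r ^ 2 + r) + 1) by ring,
        show 4 * (r ^ 2 + r) = 2 * (2 * (r ^ 2 + r)) by ring, Nat.lcm_mul_left,
        Nat.Coprime.lcm_eq_mul (by simp)]
      exact (Nat.div_eq_of_eq_mul_right two_pos (by ring)).dvd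
    · have h21 := (el_tor hq (t := (4, true)) four_pos).div h2
        (Nat.div_dvd_of_dvd (even_tq hq _).two_dvd)
      rw [Nat.div_div_self (even_tq hq _).two_dvd (tq_pos Fintype.one_lt_card four_pos).ne',
        Int.units_sq, Odd.neg_one_pow (by rw [tq_true, Nat.odd_iff]; omega)] at h21
      exact h1 _ h21
  by_cases h21 : ∃ ε, (3, ε) ∈ T
  · obtain ⟨ε, h21⟩ := h21
    refine hd _ _ (h18.trans (Nat.lcm_dvd (Finset.lcm_dvd fun u hu => ?_)
      ((even_tq hq _).two_dvd.trans (Nat.dvd_lcm_left _ _))))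
      (h1 _ (el_eight hq (t := (3, ε)) (t' := (1, !ε)) three_pos one_pos rfl (by
        cases ε <;> simp only [Bool.not_false, Bool.not_true, tq_true, tq_false, Nat.odd_iff] <;>
          omega)))
    by_cases e : u = (3, ε)
    · exact e ▸ Nat.dvd_lcm_left _ _
    have h22 := hs' u hu _ h21 e
    have h23 := h15 u hu
    obtain ⟨d, ε'⟩ := u
    obtain rfl : d = 1 := by omega
    rcases ε'.eq_or_eq_not ε with rfl | rfl
    · exact (d3 _).trans (Nat.dvd_lcm_left _ _)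
    · exact Nat.dvd_lcm_right _ _
  refine hd _ _ (h18.trans (Nat.lcm_dvd (Finset.lcm_dvd fun u hu => ?_)
    ((even_tq hq _).two_dvd.trans (Nat.dvd_lcm_left _ _)))) R1
  have h22 := hs u hu
  have h23 := h15 u hu
  obtain ⟨d, ε⟩ := u
  have h24 : d ≠ 4 := fun e => h20 ⟨ε, e ▸ hu⟩
  have h25 : d ≠ 3 := fun e => h21 ⟨ε, e ▸ hu⟩
  obtain rfl | rfl : d = 1 ∨ d = 2 := by omega
  · exact (d1 ε).trans (Nat.dvd_lcm_right _ _)
  · cases ε
    · exact Nat.dvd_lcm_right _ _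
    · exact Nat.dvd_lcm_left _ _

end Nine

end CL.SpecK
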