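/-
Products of two regular unipotent elements in `GL_n(K)` (Lev).
-/
import Mathlib
import Cfsg.Agent.KSG.GLnJordan
import Cfsg.Agent.CLAS.TvHerm

set_option autoImplicit false

namespace CL.Thomp

open Module Submodule LinearMap

universe u

variable {K : Type*} [Field K] {V : Type u} [AddCommGroup V] [Module K V]

theorem avoid_finset {ι : Type*} (T : Finset K) (p : ι → Submodule K V) (s : Finset ι)
    (h : ∀ i ∈ s, p i ≠ ⊤) (hs : s.card ≤ T.card) : ∃ v, ∀ i ∈ s, v ∉ p i := by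
  classical
  induction s using Finset.induction_on with
  | empty => simp
  | insert j s hj ih =>
  rw [Finset.card_insert_of_notMem hj] at hs
  obtain ⟨u, hu⟩ := ih (fun i hi => h i (by simp [hi])) (by omega)
  by_cases h1 : u ∈ p j
  swap
  · exact ⟨u, by simpa [h1] using hu⟩
  obtain ⟨w, hw⟩ : ∃ w, w ∉ p j := not_forall.mp (mt eq_top_iff'.mpr (h j (by simp)))
  by_contra! h2
  choose f hf hf' using fun t : K => h2 (w + t • u)
  have h3 : ∀ t, f t ∈ s := fun t => (Finset.mem_insert.mp (hf t)).resolve_left fun h3 =>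
    hw (by have := sub_mem (h3 ▸ hf' t) (smul_mem _ t h1); rwa [add_sub_cancel_right] at this)
  obtain ⟨t, -, t', -, h4, h5⟩ := Finset.exists_ne_map_eq_of_card_lt_of_maps_to (s := T)
    (by omega : s.card < _) fun t _ => h3 t
  have h6 := sub_mem (hf' t) (h5 ▸ hf' t')
  rw [add_sub_add_left_eq_sub, ← sub_smul, smul_mem_iff _ (sub_ne_zero.mpr h4)] at h6
  exact hu _ (h3 t) h6

variable (hK : ∃ T : Finset K, T.card = 4)
include hK

theorem avoid4 {U₁ U₂ U₃ U₄ : Submodule K V} (h₁ : U₁ ≠ ⊤) (h₂ : U₂ ≠ ⊤) (h₃ : U₃ ≠ ⊤)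
    (h₄ : U₄ ≠ ⊤) : ∃ v, v ∉ U₁ ∧ v ∉ U₂ ∧ v ∉ U₃ ∧ v ∉ U₄ := by
  obtain ⟨T, hT⟩ := hK
  simpa [Fin.forall_fin_succ] using avoid_finset T ![U₁, U₂, U₃, U₄] Finset.univ
    (by simp [Fin.forall_fin_succ, *]) (by simp [hT])

theorem avoid_dual {x e v₂ v₃ v₄ : V} (h₁ : e ∉ K ∙ x) (h₂ : v₂ ∉ K ∙ x) (h₃ : v₃ ∉ K ∙ x)
    (h₄ : v₄ ∉ K ∙ x) : ∃ φ : Dual K V, φ x = 0 ∧ φ e = 1 ∧ φ v₂ ≠ 0 ∧ φ v₃ ≠ 0 ∧ φ v₄ ≠ 0 := by
  have key : ∀ v, v ∉ K ∙ x → ker (Dual.eval K V v ∘ₗ (ker (Dual.eval K V x)).subtype) ≠ ⊤ :=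
    fun v hv h => by
      obtain ⟨φ, h1, h2⟩ := exists_dual_map_eq_bot_of_notMem hv inferInstance
      exact h1 (eq_top_iff'.mp h ⟨φ, h2.le ⟨x, mem_span_singleton_self x, rfl⟩⟩)
  obtain ⟨⟨φ, h0⟩, h1, h2, h3, h4⟩ := avoid4 (V := ker (Dual.eval K V x)) hK (key _ h₁) (key _ h₂)
    (key _ h₃) (key _ h₄)
  change φ x = 0 at h0
  change φ _ ≠ 0 at h1 h2 h3 h4
  exact ⟨(φ e)⁻¹ • φ, by simp [*], by simp [*], by simp [*], by simp [*], by simp [*]⟩

variable [FiniteDimensional K V] {g : End K V} {a e : V} {b : Dual K V}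

theorem exists_e (hs : ∀ c : K, g ≠ c • 1) (hr : finrank K (ker (g - 1)) + 2 ≤ finrank K V)
    (a : V) (hb : b ≠ 0) : ∃ e, b e ≠ 0 ∧ (g - 1) e ∉ K ∙ a ∧ (∀ c : K, g e ≠ c • e) ∧
      (ker (g - 1) ≠ ⊥ → e ∉ range (g - 1)) := by
  obtain ⟨E₁, E₂, h1, h2, h3, h4⟩ : ∃ E₁ E₂ : Submodule K V, E₁ ≠ ⊤ ∧ E₂ ≠ ⊤ ∧
      (∀ e (c : K), g e = c • e → e ∈ E₁ ∨ e ∈ E₂) ∧ (ker (g - 1) ≠ ⊥ → range (g - 1) ≤ E₂) := by
    by_cases h : ∃ c : K, ker (g - c • 1) ≠ ⊥
    · obtain ⟨c, hc, h⟩ : ∃ c : K, ker (g - c • 1) ≠ ⊥ ∧ (ker (g - 1) ≠ ⊥ → c = 1) := by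
        by_cases h1 : ker (g - 1) = ⊥
        · exact h.imp fun c hc => ⟨hc, fun h => (h h1).elim⟩
        · exact ⟨1, by simpa, fun _ => rfl⟩
      refine ⟨ker (g - c • 1), range (g - c • 1), fun h1 => hs c (sub_eq_zero.mp (ker_eq_top.mp h1)),
        fun h1 => hc (ker_eq_bot_iff_range_eq_top.mpr h1), fun e c' he => ?_, fun h1 => by
          simp [h h1]⟩
      by_cases h1 : c' = c
      · exact Or.inl (by simp [he, h1])
      · exact Or.inr ⟨(c' - c)⁻¹ • e, by
          simp [he, ← sub_smul, smul_smul, ← mul_sub, sub_ne_zero.mpr h1]⟩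
    · push Not at h
      have h1 : (⊥ : Submodule K V) ≠ ⊤ := fun h => by
        have := congrArg (fun U : Submodule K V => finrank K U) h
        simp only [finrank_bot, finrank_top] at this
        omega
      exact ⟨⊥, ⊥, h1, h1, fun e c he => Or.inl (h c ▸ by simp [he]),
        fun h2 => (h2 (by simpa using h 1)).elim⟩
  obtain ⟨e, h5, h6, h7, h8⟩ := avoid4 hK (mt ker_eq_top.mp hb) (U₂ := (K ∙ a).comap (g - 1))
    (fun h => by
      have h5 := finrank_mono (range_le_iff_comap.mpr h)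
      have h6 := (g - 1).finrank_range_add_finrank_ker
      have h7 : finrank K (K ∙ a) ≤ 1 := by simpa using finrank_span_le_card (R := K) {a}
      omega) h1 h2
  exact ⟨e, h5, h6, fun c h => (h3 e c h).elim h7 h8, fun h h' => h8 (h4 h h')⟩

theorem exists_phi (hd : LinearMap.det g = 1) (hr : finrank K (ker (g - 1)) + 2 ≤ finrank K V)
    (ha : (g - 1) e ∉ K ∙ a) (ha0 : a ≠ 0) (he : ∀ c : K, g e ≠ c • e)
    (he' : ker (g - 1) ≠ ⊥ → e ∉ range (g - 1)) : ∃ φ : Dual K V, φ ((g - 1) e) = 0 ∧ φ e = 1 ∧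
      φ a ≠ 0 ∧ φ ∘ₗ (g - 1) ≠ 0 ∧ (3 ≤ finrank K V → (∀ c : K, ¬ ker φ ≤ (K ∙ g e).comap (g - c • 1))
        ∧ finrank K ↥((K ∙ g e).comap (g - 1) ⊓ ker φ) + 3 ≤ finrank K V) := by
  generalize hx : (g - 1) e = x at ha ⊢
  have h0 : g e = e + x := by simp [← hx]
  have h1 : e ∉ K ∙ x := fun h => by
    obtain ⟨c, hc⟩ := mem_span_singleton.mp h
    have h1 : c ≠ 0 := fun h1 => he 0 (by simp [← hc, h1])
    exact he (1 + c⁻¹) (by rw [h0, add_smul, one_smul, ← hc, inv_smul_smul₀ h1])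
  have h2 : a ∉ K ∙ x := fun h => by
    obtain ⟨c, rfl⟩ := mem_span_singleton.mp h
    exact ha (mem_span_singleton.mpr ⟨c⁻¹, inv_smul_smul₀ (left_ne_zero_of_smul ha0) _⟩)
  have hl : ∀ v : V, finrank K (K ∙ v) ≤ 1 := fun v => by simpa using finrank_span_le_card (R := K) {v}
  have h3 := (g - 1).finrank_range_add_finrank_ker
  obtain ⟨w, hw⟩ : ∃ w, (g - 1) w ∉ K ∙ x := not_forall.mp fun h => by
    have := (finrank_mono (range_le_iff_comap.mpr (eq_top_iff'.mpr h))).trans (hl x)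
    omega
  have hW : ∀ φ : Dual K V, φ ((g - 1) w) ≠ 0 → φ ∘ₗ (g - 1) ≠ 0 := fun φ h h' =>
    h (LinearMap.congr_fun h' w)
  by_cases hn : 3 ≤ finrank K V
  swap
  · obtain ⟨φ, h4, h5, h6, h7, -⟩ := avoid_dual hK h1 h2 hw hw
    exact ⟨φ, h4, h5, h6, hW φ h7, fun h => (hn h).elim⟩
  set Y := (K ∙ g e).comap (g - 1) with hY
  have h4 : finrank K Y + 2 ≤ finrank K V := by
    by_cases h4 : ker (g - 1) = ⊥
    · have := (LinearMap.finrank_le_finrank_of_injective (f := (g - 1).restrict (p := Y)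
        fun _ h => h) fun _ _ h => Subtype.ext (ker_eq_bot.mp h4 (congrArg Subtype.val h))).trans (hl _)
      omega
    · refine (Nat.add_le_add_right (finrank_mono fun v hv => ?_) 2).trans hr
      obtain ⟨c, hc⟩ := mem_span_singleton.mp hv
      by_contra h5
      have h6 : c ≠ 0 := fun h => h5 (by rw [mem_ker, ← hc, h, zero_smul])
      exact he' h4 ⟨c⁻¹ • v - e, by rw [map_sub, map_smul, ← hc, inv_smul_smul₀ h6, h0, hx]; simp⟩
  have hX : ∀ φ : Dual K V, ∀ ξ ∈ Y, φ ξ ≠ 0 → finrank K ↥(Y ⊓ ker φ) + 3 ≤ finrank K V :=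
    fun φ ξ h5 h6 => by
      have := finrank_lt_finrank_of_lt (lt_of_le_of_ne inf_le_left fun h => h6
        (inf_eq_left.mp h h5) : Y ⊓ ker φ < Y)
      omega
  have hk : ∀ φ : Dual K V, φ e = 1 → finrank K (ker φ) + 1 = finrank K V := fun φ h =>
    Dual.finrank_ker_add_one_of_ne_zero fun h' => by simp [h'] at h
  obtain ⟨ξ, h5, h6⟩ : ∃ ξ, ξ ∉ K ∙ x ∧ ∀ φ : Dual K V, φ ξ ≠ 0 →
      finrank K ↥(Y ⊓ ker φ) + 3 ≤ finrank K V := by
    by_cases h5 : Y ≤ K ∙ x
    swap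
    · obtain ⟨ξ, h5, h6⟩ := SetLike.not_le_iff_exists.mp h5
      exact ⟨ξ, h6, fun φ => hX φ ξ h5⟩
    refine ⟨e, h1, fun φ _ => (Nat.add_le_add_right (finrank_mono inf_le_left) 3).trans ?_⟩
    have h6 := (finrank_mono h5).trans (hl x)
    by_contra! h7
    have h8 : x ≠ 0 := fun h => ha (h ▸ zero_mem _)
    obtain ⟨c, hc⟩ := mem_span_singleton.mp (show x ∈ Y from (eq_of_le_of_finrank_le h5
      ((hl x).trans (by omega))).ge (mem_span_singleton_self x))
    obtain ⟨z, hz⟩ : ∃ z, z ∉ span K {x, e} := not_forall.mp fun h => by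
      have := Tv.finrank_span_pair_le (F := K) x e
      rw [eq_top_iff'.mpr h, finrank_top] at this
      omega
    let B := basisOfLinearIndependentOfCardEqFinrank (Tv.li3 h8 h1 hz) (by simp; omega)
    have hB : ∀ i, B i = ![z, e, x] i := fun i => by simp [B]
    have h9 : ∀ i, B.repr (![z, e, x] i) = Finsupp.single i 1 := fun i => by rw [← hB, B.repr_self]
    have h10 : g x = x + c • (e + x) := by rw [← h0, hc]; simp
    have h11 : B.repr (g z) 0 = 1 := by
      rw [← hd, ← det_toMatrix B, Matrix.det_fin_three]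
      have h12 := h9 1
      have h13 := h9 2
      simp only [Matrix.cons_val_one, Matrix.cons_val_zero, Matrix.cons_val] at h12 h13
      simp [toMatrix_apply, hB, h0, h10, h12, h13]
      ring
    have h12 : (g - 1) z = B.repr (g z) 1 • e + B.repr (g z) 2 • x := by
      have := B.sum_repr (g z)
      simp only [Fin.sum_univ_three, h11, hB, Matrix.cons_val_one, Matrix.cons_val_zero,
        Matrix.cons_val] at this
      rw [LinearMap.sub_apply, End.one_apply]
      linear_combination (norm := module) -this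
    generalize B.repr (g z) 1 = r, B.repr (g z) 2 = s at h12
    exact hz (mem_span_pair.mpr (by
      obtain ⟨d, hd⟩ := mem_span_singleton.mp (h5 (show z + (r - s) • e ∈ Y from
        mem_span_singleton.mpr ⟨r, by rw [map_add, map_smul, h12, hx, h0]; module⟩))
      exact ⟨d, s - r, by rw [hd]; module⟩))
  by_cases h7 : ∃ c : K, c ≠ 1 ∧ x ∈ (K ∙ g e).comap (g - c • 1)
  swap
  · obtain ⟨φ, h8, h9, h10, h11, h12⟩ := avoid_dual hK h1 h2 hw h5
    refine ⟨φ, h8, h9, h10, hW φ h11, fun _ => ⟨fun c h => ?_, h6 φ h12⟩⟩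
    obtain rfl : c = 1 := not_not.mp fun h13 => h7 ⟨c, h13, h h8⟩
    have := h6 φ h12
    rw [inf_eq_right.mpr (by simpa using h)] at this
    have := hk φ h9
    omega
  obtain ⟨δ, h7, h8⟩ := h7
  obtain ⟨y, h9, h10⟩ : ∃ y, y ∉ K ∙ x ∧ ∀ φ : Dual K V, φ x = 0 → φ e = 1 → φ y ≠ 0 →
      ∀ c : K, ¬ ker φ ≤ (K ∙ g e).comap (g - c • 1) := by
    have key : ∀ φ : Dual K V, φ x = 0 → ∀ c : K, ker φ ≤ (K ∙ g e).comap (g - c • 1) → c = δ :=
      fun φ h c h' => not_not.mp fun h9 => by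
        obtain ⟨d, hd⟩ := mem_span_singleton.mp (sub_mem h8 (h' h))
        have h10 : d • e = (c - δ - d) • x := by
          simp only [h0, LinearMap.sub_apply, LinearMap.smul_apply, End.one_apply] at hd
          linear_combination (norm := module) hd
        by_cases h11 : d = 0
        · rw [h11, zero_smul, sub_zero, eq_comm, smul_eq_zero, sub_eq_zero] at h10
          exact ha (h10.resolve_left h9 ▸ zero_mem _)
        · exact h1 ((smul_mem_iff _ h11).mp (h10 ▸ smul_mem _ _ (mem_span_singleton_self x)))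
    by_cases h9 : (K ∙ g e).comap (g - δ • 1) ≤ K ∙ x
    · exact ⟨e, h1, fun φ h10 h11 _ c h => by
        have := (finrank_mono ((key φ h10 c h ▸ h).trans h9)).trans (hl x)
        have := hk φ h11
        omega⟩
    obtain ⟨y, h9, h10⟩ := SetLike.not_le_iff_exists.mp h9
    refine ⟨y, h10, fun φ h11 h12 h13 c h => ?_⟩
    obtain rfl := key φ h11 c h
    have h14 := finrank_lt_finrank_of_lt (lt_of_le_of_ne h fun h' => h13 (h'.ge h9))
    have h15 : (K ∙ g e).comap (g - c • 1) = ⊤ := eq_top_of_finrank_eq (le_antisymm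
      (finrank_le _) (by have := hk φ h12; omega))
    obtain ⟨d, hd'⟩ := mem_span_singleton.mp (h15.ge (mem_top : e ∈ _))
    simp only [LinearMap.sub_apply, LinearMap.smul_apply, End.one_apply] at hd'
    by_cases h16 : d = 1
    · have h17 : c = 0 := by
        rw [h16, one_smul, eq_comm, sub_eq_self, smul_eq_zero] at hd'
        exact hd'.resolve_right fun h => h1 (h ▸ zero_mem _)
      have h18 := (finrank_mono (range_le_iff_comap.mpr h15)).trans (hl _)
      rw [h17, zero_smul, sub_zero, range_eq_top.mpr ((End.isUnit_iff g).mp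
        ((isUnit_iff_isUnit_det g).mpr (by simp [hd]))).2, finrank_top] at h18
      omega
    · exact he ((1 - d)⁻¹ * c) (by
        rw [mul_smul, eq_inv_smul_iff₀ (sub_ne_zero.mpr (Ne.symm h16))]
        linear_combination (norm := module) -hd')
  obtain ⟨β, hβ⟩ := mem_span_singleton.mp h8
  have h11 : (g - 1) x = β • e + (β + δ - 1) • x := by
    simp only [h0, LinearMap.sub_apply, LinearMap.smul_apply, End.one_apply] at hβ ⊢
    linear_combination (norm := module) -hβ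
  by_cases h12 : β = 0
  · obtain ⟨φ, h13, h14, h15, h16, h17⟩ := avoid_dual hK h1 h2 hw h9
    exact ⟨φ, h13, h14, h15, hW φ h16, fun _ => ⟨h10 φ h13 h14 h17, hX φ (x - (δ - 1) • e)
      (by rw [hY, mem_comap, map_sub, map_smul, h11, hx]; simp [h12])
      (by simp [h13, h14, sub_ne_zero.mpr h7, sub_ne_zero.mpr (Ne.symm h7)])⟩⟩
  · obtain ⟨φ, h13, h14, h15, h16, h17⟩ := avoid_dual hK h1 h2 h5 h9
    exact ⟨φ, h13, h14, h15, fun h => h12 (by
      simpa [h11, h13, h14, -LinearMap.sub_apply] using LinearMap.congr_fun h x),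
      fun _ => ⟨h10 φ h13 h14 h17, h6 φ h16⟩⟩

omit hK [FiniteDimensional K V] in
theorem comp_pow_succ {W : Type*} [AddCommGroup W] [Module K W] (f : V →ₗ[K] W) (h : W →ₗ[K] V)
    (k : ℕ) (v : V) : ((h ∘ₗ f) ^ (k + 1)) v = h (((f ∘ₗ h) ^ k) (f v)) := by
  induction k generalizing v with
  | zero => simp
  | succ k ih => rw [pow_succ, End.mul_apply, ih, pow_succ]; rfl

/-- The projection onto `ker φ` along `e`. -/
noncomputable def prj (φ : Dual K V) (he : φ e = 1) : V →ₗ[K] ker φ :=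
  codRestrict _ (1 - φ.smulRight e) fun v => by simp [he]

omit hK [FiniteDimensional K V] in
theorem prj_coe (φ : Dual K V) (he : φ e = 1) (v : V) : (prj φ he v : V) = v - φ v • e := rfl

omit hK [FiniteDimensional K V] in
theorem prj_ker (φ : Dual K V) (he : φ e = 1) (w : ker φ) : prj φ he w = w :=
  Subtype.ext (by simp [prj_coe])

/-- Block upper triangular extension. -/
noncomputable def upE (φ : Dual K V) (he : φ e = 1) (A : End K (ker φ)) (x : ker φ) : End K V :=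
  1 + (ker φ).subtype ∘ₗ ((A - 1) ∘ₗ prj φ he + φ.smulRight x)

omit hK [FiniteDimensional K V] in
theorem upE_apply (φ : Dual K V) (he : φ e = 1) (A : End K (ker φ)) (x : ker φ) (v : V) :
    upE φ he A x v = A (prj φ he v) + φ v • (x + e) := by
  simp [upE, prj_coe]
  abel

omit hK [FiniteDimensional K V] in
theorem upE_pow (φ : Dual K V) (he : φ e = 1) (A : End K (ker φ)) (x : ker φ) (k : ℕ) (v : V) :
    ((upE φ he A x - 1) ^ (k + 1)) v = ((A - 1) ^ (k + 1)) (prj φ he v) + φ v • ((A - 1) ^ k) x := by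
  have : ((A - 1) ∘ₗ prj φ he + φ.smulRight x) ∘ₗ (ker φ).subtype = A - 1 := by
    ext w; simp [prj_ker]
  rw [upE, add_sub_cancel_left, comp_pow_succ, this, pow_succ]
  simp

theorem exists_mul_aux (n : ℕ) : ∀ {V : Type u} [AddCommGroup V] [Module K V]
    [FiniteDimensional K V] {g : End K V} {a : V} {b : Dual K V}, finrank K V = n + 1 →
    LinearMap.det g = 1 → (n = 0 ∨ (∀ c : K, g ≠ c • 1) ∧ finrank K (ker (g - 1)) + 2 ≤ n + 1) →
    a ≠ 0 → b ≠ 0 → ∃ A B : End K V, g = A * B ∧ (A - 1) ^ (n + 1) = 0 ∧ (B - 1) ^ (n + 1) = 0 ∧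
      ((A - 1) ^ n) a ≠ 0 ∧ ∃ w, b (((B - 1) ^ n) w) ≠ 0 := by
  induction n with
  | zero =>
    intro V _ _ _ g a b hn hd _ ha hb
    obtain ⟨c, rfl, -⟩ := g.existsUnique_eq_smul_id_of_finrank_eq_one hn
    obtain rfl : c = 1 := by simpa [hn] using hd
    exact ⟨1, 1, by ext; simp, by simp, by simp, ha, not_forall.mp fun h => hb (by ext v; exact h v)⟩
  | succ n ih =>
  intro V _ _ _ g a b hn hd hs ha hb
  obtain ⟨hs, hr⟩ := hs.resolve_left n.succ_ne_zero
  rw [← hn] at hr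
  obtain ⟨e, h1, h2, h3, h4⟩ := exists_e hK hs hr a hb
  obtain ⟨φ, h5, h6, h7, h8, h9⟩ := exists_phi hK hd hr h2 ha h3 h4
  have h0 : φ (g e) = 1 := by simpa [h6, sub_eq_zero] using h5
  let A₀ := g * transvection (-(φ ∘ₗ (g - 1))) e
  have hA : ∀ v, A₀ v = g v - (φ (g v) - φ v) • g e := fun v => by
    simp [A₀, transvection.apply, sub_smul, sub_eq_add_neg, add_smul]
  have hφ : ∀ v, φ (A₀ v) = φ v := fun v => by simp [hA, h0]
  have hW : ∀ v ∈ ker φ, A₀ v ∈ ker φ := fun v hv => by simpa [hφ] using hv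
  have hg : ∀ (c : K) (w : ker φ), (A₀.restrict hW - c • 1 : End K (ker φ)) w = 0 →
      w.1 ∈ (K ∙ g e).comap (g - c • 1) := fun c w h => mem_span_singleton.mpr ⟨φ (g w), by
    have := congrArg Subtype.val h
    simp [hA] at this ⊢
    linear_combination (norm := module) -this⟩
  have hk := Dual.finrank_ker_add_one_of_ne_zero (f := φ) fun h' => by simp [h'] at h6
  obtain ⟨A, B, h10, h11, h12, h13, w, h14⟩ := ih (g := A₀.restrict hW) (a := ⟨_, h5⟩)
    (b := φ ∘ₗ g ∘ₗ (ker φ).subtype) (by omega) (by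
      have := A₀.det_eq_det_mul_det (ker φ) hW
      rw [show (ker φ).mapQ (ker φ) A₀ hW = LinearMap.id from linearMap_qext _ (LinearMap.ext fun v =>
        (Submodule.Quotient.eq _).mpr (by simp [hφ]))] at this
      simpa [A₀, hd, h0, h6] using this.symm)
    ((Nat.eq_zero_or_pos n).imp_right fun h => ⟨fun c hc => (h9 (by omega)).1 c fun w hw =>
      hg c ⟨w, hw⟩ (by simp [hc]), by
        have := (h9 (by omega)).2
        have := LinearMap.finrank_le_finrank_of_injective (f := codRestrict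
          ((K ∙ g e).comap (g - 1) ⊓ ker φ) ((ker φ).subtype ∘ₗ (ker (A₀.restrict hW - 1)).subtype)
          fun w => ⟨by simpa using hg 1 w.1 (by simpa using w.2), w.1.2⟩)
          fun _ _ h => Subtype.ext (Subtype.ext (Subtype.ext_iff.mp h :))
        omega⟩)
    (fun h => h2 (by rw [show (g - 1) e = 0 from congrArg Subtype.val h]; exact zero_mem _))
    fun h => h8 (by
      ext v
      have := LinearMap.congr_fun h (prj φ h6 v)
      simp [prj_coe, h0] at this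
      simpa using this)
  have h15 : ∀ k v, ((((ker φ).subtype ∘ₗ (B - 1) + (φ ∘ₗ g ∘ₗ (ker φ).subtype).smulRight e) ∘ₗ
      prj φ h6) ^ (k + 1)) v = ((B - 1) ^ (k + 1)) (prj φ h6 v) +
        φ (g (((B - 1) ^ k) (prj φ h6 v))) • e := fun k v => by
    rw [comp_pow_succ, show prj φ h6 ∘ₗ ((ker φ).subtype ∘ₗ (B - 1) +
      (φ ∘ₗ g ∘ₗ (ker φ).subtype).smulRight e) = B - 1 by ext w; simp [prj_coe, h6], pow_succ']
    simp
  refine ⟨upE φ h6 A ⟨_, h5⟩, 1 + ((ker φ).subtype ∘ₗ (B - 1) +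
    (φ ∘ₗ g ∘ₗ (ker φ).subtype).smulRight e) ∘ₗ prj φ h6, ?_, ?_, ?_, ?_, w, ?_⟩
  rotate_left 2
  · ext v
    rw [add_sub_cancel_left, h15, pow_succ, h12]
    simp
  · rw [upE_pow, h11]
    simpa [h7] using h13
  · rw [add_sub_cancel_left, h15, h12, prj_ker]
    simpa [h1] using h14
  · ext v
    have h16 := congrArg Subtype.val (LinearMap.congr_fun h10 (prj φ h6 v))
    have h17 : prj φ h6 e = 0 := Subtype.ext (by simp [prj_coe, h6])
    have h18 : v = prj φ h6 v + φ v • e := by simp [prj_coe]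
    generalize prj φ h6 v = u, φ v = c at h16 h18
    subst h18
    simp [hA] at h16
    simp [upE_apply, prj_ker, h17, h6, ← h16]
    module
  · ext v
    rw [upE_pow, pow_succ, h11]
    simp

/-- A non-scalar endomorphism of determinant `1` is a product of two regular unipotent ones. -/
theorem exists_reg_mul {n : ℕ} (hn : finrank K V = n + 1) (hd : LinearMap.det g = 1)
    (hs : ∀ c : K, g ≠ c • 1) : ∃ A B : End K V, g = A * B ∧ (A - 1) ^ (n + 1) = 0 ∧
      (B - 1) ^ (n + 1) = 0 ∧ (A - 1) ^ n ≠ 0 ∧ (B - 1) ^ n ≠ 0 := by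
  have h1 : g - 1 ≠ 0 := fun h => hs 1 (by simpa [sub_eq_zero] using h)
  by_cases hr : finrank K (ker (g - 1)) + 2 ≤ n + 1
  · obtain ⟨a, ha⟩ : ∃ a : V, a ≠ 0 := (finrank_pos_iff_exists_ne_zero (R := K)).mp (by omega)
    obtain ⟨b, hb⟩ : ∃ b : Dual K V, b ≠ 0 :=
      (finrank_pos_iff_exists_ne_zero (R := K)).mp (by rw [Subspace.dual_finrank_eq]; omega)
    obtain ⟨A, B, h2, h3, h4, h5, w, h6⟩ := exists_mul_aux hK n hn hd (Or.inr ⟨hs, hr⟩) ha hb
    exact ⟨A, B, h2, h3, h4, fun h => h5 (by simp [h]), fun h => h6 (by simp [h])⟩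
  obtain ⟨e, he⟩ : ∃ e, e ∉ ker (g - 1) := not_forall.mp fun h => h1 (LinearMap.ext h)
  obtain ⟨φ, h2, h3⟩ := exists_dual_map_eq_bot_of_notMem he inferInstance
  replace h3 : ∀ v ∈ ker (g - 1), φ v = 0 := fun v hv => h3.le ⟨v, hv, rfl⟩
  obtain ⟨φ, h2, h3⟩ : ∃ φ : Dual K V, φ e = 1 ∧ ∀ v ∈ ker (g - 1), φ v = 0 :=
    ⟨(φ e)⁻¹ • φ, by simp [h2], fun v hv => by simp [h3 v hv]⟩
  have hk := Dual.finrank_ker_add_one_of_ne_zero (f := φ) fun h' => by simp [h'] at h2
  have h4 : ker (g - 1) = ker φ := eq_of_le_of_finrank_le h3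
    (Nat.le_of_lt_succ (Nat.lt_of_succ_lt_succ (by rw [Nat.succ_eq_add_one, hk, hn]; exact not_le.mp hr)))
  have h5 : g = transvection φ ((g - 1) e) := by
    ext v
    have : (g - 1) (prj φ h2 v) = 0 := h4.ge (prj φ h2 v).2
    simp only [prj_coe, map_sub, map_smul, LinearMap.sub_apply, End.one_apply,
      transvection.apply] at this ⊢
    linear_combination (norm := module) this
  have h6 : (g - 1) e ∈ ker φ := by simpa using (congrArg LinearMap.det h5).symm.trans hd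
  obtain _ | n := n
  · exact (he (congrArg Subtype.val ((finrank_zero_iff_forall_zero (K := K)).mp (by omega)
      (⟨_, h6⟩ : ker φ)))).elim
  obtain ⟨A, hA⟩ := GLn.exists_hasJT_of_sum (V := ker φ) (1 : K) (μ := {n + 1}) (by simp)
    (by simp; omega)
  have h7 := hA.pow_eq_zero_iff (n + 1)
  have h8 := hA.pow_eq_zero_iff n
  simp only [map_one, Multiset.mem_singleton, forall_eq, le_refl, iff_true,
    add_le_iff_nonpos_right, nonpos_iff_eq_zero, one_ne_zero, iff_false] at h7 h8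
  obtain ⟨A, rfl⟩ : IsUnit A := by simpa using IsNilpotent.isUnit_add_one ⟨_, h7⟩
  obtain ⟨y, hy⟩ : ∃ y, ((A.1 - 1) ^ n) y ≠ 0 := not_forall.mp fun h => h8 (LinearMap.ext h)
  obtain ⟨t, h9, h10⟩ : ∃ t : K, t ≠ 0 ∧ t • ((A.1 - 1) ^ n) y ≠ ((A.1 - 1) ^ n) ⟨_, h6⟩ := by
    classical
    obtain ⟨T, hT⟩ := hK
    obtain ⟨t, h9, t', h10, h11⟩ := Finset.one_lt_card.mp
      (show 1 < (T.erase 0).card by have := T.pred_card_le_card_erase (a := 0); omega)
    by_contra! h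
    exact h11 (smul_left_injective K hy ((h t (Finset.ne_of_mem_erase h9)).trans
      (h t' (Finset.ne_of_mem_erase h10)).symm))
  have h11 : ∀ k, (A⁻¹.1 - 1) ^ k = (-A⁻¹.1) ^ k * (A.1 - 1) ^ k := fun k => by
    rw [← Commute.mul_pow (Commute.sub_right (Commute.refl A.1).units_inv_left.neg_left
      (Commute.one_right _)), neg_mul, mul_sub, Units.inv_mul, mul_one, neg_sub]
  have h12 : prj φ h2 e = 0 := Subtype.ext (by simp [prj_coe, h2])
  refine ⟨upE φ h2 A (⟨_, h6⟩ - t • A.1 y), upE φ h2 A⁻¹.1 (t • y), ?_, ?_, ?_, fun h => ?_,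
    fun h => ?_⟩
  · ext v
    rw [LinearMap.congr_fun h5 v]
    have h13 : ∀ w, A.1 (A⁻¹.1 w) = w := fun w => by rw [← End.mul_apply, A.mul_inv]; rfl
    simp [upE_apply, prj_ker, h12, h2, transvection.apply, h13]
    simp [prj_coe]
    module
  · ext v
    rw [upE_pow, pow_succ, h7]
    simp
  · ext v
    rw [upE_pow, h11, h11, pow_succ (A.1 - 1), h7]
    simp
  · have := LinearMap.congr_fun h e
    have h13 := LinearMap.congr_fun h7 y
    rw [pow_succ, End.mul_apply, LinearMap.sub_apply, map_sub, sub_eq_iff_eq_add'] at h13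
    rw [upE_pow, h7, h2, map_sub, map_smul, h13] at this
    exact h10 (Subtype.ext (Eq.symm (by simpa [sub_eq_zero] using this)))
  · have := LinearMap.congr_fun h e
    rw [upE_pow, h12, h2, h11 n] at this
    exact hy (((End.isUnit_iff _).mp ((-A⁻¹).isUnit.pow n)).1 (by simpa [h9] using this))

omit [FiniteDimensional K V] in
open Matrix in
/-- Lev's theorem for matrices. -/
theorem exists_reg_mul_matrix {m : Type} [Fintype m] [DecidableEq m] {n : ℕ}
    (hn : Fintype.card m = n + 1) {J g : Matrix m m K} (h1 : (J - 1) ^ (n + 1) = 0)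
    (h2 : (J - 1) ^ n ≠ 0) (hd : g.det = 1) (hs : ∀ c : K, g ≠ c • 1) :
    ∃ A B, g = A * B ∧ IsConj J A ∧ IsConj J B := by
  obtain ⟨A, B, h3, h4, h5, h6, h7⟩ := exists_reg_mul hK (g := toLin' g) (n := n) (by simpa)
    (by simpa) fun c h => hs c (toLin'.injective (by simp [h, End.one_eq_id]))
  have key : ∀ A : Matrix m m K, (toLin' A - 1) ^ (n + 1) = 0 → (toLin' A - 1) ^ n ≠ 0 →
      GLn.HasJT (toLin' A) 1 {n + 1} := fun A h h' => by
    obtain ⟨μ, hμ⟩ := GLn.exists_hasJT (A := toLin' A) (a := 1) ⟨_, by simpa using h⟩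
    rwa [hμ.eq_singleton_of_pow_ne_zero (by simpa [hn] using h'), finrank_fintype_fun_eq_card,
      hn] at hμ
  have hJ := key J (by simpa [h1] using (GLn.toLin'_sub_one_pow J (n + 1)).symm)
    fun h => h2 (toLin'.injective (by rw [GLn.toLin'_sub_one_pow, map_one, h, map_zero]))
  obtain ⟨A, rfl⟩ := toLin'.surjective A
  obtain ⟨B, rfl⟩ := toLin'.surjective B
  exact ⟨A, B, toLin'.injective (by rw [h3, toLin'_mul]; rfl), (hJ.isConj_iff (key A h4 h6)).mpr rfl,
    (hJ.isConj_iff (key B h5 h7)).mpr rfl⟩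

end CL.Thomp
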