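/-
Homomorphisms from `SL_n` onto Levi factors of type `A`, and unitriangular matrices.
-/
import Mathlib
import Cfsg.Agent.CHEV.CTProd
import Cfsg.Agent.CHEV.TwOrb
import Cfsg.Agent.KSG.ShortSt
import Cfsg.Agent.KSG.ThLev

set_option autoImplicit false

namespace CL.Thomp

open CL.Chev CL.Chev.StData CL.Chev.Cl Matrix Matrix.SpecialLinearGroup

variable {ι κ : Type*} [Fintype κ] [DecidableEq κ] {R : RootSys ι κ} {F G : Type*} [Field F] [Group G]
  [Finite ι] {S : StData R F G} {n : ℕ}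

/-- the sign condition for simple bonds -/
def Eta (R : RootSys ι κ) : Prop := ∀ i j, i ≠ j → R.A i j = -1 → R.A j i = -1 →
  R.η i (R.simple j) * R.η j (R.simple i) = -1

theorem eta_of_good {G' : Type*} [Group G'] {S' : StData R ℚ G'} (h : S'.Good) : Eta R :=
  fun _ _ h1 h2 h3 => (RootSys.isA2_restrict h1 h2 h3).eta (h.restrict _) two_ne_zero

/-- the simple root elements of `SL_{n+1}` -/
abbrev eU (k : Fin n) (t : F) : SpecialLinearGroup (Fin (n + 1)) F :=
  transvection k.castSucc_lt_succ.ne t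

/-- the negative simple root elements of `SL_{n+1}` -/
abbrev eL (k : Fin n) (t : F) : SpecialLinearGroup (Fin (n + 1)) F :=
  transvection k.castSucc_lt_succ.ne' t

theorem slSt_simple (k : Fin n) (t : F) : (slSt F n).x ((baseA n).R.simple k) t = eU k t :=
  slSt_x F _ t

theorem slSt_neg (k : Fin n) (t : F) :
    (slSt F n).x ((baseA n).R.neg ((baseA n).R.simple k)) t = eL k t :=
  (congrArg (fun r => (slSt F n).x r t) (Root.mk_swap _)).trans (slSt_x F _ t)

theorem exists_chain_hom [Finite F] (hS : S.Good) (hη : Eta R) {p : Fin n → κ}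
    (hp : ∀ i j, R.A (p i) (p j) = chainA i j) : ∃ φ : SpecialLinearGroup (Fin (n + 1)) F →* G,
      ∀ k t, φ (eU k t) = S.x (R.simple (p k)) t ∧ φ (eL k t) = S.x (R.neg (R.simple (p k))) t := by
  classical
  have hi : ∀ {i j}, i ≠ j → p i ≠ p j := fun {i j} h e => by
    have := hp i j
    rw [e, R.A_self, chainA, if_neg (Fin.val_ne_of_ne h)] at this
    split_ifs at this; omega
  obtain ⟨P, h1, h2⟩ := exists_stData_of_prod (slSt_good F n) (fun k => S.x (R.simple (p k)))
    (fun k => S.x (R.neg (R.simple (p k)))) fun i j => by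
      by_cases h : i ≠ j ∧ chainA i j = -1
      · have h' : chainA j i = -1 := by rw [← h.2, chainA, chainA]; simp only [eq_comm, or_comm]
        have b1 := (baseA n).R.isA2_restrict h.1 ((baseA_A i j).trans h.2) ((baseA_A j i).trans h')
        have b2 := R.isA2_restrict (hi h.1) ((hp i j).trans h.2) ((hp j i).trans h')
        obtain ⟨I, i1, i2⟩ := b2.exists_iso b1 (hη _ _ (hi h.1) b2.a1 b2.a2)
          (eta_of_good (slSt_good ℚ n) _ _ h.1 b1.a1 b1.a2)
        refine ⟨StData.prod b1.noG2 ((slSt_good F n).restrict {i, j})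
          ((hS.restrict {p i, p j}).relabel I), fun _ _ => rfl, fun k t => ?_⟩
        change S.x (I.φ _).1 (I.c _ * t) = _ ∧ S.x (I.φ _).1 (I.c _ * t) = _
        rw [I.φ_neg, I.φ_simple, I.c_neg, I.c_simple, Int.cast_one, one_mul]
        rcases b1.all k with rfl | rfl
        · rw [i1]; exact ⟨rfl, rfl⟩
        · rw [i2]; exact ⟨rfl, rfl⟩
      have h3 : ∀ k l : ({i, j} : Set (Fin n)), k ≠ l → chainA k l = 0 := by
        have h3 : i ≠ j → chainA i j = 0 ∧ chainA j i = 0 := fun e => by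
          have := Fin.val_ne_of_ne e
          simp only [chainA, e, ne_eq, not_false_eq_true, true_and] at h ⊢
          split_ifs at h ⊢ <;> omega
        rintro ⟨k, rfl | rfl⟩ ⟨l, rfl | rfl⟩ e
        exacts [absurd rfl e, (h3 (Subtype.coe_ne_coe.2 e)).1, (h3 (Subtype.coe_ne_coe.2 e).symm).2,
          absurd rfl e]
      have h4 : ∀ k, R.simple k ∈ R.sub {k} := fun k => R.simple_mem_sub.2 (Set.mem_singleton k)
      exact exists_stData_orth ((slSt_good F n).restrict {i, j})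
        (fun k l e => (baseA_A k.1 l.1).trans (h3 k l e)) _ _ (fun k => S.sl2Rel _) fun k l e t u =>
        have h5 := fun g g' => S.commute_orth (g := g) (g' := g') (hi (Subtype.coe_ne_coe.2 e))
          ((hp _ _).trans (h3 k l e))
        ⟨h5 _ _ (S.x_mem_XS (h4 _) t) (S.x_mem_XS (h4 _) u),
          h5 _ _ (S.x_mem_XS (h4 _) t) (S.x_mem_XS (R.neg_mem_sub.2 (h4 _)) u),
          h5 _ _ (S.x_mem_XS (R.neg_mem_sub.2 (h4 _)) t) (S.x_mem_XS (R.neg_mem_sub.2 (h4 _)) u)⟩
  obtain ⟨φ, h3⟩ := P.exists_hom_of_sc h1 (slSt_good F n) (slSt_top F n) (slSt_sc F n)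
  exact ⟨φ, fun k t => by rw [← slSt_simple, ← slSt_neg, h3, h3]; exact h2 k t⟩

omit [Finite ι] in
theorem eq_top_of_simple {K : Subgroup (SpecialLinearGroup (Fin (n + 1)) F)}
    (h : ∀ k t, eU k t ∈ K ∧ eL k t ∈ K) : K = ⊤ := by
  have := (slSt F n).XS_sub_le (J := Set.univ) (K := K) fun k _ t => by
    rw [slSt_simple, slSt_neg]; exact h k t
  rw [RootSys.sub_univ] at this
  exact top_le_iff.1 ((slSt_top F n).ge.trans this)

/-- conjugation by an invertible matrix -/
def cj {m : Type*} [Fintype m] [DecidableEq m] (D : (Matrix m m F)ˣ) :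
    SpecialLinearGroup m F →* SpecialLinearGroup m F where
  toFun A := ⟨D * A * D⁻¹.1, (det_units_conj D A.1).trans A.2⟩
  map_one' := Subtype.ext (by simp)
  map_mul' A B := Subtype.ext (by
    change D.1 * (A.1 * B.1) * _ = D.1 * A.1 * _ * (D.1 * B.1 * _)
    simp only [mul_assoc, Units.inv_mul_cancel_left])

/-- the diagonal matrix `diag(δ, 1, …, 1)` -/
def dg (n : ℕ) (δ : Fˣ) : (Matrix (Fin (n + 1)) (Fin (n + 1)) F)ˣ :=
  ⟨diagonal (Fin.cons δ.1 1), diagonal (Fin.cons δ⁻¹.1 1), by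
    rw [diagonal_mul_diagonal, ← diagonal_one]; congr; ext i; cases i using Fin.cases <;> simp, by
    rw [diagonal_mul_diagonal, ← diagonal_one]; congr; ext i; cases i using Fin.cases <;> simp⟩

theorem cj_dg (δ : Fˣ) (k : Fin n) (t : F) :
    cj (dg n δ) (eU k t) = eU k (δ ^ (if k.1 = 0 then 1 else 0 : ℤ) * t) ∧
    cj (dg n δ) (eL k t) = eL k (δ ^ (-if k.1 = 0 then 1 else 0 : ℤ) * t) := by
  have key : ∀ {i j : Fin (n + 1)} (h : i ≠ j), cj (dg n δ) (transvection h t) =
      transvection h (Fin.cons (α := fun _ => F) δ.1 1 i * t * Fin.cons (α := fun _ => F) δ⁻¹.1 1 j) :=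
    fun h => Subtype.ext (by
      change (dg n δ).1 * _ * (dg n δ)⁻¹.1 = _
      rw [transvection_coe, transvection_coe, mul_add, add_mul, mul_one, Units.mul_inv]
      congr 1
      ext a b
      simp only [dg, Units.inv_mk, mul_diagonal, diagonal_mul, single_apply]
      split_ifs with h
      · rw [h.1, h.2]
      · simp)
  rw [key, key]
  obtain _ | n := n
  · exact k.elim0
  cases k using Fin.cases with
  | zero => simp [mul_comm, eU, eL]
  | succ k => simp [← Fin.succ_castSucc]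

/-- upper unitriangular matrices with given superdiagonal -/
def Tri (A : Matrix (Fin (n + 1)) (Fin (n + 1)) F) (c : Fin n → F) : Prop :=
  (∀ i j, (A - 1) i j ≠ 0 → i < j) ∧ ∀ k : Fin n, (A - 1) k.castSucc k.succ = c k

theorem Tri.mul {A B : Matrix (Fin (n + 1)) (Fin (n + 1)) F} {c d : Fin n → F} (h : Tri A c)
    (h' : Tri B d) : Tri (A * B) (c + d) := by
  have h1 : ∀ i j, ((A - 1) * (B - 1)) i j ≠ 0 → i.1 + 1 < j := fun i j h1 => by
    rw [mul_apply] at h1
    obtain ⟨l, -, hl⟩ := Finset.exists_ne_zero_of_sum_ne_zero h1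
    have := h.1 _ _ (left_ne_zero_of_mul hl)
    have := h'.1 _ _ (right_ne_zero_of_mul hl)
    omega
  rw [Tri, show A * B - 1 = (A - 1) * (B - 1) + (A - 1) + (B - 1) by noncomm_ring]
  refine ⟨fun i j h2 => by_contra fun h3 => h2 ?_, fun k => ?_⟩
  · rw [Matrix.add_apply, Matrix.add_apply, not_not.1 (mt (h.1 i j) h3), not_not.1 (mt (h'.1 i j) h3),
      not_not.1 (mt (h1 i j) (by omega)), add_zero, add_zero]
  · rw [Matrix.add_apply, Matrix.add_apply, h.2, h'.2, not_not.1 (mt (h1 _ _) (by simp)), zero_add, Pi.add_apply]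

theorem Tri.reg {A : Matrix (Fin (n + 1)) (Fin (n + 1)) F} {c : Fin n → F} (h : Tri A c)
    (hc : ∀ k, c k ≠ 0) : (A - 1) ^ (n + 1) = 0 ∧ (A - 1) ^ n ≠ 0 := by
  have key : ∀ m, ∀ i j : Fin (n + 1), (((A - 1) ^ m) i j ≠ 0 → i.1 + m ≤ j) ∧
      (i.1 + m = j → ((A - 1) ^ m) i j ≠ 0) := by
    intro m
    induction m with
    | zero => exact fun i j => by simp +contextual [one_apply, Fin.ext_iff]
    | succ m ih =>
    intro i j
    rw [pow_succ, mul_apply]
    refine ⟨fun h1 => ?_, fun h1 => ?_⟩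
    · obtain ⟨l, -, hl⟩ := Finset.exists_ne_zero_of_sum_ne_zero h1
      have := (ih _ _).1 (left_ne_zero_of_mul hl)
      have := h.1 _ _ (right_ne_zero_of_mul hl)
      omega
    · obtain ⟨k, rfl⟩ := j.exists_succ_eq.2 (by rintro rfl; simp at h1)
      rw [Finset.sum_eq_single k.castSucc (fun l _ hl => by_contra fun h2 => by
        have := (ih _ _).1 (left_ne_zero_of_mul h2)
        have := h.1 _ _ (right_ne_zero_of_mul h2)
        simp only [ne_eq, Fin.ext_iff, Fin.lt_def, Fin.val_succ, Fin.val_castSucc] at *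
        omega) (by simp), h.2]
      exact mul_ne_zero ((ih _ _).2 (by simpa [← add_assoc] using h1)) (hc k)
  exact ⟨ext fun i j => by_contra fun h1 => by have := (key _ i j).1 h1; omega,
    fun h1 => (key n 0 (Fin.last n)).2 (by simp) (by simp [h1])⟩

theorem tri_prod (l : List (Fin n × F)) : Tri ((l.map fun a => eU a.1 a.2).prod).1
    fun k => (l.map fun a => if a.1 = k then a.2 else 0).sum := by
  induction l with
  | nil => exact ⟨by simp, by simp⟩
  | cons a l ih =>
  refine Tri.mul (A := (eU a.1 a.2).1) (c := fun k => if a.1 = k then a.2 else 0) ⟨fun i j h => ?_,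
    fun k => by simp [transvection_coe, single_apply]⟩ ih
  rw [transvection_coe, add_sub_cancel_left, single_apply] at h
  obtain ⟨rfl, rfl⟩ := not_not.1 fun h' => h (if_neg h')
  exact a.1.castSucc_lt_succ

/-- regular unipotent elements -/
def Reg (A : SpecialLinearGroup (Fin (n + 1)) F) : Prop :=
  (A.1 - 1) ^ (n + 1) = 0 ∧ (A.1 - 1) ^ n ≠ 0

theorem reg_prod (σ : Equiv.Perm (Fin n)) {c : Fin n → F} (hc : ∀ k, c k ≠ 0) :
    Reg (List.ofFn fun k => eU (σ k) (c k)).prod ∧ Reg (List.ofFn fun k => eL (σ k) (c k)).prod := by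
  have key : ∀ l : List (Fin n × F), l.Perm (List.ofFn fun k => (σ k, c k)) →
      Reg (l.map fun a => eU a.1 a.2).prod := fun l hl => (tri_prod l).reg fun k => by
    rw [(hl.map _).sum_eq, List.map_ofFn, List.sum_ofFn]
    simpa [← σ.eq_symm_apply] using hc _
  refine ⟨by simpa [List.map_ofFn, Function.comp_def] using key _ (.refl _), ?_⟩
  have h1 : ∀ l : List (Fin n × F), ((l.map fun a => eL a.1 a.2).prod).1 =
      ((l.reverse.map fun a => eU a.1 a.2).prod).1ᵀ := fun l => by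
    induction l with
    | nil => simp
    | cons a l ih => simp [ih, transvection_coe]
  have h2 := key _ (List.reverse_perm _)
  have h3 := h1 (List.ofFn fun k => (σ k, c k))
  rw [List.map_ofFn] at h3
  have h4 := h2.2
  replace h2 := h2.1
  rw [Ne] at h4
  rw [← transpose_eq_zero, transpose_pow, transpose_sub, transpose_one, ← h3] at h2 h4
  exact ⟨h2, h4⟩

theorem Reg.inv {A : SpecialLinearGroup (Fin (n + 1)) F} (h : Reg A) : Reg A⁻¹ := by
  have h0 : A⁻¹.1 * A.1 = 1 := congrArg Subtype.val (inv_mul_cancel A)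
  have h1 : ∀ k, (A⁻¹.1 - 1) ^ k = (-A⁻¹.1) ^ k * (A.1 - 1) ^ k := fun k => by
    rw [← Commute.mul_pow (Commute.sub_right (Commute.neg_left
      (h0.trans (mul_eq_one_comm.1 h0).symm)) (Commute.one_right _)), neg_mul, mul_sub, h0, mul_one,
      neg_sub]
  exact ⟨by rw [h1, h.1, mul_zero], fun h2 => h.2
    ((((IsUnit.of_mul_eq_one _ h0).neg.pow n).mul_right_eq_zero).1 (h1 n ▸ h2))⟩

theorem Reg.hasJT {A : SpecialLinearGroup (Fin (n + 1)) F} (h : Reg A) :
    GLn.HasJT (toLin' A.1) 1 {n + 1} := by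
  obtain ⟨μ, hμ⟩ := GLn.exists_hasJT_one (A := A.1) ⟨_, h.1⟩
  rwa [hμ.eq_singleton_of_pow_ne_zero fun h1 => h.2 (toLin'.injective (by
    rw [GLn.toLin'_sub_one_pow, map_zero]; simpa using h1)), Module.finrank_fin_fun] at hμ

theorem Reg.exists_conj {A B : SpecialLinearGroup (Fin (n + 1)) F} (h : Reg A) (h' : Reg B) :
    ∃ δ Y, B = Y * cj (dg n δ) A * Y⁻¹ := by
  obtain ⟨X, hX⟩ := (h.hasJT.isConj_iff h'.hasJT).2 rfl
  have h1 : (X * (dg n (GeneralLinearGroup.det X))⁻¹).1.det = 1 := by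
    have : X.1.det ≠ 0 := (X.isUnit.map detMonoidHom).ne_zero
    simp [dg, Fin.prod_univ_succ, this]
  refine ⟨GeneralLinearGroup.det X, ⟨_, h1⟩, eq_mul_inv_of_mul_eq (Subtype.ext ?_)⟩
  change B.1 * (X * _ : (Matrix _ _ F)ˣ).1 = (X * _ : (Matrix _ _ F)ˣ).1 * (_ * A.1 * _)
  simp only [Units.val_mul, mul_assoc, Units.inv_mul_cancel_left]
  rw [← mul_assoc, ← mul_assoc, hX.eq]

theorem exists_reg_mul_SL (hK : ∃ T : Finset F, T.card = 4) {g : SpecialLinearGroup (Fin (n + 1)) F}
    (hg : g ∉ Subgroup.center _) : ∃ A B, Reg A ∧ Reg B ∧ g = A * B := by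
  obtain ⟨A, B, h1, h2, h3, h4, h5⟩ := exists_reg_mul hK (g := toLin' g.1) (n := n) (by simp)
    (by simp) fun c h => hg (Subgroup.mem_center_iff.2 fun A => Subtype.ext (by
      have : g.1 = c • 1 := toLin'.injective (by simp [h, Module.End.one_eq_id])
      simp [this]))
  obtain ⟨A, rfl⟩ := toLin'.surjective A
  obtain ⟨B, rfl⟩ := toLin'.surjective B
  have key : ∀ (A : Matrix (Fin (n + 1)) (Fin (n + 1)) F) k,
      (toLin' A - 1) ^ k = 0 ↔ (A - 1) ^ k = 0 := fun A k => by
    rw [← toLin'.map_eq_zero_iff, GLn.toLin'_sub_one_pow, map_one]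
  rw [key] at h2 h3
  exact ⟨⟨A, GLn.det_eq_one_of_isNilpotent_sub_one ⟨_, h2⟩⟩,
    ⟨B, GLn.det_eq_one_of_isNilpotent_sub_one ⟨_, h3⟩⟩, ⟨h2, (key _ _).not.1 h4⟩,
    ⟨h3, (key _ _).not.1 h5⟩, Subtype.ext (toLin'.injective (h1.trans (toLin'_mul A B).symm))⟩

end CL.Thomp
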