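/-
Gauss decomposition with prescribed semisimple part (Ellers–Gordeev) for groups with root elements
over a finite field with at least seven elements.
-/
import Mathlib
import Cfsg.Agent.CHEV.LiftMain
import Cfsg.Agent.CHEV.TorHom
import Cfsg.Agent.CHEV.Opp
import Cfsg.Agent.CHEV.RootPair

set_option autoImplicit false

namespace CL.Thomp

open CL.Chev CL.Chev.StData Polynomial

theorem exists_avoid {F : Type*} [Field F] [Finite F] {a b : ℤ} (ha : a ≠ 0) (hb : b ≠ 0)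
    (h : a.natAbs + b.natAbs + 1 < Nat.card F) (c d : Fˣ) :
    ∃ l : Fˣ, l ^ a * c ≠ 1 ∧ l ^ b * d ≠ 1 := by
  have key : ∀ (a : ℤ) (c : Fˣ), ∃ c' : F, ∀ l : Fˣ, l ^ a * c = 1 → (l : F) ^ a.natAbs = c' :=
    fun a c => by
      obtain ⟨n, rfl | rfl⟩ := a.eq_nat_or_neg
      · exact ⟨(c⁻¹ : Fˣ), fun l h => by simp [← eq_inv_of_mul_eq_one_left h]⟩
      · exact ⟨c, fun l h => by
          rw [zpow_neg, inv_mul_eq_one] at h
          simp [← h]⟩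
  obtain ⟨c', hc⟩ := key a c
  obtain ⟨d', hd⟩ := key b d
  have h1 := monic_X_pow_sub_C c' (Int.natAbs_ne_zero.2 ha)
  have h2 := monic_X_pow_sub_C d' (Int.natAbs_ne_zero.2 hb)
  obtain ⟨l, hl⟩ := exists_eval_ne_zero_of_natDegree_lt_card _ ((h1.mul h2).mul monic_X).ne_zero (by
    rw [(h1.mul h2).natDegree_mul monic_X, h1.natDegree_mul h2, natDegree_X_pow_sub_C,
      natDegree_X_pow_sub_C, natDegree_X, ← Nat.cast_card]
    exact_mod_cast h)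
  simp only [eval_mul, eval_sub, eval_pow, eval_X, eval_C, mul_ne_zero_iff, sub_ne_zero] at hl
  exact ⟨Units.mk0 l hl.2, fun h => hl.1.1 (hc _ h), fun h => hl.1.2 (hd _ h)⟩

variable {ι κ : Type*} [Fintype κ] [DecidableEq κ] {R : RootSys ι κ} {F G : Type*} [Field F] [Group G]
  [Finite ι]

/-- walking along the Dynkin diagram -/
theorem walk [Finite F] (hF : 7 ≤ Nat.card F) (hR : R.Irred) {P : (κ → Fˣ) → κ → Prop}
    (mv : ∀ t i l, P t i → P (Pi.mulSingle i l * t) i)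
    (jp : ∀ t i j, P t i → matHom Fˣ (Matrix.of R.A) t j ≠ 1 → P t j) {t : κ → Fˣ} {i : κ}
    (h : P t i) (t₀ : κ → Fˣ) : ∃ j, P t₀ j := by
  classical
  let Q : Finset κ → Prop := fun J => J.Nonempty ∧ ∀ i ∈ J, ∀ t, P t i →
    (∀ j ∈ J, ∃ t', (∀ k ∉ J, t' k = t k) ∧ P t' j) ∧ ∀ t', (∀ k ∉ J, t' k = t k) → ∃ j, P t' j
  have hm : ∀ (t : κ → Fˣ) i l j, matHom Fˣ (Matrix.of R.A) (Pi.mulSingle i l * t) j =
      l ^ R.A i j * matHom Fˣ (Matrix.of R.A) t j := fun t i l j => by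
    rw [map_mul, matHom_mulSingle]; rfl
  have h3 : ∀ i j, i ≠ j → R.A i j ≠ 0 → (R.A i j).natAbs ≤ 3 := fun i j hij h => by
    have h1 := R.A_mul_A_le_three hij
    have h2 := R.A_nonpos hij
    have h3 := R.A_nonpos hij.symm
    have h4 := (R.A_eq_zero_comm i j).not.1 h
    have : -3 ≤ R.A i j := by nlinarith [lt_of_le_of_ne h3 h4]
    omega
  obtain ⟨J, ⟨h1, h2⟩, hJ⟩ := (Set.toFinite {J | Q J}).exists_maximal ⟨{i}, by simp, fun i' hi t ht => by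
    obtain rfl := Finset.mem_singleton.1 hi
    refine ⟨by simpa using ⟨t, fun _ _ => rfl, ht⟩, fun t' h => ⟨i', ?_⟩⟩
    convert mv t i' (t' i' / t i') ht
    ext1 k
    by_cases hk : k = i'
    · simp [hk]
    · simp [hk, h k (by simpa)]⟩
  by_cases h4 : ∀ k, k ∈ J
  · exact (h2 i (h4 i) t h).2 t₀ fun k hk => (hk (h4 k)).elim
  obtain ⟨j, hj, k, hk, hA⟩ := hR J h1 (not_forall.1 h4)
  rw [Finset.mem_coe] at hj hk
  have hjk : j ≠ k := fun e => hk (e ▸ hj)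
  have hA' := (R.A_eq_zero_comm j k).not.1 hA
  refine (hk (hJ (y := insert k J) ⟨by simp, ?_⟩ (Finset.subset_insert k J) (by simp))).elim
  have a1 : ∀ i ∈ insert k J, ∀ t, P t i → ∃ t', (∀ m ∉ insert k J, t' m = t m) ∧ P t' j := by
    intro i hi t ht
    rcases Finset.mem_insert.1 hi with rfl | hi
    · obtain ⟨l, hl, -⟩ := exists_avoid hA' one_ne_zero (by have := h3 _ _ hjk.symm hA'; simp; omega)
        (matHom Fˣ (Matrix.of R.A) t j) 1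
      exact ⟨_, fun m hm => by simp [show m ≠ i from fun e => hm (by simp [e])],
        jp _ _ _ (mv t i l ht) (by rwa [hm])⟩
    · obtain ⟨t', h5, h6⟩ := (h2 i hi t ht).1 j hj
      exact ⟨t', fun m hm => h5 m fun e => hm (by simp [e]), h6⟩
  have a2 : ∀ t, P t j → ∀ c, ∃ l, P (Pi.mulSingle j l * t) k ∧
      P (Pi.mulSingle k c * (Pi.mulSingle j l * t)) j := fun t ht c => by
    obtain ⟨l, h5, h6⟩ := exists_avoid hA two_ne_zero (by have := h3 _ _ hjk hA; simp; omega)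
      (matHom Fˣ (Matrix.of R.A) t k) (c ^ R.A k j * matHom Fˣ (Matrix.of R.A) t j)
    have h7 := jp _ _ k (mv t j l ht) (by rwa [hm])
    exact ⟨l, h7, jp _ _ _ (mv _ k c h7) (by rwa [hm, hm, R.A_self, mul_left_comm])⟩
  intro i hi t ht
  obtain ⟨t', h5, h6⟩ := a1 i hi t ht
  refine ⟨fun m hm => ?_, fun t'' h7 => ?_⟩
  · rcases Finset.mem_insert.1 hm with rfl | hm
    · obtain ⟨l, h7, -⟩ := a2 t' h6 1
      exact ⟨_, fun n hn => by simp [show n ≠ j from fun e => hn (by simp [e, hj]), h5 n hn], h7⟩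
    · obtain ⟨t'', h7, h8⟩ := (h2 j hj t' h6).1 m hm
      exact ⟨t'', fun n hn => (h7 n fun e => hn (by simp [e])).trans (h5 n hn), h8⟩
  · obtain ⟨l, -, h8⟩ := a2 t' h6 (t'' k / t' k)
    refine (h2 j hj _ h8).2 t'' fun n hn => ?_
    by_cases e : n = k
    · simp [e, hjk.symm]
    · simp [e, show n ≠ j from fun e => hn (e ▸ hj), h7 n (by simp [e, hn]), h5 n (by simp [e, hn])]

variable (S : StData R F G)

omit [Finite ι] in
theorem opp_LJ (J : Set κ) : S.opp.LJ J = S.LJ J := by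
  rw [LJ, LJ, opp_H, opp_XS]
  congr 2
  ext r
  exact R.neg_mem_sub

omit [Finite ι] in
theorem conj_UJ {J : Set κ} {g y : G} (hg : g ∈ S.LJ J) (hy : y ∈ S.UJ J) : g * y * g⁻¹ ∈ S.UJ J :=
  (Subgroup.mem_normalizer_iff.1 (S.P_le_normalizer_UJ J (S.LJ_le_P J hg)) y).1 hy

omit [Finite ι] in
theorem conj_VJ {J : Set κ} {g y : G} (hg : g ∈ S.LJ J) (hy : y ∈ S.opp.UJ J) :
    g * y * g⁻¹ ∈ S.opp.UJ J := conj_UJ S.opp (opp_LJ S J ▸ hg) hy

omit [Finite ι] in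
theorem VJ_le_V (J : Set κ) : S.opp.UJ J ≤ S.V := S.opp_U ▸ S.opp.UJ_le_U J

omit [Finite ι] in
theorem x_mem_LJ {J : Set κ} {r : ι} (hr : r ∈ R.sub J) (t : F) : S.x r t ∈ S.LJ J :=
  Subgroup.mem_sup_right (S.x_mem_XS hr t)

theorem exists_U_split (J : Set κ) {u : G} (hu : u ∈ S.U) :
    ∃ a ∈ S.XS {r | R.IsPos r ∧ r ∈ R.sub J}, ∃ b ∈ S.UJ J, u = a * b :=
  S.exists_mul_of_subset_union (A := R.sub J) (B := (R.sub J)ᶜ) (R.nilp_pos fun _ h => h) R.closed_pos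
    (fun r _ => em _) hu

theorem exists_V_split (J : Set κ) {v : G} (hv : v ∈ S.V) :
    ∃ b ∈ S.opp.UJ J, ∃ a ∈ S.XS {r | ¬ R.IsPos r ∧ r ∈ R.sub J}, v = b * a := by
  obtain ⟨a, ha, b, hb, h⟩ := exists_U_split S.opp J (S.opp_U ▸ inv_mem hv)
  refine ⟨b⁻¹, inv_mem hb, a⁻¹, inv_mem ?_, by rw [← mul_inv_rev, ← h, inv_inv]⟩
  rw [opp_XS] at ha
  exact S.XS_mono (fun r hr => And.intro ((R.isPos_neg r).1 hr.1) (R.neg_mem_sub.1 hr.2)) ha

theorem exists_U_one (i : κ) {u : G} (hu : u ∈ S.U) :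
    ∃ t, ∃ b ∈ S.UJ {i}, u = S.x (R.simple i) t * b := by
  obtain ⟨a, ha, b, hb, rfl⟩ := exists_U_split S {i} hu
  obtain ⟨t, rfl⟩ := S.mem_X_iff.1 (S.XS_mono (T' := {R.simple i}) (fun r hr =>
    (R.mem_sub_singleton.1 hr.2).resolve_right fun e =>
      (R.isPos_neg _).1 (e ▸ hr.1) (R.isPos_simple i)) ha)
  exact ⟨t, b, hb, rfl⟩

theorem exists_V_one (i : κ) {v : G} (hv : v ∈ S.V) :
    ∃ b ∈ S.opp.UJ {i}, ∃ s, v = b * S.x (R.neg (R.simple i)) s := by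
  obtain ⟨b, hb, a, ha, rfl⟩ := exists_V_split S {i} hv
  obtain ⟨t, rfl⟩ := S.mem_X_iff.1 (S.XS_mono (T' := {R.neg (R.simple i)}) (fun r hr =>
    (R.mem_sub_singleton.1 hr.2).resolve_left fun e => hr.1 (e ▸ R.isPos_simple i)) ha)
  exact ⟨b, hb, t, rfl⟩

omit [Finite ι] in
theorem conj_U {d u : G} (hd : d ∈ S.H) (hu : u ∈ S.U) : d * u * d⁻¹ ∈ S.U :=
  (Subgroup.mem_normalizer_iff.1 (S.H_le_normalizer_XS _ hd) u).1 hu

omit [Finite ι] in
theorem conj_V {d u : G} (hd : d ∈ S.H) (hu : u ∈ S.V) : d * u * d⁻¹ ∈ S.V :=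
  (Subgroup.mem_normalizer_iff.1 (S.H_le_normalizer_XS _ hd) u).1 hu

variable {S}

omit [Finite ι] in
open SL2Hom in
theorem x_mul_y (h3 : S.R3) (r : ι) {a s : F} (h : 1 + a * s ≠ 0) : S.x r a * S.x (R.neg r) s =
    S.x (R.neg r) (s / (1 + a * s)) * S.h r (1 + a * s) * S.x r (a / (1 + a * s)) := by
  have h1 := (S.sl2Rel r).hom_upper (h3 r)
  have h2 := (S.sl2Rel r).hom_lower (h3 r)
  have h4 := (S.sl2Rel r).hom_nmat (h3 r)
  change _ = _ * (nn (S.x r) (S.x (R.neg r)) _ * nn (S.x r) (S.x (R.neg r)) _) * _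
  rw [← h4 _ h, ← h4 _ (neg_ne_zero.2 one_ne_zero), ← h1, ← h1, ← h2, ← h2]
  simp only [← map_mul]
  congr 1
  have h5 : s * (a / (1 + a * s)) + (1 + a * s)⁻¹ = 1 := by
    rw [← mul_div_assoc, ← one_div, ← add_div, add_comm, mul_comm s, div_self h]
  ext i j
  fin_cases i <;> fin_cases j <;> simp [coe_upper, coe_lower, coe_nmat, h, h5, mul_div_cancel₀]

/-- `g` has a Gauss decomposition up to conjugacy with torus part `d`, non-central at node `i`. -/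
def Gs (S : StData R F G) (g d : G) (i : κ) : Prop := ∃ v ∈ S.opp.UJ {i}, ∃ s, s ≠ 0 ∧ ∃ u ∈ S.U,
  IsConj g (v * S.x (R.neg (R.simple i)) s * d * u)

variable {g d : G} {i : κ}

omit [Finite ι] in
theorem Gs.mv (h3 : S.R3) (h : Gs S g d i) (hd : d ∈ S.H) {l : F} (hl : l ≠ 0) :
    Gs S g (S.h (R.simple i) l * d) i := by
  obtain ⟨v, hv, s, hs, u, hu, h⟩ := h
  obtain ⟨a, rfl⟩ : ∃ a, l = 1 + a * s := ⟨(l - 1) / s, by field_simp; ring⟩
  refine ⟨_, conj_VJ S (x_mem_LJ S (R.simple_mem_sub.2 (Set.mem_singleton i)) a) hv, _, div_ne_zero hs hl, _,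
    mul_mem (mul_mem (conj_U S (inv_mem hd) (S.x_mem_U (R.isPos_simple i) (a / (1 + a * s)))) hu)
      (inv_mem (S.x_mem_U (R.isPos_simple i) a)),
    h.trans (isConj_iff.2 ⟨S.x (R.simple i) a, ?_⟩)⟩
  have := x_mul_y h3 (R.simple i) hl
  rw [← mul_inv_eq_iff_eq_mul, ← mul_inv_eq_iff_eq_mul] at this
  rw [← this]
  group

omit [Finite ι] in
theorem gs_of_ne [Finite F] (hF : 7 ≤ Nat.card F) (h3 : S.R3) {v u : G} {s t : F} {χ : κ → F}
    (hv : v ∈ S.opp.UJ {i}) (hu : u ∈ S.UJ {i}) (hd : d ∈ S.H) (h0 : χ i ≠ 0)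
    (hχ : ∀ s u, d * S.x s u * d⁻¹ = S.x s (chr χ (R.rt s) * u))
    (h : IsConj g (v * S.x (R.neg (R.simple i)) s * d * (S.x (R.simple i) t * u)))
    (hn : ¬ (s = 0 ∧ t = 0 ∧ χ i = 1)) : Gs S g d i := by
  by_cases hs : s = 0
  swap
  · exact ⟨v, hv, s, hs, _, mul_mem (S.x_mem_U (R.isPos_simple i) t) (S.UJ_le_U _ hu), h⟩
  obtain ⟨b, h1, h2, h4⟩ : ∃ b, b ≠ 0 ∧ 1 + t * -b ≠ 0 ∧ 1 + t * -b ≠ (χ i)⁻¹ := by
    by_cases ht : t = 0
    · exact ⟨1, one_ne_zero, by simp [ht], fun h => hn ⟨hs, ht, by simpa [ht, eq_comm] using h⟩⟩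
    obtain ⟨l, h1, h2⟩ := exists_avoid one_ne_zero one_ne_zero (by simp; omega) 1 (Units.mk0 _ h0)
    refine ⟨(1 - l) / t, div_ne_zero (sub_ne_zero.2 fun h => h1 (Units.ext (by simp [← h]))) ht, ?_⟩
    rw [show 1 + t * -((1 - l) / t) = l by field_simp; ring]
    exact ⟨l.ne_zero, fun h => h2 (Units.ext (by simp [h, h0]))⟩
  have h5 : Gs S g (S.h (R.simple i) (1 + t * -b) * d) i := by
    have h6 := x_mem_LJ S (J := {i}) (R.neg_mem_sub.2 (R.simple_mem_sub.2 (Set.mem_singleton i))) b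
    refine ⟨_, conj_VJ S h6 hv, b + (χ i)⁻¹ * (-b / (1 + t * -b)), ?_, _,
      mul_mem (S.x_mem_U (R.isPos_simple i) (t / (1 + t * -b))) (S.UJ_le_U _ (conj_UJ S h6 hu)),
      h.trans (isConj_iff.2 ⟨S.x (R.neg (R.simple i)) b, ?_⟩)⟩
    · rw [show b + (χ i)⁻¹ * (-b / (1 + t * -b)) = b * (1 + t * -b - (χ i)⁻¹) / (1 + t * -b) by
        rw [eq_div_iff h2, add_mul, mul_assoc, div_mul_cancel₀ _ h2]; ring]
      exact div_ne_zero (mul_ne_zero h1 (sub_ne_zero.2 h4)) h2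
    have h7 := hχ (R.neg (R.simple i)) (-b / (1 + t * -b))
    rw [R.rt_neg, chr_neg, R.rt_simple, chr_single] at h7
    have h8 := x_mul_y h3 (R.simple i) h2
    rw [S.x_neg, mul_inv_eq_iff_eq_mul] at h8
    rw [S.x_add, ← h7, hs, S.x_zero, h3.H_comm (S.h_mem_H _ h2) hd, h8]
    group
  have := h5.mv h3 (mul_mem (S.h_mem_H _ h2) hd) (inv_ne_zero h2)
  rwa [← mul_assoc, h3 _ _ _ (inv_ne_zero h2) h2, inv_mul_cancel₀ h2, S.h_one, one_mul] at this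

theorem exists_VHU [Finite F] (hF : 7 ≤ Nat.card F) (hS : S.Good) (h3 : S.R3) (hg : g ∈ S.grp) :
    ∃ v ∈ S.V, ∃ d ∈ S.H, ∃ u ∈ S.U, IsConj g (v * d * u) := by
  have key : ∀ k, ∀ m ∈ S.N, ∀ w, S.Acts m w → R.ell w = k → ∀ v ∈ S.V, ∀ u ∈ S.U,
      ∃ v' ∈ S.V, ∃ d ∈ S.H, ∃ u' ∈ S.U, IsConj (v * m * u) (v' * d * u') := by
    intro k
    induction k with
    | zero =>
      intro m hm w hw hk v hv u hu
      obtain rfl := (RootSys.ell_eq_zero_iff hw.1).1 hk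
      exact ⟨v, hv, m, hS.mem_H_of_acts_one hm hw, u, hu, IsConj.refl _⟩
    | succ k ih =>
    intro m hm w hw hk v hv u hu
    obtain ⟨i, -, hi⟩ := RootSys.exists_not_isPos_of_ne_one (R.WJ_univ ▸ inv_mem hw.1)
      (by rintro h; rw [inv_eq_one.1 h, R.ell_one] at hk; omega)
    obtain ⟨v, hv', s, rfl⟩ := exists_V_one S i hv
    obtain ⟨a, h1, h2⟩ : ∃ a, a ≠ 0 ∧ 1 + a * s ≠ 0 := by
      by_cases hs : s = 0
      · exact ⟨1, one_ne_zero, by simp [hs]⟩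
      obtain ⟨l, h1, -⟩ := exists_avoid one_ne_zero one_ne_zero (by simp; omega)
        (-Units.mk0 s hs) 1
      exact ⟨l, l.ne_zero, fun h => h1 (Units.ext (by simp; linear_combination -h))⟩
    have h4 : ¬ R.IsPos (R.neg (R.simple i)) := (R.not_isPos_neg _).2 (R.isPos_simple i)
    have h5 := S.x_neg_root_eq (R.neg (R.simple i)) (a / (1 + a * s))
    have h6 : -(a / (1 + a * s))⁻¹ ≠ 0 := neg_ne_zero.2 (inv_ne_zero (div_ne_zero h1 h2))
    have h7 := S.h_mem_H (R.simple i) h2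
    obtain ⟨v', h8, d, h9, u', h10, h11⟩ := ih _
      (mul_mem (mul_mem (S.H_le_N h7) (S.n_mem_N (R.neg (R.simple i)) h6)) hm) _
      (((S.acts_of_mem_H h7).mul (S.acts_n _ h6)).mul hw)
      (by
        have := RootSys.ell_sp_mul_of_not_isPos hw.1 hi
        rw [one_mul, R.refl_neg, R.refl_simple]; omega) _
      (mul_mem (mul_mem (VJ_le_V S _ (conj_VJ S (x_mem_LJ S (R.simple_mem_sub.2 (Set.mem_singleton i)) a) hv'))
        (S.x_mem_V h4 (s / (1 + a * s)))) (conj_V S h7 (S.x_mem_V h4 (a / (1 + a * s))⁻¹))) _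
      (mul_mem (mul_mem (hw.inv_conj_mem_XS (T := {R.neg (R.simple i)}) (T' := {r | R.IsPos r})
        (by rintro _ rfl; rw [RootSys.W_neg (inv_mem hw.1)]; exact (R.isPos_neg _).2 hi)
        (S.x_mem_X _ (a / (1 + a * s))⁻¹)) hu) (inv_mem (S.x_mem_U (R.isPos_simple i) a)))
    refine ⟨v', h8, d, h9, u', h10, IsConj.trans (isConj_iff.2 ⟨S.x (R.simple i) a, ?_⟩) h11⟩
    have h12 := x_mul_y h3 (R.simple i) h2
    rw [R.neg_neg] at h5
    rw [h5, ← eq_inv_mul_iff_mul_eq] at h12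
    conv_lhs => rw [h12]
    group
  obtain ⟨n, hn, h0⟩ := S.exists_acts_w0
  obtain ⟨b, hb, m, hm, w, hw, u, hu, h⟩ := S.exists_normal (mul_mem (S.N_le_grp hn) hg)
  obtain ⟨u', h1, d, h2, rfl⟩ := S.mem_B_iff.1 hb
  obtain ⟨w', h4⟩ := S.exists_acts_of_mem_N (mul_mem (mul_mem (inv_mem hn) (S.H_le_N h2)) hm)
  convert key _ _ (mul_mem (mul_mem (inv_mem hn) (S.H_le_N h2)) hm) _ h4 rfl (n⁻¹ * u' * n)
    (h0.w0_conj_V.1 (by simpa [mul_assoc] using h1)) u (S.XS_le_U (fun _ h => h.1) hu)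
  rw [← inv_mul_cancel_left n g, h]
  group

/-- **Gauss decomposition with prescribed semisimple part.** -/
theorem exists_gauss [Finite F] (hF : 7 ≤ Nat.card F) (hR : R.Irred) (hS : S.Good) (hA : S.Adjoint)
    (hg : g ∈ S.grp) (h1 : g ≠ 1) (hd : d ∈ S.H) : ∃ v ∈ S.V, ∃ u ∈ S.U, IsConj g (v * d * u) := by
  have h3 := S.R3_of_finite
  have key : ∀ v ∈ S.V, ∀ t, ∀ u ∈ S.U, IsConj g (v * h3.torHom t * u) → ∀ i,
      Gs S g (h3.torHom t) i ∨ v ∈ S.opp.UJ {i} ∧ u ∈ S.UJ {i} ∧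
        matHom Fˣ (Matrix.of R.A) t i = 1 := fun v hv t u hu h i => by
    obtain ⟨v, hv', s, rfl⟩ := exists_V_one S i hv
    obtain ⟨s', u, hu', rfl⟩ := exists_U_one S i hu
    refine or_iff_not_imp_right.2 fun h4 => gs_of_ne hF h3 hv' hu' (h3.torHom_mem t)
      (Units.ne_zero _) (h3.torHom_conj hS t) h ?_
    rintro ⟨rfl, rfl, h5⟩
    exact h4 ⟨by simpa [S.x_zero], by simpa [S.x_zero], Units.ext h5⟩
  obtain ⟨t, i, h⟩ : ∃ t i, Gs S g (h3.torHom t) i := by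
    by_contra! h
    obtain ⟨v, hv, d, hd, u, hu, h4⟩ := exists_VHU hF hS h3 hg
    obtain ⟨t, rfl⟩ := h3.range_torHom ▸ hd
    have h5 : h3.torHom t = 1 := hA _ hd ((h3.torHom_comm_iff hS t).2
      (funext fun i => ((key v hv t u hu h4 i).resolve_left (h t i)).2.2))
    have h6 : ∀ l : List κ, S.nw l * v * (S.nw l)⁻¹ ∈ S.V ∧ S.nw l * u * (S.nw l)⁻¹ ∈ S.U := by
      intro l
      induction l with
      | nil => simpa [S.nw_nil] using ⟨hv, hu⟩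
      | cons i l ih =>
      obtain ⟨h6, h7, -⟩ := (key _ ih.1 t _ ih.2 (h4.trans (isConj_iff.2 ⟨S.nw l, by
        rw [h5]; group⟩)) i).resolve_left (h t i)
      have h8 := S.NJ_le_LJ {i} (S.n_mem_NJ (R.simple_mem_sub.2 (Set.mem_singleton i)) one_ne_zero)
      simpa only [S.nw_cons, mul_inv_rev, mul_assoc] using
        And.intro (VJ_le_V S _ (conj_VJ S h8 h6)) (S.UJ_le_U _ (conj_UJ S h8 h7))
    obtain ⟨l, hl⟩ := R.mem_W_iff.1 (R.w0_mem_W Set.univ)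
    have h7 := hl ▸ S.acts_nw l
    have h8 := hS.eq_one_of_mem_B_V (S.U_le_B hu) (h7.w0_conj_V.1 (h6 l).2)
    have h9 := hS.eq_one_of_mem_B_V (S.U_le_B (h7.w0_conj_U.1 (h6 l).1)) hv
    exact h1 (by simpa [h5, h8, h9] using h4)
  obtain ⟨t₀, rfl⟩ := h3.range_torHom ▸ hd
  have h4 : ∀ i, ¬ R.IsPos (R.neg (R.simple i)) := fun i => (R.not_isPos_neg _).2 (R.isPos_simple i)
  obtain ⟨j, v, hv, s, -, u, hu, h⟩ := walk hF hR (P := fun t i => Gs S g (h3.torHom t) i)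
    (fun t i l h => by
      simpa only [map_mul, h3.torHom_mulSingle] using h.mv h3 (h3.torHom_mem t) l.ne_zero)
    (fun t i j ⟨v, hv, s, _, u, hu, h⟩ h5 => (key _ (mul_mem (VJ_le_V S _ hv) (S.x_mem_V (h4 i) s))
      t u hu h j).resolve_right fun h => h5 h.2.2) h t₀
  exact ⟨_, mul_mem (VJ_le_V S _ hv) (S.x_mem_V (h4 j) s), u, hu, h⟩

end CL.Thomp
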