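/-
Thompson's class square conjecture for groups with root elements over large finite fields.
-/
import Mathlib
import Cfsg.Agent.CHEV.TwBN
import Cfsg.Agent.CHEV.Cent
import Cfsg.Agent.CHEV.BNChev
import Cfsg.Agent.KSG.ThGauss
import Cfsg.Agent.KSG.ThChain

set_option autoImplicit false

namespace CL.Thomp

open CL.Chev CL.Chev.StData CL.Chev.Cl

variable {ι κ : Type*} [Fintype κ] [DecidableEq κ] {R : RootSys ι κ} {F G : Type*} [Field F] [Group G]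
  [Finite ι] {S : StData R F G} {n : ℕ}

theorem isConj_mul_of_fpf [Finite G] {K : Subgroup G} {c : G} (hc : ∀ y ∈ K, c⁻¹ * y * c⁻¹⁻¹ ∈ K)
    (h : ∀ y ∈ K, Commute c y → y = 1) {y : G} (hy : y ∈ K) :
    IsConj c (c * y) ∧ IsConj c (y * c) := by
  have key : ∀ y ∈ K, IsConj c (c * y) := fun y hy => by
    obtain ⟨k, hk⟩ := (Finite.injective_iff_surjective (f := fun k : K =>
      (⟨c⁻¹ * k * c⁻¹⁻¹ * (k : G)⁻¹, mul_mem (hc _ k.2) (inv_mem k.2)⟩ : K))).1 (fun k k' e => by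
        have h1 := h _ (mul_mem (inv_mem k'.2) k.2) (by
          have := congrArg (fun z : K => (k' : G)⁻¹ * c * z * k) e
          simpa [mul_assoc, Commute, SemiconjBy] using this.symm)
        exact Subtype.ext (inv_mul_eq_one.1 h1).symm) ⟨y, hy⟩
    exact isConj_iff.2 ⟨k, by rw [← show _ = y from congrArg Subtype.val hk]; group⟩
  exact ⟨key y hy, by simpa [mul_assoc] using key _ (hc y hy)⟩

omit [Finite ι] in
theorem isConj_mul_UJ [Finite G] {J : Set κ} {d u y : G} {q N : ℕ} (hd : d ∈ S.H) (hu : u ∈ S.LJ J)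
    (h1 : Commute d u) (h2 : d ^ q = d) (h3 : u ^ q ^ N = 1)
    (h4 : ∀ y ∈ S.UJ J, Commute d y → y = 1) (hy : y ∈ S.UJ J) :
    IsConj (d * u) (d * u * y) ∧ IsConj (d * u) (y * (d * u)) := by
  refine isConj_mul_of_fpf (fun y => conj_UJ S (inv_mem (mul_mem (Subgroup.mem_sup_left hd) hu)))
    (fun y hy h => h4 y hy ?_) hy
  have h5 : ∀ N, d ^ q ^ N = d := fun N => by
    induction N with
    | zero => simp
    | succ N ih => rw [pow_succ, pow_mul, ih, h2]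
  simpa [h1.mul_pow, h3, h5] using h.pow_left (q ^ N)

theorem exists_tau (R : RootSys ι κ) : ∃ τ : Equiv.Perm κ, (∀ i j, R.A (τ i) (τ j) = R.A i j) ∧
    ∀ i, R.w0 Set.univ (R.simple i) = R.neg (R.simple (τ i)) := by
  have hw := R.w0_mem_W Set.univ
  have h0 : ∀ r, R.w0 Set.univ (R.w0 Set.univ r) = r := fun r =>
    Equiv.congr_fun (R.w0_mul_self Set.univ) r
  have h1 : ∀ r, R.IsPos r → R.IsPos (R.neg (R.w0 Set.univ r)) := fun r hr => by
    rwa [R.isPos_neg, R.isPos_w0_univ, not_not]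
  have h2 : ∀ r, R.IsPos r → (∃ i, r = R.simple i) ∨ ∃ s k, R.IsPos s ∧ R.IsPos k ∧ R.IsComb s k r :=
    fun r hr => R.pos_root_induction (P := fun r => (∃ i, r = R.simple i) ∨
      ∃ s k, R.IsPos s ∧ R.IsPos k ∧ R.IsComb s k r) (fun i => Or.inl ⟨i, rfl⟩)
      (fun i s hs h _ => Or.inr ⟨s, _, hs, R.isPos_simple i, 1, (-R.wt s i).toNat, one_pos, by omega, by
        rw [R.rt_σ', Int.toNat_of_nonneg (by omega)]; simp [sub_eq_add_neg]⟩) hr
  have h3 : ∀ i, ∃ j, R.w0 Set.univ (R.simple i) = R.neg (R.simple j) := fun i => by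
    rcases h2 _ (h1 _ (R.isPos_simple i)) with ⟨j, hj⟩ | ⟨s, k, hs, hk, h⟩
    · exact ⟨j, R.neg_eq_iff.1 hj⟩
    · have := (h.W hw).neg
      rw [RootSys.W_neg hw, R.neg_neg, h0] at this
      exact (this.ne_simple (h1 _ hs) (h1 _ hk) i rfl).elim
  choose τ hτ using h3
  refine ⟨Equiv.ofBijective τ (Finite.injective_iff_bijective.1 fun i j h => R.simple_injective
    ((R.w0 Set.univ).injective (by rw [hτ, hτ, h]))), fun i j => ?_, hτ⟩
  have := RootSys.W_pair hw (R.simple i) (R.simple j)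
  simpa [hτ, R.pair_neg_left, R.pair_neg_right, R.pair_simple, R.wt_simple] using this

omit [Finite ι] in
theorem dot_wt (a : κ → ℤ) (s : ι) : a ⬝ᵥ R.wt s = ∑ j, R.rt s j * (a ⬝ᵥ R.wt (R.simple j)) := by
  simp only [dotProduct, R.wt_simple]
  simp only [RootSys.wt, Finset.mul_sum]
  rw [Finset.sum_comm]
  exact Finset.sum_congr rfl fun _ _ => Finset.sum_congr rfl fun _ _ => by ring

/-- The combinatorial data for a class with `C² = G`. -/
structure Dat (R : RootSys ι κ) (m : ℕ) where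
  a : κ → ℤ
  n : ℕ
  p : Fin n → κ
  k : κ
  hp : ∀ i j, R.A (p i) (p j) = chainA i j
  hk : ∀ i, R.A k (p i) = -if i.1 = 0 then 1 else 0
  le : ∀ s, (a ⬝ᵥ R.wt s).natAbs < m
  zero : ∀ s, a ⬝ᵥ R.wt s = 0 ↔ s ∈ R.sub (Set.range p)
  inv : ∀ τ : Equiv.Perm κ, (∀ i j, R.A (τ i) (τ j) = R.A i j) →
    ∀ i, a ⬝ᵥ R.wt (R.simple (τ i)) = a ⬝ᵥ R.wt (R.simple i)

theorem exists_class_sq [Finite F] [Finite G] (hF : 7 ≤ Nat.card F) (hR : R.Irred) (hη : Eta R)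
    (D : Dat R (Nat.card F - 1)) (hS : S.Good) (hA : S.Adjoint) (htop : S.grp = ⊤) :
    ∃ c : G, ∀ g : G, ∃ x y : G, g = (x * c * x⁻¹) * (y * c * y⁻¹) := by
  obtain ⟨a, n, p, k, hp, hk, a1, a2, a3⟩ := D
  have h3 := S.R3_of_finite
  obtain ⟨μ, hμ⟩ := IsCyclic.exists_ofOrder_eq_natCard (α := Fˣ)
  rw [Nat.card_units] at hμ
  have hμ' : ∀ m : ℤ, m.natAbs < Nat.card F - 1 → ((μ ^ m : Fˣ) : F) = 1 → m = 0 := fun m h1 h2 =>
    Int.eq_zero_of_dvd_of_natAbs_lt_natAbs (orderOf_dvd_iff_zpow_eq_one.2 (Units.ext h2)) (by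
      rwa [Int.natAbs_natCast, hμ])
  obtain ⟨h, hH, hq, hχ⟩ : ∃ h ∈ S.H, h ^ Nat.card F = h ∧
      ∀ s u, h * S.x s u * h⁻¹ = S.x s ((μ ^ (a ⬝ᵥ R.wt s) : Fˣ) * u) := by
    refine ⟨_, h3.torHom_mem fun i => μ ^ a i, ?_, fun s u => ?_⟩
    · have := Fintype.ofFinite F
      rw [← map_pow]; congr 1; ext i; simp [FiniteField.pow_card]
    · rw [h3.torHom_conj_wt hS]
      simp only [dotProduct, ← Units.val_zpow_eq_zpow_val, ← zpow_mul, ← Units.coe_prod]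
      exact congrArg (fun z : Fˣ => S.x s (z * u))
        (map_prod (zpowersHom Fˣ μ) (fun i => Multiplicative.ofAdd (a i * R.wt s i)) _).symm
  obtain ⟨φ, hφ⟩ := exists_chain_hom hS hη hp
  set J := Set.range p
  have hJ : ∀ k, R.simple (p k) ∈ R.sub J := fun k => R.simple_mem_sub.2 ⟨k, rfl⟩
  have b1 : ∀ A, φ A ∈ S.XS (R.sub J) := fun A =>
    (eq_top_of_simple (K := (S.XS (R.sub J)).comap φ) fun k t =>
      ⟨Subgroup.mem_comap.2 ((hφ k t).1 ▸ S.x_mem_XS (hJ k) t),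
        Subgroup.mem_comap.2 ((hφ k t).2 ▸ S.x_mem_XS (R.neg_mem_sub.2 (hJ k)) t)⟩).ge trivial
  have b2 : S.XS (R.sub J) ≤ φ.range := S.XS_sub_le (by
    rintro _ ⟨k, rfl⟩ t
    exact ⟨⟨_, (hφ k t).1⟩, ⟨_, (hφ k t).2⟩⟩)
  have b3 : ∀ A, Commute h (φ A) := fun A => comm_of_mem_XS (fun s hs t => by
    rw [← mul_inv_eq_iff_eq_mul, hχ, (a2 s).2 hs]; simp) (b1 A)
  have b4 : ∀ {A B}, Reg A → Reg B → ∃ z, Commute z h ∧ z * φ A * z⁻¹ = φ B := fun {A B} h1 h2 => by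
    obtain ⟨δ, Y, rfl⟩ := h1.exists_conj h2
    have h4 : φ.comp (cj (dg n δ)) = (MulAut.conj (S.h (R.simple k) δ⁻¹.1)).toMonoidHom.comp φ :=
      MonoidHom.eq_of_eqOn_top fun A _ => (eq_top_of_simple (K := MonoidHom.eqLocus _ _) fun i t => by
        constructor <;> change φ _ = _ * φ _ * _
        · rw [(cj_dg δ i t).1, (hφ _ _).1, (hφ _ _).1, S.h_conj _ _ δ⁻¹.ne_zero, R.pair_simple,
            R.wt_simple, hk]
          split_ifs <;> simp
        · rw [(cj_dg δ i t).2, (hφ _ _).2, (hφ _ _).2, S.h_conj _ _ δ⁻¹.ne_zero, R.pair_neg_right,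
            R.pair_simple, R.wt_simple, hk]
          split_ifs <;> simp).ge trivial
    refine ⟨φ Y * S.h (R.simple k) δ⁻¹.1, (b3 Y).symm.mul_left
      (h3.H_comm (S.h_mem_H _ δ⁻¹.ne_zero) hH), ?_⟩
    have h5 : φ _ = _ * φ A * _ := DFunLike.congr_fun h4 A
    simp only [map_mul, map_inv, h5, mul_assoc, mul_inv_rev]
  obtain ⟨A₀, hA₀, e₀⟩ : ∃ A₀, Reg A₀ ∧ φ A₀ = (List.ofFn fun k => S.x (R.simple (p k)) 1).prod :=
    ⟨_, (reg_prod 1 fun _ => one_ne_zero).1, by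
      simp [map_list_prod, List.map_ofFn, Function.comp_def, (hφ _ _).1]⟩
  have b5 : ∀ {A}, Reg A → φ A ^ Nat.card F ^ {r | R.IsPos r}.ncard = 1 := fun h1 => by
    obtain ⟨z, -, hz⟩ := b4 hA₀ h1
    have : φ A₀ ∈ S.U := e₀ ▸ Subgroup.list_prod_mem _ (by
      simpa [List.mem_ofFn'] using fun k => S.x_mem_U (R.isPos_simple (p k)) 1)
    rw [← hz, conj_pow, ← hS.card_U, show φ A₀ ^ Nat.card S.U = 1 from
      congrArg Subtype.val (pow_card_eq_one' (x := (⟨_, this⟩ : S.U))), mul_one, mul_inv_cancel]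
  have b6 : ∀ {A}, Reg A → IsConj (h * φ A₀) (h * φ A) := fun h1 => by
    obtain ⟨z, h4, hz⟩ := b4 hA₀ h1
    exact isConj_iff.2 ⟨z, by rw [← hz, ← mul_assoc, h4.eq]; group⟩
  have b7 : ∀ {A}, Reg A → IsConj (h * φ A₀) (h⁻¹ * φ A) := fun h1 => by
    obtain ⟨τ, t1, t2⟩ := exists_tau R
    obtain ⟨m, -, hm⟩ := S.exists_acts_w0
    have t3 : ∀ s, a ⬝ᵥ R.wt (R.w0 Set.univ s) = -(a ⬝ᵥ R.wt s) := fun s => by
      rw [dot_wt, dot_wt a s, RootSys.rt_W_eq_sum hm.1]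
      simp only [t2, R.rt_neg, R.rt_simple, Finset.sum_apply, Finset.sum_mul, ← Finset.sum_neg_distrib]
      rw [Finset.sum_comm]
      simp [Pi.single_apply, a3 τ t1]
    have t4 : m * h * m⁻¹ = h⁻¹ := eq_inv_of_mul_eq_one_left (hA _ (mul_mem (hm.conj_mem_H hH) hH)
      fun r t => by
        rw [← mul_inv_eq_iff_eq_mul, mul_inv_rev, ← mul_assoc, mul_assoc _ h, mul_assoc _ (h * _), hχ,
          hm.conj_chr hχ, R.w0_inv, t3, ← mul_assoc, ← Units.val_mul]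
        simp)
    have t5 : ∀ i, ∃ j, p j = τ (p i) := fun i =>
      R.simple_mem_sub.1 ((a2 _).1 ((a3 τ t1 _).trans ((a2 _).2 (hJ i))))
    choose σ hσ using t5
    choose c t6 t7 using hm.exists_conj
    have t8 : ∀ {i j}, p i = p j → i = j := fun {i j} e => by
      have := hp i j
      rw [e, R.A_self, chainA] at this
      split_ifs at this <;> omega
    obtain ⟨z, h4, hz⟩ := b4 (reg_prod (Equiv.ofBijective σ (Finite.injective_iff_bijective.1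
      fun i j e => t8 (τ.injective (by rw [← hσ, ← hσ, e])))) fun k => t6 (R.simple (p k))).2 h1
    refine isConj_iff.2 ⟨z * m, ?_⟩
    have t9 : m * φ A₀ * m⁻¹ = (MulAut.conj m) (φ A₀) := rfl
    rw [← hz, ← mul_assoc h⁻¹, ← mul_assoc h⁻¹, ← h4.inv_right.eq, ← t4, map_list_prod φ]
    rw [e₀, map_list_prod] at t9
    simp only [List.map_ofFn, Function.comp_def, MulAut.conj_apply, t7, t2, ← hσ, mul_one,
      Equiv.ofBijective_apply, (hφ _ _).2] at t9 ⊢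
    rw [← t9, ← e₀]
    group
  obtain ⟨d, hd, b8⟩ : ∃ d ∈ S.H, ∀ v ∈ S.XS {r | ¬ R.IsPos r ∧ r ∈ R.sub J},
      ∀ u ∈ S.XS {r | R.IsPos r ∧ r ∈ R.sub J}, ∃ A B, Reg A ∧ Reg B ∧ v * d * u = φ (A * B) := by
    obtain _ | n := n
    · refine ⟨1, one_mem _, fun v hv u hu => ⟨A₀, A₀, hA₀, hA₀, ?_⟩⟩
      obtain ⟨γ, hγ⟩ := b2 (mul_mem (mul_mem (S.XS_mono (fun _ h => h.2) hv) (one_mem _))
        (S.XS_mono (fun _ h => h.2) hu))
      have : Subsingleton (Fin (0 + 1)) := inferInstanceAs (Subsingleton (Fin 1))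
      rw [← hγ, Subsingleton.elim γ]
    refine ⟨_, S.h_mem_H (R.simple (p 0)) μ.ne_zero, fun v hv u hu => ?_⟩
    obtain ⟨γ, hγ⟩ := b2 (mul_mem (mul_mem (S.XS_mono (fun _ h => h.2) hv)
      (S.h_mem_XS (hJ 0) (R.neg_mem_sub.2 (hJ 0)) μ)) (S.XS_mono (fun _ h => h.2) hu))
    obtain ⟨A, B, h1, h2, rfl⟩ := exists_reg_mul_SL (g := γ) (by
      have := Fintype.ofFinite F
      exact (Finset.exists_subset_card_eq (s := Finset.univ) (by
        rw [Finset.card_univ, ← Nat.card_eq_fintype_card]; omega)).imp fun _ h => h.2) fun hc => by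
      have h1 : φ γ ∈ S.H := by
        have := Subgroup.mem_map_of_mem φ ((slSt_good F _).center_le_H (slSt_top F _) hc)
        rw [map_H, H_eq_closure_simple] at this
        refine (Subgroup.closure_le _).2 ?_ this
        rintro _ ⟨i, t, ht, rfl⟩
        simpa only [StData.h, StData.n, StData.map, slSt_simple, slSt_neg, (hφ _ _).1, (hφ _ _).2,
          SetLike.mem_coe] using S.h_mem_H (R.simple (p i)) ht
      have h2 := S.h_mem_H (R.simple (p 0)) μ.ne_zero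
      have h4 := S.XS_le_U (fun _ h => h.1) hu
      obtain rfl : v = 1 := hS.eq_one_of_mem_B_V (by
        rw [eq_mul_inv_of_mul_eq (eq_mul_inv_of_mul_eq hγ.symm)]
        exact mul_mem (mul_mem (S.H_le_B h1) (inv_mem (S.U_le_B h4))) (inv_mem (S.H_le_B h2)))
        (S.XS_le_V (fun _ h => h.1) hv)
      obtain rfl : u = 1 := hS.U_inf_H.le (Subgroup.mem_inf.2 ⟨h4, by
        rw [eq_inv_mul_of_mul_eq hγ.symm, one_mul]; exact mul_mem (inv_mem h2) h1⟩)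
      have h5 := congrArg φ (Subgroup.mem_center_iff.1 hc (eU 0 1))
      rw [map_mul, map_mul, hγ, one_mul, mul_one, (hφ _ _).1, eq_comm, ← mul_inv_eq_iff_eq_mul,
        S.h_conj _ _ μ.ne_zero, R.pair_self, mul_one] at h5
      simpa using hμ' 2 (by simp; omega) (by simpa using hS.x_injective _ h5)
    exact ⟨A, B, h1, h2, hγ.symm⟩
  have b9 : ∀ r, r ∉ R.sub J → ((μ ^ (a ⬝ᵥ R.wt r) : Fˣ) : F) ≠ 1 := fun r hr e =>
    hr ((a2 r).1 (hμ' _ (a1 r) e))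
  have hc : R.Closed {r | R.IsPos r ∧ r ∉ R.sub J} := fun r hr s hs k hk =>
    hk.pos_not_sub (Or.inl hr.1) hs
  refine ⟨h * φ A₀, fun g => ?_⟩
  suffices ∃ x y, IsConj (h * φ A₀) x ∧ IsConj (h * φ A₀) y ∧ IsConj g (x * y) by
    obtain ⟨x, y, h1, h2, h4⟩ := this
    obtain ⟨x, rfl⟩ := isConj_iff.1 h1
    obtain ⟨y, rfl⟩ := isConj_iff.1 h2
    obtain ⟨z, hz⟩ := isConj_iff.1 h4.symm
    exact ⟨z * x, z * y, by rw [← hz]; group⟩
  by_cases hg : g = 1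
  · exact ⟨_, _, b7 hA₀.inv, .refl _, by simp [hg, ← (b3 A₀).inv_inv.eq, (b3 A₀).eq]⟩
  obtain ⟨v, hv, u, hu, h1⟩ := exists_gauss hF hR hS hA (htop.ge trivial) hg hd
  obtain ⟨v, hv', v', hv'', rfl⟩ := exists_V_split S J hv
  obtain ⟨u', hu'', u, hu', rfl⟩ := exists_U_split S J hu
  obtain ⟨A, B, h2, h4, h5⟩ := b8 v' hv'' u' hu''
  refine ⟨_, _, (b7 h2).trans (isConj_mul_UJ (S := S.opp) (S.opp_H ▸ inv_mem hH)
    (opp_LJ S J ▸ Subgroup.mem_sup_right (b1 A)) (b3 A).inv_left (by rw [inv_pow, hq]) (b5 h2)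
    (fun y hy e => hS.opp.eq_one_of_conj_eq (fun _ h => h.1) hc (g := h)
      (χ := fun r => (μ ^ (a ⬝ᵥ R.wt (R.neg r)) : Fˣ)) (fun s u => by rw [opp_x, opp_x, hχ, mul_neg])
      (fun r hr => b9 _ (R.neg_mem_sub.not.2 hr.2)) hy
      (mul_inv_eq_iff_eq_mul.2 (Commute.inv_left_iff.1 e))) hv').2,
    (b6 h4).trans (isConj_mul_UJ hH (Subgroup.mem_sup_right (b1 B)) (b3 B) hq (b5 h4)
    (fun y hy e => hS.eq_one_of_conj_eq (fun _ h => h.1) hc hχ (fun r hr => b9 _ hr.2) hy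
      (mul_inv_eq_iff_eq_mul.2 e)) hu').1, ?_⟩
  convert h1 using 1
  rw [← (b3 A).inv_left.symm.eq]
  calc _ = v * φ (A * B) * u := by rw [map_mul]; group
    _ = _ := by rw [← h5]; group

end CL.Thomp
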