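/-
The combinatorial data for Thompson's class square conjecture in each type.
-/
import Mathlib
import Cfsg.Agent.CHEV.CommChk
import Cfsg.Agent.CHEV.GlueBN
import Cfsg.Agent.KSG.ThMain

set_option autoImplicit false

namespace CL.Thomp

open CL.Chev CL.Chev.StData CL.Chev.Cl

section
variable {ι κ : Type*} [Fintype κ] [DecidableEq κ] {R : RootSys ι κ}

theorem dat_of {m n : ℕ} {a : κ → ℤ} {p : Fin n → κ} {k : κ} {c₁ c₂ : ℤ} (h₁ : 0 < c₁) (h₂ : 0 < c₂)
    (hp : ∀ i j, R.A (p i) (p j) = chainA i j) (hk : ∀ i, R.A k (p i) = -if i.1 = 0 then 1 else 0)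
    (le : ∀ s, (a ⬝ᵥ R.wt s).natAbs < m) {P Q : κ → Prop} [DecidablePred P] [DecidablePred Q]
    (hP : ∀ i, P i ↔ ∃ j, R.A j i = -2) (hQ : ∀ i, Q i ↔ ∃ j l, j ≠ l ∧ R.A i j < 0 ∧ R.A i l < 0)
    (he : ∀ i, a ⬝ᵥ R.wt (R.simple i) = if P i then c₂ else if Q i then 0 else c₁)
    (hJ : ∀ i, ¬ P i ∧ Q i ↔ ∃ j, p j = i) : Nonempty (Dat R m) := by
  have h0 : ∀ i, 0 ≤ a ⬝ᵥ R.wt (R.simple i) := fun i => by rw [he]; split_ifs <;> omega
  have h1 : ∀ i, a ⬝ᵥ R.wt (R.simple i) = 0 ↔ i ∈ Set.range p := fun i => by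
    rw [he, Set.mem_range, ← hJ]; split_ifs with e1 e2 <;> simp [e1, h₁.ne', h₂.ne'] <;> exact e2
  refine ⟨a, n, p, k, hp, hk, le, fun s => ?_, fun τ h i => ?_⟩
  · rw [dot_wt]
    refine Iff.trans ?_ (forall_congr' fun i => by
      rw [← h1, ← or_iff_not_imp_left, or_comm, ← mul_eq_zero])
    rcases R.pos_or_neg s with h | h
    · simpa using Finset.sum_eq_zero_iff_of_nonneg (s := Finset.univ) fun i _ =>
        mul_nonneg (h i) (h0 i)
    · simpa using Finset.sum_eq_zero_iff_of_nonpos (s := Finset.univ) fun i _ =>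
        mul_nonpos_of_nonpos_of_nonneg (h i) (h0 i)
  · have e1 : P (τ i) ↔ P i := by rw [hP, hP, τ.surjective.exists]; simp only [h]
    have e2 : Q (τ i) ↔ Q i := by
      rw [hQ, hQ, τ.surjective.exists₂]; simp only [h, ne_eq, τ.apply_eq_iff_eq]
    simp only [he, e1, e2]

end

open Cfsg.Lie in
theorem dat_exc (D : ChevalleyDatum) [Good D] (a : ℕ → ℤ) {n : ℕ} (p : Fin n → Fin D.rank)
    (k : Fin D.rank) (A : Fin D.rank → Fin D.rank → ℤ)
    (h : (∀ i j, A i j = (Good.C D).wt i ((Good.C D).smp j)) ∧ (∀ i j, A (p i) (p j) = chainA i j) ∧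
      (∀ i, A k (p i) = -if i.1 = 0 then 1 else 0) ∧
      (∀ s : Rt D, (∑ i : Fin D.rank, a i * (Good.C D).wt i s).natAbs < 8) ∧
      (∀ i, ∑ j : Fin D.rank, a j * A j i = if ∃ j, A j i = -2 then 1 else
        if ∃ j l, j ≠ l ∧ A i j < 0 ∧ A i l < 0 then 0 else 1) ∧
      ∀ i, (¬ (∃ j, A j i = -2) ∧ ∃ j l, j ≠ l ∧ A i j < 0 ∧ A i l < 0) ↔ ∃ j, p j = i) :
    Nonempty (Dat (rootSys D) 8) := by
  obtain rfl : A = (rootSys D).A := funext₂ fun i j => by
    rw [h.1, ← RootSys.wt_simple, rootSys_wt', rootSys_simple, sm_val']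
  exact dat_of (a := fun i => a i) one_pos one_pos h.2.1 h.2.2.1
    (by simpa only [dotProduct, rootSys_wt'] using h.2.2.2.1) (fun _ => Iff.rfl) (fun _ => Iff.rfl)
    (by simpa only [dotProduct, RootSys.wt_simple] using h.2.2.2.2.1) h.2.2.2.2.2

open Cfsg.Lie

theorem dat_G2 : Nonempty (Dat (rootSys chevG2) 8) :=
  dat_exc chevG2 ([3, 5].getD · 0) (Fin.elim0 : Fin 0 → _) ⟨0, by decide⟩
    (fun i j => (Good.C chevG2).wt i ((Good.C chevG2).smp j)) (by decide +kernel)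

theorem dat_F4 : Nonempty (Dat (rootSys chevF4) 8) :=
  dat_exc chevF4 ([5, 9, 13, 7].getD · 0) (fun _ : Fin 1 => ⟨1, by decide⟩) ⟨0, by decide⟩
    (fun i j => (Good.C chevF4).wt i ((Good.C chevF4).smp j)) (by decide +kernel)

theorem dat_E6 : Nonempty (Dat (rootSys chevE6) 8) :=
  dat_exc chevE6 ([3, 4, 5, 7, 5, 3].getD · 0) (fun i : Fin 3 => ⟨i + 2, by change _ < 6; omega⟩)
    ⟨0, by decide⟩ (fun i j => (Good.C chevE6).wt i ((Good.C chevE6).smp j)) (by decide +kernel)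

theorem dat_E7 : Nonempty (Dat (rootSys chevE7) 8) :=
  dat_exc chevE7 ([5, 7, 9, 13, 10, 7, 4].getD · 0) (fun i : Fin 4 => ⟨i + 2, by change _ < 7; omega⟩)
    ⟨0, by decide⟩ (fun i j => (Good.C chevE7).wt i ((Good.C chevE7).smp j)) (by decide +kernel)

theorem dat_E8 : Nonempty (Dat (rootSys chevE8) 8) :=
  dat_exc chevE8 ([11, 16, 21, 31, 25, 19, 13, 7].getD · 0)
    (fun i : Fin 5 => ⟨i + 2, by change _ < 8; omega⟩)
    ⟨0, by decide⟩ (fun i j => (Good.C chevE8).wt i ((Good.C chevE8).smp j)) (by decide +kernel)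

variable {T : Ty} {m n : ℕ} {κ : Type*} [Fintype κ] [DecidableEq κ]

/-- the coroot lattice -/
def coL (Δ : Base T m κ) : Submodule ℤ (Fin m → ℤ) where
  carrier := {x | ∃ a, ∀ s, a ⬝ᵥ Δ.R.wt s = x ⬝ᵥ s.v}
  add_mem' := by
    rintro x y ⟨a, ha⟩ ⟨b, hb⟩
    exact ⟨a + b, fun s => by rw [add_dotProduct, add_dotProduct, ha, hb]⟩
  zero_mem' := ⟨0, by simp⟩
  smul_mem' := by
    rintro c x ⟨a, ha⟩
    exact ⟨c • a, fun s => by rw [smul_dotProduct, smul_dotProduct, ha]⟩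

theorem cw_mem (Δ : Base T m κ) {a b : Ix m} (h : adm T a b) : cw a b ∈ coL Δ :=
  ⟨Δ.R.co (.mk a b h), Δ.R_pair (.mk a b h)⟩

theorem mem_of_single {M : Submodule ℤ (Fin m → ℤ)} {x : Fin m → ℤ} (h : ∀ i, x i • ev i ∈ M) :
    x ∈ M := by
  rw [← Finset.univ_sum_single x]
  exact M.sum_mem fun i _ => by simpa [← Pi.single_smul] using h i

theorem natAbs_lt {x : Fin m → ℤ} (h : ∀ i, (x i).natAbs < 8)
    (h' : ∀ i j, (i = j → T = .C) → (x i).natAbs + (x j).natAbs < 8) (s : Root T m) :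
    (x ⬝ᵥ s.v).natAbs < 8 := by
  induction s using Root.ind with | H a b hab ha =>
  have h1 := hab.1
  have h2 := hab.2.1
  rcases a with _ | i | i <;> rcases b with _ | j | j <;>
    simp only [Root.v_mk, dotProduct_add, ε_none, ε_inl, ε_inr, dotProduct_neg, dotProduct_single,
      dotProduct_zero, mul_one, add_zero, zero_add, Int.natAbs_neg, Int.natAbs_zero, h] <;>
    first | omega | (have := h' i j (by rintro rfl; simp_all); omega)

theorem dat_A (hn : 1 ≤ n) : Nonempty (Dat (baseA n).R 8) := by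
  obtain ⟨a, ha⟩ := cw_mem (baseA n) (adm_A (show (0 : Fin (n + 1)) ≠ Fin.last n by
    simp [Fin.ext_iff]; omega))
  rw [cw_gen (by simp) (by simp) (by simp)] at ha
  refine dat_of (a := a) (p := fun i : Fin (n - 2) => ⟨i + 1, by omega⟩) (k := ⟨0, hn⟩)
    (c₁ := if n = 1 then 2 else 1) (by split_ifs <;> omega) one_pos
    (fun i j => by simp [baseA_A, chainA]) (fun i => by simp [baseA_A, chainA]; split_ifs <;> omega)
    (fun s => ha s ▸ natAbs_lt ?_ ?_ s) (P := fun _ => False) (Q := fun i => 0 < i.1 ∧ i.1 + 1 < n)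
    (fun i => ?_) (fun i => ⟨fun h => ⟨⟨i - 1, by omega⟩, ⟨i + 1, by omega⟩, ?_⟩, ?_⟩) (fun i => ?_)
    fun i => ⟨fun h => ⟨⟨i - 1, by omega⟩, Fin.ext (by simp; omega)⟩, ?_⟩
  · intro i; simp [Pi.single_apply]; split_ifs <;> simp
  · intro i j _; simp [Pi.single_apply]; split_ifs <;> simp
  · simp only [baseA_A, chainA, false_iff, not_exists]; intro j; split_ifs <;> simp
  · simp only [baseA_A, chainA, ne_eq, Fin.ext_iff, true_or, if_true]; split_ifs <;> omega
  · simp only [baseA_A, chainA, ne_eq, Fin.ext_iff]; rintro ⟨j, l, h⟩; split_ifs at h <;> omega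
  · rw [ha, Base.R_simple, Root.v_mk]
    simp [baseA, Pi.single_apply, Fin.ext_iff]
    split_ifs <;> omega
  · rintro ⟨j, rfl⟩; simp; omega

theorem dot_snoc {xa xb : Ix (n + 1)} {hx : adm T xa xb} {hxa hht hsg hpos hco} (x : Fin (n + 1) → ℤ)
    (i : Fin (n + 1)) : x ⬝ᵥ ((baseSnoc T n xa xb hx hxa hht hsg hpos hco).R.simple i).v =
      if h : i.1 < n then x i - x ⟨i + 1, by omega⟩ else x ⬝ᵥ (ε xa + ε xb) := by
  rw [Base.R_simple, Root.v_mk]
  induction i using Fin.lastCases with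
  | last => simp [baseSnoc]
  | cast i => simp [baseSnoc, sub_eq_add_neg]; rfl

theorem dat_B (hn : 2 ≤ n) : Nonempty (Dat (baseB n).R 8) := by
  have h1 := cw_mem (baseB n) (a := some (.inl 0)) (b := some (.inr (Fin.last n)))
    (by simp [adm, Fin.ext_iff]; omega)
  rw [cw_gen (by simp) (by simp) (by simp)] at h1
  obtain ⟨a, ha⟩ := add_mem h1 (mem_of_single (x := fun _ => 2) fun i => by
    simpa [cw_none] using cw_mem (baseB n) (adm_B i))
  refine dat_of (a := a) (p := fun i : Fin (n - 2) => ⟨i + 1, by omega⟩) (k := 0) one_pos one_pos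
    (fun i j => by have := i.2; simp [baseB_A, chainA]; omega)
    (fun i => by simp [baseB_A, chainA]; split_ifs <;> omega)
    (fun s => ha s ▸ natAbs_lt ?_ ?_ s) (P := fun i => i.1 + 1 = n) (Q := fun i => 0 < i.1 ∧ i.1 < n)
    (fun i => ⟨fun h => ⟨Fin.last n, by simp [baseB_A, h]⟩, ?_⟩)
    (fun i => ⟨fun h => ⟨⟨i - 1, by omega⟩, ⟨i + 1, by omega⟩, ?_⟩, ?_⟩) (fun i => ?_)
    fun i => ⟨fun h => ⟨⟨i - 1, by omega⟩, Fin.ext (by simp; omega)⟩, ?_⟩
  · intro i; simp [Pi.single_apply]; split_ifs <;> simp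
  · intro i j _; simp [Pi.single_apply]; split_ifs <;> simp
  · simp only [baseB_A, chainA]; rintro ⟨j, h⟩; split_ifs at h <;> omega
  · simp only [baseB_A, chainA, ne_eq, Fin.ext_iff, true_or, if_true]; split_ifs <;> omega
  · simp only [baseB_A, chainA, ne_eq, Fin.ext_iff]; rintro ⟨j, l, h⟩; split_ifs at h <;> omega
  · refine (ha _).trans ((dot_snoc _ i).trans ?_)
    simp only [Pi.add_apply, ε_inl, ε_inr, Pi.neg_apply, Pi.single_apply, Fin.ext_iff, add_zero,
      dotProduct_single, ε_none, Fin.val_zero, Fin.val_last, if_true, Nat.add_one_ne_zero, if_false]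
    split_ifs <;> omega
  · rintro ⟨j, rfl⟩; simp; omega

theorem dat_C (hn : 1 ≤ n) : Nonempty (Dat (baseC n).R 8) := by
  obtain ⟨a, ha⟩ := mem_of_single (M := coL (baseC n)) (x := fun i => if i.1 = 0 then 2 else 1)
    fun i => Submodule.smul_mem _ _ (by simpa [cw_diag] using cw_mem (baseC n) (adm_C i))
  refine dat_of (a := a) (p := fun i : Fin (n - 1) => ⟨i + 1, by omega⟩) (k := 0) one_pos two_pos
    (fun i j => by have := j.2; simp [baseC_A, chainA]; omega)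
    (fun i => by simp [baseC_A, chainA]; split_ifs <;> omega)
    (fun s => ha s ▸ natAbs_lt ?_ ?_ s) (P := fun i => i.1 = n) (Q := fun i => 0 < i.1 ∧ i.1 < n)
    (fun i => ⟨fun h => ⟨⟨n - 1, by omega⟩, by simp [baseC_A, h]; omega⟩, ?_⟩)
    (fun i => ⟨fun h => ⟨⟨i - 1, by omega⟩, ⟨i + 1, by omega⟩, ?_⟩, ?_⟩) (fun i => ?_)
    fun i => ⟨fun h => ⟨⟨i - 1, by omega⟩, Fin.ext (by simp; omega)⟩, ?_⟩
  · intro i; split_ifs <;> simp
  · intro i j _; split_ifs <;> simp
  · simp only [baseC_A, chainA]; rintro ⟨j, h⟩; split_ifs at h <;> omega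
  · simp only [baseC_A, chainA, ne_eq, Fin.ext_iff, true_or, if_true]; split_ifs <;> omega
  · simp only [baseC_A, chainA, ne_eq, Fin.ext_iff]; rintro ⟨j, l, h⟩; split_ifs at h <;> omega
  · refine (ha _).trans ((dot_snoc _ i).trans ?_)
    simp [-Fin.val_eq_zero_iff, -Fin.val_pos_iff]
    split_ifs <;> omega
  · rintro ⟨j, rfl⟩; simp; omega

theorem dat_D (hn : 2 ≤ n) : Nonempty (Dat (baseD n).R 8) := by
  obtain ⟨a, ha⟩ := mem_of_single (M := coL (baseD n))
    (x := fun i => (if i.1 = 0 then 2 else if i.1 = n + 1 then 0 else 1) * 2) fun i => by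
      by_cases h : i = Fin.last (n + 1)
      · simp [h]
      have h1 := add_mem (cw_mem (baseD n) (adm_D _ (by decide) h))
        (cw_mem (baseD n) (a := some (.inl i)) (b := some (.inr (Fin.last _))) (by simp [adm, h, Ne.symm h]))
      rw [cw_gen (by simpa) (by simp) (by simp), cw_gen (by simp) (by simp) (by simp)] at h1
      exact mul_smul _ (2 : ℤ) (ev i) ▸ Submodule.smul_mem _ _ (by
        convert h1 using 1; simp [two_smul, add_add_add_comm])
  refine dat_of (a := a) (p := fun i : Fin (n - 1) => ⟨i + 1, by omega⟩) (k := 0) two_pos two_pos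
    (fun i j => by have := i.2; have := j.2; simp [baseD_A, chainA]; split_ifs <;> omega)
    (fun i => by simp [baseD_A, chainA]; split_ifs <;> omega)
    (fun s => ha s ▸ natAbs_lt ?_ ?_ s) (P := fun _ => False) (Q := fun i => 0 < i.1 ∧ i.1 < n)
    (fun i => ?_)
    (fun i => ⟨fun h => ⟨⟨i - 1, by omega⟩, ⟨i + 1, by omega⟩, ?_⟩, ?_⟩) (fun i => ?_)
    fun i => ⟨fun h => ⟨⟨i - 1, by omega⟩, Fin.ext (by simp; omega)⟩, ?_⟩
  · intro i; split_ifs <;> simp
  · intro i j h; simp only [Fin.ext_iff, reduceCtorEq, imp_false] at h; split_ifs <;> simp; omega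
  · simp only [baseD_A, chainA, false_iff, not_exists]; intro j; split_ifs <;> simp
  · simp only [baseD_A, chainA, ne_eq, Fin.ext_iff, true_or, if_true]; split_ifs <;> omega
  · simp only [baseD_A, chainA, ne_eq, Fin.ext_iff]; rintro ⟨j, l, h⟩; split_ifs at h <;> omega
  · refine (ha _).trans ((dot_snoc _ i).trans ?_)
    simp [-Fin.val_eq_zero_iff, -Fin.val_pos_iff]
    split_ifs <;> omega
  · rintro ⟨j, rfl⟩; simp; omega

theorem class_sq_of {ι κ : Type*} [Fintype κ] [DecidableEq κ] {R : RootSys ι κ} [Finite ι]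
    {F G G' G'' : Type*} [Field F] [Group G] [Group G'] [Group G''] [Fintype F] [Finite G]
    (hF : 9 ≤ Fintype.card F) (hR : R.Irred) (D : Nonempty (Dat R 8)) {S' : StData R ℚ G''}
    (h' : S'.Good) {S : StData R F G'} (hS : S.Good) (hA : S.Adjoint) (htop : S.grp = ⊤)
    (e : G ≃* G') : ∃ c : G, ∀ g : G, ∃ x y : G, g = (x * c * x⁻¹) * (y * c * y⁻¹) := by
  obtain ⟨a, n, p, k, h1, h2, h3, h4, h5⟩ := D
  have := Finite.of_equiv _ e.toEquiv
  rw [← Nat.card_eq_fintype_card] at hF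
  obtain ⟨c, hc⟩ := exists_class_sq (by omega) hR (eta_of_good h')
    ⟨a, n, p, k, h1, h2, fun s => (h3 s).trans_le (by omega), h4, h5⟩ hS hA htop
  refine ⟨e.symm c, fun g => ?_⟩
  obtain ⟨x, y, h⟩ := hc (e g)
  exact ⟨e.symm x, e.symm y, e.injective (by simpa using h)⟩

end CL.Thomp
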