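/-
Squares of semisimple classes in `PSp₄(q)`: the Siegel parabolic with an elliptic Levi part.
-/
import Mathlib
import Cfsg.Agent.KSG.CoopV1

set_option autoImplicit false

namespace CL.Thomp

open Module CL.Witt CL.Witt.Form CL.Coop Submodule FormType

section Geo

variable {F : Type*} [Field F] {V : Type*} [AddCommGroup V] [Module F V] [FiniteDimensional F V]
  {f : Form (alt F) V}

theorem exists_compl (hf : f.Nondeg) (hn : finrank F V = 4) {x x' : V} (h : f.B x' x = 1) :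
    ∃ y ∈ Wp f x' x, ∃ z ∈ Wp f x' x, f.B z y = 1 := by
  have h1 := finrank_Wp hf (f.alt_q _) (f.alt_q _) h
  obtain ⟨z, hz⟩ := (finrank_pos_iff_exists_ne_zero (R := F) (M := Wp f x' x)).mp (by omega)
  obtain ⟨y, hy⟩ := (nondeg_Wp hf (f.alt_q _) (f.alt_q _) h).exists_B_eq hz 1
  exact ⟨y, y.2, z, z.2, hy⟩

theorem exists_frame (hf : f.Nondeg) (hn : finrank F V = 4) (h3 : ∃ a : F, a ≠ 0 ∧ a ≠ 1)
    (g : V →ₗ[F] V) (hg : ∀ x y, f.B (g x) (g y) = f.B x y) : ∃ e₁ e₂ f₁ f₂ : V,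
    (f.B e₁ e₂ = 0 ∧ f.B f₁ f₂ = 0 ∧ f.B f₁ e₁ = 1 ∧ f.B f₁ e₂ = 0 ∧ f.B f₂ e₁ = 0 ∧
      f.B f₂ e₂ = 1) ∧ ((f.B f₂ (g e₁) = 0 ∧ f.B f₁ (g e₁) * f.B f₂ (g e₂) = 1 ∧
      (f.B f₂ (g e₂) = 1 → f.B f₁ (g e₂) = 0)) ∨ ((2 : F) ≠ 0 ∧ f.B f₁ (g e₁) = 0 ∧
      f.B f₁ (g e₂) = -1 ∧ f.B f₂ (g e₁) = 1 ∧ f.B f₂ (g e₂) = 0)) := by
  have pol : ∀ y z, f.B y (g y) = 0 → f.B z (g z) = 0 → f.B (y + z) (g (y + z)) = 0 →
      f.B y (g z) = -f.B z (g y) := fun y z h1 h2 h3 => by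
    simp only [map_add, LinearMap.add_apply, h1, h2] at h3
    linear_combination h3
  by_cases hQ : ∀ x, f.B x (g x) = 0
  · by_cases hs : ∀ x, g x ∈ F ∙ x
    · obtain ⟨x, hx⟩ := (finrank_pos_iff_exists_ne_zero (R := F) (M := V)).mp (by omega)
      obtain ⟨x, h1⟩ := hf.exists_B_eq hx 1
      obtain ⟨y, hy, z, hz, h2⟩ := exists_compl hf hn h1
      obtain ⟨c, hc⟩ := LinearMap.exists_eq_smul_id_of_forall_notLinearIndependent (f := g)
        fun v h => by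
          obtain ⟨c, hc⟩ := mem_span_singleton.mp (hs v)
          simpa using (LinearIndependent.pair_iff.mp h c (-1) (by simp [hc])).2
      rw [mem_perp_span_pair] at hy hz
      have h4 := hg _ _ ▸ h1
      refine ⟨x, y, _, z, ⟨hy.2, hz.1, h1, hy.1, f.B_eq_zero_symm hz.2, h2⟩, Or.inl ?_⟩
      simp_all [alt_σ, f.B_eq_zero_symm hz.2]
    push Not at hs
    obtain ⟨x, hx⟩ := hs
    obtain ⟨y, h1, h2⟩ := hf.exists_perp_eq hx 1
    replace h1 := h1 x (mem_span_singleton_self x)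
    have h4 := h2 ▸ pol x y (hQ _) (hQ _) (hQ _)
    have h5 := fun x y => f.alt_symm x (g y)
    have h6 := f.B_eq_zero_symm h1
    by_cases h : (2 : F) = 0
    · refine ⟨x, y, g y - y, x - g x, ?_, Or.inl ?_⟩ <;>
        simp [hg, h1, h2, h4, h5, h6, hQ, alt_B_self]
      linear_combination h
    · refine ⟨x, y, g y + x, y - g x, ?_, Or.inr ?_⟩ <;>
        simp [hg, h1, h2, h4, h5, h6, hQ, alt_B_self, h]
  push Not at hQ
  obtain ⟨x, hx⟩ := hQ
  obtain ⟨x', h1, κ, h0, h2⟩ : ∃ x', f.B x' x = 1 ∧ ∃ κ : F, κ ≠ 0 ∧ g x = κ • x' :=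
    ⟨(-f.B x (g x))⁻¹ • g x, by simp [alt_σ, f.alt_symm x, hx], -f.B x (g x), by simpa, by
      rw [smul_inv_smul₀ (neg_ne_zero.mpr hx)]⟩
  have h4 : f.B x x' = -1 := by rw [f.alt_symm, h1]
  suffices ∃ y ∈ Wp f x' x, ∃ z ∈ Wp f x' x, f.B z y = 1 ∧ f.B z (g y) ≠ 0 ∧ (f.B z (g y) = 1 →
      f.B (x' - κ⁻¹ • x) (g y) = 0) by
    obtain ⟨y, hy, z, hz, h5, h6, h7⟩ := this
    rw [mem_perp_span_pair] at hy hz
    refine ⟨x, y, x' - (κ * f.B z (g y))⁻¹ • x, z, by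
      simp [hy, hz, h1, h5, alt_B_self, f.B_eq_zero_symm hz.2], Or.inl ⟨by
      simp [h2, f.B_eq_zero_symm hz.1], by
      simp [h2, alt_B_self, h4, alt_σ]; field_simp, fun h => by simpa [h] using h7 h⟩⟩
  by_cases hQ : ∀ y ∈ Wp f x' x, f.B y (g y) = 0
  swap
  · push Not at hQ
    obtain ⟨y, hy, h5⟩ := hQ
    obtain ⟨a, h6, h7⟩ := h3
    obtain ⟨z, hz⟩ := (nondeg_Wp hf (f.alt_q _) (f.alt_q _) h1).exists_B_eq (x := ⟨y, hy⟩)
      (fun h => h5 (by simp [show y = 0 from congrArg Subtype.val h])) (-1)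
    have h8 : f.B (z + ((a - f.B z (g y)) / f.B y (g y)) • y) (g y) = a := by
      simp [alt_σ, h5]
    exact ⟨y, hy, _, add_mem z.2 (smul_mem _ _ hy), by
      simp [f.alt_symm y z, alt_B_self, show f.B y z = -1 from hz], h8.symm ▸ h6,
      fun h => (h7 (h8.symm.trans h)).elim⟩
  obtain ⟨y, hy, z, hz, h5⟩ := exists_compl hf hn h1
  have h6 := pol y z (hQ _ hy) (hQ _ hz) (hQ _ (add_mem hy hz))
  have h7 : f.B z (g y) ≠ 0 := fun h => by
    have key : ∀ w ∈ Wp f x' x, f.B z (g w) = 0 → f.B y (g w) = 0 → g w = -f.B x (g w) • x' :=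
      fun w hw h7 h8 => sub_eq_zero.mp (eq_zero_four hf hn.le (f.alt_q _) (f.alt_q _) h1 hz hy
        (f.alt_q _) (by simp [h5]) (f.mem_perp_span_pair.mpr ⟨by
          have := hg x w
          rw [h2, (f.mem_perp_span_pair.mp hw).2] at this
          simpa [alt_B_self, alt_σ, h0] using this, by simp [h4]⟩)
        (by simp [h7, f.B_eq_zero_symm (f.mem_perp_span_pair.mp hz).1])
        (by simp [h8, f.B_eq_zero_symm (f.mem_perp_span_pair.mp hy).1]))
    have h8 := hg z y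
    rw [key y hy h (hQ y hy), key z hz (hQ z hz) (by simp [h6, h]), h5] at h8
    simp [alt_B_self] at h8
  by_cases h8 : f.B (x' - κ⁻¹ • x) (g y) = 0
  · exact ⟨y, hy, z, hz, h5, h7, fun _ => h8⟩
  have h9 : f.B y z = -1 := by rw [f.alt_symm, h5]
  refine ⟨z - (f.B (x' - κ⁻¹ • x) (g z) / f.B (x' - κ⁻¹ • x) (g y)) • y,
    sub_mem hz (smul_mem _ _ hy), -y, neg_mem hy, by simp [h9, alt_B_self], by
      simp [h6, h7, hQ y hy], fun _ => ?_⟩
  rw [map_sub g, map_smul, B_sub_right, B_smul_right, div_mul_cancel₀ _ h8, sub_self]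

end Geo

section Mat

open Matrix SymplecticGroup

variable {F : Type*} [Field F] {l : Type*} [Fintype l] [DecidableEq l]

/-- the Levi factor of the Siegel parabolic -/
def lev : GL l F →* symplecticGroup l F where
  toFun X := ⟨fromBlocks X.1 0 0 (X⁻¹).1ᵀ, fromBlocks_mem_iff.mpr ⟨by simp, by simp, by
    rw [← transpose_mul, ← Units.val_mul]; simp⟩⟩
  map_one' := Subtype.ext (by simp)
  map_mul' X Y := Subtype.ext (by simp [fromBlocks_multiply, -coe_units_inv])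

/-- the unipotent radical of the Siegel parabolic -/
def up (S : Matrix l l F) (h : Sᵀ = S) : symplecticGroup l F :=
  ⟨fromBlocks 1 S 0 1, fromBlocks_mem_iff.mpr ⟨by simp, by simp [h], by simp⟩⟩

theorem lev_up (X : GL l F) {S : Matrix l l F} (h : Sᵀ = S) :
    lev X * up S h = up (X.1 * S * X.1ᵀ) (by simp [h, Matrix.mul_assoc]) * lev X :=
  Subtype.ext (by
    simp [lev, up, fromBlocks_multiply, -coe_units_inv, Matrix.mul_assoc, ← transpose_mul])

theorem up_lev_conj (X : GL l F) {T : Matrix l l F} (h : Tᵀ = T) :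
    IsConj (lev X) (up (T - X.1 * T * X.1ᵀ) (by simp [h, Matrix.mul_assoc]) * lev X) :=
  isConj_iff.mpr ⟨up T h, mul_inv_eq_iff_eq_mul.mpr (Subtype.ext (by
    simp [lev, up, fromBlocks_multiply, -coe_units_inv, Matrix.mul_assoc, ← transpose_mul,
      Matrix.sub_mul]))⟩

theorem exists_UL (g : symplecticGroup l F) (A : GL l F) (h : g.1.toBlocks₁₁ = A) :
    ∃ S h S' h', g = (symJ l F)⁻¹ * up S h * symJ l F * lev A * up S' h' := by
  obtain ⟨g, hg⟩ := g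
  obtain ⟨B, C, D, rfl⟩ : ∃ B C D, g = fromBlocks A.1 B C D :=
    ⟨_, _, _, h ▸ (fromBlocks_toBlocks g).symm⟩
  have h1 := fromBlocks_mem_iff.mp hg
  have h2 := (fromBlocks_mem_iff.mp (fromBlocks_transpose A.1 B C D ▸ transpose_mem hg)).1
  have h3 : (A⁻¹).1ᵀ * A.1ᵀ = 1 := by simp [← transpose_mul, -coe_units_inv]
  have h4 : Cᵀ = A.1ᵀ * C * (A⁻¹).1 := by simp [h1.1, -coe_units_inv, Matrix.mul_assoc]
  have h5 : B = A.1 * Bᵀ * (A⁻¹).1ᵀ := by
    simp only [transpose_transpose] at h2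
    simp [h2, -coe_units_inv, Matrix.mul_assoc, ← transpose_mul]
  refine ⟨-(C * (A⁻¹).1), by simp [h4, ← Matrix.mul_assoc, h3, -coe_units_inv], (A⁻¹).1 * B, by
    rw [transpose_mul, eq_comm]
    conv_lhs => rw [h5]
    simp [← Matrix.mul_assoc, -coe_units_inv], Subtype.ext ?_⟩
  have h6 : D = C * ((A⁻¹).1 * B) + (A⁻¹).1ᵀ := by
    rw [← Matrix.one_mul D, ← h3, Matrix.mul_assoc, eq_add_of_sub_eq h1.2.2, h4]
    simp [← Matrix.mul_assoc, h3, -coe_units_inv, Matrix.mul_add, add_comm]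
  simp [lev, up, coe_inv, J, fromBlocks_multiply, -coe_units_inv, fromBlocks_neg,
    fromBlocks_transpose, h6, Matrix.mul_assoc]

variable {t d : F} (hd : ∀ a : F, a ^ 2 - t * a + d ≠ 0)

/-- the companion matrix -/
def comp (hd : ∀ a : F, a ^ 2 - t * a + d ≠ 0) : GL (Fin 2) F :=
  GeneralLinearGroup.mkOfDetNeZero !![0, -d; 1, t] (by simpa using hd 0)

theorem isConj_comp (h1 : d ≠ 1) (X : GL (Fin 2) F) (ht : X.1.trace = t) (h : X.1.det = d)
    {S : Matrix (Fin 2) (Fin 2) F} (hS : Sᵀ = S) : IsConj (lev (comp hd)) (up S hS * lev X) := by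
  rw [trace_fin_two] at ht
  rw [det_fin_two] at h
  have h2 : X.1 1 0 ≠ 0 := fun h2 => hd (X.1 0 0) (by
    linear_combination X.1 0 0 * ht - h + -X.1 0 1 * h2)
  obtain ⟨P, rfl⟩ : ∃ P, X = P * comp hd * P⁻¹ := ⟨GeneralLinearGroup.mkOfDetNeZero
    !![1, X.1 0 0; 0, X.1 1 0] (by simpa using h2), eq_mul_inv_of_mul_eq (Units.ext (by
      ext i j
      fin_cases i <;> fin_cases j <;> simp [comp, Matrix.mul_apply, ← ht, ← h] <;> ring))⟩
  obtain ⟨S', h3, h4⟩ : ∃ S' h3, lev P⁻¹ * up S hS = up S' h3 * lev P⁻¹ := ⟨_, _, lev_up _ hS⟩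
  refine IsConj.trans (b := up S' h3 * lev (comp hd)) ?_ (isConj_iff.mpr ⟨lev P, by
    rw [eq_mul_inv_iff_mul_eq.mpr h4.symm, map_mul, map_mul, map_inv]; group⟩)
  have h4 : S' 1 0 = S' 0 1 := congrFun (congrFun h3 0) 1
  have h5 : (d - 1) * ((d + 1) ^ 2 - t ^ 2) ≠ 0 := mul_ne_zero (sub_ne_zero.mpr h1) fun h5 =>
    mul_ne_zero (hd 1) (hd (-1)) (by linear_combination h5)
  obtain ⟨y, z, h6, h7⟩ : ∃ y z, (d + 1) * y + d * t * z = S' 0 1 ∧
      -2 * t * y - (d ^ 2 + t ^ 2 - 1) * z = S' 0 0 + S' 1 1 :=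
    ⟨((d ^ 2 + t ^ 2 - 1) * S' 0 1 + d * t * (S' 0 0 + S' 1 1)) / ((d - 1) * ((d + 1) ^ 2 - t ^ 2)),
      (-2 * t * S' 0 1 - (d + 1) * (S' 0 0 + S' 1 1)) / ((d - 1) * ((d + 1) ^ 2 - t ^ 2)), by
        rw [← mul_div_assoc, ← mul_div_assoc, ← add_div, div_eq_iff h5]; ring, by
        rw [← mul_div_assoc, ← mul_div_assoc, ← sub_div, div_eq_iff h5]; ring⟩
  convert up_lev_conj (comp hd) (T := !![S' 0 0 + d ^ 2 * z, y; y, z]) (by
    ext i j; fin_cases i <;> fin_cases j <;> rfl) using 3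
  ext i j
  fin_cases i <;> fin_cases j <;> simp [comp, Matrix.mul_apply, h4, vecMul, dotProduct]
  · ring
  · linear_combination -h6
  · linear_combination -h6
  · linear_combination -h7

theorem not_dvd_comp (p : ℕ) [Fact p.Prime] [CharP F p] [Finite F] : ¬ p ∣ orderOf (comp hd) := by
  rintro ⟨k, hk⟩
  have h1 : ∀ n, ∃ a b : F, (comp hd ^ n).1 = !![a, -d * b; b, a + t * b] := fun n => by
    induction n with
    | zero => exact ⟨1, 0, by ext i j; fin_cases i <;> fin_cases j <;> simp⟩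
    | succ n ih =>
      obtain ⟨a, b, h⟩ := ih
      refine ⟨-d * b, a + t * b, ?_⟩
      rw [pow_succ, Units.val_mul, h]
      ext i j
      fin_cases i <;> fin_cases j <;> simp [comp, Matrix.mul_apply] <;> ring
  obtain ⟨a, b, h⟩ := h1 k
  have h2 : ((comp hd ^ k).1 - 1) ^ p = 0 := by
    rw [sub_pow_char_of_commute _ (Commute.one_right _), ← Units.val_pow_eq_pow_val, ← pow_mul,
      mul_comm, ← hk, pow_orderOf_eq_one, one_pow, Units.val_one, sub_self]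
  have h3 := congrArg det h2
  rw [det_pow, det_zero, pow_eq_zero_iff (Fact.out : p.Prime).ne_zero, h, det_fin_two] at h3
  simp only [Matrix.sub_apply, of_apply, cons_val', cons_val_zero, cons_val_one, cons_val_fin_one,
    one_apply_eq, ne_eq, zero_ne_one, not_false_eq_true, one_apply_ne, one_ne_zero] at h3
  have h4 : b = 0 := not_not.mp fun h4 => hd ((1 - a) / b) (by
    field_simp
    linear_combination h3)
  have h5 : a = 1 := by simpa [h4, sub_eq_zero] using h3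
  have h6 := orderOf_dvd_of_pow_eq_one (show comp hd ^ k = 1 from Units.ext (by
    rw [h, h4, h5]
    ext i j
    fin_cases i <;> fin_cases j <;> simp))
  have h7 := orderOf_pos (comp hd)
  rw [hk] at h6 h7
  have := Nat.le_of_dvd (Nat.pos_of_mul_pos_left h7) h6
  nlinarith [(Fact.out : p.Prime).two_le, Nat.pos_of_mul_pos_left h7]

theorem exists_factor (ht : t ≠ 0) {a r : F} (h0 : a ≠ 0) (h1 : a = 1 → r = 0)
    (h2 : a = -1 → r ≠ 0 ∨ a = 1) : ∃ e : Matrix (Fin 2) (Fin 2) F, e.trace = t ∧ e.det = d ∧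
      (e * !![a⁻¹, r; 0, a]).trace = t := by
  have key : ∀ x z : F, z ≠ 0 → x * a⁻¹ + (z * r + (t - x) * a) = t → _ := fun x z hz h =>
    (⟨!![x, (x * (t - x) - d) / z; z, t - x], by simp, by simp [div_mul_cancel₀ _ hz], by
      simpa using h⟩ : ∃ e : Matrix (Fin 2) (Fin 2) F, e.trace = t ∧ e.det = d ∧
      (e * !![a⁻¹, r; 0, a]).trace = t)
  by_cases h3 : a = 1
  · exact key 0 1 one_ne_zero (by simp [h3, h1 h3])
  by_cases h4 : a = -1
  · have h5 := (h2 h4).resolve_right h3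
    refine key 0 (2 * t / r) (div_ne_zero (mul_ne_zero (fun h => h3 ?_) ht) h5) ?_
    · linear_combination h4 - h
    · rw [div_mul_cancel₀ _ h5, h4]; ring
  have h5 : 1 - a ^ 2 ≠ 0 := fun h => mul_ne_zero (sub_ne_zero.mpr h3) (sub_ne_zero.mpr h4)
    (by linear_combination -h)
  exact key (a * (t - t * a - r) / (1 - a ^ 2)) 1 one_ne_zero (by field_simp; ring)

theorem exists_conj_block (g : symplecticGroup (Fin 2) F) {e₁ e₂ f₁ f₂ : Fin 2 ⊕ Fin 2 → F}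
    (h : (Sp.spForm 2 F).B e₁ e₂ = 0 ∧ (Sp.spForm 2 F).B f₁ f₂ = 0 ∧ (Sp.spForm 2 F).B f₁ e₁ = 1 ∧
      (Sp.spForm 2 F).B f₁ e₂ = 0 ∧ (Sp.spForm 2 F).B f₂ e₁ = 0 ∧ (Sp.spForm 2 F).B f₂ e₂ = 1) :
    ∃ k : symplecticGroup (Fin 2) F, (k⁻¹ * g * k).1.toBlocks₁₁ =
      !![(Sp.spForm 2 F).B f₁ (g.1 *ᵥ e₁), (Sp.spForm 2 F).B f₁ (g.1 *ᵥ e₂);
        (Sp.spForm 2 F).B f₂ (g.1 *ᵥ e₁), (Sp.spForm 2 F).B f₂ (g.1 *ᵥ e₂)] := by
  simp only [Sp.spForm_B_eq, Fin.sum_univ_two] at h ⊢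
  obtain ⟨h1, h2, h3, h4, h5, h6⟩ := h
  refine ⟨⟨(of (Sum.elim ![e₁, e₂] ![f₁, f₂]))ᵀ, mem_iff'.mpr ?_⟩, ?_⟩
  · ext (i | i) (j | j) <;> fin_cases i <;> fin_cases j <;>
      simp [J, Matrix.mul_apply, Fintype.sum_sum_type] <;> grind
  · ext i j
    fin_cases i <;> fin_cases j <;> simp [J, Matrix.mul_apply, Fintype.sum_sum_type, coe_inv,
      toBlocks₁₁, mulVec, dotProduct] <;> ring

theorem exists_mul [Fintype F] (h1 : d ≠ 1) (ht : t ≠ 0) (g : symplecticGroup (Fin 2) F) :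
    ∃ a b, IsConj (lev (comp hd)) a ∧ IsConj (lev (comp hd)) b ∧
      (g = a * b ∨ g.1 = -(a * b).1) := by
  have hd0 : d ≠ 0 := by simpa using hd 0
  have key : ∀ (g : symplecticGroup (Fin 2) F) e, e.trace = t → e.det = d →
      g.1.toBlocks₁₁.det = 1 → (e * g.1.toBlocks₁₁).trace = t →
      ∃ a b, IsConj (lev (comp hd)) a ∧ IsConj (lev (comp hd)) b ∧ g = a * b :=
    fun g e h2 h3 h4 h5 => by
      let A := GeneralLinearGroup.mkOfDetNeZero g.1.toBlocks₁₁ (by simp [h4])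
      let E := GeneralLinearGroup.mkOfDetNeZero e (h3 ▸ hd0)
      let E' := GeneralLinearGroup.mkOfDetNeZero eᵀ (by simpa [h3])
      obtain ⟨S, hS, S', hS', h6⟩ := exists_UL g A rfl
      have h7 : lev E' * symJ _ F = symJ _ F * lev E⁻¹ := Subtype.ext (by
        have : (E'⁻¹).1ᵀ = (E⁻¹).1 := by simp [E, E', transpose_nonsing_inv]
        simp [lev, J, fromBlocks_multiply, -coe_units_inv, this, E, E'])
      refine ⟨(symJ _ F)⁻¹ * (up S hS * lev E') * symJ _ F, lev (E * A) * up S' hS',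
        (isConj_comp hd h1 E' (by simpa [E']) (by simpa [E']) hS).trans
          (isConj_iff.mpr ⟨_, by rw [inv_inv]⟩), lev_up (E * A) hS' ▸ isConj_comp hd h1 _ h5
          (by simp [E, A, h3, h4]) _, ?_⟩
      rw [h6, mul_assoc _ (up S hS * _), mul_assoc _ (lev E'), h7, map_mul, map_inv]
      group
  obtain ⟨e₁, e₂, f₁, f₂, h2, h3⟩ := exists_frame (Sp.spForm_nondeg 2 F) (Sp.finrank_sp 2 F)
    ⟨d, hd0, h1⟩ g.1.mulVecLin fun x y => by
      simpa [Sp.spForm_B] using Sp.mem_symplecticGroup_iff.mp g.2 x y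
  obtain ⟨k, hk⟩ := exists_conj_block g h2
  suffices ∃ a b, IsConj (lev (comp hd)) a ∧ IsConj (lev (comp hd)) b ∧
      (k⁻¹ * g * k = a * b ∨ (k⁻¹ * g * k).1 = -(a * b).1) by
    obtain ⟨a, b, ha, hb, h⟩ := this
    refine ⟨k * a * k⁻¹, k * b * k⁻¹, ha.trans (isConj_iff.mpr ⟨k, rfl⟩),
      hb.trans (isConj_iff.mpr ⟨k, rfl⟩), ?_⟩
    rw [show k * a * k⁻¹ * (k * b * k⁻¹) = k * (a * b) * k⁻¹ by group,
      show g = k * (k⁻¹ * g * k) * k⁻¹ by group]
    exact h.imp (fun h => by rw [h]) fun h => by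
      rw [Submonoid.coe_mul, Submonoid.coe_mul, h]; simp
  simp only [mulVecLin_apply] at h3
  generalize k⁻¹ * g * k = g', (Sp.spForm 2 F).B f₁ (g.1 *ᵥ e₁) = a', (Sp.spForm 2 F).B f₁
    (g.1 *ᵥ e₂) = r, (Sp.spForm 2 F).B f₂ (g.1 *ᵥ e₁) = c, (Sp.spForm 2 F).B f₂ (g.1 *ᵥ e₂) = a at *
  rcases h3 with ⟨rfl, h3, h5⟩ | ⟨h3, rfl, rfl, rfl, rfl⟩
  · have h6 := right_ne_zero_of_mul_eq_one h3
    obtain rfl := eq_inv_of_mul_eq_one_left h3
    by_cases h7 : a = -1 ∧ r = 0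
    · obtain ⟨e, h8, h9, h10⟩ := exists_factor (d := d) ht one_ne_zero (fun _ => rfl) fun _ => Or.inr rfl
      have h11 : (-g'.1).toBlocks₁₁ = !![1⁻¹, 0; 0, 1] := by
        rw [show (-g'.1).toBlocks₁₁ = -g'.1.toBlocks₁₁ from rfl, hk, h7.1, h7.2]
        simp
      exact (key ⟨_, neg_mem g'.2⟩ e h8 h9 (by simp [h11]) (h11 ▸ h10)).imp fun a => .imp fun b h =>
        ⟨h.1, h.2.1, Or.inr (neg_eq_iff_eq_neg.mp (congrArg Subtype.val h.2.2))⟩
    · obtain ⟨e, h8, h9, h10⟩ := exists_factor (d := d) ht h6 h5 fun h => Or.inl fun h' => h7 ⟨h, h'⟩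
      exact (key _ e h8 h9 (by simp [hk, h6]) (hk ▸ h10)).imp fun a => .imp fun b h =>
        ⟨h.1, h.2.1, Or.inl h.2.2⟩
  open Polynomial in
  obtain ⟨a, c, h5⟩ := FiniteField.exists_root_sum_quadratic (f := X ^ 2 - C t * X + C d)
    (g := X ^ 2 + C t * X) (by compute_degree!) (by compute_degree!)
    (FiniteField.odd_card_of_char_ne_two fun h => h3 (by exact_mod_cast h ▸ ringChar.Nat.cast_ringChar (R := F)))
  exact (key _ !![a, c + t; c, t - a] (by simp) (by simp at h5 ⊢; linear_combination -h5)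
    (by simp [hk]) (by simp [hk])).imp fun a => .imp fun b h => ⟨h.1, h.2.1, Or.inl h.2.2⟩

theorem exists_irr [Fintype F] (h : 3 ≤ Fintype.card F) :
    ∃ t d : F, t ≠ 0 ∧ d ≠ 1 ∧ ∀ a : F, a ^ 2 - t * a + d ≠ 0 := by
  classical
  obtain ⟨d, h1⟩ := Fintype.exists_ne_of_one_lt_card (α := Fˣ) (by rw [Fintype.card_units]; omega) 1
  by_contra! h2
  choose f hf using fun t : Fˣ => h2 t d t.ne_zero (by simpa)
  have h3 : ∀ t, f t ≠ 0 := fun t h => by simpa [h] using hf t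
  have h4 : Function.Injective fun t => Units.mk0 _ (h3 t) := fun t t' h => Units.ext
    (mul_right_cancel₀ (h3 t) (by
      have h : f t = f t' := by simpa using h
      linear_combination hf t' - hf t + (f t + f t' - t') * h))
  obtain ⟨t, ht⟩ := Finite.injective_iff_surjective.mp h4 1
  obtain ⟨t', ht'⟩ := Finite.injective_iff_surjective.mp h4 d
  have h5 : f t = 1 := congrArg Units.val ht
  have h6 : f t' = d := congrArg Units.val ht'
  have h7 := hf t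
  have h8 := hf t'
  rw [h5] at h7
  rw [h6] at h8
  obtain rfl : t = t' := Units.ext (mul_right_cancel₀ d.ne_zero (by linear_combination h8 - d * h7))
  exact h1 (ht'.symm.trans ht)

end Mat

end CL.Thomp
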