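/-
Orbits of the general linear group on symmetric bilinear forms of rank at least two in odd
characteristic.
-/
import Mathlib
import Cfsg.Agent.KSG.LSCount

set_option autoImplicit false

namespace CL.WeilR

open Module CL.LS

variable {F W : Type*} [Field F] [AddCommGroup W] [Module F W] [FiniteDimensional F W] [Finite F]

omit [Finite F] in
theorem card_sq_le (c : F) : Nat.card {t : F // RingHom.id F t * t = c} ≤ 2 := by
  refine (card_roots_le (Polynomial.X_pow_sub_C_ne_zero two_pos c) fun t ht => ?_).trans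
    (Polynomial.natDegree_X_pow_sub_C).le
  simpa [sub_eq_zero, pow_two] using ht

theorem card_value_sub_le (b : W →ₗ[F] W →ₗ[F] F) (hs : ∀ x y, b x y = b y x) (U : Submodule F W)
    {a : F} (ha : a ≠ 0) :
    Nat.card {u : U // b u u = a} ≤ Nat.card F ^ (finrank F U - 1) * 2 :=
  card_self_eq_le (σ := RingHom.id F) (b.compl₁₂ U.subtype U.subtype)
    (fun u v h => by simpa [hs v] using h) ha card_sq_le

theorem card_value_odd_le (h2 : (2 : F) ≠ 0) (b : W →ₗ[F] W →ₗ[F] F) (hs : ∀ x y, b x y = b y x)
    {e e' : W} {a c : F} (ha : a ≠ 0) (hc : c ≠ 0) (he : b e e = a) (he' : b e' e' = c)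
    (hee : b e e' = 0) :
    Nat.card {u // b u u = a} ≤ (Nat.card F + 1) * Nat.card F ^ (finrank F W - 2) := by
  classical
  have : Finite W := Module.finite_of_finite F
  have hC : finrank F (LinearMap.ker ((a⁻¹ • b e).prod (c⁻¹ • b e'))) = finrank F W - 2 :=
    finrank_ker_two (u := e) (v := e') (by simp [he, ha]) (by simp [hee])
      (by simp [hs e' e, hee]) (by simp [he', hc])
  have hk : 2 ≤ finrank F W := by
    have := LinearMap.finrank_range_add_finrank_ker ((a⁻¹ • b e).prod (c⁻¹ • b e'))
    rw [LinearMap.range_eq_top.mpr fun y => ⟨y.1 • e + y.2 • e', by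
      ext <;> simp [he, he', hee, hs e' e, ha, hc, mul_comm]⟩] at this
    simp at this
    omega
  obtain ⟨k, hk⟩ := Nat.exists_eq_add_of_le' hk
  by_cases hz : ∃ z w, b z z = 0 ∧ b z w ≠ 0
  · obtain ⟨z, w, hz, hw⟩ := hz
    have hH : finrank F (LinearMap.ker (b z)) = k + 1 := by rw [finrank_ker_one hw, hk]; rfl
    have h1 := card_value_sub_le b hs (LinearMap.ker (b z)) ha
    rw [hH, add_tsub_cancel_right] at h1
    have h3 := Nat.card_le_card_of_injective
      (α := (F × {u // b u u = a ∧ b z u ≠ 0}) ⊕ LinearMap.ker (b z)) (β := W)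
      (Sum.elim (fun t => t.2.1 + t.1 • z) fun y => y.1) (by
        have hne : ∀ (t : F × {u // b u u = a ∧ b z u ≠ 0}) (y : LinearMap.ker (b z)),
            t.2.1 + t.1 • z ≠ y.1 := fun t y h => by
          have := congrArg (b z) h
          rw [y.2, map_add, map_smul, hz, smul_zero, add_zero] at this
          exact t.2.2.2 this
        rintro (⟨t, u⟩ | y) (⟨t', u'⟩ | y') h
        · simp only [Sum.elim_inl] at h
          have h4 : u'.1 = u.1 + (t - t') • z := by
            rw [sub_smul, ← add_sub_assoc, h, add_sub_cancel_right]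
          have h5 := u'.2.1
          rw [h4] at h5
          simp only [map_add, map_smul, LinearMap.add_apply, LinearMap.smul_apply, smul_eq_mul,
            hz, u.2.1, hs u.1 z] at h5
          have h6 : 2 * (t - t') * b z u.1 = 0 := by linear_combination h5
          have h7 : t = t' := sub_eq_zero.mp ((mul_eq_zero.mp
            ((mul_eq_zero.mp h6).resolve_right u.2.2)).resolve_left h2)
          subst h7
          rw [Subtype.ext (add_right_cancel h)]
        · exact absurd h (hne _ _)
        · exact absurd h.symm (hne _ _)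
        · exact congrArg _ (Subtype.ext h))
    have h4 := Nat.card_le_card_of_injective (α := {u // b u u = a})
      (β := {u : LinearMap.ker (b z) // b u u = a} ⊕ {u // b u u = a ∧ b z u ≠ 0})
      (fun u => if h : b z u.1 = 0 then Sum.inl ⟨⟨u.1, h⟩, u.2⟩ else Sum.inr ⟨u.1, u.2, h⟩) (by
        intro u u' h
        by_cases h5 : b z u.1 = 0 <;> by_cases h6 : b z u'.1 = 0 <;>
          simp only [h5, h6, dif_pos, dif_neg, not_false_eq_true, Sum.inl.injEq, Sum.inr.injEq,
            Subtype.mk.injEq, reduceCtorEq] at h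
        · exact Subtype.ext (Subtype.ext_iff.mp h :)
        · exact Subtype.ext h)
    rw [Nat.card_sum, Nat.card_prod, Module.natCard_eq_pow_finrank (K := F) (V := W),
      Module.natCard_eq_pow_finrank (K := F) (V := LinearMap.ker (b z)), hH, hk] at h3
    rw [Nat.card_sum] at h4
    rw [hk, add_tsub_cancel_right]
    have hq : 0 < Nat.card F := Nat.card_pos
    refine Nat.le_of_mul_le_mul_left (c := Nat.card F) ?_ hq
    have h5 := Nat.mul_le_mul_left (Nat.card F) (h4.trans (Nat.add_le_add_right h1 _))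
    simp only [pow_succ] at h3
    nlinarith
  · push Not at hz
    have hH : finrank F (LinearMap.ker (b e)) = k + 1 := by
      rw [finrank_ker_one (he ▸ ha : b e e ≠ 0), hk]; rfl
    have hp : ∀ u, b e (u - (b e u / a) • e) = 0 := fun u => by
      rw [map_sub, map_smul, he, smul_eq_mul, div_mul_cancel₀ _ ha, sub_self]
    have hv : ∀ u, b u u = a → b (u - (b e u / a) • e) (u - (b e u / a) • e) =
        a * (1 - (b e u / a) ^ 2) := fun u hu => by
      simp only [map_sub, map_smul, LinearMap.sub_apply, LinearMap.smul_apply, smul_eq_mul, hu,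
        he, hs u e]
      field_simp
      ring
    have h4 := Nat.card_le_card_of_injective (α := {u // b u u = a})
      (β := LinearMap.ker (b e) ⊕ LinearMap.ker ((a⁻¹ • b e).prod (c⁻¹ • b e')))
      (fun u => if h : 1 + b e u.1 / a = 0 then Sum.inr ⟨u.1 - (b e u.1 / a) • e, by
          have h5 := hv u.1 u.2
          rw [show 1 - (b e u.1 / a) ^ 2 = (1 + b e u.1 / a) * (1 - b e u.1 / a) by ring, h,
            zero_mul, mul_zero] at h5
          have h6 := hz _ e' h5
          refine Prod.ext ?_ ?_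
          · change a⁻¹ • b e _ = 0
            rw [hp, smul_zero]
          · change c⁻¹ • b e' _ = 0
            rw [hs e', h6, smul_zero]⟩
        else Sum.inl ⟨(1 + b e u.1 / a)⁻¹ • (u.1 - (b e u.1 / a) • e), by
          rw [LinearMap.mem_ker, map_smul, hp, smul_zero]⟩) (by
        intro u u' h
        by_cases h5 : 1 + b e u.1 / a = 0 <;> by_cases h6 : 1 + b e u'.1 / a = 0 <;>
          simp only [h5, h6, dif_pos, dif_neg, not_false_eq_true, Sum.inl.injEq, Sum.inr.injEq,
            Subtype.mk.injEq, reduceCtorEq] at h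
        · have h' := Subtype.ext_iff.mp h
          simp only at h'
          rw [show b e u.1 / a = b e u'.1 / a by linear_combination h5 - h6] at h'
          exact Subtype.ext (sub_left_injective h')
        · have h7 := congrArg (fun x => b x x) h
          simp only [map_smul, LinearMap.smul_apply, smul_eq_mul, hv _ u.2, hv _ u'.2] at h7
          have h8 : b e u.1 / a = b e u'.1 / a := by
            generalize b e u.1 / a = r at h5 h7
            generalize b e u'.1 / a = r' at h6 h7
            field_simp at h7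
            have : 2 * (r - r') * ((1 + r) * (1 + r')) = 0 := by linear_combination -h7
            exact sub_eq_zero.mp ((mul_eq_zero.mp ((mul_eq_zero.mp this).resolve_right
              (mul_ne_zero h5 h6))).resolve_left h2)
          rw [h8] at h
          exact Subtype.ext (sub_left_injective (smul_right_injective W (inv_ne_zero h6) h)))
    rw [Nat.card_sum, Module.natCard_eq_pow_finrank (K := F) (V := LinearMap.ker (b e)),
      Module.natCard_eq_pow_finrank (K := F)
        (V := LinearMap.ker ((a⁻¹ • b e).prod (c⁻¹ • b e'))), hH, hC] at h4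
    rw [hk, add_tsub_cancel_right] at h4 ⊢
    rw [pow_succ] at h4
    linarith

/-- Lower bound for a large enough family of symmetric forms of rank at least two. -/
theorem count_odd (h2 : (2 : F) ≠ 0) {Ω : Type*} [Finite Ω] (b : Ω → W →ₗ[F] W →ₗ[F] F)
    (hs : ∀ ω x y, b ω x y = b ω y x) {a c : F} (ha : a ≠ 0) (hc : c ≠ 0)
    (h : ∀ u v (l₁ l₂ : Dual F W), l₁ u = 1 → l₁ v = 0 → l₂ u = 0 → l₂ v = 1 →
      ∃ ω, b ω u = a • l₁ ∧ b ω v = c • l₂) :
    (Nat.card F ^ finrank F W - 1) * (Nat.card F ^ finrank F W - Nat.card F) ≤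
      Nat.card Ω * (2 * (Nat.card F + 1)) := by
  have : Finite W := Module.finite_of_finite F
  have : Finite (Dual F W) := Module.finite_of_finite F
  have : ∀ l : Dual F W, Finite (Dual F (LinearMap.ker l)) := fun l => Module.finite_of_finite F
  rcases lt_or_ge (finrank F W) 2 with hk | hk
  · interval_cases finrank F W <;> simp
  let T := Σ t : (Σ u : {u : W // u ≠ 0}, {l : Dual F W // l u = 1}),
    (Σ v : {v : LinearMap.ker t.2.1 // v ≠ 0}, {l : Dual F (LinearMap.ker t.2.1) // l v = 1})
  let p : ∀ (u : W) (l : Dual F W), l u = 1 → W →ₗ[F] LinearMap.ker l := fun u l hl =>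
    (LinearMap.id - l.smulRight u).codRestrict _ fun x => by simp [hl]
  have hp : ∀ u l hl (z : LinearMap.ker l), p u l hl z = z := fun u l hl z =>
    Subtype.ext (by
      change (z : W) - l z • u = z
      rw [LinearMap.mem_ker.mp z.2, zero_smul, sub_zero])
  have hp' : ∀ u l hl, p u l hl u = 0 := fun u l hl => Subtype.ext (by
    change u - l u • u = 0
    rw [hl, one_smul, sub_self])
  have key : ∀ t : T, ∃ ω, b ω t.1.1 = a • t.1.2.1 ∧
      (∀ z : LinearMap.ker t.1.2.1, b ω t.2.1.1 z = c * t.2.2.1 z) := fun t => by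
    obtain ⟨ω, h1, h2⟩ := h t.1.1 t.2.1.1 t.1.2.1 (t.2.2.1 ∘ₗ p _ _ t.1.2.2) t.1.2.2
      t.2.1.1.2 (by rw [LinearMap.comp_apply, hp' _ _ t.1.2.2, map_zero])
      (by rw [LinearMap.comp_apply, hp _ _ t.1.2.2, t.2.2.2])
    exact ⟨ω, h1, fun z => by
      rw [h2, LinearMap.smul_apply, LinearMap.comp_apply, hp _ _ t.1.2.2, smul_eq_mul]⟩
  choose ω h1 h3 using key
  have e₁ : ∀ t : T, b (ω t) t.1.1 t.1.1 = a := fun t => by
    rw [h1, LinearMap.smul_apply, t.1.2.2, smul_eq_mul, mul_one]
  have e₂ : ∀ t : T, b (ω t) t.1.1 t.2.1.1 = 0 := fun t => by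
    rw [h1, LinearMap.smul_apply, LinearMap.mem_ker.mp t.2.1.1.2, smul_zero]
  have e₃ : ∀ t : T, b (ω t) t.2.1.1 t.2.1.1 = c := fun t => by
    rw [h3, t.2.2.2, mul_one]
  have h5 := Nat.card_le_card_of_injective (α := T)
    (β := Σ ω, Σ u : {u // b ω u u = a ∧ ∃ e', b ω e' e' = c ∧ b ω u e' = 0},
      {v : LinearMap.ker (b ω u) // b ω v v = c})
    (fun t => ⟨ω t, ⟨t.1.1, e₁ t, _, e₃ t, e₂ t⟩, ⟨t.2.1.1, e₂ t⟩, e₃ t⟩) (by
      intro t t' h
      have e1 : ω t = ω t' := congrArg (fun x => x.1) h
      have e2 : t.1.1.1 = t'.1.1.1 := congrArg (fun x => x.2.1.1) h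
      have e3 : t.2.1.1.1 = t'.2.1.1.1 := congrArg (fun x => x.2.2.1.1) h
      have e4 := h1 t
      have e5 := h1 t'
      have e6 := h3 t
      have e7 := h3 t'
      rw [← e1] at e5 e7
      clear h e1
      obtain ⟨⟨⟨u, hu⟩, l, hl⟩, ⟨v, hv⟩, m, hm⟩ := t
      obtain ⟨⟨⟨u', hu'⟩, l', hl'⟩, ⟨v', hv'⟩, m', hm'⟩ := t'
      simp only at e2 e3 e4 e5 e6 e7
      subst e2
      obtain rfl : l = l' := smul_right_injective _ ha (e4.symm.trans e5)
      obtain rfl : v = v' := Subtype.ext e3
      obtain rfl : m = m' := LinearMap.ext fun x => mul_left_cancel₀ hc (by rw [← e6, ← e7])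
      rfl)
  have h6 := h5.trans (card_sigma_le (c := (Nat.card F + 1) * Nat.card F ^ (finrank F W - 2) *
    (Nat.card F ^ (finrank F W - 2) * 2)) fun ω =>
      (card_sigma_le fun u => (card_value_sub_le (b ω) (hs ω) _ hc).trans (by
        rw [finrank_ker_one (u.2.1.trans_ne ha), Nat.sub_sub])).trans
        (Nat.mul_le_mul_right _ ?_))
  · rw [card_sigma_eq (c := (Nat.card F ^ (finrank F W - 1) - 1) *
      Nat.card F ^ (finrank F W - 1 - 1)) fun t => by
        rw [card_pairs, finrank_ker_one (t.2.2.trans_ne one_ne_zero)], card_pairs] at h6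
    obtain ⟨k, hk⟩ := Nat.exists_eq_add_of_le' hk
    rw [hk] at h6 ⊢
    simp only [add_tsub_cancel_right, show k + 2 - 1 = k + 1 from rfl] at h6
    refine Nat.le_of_mul_le_mul_right (c := Nat.card F ^ k * Nat.card F ^ k) ?_
      (Nat.mul_pos (pow_pos Nat.card_pos _) (pow_pos Nat.card_pos _))
    rw [show Nat.card F ^ (k + 2) - Nat.card F = (Nat.card F ^ (k + 1) - 1) * Nat.card F by
      rw [Nat.sub_mul, one_mul, ← pow_succ]]
    refine le_trans (le_of_eq (by ring)) (h6.trans (le_of_eq (by ring)))
  · rcases isEmpty_or_nonempty {u // b ω u u = a ∧ ∃ e', b ω e' e' = c ∧ b ω u e' = 0} with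
      h0 | ⟨⟨e, he, e', he', hee⟩⟩
    · simp
    · exact (Nat.card_le_card_of_injective (fun u => (⟨u.1, u.2.1⟩ : {u // b ω u u = a}))
        fun u u' h => Subtype.ext (congrArg (fun x => x.1) h)).trans
          (card_value_odd_le h2 _ (hs ω) ha hc he he' hee)

end CL.WeilR
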