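/-
Representations of rank one of the finite symplectic groups in odd characteristic: the group
algebra acts through the even part of the Heisenberg algebra.
-/
import Mathlib
import Cfsg.Agent.KSG.LSProj
import Cfsg.Agent.KSG.LSWeil

set_option autoImplicit false

namespace CL.WeilR

open Module CL.Witt CL.Witt.Form

section Pr

variable {F : Type*} [Field F] [Fintype F] {A : Type*} [Ring A] [Algebra ℂ A]
  {ψ : AddChar F ℂ} {T : F → A}

variable (ψ T) in
/-- The projection on the weight `l` of a one-parameter family. -/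
noncomputable def pr (l : F) : A := (Fintype.card F : ℂ)⁻¹ • ∑ c, ψ (-(c * l)) • T c

theorem card_ne : (Fintype.card F : ℂ) ≠ 0 := Nat.cast_ne_zero.mpr Fintype.card_ne_zero

open Classical in
theorem sum_psi (hψ : ψ ≠ 1) (a : F) :
    ∑ c, ψ (c * a) = if a = 0 then (Fintype.card F : ℂ) else 0 := by
  split_ifs with h
  · simp [h]
  · have := CL.LS.sum_addChar_dual hψ (U := F) (l := (LinearMap.mul F F).flip a)
      fun h0 => h (by simpa using LinearMap.congr_fun h0 1)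
    simpa [mul_comm a] using this

theorem mul_pr (hT : ∀ c d, T (c + d) = T c * T d) (c l : F) :
    T c * pr ψ T l = ψ (c * l) • pr ψ T l := by
  rw [pr, mul_smul_comm, smul_comm (ψ (c * l)), Finset.mul_sum]
  congr 1
  rw [Finset.smul_sum]
  refine Fintype.sum_equiv (Equiv.addLeft c) _ _ fun d => ?_
  rw [mul_smul_comm, ← hT, smul_smul, ← AddChar.map_add_eq_mul, Equiv.coe_addLeft]
  congr 2
  ring

theorem commute_pr {S : A} (h : ∀ c, Commute S (T c)) (l : F) : Commute S (pr ψ T l) :=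
  (Commute.sum_right _ _ _ fun c _ => (h c).smul_right _).smul_right _

omit [Fintype F] [Algebra ℂ A] in
theorem commute_self (hT : ∀ c d, T (c + d) = T c * T d) (c d : F) : Commute (T c) (T d) := by
  rw [Commute, SemiconjBy, ← hT, ← hT, add_comm]

theorem pr_mul (hT : ∀ c d, T (c + d) = T c * T d) (c l : F) :
    pr ψ T l * T c = ψ (c * l) • pr ψ T l := by
  rw [← (commute_pr (commute_self hT c) l).eq, mul_pr hT]

theorem sum_pr (hψ : ψ ≠ 1) (h0 : T 0 = 1) : ∑ l, pr ψ T l = 1 := by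
  classical
  simp only [pr, ← Finset.smul_sum]
  rw [Finset.sum_comm, Finset.sum_eq_single 0]
  · simp only [zero_mul, neg_zero, AddChar.map_zero_eq_one, one_smul, h0, Finset.sum_const,
      Finset.card_univ]
    rw [← Nat.cast_smul_eq_nsmul ℂ, inv_smul_smul₀ card_ne]
  · intro c _ hc
    have := sum_psi hψ (-c)
    rw [if_neg (neg_ne_zero.mpr hc)] at this
    rw [← Finset.sum_smul, Finset.sum_congr rfl (g := fun l => ψ (l * -c)) fun l _ => by
      congr 1; ring, this, zero_smul]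
  · simp

open Classical in
theorem pr_mul_of (hψ : ψ ≠ 1) {E : A} {m : F} (h : ∀ c, T c * E = ψ (c * m) • E) (l : F) :
    pr ψ T l * E = if l = m then E else 0 := by
  rw [pr, smul_mul_assoc, Finset.sum_mul, Finset.sum_congr rfl (g := fun c => ψ (c * (m - l)) • E),
    ← Finset.sum_smul, sum_psi hψ]
  · by_cases hl : l = m
    · rw [if_pos (sub_eq_zero.mpr hl.symm), if_pos hl, inv_smul_smul₀ card_ne]
    · rw [if_neg (fun h => hl (sub_eq_zero.mp h).symm), if_neg hl, zero_smul, smul_zero]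
  · intro c _
    rw [smul_mul_assoc, h, smul_smul, ← AddChar.map_add_eq_mul]
    congr 2
    ring

open Classical in
theorem pr_mul_pr (hψ : ψ ≠ 1) (hT : ∀ c d, T (c + d) = T c * T d) (l m : F) :
    pr ψ T l * pr ψ T m = if l = m then pr ψ T m else 0 :=
  pr_mul_of hψ (fun c => mul_pr hT c m) l

theorem eq_sum_pr (hψ : ψ ≠ 1) (h0 : T 0 = 1) (hT : ∀ c d, T (c + d) = T c * T d) (c : F) :
    T c = ∑ l, ψ (c * l) • pr ψ T l := by
  rw [← mul_one (T c), ← sum_pr hψ h0, Finset.mul_sum]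
  exact Finset.sum_congr rfl fun l _ => mul_pr hT c l

theorem pr_mul_congr {T' : F → A} {E : A} (h : ∀ c, T c * E = T' c * E) (l : F) :
    pr ψ T l * E = pr ψ T' l * E := by
  simp only [pr, smul_mul_assoc, Finset.sum_mul, h]

theorem semiconj_pr {T' : F → A} {S : A} (h : ∀ c, S * T c = T' c * S) (l : F) :
    S * pr ψ T l = pr ψ T' l * S := by
  simp only [pr, smul_mul_assoc, mul_smul_comm, Finset.sum_mul, Finset.mul_sum, h]

theorem pr_scale {s : F} (hs : s ≠ 0) (l : F) :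
    pr ψ (fun c => T (s * c)) (s * l) = pr ψ T l := by
  rw [pr, pr]
  congr 1
  refine Fintype.sum_equiv (Equiv.mulLeft₀ s hs) _ _ fun c => ?_
  rw [Equiv.mulLeft₀_apply]
  congr 2
  ring

theorem eq_zero_of_mul_pr (hψ : ψ ≠ 1) (h0 : T 0 = 1) {X : A} (h : ∀ l, X * pr ψ T l = 0) :
    X = 0 := by
  rw [← mul_one X, ← sum_pr hψ h0, Finset.mul_sum]
  exact Finset.sum_eq_zero fun l _ => h l

end Pr

section Sp

variable {F : Type*} [Field F] {V : Type*} [AddCommGroup V] [Module F V]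
  {f : Form (FormType.alt F) V}

variable (f) in
/-- The Eichler elements as elements of the symplectic group. -/
noncomputable def hh (u v : V) (a : F) : f.O := ⟨f.ei u v a, ei_mem_O u v a⟩

theorem ok {u v : V} (h : f.B u v = 0) (a : F) : f.EichOK u v a :=
  ⟨f.alt_q u, h, (f.alt_q v).symm⟩

theorem hh_mul {u v v' : V} (h : f.B u v = 0) (h' : f.B u v' = 0) (a a' : F) :
    hh f u v a * hh f u v' a' = hh f u (v + v') (a + a' + f.B v v') :=
  Subtype.ext ((ok h a).ei_mul (ok h' a'))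

theorem hh_zero (u : V) : hh f u 0 0 = 1 := Subtype.ext (ei_zero u)

theorem hh_tv (u : V) (c : F) : hh f u 0 c = f.tvO u c := Subtype.ext (f.ei_zero_eq_tv u c)

theorem hh_fix {u v x : V} (h : f.B u v = 0) (a : F) (hx : f.B u x = 0) (hx' : f.B v x = 0) :
    (hh f u v a).1 x = x := (ok h a).ei_apply_fix hx hx'

theorem commute_hh {g : f.O} {u v : V} (h : f.B u v = 0) (a : F) (hu : g.1 u = u)
    (hv : g.1 v = v) : Commute g (hh f u v a) := by
  have := (ok h a).conj_ei g.2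
  rw [hu, hv] at this
  exact Subtype.ext (mul_inv_eq_iff_eq_mul.mp this)

theorem commute_tv {g : f.O} {u : V} (hu : g.1 u = u) (c : F) : Commute g (f.tvO u c) := by
  have := tvO_conj g u c
  rw [hu] at this
  exact mul_inv_eq_iff_eq_mul.mp this

theorem tv_add_eq {u v : V} (h : f.B u v = 0) (c : F) :
    f.tvO (u + v) c = hh f u (c • v) 0 * f.tvO v c * f.tvO u c := by
  have := ei_eq_tv_mul (f := f) (f.alt_q u) (f.alt_q v) h (a := c) rfl
  simp only [FormType.alt_ε, neg_mul, one_mul, neg_neg, f.ei_zero_eq_tv] at this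
  refine Subtype.ext ?_
  change f.tv (u + v) c = f.ei u (c • v) 0 * f.tv v c * f.tv u c
  rw [this]
  group

variable {A : Type*} [Ring A] [Algebra ℂ A] (ρ : f.O →* A)

/-- The transvections with a given centre. -/
noncomputable def tt (u : V) (c : F) : A := ρ (f.tvO u c)

/-- The short root elements attached to an orthogonal pair. -/
noncomputable def ss (e u : V) (c : F) : A := ρ (hh f e (c • u) 0)

omit [Algebra ℂ A] in
theorem tt_zero (u : V) : tt ρ u 0 = 1 := by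
  rw [tt, ← hh_tv, hh_zero, map_one]

omit [Algebra ℂ A] in
theorem tt_add (u : V) (c d : F) : tt ρ u (c + d) = tt ρ u c * tt ρ u d := by
  rw [tt, tt, tt, ← map_mul, tvO_mul]

omit [Algebra ℂ A] in
theorem ss_zero (e u : V) : ss ρ e u 0 = 1 := by
  rw [ss, zero_smul, hh_zero, map_one]

omit [Algebra ℂ A] in
theorem ss_add {e u : V} (h : f.B e u = 0) (c d : F) :
    ss ρ e u (c + d) = ss ρ e u c * ss ρ e u d := by
  rw [ss, ss, ss, ← map_mul, hh_mul (by simp [h]) (by simp [h]), add_smul]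
  simp [f.alt_B_self]

omit [Algebra ℂ A] in
theorem tt_smul (u : V) (s c : F) : tt ρ (s • u) c = tt ρ u (s ^ 2 * c) :=
  congrArg ρ (Subtype.ext (f.tv_smul u s c))

omit [Algebra ℂ A] in
theorem mul_tt (g : f.O) (u : V) (c : F) : ρ g * tt ρ u c = tt ρ (g.1 u) c * ρ g := by
  rw [tt, tt, ← map_mul, ← map_mul, ← tvO_conj, inv_mul_cancel_right]

omit [Algebra ℂ A] in
theorem commute_tt {u v : V} (h : f.B u v = 0) (c d : F) : Commute (tt ρ u c) (tt ρ v d) :=
  (commute_tv (f.tv_apply_of_B_eq_zero c h) d).map ρ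

omit [Algebra ℂ A] in
theorem commute_hh_tt {e u x : V} (h : f.B e u = 0) (hx : f.B e x = 0) (hx' : f.B u x = 0)
    (a d : F) : Commute (ρ (hh f e u a)) (tt ρ x d) :=
  (commute_tv (hh_fix h a hx hx') d).map ρ

variable [Fintype F] (ψ : AddChar F ℂ)

/-- The weight projections of the transvection groups. -/
noncomputable def P (u : V) (l : F) : A := pr ψ (tt ρ u) l

/-- All weights of the Siegel radical have rank at most one. -/
def R1 : Prop := ∀ e u, f.B e u = 0 → ∀ l m n : F, n ^ 2 ≠ 4 * l * m →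
  P ρ ψ e l * P ρ ψ u m * pr ψ (ss ρ e u) n = 0

omit [Fintype F] [Algebra ℂ A] in
/-- There are no fixed points. -/
def NF : Prop := ∀ X : A, (∀ g, X * ρ g = X) → X = 0

/-- The weights of the transvection groups lie in a fixed square class. -/
def Ty (a : F) : Prop := ∀ u l, (¬ ∃ x, l = a * x ^ 2) → P ρ ψ u l = 0

/-- The even part of the Heisenberg operators. -/
noncomputable def C (a : F) (u : V) : A := P ρ ψ u 0 + ∑ x, ψ (2 * x) • P ρ ψ u (a * x ^ 2)

variable {ρ ψ}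

theorem commute_P {S : A} {u : V} (h : ∀ c, Commute S (tt ρ u c)) (l : F) :
    Commute S (P ρ ψ u l) := commute_pr h l

theorem commute_P_P {u v : V} (h : f.B u v = 0) (l m : F) : Commute (P ρ ψ u l) (P ρ ψ v m) :=
  commute_P (fun c => (commute_P (fun d => (commute_tt ρ h d c).symm) l).symm) m

theorem commute_C {S : A} {u : V} (h : ∀ c, Commute S (tt ρ u c)) (a : F) :
    Commute S (C ρ ψ a u) :=
  (commute_P h 0).add_right (Commute.sum_right _ _ _ fun _ _ => (commute_P h _).smul_right _)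

theorem mul_P (g : f.O) (u : V) (l : F) : ρ g * P ρ ψ u l = P ρ ψ (g.1 u) l * ρ g :=
  semiconj_pr (mul_tt ρ g u) l

theorem mul_C (g : f.O) (a : F) (u : V) : ρ g * C ρ ψ a u = C ρ ψ a (g.1 u) * ρ g := by
  simp only [C, mul_add, add_mul, Finset.mul_sum, Finset.sum_mul, mul_smul_comm, smul_mul_assoc,
    mul_P]

theorem C_neg (a : F) (u : V) : C ρ ψ a (-u) = C ρ ψ a u := by
  have : tt ρ (-u) = tt ρ u := funext fun c => by
    rw [← neg_one_smul F u, tt_smul]; simp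
  simp only [C, P, this]

theorem P_decomp (hψ : ψ ≠ 1) (e u : V) (l : F) :
    P ρ ψ e l = ∑ m, ∑ n, P ρ ψ e l * P ρ ψ u m * pr ψ (ss ρ e u) n := by
  simp only [← Finset.mul_sum, sum_pr hψ (ss_zero ρ e u), mul_one, P,
    sum_pr hψ (tt_zero ρ u)]

theorem P_zero_mul_hh (hψ : ψ ≠ 1) (h1 : R1 ρ ψ) {e w : V} (h : f.B e w = 0) (a : F) :
    P ρ ψ e 0 * ρ (hh f e w a) = P ρ ψ e 0 := by
  have h2 : hh f e w a = hh f e ((1 : F) • w) 0 * f.tvO e a := by
    rw [← hh_tv, hh_mul (by simpa using h) (by simp)]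
    simp
  have h3 : P ρ ψ e 0 * ss ρ e w 1 = P ρ ψ e 0 := by
    conv_lhs => rw [P_decomp hψ e w 0]
    conv_rhs => rw [P_decomp hψ e w 0]
    rw [Finset.sum_mul]
    refine Finset.sum_congr rfl fun m _ => ?_
    rw [Finset.sum_mul]
    refine Finset.sum_congr rfl fun n _ => ?_
    by_cases hn : n = 0
    · rw [mul_assoc _ _ (ss ρ e w 1), pr_mul (ss_add ρ h), hn]
      simp
    · rw [h1 e w h 0 m n (by simpa using hn), zero_mul]
  rw [h2, map_mul, ← mul_assoc, ← ss, h3, ← tt, P, pr_mul (tt_add ρ e)]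
  simp

variable [FiniteDimensional F V]

theorem eq_zero_of_pair (hf : f.Nondeg) (hψ : ψ ≠ 1) (h1 : R1 ρ ψ) (h2 : NF ρ) {e e' : V}
    (hee : f.B e e' ≠ 0) {X : A} (he : ∀ l, l ≠ 0 → X * P ρ ψ e l = 0)
    (he' : ∀ l, l ≠ 0 → X * P ρ ψ e' l = 0) : X = 0 := by
  classical
  let H : Subgroup f.O :=
    { carrier := {g | X * ρ g = X}
      mul_mem' := fun {a b} ha hb => by
        change X * ρ (a * b) = X
        rw [map_mul, ← mul_assoc, ha, hb]
      one_mem' := by simp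
      inv_mem' := fun {a} ha => by
        change X * ρ a⁻¹ = X
        conv_lhs => rw [← show X * ρ a = X from ha]
        rw [mul_assoc, ← map_mul, mul_inv_cancel, map_one, mul_one] }
  have key : ∀ e, (∀ l, l ≠ 0 → X * P ρ ψ e l = 0) → f.U e ≤ H.map f.O.subtype := fun e he => by
    have h3 : X * P ρ ψ e 0 = X := by
      conv_rhs => rw [← mul_one X, ← sum_pr hψ (tt_zero ρ e), Finset.mul_sum]
      exact (Finset.sum_eq_single (f := fun l => X * pr ψ (tt ρ e) l) 0 (fun l _ hl => he l hl)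
        (by simp)).symm
    refine U_le_iff.mpr fun v a h => ⟨hh f e v a, ?_, rfl⟩
    change X * ρ (hh f e v a) = X
    rw [← h3, mul_assoc, P_zero_mul_hh hψ h1 h.huv]
  have h4 := hf.E_le_of_B_ne (f.alt_q e) (f.alt_q e') hee (key e he) (key e' he')
  rw [hf.E_eq_O_alt] at h4
  refine h2 X fun g => ?_
  obtain ⟨g', hg', h⟩ := h4 g.2
  exact (Subtype.ext h : g' = g) ▸ hg'

omit [Fintype F] in
theorem exists_pair_perp (hf : f.Nondeg) (h4 : 4 ≤ finrank F V) {u v : V} (h : f.B u v ≠ 0) :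
    ∃ e e', f.B e e' ≠ 0 ∧ f.B e u = 0 ∧ f.B e v = 0 ∧ f.B e' u = 0 ∧ f.B e' v = 0 := by
  have h1 : f.B u ((f.B u v)⁻¹ • v) = 1 := by rw [f.B_smul_right, inv_mul_cancel₀ h]
  have h2 := f.isCompl_perp_pair (f.alt_q u) (f.alt_q _) h1
  have h3 := hf.finrank_perp (Submodule.span F {u, (f.B u v)⁻¹ • v})
  rw [f.finrank_span_pair (f.alt_q u) (f.alt_q _) h1] at h3
  obtain ⟨x, hx, hx0⟩ := (Submodule.ne_bot_iff (f.perp (Submodule.span F {u, (f.B u v)⁻¹ • v}))).mp
    (fun h0 => by rw [h0, finrank_bot] at h3; omega)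
  obtain ⟨y, hy, hyx⟩ := hf.exists_B_ne_zero_perp h2.disjoint x hx hx0
  have key : ∀ z ∈ f.perp (Submodule.span F {u, (f.B u v)⁻¹ • v}), f.B z u = 0 ∧ f.B z v = 0 :=
    fun z hz => by
      obtain ⟨h5, h6⟩ := (f.mem_perp_span_pair).mp hz
      rw [f.B_smul_left] at h6
      exact ⟨f.B_eq_zero_symm h5, f.B_eq_zero_symm ((mul_eq_zero.mp h6).resolve_left
        (inv_ne_zero h))⟩
  exact ⟨y, x, hyx, (key y hy).1, (key y hy).2, (key x hx).1, (key x hx).2⟩

omit [FiniteDimensional F V] in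
theorem P_mul_P (hψ : ψ ≠ 1) (h1 : R1 ρ ψ) {e u : V} (h : f.B e u = 0) {l m : F}
    (hlm : ¬ IsSquare (4 * l * m)) : P ρ ψ e l * P ρ ψ u m = 0 :=
  eq_zero_of_mul_pr hψ (ss_zero ρ e u) fun n =>
    h1 e u h l m n fun hn => hlm ⟨n, by rw [← hn, pow_two]⟩

/-- Weights from different square classes do not occur together. -/
theorem P_mul_P_of_not_isSquare (hf : f.Nondeg) (h4 : 4 ≤ finrank F V) (hψ : ψ ≠ 1)
    (h1 : R1 ρ ψ) (h2 : NF ρ) (h2' : (2 : F) ≠ 0) (u v : V) {l m : F}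
    (hlm : ¬ IsSquare (l * m)) : P ρ ψ u l * P ρ ψ v m = 0 := by
  have h4' : ∀ a b : F, IsSquare (4 * a * b) → IsSquare (a * b) := fun a b ⟨r, hr⟩ =>
    ⟨r / 2, by field_simp; linear_combination hr⟩
  by_cases huv : f.B u v = 0
  · exact P_mul_P hψ h1 huv fun h => hlm (h4' _ _ h)
  obtain ⟨e, e', hee, a₁, a₂, a₃, a₄⟩ := exists_pair_perp hf h4 huv
  have key : ∀ e, f.B e u = 0 → f.B e v = 0 → ∀ k, k ≠ 0 →
      P ρ ψ u l * P ρ ψ v m * P ρ ψ e k = 0 := fun e b₁ b₂ k hk => by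
    by_cases hm : IsSquare (4 * k * m)
    · have hl : ¬ IsSquare (4 * k * l) := fun hl => hlm (by
        obtain ⟨r, hr⟩ := h4' _ _ hm
        obtain ⟨s, hs⟩ := h4' _ _ hl
        exact ⟨r * s / k, by field_simp; linear_combination (k * m) * hs + (s * s) * hr⟩)
      rw [mul_assoc, ← (commute_P_P b₂ k m).eq, ← mul_assoc, ← (commute_P_P b₁ k l).eq,
        P_mul_P hψ h1 b₁ hl, zero_mul]
    · rw [mul_assoc, ← (commute_P_P b₂ k m).eq, P_mul_P hψ h1 b₂ hm, mul_zero]
  exact eq_zero_of_pair hf hψ h1 h2 hee (key e a₁ a₂) (key e' a₃ a₄)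

omit [FiniteDimensional F V] in
theorem C_mul_P_self (hψ : ψ ≠ 1) (h2 : (2 : F) ≠ 0) {a : F} (ha : a ≠ 0) (u : V) (x : F) :
    C ρ ψ a u * P ρ ψ u (a * x ^ 2) = (ψ (2 * x) + ψ (-(2 * x))) • P ρ ψ u (a * x ^ 2) := by
  classical
  simp only [C, add_mul, Finset.sum_mul, smul_mul_assoc, P, pr_mul_pr hψ (tt_add ρ u)]
  by_cases hx : x = 0
  · subst hx
    rw [Finset.sum_eq_single 0 (fun y _ hy => by
      rw [if_neg (by simpa [ha] using hy), smul_zero]) (by simp)]
    simp [add_smul]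
  · rw [if_neg (by simp [ha, hx]), zero_add, Finset.sum_eq_add x (-x) (fun h => hx (by
      have : 2 * x = 0 := by linear_combination h
      exact (mul_eq_zero.mp this).resolve_left h2)) (fun y _ hy => by
        rw [if_neg, smul_zero]
        intro h
        have := mul_left_cancel₀ ha h
        rcases sq_eq_sq_iff_eq_or_eq_neg.mp this with h | h
        exacts [hy.1 h, hy.2 h]) (by simp) (by simp)]
    simp [add_smul]

omit [FiniteDimensional F V] in
theorem C_mul_P (hψ : ψ ≠ 1) (h2 : (2 : F) ≠ 0) (h1 : R1 ρ ψ) {a : F} (ha : a ≠ 0)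
    (h3 : Ty ρ ψ a) {e u : V} (h : f.B e u = 0) {y : F} (hy : y ≠ 0) :
    C ρ ψ a u * P ρ ψ e (a * y ^ 2) =
      (ss ρ e u (a * y)⁻¹ + ss ρ e u (-(a * y)⁻¹)) * P ρ ψ e (a * y ^ 2) := by
  rw [P_decomp hψ e u, Finset.mul_sum, Finset.mul_sum]
  refine Finset.sum_congr rfl fun m _ => ?_
  rw [Finset.mul_sum, Finset.mul_sum]
  refine Finset.sum_congr rfl fun n _ => ?_
  by_cases hm : ∃ x, m = a * x ^ 2
  swap
  · simp [h3 u m hm]
  obtain ⟨x, rfl⟩ := hm
  by_cases hn : n ^ 2 = 4 * (a * y ^ 2) * (a * x ^ 2)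
  swap
  · simp [h1 e u h _ _ n hn]
  have hs : ∀ c, ss ρ e u c * (P ρ ψ e (a * y ^ 2) * P ρ ψ u (a * x ^ 2) * pr ψ (ss ρ e u) n) =
      ψ (c * n) • (P ρ ψ e (a * y ^ 2) * P ρ ψ u (a * x ^ 2) * pr ψ (ss ρ e u) n) := fun c => by
    have c₁ : Commute (ss ρ e u c) (P ρ ψ e (a * y ^ 2)) := commute_P (fun d =>
      commute_hh_tt ρ (by simp [h]) (f.alt_B_self e) (by simp [f.B_eq_zero_symm h]) 0 d) _
    have c₂ : Commute (ss ρ e u c) (P ρ ψ u (a * x ^ 2)) := commute_P (fun d =>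
      commute_hh_tt ρ (by simp [h]) h (by simp [f.alt_B_self]) 0 d) _
    rw [← mul_assoc, (c₁.mul_right c₂).eq, mul_assoc, mul_pr (ss_add ρ h), mul_smul_comm]
  have c₃ : Commute (P ρ ψ e (a * y ^ 2)) (C ρ ψ a u) :=
    commute_C (fun c => (commute_P (fun d => (commute_tt ρ h d c).symm) _).symm) a
  rw [add_mul, hs, hs, ← add_smul, ← mul_assoc, ← mul_assoc, ← c₃.eq, mul_assoc _ (C ρ ψ a u),
    C_mul_P_self hψ h2 ha, mul_smul_comm, smul_mul_assoc]
  congr 1
  have : n ^ 2 = (2 * x * (a * y)) ^ 2 := by rw [hn]; ring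
  rcases sq_eq_sq_iff_eq_or_eq_neg.mp this with h | h
  · rw [h]
    congr 2 <;> field_simp
  · rw [h, add_comm]
    congr 2 <;> field_simp

omit [FiniteDimensional F V] in
theorem rel_mul_P (hψ : ψ ≠ 1) (h2 : (2 : F) ≠ 0) (h1 : R1 ρ ψ) {a : F} (ha : a ≠ 0)
    (h3 : Ty ρ ψ a) {e u v : V} (hu : f.B e u = 0) (hv : f.B e v = 0) {l : F} (hl : l ≠ 0) :
    (C ρ ψ a u * C ρ ψ a v - (ψ (f.B u v / a) • C ρ ψ a (u + v) +
      ψ (-(f.B u v / a)) • C ρ ψ a (u - v))) * P ρ ψ e l = 0 := by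
  by_cases hm : ∃ x, l = a * x ^ 2
  swap
  · simp [h3 e l hm]
  obtain ⟨y, rfl⟩ := hm
  have hy : y ≠ 0 := by rintro rfl; simp at hl
  set s := (a * y)⁻¹ with hs
  have c₁ : ∀ w, f.B e w = 0 → Commute (ρ (hh f e w 0)) (P ρ ψ e (a * y ^ 2)) := fun w hw =>
    commute_P (fun d => commute_hh_tt ρ hw (f.alt_B_self e) (f.B_eq_zero_symm hw) 0 d) _
  have key : ∀ c d : F, ss ρ e u c * (ss ρ e v d * P ρ ψ e (a * y ^ 2)) =
      ψ (c * d * f.B u v * (a * y ^ 2)) •
        (ρ (hh f e (c • u + d • v) 0) * P ρ ψ e (a * y ^ 2)) := fun c d => by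
    have h5 : hh f e (c • u) 0 * hh f e (d • v) 0 =
        hh f e (c • u + d • v) 0 * f.tvO e (c * d * f.B u v) := by
      rw [← hh_tv, hh_mul (by simp [hu]) (by simp [hv]), hh_mul (by simp [hu, hv]) (by simp)]
      simp [FormType.alt_σ, mul_left_comm, mul_assoc]
    rw [← mul_assoc, ss, ss, ← map_mul, h5, map_mul, mul_assoc, ← tt, P, mul_pr (tt_add ρ e),
      mul_smul_comm]
  have hvP := C_mul_P hψ h2 h1 ha h3 hv hy
  have huP := C_mul_P hψ h2 h1 ha h3 hu hy
  have h6 := C_mul_P hψ h2 h1 ha h3 (e := e) (u := u + v) (by simp [hu, hv]) hy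
  have h7 := C_mul_P hψ h2 h1 ha h3 (e := e) (u := u - v) (by simp [hu, hv]) hy
  rw [← hs] at hvP huP h6 h7
  have c₂ : Commute (ss ρ e v s + ss ρ e v (-s)) (P ρ ψ e (a * y ^ 2)) :=
    (c₁ _ (by simp [hv])).add_left (c₁ _ (by simp [hv]))
  rw [sub_mul, add_mul, smul_mul_assoc, smul_mul_assoc, h6, h7, mul_assoc, hvP, c₂.eq,
    ← mul_assoc, huP, mul_assoc, ← c₂.eq]
  simp only [add_mul, mul_add, key, smul_add]
  have e₁ : s * s * f.B u v * (a * y ^ 2) = f.B u v / a := by rw [hs]; field_simp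
  have e₂ : s * -s * f.B u v * (a * y ^ 2) = -(f.B u v / a) := by rw [← e₁]; ring
  have e₃ : -s * s * f.B u v * (a * y ^ 2) = -(f.B u v / a) := by rw [← e₁]; ring
  have e₄ : -s * -s * f.B u v * (a * y ^ 2) = f.B u v / a := by rw [← e₁]; ring
  rw [e₁, e₂, e₃, e₄]
  simp only [ss]
  rw [show s • u + s • v = s • (u + v) by module, show s • u + -s • v = s • (u - v) by module,
    show -s • u + s • v = -s • (u - v) by module, show -s • u + -s • v = -s • (u + v) by module]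
  abel

/-- The multiplication rule of the even Heisenberg operators. -/
theorem C_mul_C (hf : f.Nondeg) (h4 : 4 ≤ finrank F V) (hψ : ψ ≠ 1) (h2 : (2 : F) ≠ 0)
    (h1 : R1 ρ ψ) (h0 : NF ρ) {a : F} (ha : a ≠ 0) (h3 : Ty ρ ψ a) (u v : V) :
    C ρ ψ a u * C ρ ψ a v = ψ (f.B u v / a) • C ρ ψ a (u + v) +
      ψ (-(f.B u v / a)) • C ρ ψ a (u - v) := by
  rw [← sub_eq_zero]
  by_cases huv : f.B u v = 0
  swap
  · obtain ⟨e, e', hee, a₁, a₂, a₃, a₄⟩ := exists_pair_perp hf h4 huv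
    exact eq_zero_of_pair hf hψ h1 h0 hee (fun l hl => rel_mul_P hψ h2 h1 ha h3 a₁ a₂ hl)
      fun l hl => rel_mul_P hψ h2 h1 ha h3 a₃ a₄ hl
  refine eq_zero_of_mul_pr hψ (tt_zero ρ u) fun l => ?_
  by_cases hl : l = 0
  swap
  · exact rel_mul_P hψ h2 h1 ha h3 (f.alt_B_self u) huv hl
  subst hl
  have key : ∀ v, f.B u v = 0 → C ρ ψ a (u + v) * P ρ ψ u 0 = C ρ ψ a v * P ρ ψ u 0 :=
    fun v huv => by
    have h5 : ∀ c, tt ρ (u + v) c * P ρ ψ u 0 = tt ρ v c * P ρ ψ u 0 := fun c => by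
      have h6 : f.B u (c • v) = 0 := by simp [huv]
      have c₁ : Commute (ρ (hh f u (c • v) 0)) (P ρ ψ u 0) :=
        commute_P (fun d => commute_hh_tt ρ h6 (f.alt_B_self u) (f.B_eq_zero_symm h6) 0 d) _
      have c₂ : Commute (ρ (hh f u (c • v) 0)) (tt ρ v c) :=
        commute_hh_tt ρ h6 huv (by simp [f.alt_B_self]) 0 c
      rw [tt, tv_add_eq huv, map_mul, map_mul, ← tt, ← tt, mul_assoc, P, mul_pr (tt_add ρ u), ← P,
        mul_zero, AddChar.map_zero_eq_one, one_smul, c₂.eq, mul_assoc, c₁.eq,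
        P_zero_mul_hh hψ h1 h6]
    simp only [C, add_mul, Finset.sum_mul, smul_mul_assoc]
    simp only [P] at h5 ⊢
    simp only [pr_mul_congr h5]
  have c₃ : Commute (P ρ ψ u 0) (C ρ ψ a v) :=
    commute_C (fun c => (commute_P (fun d => (commute_tt ρ huv d c).symm) _).symm) a
  have h8 := C_mul_P_self (ρ := ρ) hψ h2 ha u 0
  simp only [ne_eq, OfNat.ofNat_ne_zero, not_false_eq_true, zero_pow, mul_zero, neg_zero,
    AddChar.map_zero_eq_one] at h8
  rw [← P, sub_mul, add_mul, smul_mul_assoc, smul_mul_assoc, key v huv, sub_eq_add_neg u,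
    key (-v) (by simp [huv]), C_neg, mul_assoc, ← c₃.eq, ← mul_assoc, h8, huv]
  simp [add_smul, add_mul]

omit [FiniteDimensional F V] in
theorem C_smul (hψ : ψ ≠ 1) (h2 : (2 : F) ≠ 0) {a : F} (ha : a ≠ 0) (h3 : Ty ρ ψ a) (s : F)
    (u : V) : C ρ ψ a (s • u) = P ρ ψ u 0 + ∑ x, ψ (2 * s * x) • P ρ ψ u (a * x ^ 2) := by
  by_cases hs : s = 0
  · subst hs
    have h4 : ∀ w : V, C ρ ψ a (0 : V) * P ρ ψ w 0 = (2 : ℂ) • P ρ ψ w 0 ∧ ∀ x,
        C ρ ψ a (0 : V) * P ρ ψ w (a * x ^ 2) = (2 : ℂ) • P ρ ψ w (a * x ^ 2) := fun w => by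
      have h5 : P ρ ψ (0 : V) 0 = 1 := by
        have := pr_mul_of (T := tt ρ (0 : V)) (E := 1) (m := 0) hψ (fun c => by
          rw [tt, show f.tvO 0 c = 1 from Subtype.ext (f.tv_zero_left c)]; simp) 0
        simpa [P] using this
      have h6 := C_mul_P_self (ρ := ρ) hψ h2 ha (0 : V) 0
      simp only [ne_eq, OfNat.ofNat_ne_zero, not_false_eq_true, zero_pow, mul_zero, neg_zero,
        AddChar.map_zero_eq_one, h5, mul_one, one_add_one_eq_two] at h6
      simp [h6]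
    rw [← sub_eq_zero]
    refine eq_zero_of_mul_pr hψ (tt_zero ρ u) fun l => ?_
    by_cases hm : ∃ x, l = a * x ^ 2
    swap
    · rw [← P, h3 u l hm, mul_zero]
    obtain ⟨x, rfl⟩ := hm
    classical
    rw [← P, sub_mul, zero_smul, (h4 u).2 x, sub_eq_zero]
    simp only [add_mul, Finset.sum_mul, mul_zero, zero_mul, AddChar.map_zero_eq_one, one_smul, P,
      pr_mul_pr hψ (tt_add ρ u)]
    by_cases hx : x = 0
    · subst hx
      rw [Finset.sum_eq_single 0 (fun y _ hy => if_neg (by simpa [ha] using hy)) (by simp)]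
      simp [two_smul]
    · rw [if_neg (by simp [ha, hx]), zero_add, Finset.sum_eq_add x (-x) (fun h => hx (by
        have : 2 * x = 0 := by linear_combination h
        exact (mul_eq_zero.mp this).resolve_left h2)) (fun y _ hy => by
          rw [if_neg]
          intro h
          have := mul_left_cancel₀ ha h
          rcases sq_eq_sq_iff_eq_or_eq_neg.mp this with h | h
          exacts [hy.1 h, hy.2 h]) (by simp) (by simp)]
      simp [two_smul]
  · have h4 : ∀ l, P ρ ψ (s • u) (s ^ 2 * l) = P ρ ψ u l := fun l => by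
      rw [P, show tt ρ (s • u) = fun c => tt ρ u (s ^ 2 * c) from funext (tt_smul ρ u s),
        pr_scale (pow_ne_zero 2 hs), P]
    rw [C, ← h4 0, mul_zero]
    congr 1
    refine (Fintype.sum_equiv (Equiv.mulLeft₀ s hs) _ _ fun x => ?_).symm
    rw [Equiv.mulLeft₀_apply, ← h4, mul_assoc 2]
    congr 2
    ring

omit [FiniteDimensional F V] in
theorem tt_eq_sum (hψ : ψ ≠ 1) (h2 : (2 : F) ≠ 0) {a : F} (ha : a ≠ 0) (h3 : Ty ρ ψ a) (u : V)
    (c : F) : tt ρ u c = ∑ s, ((2 * Fintype.card F : ℂ)⁻¹ *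
      ∑ y, ψ (c * (a * y ^ 2)) * ψ (-(2 * s * y))) • C ρ ψ a (s • u) := by
  classical
  have key : ∀ x, ∑ s, ((2 * Fintype.card F : ℂ)⁻¹ *
      ∑ y, ψ (c * (a * y ^ 2)) * ψ (-(2 * s * y))) * ψ (2 * s * x) =
        2⁻¹ * ψ (c * (a * x ^ 2)) := fun x => by
    simp only [mul_assoc ((2 * Fintype.card F : ℂ)⁻¹), ← Finset.mul_sum, Finset.sum_mul]
    rw [Finset.sum_comm, Finset.sum_congr rfl (g := fun y => ψ (c * (a * y ^ 2)) *
      if 2 * (x - y) = 0 then (Fintype.card F : ℂ) else 0) fun y _ => by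
        rw [← sum_psi hψ, Finset.mul_sum]
        refine Finset.sum_congr rfl fun s _ => ?_
        rw [mul_assoc, ← AddChar.map_add_eq_mul]
        congr 2
        ring, Finset.sum_eq_single x (fun y _ hy => by
          rw [if_neg (mul_ne_zero h2 (sub_ne_zero.mpr hy.symm)), mul_zero]) (by simp)]
    have := card_ne (F := F)
    simp only [sub_self, mul_zero, if_true]
    field_simp
  simp only [C_smul hψ h2 ha h3, smul_add, Finset.smul_sum, smul_smul, Finset.sum_add_distrib]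
  rw [Finset.sum_comm, ← Finset.sum_smul]
  simp only [← Finset.sum_smul, key]
  have k0 := key 0
  simp only [mul_zero, AddChar.map_zero_eq_one, mul_one, ne_eq, OfNat.ofNat_ne_zero,
    not_false_eq_true, zero_pow] at k0
  rw [k0, ← sub_eq_zero]
  refine eq_zero_of_mul_pr hψ (tt_zero ρ u) fun l => ?_
  by_cases hm : ∃ x, l = a * x ^ 2
  swap
  · rw [← P, h3 u l hm, mul_zero]
  obtain ⟨x, rfl⟩ := hm
  rw [sub_mul, mul_pr (tt_add ρ u), sub_eq_zero]
  simp only [add_mul, Finset.sum_mul, smul_mul_assoc, P, pr_mul_pr hψ (tt_add ρ u)]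
  by_cases hx : x = 0
  · subst hx
    rw [Finset.sum_eq_single 0 (fun y _ hy => by
      rw [if_neg (by simpa [ha] using hy), smul_zero]) (by simp)]
    simp [← add_smul]
    norm_num
  · rw [if_neg (by simp [ha, hx]), smul_zero, zero_add, Finset.sum_eq_add x (-x) (fun h => hx (by
      have : 2 * x = 0 := by linear_combination h
      exact (mul_eq_zero.mp this).resolve_left h2)) (fun y _ hy => by
        rw [if_neg, smul_zero]
        intro h
        have := mul_left_cancel₀ ha h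
        rcases sq_eq_sq_iff_eq_or_eq_neg.mp this with h | h
        exacts [hy.1 h, hy.2 h]) (by simp) (by simp)]
    simp only [if_true, even_two, Even.neg_pow, ← add_smul]
    congr 1
    ring

omit [FiniteDimensional F V] in
theorem exists_collect [Fintype V] (a : F) {ι : Type*} [Fintype ι] (d : ι → ℂ) (w : ι → V) :
    ∃ c : V → ℂ, ∀ (A : Type) [Ring A] [Algebra ℂ A] (ρ : f.O →* A),
      ∑ i, d i • C ρ ψ a (w i) = ∑ v, c v • C ρ ψ a v := by
  classical
  refine ⟨fun v => ∑ i, if w i = v then d i else 0, fun A _ _ ρ => ?_⟩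
  simp only [Finset.sum_smul, ite_smul, zero_smul]
  rw [Finset.sum_comm]
  simp

/-- The image of the group lies in the span of the even Heisenberg operators, with universal
coefficients. -/
theorem exists_coeff [Fintype V] (hf : f.Nondeg) (h4 : 4 ≤ finrank F V) (hψ : ψ ≠ 1)
    (h2 : (2 : F) ≠ 0) {a : F} (ha : a ≠ 0) (g : f.O) : ∃ c : V → ℂ,
      ∀ (A : Type) [Ring A] [Algebra ℂ A] (ρ : f.O →* A), R1 ρ ψ → NF ρ → Ty ρ ψ a →
        ρ g = ∑ v, c v • C ρ ψ a v := by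
  classical
  have htv : ∀ u c, ∃ d : V → ℂ,
      ∀ (A : Type) [Ring A] [Algebra ℂ A] (ρ : f.O →* A), R1 ρ ψ → NF ρ → Ty ρ ψ a →
        ρ (f.tvO u c) = ∑ v, d v • C ρ ψ a v := fun u c => by
    obtain ⟨d, hd⟩ := exists_collect (f := f) (ψ := ψ) a (fun s : F => (2 * Fintype.card F : ℂ)⁻¹ *
      ∑ y, ψ (c * (a * y ^ 2)) * ψ (-(2 * s * y))) fun s => s • u
    refine ⟨d, fun A _ _ ρ _ _ h3 => ?_⟩
    rw [← hd, ← tt, tt_eq_sum hψ h2 ha h3]
  have hg : g ∈ Subgroup.closure {g : f.O | ∃ u c, g = f.tvO u c} := by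
    rw [hf.eq_top_of_tvO (N := Subgroup.closure {g : f.O | ∃ u c, g = f.tvO u c})
      fun u c => Subgroup.subset_closure ⟨u, c, rfl⟩]
    trivial
  induction hg using Subgroup.closure_induction'' with
  | one =>
    obtain ⟨d, hd⟩ := htv 0 0
    exact ⟨d, by rwa [show f.tvO 0 0 = 1 from Subtype.ext (f.tv_zero 0)] at hd⟩
  | mem x hx =>
    obtain ⟨u, c, rfl⟩ := hx
    exact htv u c
  | inv_mem x hx =>
    obtain ⟨u, c, rfl⟩ := hx
    rw [show (f.tvO u c)⁻¹ = f.tvO u (-c) from Subtype.ext (f.tv_inv u c)]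
    exact htv u (-c)
  | mul x y _ _ hx hy =>
    obtain ⟨c, hc⟩ := hx
    obtain ⟨d, hd⟩ := hy
    obtain ⟨e, he⟩ := exists_collect (f := f) (ψ := ψ) a (ι := (V × V) ⊕ (V × V))
      (Sum.elim (fun p => c p.1 * d p.2 * ψ (f.B p.1 p.2 / a))
        (fun p => c p.1 * d p.2 * ψ (-(f.B p.1 p.2 / a))))
      (Sum.elim (fun p => p.1 + p.2) (fun p => p.1 - p.2))
    refine ⟨e, fun A _ _ ρ h1 h0 h3 => ?_⟩
    rw [← he, map_mul, hc A ρ h1 h0 h3, hd A ρ h1 h0 h3, Finset.sum_mul_sum,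
      Fintype.sum_sum_type, ← Finset.sum_add_distrib,
      Fintype.sum_prod_type]
    refine Finset.sum_congr rfl fun u _ => Finset.sum_congr rfl fun v _ => ?_
    rw [smul_mul_smul_comm, C_mul_C hf h4 hψ h2 h1 h0 ha h3, smul_add, smul_smul, smul_smul]
    rfl

end Sp

end CL.WeilR
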