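/-
The Weil characters of the finite symplectic groups in odd characteristic and the degree gap
above them.
-/
import Mathlib
import Cfsg.Agent.KSG.WeilRank
import Cfsg.Agent.KSG.WeilCount
import Cfsg.Agent.KSG.OrthSpinor
import Cfsg.Agent.CHAR.Orth1

set_option autoImplicit false

namespace CL.WeilR

open Module CL.Witt CL.Witt.Form CL.LS Cfsg

variable {F : Type*} [Field F] [Fintype F] {V : Type*} [AddCommGroup V] [Module F V]
  [FiniteDimensional F V] {f : Form (FormType.alt F) V} {ψ : AddChar F ℂ}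

section Mod

variable {M : Type*} [AddCommGroup M] [Module ℂ M] {ρ : f.O →* Module.End ℂ M}

omit [Fintype F] [FiniteDimensional F V] in
theorem exists_orth_pair (h2 : (2 : F) ≠ 0) (b : V →ₗ[F] V →ₗ[F] F) (hs : ∀ x y, b x y = b y x)
    {e u : V} (h : b e u ^ 2 ≠ b e e * b u u) :
    ∃ x y, b x x ≠ 0 ∧ b y y ≠ 0 ∧ b x y = 0 := by
  have key : ∀ e u : V, b e u ^ 2 ≠ b e e * b u u → b e e ≠ 0 →
      ∃ x y, b x x ≠ 0 ∧ b y y ≠ 0 ∧ b x y = 0 := fun e u h he => by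
    refine ⟨e, b e e • u - b e u • e, he, fun h0 => h ?_, ?_⟩
    · simp only [map_sub, map_smul, LinearMap.sub_apply, LinearMap.smul_apply, smul_eq_mul,
        hs u e] at h0
      exact mul_left_cancel₀ he (by linear_combination -h0)
    · simp [mul_comm]
  by_cases he : b e e = 0
  · by_cases hu : b u u = 0
    · rw [he, zero_mul] at h
      have h3 : b e u ≠ 0 := fun h0 => h (by rw [h0]; ring)
      refine key (e + u) u ?_ ?_
      · simpa [he, hu, hs u e] using h3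
      · simp only [map_add, LinearMap.add_apply, he, hu, hs u e]
        intro h0
        exact h3 (mul_left_cancel₀ h2 (by linear_combination h0))
    · exact key u e (by rwa [hs u e, mul_comm]) hu
  · exact key e u h he

theorem bound_of_not_R1 [FiniteDimensional ℂ M] (hf : f.Nondeg) {n : ℕ} (hn : finrank F V = 2 * n)
    (h2 : (2 : F) ≠ 0) (hψ : ψ ≠ 1) (h : ¬ R1 ρ ψ) :
    (Nat.card F ^ n - 1) * (Nat.card F ^ n - Nat.card F) ≤
      finrank ℂ M * (2 * (Nat.card F + 1)) := by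
  simp only [R1, not_forall] at h
  obtain ⟨e, u, heu, l, m, k, hk, hE⟩ := h
  obtain ⟨W, hW₁, hW, hmax⟩ := exists_maximal_totSing (f := f) (W := Submodule.span F {e, u})
    ((f.totSing_span_singleton (f.alt_q u)).sup_span (f.alt_q e)
      ((f.mem_perp_span_singleton).mpr (f.B_eq_zero_symm heu)) |>.mono (by
        rw [Submodule.span_insert, sup_comm]))
  have hd : finrank F W = n := by
    obtain ⟨W', hW', hW''⟩ := exists_lagrangian hf hn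
    have h3 := hf.finrank_le_of_maximal_totSing hW hmax hW'
    have h4 := hW.two_mul_finrank_le hf
    omega
  subst hd
  have he : e ∈ W := hW₁ (Submodule.subset_span (by simp))
  have hu : u ∈ W := hW₁ (Submodule.subset_span (by simp))
  set E := P ρ ψ e l * P ρ ψ u m * pr ψ (ss ρ e u) k with hE'
  have hc : ∀ x ∈ W, ∀ y ∈ W, ∀ a, Commute (ρ (hh f x y a)) (P ρ ψ e l) ∧
      Commute (ρ (hh f x y a)) (P ρ ψ u m) ∧ Commute (ρ (hh f x y a)) (pr ψ (ss ρ e u) k) :=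
    fun x hx y hy a => ⟨commute_P (fun d => commute_hh_tt ρ (hW.2 x hx y hy) (hW.2 x hx e he)
      (hW.2 y hy e he) a d) _, commute_P (fun d => commute_hh_tt ρ (hW.2 x hx y hy)
      (hW.2 x hx u hu) (hW.2 y hy u hu) a d) _, commute_pr (fun d => (commute_hh
        (by simp [heu]) 0 (hh_fix (hW.2 x hx y hy) a (hW.2 x hx e he) (hW.2 y hy e he))
        (hh_fix (hW.2 x hx y hy) a (hW.2 x hx _ (W.smul_mem d hu))
          (hW.2 y hy _ (W.smul_mem d hu)))).map ρ) _⟩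
  have e₁ : ∀ c, tt ρ e c * E = ψ (c * l) • E := fun c => by
    rw [hE', ← mul_assoc, ← mul_assoc, P, mul_pr (tt_add ρ e), smul_mul_assoc, smul_mul_assoc]
  have e₂ : ∀ c, tt ρ u c * E = ψ (c * m) • E := fun c => by
    have := (hc u hu 0 W.zero_mem c).1
    rw [hh_tv, ← tt] at this
    rw [hE', ← mul_assoc, ← mul_assoc, this.eq, mul_assoc _ (tt ρ u c), P, P,
      mul_pr (tt_add ρ u), mul_smul_comm, smul_mul_assoc]
  have e₃ : ∀ c, ss ρ e u c * E = ψ (c * k) • E := fun c => by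
    obtain ⟨c₁, c₂, -⟩ := hc e he (c • u) (W.smul_mem c hu) 0
    rw [hE', ← mul_assoc, ss, (c₁.mul_right c₂).eq, mul_assoc, ← ss, mul_pr (ss_add ρ heu),
      mul_smul_comm]
  obtain ⟨μ, x, ⟨x', rfl⟩, hx0, hx⟩ := exists_mem_wsp (op_commute (hE := E_le_O) (ρ := ρ) hW)
    (N := LinearMap.range E) (by rwa [Ne, LinearMap.range_eq_bot]) (by
      rintro i _ ⟨v, rfl⟩
      obtain ⟨c₁, c₂, c₃⟩ := hc i.1 i.1.2 i.2.1 i.2.1.2 i.2.2
      exact ⟨_, (LinearMap.congr_fun ((c₁.mul_right c₂).mul_right c₃).eq v).symm⟩)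
  let Ω := {μ | wsp (op (E_le_O (f := f)) ρ W) μ ≠ ⊥}
  have : Finite Ω := finite_wsp (op_commute hW)
  have key : ∀ μ : Ω, ∃ b : W →ₗ[F] W →ₗ[F] F, (∀ u v, μ.1 (u, v, 0) = ψ (b u v)) ∧
      ∀ u v, b u v = b v u := fun μ => by
    obtain ⟨b, hb, hb'⟩ := exists_form hW hψ (fun _ => rfl) μ.2
    exact ⟨b, hb, fun u v => (hb' v u).trans (by
      rw [FormType.alt_ε, FormType.alt_σ, neg_one_mul, neg_neg]; rfl)⟩
  choose b hb hb' using key
  let μ₀ : Ω := ⟨μ, (Submodule.ne_bot_iff _).mpr ⟨_, hx, hx0⟩⟩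
  have hval : ∀ (y z : W) (t : F), (∀ c, ρ (hh f y (c • z) 0) * E = ψ (c * t) • E) →
      b μ₀ y z = t := fun y z t h => eq_of_addChar hψ fun c => by
    have h3 := mem_wsp.mp hx (y, c • z, 0)
    have h4 := LinearMap.congr_fun (h c) x'
    rw [← smul_eq_mul, ← map_smul, ← hb]
    exact smul_left_injective ℂ hx0 (h3.symm.trans h4)
  have hself : ∀ (y : V) (c : F), hh f y (c • y) 0 = f.tvO y (2 * c) := fun y c => by
    have := (ok (f := f) (u := y) (v := 0) (by simp) 0).ei_add_smul_u c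
    rw [← hh_tv]
    refine Subtype.ext ?_
    simp only [zero_add, FormType.alt_σ, FormType.alt_ε] at this
    change f.ei y (c • y) 0 = f.ei y 0 (2 * c)
    rw [this]
    congr 1
    ring
  have v₁ := hval ⟨e, he⟩ ⟨e, he⟩ (2 * l) fun c => by
    rw [hself, ← tt, e₁]; congr 2; ring
  have v₂ := hval ⟨u, hu⟩ ⟨u, hu⟩ (2 * m) fun c => by
    rw [hself, ← tt, e₂]; congr 2; ring
  have v₃ := hval ⟨e, he⟩ ⟨u, hu⟩ k e₃
  obtain ⟨y, z, hy, hz, hyz⟩ := exists_orth_pair h2 (b μ₀) (hb' μ₀) (e := ⟨e, he⟩) (u := ⟨u, hu⟩)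
    (by rw [v₁, v₂, v₃]; intro h; exact hk (by rw [h]; ring))
  refine (count_odd h2 b hb' hy hz fun u v l₁ l₂ h₁ h₂ h₃ h₄ => ?_).trans
    (Nat.mul_le_mul_right _ (card_le_finrank (op_commute hW) _ fun μ hμ => hμ))
  obtain ⟨h, hu, hv, hl₁, hl₂⟩ := exists_equiv_two h₁ h₂ h₃ h₄ (m₁ := (b μ₀ y y)⁻¹ • b μ₀ y)
    (m₂ := (b μ₀ z z)⁻¹ • b μ₀ z) (e := y) (f := z) (by simp [hy]) (by simp [hyz])
    (by simp [hb' μ₀ z y, hyz]) (by simp [hz])
  obtain ⟨g, hg, hg'⟩ := exists_extend hf hW h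
  let ω : Ω := ⟨_, wsp_comp_ne_bot μ₀.2 (injective_rep ρ _) (op_mul_conj hW (g := ⟨g, hg⟩) hg hg')⟩
  have hω : ∀ x y, b ω x y = b μ₀ (h x) (h y) := fun x y => eq_of_addChar hψ fun d => by
    rw [← smul_eq_mul, ← map_smul, ← hb, ← smul_eq_mul, ← map_smul, ← map_smul, ← hb]
    rfl
  exact ⟨ω, LinearMap.ext fun x => by simp [hω, hu, ← hl₁, hy],
    LinearMap.ext fun x => by simp [hω, hv, ← hl₂, hz]⟩

omit [Fintype F] [FiniteDimensional F V] in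
theorem nf_of_min (hmin : ∀ U : Submodule ℂ M, (∀ g, ∀ v ∈ U, ρ g v ∈ U) → U = ⊥ ∨ U = ⊤)
    (h1 : ∃ g, ρ g ≠ 1) : NF ρ := fun X hX => by
  rcases hmin (LinearMap.ker X) (fun g v hv => by
    rw [LinearMap.mem_ker, ← Module.End.mul_apply, hX, hv]) with h | h
  · obtain ⟨g, hg⟩ := h1
    exact absurd (LinearMap.ext fun v => LinearMap.ker_eq_bot.mp h (LinearMap.congr_fun (hX g) v))
      hg
  · exact LinearMap.ker_eq_top.mp h

theorem ty_or (hf : f.Nondeg) (h4 : 4 ≤ finrank F V) (h2 : (2 : F) ≠ 0) (hψ : ψ ≠ 1)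
    (hmin : ∀ U : Submodule ℂ M, (∀ g, ∀ v ∈ U, ρ g v ∈ U) → U = ⊥ ∨ U = ⊤) (h1 : R1 ρ ψ)
    (h0 : NF ρ) {ν : F} (hν : ¬ IsSquare ν) : Ty ρ ψ 1 ∨ Ty ρ ψ ν := by
  by_contra! h
  obtain ⟨h₁, h₂⟩ := h
  simp only [Ty, not_forall] at h₁ h₂
  obtain ⟨u, l, hl, hu⟩ := h₁
  obtain ⟨v, m, hm, hv⟩ := h₂
  have hν0 : ν ≠ 0 := by rintro rfl; exact hν IsSquare.zero
  have hm0 : m ≠ 0 := by rintro rfl; exact hm ⟨0, by simp⟩
  obtain ⟨r, hr⟩ : IsSquare m := by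
    by_contra h
    obtain ⟨c, -, hc⟩ := CL.Orth.exists_mul_self_mul_eq hν0 hm0
      ((CL.Orth.sqSign_eq_neg_one_iff.mpr hν).trans (CL.Orth.sqSign_eq_neg_one_iff.mpr h).symm)
    exact hm ⟨c, by rw [← hc]; ring⟩
  have hr0 : r ≠ 0 := by rintro rfl; exact hm0 (by simpa using hr)
  have hml : ¬ IsSquare (m * l) := fun ⟨s, hs⟩ => hl ⟨s / r, by
    field_simp; linear_combination hs - l * hr⟩
  obtain ⟨U, hU⟩ : ∃ U : Submodule ℂ M, U = ⨆ w, LinearMap.range (P ρ ψ w l) := ⟨_, rfl⟩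
  have hle : ∀ w, LinearMap.range (P ρ ψ w l) ≤ U := fun w =>
    hU ▸ le_iSup (fun w => LinearMap.range (P ρ ψ w l)) w
  have hge : ∀ N : Submodule ℂ M, (∀ w x, P ρ ψ w l x ∈ N) → U ≤ N := fun N h =>
    hU.le.trans (iSup_le fun w => by rintro _ ⟨x, rfl⟩; exact h w x)
  have hinv : ∀ g, U ≤ U.comap (ρ g) := fun g => hge _ fun w x =>
    hle (g.1 w) ⟨ρ g x, (LinearMap.congr_fun (mul_P (ρ := ρ) (ψ := ψ) g w l) x).symm⟩
  rcases hmin U (fun g v hv => hinv g hv) with h | h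
  · exact hu (LinearMap.range_eq_bot.mp (eq_bot_iff.mpr ((hle u).trans h.le)))
  · exact hv (LinearMap.ker_eq_top.mp (eq_top_iff.mpr (h.ge.trans (hge _ fun w x =>
      LinearMap.congr_fun (P_mul_P_of_not_isSquare hf h4 hψ h1 h0 h2 v w hml) x))))

end Mod

section Char

variable {G : Type*} [Group G] (e : G ≃* f.O) (ψ)

/-- The irreducible characters of rank one and of type `a`. -/
def Cls (a : F) : Set (IrrCharacter G) := {χ | ∃ (k : ℕ) (ρ : f.O →* Module.End ℂ (Fin k → ℂ)),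
  (∀ g, χ.1 g = LinearMap.trace ℂ _ (ρ (e g))) ∧ (∃ g, ρ g ≠ 1) ∧ R1 ρ ψ ∧ NF ρ ∧ Ty ρ ψ a}

/-- The type can be read off from the character. -/
def TyC (χ : G → ℂ) (a : F) : Prop := ∀ u l, (¬ ∃ x, l = a * x ^ 2) →
  ∑ c, ψ (-(c * l)) * χ (e.symm (f.tvO u c)) = 0

variable {ψ e}

theorem card_cls_le (hf : f.Nondeg) (h4 : 4 ≤ finrank F V) (h2 : (2 : F) ≠ 0) (hψ : ψ ≠ 1)
    {a : F} (ha : a ≠ 0) : Nat.card (Cls ψ e a) ≤ 2 := by
  classical
  have : Finite V := Module.finite_of_finite F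
  let := Fintype.ofFinite V
  have : Finite (V ≃ₗ[F] V) := Finite.of_injective _ DFunLike.coe_injective
  have : Finite G := Finite.of_equiv _ e.symm.toEquiv
  choose c hc using exists_coeff hf h4 hψ h2 ha
  have : Nontrivial V := Module.nontrivial_of_finrank_pos (R := F) (by omega)
  obtain ⟨v₀, hv₀⟩ := exists_ne (0 : V)
  let α : G → ℂ := fun g => c (e g) 0
  let β : G → ℂ := fun g => ∑ v ∈ Finset.univ.erase 0, c (e g) v
  have h5 := linearIndependent_le_span' (fun χ : Cls ψ e a => (χ.1 : G → ℂ))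
    (CL.Char.linearIndependent_irr.comp _ Subtype.val_injective) {α, β} (by
      rintro _ ⟨⟨χ, k, ρ, hχ, -, h1, h0, h3⟩, rfl⟩
      refine Submodule.mem_span_pair.mpr ⟨LinearMap.trace ℂ _ (C ρ ψ a 0),
        LinearMap.trace ℂ _ (C ρ ψ a v₀), funext fun g => ?_⟩
      simp only [Pi.add_apply, Pi.smul_apply, smul_eq_mul, α, β]
      rw [hχ, hc (e g) _ ρ h1 h0 h3, map_sum, ← Finset.add_sum_erase _ _ (Finset.mem_univ 0),
        map_smul, smul_eq_mul, mul_comm, Finset.mul_sum]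
      congr 1
      refine Finset.sum_congr rfl fun v hv => ?_
      obtain ⟨x, hx, rfl⟩ := hf.witt_vector hv₀ (Finset.ne_of_mem_erase hv) (by simp [alt_q])
      rw [map_smul, smul_eq_mul, mul_comm, trace_eq_of_semiconj ρ (mul_C ⟨x, hx⟩ a v₀)])
  have h6 : Fintype.card ({α, β} : Set (G → ℂ)) ≤ 2 := by
    rw [← Set.toFinset_card, Set.toFinset_insert, Set.toFinset_singleton]
    exact Finset.card_le_two
  let := Fintype.ofFinite (Cls ψ e a)
  rw [Cardinal.mk_fintype, Nat.cast_le] at h5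
  rw [Nat.card_eq_fintype_card]
  exact h5.trans h6

omit [FiniteDimensional F V] in
theorem sum_eq_trace {k : ℕ} {ρ : f.O →* Module.End ℂ (Fin k → ℂ)} {χ : G → ℂ}
    (hχ : ∀ g, χ g = LinearMap.trace ℂ _ (ρ (e g))) (u : V) (l : F) :
    ∑ c, ψ (-(c * l)) * χ (e.symm (f.tvO u c)) =
      Fintype.card F * LinearMap.trace ℂ _ (P ρ ψ u l) := by
  rw [P, pr, map_smul, smul_eq_mul, mul_inv_cancel_left₀ card_ne, map_sum]
  exact Finset.sum_congr rfl fun c _ => by rw [hχ, e.apply_symm_apply, map_smul, smul_eq_mul, tt]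

omit [FiniteDimensional F V] in
theorem tyC_of_mem {a : F} {χ : IrrCharacter G} (h : χ ∈ Cls ψ e a) : TyC ψ e χ.1 a := by
  obtain ⟨k, ρ, hχ, -, -, -, h3⟩ := h
  intro u l hl
  rw [sum_eq_trace hχ, h3 u l hl, map_zero, mul_zero]

theorem not_tyC (hf : f.Nondeg) (hψ : ψ ≠ 1) {a b : F} (hab : ¬ IsSquare (a * b))
    {χ : IrrCharacter G} (h : χ ∈ Cls ψ e a) : ¬ TyC ψ e χ.1 b := fun h' => by
  classical
  obtain ⟨k, ρ, hχ, ⟨g, hg⟩, -, -, h3⟩ := h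
  have key : ∀ u l, l ≠ 0 → P ρ ψ u l = 0 := fun u l hl => by
    by_cases h4 : ∃ x, l = a * x ^ 2
    · obtain ⟨x, hx⟩ := h4
      have hx0 : x ≠ 0 := by rintro rfl; exact hl (by simpa using hx)
      have h5 := h' u l fun ⟨y, hy⟩ => hab ⟨b * y / x, by
        field_simp; linear_combination b * (hy - hx)⟩
      have h6 : P ρ ψ u l * P ρ ψ u l = P ρ ψ u l := by
        rw [P, pr_mul_pr hψ (tt_add ρ u), if_pos rfl]
      rw [sum_eq_trace hχ, mul_eq_zero, trace_idem h6] at h5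
      exact LinearMap.range_eq_bot.mp (Submodule.finrank_eq_zero.mp
        (Nat.cast_eq_zero.mp (h5.resolve_left card_ne)))
    · exact h3 u l h4
  have h7 : ∀ u c, tt ρ u c = 1 := fun u c => by
    rw [eq_sum_pr hψ (tt_zero ρ u) (tt_add ρ u), ← sum_pr hψ (tt_zero ρ u)]
    refine Finset.sum_congr rfl fun l _ => ?_
    by_cases hl : l = 0
    · simp [hl]
    · rw [← P, key u l hl, smul_zero]
  exact hg (congrArg Units.val ((hf.eq_top_of_tvO (N := ρ.toHomUnits.ker)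
    fun v c => Units.ext (h7 v c)).ge (Subgroup.mem_top g)))

theorem mem_cls_or (hf : f.Nondeg) {n : ℕ} (hn : finrank F V = 2 * n) (h4 : 2 ≤ n)
    (h2 : (2 : F) ≠ 0) (hψ : ψ ≠ 1) {ν : F} (hν : ¬ IsSquare ν) (χ : IrrCharacter G) {k : ℕ}
    (hk : χ.1 1 = k) (hk1 : k ≠ 1) : χ ∈ Cls ψ e 1 ∨ χ ∈ Cls ψ e ν ∨
      (Nat.card F ^ n - 1) * (Nat.card F ^ n - Nat.card F) ≤ k * (2 * (Nat.card F + 1)) := by
  obtain ⟨χ, k', ρ, hρ, rfl⟩ := χ
  obtain rfl : k' = k := by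
    simpa [Representation.character] using hk
  have hk0 : k' ≠ 0 := by
    rintro rfl
    exact bot_ne_top (α := Subrepresentation ρ)
      (Subrepresentation.toSubmodule_injective (Subsingleton.elim _ _))
  obtain ⟨g, hg⟩ := exists_ne_one_of_irreducible ρ hρ (by rw [Module.finrank_fin_fun]; omega)
  let ρ' : f.O →* Module.End ℂ (Fin k' → ℂ) := ρ.comp e.symm.toMonoidHom
  have hρ' : ∀ g, ρ' (e g) = ρ g := fun g => by simp [ρ']
  have h1 : ∃ g, ρ' g ≠ 1 := ⟨e g, by rwa [hρ']⟩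
  have hmin : ∀ U : Submodule ℂ (Fin k' → ℂ), (∀ g, ∀ v ∈ U, ρ' g v ∈ U) → U = ⊥ ∨ U = ⊤ :=
    fun U hU => (hρ.eq_bot_or_eq_top ⟨U, fun g v hv => hρ' g ▸ hU _ v hv⟩).imp
      (congrArg Subrepresentation.toSubmodule) (congrArg Subrepresentation.toSubmodule)
  have h0 := nf_of_min hmin h1
  by_cases hR : R1 ρ' ψ
  · rcases ty_or hf (by omega) h2 hψ hmin hR h0 hν with h | h
    · exact Or.inl ⟨k', ρ', fun g => by rw [hρ']; rfl, h1, hR, h0, h⟩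
    · exact Or.inr (Or.inl ⟨k', ρ', fun g => by rw [hρ']; rfl, h1, hR, h0, h⟩)
  · have := bound_of_not_R1 hf hn h2 hψ hR
    rw [Module.finrank_fin_fun] at this
    exact Or.inr (Or.inr this)

omit [FiniteDimensional F V] in
theorem exists_twist {ν : F} (hν : ν ≠ 0) (δ : V ≃ₗ[F] V)
    (hδ : ∀ x y, f.B (δ x) (δ y) = ν * f.B x y) : ∃ σ : G ≃* G, ∀ χ a, TyC ψ e χ a →
      TyC ψ e (fun g => χ (σ g)) (a * ν) := by
  have hδ' : ∀ x y, f.B (δ⁻¹ x) (δ⁻¹ y) = ν⁻¹ * f.B x y := fun x y => by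
    rw [eq_inv_mul_iff_mul_eq₀ hν, ← hδ]
    simp
  have key : ∀ (δ : V ≃ₗ[F] V) (c : F), (∀ x y, f.B (δ x) (δ y) = c * f.B x y) →
      (∀ x y, c * f.B (δ⁻¹ x) (δ⁻¹ y) = f.B x y) → ∀ g : f.O, δ * g.1 * δ⁻¹ ∈ f.O :=
    fun δ c h h' g => (f.alt_isIsom_iff f _).mpr fun x y => by
      simp only [LinearEquiv.mul_apply]
      rw [h, f.O_B, h']
  let τ : f.O ≃* f.O :=
    { toFun := fun g => ⟨δ * g.1 * δ⁻¹, key δ ν hδ (fun x y => by
        rw [hδ', mul_inv_cancel_left₀ hν]) g⟩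
      invFun := fun g => ⟨δ⁻¹ * g.1 * δ⁻¹⁻¹, key δ⁻¹ ν⁻¹ hδ' (fun x y => by
        rw [inv_inv, hδ, inv_mul_cancel_left₀ hν]) g⟩
      left_inv := fun g => Subtype.ext (by group)
      right_inv := fun g => Subtype.ext (by group)
      map_mul' := fun g h => Subtype.ext (by simp only [Subgroup.coe_mul]; group) }
  have hτ : ∀ u c, τ (f.tvO u (ν * c)) = f.tvO (δ u) c := fun u c => Subtype.ext (by
    ext x
    change δ (f.tv u (ν * c) (δ⁻¹ x)) = f.tv (δ u) c x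
    rw [Form.tv_apply, Form.tv_apply, map_add, map_smul, ← LinearEquiv.mul_apply, mul_inv_cancel,
      mul_comm ν, mul_assoc, ← hδ, ← LinearEquiv.mul_apply δ δ⁻¹, mul_inv_cancel]
    rfl)
  refine ⟨e.trans (τ.trans e.symm), fun χ a h u l hl => ?_⟩
  rw [← h (δ u) (ν * l) fun ⟨x, hx⟩ => hl ⟨x / ν, by field_simp; linear_combination hx⟩]
  refine (Fintype.sum_equiv (Equiv.mulLeft₀ ν hν) _ _ fun c => ?_).symm
  simp only [Equiv.mulLeft₀_apply, MulEquiv.trans_apply, e.apply_symm_apply, hτ]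
  congr 3
  ring

/-- Counting the characters of a small degree. -/
theorem card_eq_two (hf : f.Nondeg) (h4 : 4 ≤ finrank F V) (h2 : (2 : F) ≠ 0) (hψ : ψ ≠ 1)
    {ν : F} (hν : ¬ IsSquare ν) (δ : V ≃ₗ[F] V) (hδ : ∀ x y, f.B (δ x) (δ y) = ν * f.B x y)
    {d d' : ℂ} (hd : d ≠ d') (h : ∀ χ : IrrCharacter G, χ.1 1 = d ∨ χ.1 1 = d' →
      χ ∈ Cls ψ e 1 ∨ χ ∈ Cls ψ e ν) (h₁ : ∃ χ : IrrCharacter G, χ.1 1 = d)
    (h₂ : ∃ χ : IrrCharacter G, χ.1 1 = d') :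
    Nat.card {χ : IrrCharacter G // χ.1 1 = d} = 2 ∧ ∀ χ : IrrCharacter G,
      χ ∈ Cls ψ e 1 ∨ χ ∈ Cls ψ e ν → χ.1 1 = d ∨ χ.1 1 = d' := by
  have hν0 : ν ≠ 0 := by rintro rfl; exact hν IsSquare.zero
  have : Finite V := Module.finite_of_finite F
  have : Finite (V ≃ₗ[F] V) := Finite.of_injective _ DFunLike.coe_injective
  have : Finite G := Finite.of_equiv _ e.symm.toEquiv
  obtain ⟨σ, hσ⟩ := exists_twist (ψ := ψ) (e := e) hν0 δ hδ
  have key : ∀ c, c = d ∨ c = d' → (∃ χ : IrrCharacter G, χ.1 1 = c) →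
      (∃ χ ∈ Cls ψ e 1, χ.1 1 = c) ∧ ∃ χ ∈ Cls ψ e ν, χ.1 1 = c := fun c hc ⟨χ, hχ⟩ => by
    let χ' : IrrCharacter G := ⟨_, χ.2.comp_mulEquiv σ⟩
    have hχ' : χ'.1 1 = c := by simpa [χ'] using hχ
    rcases h χ (hχ ▸ hc) with h3 | h3
    · refine ⟨⟨χ, h3, hχ⟩, χ', (h χ' (hχ' ▸ hc)).resolve_left fun h5 => ?_, hχ'⟩
      exact not_tyC hf hψ (by simpa using hν) h5 (hσ _ _ (tyC_of_mem h3))
    · refine ⟨⟨χ', (h χ' (hχ' ▸ hc)).resolve_right fun h5 => ?_, hχ'⟩, χ, h3, hχ⟩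
      exact not_tyC hf hψ (fun ⟨r, hr⟩ => hν ⟨r / ν, by field_simp; linear_combination hr⟩) h5
        (hσ _ _ (tyC_of_mem h3))
  obtain ⟨⟨χ₁, a₁, b₁⟩, χ₂, a₂, b₂⟩ := key d (Or.inl rfl) h₁
  obtain ⟨⟨χ₃, a₃, b₃⟩, χ₄, a₄, b₄⟩ := key d' (Or.inr rfl) h₂
  have uniq : ∀ a, a ≠ 0 → ∀ x ∈ Cls ψ e a, ∀ y ∈ Cls ψ e a, ∀ z ∈ Cls ψ e a,
      x.1 1 ≠ d' → y.1 1 = d → z.1 1 = d' → x = y := fun a ha x hx y hy z hz e₁ e₂ e₃ => by
    by_contra hxy
    have h5 := card_cls_le (e := e) hf h4 h2 hψ ha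
    have h6 : ({x, y, z} : Set (IrrCharacter G)).ncard = 3 := Set.ncard_eq_three.mpr
      ⟨x, y, z, hxy, fun h => e₁ (by rw [h, e₃]), fun h => hd (by rw [← e₂, h, e₃]), rfl⟩
    have h7 := Set.ncard_le_ncard (s := {x, y, z}) (t := Cls ψ e a) (by
      rintro w (rfl | rfl | rfl) <;> assumption)
    rw [Nat.card_coe_set_eq] at h5
    omega
  rw [Nat.card_eq_two_iff]
  refine ⟨⟨⟨χ₁, b₁⟩, ⟨χ₂, b₂⟩, fun h5 => ?_, Set.eq_univ_of_forall fun x => ?_⟩,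
    fun χ hχ => or_iff_not_imp_right.mpr fun h6 => ?_⟩
  · obtain rfl : χ₁ = χ₂ := congrArg Subtype.val h5
    exact not_tyC hf hψ (by simpa using hν) a₁ (tyC_of_mem a₂)
  · rcases h x.1 (Or.inl x.2) with h5 | h5
    · exact Or.inl (Subtype.ext (uniq 1 one_ne_zero _ h5 _ a₁ _ a₃ (x.2.trans_ne hd) b₁ b₃))
    · exact Or.inr (Subtype.ext (uniq ν hν0 _ h5 _ a₂ _ a₄ (x.2.trans_ne hd) b₂ b₄))
  · rcases hχ with h5 | h5
    · exact uniq 1 one_ne_zero _ h5 _ a₁ _ a₃ h6 b₁ b₃ ▸ b₁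
    · exact uniq ν hν0 _ h5 _ a₂ _ a₄ h6 b₂ b₄ ▸ b₂

end Char

end CL.WeilR
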